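import Cfsg.Statements.S3087
import Mathlib.GroupTheory.Index
-- import your own Cfsg.Agent.* helpers here

set_option autoImplicit false
open Cfsg

namespace Cfsg.Agent.S3087

theorem card_sup_mul_card_inf {V : Type*} [AddCommGroup V] (X Y : AddSubgroup V) :
    Nat.card ↥(X ⊔ Y) * Nat.card ↥(X ⊓ Y) = Nat.card X * Nat.card Y := by
  have h1 : Nat.card Y * Y.relIndex (X ⊔ Y) = Nat.card ↥(X ⊔ Y) := by
    have := AddSubgroup.relIndex_mul_relIndex ⊥ Y (X ⊔ Y) bot_le le_sup_right
    simpa [AddSubgroup.relIndex_bot_left] using this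
  have h2 : Nat.card ↥(X ⊓ Y) * (X ⊓ Y).relIndex X = Nat.card X := by
    have := AddSubgroup.relIndex_mul_relIndex ⊥ (X ⊓ Y) X bot_le inf_le_left
    simpa [AddSubgroup.relIndex_bot_left] using this
  rw [AddSubgroup.relIndex_sup_right] at h1
  rw [AddSubgroup.inf_relIndex_left] at h2
  rw [← h1, ← h2]; ring

/-- Fixed points of a subgroup, as an additive subgroup. -/
def fixPts {G V : Type*} [Group G] [AddCommGroup V] {p : ℕ} [Module (ZMod p) V]
    (ρ : Representation (ZMod p) G V) (H : Subgroup G) : AddSubgroup V where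
  carrier := {v | ∀ h ∈ H, ρ h v = v}
  zero_mem' := by intro h _; simp
  add_mem' := by
    intro a b ha hb h hh
    simp [ha h hh, hb h hh]
  neg_mem' := by
    intro a ha h hh
    simp [ha h hh]

/-- Let p be a prime, G a finite group acting linearly on a finite vector space V over the field with p elements, W a G-invariant subspace, and A a subgroup of G with |A|·|C_V(A)| ≥ |B|·|C_V(B)| for every subgroup B of A. Then |A|·|C_W(A)| ≥ |B|·|C_W(B)| for every subgroup B of A that contains C_A(W); that is, the image of A in the group induced on W satisfies the same maximality condition. -/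
theorem result {G V : Type*} [Group G] [Finite G] [AddCommGroup V] [Finite V] (p : ℕ) [Fact p.Prime] [Module (ZMod p) V]
    (ρ : Representation (ZMod p) G V) (W : Submodule (ZMod p) V) (hW : ∀ g : G, ∀ w ∈ W, ρ g w ∈ W)
    (A : Subgroup G)
    (hP : ∀ B : Subgroup G, B ≤ A →
      Nat.card ↥B * Nat.card {v : V // ∀ b ∈ B, ρ b v = v} ≤ Nat.card ↥A * Nat.card {v : V // ∀ a ∈ A, ρ a v = v})
    (B : Subgroup G) (hBA : B ≤ A) (hCB : ∀ a ∈ A, (∀ w ∈ W, ρ a w = w) → a ∈ B) :
    Nat.card ↥B * Nat.card {w : W // ∀ b ∈ B, ρ b w = w} ≤ Nat.card ↥A * Nat.card {w : W // ∀ a ∈ A, ρ a w = w} := by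
  classical
  -- cardinalities in terms of additive subgroups
  have hcardV : ∀ H : Subgroup G, Nat.card {v : V // ∀ b ∈ H, ρ b v = v} = Nat.card (fixPts ρ H) :=
    fun H => rfl
  have hcardW : ∀ H : Subgroup G, Nat.card {w : W // ∀ b ∈ H, ρ b w = w}
      = Nat.card ↥(fixPts ρ H ⊓ W.toAddSubgroup) := by
    intro H
    refine Nat.card_congr ⟨fun w => ⟨w.1.1, ⟨fun h hh => w.2 h hh, w.1.2⟩⟩,
      fun v => ⟨⟨v.1, v.2.2⟩, fun h hh => v.2.1 h hh⟩, fun w => rfl, fun v => rfl⟩
  set X := fixPts ρ A with hX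
  set Y := fixPts ρ B ⊓ W.toAddSubgroup with hY
  -- the subgroup B' = C_A(Y)
  let B' : Subgroup G :=
    { carrier := {a | a ∈ A ∧ ∀ y ∈ Y, ρ a y = y}
      one_mem' := ⟨A.one_mem, fun y _ => by simp⟩
      mul_mem' := by
        rintro a b ⟨ha, ha'⟩ ⟨hb, hb'⟩
        refine ⟨A.mul_mem ha hb, fun y hy => ?_⟩
        rw [map_mul, Module.End.mul_apply, hb' y hy, ha' y hy]
      inv_mem' := by
        rintro a ⟨ha, ha'⟩
        refine ⟨A.inv_mem ha, fun y hy => ?_⟩
        have h1 : ρ a⁻¹ (ρ a y) = y := by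
          rw [← Module.End.mul_apply, ← map_mul, inv_mul_cancel, map_one, Module.End.one_apply]
        rw [ha' y hy] at h1
        exact h1 }
  have hB'A : B' ≤ A := fun a ha => ha.1
  have hBB' : B ≤ B' := fun b hb => ⟨hBA hb, fun y hy => hy.1 b hb⟩
  have h1 := hP B' hB'A
  rw [hcardV, hcardV] at h1
  have h2 : Nat.card B ≤ Nat.card B' := Subgroup.card_le_of_le hBB'
  have h3 : X ⊔ Y ≤ fixPts ρ B' := by
    refine sup_le ?_ ?_
    · intro v hv b hb
      exact hv b hb.1
    · intro v hv b hb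
      exact hb.2 v hv
  have h3' : Nat.card ↥(X ⊔ Y) ≤ Nat.card (fixPts ρ B') := AddSubgroup.card_le_of_le h3
  have h4 := card_sup_mul_card_inf X Y
  have h5 : X ⊓ Y = fixPts ρ A ⊓ W.toAddSubgroup := by
    apply le_antisymm
    · intro v hv
      exact ⟨hv.1, hv.2.2⟩
    · intro v hv
      exact ⟨hv.1, fun b hb => hv.1 b (hBA hb), hv.2⟩
  rw [hcardW, hcardW, ← hY, ← h5]
  have hXpos : 0 < Nat.card X := Nat.card_pos
  have key : Nat.card B * Nat.card ↥(X ⊔ Y) ≤ Nat.card A * Nat.card X :=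
    le_trans (Nat.mul_le_mul h2 h3') h1
  have : Nat.card X * (Nat.card B * Nat.card Y) ≤ Nat.card X * (Nat.card A * Nat.card ↥(X ⊓ Y)) := by
    calc Nat.card X * (Nat.card B * Nat.card Y) = Nat.card B * (Nat.card X * Nat.card Y) := by ring
      _ = Nat.card B * (Nat.card ↥(X ⊔ Y) * Nat.card ↥(X ⊓ Y)) := by rw [h4]
      _ = (Nat.card B * Nat.card ↥(X ⊔ Y)) * Nat.card ↥(X ⊓ Y) := by ring
      _ ≤ (Nat.card A * Nat.card X) * Nat.card ↥(X ⊓ Y) := Nat.mul_le_mul_right _ key
      _ = Nat.card X * (Nat.card A * Nat.card ↥(X ⊓ Y)) := by ring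
  exact Nat.le_of_mul_le_mul_left this hXpos

end Cfsg.Agent.S3087
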