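import Cfsg.Statements.S4669
import Cfsg.Agent.Lib.Helper20.PCBlock3
import Cfsg.Agent.Lib.Helper21.Quot
open Cfsg.Agent.Lib.Helper20 Cfsg.Agent.Lib.Helper81 Cfsg.Agent.Lib.Helper21

set_option autoImplicit false
open Cfsg

namespace Cfsg.Agent.S4669

/-- Fix a prime p and a maximal ideal M of the algebraic integers containing p. If the p-block B of the finite group G has a defect group P contained in the centre of G, then B has p-regular rank one (a single irreducible Brauer character). -/
theorem result {G : Type*} [Group G] [Fintype G] (p : ℕ) [Fact p.Prime] (M : Ideal Cfsg.AlgInt) (hM : Cfsg.IsPModular p M) (B : Set (Cfsg.IrrCharacter G)) (hB : Cfsg.IsPBlock M B) (P : Subgroup G) (hD : Cfsg.IsDefectGroup p M B P) (hPZ : P ≤ Subgroup.center G) : Cfsg.blockRank p B = 1 := by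
  classical
  haveI : Fintype P := Fintype.ofFinite P
  have hPg : IsPGroup p P := by
    rw [IsPGroup.iff_card]
    exact ⟨_, card_defectGroup hM B hB P hD⟩
  have hG : P ⊔ Subgroup.centralizer (P : Set G) = ⊤ := by
    have : Subgroup.centralizer (P : Set G) = ⊤ := by
      rw [Subgroup.centralizer_eq_top_iff_subset]
      exact hPZ
    rw [this, sup_top_eq]
  haveI := normal_of_sup_centralizer hG
  obtain ⟨χ', θ, hθ, e⟩ := exists_inflation_mem_block hM P hPg B hB
  have hker : ∀ x ∈ P, (θ : G → ℂ) x = (θ : G → ℂ) 1 := by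
    intro x hx
    rw [e]
    show (χ' : G ⧸ P → ℂ) (x : G ⧸ P) = (χ' : G ⧸ P → ℂ) ((1 : G) : G ⧸ P)
    rw [(QuotientGroup.eq_one_iff x).2 hx]
    rfl
  have h10 := Cfsg.Agent.Lib.Helper81.irr_one_ne_zero θ.2
  have hspan : Submodule.span ℂ ((fun χ : Cfsg.IrrCharacter G => Cfsg.pRegularPart p (χ : G → ℂ)) '' B)
      = Submodule.span ℂ {Cfsg.pRegularPart p (θ : G → ℂ)} := by
    apply le_antisymm
    · rw [Submodule.span_le]
      rintro _ ⟨χ, hχ, rfl⟩
      rw [SetLike.mem_coe, Submodule.mem_span_singleton]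
      refine ⟨(χ : G → ℂ) 1 / (θ : G → ℂ) 1, ?_⟩
      funext y
      show ((χ : G → ℂ) 1 / (θ : G → ℂ) 1) * Cfsg.pRegularPart p (θ : G → ℂ) y
        = Cfsg.pRegularPart p (χ : G → ℂ) y
      rw [pRegularPart_eq, pRegularPart_eq]
      simp only []
      by_cases hy : Cfsg.IsPRegular p y
      · rw [if_pos hy, if_pos hy]
        have := regular_mul_of_canonical hM hPg hG hB hD hθ hker hχ hy
        field_simp
        rw [← this, mul_comm]
      · rw [if_neg hy, if_neg hy, mul_zero]
    · apply Submodule.span_mono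
      rintro _ rfl
      exact ⟨θ, hθ, rfl⟩
  have hne : Cfsg.pRegularPart p (θ : G → ℂ) ≠ 0 := by
    intro h0
    have := congrFun h0 1
    rw [pRegularPart_eq] at this
    simp only [Pi.zero_apply] at this
    rw [if_pos isPRegular_one] at this
    exact h10 this
  unfold Cfsg.blockRank
  rw [hspan]
  exact finrank_span_singleton hne

end Cfsg.Agent.S4669
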