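import Cfsg.Statements.S4733
import Cfsg.Agent.Lib.Helper81.RankSum

set_option autoImplicit false
open Cfsg Cfsg.Agent.Lib.Helper81 Cfsg.Agent.Lib.Helper20

namespace Cfsg.Agent.S4733

/-- Let p be a prime, M a maximal ideal of the algebraic integers containing p, and B a p-block of the finite group G with k irreducible characters and p-regular rank l (the number of irreducible Brauer characters). Then l ≤ k, and the following are equivalent: B has defect 0; k = l = 1; k = l. -/
theorem result {G : Type*} [Group G] [Finite G] (p : ℕ) [Fact p.Prime] (M : Ideal Cfsg.AlgInt) (hM : Cfsg.IsPModular p M) (B : Set (Cfsg.IrrCharacter G)) (hB : Cfsg.IsPBlock M B) : Cfsg.blockRank p B ≤ Nat.card B ∧ (Cfsg.blockDefect p B = 0 ↔ (Nat.card B = 1 ∧ Cfsg.blockRank p B = 1)) ∧ (Cfsg.blockDefect p B = 0 ↔ Nat.card B = Cfsg.blockRank p B) := by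
  classical
  have : Fintype G := Fintype.ofFinite G
  have : Finite (Cfsg.IrrCharacter G) := finite_irrCharacter
  have : Fintype (Cfsg.IrrCharacter G) := Fintype.ofFinite _
  have hle : Cfsg.blockRank p B ≤ Nat.card B := by
    unfold Cfsg.blockRank
    have h1 := finrank_span_le_card (R := ℂ)
      ((fun χ : Cfsg.IrrCharacter G => Cfsg.pRegularPart p (χ : G → ℂ)) '' B)
    refine h1.trans ?_
    rw [Set.toFinset_card, ← Nat.card_eq_fintype_card]
    exact Nat.card_image_le (Set.toFinite B)
  have hsum := pow_mul_blockRank hM B hB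
  have hcard : (Nat.card B : ℤ) = ∑ χ : Cfsg.IrrCharacter G, (if χ ∈ B then 1 else 0) := by
    rw [Nat.card_eq_fintype_card, Fintype.card_subtype, Finset.card_filter]
    push_cast
    rfl
  have hA : Cfsg.blockDefect p B = 0 → Nat.card B = 1 ∧ Cfsg.blockRank p B = 1 := by
    intro hd
    obtain ⟨χ, hχ⟩ := isPBlock_nonempty hM hB
    have hBeq : B = {χ} := by
      ext ψ
      simp only [Set.mem_singleton_iff]
      exact ⟨fun hψ => eq_of_defect_zero hM hB hd hψ hχ, fun h => h ▸ hχ⟩
    have hc : Nat.card B = 1 := by rw [hBeq]; simp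
    refine ⟨hc, ?_⟩
    rw [hd, pow_zero, one_mul] at hsum
    have h2 : ∑ χ : Cfsg.IrrCharacter G, (if χ ∈ B then kC p B χ χ else 0)
        = ∑ χ : Cfsg.IrrCharacter G, (if χ ∈ B then 1 else 0) := by
      apply Finset.sum_congr rfl; intro ψ _
      split_ifs with hψ
      · exact kC_self_of_defect_zero hM hB hd hψ
      · rfl
    rw [h2, ← hcard, hc] at hsum
    exact_mod_cast hsum
  have hC : Nat.card B = Cfsg.blockRank p B → Cfsg.blockDefect p B = 0 := by
    intro h
    obtain ⟨χ, hχ, hmin⟩ := exists_minDeg (p := p) (isPBlock_nonempty hM hB)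
    have h0 : Cfsg.blockHeight p B (χ : G → ℂ) = 0 := (blockHeight_eq_zero_iff hχ).2 hmin
    apply defect_zero_of_kC_self hM hB hχ h0
    rw [← h, hcard, Finset.mul_sum] at hsum
    have h3 : ∑ ψ : Cfsg.IrrCharacter G,
        ((p : ℤ) ^ Cfsg.blockDefect p B * (if ψ ∈ B then 1 else 0)
          - (if ψ ∈ B then kC p B ψ ψ else 0)) = 0 := by
      rw [Finset.sum_sub_distrib, hsum, sub_self]
    have h4 := (Finset.sum_eq_zero_iff_of_nonneg (fun ψ _ => by
      split_ifs with hψ
      · have := (kC_self_le hM hB hψ).2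
        linarith
      · simp)).1 h3 χ (Finset.mem_univ _)
    rw [if_pos hχ, if_pos hχ] at h4
    linarith
  exact ⟨hle, ⟨hA, fun h => hC (by rw [h.1, h.2])⟩, ⟨fun h => by rw [(hA h).1, (hA h).2], hC⟩⟩

end Cfsg.Agent.S4733
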