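import Cfsg.Statements.S0888
import Cfsg.Agent.Lib.Helper79.HatGroup
import Cfsg.Agent.S0864

set_option autoImplicit false
open Cfsg

namespace Cfsg.Agent.S0888

/-- Let N be a normal subgroup of the finite group G and ϑ an irreducible character of N invariant under conjugation by G. Suppose that for every prime p there are a subgroup P containing N, of index prime to p and with the index of N in P a power of p, and an irreducible character of P restricting to ϑ. Then ϑ is the restriction of an irreducible character of G. -/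
theorem result {G : Type*} [Group G] [Finite G] (N : Subgroup G) [hN : N.Normal] (ϑ : N → ℂ) (hϑ : Cfsg.IsIrrCharacter N ϑ) (hinv : ∀ (g : G) (n : N), ϑ ⟨g * n * g⁻¹, hN.conj_mem (n : G) n.2 g⟩ = ϑ n) (hsyl : ∀ p : ℕ, p.Prime → ∃ (P : Subgroup G) (hNP : N ≤ P) (η : P → ℂ), Nat.Coprime P.index p ∧ (∃ k : ℕ, N.relIndex P = p ^ k) ∧ Cfsg.IsIrrCharacter P η ∧ ∀ n : N, η ⟨(n : G), hNP n.2⟩ = ϑ n) : ∃ χ : G → ℂ, Cfsg.IsIrrCharacter G χ ∧ ∀ n : N, χ n = ϑ n := by
  obtain ⟨d, ρ, hρ, rfl⟩ := hϑ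
  have hinv' : ∀ (g : G) (n : N), ρ.character (MulAut.conjNormal g n) = ρ.character n :=
    fun g n => hinv g n
  let m : G →* ℂˣ := 1
  have hfin : Finite (Lib.Helper19.hatG N ρ m) := Lib.Helper79.finite_hatG N ρ m hρ
  obtain ⟨lam, hlam, hlaminv⟩ := Lib.Helper79.exists_lamHom N ρ m hρ
  have hsurj := Lib.Helper19.hatPi_surjective N ρ m hρ hinv'
  obtain ⟨μ, hμc, hμ1, hμN⟩ := Cfsg.Agent.S0864.result (Lib.Helper79.hatN N ρ m)
    (Lib.Helper19.homFun lam) (Lib.Helper19.isCharacter_homFun lam) (by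
      intro y x
      exact congrArg Units.val (hlaminv y x)) (by
      intro p hp _
      obtain ⟨P, hNP, η, hcop, ⟨k, hk⟩, hη, hηN⟩ := hsyl p hp
      obtain ⟨R, hR, -⟩ := Lib.Helper79.exists_rep_ext_of_char_ext (Subgroup.inclusion hNP) ρ η
        (Lib.Helper20.isCharacter_of_isIrrCharacter hη) hηN
      obtain ⟨ν, hν⟩ := Lib.Helper79.exists_nu_of_ext N ρ m hρ lam hlam P hNP R hR
      refine ⟨P.comap (Lib.Helper19.hatPi N ρ m), Subgroup.comap_mono hNP, Lib.Helper19.homFun ν,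
        ?_, ⟨k, ?_⟩, (Lib.Helper19.isCharacter_homFun ν).1, (Lib.Helper19.isCharacter_homFun ν).2,
        ?_⟩
      · rw [Subgroup.index_comap_of_surjective _ hsurj]
        exact hcop
      · show (N.comap (Lib.Helper19.hatPi N ρ m)).relIndex (P.comap (Lib.Helper19.hatPi N ρ m)) = _
        rw [Subgroup.relIndex_comap, Subgroup.map_comap_eq_self_of_surjective hsurj, hk]
      · intro x
        exact congrArg Units.val (hν x))
  obtain ⟨μ', rfl⟩ := Lib.Helper19.exists_hom_of_linear μ ⟨hμc, hμ1⟩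
  obtain ⟨R, hR⟩ := Lib.Helper79.exists_ext_of_lam_ext N ρ m hρ hinv' lam hlam μ'
    (fun x => Units.ext (hμN x))
  refine ⟨R.character, ⟨d, R, Lib.Helper79.isIrreducible_of_restrict N ρ R hR hρ, rfl⟩, ?_⟩
  intro n
  show LinearMap.trace ℂ _ (R n) = LinearMap.trace ℂ _ (ρ n)
  rw [hR]

end Cfsg.Agent.S0888
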