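import Cfsg.Statements.S1312
-- import your own Cfsg.Agent.* helpers here
import Cfsg.Agent.Lib.Helper28.BenderPair

set_option autoImplicit false
open Cfsg

namespace Cfsg.Agent.S1312

open Cfsg.Agent.Lib.Helper28

theorem normalizer_eq_of_isCoatom {G : Type*} [Group G] [IsSimpleGroup G] {M A : Subgroup G}
    (hM : IsCoatom M) (hA : A ≠ ⊥) (hAM : A ≤ M) (hn : M ≤ Subgroup.normalizer (A : Set G)) :
    Subgroup.normalizer (A : Set G) = M := by
  rcases eq_or_lt_of_le hn with h | h
  · exact h.symm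
  · exfalso
    have h1 := hM.2 _ h
    have h2 : A.Normal := Subgroup.normalizer_eq_top_iff.mp h1
    rcases h2.eq_bot_or_eq_top with h3 | h3
    · exact hA h3
    · exact hM.1 (top_le_iff.mp (h3 ▸ hAM))

/-- Let G be a non-abelian finite simple group and M ≠ N maximal subgroups of G with F*(M) ≤ N and F*(N) ≤ M. Then there is a prime p such that F*(M) and F*(N) are both p-groups. -/
theorem result {G : Type*} [Group G] [Finite G] [IsSimpleGroup G] (hna : ¬ IsMulCommutative G) (M N : Subgroup G) (hM : IsCoatom M) (hN : IsCoatom N) (hMN : M ≠ N) (h1 : (Cfsg.generalizedFittingSubgroup ↥M).map M.subtype ≤ N) (h2 : (Cfsg.generalizedFittingSubgroup ↥N).map N.subtype ≤ M) : ∃ p : ℕ, p.Prime ∧ IsPGroup p ↥(Cfsg.generalizedFittingSubgroup ↥M) ∧ IsPGroup p ↥(Cfsg.generalizedFittingSubgroup ↥N) := by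
  have hB : BPair M N := by
    refine ⟨hMN, ?_, h1, h2⟩
    intro A hA hle
    refine ⟨fun hn => ?_, fun hn => ?_⟩
    · rw [normalizer_eq_of_isCoatom hM hA (hle.trans inf_le_left) hn, inf_comm]
    · rw [normalizer_eq_of_isCoatom hN hA (hle.trans inf_le_right) hn]
  obtain ⟨p, hp, e1, e2⟩ := hB.exists_prime
  have : Fact p.Prime := ⟨hp⟩
  have f1 : Cfsg.generalizedFittingSubgroup ↥M = Cfsg.pCore p ↥M :=
    Subgroup.map_injective M.subtype_injective e1
  have f2 : Cfsg.generalizedFittingSubgroup ↥N = Cfsg.pCore p ↥N :=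
    Subgroup.map_injective N.subtype_injective e2
  refine ⟨p, hp, ?_, ?_⟩
  · rw [f1]; exact pCore_isPGroup p
  · rw [f2]; exact pCore_isPGroup p

end Cfsg.Agent.S1312
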