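import Cfsg.Statements.S1080

set_option autoImplicit false
open Cfsg

namespace Cfsg.Agent.S1080

open Cfsg.Lie in
theorem xMat_map {F : Type*} [Field F] (D : ChevalleyDatum) (f : F →+* F) (r : Fin D.nroots) (t : F) :
    (D.xMat F r t).map f = D.xMat F r (f t) := by
  ext row col
  simp only [Matrix.map_apply, ChevalleyDatum.xMat, Matrix.of_apply]
  rcases col with i | s
  · rcases row with i' | u
    · simp only; split_ifs <;> simp
    · simp only; split_ifs <;> simp
  · simp only
    split_ifs with h1 h2
    · rcases row with i' | u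
      · simp
      · simp only; split_ifs <;> simp
    · rcases row with i' | u
      · simp
      · simp only; split_ifs <;> simp
    · rcases row with i' | u
      · simp
      · simp only [map_add, map_list_sum, List.map_map]
        congr 1
        · split_ifs <;> simp
        · congr 1
          apply List.map_congr_left
          intro a _
          simp

open Cfsg.Lie in
theorem map_mem {F : Type*} [Field F] (D : ChevalleyDatum) (f : F →+* F) (g : GL D.Idx F)
    (hg : g ∈ D.group F) : Matrix.GeneralLinearGroup.map f g ∈ D.group F := by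
  have : D.group F ≤ (D.group F).comap (Matrix.GeneralLinearGroup.map f) := by
    unfold ChevalleyDatum.group
    rw [Subgroup.closure_le]
    rintro g ⟨r, t, h⟩
    apply Subgroup.subset_closure
    refine ⟨r, f t, ?_⟩
    rw [← xMat_map, ← h]
    rfl
  exact this hg

/-- Field automorphisms: for every field automorphism `f` there is a group automorphism sending each `x_r(t)` to `x_r(f t)`. -/
theorem result {F : Type*} [Field F] (D : Cfsg.Lie.ChevalleyDatum) (hD : D ∈ [Cfsg.Lie.chevG2, Cfsg.Lie.chevB2, Cfsg.Lie.chevD4, Cfsg.Lie.chevF4, Cfsg.Lie.chevE6, Cfsg.Lie.chevE7, Cfsg.Lie.chevE8]) (f : F ≃+* F) :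
    ∃ α : ↥(D.group F) ≃* ↥(D.group F), ∀ (g : ↥(D.group F)) (r : ℕ) (t : F), r < D.nroots →
      ((g : GL D.Idx F) : Matrix D.Idx D.Idx F) = D.x F r t → ((α g : GL D.Idx F) : Matrix D.Idx D.Idx F) = D.x F r (f t) := by
  refine ⟨{ toFun := fun g => ⟨Matrix.GeneralLinearGroup.map (f : F →+* F) g.1, map_mem D _ _ g.2⟩
            invFun := fun g => ⟨Matrix.GeneralLinearGroup.map (f.symm : F →+* F) g.1, map_mem D _ _ g.2⟩
            left_inv := ?_
            right_inv := ?_
            map_mul' := ?_ }, ?_⟩
  · intro g
    apply Subtype.ext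
    apply Matrix.GeneralLinearGroup.ext
    intro i j
    simp [Matrix.GeneralLinearGroup.map_apply]
  · intro g
    apply Subtype.ext
    apply Matrix.GeneralLinearGroup.ext
    intro i j
    simp [Matrix.GeneralLinearGroup.map_apply]
  · intro g h
    apply Subtype.ext
    simp
  · intro g r t hr hg
    have : ((Matrix.GeneralLinearGroup.map (f : F →+* F) g.1 : GL D.Idx F) : Matrix D.Idx D.Idx F)
        = ((g : GL D.Idx F) : Matrix D.Idx D.Idx F).map (f : F →+* F) := rfl
    simp only [MulEquiv.coe_mk, Equiv.coe_fn_mk]
    rw [this, hg, Cfsg.Lie.ChevalleyDatum.x, dif_pos hr, xMat_map, Cfsg.Lie.ChevalleyDatum.x, dif_pos hr]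
    rfl

end Cfsg.Agent.S1080
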