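import Cfsg.Statements.S0165
import Cfsg.Agent.Lib.Helper78.DefectZero

set_option autoImplicit false
open Cfsg

namespace Cfsg.Agent.S0165

/-- If p ^ n is the exact power of the prime p dividing the order of a finite group and p ^ n divides the degree of an irreducible complex representation, then its character vanishes at every element of order divisible by p. -/
theorem result {G : Type*} [Group G] [Finite G] {V : Type*} [AddCommGroup V] [Module ℂ V] [FiniteDimensional ℂ V] (ρ : Representation ℂ G V) [ρ.IsIrreducible] (p n : ℕ) (hp : p.Prime) (hn : p ^ n ∣ Nat.card G) (hn' : ¬ p ^ (n + 1) ∣ Nat.card G) (hdeg : p ^ n ∣ Module.finrank ℂ V) (x : G) (hx : p ∣ orderOf x) : ρ.character x = 0 := by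
  have := Fintype.ofFinite G
  let χ : Cfsg.IrrCharacter G := ⟨ρ.character, Lib.Helper20.isIrrCharacter_of_rep ρ inferInstance⟩
  have hd : Cfsg.charDegree (χ : G → ℂ) = Module.finrank ℂ V := by
    have h1 := Lib.Helper82.isChar_one_eq (Lib.Helper82.isIrr_isChar χ.2)
    have h2 : (χ : G → ℂ) 1 = (Module.finrank ℂ V : ℂ) := Representation.char_one ρ
    rw [h2] at h1
    exact_mod_cast h1.symm
  obtain ⟨m, hm⟩ := Lib.Helper82.isIrr_charDegree_dvd_card χ.2
  have hpm : ¬ p ∣ m := by
    intro h
    apply hn'
    rw [hm, hd, pow_succ]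
    exact Nat.mul_dvd_mul hdeg h
  exact Lib.Helper78.vanish_of_defect_zero hp χ hm hpm hx

end Cfsg.Agent.S0165
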