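import Cfsg.Statements.S4343
-- import your own Cfsg.Agent.* helpers here

set_option autoImplicit false
open Cfsg

namespace Cfsg.Agent.S4343

variable {S : Type*} [Group S] [Finite S]

theorem not_normal [IsSimpleGroup S] (hS : ¬ IsMulCommutative S) (p : ℕ) [Fact p.Prime]
    (hp : p ∣ Nat.card S) (P : Sylow p S) : ¬ (P : Subgroup S).Normal := by
  intro hnorm
  rcases hnorm.eq_bot_or_eq_top with h | h
  · exact P.ne_bot_of_dvd_card hp h
  · have hpg : IsPGroup p S := by
      have := P.isPGroup'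
      rw [h] at this
      exact this.of_equiv Subgroup.topEquiv
    have hnt := hpg.center_nontrivial
    have hc : Subgroup.center S = ⊤ := by
      rcases (inferInstance : (Subgroup.center S).Normal).eq_bot_or_eq_top with h1 | h1
      · exfalso
        rw [Subgroup.nontrivial_iff_ne_bot] at hnt
        exact hnt h1
      · exact h1
    apply hS
    refine ⟨⟨fun a b => ?_⟩⟩
    have : b ∈ Subgroup.center S := hc ▸ Subgroup.mem_top b
    exact Subgroup.mem_center_iff.1 this a

theorem relIndex_eq (p : ℕ) [Fact p.Prime] (hn : Nat.card (Sylow p S) < p ^ 2)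
    (P Q : Sylow p S) (hne : P ≠ Q) : ((P : Subgroup S) ⊓ Q).relIndex P = p := by
  have hp : p.Prime := Fact.out
  have h1 : ((P : Subgroup S) ⊓ Q).relIndex P = (Subgroup.normalizer (Q : Set S)).relIndex P := by
    rw [← P.isPGroup'.inf_normalizer_sylow Q, Subgroup.inf_relIndex_left]
  have h2 : (Subgroup.normalizer (Q : Set S)).relIndex P ≤ Nat.card (Sylow p S) := by
    rw [Sylow.card_eq_index_normalizer Q, ← Subgroup.relIndex_top_right]
    apply Subgroup.relIndex_le_of_le_right le_top
    rw [Subgroup.relIndex_top_right]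
    exact Subgroup.index_ne_zero_of_finite
  obtain ⟨m, hm⟩ := (IsPGroup.iff_card.1 P.isPGroup')
  have h3 : ((P : Subgroup S) ⊓ Q).relIndex P ∣ p ^ m := hm ▸ Subgroup.relIndex_dvd_card _ _
  obtain ⟨k, -, hk⟩ := (Nat.dvd_prime_pow hp).1 h3
  have h4 : p ^ k < p ^ 2 := by
    rw [← hk, h1]
    exact lt_of_le_of_lt h2 hn
  have h5 : k < 2 := (Nat.pow_lt_pow_iff_right hp.one_lt).1 h4
  have h6 : k ≠ 0 := by
    rintro rfl
    rw [pow_zero, Subgroup.relIndex_eq_one] at hk
    apply hne
    apply Sylow.ext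
    exact (P.is_maximal' Q.isPGroup' (hk.trans inf_le_right)).symm
  have h7 : k = 1 := by omega
  rw [hk, h7, pow_one]

theorem card_inf (p : ℕ) [Fact p.Prime] (hn : Nat.card (Sylow p S) < p ^ 2)
    (P Q : Sylow p S) (hne : P ≠ Q) : Nat.card ((P : Subgroup S) ⊓ Q : Subgroup S) * p = Nat.card P := by
  have h1 := relIndex_eq p hn P Q hne
  have := Subgroup.relIndex_mul_relIndex ⊥ ((P : Subgroup S) ⊓ Q) P bot_le inf_le_left
  rwa [Subgroup.relIndex_bot_left, Subgroup.relIndex_bot_left, h1] at this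

theorem le_normalizer_inf (p : ℕ) [Fact p.Prime] (hn : Nat.card (Sylow p S) < p ^ 2)
    (P Q : Sylow p S) (hne : P ≠ Q) :
    (P : Subgroup S) ≤ Subgroup.normalizer (((P : Subgroup S) ⊓ Q : Subgroup S) : Set S) := by
  have hp : p.Prime := Fact.out
  rw [← Subgroup.normal_subgroupOf_iff_le_normalizer inf_le_left]
  apply Subgroup.normal_of_index_eq_minFac_card
  have h1 := relIndex_eq p hn P Q hne
  have h2 := card_inf p hn P Q hne
  obtain ⟨m, hm⟩ := (IsPGroup.iff_card.1 P.isPGroup')
  change ((P : Subgroup S) ⊓ Q).relIndex P = _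
  rw [h1]
  have hm0 : m ≠ 0 := by
    rintro rfl
    have h3 : p ∣ 1 := by
      rw [← pow_zero p, ← hm]
      exact Dvd.intro_left _ h2
    exact hp.one_lt.ne' (Nat.dvd_one.1 h3)
  change p = (Nat.card (P : Subgroup S)).minFac
  rw [hm, hp.pow_minFac hm0]

theorem exists_conj_le (p : ℕ) [Fact p.Prime] (N : Subgroup S) (P : Sylow p S) (hP : (P : Subgroup S) ≤ N)
    (R : Sylow p S) : ∃ x ∈ N, ((x • R : Sylow p S) : Subgroup S) ⊓ N ≤ P := by
  have hpg : IsPGroup p (((R : Subgroup S) ⊓ N).subgroupOf N) :=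
    (R.isPGroup'.to_le inf_le_left).comap_subtype
  obtain ⟨T, hT⟩ := hpg.exists_le_sylow
  obtain ⟨x, hx⟩ := MulAction.exists_smul_eq N T (P.subtype hP)
  refine ⟨x, x.2, ?_⟩
  intro y hy
  obtain ⟨hy1, hy2⟩ := Subgroup.mem_inf.1 hy
  rw [Sylow.coe_subgroup_smul, Subgroup.mem_pointwise_smul_iff_inv_smul_mem] at hy1
  have hy3 : (x : S)⁻¹ * y * x ∈ (R : Subgroup S) := by
    simpa [MulAut.smul_def, MulAut.conj_inv_apply] using hy1
  have hy4 : (x : S)⁻¹ * y * x ∈ N := N.mul_mem (N.mul_mem (N.inv_mem x.2) hy2) x.2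
  have hy5 : (⟨(x : S)⁻¹ * y * x, hy4⟩ : N) ∈ T := hT (by
    rw [Subgroup.mem_subgroupOf]
    exact Subgroup.mem_inf.2 ⟨hy3, hy4⟩)
  have hy6 : x * (⟨(x : S)⁻¹ * y * x, hy4⟩ : N) * x⁻¹ ∈ x • T := by
    rw [← SetLike.mem_coe, Sylow.coe_smul]
    exact ⟨_, hy5, by simp [MulAut.smul_def]⟩
  rw [hx] at hy6
  have hy7 : x * (⟨(x : S)⁻¹ * y * x, hy4⟩ : N) * x⁻¹ ∈ ((P.subtype hP : Sylow p N) : Subgroup N) := hy6
  rw [Sylow.coe_subtype, Subgroup.mem_subgroupOf] at hy7
  simpa [mul_assoc] using hy7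

/-- Let S be a finite non-abelian simple group and p a prime dividing its order. If S has fewer than p² Sylow p-subgroups, then its Sylow p-subgroups have order p. -/
theorem result {S : Type*} [Group S] [Finite S]
    [IsSimpleGroup S] (hS : ¬ IsMulCommutative S) (p : ℕ) [Fact p.Prime] (hp : p ∣ Nat.card S)
    (hn : Nat.card (Sylow p S) < p ^ 2) (P : Sylow p S) : Nat.card P = p := by
  have hpp : p.Prime := Fact.out
  have hPn := not_normal hS p hp P
  obtain ⟨Q, hQ⟩ : ∃ Q : Sylow p S, P ≠ Q := by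
    by_contra hcon
    push Not at hcon
    have : Subsingleton (Sylow p S) := ⟨fun A B => (hcon A).symm.trans (hcon B)⟩
    exact hPn (Sylow.normal_of_subsingleton P)
  set D : Subgroup S := (P : Subgroup S) ⊓ Q with hD
  have hPN := le_normalizer_inf p hn P Q hQ
  have hQN : (Q : Subgroup S) ≤ Subgroup.normalizer ((D : Subgroup S) : Set S) := by
    have := le_normalizer_inf p hn Q P hQ.symm
    rwa [inf_comm] at this
  have hcardPQ : Nat.card P = Nat.card Q := Nat.card_congr (Sylow.equiv P Q).toEquiv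
  have hall : ∀ R : Sylow p S, D ≤ R := by
    intro R
    obtain ⟨x, hxN, hx⟩ := exists_conj_le p _ P hPN R
    have h1 : ((x • R : Sylow p S) : Subgroup S) ⊓ Q ≤ D := by
      apply le_inf
      · exact le_trans (inf_le_inf_left _ hQN) hx
      · exact inf_le_right
    have h2 : D ≤ ((x • R : Sylow p S) : Subgroup S) := by
      by_cases hRQ : x • R = Q
      · rw [hRQ]; exact inf_le_right
      · have h3 := card_inf p hn (x • R) Q hRQ
        have h4 := card_inf p hn P Q hQ
        have h5 : Nat.card (x • R : Sylow p S) = Nat.card P :=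
          Nat.card_congr (Sylow.equiv (x • R) P).toEquiv
        have h6 : Nat.card (((x • R : Sylow p S) : Subgroup S) ⊓ Q : Subgroup S) = Nat.card D := by
          have : Nat.card (((x • R : Sylow p S) : Subgroup S) ⊓ Q : Subgroup S) * p = Nat.card D * p := by
            rw [h3, h4, h5]
          exact Nat.eq_of_mul_eq_mul_right hpp.pos this
        have h7 := Subgroup.eq_of_le_of_card_ge h1 h6.ge
        rw [← h7]
        exact inf_le_left
    intro d hd
    have h3 : x * d * x⁻¹ ∈ D := by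
      have := (Subgroup.mem_normalizer_iff.1 hxN d).1 hd
      exact this
    have h4 := h2 h3
    rw [Sylow.coe_subgroup_smul, Subgroup.mem_pointwise_smul_iff_inv_smul_mem] at h4
    simpa [MulAut.smul_def, MulAut.conj_inv_apply, mul_assoc] using h4
  have hcore : D ≤ (P : Subgroup S).normalCore := by
    intro d hd b
    have h1 := hall (b⁻¹ • P) hd
    rw [Sylow.coe_subgroup_smul, Subgroup.mem_pointwise_smul_iff_inv_smul_mem] at h1
    simpa [MulAut.smul_def, MulAut.conj_inv_apply] using h1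
  have hbot : (P : Subgroup S).normalCore = ⊥ := by
    rcases (inferInstance : ((P : Subgroup S).normalCore).Normal).eq_bot_or_eq_top with h | h
    · exact h
    · exfalso
      apply hPn
      have : (P : Subgroup S) = ⊤ := top_le_iff.1 (h ▸ Subgroup.normalCore_le _)
      rw [this]
      infer_instance
  have hDbot : D = ⊥ := le_bot_iff.1 (hbot ▸ hcore)
  have := card_inf p hn P Q hQ
  rw [← hD, hDbot] at this
  simpa using this.symm

end Cfsg.Agent.S4343
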