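import Cfsg.Statements.S0119
import Cfsg.Agent.Lib.Helper3.Frattini
import Cfsg.Agent.Lib.Helper3.ClassTwo
import Cfsg.Agent.Lib.Helper3.Transfer

set_option autoImplicit false
open Cfsg

namespace Cfsg.Agent.S0119

open scoped commutatorElement
open scoped IsMulCommutative
open Cfsg.Agent.Lib.Helper3

section
variable {G : Type*} [Group G] {p : ℕ} [Fact p.Prime]

/-- characteristic abelian subgroups are central -/
theorem claim1 (A : Subgroup (MulAut G))
    (hGA : Subgroup.closure {x : G | ∃ g : G, ∃ a ∈ A, x = g⁻¹ * a g} = ⊤)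
    (hchar : ∀ H : Subgroup G, H.Characteristic → IsMulCommutative H → ∀ a ∈ A, ∀ h ∈ H, a h = h)
    (K : Subgroup G) (hK : K.Characteristic) (hKc : IsMulCommutative K) :
    K ≤ Subgroup.center G := by
  intro k hk
  have hKn : K.Normal := inferInstance
  have hle : Subgroup.closure {x : G | ∃ g : G, ∃ a ∈ A, x = g⁻¹ * a g} ≤
      Subgroup.centralizer {k} := by
    rw [Subgroup.closure_le]
    rintro _ ⟨g, a, ha, rfl⟩
    rw [SetLike.mem_coe, Subgroup.mem_centralizer_singleton_iff]
    have e1 : a (g * k * g⁻¹) = g * k * g⁻¹ := hchar K hK hKc a ha _ (hKn.conj_mem k hk g)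
    rw [map_mul, map_mul, map_inv, hchar K hK hKc a ha k hk] at e1
    have e2 : a g * k = g * k * g⁻¹ * a g := by
      rw [← e1]; group
    calc g⁻¹ * a g * k = g⁻¹ * (a g * k) := by group
      _ = g⁻¹ * (g * k * g⁻¹ * a g) := by rw [e2]
      _ = k * (g⁻¹ * a g) := by group
  rw [hGA] at hle
  rw [Subgroup.mem_center_iff]
  intro g
  exact Subgroup.mem_centralizer_singleton_iff.mp (hle (Subgroup.mem_top g))

/-- elements of the second centre commute with the derived subgroup -/
theorem second_center_comm (u : G) (hu : u ∈ Subgroup.upperCentralSeriesStep (Subgroup.center G))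
    (w : G) (hw : w ∈ commutator G) : u * w = w * u := by
  let ψ : G →* Subgroup.center G :=
    { toFun := fun g => ⟨⁅u, g⁆, hu g⟩
      map_one' := Subtype.ext (commutatorElement_one_right u)
      map_mul' := by
        intro g h
        apply Subtype.ext
        show ⁅u, g * h⁆ = ⁅u, g⁆ * ⁅u, h⁆
        rw [commutatorElement_mul_right_eq_mul_conj, mul_assoc ⁅u, g⁆ g,
          Subgroup.mem_center_iff.mp (hu h) g, mul_assoc, mul_assoc, mul_inv_cancel, mul_one] }
  have := Abelianization.commutator_subset_ker ψ hw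
  have h1 : ⁅u, w⁆ = 1 := congrArg Subtype.val (MonoidHom.mem_ker.mp this)
  exact commutatorElement_eq_one_iff_mul_comm.mp h1

theorem claim2 [Finite G] (hG : IsPGroup p G)
    (hcen : ∀ K : Subgroup G, K.Characteristic → IsMulCommutative K → K ≤ Subgroup.center G) :
    commutator G ≤ Subgroup.center G := by
  have hcc : (commutator G).Characteristic := by
    rw [commutator_def]; infer_instance
  have hK0 : commutator G ⊓ Subgroup.upperCentralSeriesStep (Subgroup.center G) ≤
      Subgroup.center G := by
    apply hcen _ inferInstance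
    refine ⟨⟨fun a b => Subtype.ext ?_⟩⟩
    exact second_center_comm (a : G) a.2.2 (b : G) b.2.1
  by_contra hcon
  have hn : ((commutator G).map (QuotientGroup.mk' (Subgroup.center G))).Normal :=
    Subgroup.Normal.map inferInstance _ (QuotientGroup.mk'_surjective _)
  have hne : (commutator G).map (QuotientGroup.mk' (Subgroup.center G)) ≠ ⊥ := by
    intro hbot
    apply hcon
    intro x hx
    have : QuotientGroup.mk' (Subgroup.center G) x ∈
        (commutator G).map (QuotientGroup.mk' (Subgroup.center G)) := ⟨x, hx, rfl⟩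
    rw [hbot, Subgroup.mem_bot] at this
    exact (QuotientGroup.eq_one_iff x).mp this
  have hne2 := normal_inf_center_ne_bot' (hG.to_quotient (Subgroup.center G)) _ hne
  apply hne2
  rw [eq_bot_iff]
  rintro _ ⟨⟨x, hx, rfl⟩, hxc⟩
  rw [Subgroup.mem_bot]
  apply (QuotientGroup.eq_one_iff x).mpr
  apply hK0
  refine ⟨hx, ?_⟩
  rw [Subgroup.upperCentralSeriesStep_eq_comap_center]
  exact hxc

/-- fixed points of a coprime group of automorphisms with `[G, A] = G` lie in the derived subgroup -/
theorem claim3 [Finite G] (hG : IsPGroup p G) (A : Subgroup (MulAut G))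
    (hA : Nat.Coprime (Nat.card A) p)
    (hGA : Subgroup.closure {x : G | ∃ g : G, ∃ a ∈ A, x = g⁻¹ * a g} = ⊤)
    (c : G) (hc : ∀ a ∈ A, a c = c) : c ∈ commutator G := by
  classical
  have : Fintype A := Fintype.ofFinite A
  let τ : G →* Abelianization G :=
    ∏ a : A, (Abelianization.of.comp ((a : MulAut G).toMonoidHom))
  have hτ : ∀ g, τ g = ∏ a : A, Abelianization.of ((a : MulAut G) g) := by
    intro g
    simp only [τ, MonoidHom.finsetProd_apply]
    rfl
  have hinv : ∀ (b : A) (g : G), τ ((b : MulAut G) g) = τ g := by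
    intro b g
    rw [hτ, hτ]
    exact Fintype.prod_equiv (Equiv.mulRight b) _ _ (fun a => rfl)
  have hker : τ.ker = ⊤ := by
    rw [eq_top_iff, ← hGA, Subgroup.closure_le]
    rintro _ ⟨g, a, ha, rfl⟩
    rw [SetLike.mem_coe, MonoidHom.mem_ker, map_mul, map_inv, hinv ⟨a, ha⟩ g, inv_mul_cancel]
  have h1 : τ c = 1 := by
    have : c ∈ τ.ker := hker ▸ Subgroup.mem_top c
    exact this
  have h2 : τ c = (Abelianization.of c) ^ (Nat.card A) := by
    rw [hτ, Nat.card_eq_fintype_card, ← Finset.card_univ, ← Finset.prod_const]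
    exact Finset.prod_congr rfl (fun a _ => by rw [hc a a.2])
  obtain ⟨k, hk⟩ := hG c
  have h3 : (Abelianization.of c) ^ (p ^ k) = 1 := by rw [← map_pow, hk, map_one]
  have h4 := eq_one_of_pow_coprime (Nat.Coprime.pow_right k hA) (h2 ▸ h1) h3
  rw [← Abelianization.ker_of]
  exact h4

theorem closure_pow_char (k : ℕ) :
    (Subgroup.closure {y : G | ∃ x : G, y = x ^ k}).Characteristic := by
  rw [Subgroup.characteristic_iff_map_le]
  intro φ
  rw [MonoidHom.map_closure, Subgroup.closure_le]
  rintro _ ⟨_, ⟨x, rfl⟩, rfl⟩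
  apply Subgroup.subset_closure
  exact ⟨φ x, by simp⟩

theorem claim4 [Finite G] (hG : IsPGroup p G)
    (hcen : ∀ K : Subgroup G, K.Characteristic → IsMulCommutative K → K ≤ Subgroup.center G)
    (hcl : commutator G ≤ Subgroup.center G) (x : G) : x ^ p ∈ Subgroup.center G := by
  have h2 : ⁅commutator G, (⊤ : Subgroup G)⁆ = ⊥ := class_two_of_commutator_le_center hcl
  have step : ∀ k : ℕ, 1 ≤ k → (∀ x : G, x ^ (p ^ (k + 1)) ∈ Subgroup.center G) →
      ∀ x : G, x ^ (p ^ k) ∈ Subgroup.center G := by
    intro k hk hP x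
    have hab : IsMulCommutative (Subgroup.closure {y : G | ∃ x : G, y = x ^ (p ^ k)}) := by
      apply Subgroup.isMulCommutative_closure
      rintro _ ⟨u, rfl⟩ _ ⟨v, rfl⟩
      rw [← commutatorElement_eq_one_iff_mul_comm, commutator_pow_left_class_two h2,
        commutator_pow_right_class_two h2, ← pow_mul, ← pow_add,
        ← commutator_pow_left_class_two h2, commutatorElement_eq_one_iff_mul_comm]
      have : u ^ (p ^ (k + k)) ∈ Subgroup.center G := by
        have e : k + k = (k + 1) + (k - 1) := by omega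
        rw [e, pow_add, pow_mul]
        exact Subgroup.pow_mem _ (hP u) _
      exact (Subgroup.mem_center_iff.mp this v).symm
    exact hcen _ (closure_pow_char _) hab (Subgroup.subset_closure ⟨x, rfl⟩)
  have down : ∀ j : ℕ, (∀ x : G, x ^ (p ^ (1 + j)) ∈ Subgroup.center G) →
      ∀ x : G, x ^ (p ^ 1) ∈ Subgroup.center G := by
    intro j
    induction j with
    | zero => intro h; exact h
    | succ j ih =>
      intro h
      exact ih (step (1 + j) (by omega) h)
  obtain ⟨n, hn⟩ := IsPGroup.iff_card.mp hG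
  have := down n (by
    intro y
    have : y ^ (p ^ (1 + n)) = 1 := by
      rw [add_comm, pow_succ, pow_mul, ← hn, pow_card_eq_one', one_pow]
    rw [this]; exact Subgroup.one_mem _) x
  rwa [pow_one] at this

end

/-- If a p'-group A of automorphisms of a p-group G satisfies G = [G, A] and acts trivially on every characteristic abelian subgroup, then G is special with centre equal to the fixed points of A. -/
theorem result {G : Type*} [Group G] [Finite G] {p : ℕ} [Fact p.Prime] (hG : IsPGroup p G) (A : Subgroup (MulAut G)) (hA : Nat.Coprime (Nat.card A) p) (hGA : Subgroup.closure {x : G | ∃ g : G, ∃ a ∈ A, x = g⁻¹ * a g} = ⊤) (hchar : ∀ H : Subgroup G, H.Characteristic → IsMulCommutative H → ∀ a ∈ A, ∀ h ∈ H, a h = h) : Cfsg.IsSpecial p G ∧ (∀ g : G, (g ∈ Subgroup.center G ↔ ∀ a ∈ A, a g = g)) := by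
  have hpr : p.Prime := Fact.out
  have hcen := claim1 A hGA hchar
  have hcl := claim2 hG hcen
  have hfix : ∀ g : G, (∀ a ∈ A, a g = g) → g ∈ commutator G := fun g hg => claim3 hG A hA hGA g hg
  have hcf : ∀ g ∈ Subgroup.center G, ∀ a ∈ A, a g = g := fun g hg a ha =>
    hchar (Subgroup.center G) inferInstance inferInstance a ha g hg
  have hcomm : commutator G = Subgroup.center G :=
    le_antisymm hcl (fun g hg => hfix g (hcf g hg))
  refine ⟨⟨hG, ?_, hcomm⟩, fun g => ⟨hcf g, fun h => hcl (hfix g h)⟩⟩
  apply le_antisymm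
  · exact frattini_le_of_elementary_quotient hpr _ hcl (claim4 hG hcen hcl)
  · rw [← hcomm]
    exact commutator_le_frattini hG

end Cfsg.Agent.S0119
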