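import Cfsg.Statements.S2696
import Cfsg.Agent.Lib.Helper95.AutO.Main
import Cfsg.Agent.Lib.Helper29.AutOGlue
import Cfsg.Agent.Lib.Helper49.HypPairs
import Cfsg.Agent.Lib.Helper49.MinusNoLagr
import Cfsg.Agent.Lib.Helper49.RankParity
import Cfsg.Agent.Lib.Helper49.FinSq

set_option autoImplicit false
open Cfsg

namespace Cfsg.Agent.S2696

/-- For m ≥ 3 and a finite field F, the automorphism group of the minus-type group PΩ⁻_{2m+2}(F) (the form Σ xᵢ yᵢ + z₁² + a z₁ z₂ + b z₂² with anisotropic binary part) is generated by the automorphisms induced by the semisimilarities v ↦ g σ(v) of the form, that is, pairs with Q(g σ(v)) = c σ(Q(v)) (the image of the projective semisimilarity group). -/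
theorem result {F : Type*} [Field F] [Fintype F] {m : ℕ} (hm : 3 ≤ m) (a b : F) (hab : ∀ z₁ z₂ : F, z₁ ^ 2 + a * z₁ * z₂ + b * z₂ ^ 2 = 0 → z₁ = 0 ∧ z₂ = 0) :
    Cfsg.gammaPOmega F (Cfsg.quadFormMinus m F a b) = ⊤ := by
  have hQ := Cfsg.Agent.Lib.Helper49.minusQF_nondegenerate m F a b
    (Cfsg.Agent.Lib.Helper49.minus_disc_ne_zero a b hab)
  rw [← Cfsg.Agent.Lib.Helper49.minusQF_coe]
  apply Cfsg.Agent.Lib.Helper29.AutO.gamma_eq_top_of_abstract
  intro α
  have hfr : Module.finrank F ((Fin m ⊕ Fin m) ⊕ Fin 2 → F) = 2 * m + 2 := by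
    rw [Module.finrank_fintype_fun_eq_card]
    simp only [Fintype.card_sum, Fintype.card_fin]
    omega
  exact Cfsg.Agent.Lib.Helper95.AutO.aut_main hQ (by omega) (fun W hW hWd =>
    absurd (Cfsg.Agent.Lib.Helper49.isLagr_of_finrank hQ hW hWd)
      (Cfsg.Agent.Lib.Helper49.not_isLagr_minusQF a b hab hQ W)) α

end Cfsg.Agent.S2696
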