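import Cfsg.Statements.S0080
-- import your own Cfsg.Agent.* helpers here

set_option autoImplicit false
open Cfsg

namespace Cfsg.Agent.S0080

open scoped IsMulCommutative in
lemma main {G : Type*} [Group G] [Finite G] (H : Subgroup G)
    (h : Nat.Coprime H.index (⁅H, H⁆.relIndex H)) :
    H.transferFocal.ker ⊓ H = H.focalSubgroup ∧ commutator G ≤ H.transferFocal.ker ∧
      H.transferFocal.ker ⊔ H = ⊤ := by
  have hcard : Nat.card (H ⧸ H.focalSubgroupOf) ∣ ⁅H, H⁆.relIndex H := by
    have : Nat.card (H ⧸ H.focalSubgroupOf) = H.focalSubgroup.relIndex H := rfl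
    rw [this]
    exact Subgroup.relIndex_dvd_of_le_left H H.commutator_le_focalSubgroup
  have hcop : (Nat.card (H ⧸ H.focalSubgroupOf)).Coprime H.index :=
    (Nat.Coprime.coprime_dvd_right hcard h).symm
  have hbij := (powCoprime hcop).bijective
  have hpow : ∀ y : H ⧸ H.focalSubgroupOf, powCoprime hcop y = y ^ H.index := fun y => rfl
  refine ⟨?_, Abelianization.commutator_subset_ker H.transferFocal, ?_⟩
  · ext x
    constructor
    · rintro ⟨hx1, hx2⟩
      have h1 : H.transferFocal x = 1 := hx1
      have h2 := H.transferFocal_eq_pow ⟨x, hx2⟩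
      simp only at h2
      rw [h1] at h2
      have h3 : powCoprime hcop ((⟨x, hx2⟩ : H) : H ⧸ H.focalSubgroupOf) = powCoprime hcop 1 := by
        rw [hpow, hpow, ← h2, one_pow]
      have h4 := hbij.1 h3
      rw [QuotientGroup.eq_one_iff] at h4
      exact h4
    · intro hx
      have hx2 : x ∈ H := H.focalSubgroup_le hx
      refine ⟨?_, hx2⟩
      have h2 := H.transferFocal_eq_pow ⟨x, hx2⟩
      have h4 : ((⟨x, hx2⟩ : H) : H ⧸ H.focalSubgroupOf) = 1 := by
        rw [QuotientGroup.eq_one_iff]
        exact hx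
      rw [h4, one_pow] at h2
      exact h2
  · rw [eq_top_iff]
    intro g _
    obtain ⟨y, hy⟩ := hbij.2 (H.transferFocal g)
    obtain ⟨x, rfl⟩ := QuotientGroup.mk_surjective y
    rw [hpow, ← H.transferFocal_eq_pow] at hy
    have h1 : g * (x : G)⁻¹ ∈ H.transferFocal.ker := by
      rw [MonoidHom.mem_ker, map_mul, map_inv, hy, mul_inv_cancel]
    have : g = (g * (x : G)⁻¹) * x := by group
    rw [this]
    exact mul_mem (Subgroup.mem_sup_left h1) (Subgroup.mem_sup_right x.2)

/-- When the index of H is prime to the order of H/H', the focal subgroup of H is G' ∩ H, and H/(G' ∩ H) has a normal complement. -/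
theorem result {G : Type*} [Group G] [Finite G] (H : Subgroup G) (h : Nat.Coprime H.index (⁅H, H⁆.relIndex H)) : Subgroup.focalSubgroup H = commutator G ⊓ H ∧ ∃ N : Subgroup G, N.Normal ∧ N ⊓ H = commutator G ⊓ H ∧ N ⊔ H = ⊤ := by
  obtain ⟨h1, h2, h3⟩ := main H h
  have h4 : Subgroup.focalSubgroup H = commutator G ⊓ H := by
    apply le_antisymm
    · exact le_inf H.focalSubgroup_le_commutator H.focalSubgroup_le
    · rw [← h1]
      exact inf_le_inf_right _ h2
  exact ⟨h4, H.transferFocal.ker, inferInstance, h1.trans h4, h3⟩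

end Cfsg.Agent.S0080
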