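import Cfsg.Statements.S4456
import Cfsg.Agent.Lib.Helper5.LinExt
import Cfsg.Agent.Lib.Helper2.PResidual
import Cfsg.Agent.Lib.Helper3.PGroup
import Cfsg.Agent.S0080
import Cfsg.Agent.S0081

set_option autoImplicit false
open Cfsg

namespace Cfsg.Agent.S4456

open Cfsg.Agent.Lib.Helper5 Cfsg.Agent.Lib.Helper82 Cfsg.Agent.Lib.Helper2

/-- Let p be a prime and G a finite group such that p divides the degree of every irreducible character of G of degree greater than one. Then G has a normal p-complement: a normal subgroup of order prime to p whose index is a power of p. -/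
theorem result {G : Type*} [Group G] [Finite G] (p : ℕ) (hp : p.Prime) (hdeg : ∀ χ : Cfsg.IrrCharacter G, Cfsg.charDegree (χ : G → ℂ) ≠ 1 → p ∣ Cfsg.charDegree (χ : G → ℂ)) : ∃ N : Subgroup G, N.Normal ∧ (Nat.card N).Coprime p ∧ ∃ k : ℕ, N.index = p ^ k := by
  have : Fact p.Prime := ⟨hp⟩
  obtain ⟨P⟩ : Nonempty (Sylow p G) := inferInstance
  have h1 : commutator G ⊓ (P : Subgroup G) ≤ (commutator P).map (P : Subgroup G).subtype := by
    intro x hx
    obtain ⟨hxG, hxP⟩ := Subgroup.mem_inf.mp hx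
    by_contra hne
    have hx' : (⟨x, hxP⟩ : P) ∉ commutator P := by
      intro h
      exact hne ⟨_, h, rfl⟩
    obtain ⟨μ, hμ, hμ1, hμx⟩ := exists_linear_ne_one hx'
    obtain ⟨χ, hχ, hχ1, hext⟩ :=
      exists_linear_extension (P : Subgroup G) P.not_dvd_index hdeg hμ hμ1
    apply hμx
    rw [← hext ⟨x, hxP⟩]
    exact isChar_linear_commutator hχ hχ1 hxG
  have hcop : Nat.Coprime (P : Subgroup G).index (⁅(P : Subgroup G), (P : Subgroup G)⁆.relIndex P) := by
    obtain ⟨k, hk⟩ := P.2.exists_card_eq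
    have h2 : (⁅(P : Subgroup G), (P : Subgroup G)⁆.relIndex P) ∣ p ^ k := by
      rw [← hk]
      exact Subgroup.relIndex_dvd_card _ _
    have h3 : Nat.Coprime (P : Subgroup G).index (p ^ k) :=
      Nat.Coprime.pow_right k ((Nat.Prime.coprime_iff_not_dvd hp).mpr P.not_dvd_index).symm
    exact Nat.Coprime.coprime_dvd_right h2 h3
  obtain ⟨-, N, hN, hNP, hNtop⟩ := Cfsg.Agent.S0080.result (P : Subgroup G) hcop
  have h3 : N ⊓ (P : Subgroup G) ≤ (frattini P).map (P : Subgroup G).subtype := by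
    rw [hNP]
    exact h1.trans (Subgroup.map_mono (Cfsg.Agent.Lib.Helper3.commutator_le_frattini P.2))
  have h4 := Cfsg.Agent.S0081.result P N h3
  obtain ⟨M, hM, hMc, k, hMk⟩ := hasNormalPComplement_iff_exists.mp h4
  have hGN : IsPGroup p (G ⧸ N) := by
    apply P.2.of_surjective ((QuotientGroup.mk' N).comp (P : Subgroup G).subtype)
    intro q
    obtain ⟨g, rfl⟩ := QuotientGroup.mk_surjective q
    have hg : g ∈ N ⊔ (P : Subgroup G) := by rw [hNtop]; trivial
    rw [← SetLike.mem_coe, Subgroup.normal_mul] at hg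
    obtain ⟨w, hw, y, hy, rfl⟩ := hg
    refine ⟨⟨y, hy⟩, ?_⟩
    change (y : G ⧸ N) = ((w * y : G) : G ⧸ N)
    rw [QuotientGroup.mk_mul, (QuotientGroup.eq_one_iff w).mpr hw, one_mul]
  have e1 : (Cfsg.pResidual p N).map N.subtype = Cfsg.pResidual p G := by
    rw [map_pResidual_subtype]
    unfold Cfsg.pResidual
    congr 1
    ext x
    constructor
    · exact fun h => h.2
    · intro h
      exact ⟨mem_of_coprime_of_isPGroup_quotient N hGN h, h⟩
  have e2 : Cfsg.pResidual p N ≤ M :=
    pResidual_le_of_isPGroup_quotient M (isPGroup_quotient_of_index M hMk)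
  refine ⟨Cfsg.pResidual p G, inferInstance, ?_, ?_⟩
  · rw [← e1, Subgroup.card_map_of_injective N.subtype_injective]
    exact Nat.Coprime.coprime_dvd_left (Subgroup.card_dvd_of_le e2) hMc
  · obtain ⟨j, hj⟩ := (isPGroup_quotient_pResidual (G := G) p).exists_card_eq
    exact ⟨j, by rw [Subgroup.index_eq_card, hj]⟩

end Cfsg.Agent.S4456
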