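import Cfsg.Statements.S0185
import Cfsg.Agent.S0135
import Cfsg.Agent.S0139
import Cfsg.Agent.Lib.Helper20.CharComplete
import Cfsg.Agent.Lib.Helper19.LinChar

set_option autoImplicit false
open Cfsg

namespace Cfsg.Agent.S0185

open Cfsg.Agent.Lib.Helper20

theorem multiset_sum_apply {G : Type*} [Group G] (l : Multiset (Cfsg.IrrCharacter G)) (g : G) :
    (l.map Subtype.val).sum g = (l.map (fun φ : Cfsg.IrrCharacter G => φ.1 g)).sum := by
  induction l using Multiset.induction_on with
  | empty => simp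
  | cons a l ih => simp [ih]

/-- If a finite group has a faithful complex representation of degree less than the smallest prime dividing its order, the group is abelian. -/
theorem result {G : Type*} [Group G] [Finite G] {V : Type*} [AddCommGroup V] [Module ℂ V] [FiniteDimensional ℂ V] (ρ : Representation ℂ G V) (hfaithful : Function.Injective ρ) (hdeg : ∀ p : ℕ, p.Prime → p ∣ Nat.card G → Module.finrank ℂ V < p) (a b : G) : a * b = b * a := by
  obtain ⟨l, hl⟩ := exists_multiset_of_rep V ρ
  have hdegφ : ∀ φ : Cfsg.IrrCharacter G, ∃ d : ℕ, (φ : G → ℂ) 1 = d ∧ d ∣ Nat.card G ∧ d ≠ 0 := by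
    rintro ⟨_, n, σ, hσ, rfl⟩
    exact ⟨Module.finrank ℂ (Fin n → ℂ), Representation.char_one σ, Cfsg.Agent.S0135.result σ,
      finrank_ne_zero_of_irr σ hσ⟩
  choose deg hdeg1 hdeg2 hdeg3 using hdegφ
  have hsum : Module.finrank ℂ V = (l.map deg).sum := by
    have h1 := congrFun hl 1
    rw [Representation.char_one, multiset_sum_apply] at h1
    have h2 : (l.map (fun φ : Cfsg.IrrCharacter G => φ.1 1)).sum = (((l.map deg).sum : ℕ) : ℂ) := by
      rw [Nat.cast_multiset_sum, Multiset.map_map]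
      congr 1
      apply Multiset.map_congr rfl
      intro φ _
      exact hdeg1 φ
    rw [h2] at h1
    exact_mod_cast h1
  have hone : ∀ φ ∈ l, deg φ = 1 := by
    intro φ hφ
    by_contra hne
    obtain ⟨q, hq, hqd⟩ := Nat.exists_prime_and_dvd hne
    have h1 := hdeg q hq (hqd.trans (hdeg2 φ))
    have h2 : deg φ ≤ (l.map deg).sum := Multiset.le_sum_of_mem (Multiset.mem_map_of_mem deg hφ)
    have h3 : q ≤ deg φ := Nat.le_of_dvd (Nat.pos_of_ne_zero (hdeg3 φ)) hqd
    omega
  have hc : ρ.character (a * b * a⁻¹ * b⁻¹) = (Module.finrank ℂ V : ℂ) := by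
    rw [← Representation.char_one ρ, hl, multiset_sum_apply, multiset_sum_apply]
    congr 1
    apply Multiset.map_congr rfl
    intro φ hφ
    have h1 : (φ : G → ℂ) 1 = 1 := by rw [hdeg1, hone φ hφ]; simp
    obtain ⟨f, hf⟩ := Cfsg.Agent.Lib.Helper19.exists_hom_of_linear (φ : G → ℂ)
      ⟨isCharacter_of_isIrrCharacter φ.2, h1⟩
    rw [hf]
    simp only [Cfsg.Agent.Lib.Helper19.homFun]
    rw [map_mul, map_mul, map_mul, map_inv, map_inv, map_one, mul_comm (f a) (f b)]
    simp
  have h2 := (Cfsg.Agent.S0139.result ρ _).mp hc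
  have h3 : ρ (a * b * a⁻¹ * b⁻¹) = ρ 1 := by rw [h2, map_one]; rfl
  have h4 := hfaithful h3
  calc a * b = (a * b * a⁻¹ * b⁻¹) * (b * a) := by group
    _ = b * a := by rw [h4, one_mul]

end Cfsg.Agent.S0185
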