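import Cfsg.Statements.S0175
import Cfsg.Agent.S0135
import Cfsg.Agent.S0136
import Cfsg.Agent.S0185
import Cfsg.Agent.Lib.Helper5.IndDeg
import Cfsg.Agent.Lib.Helper4.CharBasic

set_option autoImplicit false
open Cfsg

namespace Cfsg.Agent.S0175

open Cfsg.Agent.Lib.Helper5 Cfsg.Agent.Lib.Helper20
open Cfsg.Agent.S0185 (multiset_sum_apply)

section
variable {G : Type*} [Group G] [Fintype G]

/-- if all irreducible characters of degree at most `d` are constant `χ 1` at `n`, so is any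
character of degree at most `d` -/
theorem char_const_of_irr_const (d : ℕ) (n : G)
    (h : ∀ χ : G → ℂ, Cfsg.IsIrrCharacter G χ → ∀ e : ℕ, χ 1 = e → e ≤ d → χ n = χ 1)
    {Δ : G → ℂ} (hΔ : Cfsg.IsCharacter G Δ) (hd : Δ 1 = d) : Δ n = Δ 1 := by
  obtain ⟨l, rfl⟩ := exists_multiset_of_isCharacter hΔ
  have hdegφ : ∀ φ : Cfsg.IrrCharacter G, ∃ d : ℕ, (φ : G → ℂ) 1 = d := fun φ =>
    isCharacter_apply_one (isCharacter_of_isIrrCharacter φ.2)
  choose deg hdeg1 using hdegφ
  have hsum : d = (l.map deg).sum := by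
    rw [multiset_sum_apply] at hd
    have h2 : (l.map (fun φ : Cfsg.IrrCharacter G => φ.1 1)).sum = (((l.map deg).sum : ℕ) : ℂ) := by
      rw [Nat.cast_multiset_sum, Multiset.map_map]
      congr 1
      apply Multiset.map_congr rfl
      intro φ _
      exact hdeg1 φ
    rw [h2] at hd
    exact_mod_cast hd.symm
  rw [multiset_sum_apply, multiset_sum_apply]
  congr 1
  apply Multiset.map_congr rfl
  intro φ hφ
  apply h φ.1 φ.2 (deg φ) (hdeg1 φ)
  rw [hsum]
  exact Multiset.le_sum_of_mem (Multiset.mem_map_of_mem deg hφ)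

theorem mem_of_indFun_one_eq (H : Subgroup G) (n : G)
    (h : Cfsg.indFun H (fun _ => (1 : ℂ)) n = Cfsg.indFun H (fun _ => (1 : ℂ)) 1) : n ∈ H := by
  classical
  rw [Cfsg.Agent.Lib.Helper19.indFun_one_apply, Cfsg.Agent.Lib.Helper19.indFun_one_apply] at h
  have hH : (Nat.card H : ℂ)⁻¹ ≠ 0 := inv_ne_zero (Cfsg.Agent.Lib.Helper19.card_ne_zero_complex H)
  have h1 := mul_left_cancel₀ hH h
  have h2 : (Finset.univ.filter fun x : G => x⁻¹ * n * x ∈ H).card
      = (Finset.univ.filter fun x : G => x⁻¹ * 1 * x ∈ H).card := by exact_mod_cast h1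
  have h3 : (Finset.univ.filter fun x : G => x⁻¹ * 1 * x ∈ H) = Finset.univ := by
    apply Finset.filter_true_of_mem
    intro x _
    simp [H.one_mem]
  rw [h3] at h2
  have h4 := (Finset.card_eq_iff_eq_univ _).mp h2
  have h5 : (1 : G) ∈ (Finset.univ.filter fun x : G => x⁻¹ * n * x ∈ H) := by rw [h4]; simp
  simpa using h5

theorem key (hM : ∀ χ : G → ℂ, Cfsg.IsIrrCharacter G χ → ∃ (H : Subgroup G) (lam : H →* ℂˣ),
    χ = Cfsg.indFun H (fun h => (lam h : ℂ))) (d : ℕ) :
    ∃ i : ℕ, ∀ χ : G → ℂ, Cfsg.IsIrrCharacter G χ → ∀ e : ℕ, χ 1 = e → e ≤ d →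
      ∀ n ∈ derivedSeries G i, χ n = χ 1 := by
  induction d with
  | zero =>
    refine ⟨0, ?_⟩
    intro χ hχ e he hle
    exfalso
    have : e = 0 := by omega
    rw [this] at he
    exact Cfsg.Agent.Lib.Helper4.irr_apply_one_ne_zero hχ (by simpa using he)
  | succ d ih =>
    obtain ⟨i, hi⟩ := ih
    refine ⟨i + 1, ?_⟩
    intro χ hχ e he hle n hn
    by_cases hed : e ≤ d
    · exact hi χ hχ e he hed n (derivedSeries_antitone G (Nat.le_succ i) hn)
    have hed' : e = d + 1 := by omega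
    obtain ⟨H, lam, rfl⟩ := hM χ hχ
    have := Fintype.ofFinite H
    have hidx : H.index = d + 1 := by
      rw [indFun_one, map_one, Units.val_one, mul_one, hed'] at he
      exact_mod_cast he
    -- the permutation character
    have hπ : Cfsg.IsCharacter G (Cfsg.indFun H (fun _ => (1 : ℂ))) :=
      Cfsg.Agent.Lib.Helper19.isCharacter_indFun H _ isCharacter_one
    have hone : Cfsg.IsIrrCharacter G (fun _ => (1 : ℂ)) := Cfsg.Agent.Lib.Helper4.isIrrCharacter_one
    have hπ1 : Cfsg.classInner (Cfsg.indFun H (fun _ => (1 : ℂ))) (fun _ => (1 : ℂ)) ≠ 0 := by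
      rw [Cfsg.Agent.Lib.Helper19.frobenius_reciprocity H _ _
        (isClassFunction_of_isCharacter (isCharacter_of_isIrrCharacter hone))]
      have : Cfsg.classInner (fun _ : H => (1 : ℂ)) (fun _ : H => (1 : ℂ)) = 1 :=
        classInner_irr_self Cfsg.Agent.Lib.Helper4.isIrrCharacter_one
      rw [this]
      exact one_ne_zero
    obtain ⟨Δ, hΔ, hsum⟩ := exists_add_of_constituent hπ hone hπ1
    have hΔ1 : Δ 1 = d := by
      have h1 := congrFun hsum 1
      rw [indFun_one, hidx, Pi.add_apply] at h1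
      push_cast at h1
      linear_combination -h1
    have hDH : derivedSeries G i ≤ H := by
      intro m hm
      apply mem_of_indFun_one_eq
      rw [hsum, Pi.add_apply, Pi.add_apply]
      congr 1
      exact char_const_of_irr_const d m (fun χ hχ e he hle => hi χ hχ e he hle m hm) hΔ hΔ1
    have hker : derivedSeries G (i + 1) ≤ (lam.ker).map H.subtype := by
      rw [derivedSeries_succ, Subgroup.commutator_le]
      intro a ha b hb
      refine ⟨(⟨a, hDH ha⟩ : H) * ⟨b, hDH hb⟩ * (⟨a, hDH ha⟩ : H)⁻¹ * (⟨b, hDH hb⟩ : H)⁻¹, ?_, ?_⟩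
      · rw [SetLike.mem_coe, MonoidHom.mem_ker, map_mul, map_mul, map_mul, map_inv, map_inv,
          mul_comm (lam ⟨a, hDH ha⟩) (lam ⟨b, hDH hb⟩)]
        simp
      · rw [commutatorElement_def]
        rfl
    have hnorm := derivedSeries_normal G (i + 1)
    have hval : ∀ x : G, Cfsg.extendByZero H (fun h => (lam h : ℂ)) (x⁻¹ * n * x) = 1 := by
      intro x
      have h1 : x⁻¹ * n * x⁻¹⁻¹ ∈ derivedSeries G (i + 1) := hnorm.conj_mem n hn x⁻¹
      rw [inv_inv] at h1
      obtain ⟨k, hk, hkx⟩ := hker h1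
      rw [← hkx]
      have h2 : Cfsg.extendByZero H (fun h => (lam h : ℂ)) (H.subtype k) = (lam k : ℂ) :=
        Cfsg.Agent.Lib.Helper19.extendByZero_coe H _ k
      rw [h2, MonoidHom.mem_ker.mp hk, Units.val_one]
    have hval1 : ∀ x : G, Cfsg.extendByZero H (fun h => (lam h : ℂ)) (x⁻¹ * 1 * x) = 1 := by
      intro x
      have h1 : x⁻¹ * 1 * x = H.subtype 1 := by simp
      rw [h1]
      have h2 : Cfsg.extendByZero H (fun h => (lam h : ℂ)) (H.subtype 1) = (lam 1 : ℂ) :=
        Cfsg.Agent.Lib.Helper19.extendByZero_coe H _ 1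
      rw [h2, map_one, Units.val_one]
    change (Nat.card H : ℂ)⁻¹ * ∑ x : G, Cfsg.extendByZero H (fun h => (lam h : ℂ)) (x⁻¹ * n * x)
      = (Nat.card H : ℂ)⁻¹ * ∑ x : G, Cfsg.extendByZero H (fun h => (lam h : ℂ)) (x⁻¹ * 1 * x)
    simp_rw [hval, hval1]

end

/-- Taketa's Theorem on M-groups: if every irreducible complex character of a finite group is induced from a linear character (a homomorphism to ℂˣ) of some subgroup, the group is solvable. -/
theorem result {G : Type*} [Group G] [Fintype G] (hM : ∀ χ : G → ℂ, Cfsg.IsIrrCharacter G χ → ∃ (H : Subgroup G) (lam : H →* ℂˣ), χ = Cfsg.indFun H (fun h => (lam h : ℂ))) : Group.IsSolvable G := by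
  obtain ⟨i, hi⟩ := key hM (Nat.card G)
  refine ⟨⟨i, ?_⟩⟩
  rw [eq_bot_iff]
  intro n hn
  rw [Subgroup.mem_bot]
  have h1 : IsConj n 1 := by
    rw [Cfsg.Agent.S0136.result]
    rintro ⟨χ, d, σ, hσ, rfl⟩
    apply hi σ.character ⟨d, σ, hσ, rfl⟩ _ (Representation.char_one σ) _ n hn
    exact Nat.le_of_dvd Nat.card_pos (Cfsg.Agent.S0135.result σ)
  obtain ⟨g, hg⟩ := isConj_iff.mp h1
  calc n = g⁻¹ * (g * n * g⁻¹) * g := by group
    _ = 1 := by rw [hg]; group

end Cfsg.Agent.S0175
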