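import Cfsg.Statements.S0660
-- import your own Cfsg.Agent.* helpers here
import Cfsg.Agent.Lib.Helper2.Gaschutz

set_option autoImplicit false
open Cfsg

namespace Cfsg.Agent.S0660

open Subgroup in
/-- type-level version: `V` abelian normal, `U ≤ V` normal in `X`, `|U|` coprime to `|X:V|`. -/
lemma core {X : Type*} [Group X] [Finite X] (V U W : Subgroup X) [V.Normal] [U.Normal]
    (hVab : ∀ a ∈ V, ∀ b ∈ V, a * b = b * a) (hUV : U ≤ V)
    (hcop : (Nat.card U).Coprime V.index) (hUW : W ⊓ U = ⊥) (hUWV : U ⊔ W = V) :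
    ∃ W' : Subgroup X, W' ≤ V ∧ W'.Normal ∧ U ⊓ W' = ⊥ ∧ U ⊔ W' = V := by
  have hUc : IsMulCommutative U :=
    ⟨⟨fun a b => Subtype.ext (hVab a (hUV a.2) b (hUV b.2))⟩⟩
  obtain ⟨H, hH⟩ := Cfsg.Agent.Lib.Helper2.gaschutz_exists U V W hcop hUW hUWV
  refine ⟨H ⊓ V, inf_le_right, ?_, ?_, ?_⟩
  · constructor
    intro w hw x
    obtain ⟨hwH, hwV⟩ := mem_inf.mp hw
    obtain ⟨⟨u, h⟩, rfl⟩ := hH.2 x
    change (u : X) * h * w * ((u : X) * h)⁻¹ ∈ H ⊓ V
    have h1 : (h : X) * w * (h : X)⁻¹ ∈ H ⊓ V :=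
      mem_inf.mpr ⟨H.mul_mem (H.mul_mem h.2 hwH) (H.inv_mem h.2), ‹V.Normal›.conj_mem w hwV h⟩
    have h2 : (u : X) * h * w * ((u : X) * h)⁻¹ = (h : X) * w * (h : X)⁻¹ := by
      have h3 := hVab u (hUV u.2) _ (mem_inf.mp h1).2
      calc (u : X) * h * w * ((u : X) * h)⁻¹ = ((u : X) * ((h : X) * w * (h : X)⁻¹)) * (u : X)⁻¹ := by
            group
        _ = (h : X) * w * (h : X)⁻¹ := by rw [h3]; group
    rw [h2]
    exact h1
  · rw [← inf_assoc, hH.disjoint.eq_bot, bot_inf_eq]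
  · apply le_antisymm (sup_le hUV inf_le_right)
    intro v hv
    obtain ⟨⟨u, h⟩, rfl⟩ := hH.2 v
    change (u : X) * h ∈ V at hv
    change (u : X) * h ∈ U ⊔ H ⊓ V
    have hh : (h : X) ∈ V := by
      have : (h : X) = (u : X)⁻¹ * ((u : X) * h) := by group
      rw [this]
      exact V.mul_mem (V.inv_mem (hUV u.2)) hv
    exact mul_mem (mem_sup_left u.2) (mem_sup_right (mem_inf.mpr ⟨h.2, hh⟩))

/-- Under a coprime action on an abelian group, an invariant subgroup that is complemented admits an invariant complement. -/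
theorem result {G : Type*} [Group G] [Finite G] (V A U : Subgroup G) (hVab : IsMulCommutative V) (hAV : A ≤ Subgroup.normalizer (V : Set G)) (hcop : (Nat.card A).Coprime (Nat.card V)) (hUV : U ≤ V) (hAU : A ≤ Subgroup.normalizer (U : Set G)) (W : Subgroup G) (hWV : W ≤ V) (hUW : U ⊓ W = ⊥) (hUWV : U ⊔ W = V) : ∃ W' : Subgroup G, W' ≤ V ∧ A ≤ Subgroup.normalizer (W' : Set G) ∧ U ⊓ W' = ⊥ ∧ U ⊔ W' = V := by
  have hcomm : ∀ a ∈ V, ∀ b ∈ V, a * b = b * a := by
    intro a ha b hb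
    exact congrArg Subtype.val (mul_comm' (⟨a, ha⟩ : V) ⟨b, hb⟩)
  obtain ⟨X, hX⟩ : ∃ X : Subgroup G, X = A ⊔ V := ⟨_, rfl⟩
  have hAX : A ≤ X := hX ▸ le_sup_left
  have hVX : V ≤ X := hX ▸ le_sup_right
  have hVU : V ≤ Subgroup.normalizer (U : Set G) := by
    intro v hv
    rw [Subgroup.mem_normalizer_iff]
    intro u
    constructor
    · intro hu
      rw [hcomm v hv u (hUV hu), mul_inv_cancel_right]
      exact hu
    · intro hu
      have h1 := hcomm v⁻¹ (V.inv_mem hv) _ (hUV hu)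
      have h2 : u = v⁻¹ * (v * u * v⁻¹) * v := by group
      rw [h2, h1, inv_mul_cancel_right]
      exact hu
  have hXU : X ≤ Subgroup.normalizer (U : Set G) := hX ▸ sup_le hAU hVU
  have hXV : X ≤ Subgroup.normalizer (V : Set G) := hX ▸ sup_le hAV Subgroup.le_normalizer
  have hn1 : (V.subgroupOf X).Normal := (Subgroup.normal_subgroupOf_iff_le_normalizer hVX).mpr hXV
  have hn2 : (U.subgroupOf X).Normal :=
    (Subgroup.normal_subgroupOf_iff_le_normalizer (hUV.trans hVX)).mpr hXU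
  have hidx : (V.subgroupOf X).index ∣ Nat.card A := by
    have h1 : A.subgroupOf X ⊔ V.subgroupOf X = ⊤ := by
      rw [← Subgroup.subgroupOf_sup hAX hVX, ← hX, Subgroup.subgroupOf_self]
    rw [← Subgroup.relIndex_top_right, ← h1, Subgroup.relIndex_sup_right,
      ← Nat.card_congr (Subgroup.subgroupOfEquivOfLe hAX).toEquiv]
    exact Subgroup.relIndex_dvd_card _ _
  have hcop' : (Nat.card (U.subgroupOf X)).Coprime (V.subgroupOf X).index := by
    rw [Nat.card_congr (Subgroup.subgroupOfEquivOfLe (hUV.trans hVX)).toEquiv]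
    exact (Nat.Coprime.coprime_dvd_left hidx
      (Nat.Coprime.coprime_dvd_right (Subgroup.card_dvd_of_le hUV) hcop)).symm
  obtain ⟨W', h1, h2, h3, h4⟩ := core (V.subgroupOf X) (U.subgroupOf X) (W.subgroupOf X)
    (fun a ha b hb => Subtype.ext (hcomm a ha b hb))
    (Subgroup.comap_mono hUV) hcop'
    (by
      have : W.subgroupOf X ⊓ U.subgroupOf X = (W ⊓ U).subgroupOf X := rfl
      rw [this, inf_comm, hUW]
      exact Subgroup.bot_subgroupOf X)
    (by rw [← Subgroup.subgroupOf_sup (hUV.trans hVX) (hWV.trans hVX), hUWV])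
  have e1 : (V.subgroupOf X).map X.subtype = V := Subgroup.map_subgroupOf_eq_of_le hVX
  have e2 : (U.subgroupOf X).map X.subtype = U := Subgroup.map_subgroupOf_eq_of_le (hUV.trans hVX)
  refine ⟨W'.map X.subtype, ?_, ?_, ?_, ?_⟩
  · rw [← e1]; exact Subgroup.map_mono h1
  · have h5 := Subgroup.le_normalizer_map (H := W') X.subtype
    rw [Subgroup.normalizer_eq_top, ← MonoidHom.range_eq_map, Subgroup.range_subtype] at h5
    exact hAX.trans h5
  · rw [← e2, ← Subgroup.map_inf _ _ _ X.subtype_injective, h3, Subgroup.map_bot]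
  · rw [← e2, ← Subgroup.map_sup, h4, e1]

end Cfsg.Agent.S0660
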