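import Cfsg.Statements.S4381
import Cfsg.Agent.S0660
import Cfsg.Agent.Lib.Helper1.Coprime3
import Cfsg.Agent.Lib.Helper3.PGroup

set_option autoImplicit false
open Pointwise
open Cfsg

namespace Cfsg.Agent.S4381


section aux

theorem exists_isCompl_add {M : Type*} [AddCommGroup M] {p : ℕ} [Fact p.Prime] [Module (ZMod p) M]
    (U : AddSubgroup M) : ∃ W : AddSubgroup M, IsCompl U W := by
  obtain ⟨W, hW⟩ := Submodule.exists_isCompl (AddSubgroup.toZModSubmodule p U)
  refine ⟨(AddSubgroup.toZModSubmodule p).symm W, ?_⟩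
  have := (AddSubgroup.toZModSubmodule p).symm.isCompl hW
  rwa [OrderIso.symm_apply_apply] at this

/-- complements in elementary abelian groups -/
theorem exists_isCompl_comm {V : Type*} [CommGroup V] {p : ℕ} [Fact p.Prime] (he : ∀ x : V, x ^ p = 1)
    (U : Subgroup V) : ∃ W : Subgroup V, IsCompl U W := by
  let _ : Module (ZMod p) (Additive V) := AddCommGroup.zmodModule (n := p) (fun x => by
    induction x using Additive.rec with
    | ofMul x => rw [← ofMul_pow, he]; rfl)
  obtain ⟨W, hW⟩ := exists_isCompl_add (p := p) (Subgroup.toAddSubgroup U)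
  refine ⟨Subgroup.toAddSubgroup.symm W, ?_⟩
  have := Subgroup.toAddSubgroup.symm.isCompl hW
  rwa [OrderIso.symm_apply_apply] at this

theorem exists_compl_amb {Γ : Type*} [Group Γ] {p : ℕ} [Fact p.Prime] (V U : Subgroup Γ)
    (hc : ∀ x ∈ V, ∀ y ∈ V, x * y = y * x) (he : ∀ x ∈ V, x ^ p = 1) (hUV : U ≤ V) :
    ∃ W : Subgroup Γ, W ≤ V ∧ U ⊓ W = ⊥ ∧ U ⊔ W = V := by
  let _ : CommGroup V := { (inferInstance : Group V) with
    mul_comm := fun a b => Subtype.ext (hc a a.2 b b.2) }
  obtain ⟨W, hW⟩ := exists_isCompl_comm (p := p) (fun x : V => Subtype.ext (by simpa using he x x.2))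
    (U.subgroupOf V)
  refine ⟨W.map V.subtype, Subgroup.map_subtype_le _, ?_, ?_⟩
  · have h1 : (U.subgroupOf V ⊓ W).map V.subtype = ⊥ := by rw [hW.inf_eq_bot, Subgroup.map_bot]
    rwa [Subgroup.map_inf _ _ _ V.subtype_injective, Subgroup.map_subgroupOf_eq_of_le hUV] at h1
  · have h1 : (U.subgroupOf V ⊔ W).map V.subtype = V := by
      rw [hW.sup_eq_top, ← MonoidHom.range_eq_map, Subgroup.range_subtype]
    rwa [Subgroup.map_sup, Subgroup.map_subgroupOf_eq_of_le hUV] at h1

end aux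

variable {A G : Type*} [Group A] [Group G] [MulDistribMulAction A G]

/-- `L` is invariant under the action. -/
def Inv (A : Type*) {G : Type*} [Group A] [Group G] [MulDistribMulAction A G] (L : Subgroup G) : Prop :=
  ∀ a : A, ∀ x ∈ L, a • x ∈ L

def MaxInv (A : Type*) {G : Type*} [Group A] [Group G] [MulDistribMulAction A G] (M : Subgroup G) : Prop :=
  M ≠ ⊤ ∧ (∀ a : A, ∀ x ∈ M, a • x ∈ M) ∧
    ∀ L : Subgroup G, M < L → (∀ a : A, ∀ x ∈ L, a • x ∈ L) → L = ⊤

theorem inv_frattini : Inv A (frattini G) := by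
  intro a x hx
  have h := (frattini_characteristic (G := G)).fixed (MulDistribMulAction.toMulAut A G a)
  have h2 : (MulDistribMulAction.toMulAut A G a) x ∈ (frattini G) := by
    have : x ∈ (frattini G).comap (MulDistribMulAction.toMulAut A G a).toMonoidHom := by rw [h]; exact hx
    exact this
  exact h2

theorem inv_sup {H K : Subgroup G} (hH : Inv A H) (hK : Inv A K) : Inv A (H ⊔ K) := by
  intro a x hx
  have h1 : H ⊔ K ≤ (H ⊔ K).comap (MulDistribMulAction.toMonoidHom G a) := by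
    apply sup_le
    · intro y hy; exact Subgroup.mem_sup_left (hH a y hy)
    · intro y hy; exact Subgroup.mem_sup_right (hK a y hy)
  exact h1 hx

theorem exists_max [Finite G] (H : Subgroup G) (hH : H ≠ ⊤) (hinv : Inv A H) :
    ∃ M, H ≤ M ∧ MaxInv A M := by
  obtain ⟨M, hM⟩ := Set.Finite.exists_maximal
    (s := {L : Subgroup G | H ≤ L ∧ L ≠ ⊤ ∧ Inv A L}) (Set.toFinite _) ⟨H, le_rfl, hH, hinv⟩
  refine ⟨M, hM.prop.1, hM.prop.2.1, hM.prop.2.2, fun L hL hLinv => ?_⟩
  by_contra hne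
  exact absurd (hM.le_of_ge (y := L) ⟨hM.prop.1.trans hL.le, hne, hLinv⟩ hL.le) (not_le_of_gt hL)

theorem inv_normalizer {M : Subgroup G} (hM : Inv A M) : Inv A (Subgroup.normalizer (M : Set G)) := by
  intro a x hx
  rw [Subgroup.mem_normalizer_iff] at hx ⊢
  intro h
  have key : (a • x) * h * (a • x)⁻¹ = a • (x * (a⁻¹ • h) * x⁻¹) := by
    simp [smul_mul', smul_inv']
  rw [key]
  constructor
  · intro hh
    exact hM a _ ((hx _).1 (hM a⁻¹ h hh))
  · intro hh
    have h1 := hM a⁻¹ _ hh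
    rw [inv_smul_smul] at h1
    have h2 := hM a _ ((hx _).2 h1)
    rwa [smul_inv_smul] at h2


open Cfsg.Agent.Lib.Helper1 in
theorem inv_sylow [Finite A] [Finite G] (hcop : (Nat.card A).Coprime (Nat.card G))
    (hsol : Group.IsSolvable A ∨ Group.IsSolvable G) (r : ℕ) [Fact r.Prime] :
    ∃ R : Subgroup G, Inv A R ∧ IsPGroup r R ∧ ¬ r ∣ R.index := by
  let φ : A →* MulAut G := MulDistribMulAction.toMulAut A G
  let i : G →* G ⋊[φ] A := SemidirectProduct.inl
  let j : A →* G ⋊[φ] A := SemidirectProduct.inr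
  have hi : Function.Injective i := SemidirectProduct.inl_injective
  have hj : Function.Injective j := SemidirectProduct.inr_injective
  have hconj : ∀ (a : A) (g : G), j a * i g * (j a)⁻¹ = i (a • g) := by
    intro a g
    have := SemidirectProduct.inl_aut (φ := φ) a g
    rw [map_inv] at this
    exact this.symm
  set N : Subgroup (G ⋊[φ] A) := i.range with hN
  set B : Subgroup (G ⋊[φ] A) := j.range with hB
  have hcardN : Nat.card N = Nat.card G :=
    (Nat.card_congr (MonoidHom.ofInjective hi).toEquiv).symm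
  have hcardB : Nat.card B = Nat.card A :=
    (Nat.card_congr (MonoidHom.ofInjective hj).toEquiv).symm
  have hBN : B ≤ Subgroup.normalizer (N : Set (G ⋊[φ] A)) := by
    rw [Subgroup.le_normalizer_iff]
    rintro _ ⟨a, rfl⟩ _ ⟨g, rfl⟩
    exact ⟨a • g, (hconj a g).symm⟩
  have hcop' : (Nat.card B).Coprime (Nat.card N) := by rw [hcardN, hcardB]; exact hcop
  have hfin : Finite (G ⋊[φ] A) := Finite.of_equiv _ SemidirectProduct.equivProd.symm
  have hsol' : Group.IsSolvable B ∨ Group.IsSolvable N := by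
    rcases hsol with h | h
    · left
      exact Group.isSolvable_of_surjective (f := j.rangeRestrict) j.rangeRestrict_surjective
    · right
      exact Group.isSolvable_of_surjective (f := i.rangeRestrict) i.rangeRestrict_surjective
  obtain ⟨Q, ⟨hQN, hQp, hQi⟩, hBQ⟩ := coprime_exists_invariant_sylow B N hBN hcop' hsol' r
  refine ⟨Q.comap i, ?_, ?_, ?_⟩
  · intro a x hx
    show i (a • x) ∈ Q
    rw [← hconj]
    exact (Subgroup.le_normalizer_iff.mp hBQ) (j a) ⟨a, rfl⟩ _ hx
  · exact hQp.comap_of_injective i hi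
  · rw [Subgroup.index_comap]
    exact hQi

open scoped commutatorElement in
theorem maschke [Finite A] [Finite G] {p : ℕ} [Fact p.Prime] (hG : IsPGroup p G)
    (hcop : (Nat.card A).Coprime (Nat.card G)) (M : Subgroup G) (hΦ : frattini G ≤ M) (hM : Inv A M) :
    ∃ C : Subgroup G, Inv A C ∧ C ⊔ M = ⊤ ∧ C ⊓ M ≤ frattini G := by
  let φ : A →* MulAut G := MulDistribMulAction.toMulAut A G
  let i : G →* G ⋊[φ] A := SemidirectProduct.inl
  let j : A →* G ⋊[φ] A := SemidirectProduct.inr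
  have hi : Function.Injective i := SemidirectProduct.inl_injective
  have hconj : ∀ (a : A) (g : G), j a * i g * (j a)⁻¹ = i (a • g) := by
    intro a g
    have := SemidirectProduct.inl_aut (φ := φ) a g
    rw [map_inv] at this
    exact this.symm
  have hfin : Finite (G ⋊[φ] A) := Finite.of_equiv _ SemidirectProduct.equivProd.symm
  have hFn : ((frattini G).map i).Normal := by
    refine ⟨?_⟩
    rintro _ ⟨f, hf, rfl⟩ γ
    have hγ : γ = i γ.left * j γ.right := (SemidirectProduct.inl_left_mul_inr_right γ).symm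
    rw [hγ]
    refine ⟨γ.left * (γ.right • f) * γ.left⁻¹, ?_, ?_⟩
    · exact (inferInstance : (frattini G).Normal).conj_mem _ (inv_frattini γ.right f hf) _
    · rw [map_mul, map_mul, ← hconj, map_inv]
      group
  let π : (G ⋊[φ] A) →* (G ⋊[φ] A) ⧸ (frattini G).map i := QuotientGroup.mk' _
  let ι : G →* (G ⋊[φ] A) ⧸ (frattini G).map i := π.comp i
  let κ : A →* (G ⋊[φ] A) ⧸ (frattini G).map i := π.comp j
  have hker : ∀ x : G, ι x = 1 ↔ x ∈ frattini G := by
    intro x
    show π (i x) = 1 ↔ _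
    rw [QuotientGroup.mk'_apply, QuotientGroup.eq_one_iff]
    constructor
    · rintro ⟨y, hy, hyx⟩
      rwa [← hi hyx]
    · intro hx; exact ⟨x, hx, rfl⟩
  have hker' : ι.ker = frattini G := by
    ext x; rw [MonoidHom.mem_ker, hker]
  have hconj' : ∀ (a : A) (g : G), κ a * ι g * (κ a)⁻¹ = ι (a • g) := by
    intro a g
    show π (j a) * π (i g) * (π (j a))⁻¹ = π (i (a • g))
    rw [← hconj, map_mul, map_mul, map_inv]
  have hVc : ∀ x ∈ ι.range, ∀ y ∈ ι.range, x * y = y * x := by
    rintro _ ⟨g, rfl⟩ _ ⟨h, rfl⟩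
    have h1 : ⁅g, h⁆ ∈ frattini G :=
      Cfsg.Agent.Lib.Helper3.commutator_le_frattini hG (Subgroup.commutator_mem_commutator (Subgroup.mem_top g) (Subgroup.mem_top h))
    have h2 := (hker _).2 h1
    rw [commutatorElement_def, map_mul, map_mul, map_mul, map_inv, map_inv] at h2
    have h3 : ι g * ι h = (ι g * ι h * (ι g)⁻¹ * (ι h)⁻¹) * (ι h * ι g) := by group
    rw [h3, h2, one_mul]
  have hVe : ∀ x ∈ ι.range, x ^ p = 1 := by
    rintro _ ⟨g, rfl⟩
    rw [← map_pow, hker]
    exact Cfsg.Agent.Lib.Helper3.pow_p_mem_frattini hG g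
  have hUV : M.map ι ≤ ι.range := by
    rintro _ ⟨m, -, rfl⟩; exact ⟨m, rfl⟩
  obtain ⟨W, hWV, hUW, hUWV⟩ := exists_compl_amb (p := p) ι.range (M.map ι) hVc hVe hUV
  have hVab : IsMulCommutative ι.range := ⟨⟨fun a b => Subtype.ext (hVc a a.2 b b.2)⟩⟩
  have hBV : κ.range ≤ Subgroup.normalizer (ι.range : Set _) := by
    rw [Subgroup.le_normalizer_iff]
    rintro _ ⟨a, rfl⟩ _ ⟨g, rfl⟩
    exact ⟨a • g, (hconj' a g).symm⟩
  have hBU : κ.range ≤ Subgroup.normalizer ((M.map ι : Subgroup _) : Set _) := by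
    rw [Subgroup.le_normalizer_iff]
    rintro _ ⟨a, rfl⟩ _ ⟨g, hg, rfl⟩
    exact ⟨a • g, hM a g hg, (hconj' a g).symm⟩
  have hcop' : (Nat.card κ.range).Coprime (Nat.card ι.range) :=
    Nat.Coprime.of_dvd (Subgroup.card_range_dvd κ) (Subgroup.card_range_dvd ι) hcop
  obtain ⟨W', hW'V, hBW', hUW', hUW'V⟩ :=
    Cfsg.Agent.S0660.result ι.range κ.range (M.map ι) hVab hBV hcop' hUV hBU W hWV hUW hUWV
  refine ⟨W'.comap ι, ?_, ?_, ?_⟩
  · intro a x hx
    show ι (a • x) ∈ W'
    rw [← hconj']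
    exact (Subgroup.le_normalizer_iff.mp hBW') (κ a) ⟨a, rfl⟩ _ hx
  · apply Subgroup.map_injective_of_ker_le ι
    · rw [hker']; exact hΦ.trans le_sup_right
    · exact le_top
    · rw [Subgroup.map_sup, Subgroup.map_comap_eq, inf_eq_right.mpr hW'V, sup_comm, hUW'V,
        MonoidHom.range_eq_map]
  · intro x hx
    rw [← hker]
    have : ι x ∈ M.map ι ⊓ W' := ⟨⟨x, hx.2, rfl⟩, hx.1⟩
    rwa [hUW', Subgroup.mem_bot] at this


/-- Let the finite group A act by automorphisms on the finite group G with the orders of A and G coprime, and assume that A or G is solvable. Call a proper A-invariant subgroup of G maximal A-invariant when no A-invariant subgroup lies strictly between it and G. Then all maximal A-invariant subgroups of G are conjugate under elements of the fixed-point subgroup C_G(A) if and only if G is a p-group for some prime p and A leaves invariant no subgroup strictly between the Frattini subgroup of G and G. In that case, if G is nontrivial, the Frattini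 subgroup is the only maximal A-invariant subgroup (a trivial G has none). -/
theorem result {A G : Type*} [Group A] [Finite A]
    [Group G] [Finite G] [MulDistribMulAction A G] (hcop : (Nat.card A).Coprime (Nat.card G)) (hsol : Group.IsSolvable A ∨ Group.IsSolvable G) :
    ((∀ M N : Subgroup G, (M ≠ ⊤ ∧ (∀ a : A, ∀ x ∈ M, a • x ∈ M) ∧ ∀ L : Subgroup G, M < L → (∀ a : A, ∀ x ∈ L, a • x ∈ L) → L = ⊤) → (N ≠ ⊤ ∧ (∀ a : A, ∀ x ∈ N, a • x ∈ N) ∧ ∀ L : Subgroup G, N < L → (∀ a : A, ∀ x ∈ L, a • x ∈ L) → L = ⊤) →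
        ∃ c : G, (∀ a : A, a • c = c) ∧ N = MulAut.conj c • M) ↔
      ((∃ p : ℕ, p.Prime ∧ IsPGroup p G) ∧ ∀ L : Subgroup G, frattini G < L → (∀ a : A, ∀ x ∈ L, a • x ∈ L) → L = ⊤)) ∧
    (((∃ p : ℕ, p.Prime ∧ IsPGroup p G) ∧ ∀ L : Subgroup G, frattini G < L → (∀ a : A, ∀ x ∈ L, a • x ∈ L) → L = ⊤) →
      ∀ M : Subgroup G, (M ≠ ⊤ ∧ (∀ a : A, ∀ x ∈ M, a • x ∈ M) ∧ ∀ L : Subgroup G, M < L → (∀ a : A, ∀ x ∈ L, a • x ∈ L) → L = ⊤) ↔ (M = frattini G ∧ M ≠ ⊤)) := by
  have hnong : ∀ K : Subgroup G, K ⊔ frattini G = ⊤ → K = ⊤ := fun K h => frattini_nongenerating h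
  -- a maximal invariant subgroup contains the Frattini subgroup
  have hΦle : ∀ M : Subgroup G, MaxInv A M → frattini G ≤ M := by
    intro M hM
    by_contra hne
    have h1 : M < M ⊔ frattini G := by
      refine lt_of_le_of_ne le_sup_left fun h => hne ?_
      rw [h]; exact le_sup_right
    exact hM.1 (hnong M (hM.2.2 _ h1 (inv_sup hM.2.1 inv_frattini)))
  -- second part
  have part2 : (∀ L : Subgroup G, frattini G < L → (∀ a : A, ∀ x ∈ L, a • x ∈ L) → L = ⊤) →
      ∀ M : Subgroup G, MaxInv A M ↔ (M = frattini G ∧ M ≠ ⊤) := by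
    intro h M
    constructor
    · intro hM
      refine ⟨?_, hM.1⟩
      by_contra hne
      exact hM.1 (h M (lt_of_le_of_ne (hΦle M hM) (Ne.symm hne)) hM.2.1)
    · rintro ⟨rfl, hne⟩
      exact ⟨hne, inv_frattini, h⟩
  refine ⟨⟨?_, ?_⟩, fun h => part2 h.2⟩
  · intro hconj
    have hconj' : ∀ M N : Subgroup G, MaxInv A M → MaxInv A N → ∃ c : G, N = MulAut.conj c • M := by
      intro M N hM hN
      obtain ⟨c, -, hc⟩ := hconj M N hM hN
      exact ⟨c, hc⟩
    -- G is a p-group
    have hp : ∃ p : ℕ, p.Prime ∧ IsPGroup p G := by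
      by_contra hno
      push Not at hno
      have hR : ∀ r : ℕ, r.Prime → ∃ M : Subgroup G, MaxInv A M ∧ ¬ r ∣ M.index := by
        intro r hr
        have : Fact r.Prime := ⟨hr⟩
        obtain ⟨R, hRi, hRp, hRd⟩ := inv_sylow (A := A) (G := G) hcop hsol r
        have hRt : R ≠ ⊤ := by
          rintro rfl
          exact hno r hr (hRp.of_equiv Subgroup.topEquiv)
        obtain ⟨M, hRM, hM⟩ := exists_max R hRt hRi
        exact ⟨M, hM, fun hd => hRd (hd.trans (Subgroup.index_dvd_of_le hRM))⟩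
      obtain ⟨M₀, hM₀, -⟩ := hR 2 Nat.prime_two
      apply hM₀.1
      rw [← Subgroup.index_eq_one]
      by_contra h1
      obtain ⟨r, hr, hrd⟩ := Nat.exists_prime_and_dvd h1
      obtain ⟨M, hM, hMd⟩ := hR r hr
      obtain ⟨c, hc⟩ := hconj' M₀ M hM₀ hM
      apply hMd
      have hidx : (MulAut.conj c • M₀).index = M₀.index := by
        show (M₀.map (MulAut.conj c).toMonoidHom).index = _
        exact Subgroup.index_map_of_bijective (MulAut.conj c).bijective M₀
      rw [hc, hidx]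
      exact hrd
    refine ⟨hp, ?_⟩
    obtain ⟨p, hpp, hG⟩ := hp
    have : Fact p.Prime := ⟨hpp⟩
    intro L hL hLinv
    by_contra hLt
    obtain ⟨M, hLM, hM⟩ := exists_max L hLt hLinv
    have : Group.IsNilpotent G := hG.isNilpotent
    have hMn : Subgroup.normalizer (M : Set G) = ⊤ :=
      hM.2.2 _ (Group.normalizerCondition_of_isNilpotent M (lt_top_iff_ne_top.2 hM.1)) (inv_normalizer hM.2.1)
    have huniq : ∀ C : Subgroup G, C ≠ ⊤ → Inv A C → C ≤ M := by
      intro C hC hCi
      obtain ⟨N, hCN, hN⟩ := exists_max C hC hCi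
      obtain ⟨c, hc⟩ := hconj' M N hM hN
      have : MulAut.conj c • M = M := by
        have hcn : c ∈ Subgroup.normalizer (M : Set G) := by rw [hMn]; trivial
        exact Cfsg.Agent.Lib.Helper1.mem_normalizer_iff_conj_smul.mp hcn
      rw [hc, this] at hCN
      exact hCN
    obtain ⟨C, hCi, hCM, hCΦ⟩ := maschke hG hcop M (hΦle M hM) hM.2.1
    by_cases hC : C = ⊤
    · rw [hC, top_inf_eq] at hCΦ
      exact absurd (hL.trans_le (hLM.trans hCΦ)) (lt_irrefl _)
    · apply hM.1
      rw [← hCM, eq_comm, sup_eq_right]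
      exact huniq C hC hCi
  · rintro ⟨-, h⟩ M N hM hN
    refine ⟨1, fun a => smul_one a, ?_⟩
    rw [((part2 h M).1 hM).1, ((part2 h N).1 hN).1, map_one, one_smul]

end Cfsg.Agent.S4381
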