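import Cfsg.Statements.S3775
import Cfsg.Agent.S0660
import Cfsg.Agent.S4381

set_option autoImplicit false
open Cfsg

namespace Cfsg.Agent.S3775


/-- invariance under the automorphisms in `X` -/
def Inv {A : Type*} [CommGroup A] (X : Subgroup (MulAut A)) (B : Subgroup A) : Prop :=
  ∀ x ∈ X, ∀ b ∈ B, x b ∈ B

theorem inv_iff {A : Type*} [CommGroup A] (X : Subgroup (MulAut A)) (B : Subgroup A) :
    (∀ x ∈ X, B.map x.toMonoidHom = B) ↔ Inv X B := by
  constructor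
  · intro h x hx b hb
    rw [← h x hx]
    exact ⟨b, hb, rfl⟩
  · intro h x hx
    apply le_antisymm
    · rintro _ ⟨b, hb, rfl⟩
      exact h x hx b hb
    · intro b hb
      refine ⟨x⁻¹ b, h _ (X.inv_mem hx) b hb, ?_⟩
      show x (x⁻¹ b) = b
      simp

theorem maschke_rel {A : Type*} [CommGroup A] [Finite A] {p : ℕ} [Fact p.Prime] (hA : IsPGroup p A)
    (X : Subgroup (MulAut A)) (hX : (Nat.card X).Coprime p) (K W Ω : Subgroup A)
    (hK : Inv X K) (hW : Inv X W) (hΩ : Inv X Ω) (hKW : K ≤ W) (hWΩ : W ≤ Ω)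
    (hp : ∀ a ∈ Ω, a ^ p ∈ K) :
    ∃ E : Subgroup A, Inv X E ∧ K ≤ E ∧ E ≤ Ω ∧ E ⊓ W ≤ K ∧ E ⊔ W = Ω := by
  let φ : X →* MulAut A := X.subtype
  let i : A →* A ⋊[φ] X := SemidirectProduct.inl
  let j : X →* A ⋊[φ] X := SemidirectProduct.inr
  have hi : Function.Injective i := SemidirectProduct.inl_injective
  have hconj : ∀ (a : X) (g : A), j a * i g * (j a)⁻¹ = i ((a : MulAut A) g) := by
    intro a g
    have := SemidirectProduct.inl_aut (φ := φ) a g
    rw [map_inv] at this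
    exact this.symm
  have hfin : Finite (A ⋊[φ] X) := Finite.of_equiv _ SemidirectProduct.equivProd.symm
  have hFn : (K.map i).Normal := by
    refine ⟨?_⟩
    rintro _ ⟨f, hf, rfl⟩ γ
    have hγ : γ = i γ.left * j γ.right := (SemidirectProduct.inl_left_mul_inr_right γ).symm
    rw [hγ]
    refine ⟨γ.left * ((γ.right : MulAut A) f) * γ.left⁻¹, ?_, ?_⟩
    · rw [mul_comm, inv_mul_cancel_left]
      exact hK _ γ.right.2 f hf
    · rw [map_mul, map_mul, ← hconj, map_inv]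
      group
  let π : (A ⋊[φ] X) →* (A ⋊[φ] X) ⧸ K.map i := QuotientGroup.mk' _
  let ι : A →* (A ⋊[φ] X) ⧸ K.map i := π.comp i
  let κ : X →* (A ⋊[φ] X) ⧸ K.map i := π.comp j
  have hker : ∀ x : A, ι x = 1 ↔ x ∈ K := by
    intro x
    show π (i x) = 1 ↔ _
    rw [QuotientGroup.mk'_apply, QuotientGroup.eq_one_iff]
    constructor
    · rintro ⟨y, hy, hyx⟩
      rwa [← hi hyx]
    · intro hx; exact ⟨x, hx, rfl⟩
  have hker' : ι.ker = K := by
    ext x; rw [MonoidHom.mem_ker, hker]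
  have hconj' : ∀ (a : X) (g : A), κ a * ι g * (κ a)⁻¹ = ι ((a : MulAut A) g) := by
    intro a g
    show π (j a) * π (i g) * (π (j a))⁻¹ = π (i ((a : MulAut A) g))
    rw [← hconj, map_mul, map_mul, map_inv]
  have hVc : ∀ x ∈ Ω.map ι, ∀ y ∈ Ω.map ι, x * y = y * x := by
    rintro _ ⟨g, -, rfl⟩ _ ⟨h, -, rfl⟩
    rw [← map_mul, ← map_mul, mul_comm]
  have hVe : ∀ x ∈ Ω.map ι, x ^ p = 1 := by
    rintro _ ⟨g, hg, rfl⟩
    rw [← map_pow, hker]
    exact hp g hg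
  have hUV : W.map ι ≤ Ω.map ι := Subgroup.map_mono hWΩ
  obtain ⟨W0, hWV, hUW, hUWV⟩ := Cfsg.Agent.S4381.exists_compl_amb (p := p) (Ω.map ι) (W.map ι) hVc hVe hUV
  have hVab : IsMulCommutative (Ω.map ι) := ⟨⟨fun a b => Subtype.ext (hVc a a.2 b b.2)⟩⟩
  have hBV : κ.range ≤ Subgroup.normalizer ((Ω.map ι : Subgroup _) : Set _) := by
    rw [Subgroup.le_normalizer_iff]
    rintro _ ⟨a, rfl⟩ _ ⟨g, hg, rfl⟩
    exact ⟨(a : MulAut A) g, hΩ _ a.2 g hg, (hconj' a g).symm⟩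
  have hBU : κ.range ≤ Subgroup.normalizer ((W.map ι : Subgroup _) : Set _) := by
    rw [Subgroup.le_normalizer_iff]
    rintro _ ⟨a, rfl⟩ _ ⟨g, hg, rfl⟩
    exact ⟨(a : MulAut A) g, hW _ a.2 g hg, (hconj' a g).symm⟩
  have hcop' : (Nat.card κ.range).Coprime (Nat.card (Ω.map ι)) := by
    obtain ⟨n, hn⟩ := (IsPGroup.iff_card (p := p)).1 ((hA.to_subgroup Ω).map ι)
    rw [hn]
    exact Nat.Coprime.pow_right _ (Nat.Coprime.of_dvd_left (Subgroup.card_range_dvd κ) hX)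
  obtain ⟨W', hW'V, hBW', hUW', hUW'V⟩ :=
    Cfsg.Agent.S0660.result (Ω.map ι) κ.range (W.map ι) hVab hBV hcop' hUV hBU W0 hWV hUW hUWV
  have hEΩ : W'.comap ι ≤ Ω := by
    intro x hx
    obtain ⟨y, hy, hyx⟩ := hW'V hx
    have h1 : ι (x * y⁻¹) = 1 := by rw [map_mul, map_inv, hyx, mul_inv_cancel]
    have h2 := hWΩ (hKW ((hker _).1 h1))
    have := Ω.mul_mem h2 hy
    rwa [inv_mul_cancel_right] at this
  refine ⟨W'.comap ι, ?_, ?_, hEΩ, ?_, ?_⟩
  · intro a ha x hx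
    show ι (a x) ∈ W'
    have := hconj' ⟨a, ha⟩ x
    rw [← this]
    exact (Subgroup.le_normalizer_iff.mp hBW') (κ ⟨a, ha⟩) ⟨_, rfl⟩ _ hx
  · intro x hx
    show ι x ∈ W'
    rw [(hker x).2 hx]
    exact W'.one_mem
  · intro x hx
    rw [← hker]
    have : ι x ∈ W.map ι ⊓ W' := ⟨⟨x, hx.2, rfl⟩, hx.1⟩
    rwa [hUW', Subgroup.mem_bot] at this
  · apply Subgroup.map_injective_of_ker_le ι
    · rw [hker']; exact hKW.trans le_sup_right
    · rw [hker']; exact hKW.trans hWΩ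
    · rw [Subgroup.map_sup, Subgroup.map_comap_eq, inf_eq_right.mpr (hW'V.trans (Subgroup.map_le_range _ _)), sup_comm, hUW'V]


theorem inv_sup {A : Type*} [CommGroup A] {X : Subgroup (MulAut A)} {H K : Subgroup A}
    (hH : Inv X H) (hK : Inv X K) : Inv X (H ⊔ K) := by
  intro x hx a ha
  obtain ⟨h, hh, k, hk, rfl⟩ := Subgroup.mem_sup.1 ha
  rw [map_mul]
  exact Subgroup.mul_mem_sup (hH x hx h hh) (hK x hx k hk)

theorem exists_min {A : Type*} [Group A] [Finite A] (P : Subgroup A → Prop) (B0 : Subgroup A)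
    (h0 : P B0) : ∃ B, P B ∧ ∀ C, P C → C ≤ B → C = B := by
  obtain ⟨B, hB⟩ := (Set.toFinite {B : Subgroup A | P B}).exists_minimal ⟨B0, h0⟩
  exact ⟨B, hB.1, fun C hC hCB => le_antisymm hCB (hB.2 hC hCB)⟩

theorem exists_max {A : Type*} [Group A] [Finite A] (P : Subgroup A → Prop) (B0 : Subgroup A)
    (h0 : P B0) : ∃ B, P B ∧ ∀ C, P C → B ≤ C → C = B := by
  obtain ⟨B, hB⟩ := (Set.toFinite {B : Subgroup A | P B}).exists_maximal ⟨B0, h0⟩
  exact ⟨B, hB.1, fun C hC hCB => le_antisymm (hB.2 hC hCB) hCB⟩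

theorem main {A : Type*} [CommGroup A] [Finite A] {p : ℕ} [Fact p.Prime] (hA : IsPGroup p A)
    (X : Subgroup (MulAut A)) (hX : (Nat.card X).Coprime p) (hne : ∃ a : A, a ≠ 1) :
    ∃ D C U : Subgroup A, Inv X D ∧ Inv X C ∧ D ≠ ⊥ ∧ D ⊓ C = ⊥ ∧ D ⊔ C = ⊤ ∧
      (∀ d ∈ D, d ^ p = 1 → d ∈ U) ∧ (∀ B, Inv X B → B ≤ U → B = ⊥ ∨ B = U) := by
  have hex : ∃ k, ∀ a : A, a ^ p ^ k = 1 := by
    obtain ⟨n, hn⟩ := (IsPGroup.iff_card (p := p)).1 hA
    exact ⟨n, fun a => by rw [← hn]; exact pow_card_eq_one'⟩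
  classical
  obtain ⟨m, hm1, a0, ha0⟩ : ∃ m, (∀ a : A, a ^ p ^ (m+1) = 1) ∧ ∃ a0 : A, a0 ^ p ^ m ≠ 1 := by
    have h1 := Nat.find_spec hex
    have h2 : Nat.find hex ≠ 0 := by
      intro h0
      rw [h0] at h1
      obtain ⟨a, ha⟩ := hne
      exact ha (by simpa using h1 a)
    obtain ⟨m, hm⟩ := Nat.exists_eq_succ_of_ne_zero h2
    refine ⟨m, by rw [← Nat.succ_eq_add_one, ← hm]; exact h1, ?_⟩
    have h3 := Nat.find_min hex (m := m) (by omega)
    push Not at h3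
    exact h3
  let π : A →* A := powMonoidHom (p ^ m)
  have hπ : ∀ a, π a = a ^ p ^ m := fun a => rfl
  have hπx : ∀ (x : MulAut A) (a : A), π (x a) = x (π a) := fun x a => by rw [hπ, hπ, map_pow]
  -- the minimal invariant subgroup U
  obtain ⟨U, ⟨hUinv, hUne, hUr⟩, hUmin⟩ :=
    exists_min (fun B => Inv X B ∧ B ≠ ⊥ ∧ B ≤ π.range) π.range
      ⟨by
        rintro x hx _ ⟨a, rfl⟩
        exact ⟨x a, hπx x a⟩, by
        intro h
        have : π a0 ∈ π.range := ⟨a0, rfl⟩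
        rw [h, Subgroup.mem_bot] at this
        exact ha0 this, le_rfl⟩
  have hUp : ∀ u ∈ U, u ^ p = 1 := by
    intro u hu
    obtain ⟨a, rfl⟩ := hUr hu
    rw [hπ, ← pow_mul, ← pow_succ]
    exact hm1 a
  -- the subgroup D
  obtain ⟨D, ⟨hDinv, hDmap⟩, hDmin⟩ :=
    exists_min (fun B => Inv X B ∧ B.map π = U) (U.comap π)
      ⟨by
        intro x hx b hb
        show π (x b) ∈ U
        rw [hπx]
        exact hUinv x hx _ hb, by
        rw [Subgroup.map_comap_eq, inf_eq_right.mpr hUr]⟩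
  have hUD : U ≤ D := by
    rw [← hDmap]
    rintro _ ⟨d, hd, rfl⟩
    exact D.pow_mem hd _
  have claim1 : ∀ d ∈ D, π d = 1 → ∃ d1 ∈ D, d1 ^ p = d := by
    have hDp : Inv X (D.map (powMonoidHom p)) := by
      rintro x hx _ ⟨d, hd, rfl⟩
      exact ⟨x d, hDinv x hx d hd, by simp⟩
    have hW' : Inv X (D ⊓ π.ker) := by
      rintro x hx d ⟨hd, hd2⟩
      refine ⟨hDinv x hx d hd, ?_⟩
      show π (x d) = 1
      rw [hπx, show π d = 1 from hd2, map_one]
    obtain ⟨E, hEinv, hKE, hED, hEW, hEsup⟩ := maschke_rel hA X hX (D.map (powMonoidHom p))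
      (D ⊓ π.ker) D hDp hW' hDinv (by
        rintro _ ⟨d, hd, rfl⟩
        refine ⟨D.pow_mem hd _, ?_⟩
        show π (d ^ p) = 1
        rw [hπ, ← pow_mul, ← pow_succ']
        exact hm1 d) inf_le_left (fun a ha => ⟨a, ha, rfl⟩)
    have hEmap : E.map π = U := by
      have h1 : (E ⊔ (D ⊓ π.ker)).map π = U := by rw [hEsup]; exact hDmap
      rw [Subgroup.map_sup] at h1
      have h2 : (D ⊓ π.ker).map π = ⊥ := by
        rw [eq_bot_iff]
        rintro _ ⟨w, hw, rfl⟩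
        exact hw.2
      rwa [h2, sup_bot_eq] at h1
    have hE : E = D := hDmin E ⟨hEinv, hEmap⟩ hED
    intro d hd hπd
    have h3 : d ∈ E ⊓ (D ⊓ π.ker) := ⟨hE ▸ hd, hd, hπd⟩
    obtain ⟨d1, hd1, h⟩ := hEW h3
    exact ⟨d1, hd1, h⟩
  have claim2 : ∀ d ∈ D, d ^ p = 1 → d ∈ U := by
    intro d hd hdp
    have key : ∀ j, j ≤ m → ∃ y ∈ D, y ^ p ^ j = d := by
      intro j
      induction j with
      | zero => intro _; exact ⟨d, hd, by simp⟩
      | succ j ih =>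
        intro hj
        obtain ⟨y, hy, hyd⟩ := ih (by omega)
        have h1 : π y = 1 := by
          rw [hπ]
          have h2 : p ^ m = p ^ j * p * p ^ (m - (j+1)) := by
            rw [← pow_succ, ← pow_add]; congr 1; omega
          rw [h2, pow_mul, pow_mul, hyd, hdp, one_pow]
        obtain ⟨y1, hy1, hy1y⟩ := claim1 y hy h1
        exact ⟨y1, hy1, by rw [pow_succ', pow_mul, hy1y, hyd]⟩
    obtain ⟨y, hy, hyd⟩ := key m le_rfl
    rw [← hDmap]
    exact ⟨y, hy, hyd⟩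
  -- the complement
  obtain ⟨C, ⟨hCinv, hCD⟩, hCmax⟩ :=
    exists_max (fun B => Inv X B ∧ B ⊓ D = ⊥) ⊥
      ⟨by
        intro x hx b hb
        rw [Subgroup.mem_bot] at hb ⊢
        rw [hb, map_one], bot_inf_eq _⟩
  have hΩ : C.comap (powMonoidHom p) ≤ D ⊔ C := by
    have hΩinv : Inv X (C.comap (powMonoidHom p)) := by
      intro x hx a ha
      show (x a) ^ p ∈ C
      rw [← map_pow]
      exact hCinv x hx _ ha
    obtain ⟨W, hWinv, hCW, hWΩ, hWW', hWsup⟩ := maschke_rel hA X hX C (U ⊔ C)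
      (C.comap (powMonoidHom p)) hCinv (inv_sup hUinv hCinv) hΩinv le_sup_right
      (sup_le (fun u hu => by
        show u ^ p ∈ C
        rw [hUp u hu]; exact C.one_mem) (fun c hc => C.pow_mem hc _)) (fun a ha => ha)
    have hWD : W ⊓ D = ⊥ := by
      rw [eq_bot_iff]
      rintro x ⟨hxW, hxD⟩
      have h1 : x ^ p ∈ C ⊓ D := ⟨hWΩ hxW, D.pow_mem hxD _⟩
      rw [hCD, Subgroup.mem_bot] at h1
      have h2 : x ∈ C ⊓ D := ⟨hWW' ⟨hxW, Subgroup.mem_sup_left (claim2 x hxD h1)⟩, hxD⟩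
      rwa [hCD] at h2
    have hWC : W = C := hCmax W ⟨hWinv, hWD⟩ hCW
    rw [← hWsup, hWC]
    exact sup_le le_sup_right (sup_le (hUD.trans le_sup_left) le_sup_right)
  have claim5 : ∀ k, ∀ a : A, a ^ p ^ k = 1 → a ∈ D ⊔ C := by
    intro k
    induction k with
    | zero => intro a ha; rw [pow_zero, pow_one] at ha; rw [ha]; exact Subgroup.one_mem _
    | succ k ih =>
      intro a ha
      have h1 : a ^ p ∈ D ⊔ C := ih _ (by rw [← pow_mul, ← pow_succ']; exact ha)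
      obtain ⟨d, hd, c, hc, hdc⟩ := Subgroup.mem_sup.1 h1
      have h2 : π d * π c = 1 := by
        rw [← map_mul, hdc, hπ, ← pow_mul, ← pow_succ']
        exact hm1 a
      have h3 : π d ∈ C ⊓ D := by
        refine ⟨?_, D.pow_mem hd _⟩
        rw [eq_inv_of_mul_eq_one_left h2]
        exact C.inv_mem (C.pow_mem hc _)
      rw [hCD, Subgroup.mem_bot] at h3
      obtain ⟨d1, hd1, hd1d⟩ := claim1 d hd h3
      have h4 : a * d1⁻¹ ∈ C.comap (powMonoidHom p) := by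
        show (a * d1⁻¹) ^ p ∈ C
        rw [mul_pow, inv_pow, hd1d, ← hdc, mul_comm d c, mul_inv_cancel_right]
        exact hc
      have h5 := (D ⊔ C).mul_mem (hΩ h4) (Subgroup.mem_sup_left hd1)
      rwa [inv_mul_cancel_right] at h5
  refine ⟨D, C, U, hDinv, hCinv, ?_, by rw [inf_comm]; exact hCD, ?_, claim2, ?_⟩
  · intro h
    rw [h, Subgroup.map_bot] at hDmap
    exact hUne hDmap.symm
  · rw [eq_top_iff]
    intro a _
    exact claim5 (m+1) a (hm1 a)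
  · intro B hB hBU
    by_cases hb : B = ⊥
    · exact Or.inl hb
    · exact Or.inr (hUmin B ⟨hB, hb, hBU.trans hUr⟩ hBU)

theorem pow_mono_one {A : Type*} [Group A] {p i j : ℕ} (hij : i ≤ j) {a : A} (h : a ^ p ^ i = 1) :
    a ^ p ^ j = 1 := by
  obtain ⟨k, rfl⟩ := Nat.exists_eq_add_of_le hij
  rw [pow_add, pow_mul, h, one_pow]


/-- Let A be a finite abelian p-group and X a group of automorphisms of A of order prime to p. Call a subgroup of A invariant when every element of X maps it onto itself. Then the following are equivalent: (i) A is not the direct product of two nontrivial invariant subgroups; (ii) every invariant subgroup of A is one of the subgroups Ω_i(A) = {a : a^(p^i) = 1}; (iii) the subgroup Ω₁(A) of elements of order dividing p has no invariant subgroups other than 1 and itself. -/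
theorem result {A : Type*} [CommGroup A] [Finite A] {p : ℕ} [Fact p.Prime] (hA : IsPGroup p A) (X : Subgroup (MulAut A)) (hX : (Nat.card X).Coprime p) : ((¬ ∃ B C : Subgroup A, B ≠ ⊥ ∧ C ≠ ⊥ ∧ (∀ x ∈ X, B.map x.toMonoidHom = B) ∧ (∀ x ∈ X, C.map x.toMonoidHom = C) ∧ B ⊓ C = ⊥ ∧ B ⊔ C = ⊤) ↔ (∀ B : Subgroup A, (∀ x ∈ X, B.map x.toMonoidHom = B) → ∃ i : ℕ, ∀ a : A, a ∈ B ↔ a ^ p ^ i = 1)) ∧ ((∀ B : Subgroup A, (∀ x ∈ X, B.map x.toMonoidHom = B) → ∃ i : ℕ, ∀ a : A, a ∈ B ↔ a ^ p ^ i = 1) ↔ (∀ B : Subgroup A, (∀ x ∈ X, B.map x.toMonoidHom = B) → (∀ b ∈ B, b ^ p = 1) → B = ⊥ ∨ ∀ a : A, a ∈ B ↔ a ^ p = 1)) := by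
  simp only [inv_iff]
  have h21 : (∀ B : Subgroup A, Inv X B → ∃ i : ℕ, ∀ a : A, a ∈ B ↔ a ^ p ^ i = 1) →
      ¬ ∃ B C : Subgroup A, B ≠ ⊥ ∧ C ≠ ⊥ ∧ Inv X B ∧ Inv X C ∧ B ⊓ C = ⊥ ∧ B ⊔ C = ⊤ := by
    rintro h ⟨B, C, hB, hC, hBi, hCi, hinf, -⟩
    obtain ⟨i, hi⟩ := h B hBi
    obtain ⟨j, hj⟩ := h C hCi
    rcases le_total i j with hij | hij
    · apply hB
      rw [← hinf]
      exact (inf_eq_left.mpr (fun b hb => (hj b).2 (pow_mono_one hij ((hi b).1 hb)))).symm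
    · apply hC
      rw [← hinf]
      exact (inf_eq_right.mpr (fun b hb => (hi b).2 (pow_mono_one hij ((hj b).1 hb)))).symm
  have h23 : (∀ B : Subgroup A, Inv X B → ∃ i : ℕ, ∀ a : A, a ∈ B ↔ a ^ p ^ i = 1) →
      (∀ B : Subgroup A, Inv X B → (∀ b ∈ B, b ^ p = 1) → B = ⊥ ∨ ∀ a : A, a ∈ B ↔ a ^ p = 1) := by
    intro h B hB hBp
    obtain ⟨i, hi⟩ := h B hB
    rcases Nat.eq_zero_or_pos i with rfl | hpos
    · left
      rw [eq_bot_iff]
      intro b hb
      simpa using (hi b).1 hb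
    · right
      intro a
      refine ⟨hBp a, fun ha => (hi a).2 ?_⟩
      exact pow_mono_one (i := 1) hpos (by rwa [pow_one])
  have h32 : (∀ B : Subgroup A, Inv X B → (∀ b ∈ B, b ^ p = 1) → B = ⊥ ∨ ∀ a : A, a ∈ B ↔ a ^ p = 1) →
      (∀ B : Subgroup A, Inv X B → ∃ i : ℕ, ∀ a : A, a ∈ B ↔ a ^ p ^ i = 1) := by
    intro h B hB
    have hex : ∃ k, ∀ a ∈ B, a ^ p ^ k = 1 := by
      obtain ⟨n, hn⟩ := (IsPGroup.iff_card (p := p)).1 hA
      exact ⟨n, fun a _ => by rw [← hn]; exact pow_card_eq_one'⟩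
    classical
    have h1 := Nat.find_spec hex
    rcases Nat.eq_zero_or_pos (Nat.find hex) with h0 | hpos
    · rw [h0] at h1
      refine ⟨0, fun a => ⟨h1 a, fun ha => ?_⟩⟩
      rw [pow_zero, pow_one] at ha
      rw [ha]; exact B.one_mem
    · obtain ⟨n, hn⟩ := Nat.exists_eq_succ_of_ne_zero hpos.ne'
      have h3 := Nat.find_min hex (m := n) (by omega)
      push Not at h3
      obtain ⟨b0, hb0, hb0n⟩ := h3
      rw [hn] at h1
      have hB1 : Inv X (B.map (powMonoidHom (p ^ n))) := by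
        rintro x hx _ ⟨d, hd, rfl⟩
        exact ⟨x d, hB x hx d hd, by simp⟩
      have hB1p : ∀ b ∈ B.map (powMonoidHom (p ^ n)), b ^ p = 1 := by
        rintro _ ⟨d, hd, rfl⟩
        show (d ^ p ^ n) ^ p = 1
        rw [← pow_mul, ← pow_succ]
        exact h1 d hd
      have hB1m : ∀ a : A, a ∈ B.map (powMonoidHom (p ^ n)) ↔ a ^ p = 1 := by
        rcases h _ hB1 hB1p with hbot | h4
        · exfalso
          have : b0 ^ p ^ n ∈ B.map (powMonoidHom (p ^ n)) := ⟨b0, hb0, rfl⟩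
          rw [hbot, Subgroup.mem_bot] at this
          exact hb0n this
        · exact h4
      have key : ∀ j, j ≤ n + 1 → ∀ a : A, a ^ p ^ j = 1 → a ∈ B := by
        intro j
        induction j with
        | zero => intro _ a ha; rw [pow_zero, pow_one] at ha; rw [ha]; exact B.one_mem
        | succ j ih =>
          intro hj a ha
          have h5 : a ^ p ^ j ∈ B.map (powMonoidHom (p ^ n)) := by
            rw [hB1m, ← pow_mul, ← pow_succ]; exact ha
          obtain ⟨b, hb, hba⟩ := h5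
          have hba' : b ^ p ^ n = a ^ p ^ j := hba
          have h6 : (a * (b ^ p ^ (n - j))⁻¹) ^ p ^ j = 1 := by
            rw [mul_pow, inv_pow, ← pow_mul, ← pow_add, show n - j + j = n by omega, hba',
              mul_inv_cancel]
          have h7 := B.mul_mem (ih (by omega) _ h6) (B.pow_mem hb (p ^ (n - j)))
          rwa [inv_mul_cancel_right] at h7
      exact ⟨n + 1, fun a => ⟨h1 a, key (n + 1) le_rfl a⟩⟩
  have h13 : (¬ ∃ B C : Subgroup A, B ≠ ⊥ ∧ C ≠ ⊥ ∧ Inv X B ∧ Inv X C ∧ B ⊓ C = ⊥ ∧ B ⊔ C = ⊤) →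
      (∀ B : Subgroup A, Inv X B → (∀ b ∈ B, b ^ p = 1) → B = ⊥ ∨ ∀ a : A, a ∈ B ↔ a ^ p = 1) := by
    intro h B hB hBp
    by_cases hne : ∃ a : A, a ≠ 1
    · obtain ⟨D, C, U, hD, hC, hDne, hinf, hsup, hDU, hU⟩ := main hA X hX hne
      have hCbot : C = ⊥ := by
        by_contra hCne
        exact h ⟨D, C, hDne, hCne, hD, hC, hinf, hsup⟩
      rw [hCbot, sup_bot_eq] at hsup
      have hΩU : ∀ a : A, a ^ p = 1 → a ∈ U := fun a ha => hDU a (hsup ▸ Subgroup.mem_top a) ha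
      rcases hU B hB (fun b hb => hΩU b (hBp b hb)) with h1 | h1
      · exact Or.inl h1
      · right
        intro a
        exact ⟨hBp a, fun ha => h1 ▸ hΩU a ha⟩
    · left
      push Not at hne
      rw [eq_bot_iff]
      intro b _
      exact hne b
  exact ⟨⟨fun h => h32 (h13 h), h21⟩, ⟨h23, h32⟩⟩

end Cfsg.Agent.S3775
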