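import Cfsg.Statements.S0672
-- import your own Cfsg.Agent.* helpers here
import Cfsg.Agent.Lib.Helper63.Neumann3

set_option autoImplicit false
open Cfsg

namespace Cfsg.Agent.S0672

/-- Let a finite group act faithfully and doubly transitively with point stabilisers of even order, and let `K` have characteristic `p` dividing the degree. If the heart of the permutation module admits no non-zero equivariant map to the permutation module on unordered pairs (phrased: every intertwining map from the sum-zero functions vanishing on the constants is zero), the action is triply transitive. -/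
theorem result {G : Type*} [Group G] [Finite G] {K : Type*} [Field K] {p : ℕ} [Fact p.Prime] [CharP K p] {Ω : Type*} [Fintype Ω] [DecidableEq Ω] [MulAction G Ω] [FaithfulSMul G Ω] (h2 : MulAction.IsMultiplyPretransitive G Ω 2) (hp : p ∣ Fintype.card Ω) (heven : ∀ a : Ω, Even (Nat.card (MulAction.stabilizer G a))) (h : ∀ f : Representation.IntertwiningMap (Cfsg.permSumZero K G Ω).toRepresentation (Cfsg.permRep K G (Set.powersetCard Ω 2)), (∀ v : (Cfsg.permSumZero K G Ω).toSubmodule, (v : Ω → K) ∈ (Cfsg.permConstants K G Ω).toSubmodule → f v = 0) → f = 0) : MulAction.IsMultiplyPretransitive G Ω 3 := by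
  by_cases hp2 : p = 2
  · subst hp2
    refine ⟨fun x _ => False.elim ?_⟩
    exact Cfsg.Agent.Lib.Helper63.card_le_two_of_char_two (G := G) (K := K) h (x 0) (x 1) (x 2)
      (fun h => by simpa using x.injective h) (fun h => by simpa using x.injective h)
      (fun h => by simpa using x.injective h)
  · have h2ne : (2 : K) ≠ 0 := by
      intro h0
      have h1 : ((2 : ℕ) : K) = 0 := by exact_mod_cast h0
      rw [CharP.cast_eq_zero_iff K p] at h1
      exact hp2 ((Nat.prime_dvd_prime_iff_eq (Fact.out : p.Prime) Nat.prime_two).1 h1)
    exact Cfsg.Agent.Lib.Helper63.three_transitive_of_flag h2 heven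
      (Cfsg.Agent.Lib.Helper63.flag_transitive h2ne h)

end Cfsg.Agent.S0672
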