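import Cfsg.Statements.S0676
-- import your own Cfsg.Agent.* helpers here
import Cfsg.Agent.Lib.Helper63.Neumann2
import Cfsg.Agent.Lib.Helper63.Neumann4
import Cfsg.Agent.S0672
import Cfsg.Agent.S0674
import Cfsg.Agent.S0675

set_option autoImplicit false
open Cfsg

namespace Cfsg.Agent.S0676

/-- A non-solvable transitive permutation group of prime degree `p` whose Sylow `p`-normaliser has even order is triply transitive. -/
theorem result {α : Type*} [Fintype α] [DecidableEq α] {p : ℕ} [Fact p.Prime] (hα : Fintype.card α = p) (G : Subgroup (Equiv.Perm α)) [MulAction.IsPretransitive G α] (hG : ¬ Group.IsSolvable G) (P : Sylow p G) (heven : Even (Nat.card (Subgroup.normalizer ((P : Subgroup G) : Set G)))) : MulAction.IsMultiplyPretransitive G α 3 := by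
  classical
  have hp : p.Prime := Fact.out
  by_cases hp2 : p = 2
  · refine ⟨fun x _ => False.elim ?_⟩
    have := Fintype.card_le_of_embedding x
    rw [hα, hp2, Fintype.card_fin] at this
    omega
  have h2ne : (2 : ZMod p) ≠ 0 := by
    intro h
    have h3 : ((2 : ℕ) : ZMod p) = 0 := by exact_mod_cast h
    rw [ZMod.natCast_eq_zero_iff] at h3
    exact hp2 ((Nat.prime_dvd_prime_iff_eq Fact.out Nat.prime_two).mp h3)
  have h2 : MulAction.IsMultiplyPretransitive G α 2 :=
    (Cfsg.Agent.S0675.result (hα ▸ hp) G).resolve_left hG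
  obtain ⟨e, c, t, b, -, -, hc, ht⟩ := Cfsg.Agent.Lib.Helper63.exists_coordinates hα hp2 G P heven
  have hcardα : Nat.card α = p := by rw [Nat.card_eq_fintype_card, hα]
  have hstab : ∀ a : α, Nat.card (MulAction.stabilizer G a) * p = Nat.card G := by
    intro a
    have h1 := MulAction.index_stabilizer_of_transitive G a
    rw [hcardα] at h1
    rw [← h1]
    exact Subgroup.card_mul_index _
  have htt : t * t = 1 := by
    apply Subtype.ext
    ext a
    obtain ⟨j, rfl⟩ := e.surjective a
    change (t * t) • e j = e j
    rw [mul_smul, ht, ht]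
    congr 1
    ring
  have ht1 : t ≠ 1 := by
    intro h
    have h0 := ht 0
    have h1 := ht 1
    rw [h, one_smul] at h0 h1
    have h0' := e.injective h0
    have h1' := e.injective h1
    apply h2ne
    linear_combination h1' - h0'
  have hto : orderOf t = 2 := orderOf_eq_prime (by rw [sq, htt]) ht1
  have hfix : t • e (b / 2) = e (b / 2) := by
    rw [ht]
    congr 1
    field_simp
    ring
  have hev0 : Even (Nat.card (MulAction.stabilizer G (e (b / 2)))) := by
    have h1 : orderOf (⟨t, hfix⟩ : MulAction.stabilizer G (e (b / 2))) = 2 := by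
      rw [← hto, ← Subgroup.orderOf_coe]
    rw [even_iff_two_dvd, ← h1]
    exact orderOf_dvd_natCard _
  have hev : ∀ a : α, Even (Nat.card (MulAction.stabilizer G a)) := by
    intro a
    have : Nat.card (MulAction.stabilizer G a) = Nat.card (MulAction.stabilizer G (e (b / 2))) :=
      Nat.eq_of_mul_eq_mul_right hp.pos ((hstab a).trans (hstab _).symm)
    rw [this]
    exact hev0
  exact Cfsg.Agent.S0672.result (K := ZMod p) (p := p) h2 (by rw [hα]) hev
    (fun f hf => Cfsg.Agent.Lib.Helper63.heart_hom_pairs_eq_zero hα hp2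
      (fun W h₁ h₂ => Cfsg.Agent.S0674.result hα G hG W h₁ h₂) e c t b hc ht f hf)

end Cfsg.Agent.S0676
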