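import Cfsg.Statements.S0727
import Cfsg.Agent.Lib.Helper12.S3TWrap

set_option autoImplicit false
open Cfsg

namespace Cfsg.Agent.S0727

/-- A sharply triply transitive permutation group of degree `2^f + 1` is isomorphic to the projective general linear group of degree 2 over the field with `2^f` elements. -/
theorem result {α : Type*} [Fintype α] [DecidableEq α] {f : ℕ} (hf : 1 ≤ f) (hα : Fintype.card α = 2 ^ f + 1) (G : Subgroup (Equiv.Perm α)) (h3 : MulAction.IsMultiplyPretransitive G α 3) (hsharp : ∀ x : Fin 3 ↪ α, MulAction.stabilizer G x = ⊥) : ∃ (F : Type) (_ : Field F) (_ : Fintype F), Fintype.card F = 2 ^ f ∧ Nonempty (G ≃* Matrix.ProjGenLinGroup (Fin 2) F) := by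
  classical
  have hS : Cfsg.Agent.Lib.Helper12.S3T.Sharp3 G α := by
    apply Cfsg.Agent.Lib.Helper12.S3T.sharp3_of_multiply h3
    intro g a b c hab hac hbc ha hb hc
    have hg : g ∈ MulAction.stabilizer G (Cfsg.Agent.Lib.Helper12.S3T.emb3 a b c hab hac hbc) := by
      rw [MulAction.mem_stabilizer_iff]
      ext x
      fin_cases x
      · exact ha
      · exact hb
      · exact hc
    rw [hsharp] at hg
    exact Subgroup.mem_bot.1 hg
  have h2f : 2 ≤ 2 ^ f := by
    calc 2 = 2 ^ 1 := (pow_one 2).symm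
      _ ≤ 2 ^ f := Nat.pow_le_pow_right (by norm_num) hf
  have hev : Even (2 ^ f) := (Nat.even_pow.2 ⟨even_two, by omega⟩)
  obtain ⟨F, iF, iFt, hch, hcard, ⟨hE⟩, -⟩ := hS.main
    (by rw [Nat.card_eq_fintype_card, hα]; exact hev.add_one)
    (by rw [Nat.card_eq_fintype_card, hα]; omega)
  rw [Nat.card_eq_fintype_card, hα] at hcard
  obtain ⟨E2⟩ := Cfsg.Agent.Lib.Helper12.S3T.psl_equiv_pgl F
  exact ⟨F, iF, iFt, by omega, ⟨hE.trans E2⟩⟩

end Cfsg.Agent.S0727
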