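import Cfsg.Statements.S4706
-- import your own Cfsg.Agent.* helpers here
import Cfsg.Agent.Lib.Helper63.Ito7
import Cfsg.Agent.Lib.Helper12.S3TWrap
import Cfsg.Agent.S0675
import Cfsg.Agent.S0676
import Cfsg.Agent.S0727

set_option autoImplicit false
open Cfsg

namespace Cfsg.Agent.S4706

open Cfsg.Agent.Lib.Helper63 MulAction in
theorem sl_equiv_pgl {F : Type*} [Field F] [Fintype F] [CharP F 2] :
    Nonempty (Matrix.ProjGenLinGroup (Fin 2) F ≃* Matrix.SpecialLinearGroup (Fin 2) F) := by
  have hcen : Subgroup.center (Matrix.SpecialLinearGroup (Fin 2) F) = ⊥ := by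
    rw [eq_bot_iff]
    intro A hA
    rw [Matrix.SpecialLinearGroup.mem_center_iff] at hA
    obtain ⟨r, hr, hA⟩ := hA
    simp only [Fintype.card_fin] at hr
    have h1 : (r - 1) ^ 2 = 0 := by
      have h2 : (2 : F) = 0 := CharP.cast_eq_zero F 2
      linear_combination hr - r * h2 + h2
    have h2 : r = 1 := by
      have := pow_eq_zero_iff (two_ne_zero) |>.1 h1
      exact sub_eq_zero.1 this
    rw [Subgroup.mem_bot]
    apply Subtype.ext
    rw [← hA, h2]
    simp
  have hinj : Function.Injective
      (QuotientGroup.mk' (Subgroup.center (Matrix.SpecialLinearGroup (Fin 2) F))) := by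
    rw [← MonoidHom.ker_eq_bot_iff, QuotientGroup.ker_mk', hcen]
  let ε : Matrix.SpecialLinearGroup (Fin 2) F ≃* Matrix.ProjectiveSpecialLinearGroup (Fin 2) F :=
    MulEquiv.ofBijective (QuotientGroup.mk' (Subgroup.center (Matrix.SpecialLinearGroup (Fin 2) F)))
      ⟨hinj, QuotientGroup.mk'_surjective _⟩
  obtain ⟨φ⟩ := Cfsg.Agent.Lib.Helper12.S3T.psl_equiv_pgl F
  exact ⟨(ε.trans φ).symm⟩

/-- Let p > 2 be a prime and G a permutation group on p letters whose Sylow p-subgroup P has normalizer of order 2p. Then either P is normal in G, or p − 1 = 2^a for some a and G is isomorphic to SL(2, 2^a). -/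
theorem result {α : Type*} [Fintype α] [DecidableEq α] {p : ℕ} [Fact p.Prime] (hp : 2 < p) (hα : Fintype.card α = p) (G : Subgroup (Equiv.Perm α)) (P : Sylow p G) (hN : Nat.card (Subgroup.normalizer ((P : Subgroup G) : Set G)) = 2 * p) : (P : Subgroup G).Normal ∨ ∃ (a : ℕ) (F : Type) (_ : Field F) (_ : Fintype F), p = 2 ^ a + 1 ∧ Fintype.card F = 2 ^ a ∧ Nonempty (G ≃* Matrix.SpecialLinearGroup (Fin 2) F) := by
  classical
  have hpp : p.Prime := Fact.out
  have hpG : p ∣ Nat.card G := by
    have h1 : Nat.card (Subgroup.normalizer ((P : Subgroup G) : Set G)) ∣ Nat.card G :=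
      Subgroup.card_subgroup_dvd_card _
    rw [hN] at h1
    exact (Dvd.intro_left 2 rfl).trans h1
  obtain ⟨c, hc⟩ := exists_prime_orderOf_dvd_card' (G := G) p hpG
  have hc' : orderOf (c : Equiv.Perm α) = p := by rw [Subgroup.orderOf_coe, hc]
  obtain ⟨e, he⟩ := Cfsg.Agent.Lib.Helper63.exists_equiv_zmod hα (c : Equiv.Perm α) hc'
  have hce : ∀ j, c • e j = e (j + 1) := fun j => (he j).symm
  have : MulAction.IsPretransitive G α := ⟨fun x y => by
    obtain ⟨i, rfl⟩ := e.surjective x
    obtain ⟨j, rfl⟩ := e.surjective y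
    exact ⟨c ^ (j - i).val, by
      rw [Cfsg.Agent.Lib.Helper63.smul_pow_val e c hce]
      congr 1
      ring⟩⟩
  by_cases hsol : Group.IsSolvable G
  · left
    exact Cfsg.Agent.Lib.Helper63.sylow_normal_of_solvable hα G hsol P
  right
  have h2 : MulAction.IsMultiplyPretransitive G α 2 :=
    (Cfsg.Agent.S0675.result (hα ▸ hpp) G).resolve_left hsol
  have h3 : MulAction.IsMultiplyPretransitive G α 3 :=
    Cfsg.Agent.S0676.result hα G hsol P (by rw [hN]; exact even_two_mul p)
  have : Fintype G := Fintype.ofFinite G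
  have H := Cfsg.Agent.Lib.Helper63.itoHyp_of_sylow hp hα G h2 P hN
  have hall : ∀ g : G, Cfsg.Agent.Lib.Helper63.fixN α g = p → g = 1 := by
    intro g hg
    have h1 : (Finset.univ.filter fun z : α => g • z = z) = Finset.univ := by
      apply Finset.eq_univ_of_card
      rw [hα]
      exact hg
    apply Subtype.ext
    ext z
    have : z ∈ Finset.univ.filter fun z : α => g • z = z := by
      rw [h1]
      exact Finset.mem_univ _
    exact (Finset.mem_filter.1 this).2
  have hsharp : ∀ x : Fin 3 ↪ α, MulAction.stabilizer G x = ⊥ := by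
    intro x
    rw [eq_bot_iff]
    intro g hg
    rw [MulAction.mem_stabilizer_iff] at hg
    have hfix : ∀ i, g • x i = x i := fun i => DFunLike.congr_fun hg i
    have h3' : 3 ≤ Cfsg.Agent.Lib.Helper63.fixN α g := by
      unfold Cfsg.Agent.Lib.Helper63.fixN
      have h4 : (Finset.univ.map x) ⊆ Finset.univ.filter fun z : α => g • z = z := by
        intro z hz
        obtain ⟨i, -, rfl⟩ := Finset.mem_map.1 hz
        exact Finset.mem_filter.2 ⟨Finset.mem_univ _, hfix i⟩
      have h5 := Finset.card_le_card h4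
      rw [Finset.card_map, Finset.card_univ, Fintype.card_fin] at h5
      exact h5
    rw [Subgroup.mem_bot]
    exact hall g (H.fixN_eq g h3')
  have hpow : p - 1 = 2 ^ (p - 1).primeFactorsList.length := by
    apply Nat.eq_prime_pow_of_unique_prime_dvd (by omega)
    intro q hq hqd
    by_contra hq2
    have : Fact q.Prime := ⟨hq⟩
    have hnt : Nontrivial α := Fintype.one_lt_card_iff_nontrivial.1 (by rw [hα]; exact hpp.one_lt)
    obtain ⟨a, b, hab⟩ := exists_pair_ne α
    have hcard := H.card_eq hab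
    have hqG : q ∣ Nat.card G := by
      rw [Nat.card_eq_fintype_card, hcard]
      apply Dvd.dvd.mul_left
      have : p * p - p = p * (p - 1) := by rw [Nat.mul_sub_one]
      rw [this]
      exact Dvd.dvd.mul_left hqd p
    obtain ⟨y, hy⟩ := exists_prime_orderOf_dvd_card' (G := G) q hqG
    have hy1 : y ≠ 1 := by
      intro h
      rw [h, orderOf_one] at hy
      exact hq.one_lt.ne hy
    have hq3 : 3 ≤ q := by
      have := hq.two_le
      omega
    have hmod : Nat.card α ≡ Nat.card (MulAction.fixedPoints (Subgroup.zpowers y) α) [MOD q] :=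
      (IsPGroup.of_card (n := 1) (by rw [Nat.card_zpowers, hy, pow_one])).card_modEq_card_fixedPoints α
    have hfp : Nat.card (MulAction.fixedPoints (Subgroup.zpowers y) α) =
        Cfsg.Agent.Lib.Helper63.fixN α y := by
      unfold Cfsg.Agent.Lib.Helper63.fixN
      rw [Nat.card_coe_set_eq, ← Set.ncard_coe_finset]
      congr 1
      ext z
      simp only [MulAction.mem_fixedPoints, Finset.coe_filter, Finset.mem_univ, true_and,
        Set.mem_ofPred_eq]
      constructor
      · intro h
        exact h ⟨y, Subgroup.mem_zpowers y⟩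
      · rintro h ⟨w, hw⟩
        obtain ⟨k, rfl⟩ := Subgroup.mem_zpowers_iff.1 hw
        change y ^ k • z = z
        exact MulAction.zpow_smul_eq_iff_period_dvd.2 (by
          rw [MulAction.period_eq_one_iff.2 h]
          exact one_dvd _)
    rw [hfp, Nat.card_eq_fintype_card, hα] at hmod
    have hlt : Cfsg.Agent.Lib.Helper63.fixN α y < 3 := by
      by_contra h
      exact hy1 (hall y (H.fixN_eq y (by omega)))
    have hmod1 : p ≡ 1 [MOD q] := by
      have := (Nat.modEq_iff_dvd' hpp.one_lt.le).2 hqd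
      exact this.symm
    have hmod2 : Cfsg.Agent.Lib.Helper63.fixN α y ≡ 1 [MOD q] := hmod.symm.trans hmod1
    have hone : Cfsg.Agent.Lib.Helper63.fixN α y = 1 := by
      have h5 : Cfsg.Agent.Lib.Helper63.fixN α y % q = 1 % q := hmod2
      rw [Nat.mod_eq_of_lt (by omega), Nat.mod_eq_of_lt (by omega)] at h5
      exact h5
    have hsq := H.sq_of_fixN_one y hone
    have hyy : y ^ 2 = 1 := by
      apply Subtype.ext
      ext z
      have := hsq z
      rw [sq]
      exact this
    have hdvd := orderOf_dvd_of_pow_eq_one hyy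
    rw [hy] at hdvd
    exact hq2 ((Nat.prime_dvd_prime_iff_eq hq Nat.prime_two).1 hdvd)
  set a := (p - 1).primeFactorsList.length with ha
  have hpa : p = 2 ^ a + 1 := by omega
  have ha1 : 1 ≤ a := by
    by_contra h
    have : a = 0 := by omega
    rw [this] at hpa
    omega
  obtain ⟨F, hF1, hF2, hFcard, ⟨φ⟩⟩ := Cfsg.Agent.S0727.result ha1 (hα.trans hpa) G h3 hsharp
  have : Fact (Nat.Prime 2) := ⟨Nat.prime_two⟩
  have hchar : CharP F 2 := charP_of_card_eq_prime_pow hFcard
  obtain ⟨ψ⟩ := sl_equiv_pgl (F := F)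
  exact ⟨a, F, hF1, hF2, hpa, hFcard, ⟨φ.trans ψ⟩⟩

end Cfsg.Agent.S4706
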