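import Cfsg.Statements.S0678
-- import your own Cfsg.Agent.* helpers here
import Cfsg.Agent.Lib.Helper63.Deg7b

set_option autoImplicit false
open Cfsg

namespace Cfsg.Agent.S0678

/-- A non-solvable transitive permutation group on 7 points that does not contain the alternating group is a simple group of order 168. -/
theorem result {α : Type*} [Fintype α] [DecidableEq α] (hα : Fintype.card α = 7) (G : Subgroup (Equiv.Perm α)) [MulAction.IsPretransitive G α] (hG : ¬ Group.IsSolvable G) (hA : ¬ alternatingGroup α ≤ G) : Nat.card G = 168 ∧ IsSimpleGroup G := by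
  classical
  have : Fact (Nat.Prime 7) := ⟨by norm_num⟩
  have hcard := Cfsg.Agent.Lib.Helper63.card_eq_168 hα G hG hA
  refine ⟨hcard, ?_⟩
  have hnt : Nontrivial G := by
    rw [← Finite.one_lt_card_iff_nontrivial]; omega
  refine { exists_pair_ne := hnt.exists_pair_ne, eq_bot_or_eq_top_of_normal := ?_ }
  intro K hKn
  by_contra hcon
  push Not at hcon
  obtain ⟨hK0, hK1⟩ := hcon
  have htr : MulAction.IsPretransitive K α :=
    Cfsg.Agent.Lib.Helper63.isPretransitive_of_normal_ne_bot hα G K hK0
  by_cases hsol : Group.IsSolvable K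
  · obtain ⟨A, hAn, hA0, hAab⟩ :=
      Cfsg.Agent.Lib.Helper63.exists_abelian_normal_of_solvable_normal K hK0 hsol
    obtain ⟨P⟩ : Nonempty (Sylow 7 G) := inferInstance
    have hPn := Cfsg.Agent.Lib.Helper63.sylow_normal_of_abelian_normal hα G A hAn hA0 hAab P
    obtain ⟨d, hd, hN⟩ := Cfsg.Agent.Lib.Helper63.card_normalizer_sylow hα G P
    rw [Subgroup.normalizer_eq_top, Subgroup.card_top, hcard] at hN
    have hdle : d ≤ 6 := Nat.le_of_dvd (by norm_num) hd
    omega
  · have e : K ≃* K.map G.subtype := K.equivMapOfInjective G.subtype G.subtype_injective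
    have htr' : MulAction.IsPretransitive (K.map G.subtype) α := by
      refine ⟨fun a b => ?_⟩
      obtain ⟨k, hk⟩ := MulAction.exists_smul_eq K a b
      exact ⟨⟨((k : G) : Equiv.Perm α), Subgroup.mem_map_of_mem _ k.2⟩, hk⟩
    have hns : ¬ Group.IsSolvable (K.map G.subtype) := fun h =>
      hsol (Group.isSolvable_of_isSolvable_injective (f := e.toMonoidHom) e.injective)
    have hA' : ¬ alternatingGroup α ≤ K.map G.subtype := fun h =>
      hA (h.trans (Subgroup.map_subtype_le K))
    have h168 := Cfsg.Agent.Lib.Helper63.card_eq_168 hα (K.map G.subtype) hns hA'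
    apply hK1
    apply Subgroup.eq_top_of_card_eq
    rw [hcard, Nat.card_congr e.toEquiv, h168]

end Cfsg.Agent.S0678
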