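import Cfsg.Statements.S4219
-- import your own Cfsg.Agent.* helpers here

set_option autoImplicit false
open Cfsg

namespace Cfsg.Agent.S4219

open scoped Pointwise

theorem witt_aux {G X : Type*} [Group G] [Finite G] [MulAction G X]
    [MulAction.IsPretransitive G X] (x : X) {p : ℕ} [Fact p.Prime]
    (H : Subgroup G) (hH : H = MulAction.stabilizer G x)
    (P : Sylow p H) (a : X)
    (ha : ∀ g ∈ (P : Subgroup H).map H.subtype, g • a = a) :
    ∃ g ∈ Subgroup.normalizer ((((P : Subgroup H).map H.subtype) : Subgroup G) : Set G),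
      g • x = a := by
  set P' : Subgroup G := (P : Subgroup H).map H.subtype with hP'
  obtain ⟨h, hh⟩ := MulAction.exists_smul_eq G x a
  set Q' : Subgroup G := P'.map (MulAut.conj h⁻¹).toMonoidHom with hQ'
  have hQH : Q' ≤ H := by
    rintro _ ⟨g, hg, rfl⟩
    rw [hH, MulAction.mem_stabilizer_iff]
    have h1 : g • a = a := ha g hg
    simp only [MulEquiv.coe_toMonoidHom, MulAut.conj_apply, inv_inv, mul_smul]
    rw [hh, h1, ← hh, inv_smul_smul]
  have hcardP' : Nat.card P' = Nat.card (P : Subgroup H) :=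
    Subgroup.card_map_of_injective H.subtype_injective
  have hcardQ' : Nat.card Q' = Nat.card P' :=
    Subgroup.card_map_of_injective (MulAut.conj h⁻¹).injective
  have hcardQ : Nat.card (Q'.subgroupOf H) = p ^ (Nat.card H).factorization p := by
    rw [Nat.card_congr (Subgroup.subgroupOfEquivOfLe hQH).toEquiv, hcardQ', hcardP',
      P.card_eq_multiplicity]
  obtain ⟨k, hk⟩ := MulAction.exists_smul_eq H (Sylow.ofCard (Q'.subgroupOf H) hcardQ) P
  have hk' : MulAut.conj k • (Q'.subgroupOf H) = (P : Subgroup H) := by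
    have := congrArg (fun S : Sylow p H => (S : Subgroup H)) hk
    simpa [Sylow.smul_def, Sylow.pointwise_smul_def] using this
  have hmem : (k : G) * h⁻¹ ∈ Subgroup.normalizer (P' : Set G) := by
    rw [Subgroup.mem_normalizer_iff_map_conj_eq]
    apply Subgroup.eq_of_le_of_card_ge
    · rintro _ ⟨y, hy, rfl⟩
      have hw : h⁻¹ * y * h ∈ Q' := ⟨y, hy, by simp⟩
      have hw2 : (⟨h⁻¹ * y * h, hQH hw⟩ : H) ∈ Q'.subgroupOf H := by
        rw [Subgroup.mem_subgroupOf]; exact hw
      have hw3 : MulAut.conj k • (⟨h⁻¹ * y * h, hQH hw⟩ : H) ∈ (P : Subgroup H) := by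
        rw [← hk']
        exact Subgroup.smul_mem_pointwise_smul _ _ _ hw2
      refine ⟨_, hw3, ?_⟩
      simp [MulAut.smul_def, mul_assoc]
    · exact le_of_eq (Subgroup.card_map_of_injective (MulAut.conj ((k : G) * h⁻¹)).injective).symm
  refine ⟨((k : G) * h⁻¹)⁻¹, Subgroup.inv_mem _ hmem, ?_⟩
  have hkx : (k : G) • x = x := by
    have h2 : ∀ y ∈ H, y • x = x := by
      intro y hy
      rw [hH, MulAction.mem_stabilizer_iff] at hy
      exact hy
    exact h2 _ k.2
  rw [mul_inv_rev, inv_inv, mul_smul, inv_smul_eq_iff.mpr hkx.symm, hh]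

/-- Let a finite group `G` act `t`-fold transitively on a finite set, let `H` be the stabilizer of `t` distinct points and `P` a Sylow `p`-subgroup of `H`. Then the normalizer of `P` in `G` is `t`-fold transitive on the fixed points of `P`: any `t` distinct fixed points of `P` can be carried to any other `t` distinct fixed points of `P` by an element normalizing `P`. -/
theorem result {G : Type*} [Group G] [Finite G] {α : Type*} [Fintype α] [MulAction G α] {t : ℕ} (hG : MulAction.IsMultiplyPretransitive G α t) (x : Fin t ↪ α) {p : ℕ} [Fact p.Prime] (P : Sylow p (MulAction.stabilizer G x)) (a b : Fin t ↪ α) (ha : ∀ i, a i ∈ MulAction.fixedPoints ((P : Subgroup (MulAction.stabilizer G x)).map (MulAction.stabilizer G x).subtype) α) (hb : ∀ i, b i ∈ MulAction.fixedPoints ((P : Subgroup (MulAction.stabilizer G x)).map (MulAction.stabilizer G x).subtype) α) : ∃ g ∈ Subgroup.normalizer ((((P : Subgroup (MulAction.stabilizer G x)).map (MulAction.stabilizer G x).subtype) : Subgroup G) : Set G), g • a = b := by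
  have key : ∀ c : Fin t ↪ α, (∀ i, c i ∈ MulAction.fixedPoints ((P : Subgroup (MulAction.stabilizer G x)).map (MulAction.stabilizer G x).subtype) α) →
      ∀ g ∈ (P : Subgroup (MulAction.stabilizer G x)).map (MulAction.stabilizer G x).subtype, g • c = c := by
    intro c hc g hg
    ext i
    rw [Function.Embedding.smul_apply]
    exact (MulAction.mem_fixedPoints.mp (hc i)) ⟨g, hg⟩
  obtain ⟨ga, hga, hga'⟩ := witt_aux x _ rfl P a (key a ha)
  obtain ⟨gb, hgb, hgb'⟩ := witt_aux x _ rfl P b (key b hb)
  refine ⟨gb * ga⁻¹, Subgroup.mul_mem _ hgb (Subgroup.inv_mem _ hga), ?_⟩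
  rw [mul_smul, ← hga', inv_smul_smul, hgb']

end Cfsg.Agent.S4219
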