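import Cfsg.Statements.S2716
import Cfsg.Agent.Lib.Helper59.OMinus.Main

set_option autoImplicit false
open Cfsg

namespace Cfsg.Agent.S2716

/-- Let T = PΩ⁻_{2m+2}(F) (m ≥ 3, |F| = p^f; the form Σ xᵢ yᵢ + z₁² + a z₁ z₂ + b z₂² with anisotropic binary part), G = Inndiag(T), and x a field automorphism of T of prime order r. Then r is odd and divides f; C_G(x) is isomorphic to Inndiag(PΩ⁻_{2m+2}(F₀)) for a field F₀ with p^(f/r) elements and some anisotropic binary part over F₀; and the G-class of x is a single T-class. -/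
theorem result {F : Type*} [Field F] [Fintype F] {p f : ℕ} [Fact p.Prime] (hF : Fintype.card F = p ^ f) (hf : 1 ≤ f) {m : ℕ} (hm : 3 ≤ m) (a b : F) (hab : (∀ z₁ z₂ : F, z₁ ^ 2 + a * z₁ * z₂ + b * z₂ ^ 2 = 0 → z₁ = 0 ∧ z₂ = 0)) (x : MulAut (Cfsg.POmega F (Cfsg.quadFormMinus m F a b))) (hx : Cfsg.IsFieldAutClassPOmegaMinus m x) {r : ℕ} (hr : r.Prime) (hxr : orderOf x = r) (F₀ : Type*) [Field F₀] [Fintype F₀] (hF₀ : Fintype.card F₀ = p ^ (f / r)) :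
    Odd r ∧ r ∣ f ∧ (∃ a₀ b₀ : F₀, (∀ z₁ z₂ : F₀, z₁ ^ 2 + a₀ * z₁ * z₂ + b₀ * z₂ ^ 2 = 0 → z₁ = 0 ∧ z₂ = 0) ∧ Nonempty (↥(Cfsg.inndiagPOmegaMinus m F a b ⊓ Subgroup.centralizer {x}) ≃* ↥(Cfsg.inndiagPOmegaMinus m F₀ a₀ b₀))) ∧ Cfsg.splitClassCount (Cfsg.inndiagPOmegaMinus m F a b) (Cfsg.Inn (Cfsg.POmega F (Cfsg.quadFormMinus m F a b))) x = 1 := by
  revert x
  have key : ∀ (Qf : F → F → (((Fin m ⊕ Fin m) ⊕ Fin 2) → F) → F)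
      (Qf₀ : F₀ → F₀ → (((Fin m ⊕ Fin m) ⊕ Fin 2) → F₀) → F₀),
      Qf = Cfsg.quadFormMinus m F → Qf₀ = Cfsg.quadFormMinus m F₀ →
      (∀ (x : MulAut (Cfsg.POmega F (Qf a b))),
        (∃ (a' b' : F) (ψ : Cfsg.POmega F (Qf a b) ≃* Cfsg.POmega F (Qf a' b')) (σ : F ≃+* F),
          (∀ z₁ z₂ : F, z₁ ^ 2 + a' * z₁ * z₂ + b' * z₂ ^ 2 = 0 → z₁ = 0 ∧ z₂ = 0) ∧
          σ ≠ RingEquiv.refl F ∧ σ a' = a' ∧ σ b' = b' ∧
          Cfsg.IsFieldAutPOmegaOf (Qf a' b') σ ((ψ.symm.trans x).trans ψ)) →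
        orderOf x = r →
        Odd r ∧ r ∣ f ∧ (∃ a₀ b₀ : F₀,
          (∀ z₁ z₂ : F₀, z₁ ^ 2 + a₀ * z₁ * z₂ + b₀ * z₂ ^ 2 = 0 → z₁ = 0 ∧ z₂ = 0) ∧
          Nonempty (↥(Cfsg.Agent.Lib.Helper6.OA.inndiagOf (Qf a b)
              (Cfsg.PreservesSingularClassesMinus m a b) ⊓ Subgroup.centralizer {x}) ≃*
            ↥(Cfsg.Agent.Lib.Helper6.OA.inndiagOf (Qf₀ a₀ b₀)
              (Cfsg.PreservesSingularClassesMinus m a₀ b₀)))) ∧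
        Cfsg.splitClassCount (Cfsg.Agent.Lib.Helper6.OA.inndiagOf (Qf a b)
          (Cfsg.PreservesSingularClassesMinus m a b)) (Cfsg.Inn (Cfsg.POmega F (Qf a b))) x = 1) →
      ∀ (x : MulAut (Cfsg.POmega F (Cfsg.quadFormMinus m F a b))),
        Cfsg.IsFieldAutClassPOmegaMinus m x → orderOf x = r →
        Odd r ∧ r ∣ f ∧ (∃ a₀ b₀ : F₀, (∀ z₁ z₂ : F₀, z₁ ^ 2 + a₀ * z₁ * z₂ + b₀ * z₂ ^ 2 = 0 → z₁ = 0 ∧ z₂ = 0) ∧ Nonempty (↥(Cfsg.inndiagPOmegaMinus m F a b ⊓ Subgroup.centralizer {x}) ≃* ↥(Cfsg.inndiagPOmegaMinus m F₀ a₀ b₀))) ∧ Cfsg.splitClassCount (Cfsg.inndiagPOmegaMinus m F a b) (Cfsg.Inn (Cfsg.POmega F (Cfsg.quadFormMinus m F a b))) x = 1 := by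
    rintro _ _ rfl rfl h x hx hxr
    exact h x hx hxr
  apply key (fun a b => ⇑(Cfsg.Agent.Lib.Helper49.minusQF m F a b))
    (fun a b => ⇑(Cfsg.Agent.Lib.Helper49.minusQF m F₀ a b))
    (by funext a b; exact Cfsg.Agent.Lib.Helper49.minusQF_coe m F a b)
    (by funext a b; exact Cfsg.Agent.Lib.Helper49.minusQF_coe m F₀ a b)
  intro x hx hxr
  exact Cfsg.Agent.Lib.Helper59.OMinus.main hF hf hm a b hab x hx hr hxr F₀ hF₀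

end Cfsg.Agent.S2716
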