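import Cfsg.Statements.S0638
import Cfsg.Agent.Lib.Helper89.MetaOmega
import Cfsg.Agent.Lib.Helper89.Inversion
import Cfsg.Agent.Lib.Helper59.UniqueOdd
-- import your own Cfsg.Agent.* helpers here

set_option autoImplicit false
open Cfsg

namespace Cfsg.Agent.S0638

/-- For odd p, in a non-cyclic metacyclic p-group the elements of order dividing p generate an elementary abelian subgroup of order p². -/
theorem result {R : Type*} [Group R] [Finite R] {p : ℕ} [Fact p.Prime] (hp : p ≠ 2) (hR : IsPGroup p R) (hm : Cfsg.IsMetacyclic R) (hnc : ¬ IsCyclic R) : Cfsg.IsElementaryAbelian p (Cfsg.omegaOne p (⊤ : Subgroup R)) ∧ Nat.card ↥(Cfsg.omegaOne p (⊤ : Subgroup R)) = p ^ 2 := by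
  have hpp : p.Prime := Fact.out
  have hV : Cfsg.omegaOne p (⊤ : Subgroup R) = Subgroup.closure {x : R | x ^ p = 1} := by
    unfold Cfsg.omegaOne
    congr 1
    ext x
    simp
  rw [hV]
  have h1 := Cfsg.Agent.Lib.Helper89.omega_exponent_of_metacyclic hp hR hm
  have h2 := Cfsg.Agent.Lib.Helper89.omega_card_le_of_metacyclic hp hR hm
  set V := Subgroup.closure {x : R | x ^ p = 1} with hVdef
  obtain ⟨k, hk⟩ := (IsPGroup.iff_card (p := p)).1 (hR.to_subgroup V)
  have hk2 : k ≤ 2 := by
    rw [hk] at h2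
    exact (Nat.pow_le_pow_iff_right hpp.one_lt).1 h2
  have hk' : k = 2 := by
    by_contra hne
    apply hnc
    apply Cfsg.Agent.Lib.Helper59.isCyclic_of_unique_odd hp hR
    intro x y hx hy
    have hxV : x ∈ V := Subgroup.subset_closure (by rw [Set.mem_setOf_eq, ← hx, pow_orderOf_eq_one])
    have hyV : y ∈ V := Subgroup.subset_closure (by rw [Set.mem_setOf_eq, ← hy, pow_orderOf_eq_one])
    have hx1 : x ≠ 1 := by
      rintro rfl
      rw [orderOf_one] at hx
      exact hpp.one_lt.ne hx
    have hzc : Nat.card (Subgroup.zpowers x) = p := by rw [Nat.card_zpowers, hx]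
    have hle : Subgroup.zpowers x ≤ V := by rwa [Subgroup.zpowers_le]
    have hVc : Nat.card V ≤ p := by
      rw [hk]
      calc p ^ k ≤ p ^ 1 := Nat.pow_le_pow_right hpp.pos (by omega)
        _ = p := pow_one p
    have : Subgroup.zpowers x = V := Subgroup.eq_of_le_of_card_ge hle (by rw [hzc]; exact hVc)
    rw [this]
    exact hyV
  rw [hk'] at hk
  exact ⟨⟨IsPGroup.isMulCommutative_of_card_eq_prime_sq hk, h1⟩, hk⟩

end Cfsg.Agent.S0638
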