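import Cfsg.Statements.S3879
import Cfsg.Agent.Lib.Helper68.Meta

set_option autoImplicit false
open Cfsg

namespace Cfsg.Agent.S3879

/-- Let p be an odd prime and G a finite metacyclic p-group (G has a cyclic normal subgroup with cyclic quotient). Then the index of the center of G is the square of the order of the derived subgroup: |G : Z(G)| = |G'|². -/
theorem result {G : Type*} [Group G] [Finite G] {p : ℕ} [Fact p.Prime] (hp : p ≠ 2) (hG : IsPGroup p G) (hmc : Cfsg.IsMetacyclic G) : (Subgroup.center G).index = Nat.card ↥(commutator G) ^ 2 := by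
  obtain ⟨a, b, r, m, l, h⟩ := Cfsg.Agent.Lib.Helper68.exists_MC hG hmc
  rw [h.index_center hp, h.card_commutator, ← pow_mul, mul_comm]

end Cfsg.Agent.S3879
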