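import Cfsg.Statements.S3880
import Cfsg.Agent.Lib.Helper68.Meta2

set_option autoImplicit false
open Cfsg

namespace Cfsg.Agent.S3880

/-- Let p be an odd prime and G a finite metacyclic p-group (G has a cyclic normal subgroup with cyclic quotient). Then a subgroup L of G is abelian if and only if |L| ≤ |G : G'|, and L is a maximal abelian subgroup of G if and only if |L| = |G : G'|. -/
theorem result {G : Type*} [Group G] [Finite G] {p : ℕ} [Fact p.Prime] (hp : p ≠ 2) (hG : IsPGroup p G) (hmc : Cfsg.IsMetacyclic G) (L : Subgroup G) :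
    (IsMulCommutative ↥L ↔ Nat.card ↥L ≤ (commutator G).index) ∧
      (Maximal (fun K : Subgroup G => IsMulCommutative ↥K) L ↔ Nat.card ↥L = (commutator G).index) := by
  have hp1 : 1 < p := (Fact.out : p.Prime).one_lt
  obtain ⟨B, n, hB, hn, hcard, hL⟩ := Cfsg.Agent.Lib.Helper68.meta_summary hp hG hmc
  have key : ∀ K : Subgroup G, IsMulCommutative ↥K ↔ Nat.card ↥K ≤ (commutator G).index := by
    intro K
    obtain ⟨A, X, h1, h2, -, h4, -⟩ := hL K
    rw [Cfsg.Agent.Lib.Helper68.isMulCommutative_iff_card_commutator, h1, h2, hB,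
      Nat.pow_le_pow_iff_right hp1, ← h4]
    constructor
    · intro h
      by_contra hX
      have := Nat.one_lt_pow hX hp1
      omega
    · rintro rfl
      simp
  refine ⟨key L, ?_⟩
  constructor
  · intro hmax
    obtain ⟨A, X, h1, -, -, -, -⟩ := hL L
    have h5 := (key L).1 hmax.prop
    rw [h1, hB, Nat.pow_le_pow_iff_right hp1] at h5
    rw [h1, hB]
    congr 1
    by_contra hne
    have hlt : A + 1 ≤ B := by omega
    have hdvd : p ^ (A + 1) ∣ Nat.card G := by
      rw [hcard]
      exact pow_dvd_pow p (by omega)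
    obtain ⟨K, hK, hLK⟩ := Sylow.exists_subgroup_card_pow_succ hdvd h1
    have hKc : IsMulCommutative ↥K := by
      rw [key K, hK, hB]
      exact Nat.pow_le_pow_right (by omega) hlt
    have hKL := hmax.le_of_ge hKc hLK
    have := Subgroup.card_le_of_le hKL
    rw [hK, h1, Nat.pow_le_pow_iff_right hp1] at this
    omega
  · intro hc
    refine ⟨(key L).2 hc.le, ?_⟩
    intro K hK hLK
    have h6 := (key K).1 hK
    rw [← hc] at h6
    exact (Subgroup.eq_of_le_of_card_ge hLK h6).ge

end Cfsg.Agent.S3880
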