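import Cfsg.Statements.S3886
import Cfsg.Agent.Lib.Helper68.Meta2
import Cfsg.Agent.Lib.Helper56.CentrallyLarge
import Cfsg.Agent.S3880

set_option autoImplicit false
open Cfsg

namespace Cfsg.Agent.S3886

/-- Let p be an odd prime and G a finite metacyclic p-group (G has a cyclic normal subgroup with cyclic quotient). Then the largest value of |R| · |Z(R)| over subgroups R of G is |G : G'|², and the subgroups attaining it (the centrally large subgroups) are exactly the non-abelian subgroups together with the maximal abelian subgroups of G. -/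
theorem result {G : Type*} [Group G] [Finite G] {p : ℕ} [Fact p.Prime] (hp : p ≠ 2) (hG : IsPGroup p G) (hmc : Cfsg.IsMetacyclic G) : Cfsg.maxCentralProduct G = (commutator G).index ^ 2 ∧
    ∀ R : Subgroup G, Cfsg.IsCentrallyLarge R ↔ (¬ IsMulCommutative ↥R ∨ Maximal (fun K : Subgroup G => IsMulCommutative ↥K) R) := by
  have hp1 : 1 < p := (Fact.out : p.Prime).one_lt
  have hp0 : 0 < p := by omega
  obtain ⟨B, n, hB, hn, hcard, hL⟩ := Cfsg.Agent.Lib.Helper68.meta_summary hp hG hmc
  -- the measure of a subgroup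
  have key : ∀ R : Subgroup G, ∃ A X : ℕ, Nat.card ↥R = p ^ A ∧ Nat.card (commutator ↥R) = p ^ X ∧
      (X = 0 ↔ A ≤ B) ∧ (0 < X → A = B + X) ∧
      Cfsg.Agent.Lib.Helper56.clm R * p ^ (2 * X) = p ^ (2 * A) := by
    intro R
    obtain ⟨A, X, h1, h2, h3, h4, h5⟩ := hL R
    refine ⟨A, X, h1, h2, h4, h5, ?_⟩
    have h6 := Subgroup.card_mul_index (Subgroup.center ↥R)
    rw [h3, h1] at h6
    unfold Cfsg.Agent.Lib.Helper56.clm
    rw [mul_assoc, h6, h1, two_mul, pow_add]
  have hle : ∀ R : Subgroup G, Cfsg.Agent.Lib.Helper56.clm R ≤ p ^ (2 * B) := by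
    intro R
    obtain ⟨A, X, h1, h2, h4, h5, h6⟩ := key R
    rcases Nat.eq_zero_or_pos X with rfl | hX
    · rw [mul_zero, pow_zero, mul_one] at h6
      rw [h6]
      exact Nat.pow_le_pow_right hp0 (by have := h4.1 rfl; omega)
    · have h7 := h5 hX
      have h8 : p ^ (2 * A) = p ^ (2 * B) * p ^ (2 * X) := by
        rw [← pow_add]; congr 1; omega
      rw [h8] at h6
      exact (Nat.eq_of_mul_eq_mul_right (Nat.pow_pos hp0) h6).le
  have heq : ∀ R : Subgroup G, Cfsg.Agent.Lib.Helper56.clm R = p ^ (2 * B) ↔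
      (¬ IsMulCommutative ↥R ∨ Nat.card ↥R = p ^ B) := by
    intro R
    obtain ⟨A, X, h1, h2, h4, h5, h6⟩ := key R
    rw [Cfsg.Agent.Lib.Helper68.isMulCommutative_iff_card_commutator, h1, h2]
    rcases Nat.eq_zero_or_pos X with rfl | hX
    · rw [mul_zero, pow_zero, mul_one] at h6
      rw [h6]
      simp only [pow_zero, not_true_eq_false, false_or]
      rw [Nat.pow_right_injective (show 2 ≤ p by omega) |>.eq_iff,
        Nat.pow_right_injective (show 2 ≤ p by omega) |>.eq_iff]
      omega
    · have h7 := h5 hX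
      have h8 : p ^ (2 * A) = p ^ (2 * B) * p ^ (2 * X) := by
        rw [← pow_add]; congr 1; omega
      rw [h8] at h6
      have h9 := Nat.eq_of_mul_eq_mul_right (Nat.pow_pos hp0) h6
      have h10 := Nat.one_lt_pow hX.ne' hp1
      constructor
      · intro _
        left
        omega
      · intro _
        exact h9
  have hmax : Cfsg.maxCentralProduct G = p ^ (2 * B) := by
    apply le_antisymm
    · obtain ⟨H, hH⟩ := Cfsg.Agent.Lib.Helper56.exists_clm_eq_max (G := G)
      rw [← hH]
      exact hle H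
    · have h1 : Cfsg.Agent.Lib.Helper56.clm (⊤ : Subgroup G) = p ^ (2 * B) := by
        rw [heq]
        by_cases hc : IsMulCommutative ↥(⊤ : Subgroup G)
        · right
          have h2 := ((Cfsg.Agent.S3880.result hp hG hmc ⊤).1).1 hc
          rw [Subgroup.card_top] at h2 ⊢
          apply le_antisymm (hB ▸ h2)
          rw [← hB]
          exact Nat.le_of_dvd Nat.card_pos (Subgroup.index_dvd_card _)
        · left; exact hc
      rw [← h1]
      exact Cfsg.Agent.Lib.Helper56.clm_le_max _
  refine ⟨by rw [hmax, hB, ← pow_mul, mul_comm], ?_⟩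
  intro R
  rw [Cfsg.Agent.Lib.Helper56.isCentrallyLarge_iff', hmax, heq, (Cfsg.Agent.S3880.result hp hG hmc R).2, hB]

end Cfsg.Agent.S3886
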