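import Cfsg.Statements.S3917
import Mathlib

set_option autoImplicit false
open Cfsg

namespace Cfsg.Agent.S3917

theorem card_le_of_cyclic_of_pow {K : Type*} [Group K] [Finite K] [IsCyclic K] (n : ℕ) (hn : 0 < n)
    (h : ∀ a : K, a ^ n = 1) : Nat.card K ≤ n := by
  rw [← IsCyclic.exponent_eq_card]
  exact Nat.le_of_dvd hn (Monoid.exponent_dvd_of_forall_pow_eq_one h)

/-- Say that a group has self-centralizing non-cyclic subgroups when every non-cyclic subgroup H satisfies C_G(H) ≤ H. A finite abelian group with self-centralizing non-cyclic subgroups is cyclic or elementary abelian of order p² for a prime p. -/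
theorem result {G : Type*} [CommGroup G] [Finite G] (hX : (∀ H : Subgroup G, ¬ IsCyclic ↥H → Subgroup.centralizer (H : Set G) ≤ H)) :
    IsCyclic G ∨ ∃ p : ℕ, p.Prime ∧ Nat.card G = p ^ 2 ∧ Monoid.exponent G = p := by
  by_cases hcyc : IsCyclic G
  · exact Or.inl hcyc
  right
  have hT : ∀ H : Subgroup G, ¬ IsCyclic ↥H → H = ⊤ := by
    intro H hH
    rw [eq_top_iff]
    refine le_trans ?_ (hX H hH)
    intro g _
    rw [Subgroup.mem_centralizer_iff]
    intro h _
    exact mul_comm _ _
  let c : ℕ → ℕ := fun n => Nat.card (powMonoidHom n : G →* G).ker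
  have hex : ∃ n, 0 < n ∧ n < c n := by
    refine ⟨Monoid.exponent G, Monoid.exponent_pos.mpr (Monoid.ExponentExists.of_finite), ?_⟩
    have h1 : (powMonoidHom (Monoid.exponent G) : G →* G).ker = ⊤ := by
      rw [eq_top_iff]
      intro g _
      rw [MonoidHom.mem_ker]
      exact Monoid.pow_exponent_eq_one g
    have h2 : c (Monoid.exponent G) = Nat.card G := by
      simp only [c, h1, Subgroup.card_top]
    rw [h2]
    apply lt_of_le_of_ne (Nat.le_of_dvd Nat.card_pos Group.exponent_dvd_nat_card)
    intro h
    exact hcyc (IsCyclic.of_exponent_eq_card h)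
  classical
  set n := Nat.find hex with hn
  obtain ⟨hn0, hnc⟩ := Nat.find_spec hex
  have hmin : ∀ m, 0 < m → m < n → c m ≤ m := by
    intro m hm0 hm
    have := Nat.find_min hex hm
    push Not at this
    exact this hm0
  have hK : (powMonoidHom n : G →* G).ker = ⊤ := by
    apply hT
    intro hc
    have := card_le_of_cyclic_of_pow (K := (powMonoidHom n : G →* G).ker) n hn0 (by
      rintro ⟨a, ha⟩
      ext
      simpa using ha)
    exact absurd hnc (not_lt.mpr this)
  have hpow : ∀ g : G, g ^ n = 1 := by
    intro g
    have : g ∈ (powMonoidHom n : G →* G).ker := by rw [hK]; trivial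
    simpa using this
  have hcard : n < Nat.card G := by
    have : c n = Nat.card G := by simp only [c, hK, Subgroup.card_top]
    rw [← this]; exact hnc
  have hn1 : n ≠ 1 := by
    intro h1
    have : Nat.card G ≤ 1 := by
      have : Subsingleton G := ⟨fun a b => by
        have ha := hpow a; have hb := hpow b
        rw [h1, pow_one] at ha hb
        rw [ha, hb]⟩
      exact Finite.card_le_one_iff_subsingleton.mpr this
    omega
  have hp : n.Prime := by
    by_contra hnp
    set p := n.minFac with hpdef
    have hpp : p.Prime := Nat.minFac_prime hn1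
    obtain ⟨m, hm⟩ := Nat.minFac_dvd n
    have hm0 : 0 < m := by
      rcases Nat.eq_zero_or_pos m with h | h
      · rw [h, mul_zero] at hm; omega
      · exact h
    have hm1 : m ≠ 1 := by
      intro h
      rw [h, mul_one] at hm
      exact hnp (hm ▸ hpp)
    have hm' : n = p * m := hm
    have hm2 : 2 ≤ m := by omega
    have hpn : p < n := by
      rw [hm']
      nlinarith [hpp.pos]
    have hmn : m < n := by
      rw [hm']
      nlinarith [hpp.two_le]
    have h1 := hmin p hpp.pos hpn
    have h2 := hmin m hm0 hmn
    have h3 : Nat.card (powMonoidHom p : G →* G).range ≤ c m := by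
      apply Subgroup.card_le_of_le
      rintro _ ⟨g, rfl⟩
      rw [MonoidHom.mem_ker]
      simp only [powMonoidHom_apply]
      rw [← pow_mul, ← hm']
      exact hpow g
    have h4 : Nat.card G = c p * Nat.card (powMonoidHom p : G →* G).range := by
      rw [← Subgroup.index_ker, Subgroup.card_mul_index]
    have : Nat.card G ≤ p * m := by
      rw [h4]
      exact Nat.mul_le_mul h1 (h3.trans h2)
    rw [← hm'] at this
    omega
  haveI : Fact n.Prime := ⟨hp⟩
  refine ⟨n, hp, ?_, ?_⟩
  swap
  · have hd : Monoid.exponent G ∣ n := Monoid.exponent_dvd_of_forall_pow_eq_one hpow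
    rcases (Nat.dvd_prime hp).mp hd with h | h
    · exfalso
      have : Subsingleton G := Monoid.exp_eq_one_iff.mp h
      have : Nat.card G ≤ 1 := Finite.card_le_one_iff_subsingleton.mpr this
      have := hp.two_le
      omega
    · exact h
  · have : Nontrivial G := by
      rw [← Finite.one_lt_card_iff_nontrivial]
      have := hp.two_le
      omega
    obtain ⟨x, hx⟩ := exists_ne (1 : G)
    have hox : orderOf x = n := orderOf_eq_prime (hpow x) hx
    have hzx : Nat.card (Subgroup.zpowers x) = n := by rw [Nat.card_zpowers, hox]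
    have hy : ∃ y, y ∉ Subgroup.zpowers x := by
      by_contra hall
      push Not at hall
      have : Subgroup.zpowers x = ⊤ := by rw [eq_top_iff]; intro g _; exact hall g
      rw [this, Subgroup.card_top] at hzx
      omega
    obtain ⟨y, hy⟩ := hy
    let f : (Subgroup.zpowers x × Subgroup.zpowers y) →* G :=
      (Subgroup.zpowers x).subtype.coprod (Subgroup.zpowers y).subtype
    have hxf : Subgroup.zpowers x ≤ f.range := by
      intro g hg
      exact ⟨(⟨g, hg⟩, 1), by simp [f]⟩
    have hyf : y ∈ f.range := ⟨(1, ⟨y, Subgroup.mem_zpowers y⟩), by simp [f]⟩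
    have hfr : f.range = ⊤ := by
      apply hT
      intro hc
      have h1 := card_le_of_cyclic_of_pow (K := f.range) n hn0 (by
        rintro ⟨a, ha⟩
        ext
        simpa using hpow a)
      have h2 := Subgroup.eq_of_le_of_card_ge hxf (by rw [hzx]; exact h1)
      exact hy (h2 ▸ hyf)
    have hsurj : Function.Surjective f := MonoidHom.range_eq_top.mp hfr
    have hle : Nat.card G ≤ n * n := by
      have h1 := Nat.card_le_card_of_surjective f hsurj
      rw [Nat.card_prod, hzx] at h1
      have hoy : Nat.card (Subgroup.zpowers y) ≤ n := by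
        rw [Nat.card_zpowers]
        exact Nat.le_of_dvd hn0 (orderOf_dvd_of_pow_eq_one (hpow y))
      exact h1.trans (Nat.mul_le_mul_left _ hoy)
    have hpg : IsPGroup n G := fun g => ⟨1, by rw [pow_one]; exact hpow g⟩
    obtain ⟨k, hk⟩ := IsPGroup.iff_card.mp hpg
    rw [hk] at hcard hle ⊢
    have h1 : 1 < k := by
      by_contra h
      have : k ≤ 1 := by omega
      have := Nat.pow_le_pow_right hp.pos this
      rw [pow_one] at this
      omega
    have h2 : k ≤ 2 := by
      rw [← pow_two] at hle
      exact (Nat.pow_le_pow_iff_right hp.one_lt).mp hle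
    have : k = 2 := by omega
    rw [this]

end Cfsg.Agent.S3917
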