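import Cfsg.Statements.S0113
import Cfsg.Agent.Lib.Helper3.MaxClass

set_option autoImplicit false
open Cfsg

namespace Cfsg.Agent.S0113

open scoped commutatorElement
open Cfsg.Agent.Lib.Helper3

universe u

theorem base (X : Type u) [Group X] [Finite X] (hX : Nat.card X = 2 ^ 3)
    (hc : Group.nilpotencyClass X = 3 - 1) : ∃ c : X, (Subgroup.zpowers c).index = 2 := by
  have hPG : IsPGroup 2 X := IsPGroup.of_card hX
  have hnil : Group.IsNilpotent X := hPG.isNilpotent
  have hncomm : ¬ IsMulCommutative X := by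
    intro h
    have := Group.IsNilpotent.nilpotencyClass_le_one_iff.mpr h
    omega
  obtain ⟨x, hx⟩ : ∃ x : X, x ^ 2 ≠ 1 := by
    by_contra hcon
    push Not at hcon
    apply hncomm
    refine ⟨⟨fun a b => ?_⟩⟩
    have ha := hcon a
    have hb := hcon b
    have hab := hcon (a * b)
    have hai : a⁻¹ = a := by rw [inv_eq_iff_mul_eq_one, ← sq, ha]
    have hbi : b⁻¹ = b := by rw [inv_eq_iff_mul_eq_one, ← sq, hb]
    have habi : (a * b)⁻¹ = a * b := by rw [inv_eq_iff_mul_eq_one, ← sq, hab]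
    rw [mul_inv_rev, hai, hbi] at habi
    exact habi.symm
  have hd : orderOf x ∣ 2 ^ 3 := hX ▸ orderOf_dvd_natCard x
  obtain ⟨j, hj, hjx⟩ := (Nat.dvd_prime_pow Nat.prime_two).mp hd
  have hj2 : j = 2 := by
    interval_cases j
    · exfalso; apply hx
      rw [pow_zero, orderOf_eq_one_iff] at hjx
      rw [hjx, one_pow]
    · exfalso; apply hx
      rw [pow_one] at hjx
      rw [← hjx, pow_orderOf_eq_one]
    · rfl
    · exfalso; apply hncomm
      have : IsCyclic X := isCyclic_of_orderOf_eq_card x (by rw [hjx, hX])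
      infer_instance
  refine ⟨x, ?_⟩
  have h1 := (Subgroup.zpowers x).card_mul_index
  rw [Nat.card_zpowers, hjx, hj2, hX] at h1
  omega

theorem main (n : ℕ) (hn : 3 ≤ n) :
    ∀ (X : Type u) [Group X] [Finite X], Nat.card X = 2 ^ n → Group.nilpotencyClass X = n - 1 →
      ∃ c : X, (Subgroup.zpowers c).index = 2 := by
  induction n, hn using Nat.le_induction with
  | base => exact fun X _ _ hX hc => base X hX hc
  | succ n hn ih =>
  intro X _ _ hX hc
  have hPG : IsPGroup 2 X := IsPGroup.of_card hX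
  have hnil : Group.IsNilpotent X := hPG.isNilpotent
  have hZcard : Nat.card (Subgroup.center X) = 2 := card_center_of_maxClass (by omega) hX hc
  have hq : Nat.card (X ⧸ Subgroup.center X) = 2 ^ n :=
    card_quotient_center_of_maxClass (by omega) hX hc
  have hqc : Group.nilpotencyClass (X ⧸ Subgroup.center X) = n - 1 := by
    rw [Group.nilpotencyClass_quotient_center, hc]; omega
  obtain ⟨cb, hcb⟩ := ih (X ⧸ Subgroup.center X) hq hqc
  obtain ⟨c, rfl⟩ := QuotientGroup.mk'_surjective _ cb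
  set Z := Subgroup.center X with hZdef
  have hzsq : ∀ z ∈ Z, z ^ 2 = 1 := by
    intro z hz
    have : (⟨z, hz⟩ : Z) ^ Nat.card Z = 1 := pow_card_eq_one'
    rw [hZcard] at this
    exact congrArg Subtype.val this
  have hord : orderOf (QuotientGroup.mk' Z c) = 2 ^ (n - 1) := by
    have h1 := (Subgroup.zpowers (QuotientGroup.mk' Z c)).card_mul_index
    rw [Nat.card_zpowers, hcb, hq] at h1
    have : 2 ^ n = 2 ^ (n - 1) * 2 := by rw [← pow_succ]; congr 1; omega
    omega
  let C : Subgroup X := (Subgroup.zpowers (QuotientGroup.mk' Z c)).comap (QuotientGroup.mk' Z)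
  have hCidx : C.index = 2 := by
    rw [Subgroup.index_comap_of_surjective _ (QuotientGroup.mk'_surjective Z), hcb]
  have hCn : C.Normal := Subgroup.normal_of_index_eq_two hCidx
  have hCmem : ∀ x ∈ C, ∃ i : ℤ, ∃ z ∈ Z, x = c ^ i * z := by
    intro x hx
    obtain ⟨i, hi⟩ := Subgroup.mem_zpowers_iff.mp (Subgroup.mem_comap.mp hx)
    refine ⟨i, (c ^ i)⁻¹ * x, ?_, by group⟩
    rw [← QuotientGroup.eq_one_iff]
    show QuotientGroup.mk' Z ((c ^ i)⁻¹ * x) = 1
    rw [map_mul, map_inv, map_zpow, hi, inv_mul_cancel]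
  have hcC : c ∈ C := Subgroup.mem_comap.mpr (Subgroup.mem_zpowers _)
  have hSn : (Subgroup.zpowers (c ^ 2)).Normal := by
    constructor
    intro s hs g
    obtain ⟨k, rfl⟩ := Subgroup.mem_zpowers_iff.mp hs
    obtain ⟨i, z, hz, hgc⟩ := hCmem _ (hCn.conj_mem c hcC g)
    have h1 : g * c ^ 2 * g⁻¹ = (c ^ 2) ^ i := by
      have hcomm : Commute (c ^ i) z := (Subgroup.mem_center_iff.mp hz _)
      calc g * c ^ 2 * g⁻¹ = (g * c * g⁻¹) ^ 2 := by rw [conj_pow]
        _ = (c ^ i * z) ^ 2 := by rw [hgc]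
        _ = (c ^ i) ^ 2 * z ^ 2 := hcomm.mul_pow 2
        _ = (c ^ 2) ^ i := by
          rw [hzsq z hz, mul_one, ← zpow_natCast, ← zpow_natCast, ← zpow_mul, ← zpow_mul, mul_comm]
    have h2 : g * (c ^ 2) ^ k * g⁻¹ = ((c ^ 2) ^ i) ^ k := by
      rw [← h1, conj_zpow]
    rw [h2]
    exact Subgroup.zpow_mem _ (Subgroup.zpow_mem _ (Subgroup.mem_zpowers _) i) k
  have hSne : Subgroup.zpowers (c ^ 2) ≠ ⊥ := by
    rw [Ne, Subgroup.zpowers_eq_bot]
    intro h
    have h1 : (QuotientGroup.mk' Z c) ^ 2 = 1 := by rw [← map_pow, h, map_one]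
    have h2 := orderOf_dvd_of_pow_eq_one h1
    rw [hord] at h2
    have h3 : 2 ^ 2 ≤ 2 ^ (n - 1) := Nat.pow_le_pow_right (by norm_num) (by omega)
    have h4 := Nat.le_of_dvd (by norm_num) h2
    omega
  have hne := normal_inf_center_ne_bot' hPG _ hSne
  have hZS : Z ≤ Subgroup.zpowers (c ^ 2) := by
    have hle : Subgroup.zpowers (c ^ 2) ⊓ Z ≤ Z := inf_le_right
    have hd := Subgroup.card_dvd_of_le hle
    rw [hZcard] at hd
    have h1 : Nat.card (Subgroup.zpowers (c ^ 2) ⊓ Z : Subgroup X) ≠ 1 := by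
      intro h; exact hne (Subgroup.card_eq_one.mp h)
    have h2 : Nat.card (Subgroup.zpowers (c ^ 2) ⊓ Z : Subgroup X) = 2 :=
      ((Nat.dvd_prime Nat.prime_two).mp hd).resolve_left h1
    have h3 := Subgroup.eq_of_le_of_card_ge hle (by rw [h2, hZcard])
    rw [← h3]
    exact inf_le_left
  refine ⟨c, ?_⟩
  have : Subgroup.zpowers c = C := by
    apply le_antisymm
    · rw [Subgroup.zpowers_le]; exact hcC
    · intro x hx
      obtain ⟨i, z, hz, rfl⟩ := hCmem x hx
      apply Subgroup.mul_mem _ (Subgroup.zpow_mem _ (Subgroup.mem_zpowers c) i)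
      have h1 : Subgroup.zpowers (c ^ 2) ≤ Subgroup.zpowers c := by
        rw [Subgroup.zpowers_le]; exact Subgroup.pow_mem _ (Subgroup.mem_zpowers c) 2
      exact h1 (hZS hz)
  rw [this, hCidx]

/-- A 2-group of maximal class contains a cyclic subgroup of index 2. -/
theorem result {X : Type*} [Group X] [Finite X] (n : ℕ) (hn : 3 ≤ n) (hX : Nat.card X = 2 ^ n) (hc : Group.nilpotencyClass X = n - 1) : ∃ C : Subgroup X, IsCyclic C ∧ C.index = 2 := by
  obtain ⟨c, hc'⟩ := main n hn X hX hc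
  exact ⟨Subgroup.zpowers c, inferInstance, hc'⟩

end Cfsg.Agent.S0113
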