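import Cfsg.Statements.S3919
import Cfsg.Agent.Lib.Helper59.MaxClassCent
import Cfsg.Agent.Lib.Helper59.MaxClassIndex
import Cfsg.Agent.Lib.Helper59.UniqueOdd
import Cfsg.Agent.Lib.Helper1.PGroup
import Cfsg.Agent.S0112

set_option autoImplicit false
open Cfsg

namespace Cfsg.Agent.S3919

open Cfsg.Agent.Lib.Helper59

theorem forward {G : Type*} [Group G] [Finite G] (hna : ∃ x y : G, x * y ≠ y * x) (n : ℕ)
    (hG : Nat.card G = 2 ^ n)
    (hprop : ∀ H : Subgroup G, ¬ IsCyclic ↥H → Subgroup.centralizer (H : Set G) ≤ H) :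
    Group.nilpotencyClass G = n - 1 := by
  have : Fact (Nat.Prime 2) := ⟨Nat.prime_two⟩
  have hPG : IsPGroup 2 G := IsPGroup.of_card hG
  by_cases huniq : ∀ x y : G, orderOf x = 2 → orderOf y = 2 → x = y
  · rcases two_group_unique_involution hPG huniq with hcyc | ⟨k, a, b, ha, hcard, hb, hbb, hba⟩
    · exfalso
      obtain ⟨x, y, hxy⟩ := hna
      obtain ⟨t, ht⟩ := hcyc.exists_generator
      obtain ⟨i, rfl⟩ := ht x
      obtain ⟨j, rfl⟩ := ht y
      apply hxy
      rw [← zpow_add, ← zpow_add, add_comm]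
    have hidxa : (Subgroup.zpowers a).index = 2 := by
      have := (Subgroup.zpowers a).card_mul_index
      rw [Nat.card_zpowers, ha, hcard] at this
      have e : 8 * 2 ^ k = 4 * 2 ^ k * 2 := by ring
      rw [e] at this
      exact Nat.eq_of_mul_eq_mul_left (by positivity) this
    have hbb1 : b * b ≠ 1 := by
      rw [hbb]
      intro h
      have h2 := orderOf_dvd_of_pow_eq_one h
      rw [ha] at h2
      have h3 := Nat.le_of_dvd (by positivity) h2
      have : 0 < 2 ^ k := by positivity
      omega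
    have hb4 : (b * b) * (b * b) = 1 := by
      rw [hbb, ← pow_add]
      have : 2 * 2 ^ k + 2 * 2 ^ k = 4 * 2 ^ k := by ring
      rw [this, ← ha, pow_orderOf_eq_one]
    have hobb : orderOf (b * b) = 2 := orderOf_eq_prime (by rw [pow_two]; exact hb4) hbb1
    have hob : orderOf b = 2 ^ 2 := by
      apply orderOf_eq_prime_pow (n := 1)
      · rw [pow_one, pow_two]; exact hbb1
      · have : b ^ 2 ^ (1 + 1) = (b * b) * (b * b) := by
          have e : 2 ^ (1 + 1) = 2 + 2 := by norm_num
          rw [e, pow_add, pow_two]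
        rw [this]; exact hb4
    apply Cfsg.Agent.S0112.result n hG (Subgroup.zpowers b) (by rw [Nat.card_zpowers, hob])
    have hconj : ∀ i : ℤ, b * a ^ i * b⁻¹ = (a ^ i)⁻¹ := by
      intro i
      rw [← conj_zpow, hba, inv_zpow]
    have hM : ∀ m ∈ Subgroup.zpowers a, m * b = b * m → m ∈ Subgroup.zpowers b := by
      rintro _ ⟨i, rfl⟩ hm
      simp only at hm ⊢
      have h1 : a ^ i * a ^ i = 1 := by
        have h2 := hconj i
        rw [← hm] at h2
        have h3 : a ^ i = (a ^ i)⁻¹ := by
          rw [← h2]; group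
        nth_rewrite 1 [h3]
        exact inv_mul_cancel _
      by_cases h0 : a ^ i = 1
      · rw [h0]; exact Subgroup.one_mem _
      · have h2 : orderOf (a ^ i) = 2 := orderOf_eq_prime (by rw [pow_two]; exact h1) h0
        rw [huniq _ _ h2 hobb]
        exact Subgroup.mul_mem _ (Subgroup.mem_zpowers b) (Subgroup.mem_zpowers b)
    apply le_antisymm
    · intro g hg
      rw [mem_centralizer_zpowers] at hg
      by_cases hgM : g ∈ Subgroup.zpowers a
      · exact hM g hgM hg
      · have h1 : g * b⁻¹ ∈ Subgroup.zpowers a := (Subgroup.mul_mem_iff_of_index_two hidxa).mpr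
          ⟨fun h => absurd h hgM, fun h => absurd (by simpa using Subgroup.inv_mem _ h) hb⟩
        have h2 : g * b⁻¹ * b = b * (g * b⁻¹) := by
          rw [← mul_assoc, ← hg]; group
        have h3 := hM _ h1 h2
        have : g = g * b⁻¹ * b := by group
        rw [this]
        exact Subgroup.mul_mem _ h3 (Subgroup.mem_zpowers b)
    · rintro _ ⟨i, rfl⟩
      rw [mem_centralizer_zpowers]
      exact ((Commute.refl b).zpow_left i).eq
  · push Not at huniq
    obtain ⟨x, y, hx, hy, hxy⟩ := huniq
    have hnt : Nontrivial G := ⟨x, y, hxy⟩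
    obtain ⟨z, hzc, hz⟩ := exists_central_orderOf_eq hPG
    obtain ⟨t, ht, htz⟩ : ∃ t : G, orderOf t = 2 ∧ t ≠ z := by
      by_cases h : x = z
      · exact ⟨y, hy, fun h' => hxy (h.trans h'.symm)⟩
      · exact ⟨x, hx, h⟩
    have hzcomm : ∀ g : G, g * z = z * g := fun g => Subgroup.mem_center_iff.mp hzc g
    have hKn : (Subgroup.zpowers z).Normal := by
      refine ⟨fun u hu g => ?_⟩
      rcases mem_zpowers_of_orderOf_two hz hu with rfl | rfl
      · simp
      · rw [hzcomm g]
        simp
    have ht1 : t ≠ 1 := by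
      rintro rfl
      simp at ht
    have htK : t ∉ Subgroup.zpowers z := by
      intro h
      rcases mem_zpowers_of_orderOf_two hz h with h | h
      · exact ht1 h
      · exact htz h
    have htt : t ^ 2 = 1 := by rw [← ht, pow_orderOf_eq_one]
    have hzz : z ^ 2 = 1 := by rw [← hz, pow_orderOf_eq_one]
    have hA := Cfsg.Agent.Lib.Helper1.card_sup_zpowers_of_pow_mem Nat.prime_two
      (Subgroup.zpowers z) t htK (by rw [htt]; exact Subgroup.one_mem _)
    rw [Nat.card_zpowers, hz] at hA
    have hA2 : Nat.card ↥(Subgroup.zpowers z ⊔ Subgroup.zpowers t) = 2 ^ 2 := by rw [hA]; norm_num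
    have hAc : IsMulCommutative ↥(Subgroup.zpowers z ⊔ Subgroup.zpowers t) :=
      IsPGroup.isMulCommutative_of_card_eq_prime_sq hA2
    have hsq : ∀ u ∈ Subgroup.zpowers z ⊔ Subgroup.zpowers t, u ^ 2 = 1 := by
      intro u hu
      have hu' : u ∈ ((Subgroup.zpowers z ⊔ Subgroup.zpowers t : Subgroup G) : Set G) := hu
      rw [Subgroup.normal_mul] at hu'
      obtain ⟨v, hv, w, hw, rfl⟩ := Set.mem_mul.mp hu'
      have hvw : Commute v w := by
        rcases mem_zpowers_of_orderOf_two hz hv with rfl | rfl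
        · exact Commute.one_left w
        · exact (hzcomm w).symm
      rw [hvw.mul_pow]
      have h1 : v ^ 2 = 1 := by
        rcases mem_zpowers_of_orderOf_two hz hv with rfl | rfl
        · simp
        · exact hzz
      have h2 : w ^ 2 = 1 := by
        rcases mem_zpowers_of_orderOf_two ht hw with rfl | rfl
        · simp
        · exact htt
      rw [h1, h2, one_mul]
    have hnc : ¬ IsCyclic ↥(Subgroup.zpowers z ⊔ Subgroup.zpowers t) := by
      intro hcyc
      obtain ⟨g, hg⟩ := hcyc.exists_generator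
      have h1 : orderOf g = Nat.card ↥(Subgroup.zpowers z ⊔ Subgroup.zpowers t) :=
        orderOf_eq_card_of_forall_mem_zpowers hg
      have h2 : g ^ 2 = 1 := Subtype.ext (by simpa using hsq g.1 g.2)
      have h3 := orderOf_dvd_of_pow_eq_one h2
      rw [h1, hA] at h3
      omega
    apply Cfsg.Agent.S0112.result n hG _ hA2
    apply le_antisymm (hprop _ hnc)
    intro g hg
    rw [Subgroup.mem_centralizer_iff]
    intro h hh
    have := hAc.is_comm.comm ⟨h, hh⟩ ⟨g, hg⟩
    exact congrArg Subtype.val this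

theorem backward {G : Type*} [Group G] [Finite G] (hna : ∃ x y : G, x * y ≠ y * x) (n : ℕ)
    (hn : 2 ≤ n) (hG : Nat.card G = 2 ^ n) (hc : Group.nilpotencyClass G = n - 1)
    (H : Subgroup G) (hH : ¬ IsCyclic ↥H) : Subgroup.centralizer (H : Set G) ≤ H := by
  have : Fact (Nat.Prime 2) := ⟨Nat.prime_two⟩
  have hPG : IsPGroup 2 G := IsPGroup.of_card hG
  have hidx : (commutator G).index = 4 := by
    rw [index_commutator_of_maxClass n G hn hG hc]
    norm_num
  obtain ⟨a, ha⟩ := taussky_cyclic hPG hidx hna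
  have hnt : Nontrivial G := by
    obtain ⟨x, y, hxy⟩ := hna
    refine ⟨x, y, ?_⟩
    rintro rfl
    exact hxy rfl
  obtain ⟨z, hzc, hz⟩ := exists_central_orderOf_eq hPG
  have hzM : z ∈ Subgroup.zpowers a := by
    by_contra h
    obtain ⟨x, y, hxy⟩ := hna
    exact hxy (comm_of_zpowers_index_two a z ha h (Subgroup.mem_center_iff.mp hzc a) x y)
  obtain ⟨g, hgH, hgM⟩ : ∃ g ∈ H, g ∉ Subgroup.zpowers a := by
    by_contra hcon
    push Not at hcon
    exact hH (Subgroup.isCyclic_of_le (H' := Subgroup.zpowers a) hcon)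
  have hzH : z ∈ H := by
    by_contra hzH
    have hbot : ∀ t ∈ H, t ∈ Subgroup.zpowers a → t = 1 := by
      intro t htH htM
      by_contra ht1
      obtain ⟨s, hs⟩ := (IsPGroup.iff_orderOf.mp hPG) t
      obtain ⟨s', rfl⟩ : ∃ s', s = s' + 1 := by
        rcases Nat.eq_zero_or_pos s with rfl | h
        · exact absurd (orderOf_eq_one_iff.mp (by simpa using hs)) ht1
        · exact ⟨s - 1, by omega⟩
      have how : orderOf (t ^ 2 ^ s') = 2 := by
        apply orderOf_eq_prime
        · rw [← pow_mul, ← pow_succ, ← hs, pow_orderOf_eq_one]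
        · apply pow_ne_one_of_lt_orderOf (by positivity)
          rw [hs]
          exact Nat.pow_lt_pow_right (by norm_num) (by omega)
      apply hzH
      rw [← involution_unique_zpowers (Subgroup.pow_mem _ htM _) hzM how hz]
      exact Subgroup.pow_mem _ htH _
    apply hH
    apply Subgroup.isCyclic_of_le (H' := Subgroup.zpowers g)
    intro h hh
    by_cases hhM : h ∈ Subgroup.zpowers a
    · rw [hbot h hh hhM]; exact Subgroup.one_mem _
    · have h1 : g⁻¹ * h ∈ Subgroup.zpowers a := (Subgroup.mul_mem_iff_of_index_two ha).mpr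
        ⟨fun h' => absurd (by simpa using Subgroup.inv_mem _ h') hgM, fun h' => absurd h' hhM⟩
      have h2 := hbot _ (H.mul_mem (H.inv_mem hgH) hh) h1
      rw [← inv_mul_eq_one.mp h2]
      exact Subgroup.mem_zpowers g
  intro c hc'
  have hcg : c * g = g * c := ((Subgroup.mem_centralizer_iff.mp hc') g hgH).symm
  rcases centralizer_outside hidx a ha z hz hzc hzM g hgM c hcg with rfl | rfl | rfl | rfl
  · exact H.one_mem
  · exact hzH
  · exact hgH
  · exact H.mul_mem hgH hzH

/-- Say that a group has self-centralizing non-cyclic subgroups when every non-cyclic subgroup H satisfies C_G(H) ≤ H. A finite non-abelian 2-group G of order 2^n has self-centralizing non-cyclic subgroups if and only if G has nilpotency class n − 1 (that is, G is dihedral, semidihedral or generalized quaternion). -/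
theorem result {G : Type*} [Group G] [Finite G] (hna : ¬ IsMulCommutative G) (n : ℕ) (hG : Nat.card G = 2 ^ n) :
    (∀ H : Subgroup G, ¬ IsCyclic ↥H → Subgroup.centralizer (H : Set G) ≤ H) ↔ (⊤ : Subgroup G).lowerCentralSeries (n - 2) ≠ ⊥ := by
  have : Fact (Nat.Prime 2) := ⟨Nat.prime_two⟩
  have hPG : IsPGroup 2 G := IsPGroup.of_card hG
  have hnil : Group.IsNilpotent G := hPG.isNilpotent
  have hna' : ∃ x y : G, x * y ≠ y * x := by
    by_contra hcon
    push Not at hcon
    exact hna ⟨⟨hcon⟩⟩
  have hn3 : 3 ≤ n := by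
    by_contra hcon
    apply hna
    have hn : n = 0 ∨ n = 1 ∨ n = 2 := by omega
    rcases hn with rfl | rfl | rfl
    · have : Subsingleton G := (Nat.card_eq_one_iff_unique.mp (by simpa using hG)).1
      exact ⟨⟨fun x y => Subsingleton.elim _ _⟩⟩
    · have hc : IsCyclic G := isCyclic_of_prime_card (p := 2) (by simpa using hG)
      obtain ⟨t, ht⟩ := hc.exists_generator
      refine ⟨⟨fun x y => ?_⟩⟩
      obtain ⟨i, rfl⟩ := ht x
      obtain ⟨j, rfl⟩ := ht y
      rw [← zpow_add, ← zpow_add, add_comm]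
    · exact IsPGroup.isMulCommutative_of_card_eq_prime_sq hG
  have hle := Cfsg.Agent.Lib.Helper3.nilpotencyClass_le_of_card n G hG (by omega)
  have hiff : (⊤ : Subgroup G).lowerCentralSeries (n - 2) ≠ ⊥ ↔ Group.nilpotencyClass G = n - 1 := by
    rw [Ne, Subgroup.lowerCentralSeries_eq_bot_iff_nilpotencyClass_le]
    omega
  rw [hiff]
  exact ⟨forward hna' n hG, fun hc H hH => backward hna' n (by omega) hG hc H hH⟩

end Cfsg.Agent.S3919
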