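import Cfsg.Statements.S0266
import Mathlib
import Cfsg.Agent.Lib.Helper7.P1
-- import your own Cfsg.Agent.* helpers here

set_option autoImplicit false
open scoped MatrixGroups
open Cfsg

namespace Cfsg.Agent.S0266

/-- PGL_2(F) is sharply 3-transitive on the projective line: it is 3-transitive and the stabiliser of three distinct points is trivial. -/
theorem result {F : Type*} [Field F] : MulAction.IsMultiplyPretransitive (Matrix.ProjGenLinGroup (Fin 2) F) (Projectivization F (Fin 2 → F)) 3 ∧ ∀ (g : Matrix.ProjGenLinGroup (Fin 2) F) (a b c : Projectivization F (Fin 2 → F)), a ≠ b → a ≠ c → b ≠ c → g • a = a → g • b = b → g • c = c → g = 1 := by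
  open Cfsg.Agent.Lib.Helper7 in
  constructor
  · rw [MulAction.isMultiplyPretransitive_iff]
    intro x y
    obtain ⟨gx, hx0, hx1, hx2⟩ := exists_frame (x 0) (x 1) (x 2) (x.injective.ne (by decide))
      (x.injective.ne (by decide)) (x.injective.ne (by decide))
    obtain ⟨gy, hy0, hy1, hy2⟩ := exists_frame (y 0) (y 1) (y 2) (y.injective.ne (by decide))
      (y.injective.ne (by decide)) (y.injective.ne (by decide))
    refine ⟨Matrix.ProjGenLinGroup.mk (gy * gx⁻¹), ?_⟩
    ext i
    rw [Function.Embedding.smul_apply]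
    show (gy * gx⁻¹) • x i = y i
    fin_cases i
    · show (gy * gx⁻¹) • x 0 = y 0
      rw [← hx0, mul_smul, inv_smul_smul, hy0]
    · show (gy * gx⁻¹) • x 1 = y 1
      rw [← hx1, mul_smul, inv_smul_smul, hy1]
    · show (gy * gx⁻¹) • x 2 = y 2
      rw [← hx2, mul_smul, inv_smul_smul, hy2]
  · intro g a b c hab hac hbc ha hb hc
    induction g using Matrix.ProjGenLinGroup.induction_on with | mk g => ?_
    obtain ⟨h, h0, h1, h2⟩ := exists_frame a b c hab hac hbc
    have ha' : g • a = a := ha
    have hb' : g • b = b := hb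
    have hc' : g • c = c := hc
    have m0 : (h⁻¹ * g * h) • pt0 F = pt0 F := by
      rw [mul_smul, mul_smul, h0, ha', ← h0, inv_smul_smul]
    have m1 : (h⁻¹ * g * h) • pt1 F = pt1 F := by
      rw [mul_smul, mul_smul, h1, hb', ← h1, inv_smul_smul]
    have m2 : (h⁻¹ * g * h) • pt2 F = pt2 F := by
      rw [mul_smul, mul_smul, h2, hc', ← h2, inv_smul_smul]
    have e10 := fix_pt0 m0
    have e01 := fix_pt1 m1
    have e := pt2_map e10 e01 ![1, 1] e2_ne m2
    simp only [Matrix.cons_val_one, Matrix.cons_val_zero, Matrix.cons_val_fin_one, mul_one] at e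
    have hm : h⁻¹ * g * h ∈ Subgroup.center (Matrix.GeneralLinearGroup (Fin 2) F) := by
      rw [Matrix.GeneralLinearGroup.mem_center_iff_val_mem_range_scalar]
      refine ⟨(h⁻¹ * g * h).1 0 0, ?_⟩
      ext i j
      fin_cases i <;> fin_cases j
      · simp
      · simpa using e01.symm
      · simpa using e10.symm
      · simpa using e
    rw [Matrix.ProjGenLinGroup.mk_eq_one]
    have := (Subgroup.center (Matrix.GeneralLinearGroup (Fin 2) F)).normal_of_characteristic.conj_mem _ hm h
    convert this using 1
    group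

end Cfsg.Agent.S0266
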