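import Cfsg.Statements.S4088
import Cfsg.Agent.Lib.Helper72.Subnormalizer

set_option autoImplicit false
open Cfsg

namespace Cfsg.Agent.S4088

open Cfsg.Agent.Lib.Helper52 Cfsg.Agent.Lib.Helper72

open Classical in
/-- indicator of the down-set of `y` -/
noncomputable def ind {G : Type*} [Group G] (y : Subgroup G) : Subgroup G → ℤ :=
  fun Y => if Y ≤ y then 1 else 0

theorem span_vanish {G : Type*} [Group G] [Finite G] (B : Set (Subgroup G))
    (φ : Subgroup G → ℤ) (hφ : φ ∈ Submodule.span ℤ (ind '' B)) (h0 : ∀ y ∈ B, φ y = 0) :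
    φ = 0 := by
  classical
  induction' hn : B.ncard using Nat.strong_induction_on with n ih generalizing B φ
  by_cases hB : B = ∅
  · subst hB; simpa using hφ
  obtain ⟨y0, hy0, hmax⟩ := (Set.toFinite B).exists_maximal (Set.nonempty_iff_ne_empty.2 hB)
  have hins : B = insert y0 (B \ {y0}) := by simp [Set.insert_eq_of_mem hy0]
  rw [hins, Set.image_insert_eq, Submodule.mem_span_insert] at hφ
  obtain ⟨a, z, hz, rfl⟩ := hφ
  have hz0 : z y0 = 0 := by
    refine Submodule.span_induction (p := fun f _ => f y0 = 0) ?_ ?_ ?_ ?_ hz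
    · rintro _ ⟨y, ⟨hy, hne⟩, rfl⟩
      unfold ind
      rw [if_neg]
      intro hle
      exact hne (le_antisymm (hmax hy hle) hle)
    · rfl
    · intro x y _ _ hx hy
      simp [hx, hy]
    · intro c x _ hx
      simp [hx]
  have ha : a = 0 := by
    have := h0 y0 hy0
    simpa [ind, hz0] using this
  subst ha
  simp only [zero_smul, zero_add] at h0 ⊢
  refine ih (B \ {y0}).ncard ?_ (B \ {y0}) z hz (fun y hy => h0 y hy.1) rfl
  rw [← hn]
  exact Set.ncard_sdiff_singleton_lt_of_mem hy0 (Set.toFinite B)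

theorem downset_mem_span {G : Type*} [Group G] (C : Set (Subgroup G))
    (hC : ∀ a ∈ C, ∀ b ∈ C, a ⊓ b ∈ C) :
    ∀ n : ℕ, ∀ J : Finset (Subgroup G), J.card ≤ n → (∀ V ∈ J, V ∈ C) →
      (fun Y : Subgroup G => by classical exact if ∃ V ∈ J, Y ≤ V then (1 : ℤ) else 0) ∈
        Submodule.span ℤ (ind '' C) := by
  classical
  intro n
  induction n with
  | zero =>
    intro J hJ _
    have : J = ∅ := by simpa using hJ
    subst this
    simp only [Finset.notMem_empty, false_and, exists_false, if_false]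
    exact Submodule.zero_mem _
  | succ n ih =>
    intro J hJ hJC
    by_cases hJe : J = ∅
    · subst hJe
      simp only [Finset.notMem_empty, false_and, exists_false, if_false]
      exact Submodule.zero_mem _
    obtain ⟨V, hV⟩ := Finset.nonempty_iff_ne_empty.2 hJe
    set J' := J.erase V with hJ'
    have hcard : J'.card ≤ n := by
      rw [hJ', Finset.card_erase_of_mem hV]; omega
    have h1 := ih J' hcard (fun W hW => hJC W (Finset.mem_of_mem_erase hW))
    have h2 := ih (J'.image (· ⊓ V)) (Finset.card_image_le.trans hcard) (by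
      intro W hW
      obtain ⟨W', hW', rfl⟩ := Finset.mem_image.mp hW
      exact hC _ (hJC W' (Finset.mem_of_mem_erase hW')) _ (hJC V hV))
    have h3 : ind V ∈ Submodule.span ℤ (ind '' C) :=
      Submodule.subset_span ⟨V, hJC V hV, rfl⟩
    have heq : (fun Y : Subgroup G => if ∃ W ∈ J, Y ≤ W then (1 : ℤ) else 0) =
        (fun Y : Subgroup G => if ∃ W ∈ J', Y ≤ W then (1 : ℤ) else 0) + ind V -
        (fun Y : Subgroup G => if ∃ W ∈ J'.image (· ⊓ V), Y ≤ W then (1 : ℤ) else 0) := by
      funext Y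
      simp only [Pi.add_apply, Pi.sub_apply, ind]
      have e1 : (∃ W ∈ J, Y ≤ W) ↔ (Y ≤ V ∨ ∃ W ∈ J', Y ≤ W) := by
        constructor
        · rintro ⟨W, hW, hYW⟩
          by_cases hWV : W = V
          · left; rw [← hWV]; exact hYW
          · right; exact ⟨W, Finset.mem_erase.2 ⟨hWV, hW⟩, hYW⟩
        · rintro (h | ⟨W, hW, hYW⟩)
          · exact ⟨V, hV, h⟩
          · exact ⟨W, Finset.mem_of_mem_erase hW, hYW⟩
      have e2 : (∃ W ∈ J'.image (· ⊓ V), Y ≤ W) ↔ (Y ≤ V ∧ ∃ W ∈ J', Y ≤ W) := by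
        constructor
        · rintro ⟨W, hW, hYW⟩
          obtain ⟨W', hW', rfl⟩ := Finset.mem_image.mp hW
          exact ⟨hYW.trans inf_le_right, W', hW', hYW.trans inf_le_left⟩
        · rintro ⟨h, W, hW, hYW⟩
          exact ⟨W ⊓ V, Finset.mem_image_of_mem _ hW, le_inf hYW h⟩
      by_cases c1 : Y ≤ V <;> by_cases c2 : ∃ W ∈ J', Y ≤ W <;> simp [e1, e2, c1, c2]
    have := Submodule.sub_mem _ (Submodule.add_mem _ h1 h3) h2
    rw [← heq] at this
    exact this

/-- `g` normalizes a `p`-subgroup containing `H`. -/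
def SNp {G : Type*} [Group G] (p : ℕ) (H : Subgroup G) (g : G) : Prop :=
  ∃ V : Subgroup G, H ≤ V ∧ IsPGroup p V ∧ g ∈ Subgroup.normalizer (V : Set G)

open Classical in
theorem card_eq_sum {α : Type*} [Fintype α] (P : α → Prop) :
    (Nat.card {a // P a} : ℤ) = ∑ a, if P a then 1 else 0 := by
  rw [Nat.card_eq_fintype_card, Fintype.card_subtype, Finset.sum_boole]

theorem card_split {α : Type*} [Finite α] (P Q : α → Prop) :
    (Nat.card {a // P a} : ℤ) = Nat.card {a // Q a ∧ P a} + Nat.card {a // ¬ Q a ∧ P a} := by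
  classical
  have := Fintype.ofFinite α
  rw [card_eq_sum, card_eq_sum, card_eq_sum, ← Finset.sum_add_distrib]
  apply Finset.sum_congr rfl
  intro a _
  by_cases h1 : P a <;> by_cases h2 : Q a <;> simp [h1, h2]

theorem mem_normalizer_inf {G : Type*} [Group G] {A B : Subgroup G} {g : G}
    (hA : g ∈ Subgroup.normalizer (A : Set G)) (hB : g ∈ Subgroup.normalizer (B : Set G)) :
    g ∈ Subgroup.normalizer ((A ⊓ B : Subgroup G) : Set G) := by
  rw [Subgroup.mem_normalizer_iff] at *
  intro h
  rw [Subgroup.mem_inf, Subgroup.mem_inf, hA h, hB h]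

section claims

variable {G : Type*} [Group G] [Finite G] {p : ℕ} [Fact p.Prime]

/-- the set of `p`-subgroups strictly between `H` and its normalizer -/
def BB (p : ℕ) (H : Subgroup G) : Set (Subgroup G) :=
  {y | IsPGroup p y ∧ H < y ∧ y ≤ Subgroup.normalizer (H : Set G)}

theorem inf_mem_BB {H W : Subgroup G} (hW : IsPGroup p W) (hlt : H < W) :
    W ⊓ Subgroup.normalizer (H : Set G) ∈ BB p H :=
  ⟨hW.to_le inf_le_left, lt_inf_normalizer' hW hlt, inf_le_right⟩

theorem claim1 (H : Subgroup G) (hSyl : ¬ ∃ Q : Sylow p G, (Q : Subgroup G) = H) (c : ℤ) :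
    ∃ φ ∈ Submodule.span ℤ (ind '' BB p H), ∀ Y : Subgroup G, H ≤ Y →
      Y ≤ Subgroup.normalizer (H : Set G) →
      φ Y = (Nat.card {Q : Sylow p G // Y ≤ (Q : Subgroup G)} : ℤ) * c := by
  classical
  have := Fintype.ofFinite (Sylow p G)
  refine ⟨∑ Q : Sylow p G, if H ≤ (Q : Subgroup G) then
    c • ind ((Q : Subgroup G) ⊓ Subgroup.normalizer (H : Set G)) else 0, ?_, ?_⟩
  · apply Submodule.sum_mem
    intro Q _
    split_ifs with h
    · apply Submodule.smul_mem
      apply Submodule.subset_span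
      refine ⟨_, inf_mem_BB Q.isPGroup' (lt_of_le_of_ne h ?_), rfl⟩
      intro he
      exact hSyl ⟨Q, he.symm⟩
    · exact Submodule.zero_mem _
  · intro Y hHY hYN
    rw [card_eq_sum, Finset.sum_apply, Finset.sum_mul]
    apply Finset.sum_congr rfl
    intro Q _
    by_cases h1 : Y ≤ (Q : Subgroup G)
    · have h2 : H ≤ (Q : Subgroup G) := hHY.trans h1
      have h3 : Y ≤ (Q : Subgroup G) ⊓ Subgroup.normalizer (H : Set G) := le_inf h1 hYN
      simp [h1, h2, ind, h3]
    · have h3 : ¬ Y ≤ (Q : Subgroup G) ⊓ Subgroup.normalizer (H : Set G) :=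
        fun h => h1 (h.trans inf_le_left)
      by_cases h2 : H ≤ (Q : Subgroup G) <;> simp [h1, h2, ind, h3]

theorem claim2 (H : Subgroup G) :
    ∃ φ ∈ Submodule.span ℤ (ind '' BB p H), ∀ Y : Subgroup G, H ≤ Y →
      Y ≤ Subgroup.normalizer (H : Set G) →
      φ Y = (Nat.card {g : G // ¬ g ∈ Subgroup.normalizer (H : Set G) ∧ SNp p Y g} : ℤ) := by
  classical
  have := Fintype.ofFinite G
  have := Fintype.ofFinite (Subgroup G)
  set N := Subgroup.normalizer (H : Set G) with hN
  let J : G → Finset (Subgroup G) := fun g =>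
    (Finset.univ.filter (fun W : Subgroup G => IsPGroup p W ∧ H ≤ W ∧
      g ∈ Subgroup.normalizer (W : Set G))).image (· ⊓ N)
  let C : G → Set (Subgroup G) := fun g =>
    {X | ∃ W : Subgroup G, IsPGroup p W ∧ H ≤ W ∧ g ∈ Subgroup.normalizer (W : Set G) ∧ X = W ⊓ N}
  refine ⟨∑ g : G, if g ∈ N then 0 else
    (fun Y : Subgroup G => if ∃ V ∈ J g, Y ≤ V then (1 : ℤ) else 0), ?_, ?_⟩
  · apply Submodule.sum_mem
    intro g _
    split_ifs with h
    · exact Submodule.zero_mem _
    · have hC : ∀ a ∈ C g, ∀ b ∈ C g, a ⊓ b ∈ C g := by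
        rintro _ ⟨W1, h1, h2, h3, rfl⟩ _ ⟨W2, h1', h2', h3', rfl⟩
        refine ⟨W1 ⊓ W2, h1.to_le inf_le_left, le_inf h2 h2', mem_normalizer_inf h3 h3', ?_⟩
        exact (inf_inf_distrib_right W1 W2 N).symm
      have hJC : ∀ V ∈ J g, V ∈ C g := by
        intro V hV
        obtain ⟨W, hW, rfl⟩ := Finset.mem_image.mp hV
        rw [Finset.mem_filter] at hW
        exact ⟨W, hW.2.1, hW.2.2.1, hW.2.2.2, rfl⟩
      have hCB : C g ⊆ BB p H := by
        rintro _ ⟨W, h1, h2, h3, rfl⟩
        apply inf_mem_BB h1 (lt_of_le_of_ne h2 ?_)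
        rintro rfl
        exact h h3
      have h4 := downset_mem_span (C g) hC _ (J g) le_rfl hJC
      exact Submodule.span_mono (Set.image_mono hCB) h4
  · intro Y hHY hYN
    rw [card_eq_sum, Finset.sum_apply]
    apply Finset.sum_congr rfl
    intro g _
    by_cases h : g ∈ N
    · simp [h]
    · have e : (∃ V ∈ J g, Y ≤ V) ↔ SNp p Y g := by
        constructor
        · rintro ⟨V, hV, hYV⟩
          obtain ⟨W, hW, rfl⟩ := Finset.mem_image.mp hV
          rw [Finset.mem_filter] at hW
          exact ⟨W, hYV.trans inf_le_left, hW.2.1, hW.2.2.2⟩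
        · rintro ⟨W, h1, h2, h3⟩
          exact ⟨W ⊓ N, Finset.mem_image_of_mem _ (Finset.mem_filter.2
            ⟨Finset.mem_univ _, h2, hHY.trans h1, h3⟩), le_inf h1 hYN⟩
      by_cases h5 : SNp p Y g <;> simp [h, e, h5]

end claims

section claims3

variable {G : Type*} [Group G] [Finite G] {p : ℕ} [Fact p.Prime]

omit [Finite G] in
theorem le_map_subtype_iff {N Y : Subgroup G} (hYN : Y ≤ N) (T : Subgroup N) :
    Y ≤ T.map N.subtype ↔ Y.subgroupOf N ≤ T := by
  conv_lhs => rw [← Subgroup.map_subgroupOf_eq_of_le hYN]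
  exact Subgroup.map_subtype_le_map_subtype

omit [Finite G] [Fact p.Prime] in
theorem snp_subgroupOf_iff {N Y : Subgroup G} (hYN : Y ≤ N) (g : N) :
    SNp p (Y.subgroupOf N) g ↔ SNp p Y (g : G) := by
  constructor
  · rintro ⟨V, h1, h2, h3⟩
    refine ⟨V.map N.subtype, (le_map_subtype_iff hYN V).2 h1, h2.map _, ?_⟩
    exact Subgroup.le_normalizer_map N.subtype ⟨g, h3, rfl⟩
  · rintro ⟨V, h1, h2, h3⟩
    refine ⟨V.subgroupOf N, Subgroup.subgroupOf_mono N h1, isPGroup_subgroupOf h2, ?_⟩
    exact Subgroup.le_normalizer_comap N.subtype h3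

theorem claim3 (H : Subgroup G) (hH : IsPGroup p H)
    (hSyl : ¬ ∃ Q : Sylow p G, (Q : Subgroup G) = H) (cN : ℕ)
    (hIH : ∀ Y' : Subgroup (Subgroup.normalizer (H : Set G)), IsPGroup p Y' →
      Nat.card {g : Subgroup.normalizer (H : Set G) // SNp p Y' g} =
        Nat.card {T : Sylow p (Subgroup.normalizer (H : Set G)) // Y' ≤ (T : Subgroup _)} * cN) :
    ∃ φ ∈ Submodule.span ℤ (ind '' BB p H), ∀ Y : Subgroup G, IsPGroup p Y → H ≤ Y →
      Y ≤ Subgroup.normalizer (H : Set G) →
      φ Y = (Nat.card {g : G // g ∈ Subgroup.normalizer (H : Set G) ∧ SNp p Y g} : ℤ) := by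
  classical
  set N := Subgroup.normalizer (H : Set G) with hN
  have := Fintype.ofFinite (Sylow p N)
  refine ⟨∑ T : Sylow p N, (cN : ℤ) • ind ((T : Subgroup N).map N.subtype), ?_, ?_⟩
  · apply Submodule.sum_mem
    intro T _
    apply Submodule.smul_mem
    apply Submodule.subset_span
    refine ⟨_, ⟨T.isPGroup'.map _, ?_, Subgroup.map_subtype_le _⟩, rfl⟩
    have hHN : H ≤ N := Subgroup.le_normalizer
    have hn : (H.subgroupOf N).Normal := Subgroup.normal_in_normalizer
    have h1 : H.subgroupOf N ≤ T := normal_pgroup_le_sylow hn (isPGroup_subgroupOf hH) T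
    have h2 : H ≤ (T : Subgroup N).map N.subtype := (le_map_subtype_iff hHN _).2 h1
    refine lt_of_le_of_ne h2 ?_
    intro he
    obtain ⟨Q, hQ⟩ := hH.exists_le_sylow
    have hlt : H < (Q : Subgroup G) := lt_of_le_of_ne hQ (fun h => hSyl ⟨Q, h.symm⟩)
    have h3 := lt_inf_normalizer' Q.isPGroup' hlt
    rw [← hN] at h3
    have h4 : IsPGroup p (((Q : Subgroup G) ⊓ N).subgroupOf N) :=
      isPGroup_subgroupOf (Q.isPGroup'.to_le inf_le_left)
    have h5 : (T : Subgroup N) ≤ ((Q : Subgroup G) ⊓ N).subgroupOf N := by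
      rw [← Subgroup.map_subtype_le_map_subtype, Subgroup.map_subgroupOf_eq_of_le inf_le_right,
        ← he]
      exact h3.le
    have h6 := T.3 h4 h5
    have h7 : (Q : Subgroup G) ⊓ N ≤ H := by
      rw [he, le_map_subtype_iff inf_le_right, h6]
    exact absurd (lt_of_lt_of_le h3 h7) (lt_irrefl _)
  · intro Y hY hHY hYN
    have h1 := hIH (Y.subgroupOf N) (isPGroup_subgroupOf hY)
    have h2 : Nat.card {g : N // SNp p (Y.subgroupOf N) g} =
        Nat.card {g : G // g ∈ N ∧ SNp p Y g} := by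
      rw [← Nat.card_congr (Equiv.subtypeSubtypeEquivSubtypeInter (· ∈ N) (SNp p Y))]
      apply Nat.card_congr
      apply Equiv.subtypeEquivRight
      intro g
      exact snp_subgroupOf_iff hYN g
    rw [← h2, h1, Nat.cast_mul, card_eq_sum, Finset.sum_apply, Finset.sum_mul]
    apply Finset.sum_congr rfl
    intro T _
    by_cases h3 : Y.subgroupOf N ≤ T
    · have h4 := (le_map_subtype_iff hYN _).2 h3
      simp [ind, h3, h4]
    · have h4 : ¬ Y ≤ (T : Subgroup N).map N.subtype := fun h => h3 ((le_map_subtype_iff hYN _).1 h)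
      simp [ind, h3, h4]

end claims3

theorem card_normalizer_sylow {G : Type*} [Group G] [Finite G] {p : ℕ} [Fact p.Prime]
    (P Q : Sylow p G) :
    Nat.card (Subgroup.normalizer ((P : Subgroup G) : Set G)) =
      Nat.card (Subgroup.normalizer ((Q : Subgroup G) : Set G)) := by
  have h1 : Nat.card (Sylow p G) = (Subgroup.normalizer ((P : Subgroup G) : Set G)).index :=
    Sylow.card_eq_index_normalizer P
  have h2 : Nat.card (Sylow p G) = (Subgroup.normalizer ((Q : Subgroup G) : Set G)).index :=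
    Sylow.card_eq_index_normalizer Q
  have h3 := Subgroup.card_mul_index (Subgroup.normalizer ((P : Subgroup G) : Set G))
  have h4 := Subgroup.card_mul_index (Subgroup.normalizer ((Q : Subgroup G) : Set G))
  rw [← h1] at h3
  rw [← h2] at h4
  exact Nat.eq_of_mul_eq_mul_right Nat.card_pos (h3.trans h4.symm)

universe u

theorem casolo_aux (p : ℕ) [Fact p.Prime] (n : ℕ) :
    ∀ (G : Type u) [Group G] [Finite G], Nat.card G = n →
    ∀ (H : Subgroup G), IsPGroup p H → ∀ P : Sylow p G,
    Nat.card {g : G // SNp p H g} = Nat.card {Q : Sylow p G // H ≤ (Q : Subgroup G)} *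
      Nat.card (Subgroup.normalizer ((P : Subgroup G) : Set G)) := by
  induction n using Nat.strong_induction_on with
  | _ n IH =>
  intro G _ _ hG H
  induction' hm : Nat.card G - Nat.card H using Nat.strong_induction_on with m ih generalizing H
  intro hH P
  by_cases hN : Subgroup.normalizer (H : Set G) = ⊤
  · have hn : H.Normal := Subgroup.normalizer_eq_top_iff.mp hN
    have e1 : Nat.card {g : G // SNp p H g} = Nat.card G :=
      Nat.card_congr (Equiv.subtypeUnivEquiv (fun g => ⟨H, le_rfl, hH, by rw [hN]; trivial⟩))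
    have e2 : Nat.card {Q : Sylow p G // H ≤ (Q : Subgroup G)} = Nat.card (Sylow p G) :=
      Nat.card_congr (Equiv.subtypeUnivEquiv (fun Q => normal_pgroup_le_sylow hn hH Q))
    have h1 : Nat.card (Sylow p G) = (Subgroup.normalizer ((P : Subgroup G) : Set G)).index :=
      Sylow.card_eq_index_normalizer P
    rw [e1, e2, h1, Subgroup.index_mul_card]
  by_cases hSyl : ∃ Q : Sylow p G, (Q : Subgroup G) = H
  · obtain ⟨Q, rfl⟩ := hSyl
    have e1 : Nat.card {g : G // SNp p (Q : Subgroup G) g} =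
        Nat.card (Subgroup.normalizer ((Q : Subgroup G) : Set G)) := by
      apply Nat.card_congr
      apply Equiv.subtypeEquivRight
      intro g
      constructor
      · rintro ⟨V, h1, h2, h3⟩
        have := Q.3 h2 h1
        rw [this] at h3
        exact h3
      · intro h
        exact ⟨Q, le_rfl, Q.isPGroup', h⟩
    have e2 : Nat.card {Q' : Sylow p G // (Q : Subgroup G) ≤ (Q' : Subgroup G)} = 1 := by
      have : Unique {Q' : Sylow p G // (Q : Subgroup G) ≤ (Q' : Subgroup G)} :=
        ⟨⟨⟨Q, le_rfl⟩⟩, fun ⟨Q', h⟩ => Subtype.ext (Sylow.ext (Q.3 Q'.isPGroup' h))⟩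
      exact Nat.card_unique
    rw [e1, e2, one_mul, card_normalizer_sylow]
  · set N := Subgroup.normalizer (H : Set G) with hNdef
    obtain ⟨T0⟩ : Nonempty (Sylow p N) := inferInstance
    have hlt : Nat.card N < n := by
      rw [← hG]
      have h1 : N < ⊤ := lt_top_iff_ne_top.2 hN
      have h2 : Nat.card N < Nat.card (⊤ : Subgroup G) :=
        Set.ncard_lt_ncard (s := (N : Set G)) (SetLike.coe_ssubset_coe.2 h1) (Set.toFinite _)
      rwa [Subgroup.card_top] at h2
    have hIH := fun (Y' : Subgroup N) (hY' : IsPGroup p Y') => IH (Nat.card N) hlt N rfl Y' hY' T0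
    obtain ⟨φ1, m1, e1⟩ := claim1 H hSyl
      (Nat.card (Subgroup.normalizer ((P : Subgroup G) : Set G)) : ℤ)
    obtain ⟨φ2, m2, e2⟩ := claim2 (p := p) H
    obtain ⟨φ3, m3, e3⟩ := claim3 H hH hSyl _ hIH
    have hz : φ1 - φ2 - φ3 = 0 := by
      apply span_vanish (BB p H) _ (Submodule.sub_mem _ (Submodule.sub_mem _ m1 m2) m3)
      rintro y ⟨hy1, hy2, hy3⟩
      have hc : Nat.card H < Nat.card y :=
        Set.ncard_lt_ncard (s := (H : Set G)) (SetLike.coe_ssubset_coe.2 hy2) (Set.toFinite _)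
      have hc' : Nat.card y ≤ Nat.card G := Subgroup.card_le_card_group y
      have h1 := ih (Nat.card G - Nat.card y) (by omega) y rfl hy1 P
      simp only [Pi.sub_apply]
      rw [e1 y hy2.le hy3, e2 y hy2.le hy3, e3 y hy1 hy2.le hy3]
      have h2 := card_split (SNp p y) (· ∈ N)
      rw [h1] at h2
      push_cast at h2
      linarith
    have h3 := congrFun hz H
    simp only [Pi.sub_apply, Pi.zero_apply] at h3
    rw [e1 H le_rfl Subgroup.le_normalizer, e2 H le_rfl Subgroup.le_normalizer,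
      e3 H hH le_rfl Subgroup.le_normalizer] at h3
    have h2 := card_split (SNp p H) (· ∈ N)
    have h4 : (Nat.card {g : G // SNp p H g} : ℤ) =
        ((Nat.card {Q : Sylow p G // H ≤ (Q : Subgroup G)} *
          Nat.card (Subgroup.normalizer ((P : Subgroup G) : Set G)) : ℕ) : ℤ) := by
      push_cast
      linarith
    exact_mod_cast h4

theorem card_eq_mul_of_fibers {α β : Type*} [Finite α] [Finite β] (f : α → β) (A : α → Prop)
    (B : β → Prop) (c : ℕ) (hmaps : ∀ a, A a → B (f a))
    (hfib : ∀ b, B b → Nat.card {a // A a ∧ f a = b} = c) :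
    Nat.card {a // A a} = Nat.card {b // B b} * c := by
  classical
  have := Fintype.ofFinite {b // B b}
  let e : {a // A a} ≃ Σ b : {b // B b}, {a // A a ∧ f a = b.1} :=
    { toFun := fun a => ⟨⟨f a.1, hmaps a.1 a.2⟩, ⟨a.1, a.2, rfl⟩⟩
      invFun := fun x => ⟨x.2.1, x.2.2.1⟩
      left_inv := fun a => rfl
      right_inv := by
        rintro ⟨⟨b, hb⟩, ⟨a, ha, hab⟩⟩
        dsimp only at hab
        subst hab
        rfl }
  rw [Nat.card_congr e, Nat.card_sigma, Finset.sum_congr rfl (fun b _ => hfib b.1 b.2)]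
  simp [Nat.card_eq_fintype_card]

theorem map_conj_le_iff {G : Type*} [Group G] {p : ℕ} (H : Subgroup G) (P : Sylow p G) (x : G) :
    H.map (MulAut.conj x).toMonoidHom ≤ (P : Subgroup G) ↔
      H ≤ ((x⁻¹ • P : Sylow p G) : Subgroup G) := by
  have key : ∀ h : G, h ∈ ((x⁻¹ • P : Sylow p G) : Subgroup G) ↔ x * h * x⁻¹ ∈ (P : Subgroup G) := by
    intro h
    rw [Sylow.coe_subgroup_smul, Subgroup.mem_pointwise_smul_iff_inv_smul_mem]
    have h4 : (MulAut.conj x⁻¹)⁻¹ • h = x * h * x⁻¹ := by
      simp [MulAut.smul_def]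
    rw [h4]
  constructor
  · intro h y hy
    rw [key]
    exact h ⟨y, hy, rfl⟩
  · rintro h _ ⟨y, hy, rfl⟩
    exact (key y).mp (h hy)

theorem map_conj_eq_iff {G : Type*} [Group G] (H : Subgroup G) (x g : G) :
    H.map (MulAut.conj x).toMonoidHom = H.map (MulAut.conj g).toMonoidHom ↔
      g⁻¹ * x ∈ Subgroup.normalizer (H : Set G) := by
  rw [Subgroup.mem_normalizer_iff_map_conj_eq]
  have h1 : ∀ a b : G, H.map (MulAut.conj (a * b)).toMonoidHom =
      (H.map (MulAut.conj b).toMonoidHom).map (MulAut.conj a).toMonoidHom := by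
    intro a b
    rw [Subgroup.map_map]
    congr 1
    ext y
    simp [mul_assoc]
  constructor
  · intro h
    change H.map (MulAut.conj (g⁻¹ * x)).toMonoidHom = H
    rw [h1, h, ← h1, inv_mul_cancel]
    ext y
    simp
  · intro h
    have h2 : H.map (MulAut.conj (g⁻¹ * x)).toMonoidHom = H := h
    have h3 : x = g * (g⁻¹ * x) := by group
    conv_lhs => rw [h3, h1, h2]

theorem double_count {G : Type*} [Group G] [Finite G] (p : ℕ) [Fact p.Prime]
    (H : Subgroup G) (P : Sylow p G) :
    Nat.card {Q : Sylow p G // H ≤ (Q : Subgroup G)} *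
        Nat.card (Subgroup.normalizer ((P : Subgroup G) : Set G)) =
      Nat.card {K : Subgroup G // K ≤ (P : Subgroup G) ∧
          ∃ g : G, K = H.map (MulAut.conj g).toMonoidHom} *
        Nat.card (Subgroup.normalizer (H : Set G)) := by
  have e1 := card_eq_mul_of_fibers (fun x : G => H.map (MulAut.conj x).toMonoidHom)
    (fun x => H.map (MulAut.conj x).toMonoidHom ≤ (P : Subgroup G))
    (fun K => K ≤ (P : Subgroup G) ∧ ∃ g : G, K = H.map (MulAut.conj g).toMonoidHom)
    (Nat.card (Subgroup.normalizer (H : Set G)))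
    (fun x hx => ⟨hx, x, rfl⟩) (by
      rintro _ ⟨hK, g, rfl⟩
      apply Nat.card_congr
      refine Equiv.subtypeEquiv (Equiv.mulLeft g⁻¹) ?_
      intro x
      simp only [Equiv.coe_mulLeft]
      rw [← map_conj_eq_iff]
      constructor
      · exact fun h => h.2
      · intro h
        exact ⟨h ▸ hK, h⟩)
  have e2 := card_eq_mul_of_fibers (fun x : G => (x⁻¹ • P : Sylow p G))
    (fun x => H.map (MulAut.conj x).toMonoidHom ≤ (P : Subgroup G))
    (fun Q => H ≤ (Q : Subgroup G))
    (Nat.card (Subgroup.normalizer ((P : Subgroup G) : Set G)))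
    (fun x hx => (map_conj_le_iff H P x).mp hx) (by
      intro Q hQ
      obtain ⟨g, rfl⟩ := MulAction.exists_smul_eq G P Q
      apply Nat.card_congr
      refine Equiv.subtypeEquiv (Equiv.mulRight g) ?_
      intro x
      simp only [Equiv.coe_mulRight]
      have h1 : x * g ∈ Subgroup.normalizer ((P : Subgroup G) : Set G) ↔ (x * g) • P = P :=
        Sylow.smul_eq_iff_mem_normalizer.symm
      rw [h1, mul_smul]
      constructor
      · rintro ⟨_, h⟩
        rw [← h, smul_inv_smul]
      · intro h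
        have h2 : x⁻¹ • P = g • P := by
          calc x⁻¹ • P = x⁻¹ • (x • g • P) := by rw [h]
            _ = g • P := inv_smul_smul _ _
        exact ⟨(map_conj_le_iff H P x).mpr (h2 ▸ hQ), h2⟩)
  rw [← e1, ← e2]

/-- Let G be a finite group, p a prime dividing the order of G, H a p-subgroup of G and P a Sylow p-subgroup of G. Call the subnormalizer of H the set of elements g of G such that H is subnormal in the subgroup generated by H and g. Then the number of elements of the subnormalizer of H equals the number of Sylow p-subgroups of G containing H times the order of N_G(P), and also equals the number of conjugates of H contained in P times the order of N_G(H). -/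
theorem result {G : Type*} [Group G] [Finite G] (p : ℕ) [Fact p.Prime]
    (hp : p ∣ Nat.card G) (H : Subgroup G) (hH : IsPGroup p H) (P : Sylow p G) :
    Nat.card {g : G // ((H).subgroupOf (H ⊔ Subgroup.zpowers g)).IsSubnormal} =
        Nat.card {Q : Sylow p G // H ≤ (Q : Subgroup G)} * Nat.card (Subgroup.normalizer ((P : Subgroup G) : Set G)) ∧
    Nat.card {g : G // ((H).subgroupOf (H ⊔ Subgroup.zpowers g)).IsSubnormal} =
        Nat.card {K : Subgroup G // K ≤ (P : Subgroup G) ∧ ∃ g : G, K = H.map (MulAut.conj g).toMonoidHom} *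
          Nat.card (Subgroup.normalizer (H : Set G)) := by
  have h1 : Nat.card {g : G // ((H).subgroupOf (H ⊔ Subgroup.zpowers g)).IsSubnormal} =
      Nat.card {g : G // SNp p H g} :=
    Nat.card_congr (Equiv.subtypeEquivRight (fun g => subN_iff hH g))
  have h2 := casolo_aux p _ G rfl H hH P
  exact ⟨h1.trans h2, (h1.trans h2).trans (double_count p H P)⟩

end Cfsg.Agent.S4088
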