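import Cfsg.Statements.S4090
import Cfsg.Agent.S4088
import Cfsg.Agent.Lib.Helper53.Basic

set_option autoImplicit false
open scoped BigOperators
open Cfsg

namespace Cfsg.Agent.S4090

open Cfsg.Agent.Lib.Helper53

section

variable {G : Type*} [Group G] [Finite G] {p : ℕ} [Fact p.Prime]

/-- number of `x` conjugating `H` into `A` -/
noncomputable def zz (H A : Subgroup G) : ℕ :=
  Nat.card {x : G // H.map (MulAut.conj x).toMonoidHom ≤ A}

theorem card_subnormalizer (H : Subgroup G) (hH : IsPGroup p H) (P : Sylow p G) :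
    Nat.card {g : G // ((H).subgroupOf (H ⊔ Subgroup.zpowers g)).IsSubnormal} =
      zz H (P : Subgroup G) := by
  have h1 : Nat.card {g : G // ((H).subgroupOf (H ⊔ Subgroup.zpowers g)).IsSubnormal} =
      Nat.card {g : G // S4088.SNp p H g} :=
    Nat.card_congr (Equiv.subtypeEquivRight (fun g => Cfsg.Agent.Lib.Helper72.subN_iff hH g))
  have h2 := S4088.casolo_aux p _ G rfl H hH P
  have e2 := S4088.card_eq_mul_of_fibers (fun x : G => (x⁻¹ • P : Sylow p G))
    (fun x => H.map (MulAut.conj x).toMonoidHom ≤ (P : Subgroup G))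
    (fun Q => H ≤ (Q : Subgroup G))
    (Nat.card (Subgroup.normalizer ((P : Subgroup G) : Set G)))
    (fun x hx => (S4088.map_conj_le_iff H P x).mp hx) (by
      intro Q hQ
      obtain ⟨g, rfl⟩ := MulAction.exists_smul_eq G P Q
      apply Nat.card_congr
      refine Equiv.subtypeEquiv (Equiv.mulRight g) ?_
      intro x
      simp only [Equiv.coe_mulRight]
      have h1 : x * g ∈ Subgroup.normalizer ((P : Subgroup G) : Set G) ↔ (x * g) • P = P :=
        Sylow.smul_eq_iff_mem_normalizer.symm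
      rw [h1, mul_smul]
      constructor
      · rintro ⟨_, h⟩
        rw [← h, smul_inv_smul]
      · intro h
        have h2 : x⁻¹ • P = g • P := by
          calc x⁻¹ • P = x⁻¹ • (x • g • P) := by rw [h]
            _ = g • P := inv_smul_smul _ _
        exact ⟨(S4088.map_conj_le_iff H P x).mpr (h2 ▸ hQ), h2⟩)
  rw [h1, h2]
  exact e2.symm

/-- `P ∩ L ≤ K` when `L/K` is a `p'`-group -/
theorem mem_of_coprime_relIndex {K L : Subgroup G} [K.Normal] (hcop : (K.relIndex L).Coprime p)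
    {A : Subgroup G} (hA : IsPGroup p A) {a : G} (haA : a ∈ A) (haL : a ∈ L) : a ∈ K := by
  have h1 : (⟨a, haL⟩ : L) ^ (K.subgroupOf L).index ∈ K.subgroupOf L :=
    (K.subgroupOf L).pow_index_mem _
  have h2 : a ^ K.relIndex L ∈ K := h1
  obtain ⟨j, hj⟩ := hA ⟨a, haA⟩
  have hj' : a ^ p ^ j = 1 := by
    have := congrArg Subtype.val hj
    simpa using this
  have h3 : orderOf a ∣ p ^ j := orderOf_dvd_of_pow_eq_one hj'
  have h4 : (K.relIndex L).Coprime (orderOf a) :=
    Nat.Coprime.coprime_dvd_right h3 (Nat.Coprime.pow_right j hcop)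
  obtain ⟨m, hm⟩ := exists_pow_eq_self_of_coprime h4
  rw [← hm]
  exact K.pow_mem h2 m

theorem sup_inf_le {K L : Subgroup G} [K.Normal] (hKL : K ≤ L) (hcop : (K.relIndex L).Coprime p)
    (P : Sylow p G) : ((P : Subgroup G) ⊔ K) ⊓ L ≤ K := by
  rintro x ⟨hx1, hx2⟩
  obtain ⟨a, ha, k, hk, rfl⟩ := Subgroup.mem_sup_of_normal_right.mp hx1
  have haL : a ∈ L := by
    have := L.mul_mem hx2 (L.inv_mem (hKL hk))
    simpa using this
  exact K.mul_mem (mem_of_coprime_relIndex hcop P.isPGroup' ha haL) hk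

/-- `PK = PL` when `L/K` is a `p`-group -/
theorem sup_eq_of_pow {K L : Subgroup G} [K.Normal] [L.Normal] (hKL : K ≤ L) {m : ℕ}
    (hm : K.relIndex L = p ^ m) (P : Sylow p G) :
    (P : Subgroup G) ⊔ K = (P : Subgroup G) ⊔ L := by
  apply le_antisymm (sup_le_sup_left hKL _)
  apply sup_le le_sup_left
  have hS : IsSyl p ((P : Subgroup G) ⊓ L) L :=
    (isSyl_top_of_sylow P).inf_normal le_top (by rw [Subgroup.normalizer_eq_top])
  have h1 : K ⊔ ((P : Subgroup G) ⊓ L) = L := by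
    apply sup_isSyl_eq hKL (by rw [Subgroup.normalizer_eq_top]; exact le_top) _ hS
    intro x hx
    refine ⟨m, ?_⟩
    have h1 : (⟨x, hx⟩ : L) ^ (K.subgroupOf L).index ∈ K.subgroupOf L :=
      (K.subgroupOf L).pow_index_mem _
    have h2 : x ^ K.relIndex L ∈ K := h1
    rwa [hm] at h2
  calc L = K ⊔ ((P : Subgroup G) ⊓ L) := h1.symm
    _ ≤ (P : Subgroup G) ⊔ K := sup_le le_sup_right (inf_le_left.trans le_sup_left)

end

section

variable {G : Type*} [Group G] [Finite G] {p : ℕ} [Fact p.Prime]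

omit [Finite G] in
theorem map_conj_le_iff' (H A : Subgroup G) (x : G) :
    H.map (MulAut.conj x).toMonoidHom ≤ A ↔ ∀ h ∈ H, x * h * x⁻¹ ∈ A := by
  constructor
  · intro h y hy
    exact h ⟨y, hy, rfl⟩
  · rintro h _ ⟨y, hy, rfl⟩
    exact h y hy

theorem exists_conj_into (H : Subgroup G) (hH : IsPGroup p H) (P : Sylow p G) (L : Subgroup G)
    [L.Normal] (x0 : G) (hx0 : H.map (MulAut.conj x0).toMonoidHom ≤ (P : Subgroup G) ⊔ L) :
    ∃ l ∈ L, ∀ h ∈ H, (l * x0) * h * (l * x0)⁻¹ ∈ (P : Subgroup G) := by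
  have hPS : IsSyl p (P : Subgroup G) ((P : Subgroup G) ⊔ L) :=
    (isSyl_top_of_sylow P).of_le le_sup_left le_top
  obtain ⟨S, hS, hHS⟩ := exists_isSyl_ge hx0 (isPGroup_cj hH x0)
  obtain ⟨k, hk, rfl⟩ := hPS.exists_conj hS
  rw [sup_comm] at hk
  obtain ⟨l, hl, a, ha, rfl⟩ := Subgroup.mem_sup_of_normal_left.mp hk
  refine ⟨l⁻¹, L.inv_mem hl, ?_⟩
  intro h hh
  have h1 : x0 * h * x0⁻¹ ∈ (P : Subgroup G).map (MulAut.conj (l * a)).toMonoidHom :=
    hHS ⟨h, hh, rfl⟩
  rw [mem_cj] at h1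
  have h2 := (P : Subgroup G).mul_mem ((P : Subgroup G).mul_mem ha h1) ((P : Subgroup G).inv_mem ha)
  have h3 : a * ((l * a)⁻¹ * (x0 * h * x0⁻¹) * (l * a)) * a⁻¹ = l⁻¹ * x0 * h * (l⁻¹ * x0)⁻¹ := by
    group
  rwa [h3] at h2

theorem step_b (H : Subgroup G) (hH : IsPGroup p H) (P : Sylow p G) {K L : Subgroup G}
    [K.Normal] [L.Normal] (hKL : K ≤ L) (hcop : (K.relIndex L).Coprime p) :
    zz H ((P : Subgroup G) ⊔ K) * Nat.card L = zz H ((P : Subgroup G) ⊔ L) *
      Nat.card {u : G // u ∈ L ∧ ∀ h ∈ H, h * u * h⁻¹ * u⁻¹ ∈ K} := by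
  let B : G ⧸ L → Prop := fun q => ∃ x : G, (x : G ⧸ L) = q ∧
    H.map (MulAut.conj x).toMonoidHom ≤ (P : Subgroup G) ⊔ L
  have key : ∀ y u h : G, (y * u) * h * (y * u)⁻¹ =
      (y * (u * h * u⁻¹ * h⁻¹) * y⁻¹) * (y * h * y⁻¹) := by
    intro y u h; group
  have e1 : zz H ((P : Subgroup G) ⊔ L) = Nat.card {q // B q} * Nat.card L := by
    apply S4088.card_eq_mul_of_fibers (fun x : G => (x : G ⧸ L))
    · intro x hx
      exact ⟨x, rfl, hx⟩
    · rintro _ ⟨x0, rfl, hx0⟩
      apply Nat.card_congr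
      refine Equiv.subtypeEquiv (Equiv.mulLeft x0⁻¹) ?_
      intro x
      simp only [Equiv.coe_mulLeft]
      constructor
      · rintro ⟨_, h⟩
        exact QuotientGroup.eq.mp h.symm
      · intro h
        refine ⟨?_, (QuotientGroup.eq.mpr h).symm⟩
        rw [map_conj_le_iff'] at hx0 ⊢
        intro y hy
        have hx : x = x0 * (x0⁻¹ * x) := by group
        rw [hx, key]
        apply Subgroup.mul_mem _ _ (hx0 y hy)
        apply (le_sup_right : L ≤ (P : Subgroup G) ⊔ L)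
        apply ‹L.Normal›.conj_mem
        have h2 : y * (x0⁻¹ * x)⁻¹ * y⁻¹ ∈ L := ‹L.Normal›.conj_mem _ (L.inv_mem h) y
        have h3 := L.mul_mem h h2
        simpa [mul_assoc] using h3
  have e2 : zz H ((P : Subgroup G) ⊔ K) = Nat.card {q // B q} *
      Nat.card {u : G // u ∈ L ∧ ∀ h ∈ H, h * u * h⁻¹ * u⁻¹ ∈ K} := by
    apply S4088.card_eq_mul_of_fibers (fun x : G => (x : G ⧸ L))
    · intro x hx
      exact ⟨x, rfl, hx.trans (sup_le_sup_left hKL _)⟩
    · rintro _ ⟨x0, rfl, hx0⟩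
      obtain ⟨l, hl, hy0⟩ := exists_conj_into H hH P L x0 hx0
      set y0 := l * x0 with hy0def
      have hmk : (y0 : G ⧸ L) = (x0 : G ⧸ L) := by
        rw [QuotientGroup.eq]
        have : y0⁻¹ * x0 = x0⁻¹ * l⁻¹ * x0⁻¹⁻¹ := by rw [hy0def]; group
        rw [this]
        exact ‹L.Normal›.conj_mem _ (L.inv_mem hl) _
      apply Nat.card_congr
      refine Equiv.subtypeEquiv (Equiv.mulLeft y0⁻¹) ?_
      intro x
      simp only [Equiv.coe_mulLeft]
      rw [← hmk, map_conj_le_iff']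
      have hx : x = y0 * (y0⁻¹ * x) := by group
      set u := y0⁻¹ * x with hu
      have hcore : u ∈ L → ∀ h ∈ H, (x * h * x⁻¹ ∈ (P : Subgroup G) ⊔ K ↔
          h * u * h⁻¹ * u⁻¹ ∈ K) := by
        intro huL h hh
        have hP : y0 * h * y0⁻¹ ∈ (P : Subgroup G) ⊔ K :=
          (le_sup_left : (P : Subgroup G) ≤ (P : Subgroup G) ⊔ K) (hy0 h hh)
        have hcL : u * h * u⁻¹ * h⁻¹ ∈ L := by
          have h2 : h * u⁻¹ * h⁻¹ ∈ L := ‹L.Normal›.conj_mem _ (L.inv_mem huL) h
          have h3 := L.mul_mem huL h2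
          simpa [mul_assoc] using h3
        have hinv : h * u * h⁻¹ * u⁻¹ = (u * h * u⁻¹ * h⁻¹)⁻¹ := by group
        rw [hx, key, Subgroup.mul_mem_cancel_right _ hP, hinv, inv_mem_iff]
        constructor
        · intro h1
          have h2 : y0 * (u * h * u⁻¹ * h⁻¹) * y0⁻¹ ∈ K :=
            sup_inf_le hKL hcop P ⟨h1, ‹L.Normal›.conj_mem _ hcL _⟩
          have h3 := ‹K.Normal›.conj_mem _ h2 y0⁻¹
          simpa [mul_assoc] using h3
        · intro h1
          exact (le_sup_right : K ≤ (P : Subgroup G) ⊔ K) (‹K.Normal›.conj_mem _ h1 _)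
      constructor
      · rintro ⟨h1, h2⟩
        have huL : u ∈ L := QuotientGroup.eq.mp h2.symm
        exact ⟨huL, fun h hh => (hcore huL h hh).mp (h1 h hh)⟩
      · rintro ⟨huL, h1⟩
        exact ⟨fun h hh => (hcore huL h hh).mpr (h1 h hh), (QuotientGroup.eq.mpr huL).symm⟩
  rw [e1, e2]
  ring

end

section

variable {G : Type*} [Group G] [Finite G] {p : ℕ} [Fact p.Prime]

theorem card_sup_eq (A L : Subgroup G) [L.Normal] :
    Nat.card (A ⊔ L : Subgroup G) = Nat.card L * (L ⊓ A).relIndex A := by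
  have h1 := Subgroup.relIndex_mul_relIndex ⊥ L (A ⊔ L) bot_le le_sup_right
  rw [Subgroup.relIndex_bot_left, Subgroup.relIndex_bot_left, Subgroup.relIndex_sup_right] at h1
  rw [Subgroup.inf_relIndex_right, h1]

theorem card_sup_mul (P : Sylow p G) {K L : Subgroup G} [K.Normal] [L.Normal] (hKL : K ≤ L)
    (hcop : (K.relIndex L).Coprime p) :
    Nat.card ((P : Subgroup G) ⊔ L : Subgroup G) * Nat.card K =
      Nat.card ((P : Subgroup G) ⊔ K : Subgroup G) * Nat.card L := by
  have h1 : L ⊓ (P : Subgroup G) = K ⊓ (P : Subgroup G) := by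
    apply le_antisymm
    · intro x hx
      exact ⟨mem_of_coprime_relIndex hcop P.isPGroup' hx.2 hx.1, hx.2⟩
    · exact inf_le_inf_right _ hKL
  rw [card_sup_eq, card_sup_eq, h1]
  ring

omit [Finite G] in
theorem card_dvd_gam (H K L : Subgroup G) [hK : K.Normal] (hKL : K ≤ L) :
    Nat.card K ∣ Nat.card {u : G // u ∈ L ∧ ∀ h ∈ H, h * u * h⁻¹ * u⁻¹ ∈ K} := by
  let Γ : Subgroup G :=
    { carrier := {u | u ∈ L ∧ ∀ h ∈ H, h * u * h⁻¹ * u⁻¹ ∈ K}
      one_mem' := ⟨L.one_mem, fun h _ => by simp [K.one_mem]⟩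
      mul_mem' := by
        rintro u v ⟨hu, hu'⟩ ⟨hv, hv'⟩
        refine ⟨L.mul_mem hu hv, fun h hh => ?_⟩
        have h1 : h * (u * v) * h⁻¹ * (u * v)⁻¹ =
            (h * u * h⁻¹ * u⁻¹) * (u * (h * v * h⁻¹ * v⁻¹) * u⁻¹) := by group
        rw [h1]
        exact K.mul_mem (hu' h hh) (hK.conj_mem _ (hv' h hh) _)
      inv_mem' := by
        rintro u ⟨hu, hu'⟩
        refine ⟨L.inv_mem hu, fun h hh => ?_⟩
        have h1 : h * u⁻¹ * h⁻¹ * u⁻¹⁻¹ = u⁻¹ * (h * u * h⁻¹ * u⁻¹)⁻¹ * u⁻¹⁻¹ := by group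
        rw [h1]
        exact hK.conj_mem _ (K.inv_mem (hu' h hh)) _ }
  have hle : K ≤ Γ := by
    intro u hu
    refine ⟨hKL hu, fun h _ => ?_⟩
    exact K.mul_mem (hK.conj_mem _ hu _) (K.inv_mem hu)
  exact Subgroup.card_dvd_of_le hle

theorem chain_formula (H : Subgroup G) (hH : IsPGroup p H) (P : Sylow p G) (n : ℕ) :
    ∀ (M : Fin (n + 1) → Subgroup G), M (Fin.last n) = ⊤ → Monotone M → (∀ i, (M i).Normal) →
    (∀ i : Fin n, (∃ m : ℕ, (M i.castSucc).relIndex (M i.succ) = p ^ m) ∨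
      ((M i.castSucc).relIndex (M i.succ)).Coprime p) →
    zz H ((P : Subgroup G) ⊔ M 0) = Nat.card ((P : Subgroup G) ⊔ M 0 : Subgroup G) *
        ∏ i : Fin n, (if ((M i.castSucc).relIndex (M i.succ)).Coprime p then
          Nat.card {u : G // u ∈ M i.succ ∧ ∀ h ∈ H, h * u * h⁻¹ * u⁻¹ ∈ M i.castSucc} /
            Nat.card (M i.castSucc)
          else 1) := by
  induction n with
  | zero =>
    intro M hn _ _ _
    have h0 : M 0 = ⊤ := hn
    rw [h0]
    simp only [sup_top_eq, Finset.univ_eq_empty, Finset.prod_empty, mul_one, Subgroup.card_top]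
    exact Nat.card_congr (Equiv.subtypeUnivEquiv (fun x => le_top))
  | succ n ih =>
    intro M hn hmono hnormal hfac
    have ih' := ih (fun i => M i.succ) (by rw [Fin.succ_last]; exact hn)
      (fun a b hab => hmono (Fin.succ_le_succ_iff.mpr hab)) (fun i => hnormal _)
      (fun i => by
        have := hfac i.succ
        rwa [← Fin.succ_castSucc] at this)
    rw [Fin.prod_univ_succ]
    simp only [← Fin.succ_castSucc]
    rw [show (0 : Fin (n + 1 + 1)) = Fin.castSucc 0 from Fin.castSucc_zero.symm]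
    set Pr := ∏ i : Fin n, (if ((M i.castSucc.succ).relIndex (M i.succ.succ)).Coprime p then
          Nat.card {u : G // u ∈ M i.succ.succ ∧ ∀ h ∈ H, h * u * h⁻¹ * u⁻¹ ∈ M i.castSucc.succ} /
            Nat.card (M i.castSucc.succ)
          else 1) with hPr
    have hK : (M (Fin.castSucc 0)).Normal := hnormal _
    have hL : (M (Fin.succ 0)).Normal := hnormal _
    have hKL : M (Fin.castSucc 0) ≤ M (Fin.succ 0) := hmono (Fin.zero_le _)
    have hf0 := hfac 0
    by_cases hcop : ((M (Fin.castSucc 0)).relIndex (M (Fin.succ 0))).Coprime p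
    · rw [if_pos hcop]
      have h1 := step_b H hH P hKL hcop
      have h2 := card_sup_mul P hKL hcop
      obtain ⟨c, hc⟩ := card_dvd_gam H (M (Fin.castSucc 0)) (M (Fin.succ 0)) hKL
      rw [hc, Nat.mul_div_cancel_left _ Nat.card_pos]
      rw [hc, ih'] at h1
      have hLpos : 0 < Nat.card (M (Fin.succ 0)) := Nat.card_pos
      have hKpos : 0 < Nat.card (M (Fin.castSucc 0)) := Nat.card_pos
      apply Nat.eq_of_mul_eq_mul_right hLpos
      rw [h1]
      calc Nat.card ((P : Subgroup G) ⊔ M (Fin.succ 0) : Subgroup G) * Pr * (Nat.card (M (Fin.castSucc 0)) * c)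
          = (Nat.card ((P : Subgroup G) ⊔ M (Fin.succ 0) : Subgroup G) * Nat.card (M (Fin.castSucc 0))) * (Pr * c) := by
            ring
        _ = (Nat.card ((P : Subgroup G) ⊔ M (Fin.castSucc 0) : Subgroup G) * Nat.card (M (Fin.succ 0))) * (Pr * c) := by
            rw [h2]
        _ = _ := by ring
    · rw [if_neg hcop, one_mul]
      obtain ⟨m, hm⟩ := hf0.resolve_right hcop
      rw [sup_eq_of_pow hKL hm P]
      exact ih'

end

/-- Let G be a finite p-solvable group, H a p-subgroup of G and P a Sylow p-subgroup, and fix a chain of normal subgroups 1 = M₀ ≤ M₁ ≤ ⋯ ≤ Mₙ = G of G each of whose factors is a p-group or a p'-group. Then the number of elements g of G such that H is subnormal in the subgroup generated by H and g equals the order of P times the product, over the factors Mᵢ₊₁/Mᵢ of order prime to p, of the order of the centralizer of H in Mᵢ₊₁/Mᵢ (counted as the number of u ∈ Mᵢ₊₁ with [h, u] ∈ Mᵢ for all h ∈ H, divided by the order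 of Mᵢ). -/
theorem result {G : Type*} [Group G] [Finite G] (p : ℕ) [Fact p.Prime]
    (hG : Cfsg.IsPSolvable p G) (H : Subgroup G) (hH : IsPGroup p H) (P : Sylow p G)
    (n : ℕ) (M : Fin (n + 1) → Subgroup G) (h0 : M 0 = ⊥) (hn : M (Fin.last n) = ⊤) (hmono : Monotone M)
    (hnormal : ∀ i, (M i).Normal)
    (hfac : ∀ i : Fin n, (∃ m : ℕ, (M i.castSucc).relIndex (M i.succ) = p ^ m) ∨ ((M i.castSucc).relIndex (M i.succ)).Coprime p) :
    Nat.card {g : G // ((H).subgroupOf (H ⊔ Subgroup.zpowers g)).IsSubnormal} =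
      Nat.card (P : Subgroup G) *
        ∏ i : Fin n, (if ((M i.castSucc).relIndex (M i.succ)).Coprime p then
          Nat.card {u : G // u ∈ M i.succ ∧ ∀ h ∈ H, h * u * h⁻¹ * u⁻¹ ∈ M i.castSucc} / Nat.card (M i.castSucc)
          else 1) := by
  have h1 := chain_formula H hH P n M hn hmono hnormal hfac
  rw [h0, sup_bot_eq] at h1
  rw [card_subnormalizer H hH P, h1]

end Cfsg.Agent.S4090
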