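import Cfsg.Statements.S4491
import Cfsg.Agent.Lib.Helper81.BlockDim

set_option autoImplicit false
open Cfsg Cfsg.Agent.Lib.Helper81 Cfsg.Agent.Lib.Helper20

namespace Cfsg.Agent.S4491

/-- Let B be a p-block of defect d of the finite group G (relative to a maximal ideal M of the algebraic integers containing p), and let p^a be the p-part of the order of G. Then the exact power of p dividing the sum of the squares of the degrees of the irreducible characters in B is p^(2a − d). -/
theorem result {G : Type*} [Group G] [Finite G] (p : ℕ) [Fact p.Prime] (M : Ideal Cfsg.AlgInt) (hM : Cfsg.IsPModular p M) (B : Set (Cfsg.IrrCharacter G)) (hB : Cfsg.IsPBlock M B) : (∑ᶠ χ ∈ B, Cfsg.charDegree (χ : G → ℂ) ^ 2).factorization p = 2 * (Nat.card G).factorization p - Cfsg.blockDefect p B := by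
  classical
  have := Fintype.ofFinite G
  have : Finite (Cfsg.IrrCharacter G) := finite_irrCharacter
  have : Fintype (Cfsg.IrrCharacter G) := Fintype.ofFinite _
  have hp := hM.1
  obtain ⟨t, hpt, ht⟩ := exists_sum_uDeg_sq hM hB
  have hadd := blockDefect_add (p := p) (isPBlock_nonempty hM hB)
  have h1 : ((∑ᶠ χ ∈ B, Cfsg.charDegree (χ : G → ℂ) ^ 2 : ℕ) : ℤ)
      = (p : ℤ) ^ (2 * minDeg p B + Cfsg.blockDefect p B) * t := by
    rw [finsum_mem_irr, pow_add, mul_assoc, ← ht, Finset.mul_sum]
    push_cast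
    apply Finset.sum_congr rfl; intro ψ _
    split_ifs with hψ
    · have e2 : (Cfsg.charDegree (ψ : G → ℂ) : ℤ) = (p : ℤ) ^ minDeg p B * (uDeg p B ψ : ℤ) := by
        exact_mod_cast (uDeg_mul (p := p) hψ).symm
      rw [e2]; ring
    · simp
  have ht0 : t ≠ 0 := by rintro rfl; exact hpt (dvd_zero _)
  have h2 : (∑ᶠ χ ∈ B, Cfsg.charDegree (χ : G → ℂ) ^ 2 : ℕ)
      = p ^ (2 * minDeg p B + Cfsg.blockDefect p B) * t.natAbs := by
    have := congrArg Int.natAbs h1
    rw [Int.natAbs_natCast, Int.natAbs_mul, Int.natAbs_pow, Int.natAbs_natCast] at this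
    exact this
  have hpt' : ¬ p ∣ t.natAbs := fun h => hpt (Int.natCast_dvd.2 h)
  rw [h2, Nat.factorization_mul (pow_ne_zero _ hp.ne_zero) (Int.natAbs_ne_zero.2 ht0),
    Nat.Prime.factorization_pow hp]
  simp only [Finsupp.coe_add, Pi.add_apply, Finsupp.single_eq_same,
    Nat.factorization_eq_zero_of_not_dvd hpt']
  omega

end Cfsg.Agent.S4491
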