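import Cfsg.Statements.S3056
import Cfsg.Agent.Lib.Helper57.SE
-- import your own Cfsg.Agent.* helpers here

set_option autoImplicit false
open Cfsg

namespace Cfsg.Agent.S3056

open Cfsg.Agent.Lib.Helper57

variable {G : Type*} [Group G]

/-- Adjacency of Sylow subgroups. -/
def Adj {p : ℕ} (S T : Sylow p G) : Prop :=
  S ≠ T ∧ (S : Subgroup G) ⊓ (T : Subgroup G) ≠ ⊥

theorem adj_symm {p : ℕ} {S T : Sylow p G} (h : Adj S T) : Adj T S :=
  ⟨h.1.symm, by rw [inf_comm]; exact h.2⟩

theorem adj_smul {p : ℕ} {S T : Sylow p G} (g : G) (h : Adj S T) : Adj (g • S) (g • T) := by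
  refine ⟨fun he => h.1 (MulAction.injective g he), ?_⟩
  obtain ⟨x, hx, hx1⟩ := exists_mem_ne_one h.2
  intro hbot
  have hmem : g * x * g⁻¹ ∈ ((g • S : Sylow p G) : Subgroup G) ⊓ ((g • T : Sylow p G) : Subgroup G) := by
    refine Subgroup.mem_inf.2 ⟨?_, ?_⟩
    · show g * x * g⁻¹ ∈ g • S
      rw [mem_smul_sylow]
      have : g⁻¹ * (g * x * g⁻¹) * g = x := by group
      rw [this]; exact (Subgroup.mem_inf.1 hx).1
    · show g * x * g⁻¹ ∈ g • T
      rw [mem_smul_sylow]
      have : g⁻¹ * (g * x * g⁻¹) * g = x := by group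
      rw [this]; exact (Subgroup.mem_inf.1 hx).2
  rw [hbot, Subgroup.mem_bot] at hmem
  apply hx1
  have : x = g⁻¹ * (g * x * g⁻¹) * g := by group
  rw [this, hmem]; group

theorem conn_symm {p : ℕ} {S T : Sylow p G} (h : Relation.ReflTransGen Adj S T) :
    Relation.ReflTransGen Adj T S := by
  induction h with
  | refl => exact Relation.ReflTransGen.refl
  | tail _ hbc ih => exact Relation.ReflTransGen.head (adj_symm hbc) ih

theorem conn_smul {p : ℕ} {S T : Sylow p G} (g : G) (h : Relation.ReflTransGen Adj S T) :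
    Relation.ReflTransGen Adj (g • S) (g • T) := by
  induction h with
  | refl => exact Relation.ReflTransGen.refl
  | tail _ hbc ih => exact Relation.ReflTransGen.tail ih (adj_smul g hbc)

theorem conn_of_chain {p : ℕ} (h : Cfsg.IsSylowChainConnected p G) (S T : Sylow p G) :
    Relation.ReflTransGen Adj S T := by
  obtain ⟨n, c, h0, hl, -, hc⟩ := h S T
  have : ∀ i : Fin (n + 1), Relation.ReflTransGen Adj (c 0) (c i) := by
    intro i
    induction i using Fin.induction with
    | zero => exact Relation.ReflTransGen.refl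
    | succ i ih => exact ih.tail (hc i)
  rw [← h0, ← hl]
  exact this _

theorem exists_chain {p : ℕ} {S T : Sylow p G} (h : Relation.ReflTransGen Adj S T) :
    ∃ (n : ℕ) (c : Fin (n + 1) → Sylow p G), c 0 = S ∧ c (Fin.last n) = T ∧
      ∀ i : Fin n, Adj (c i.castSucc) (c i.succ) := by
  induction h with
  | refl => exact ⟨0, fun _ => S, rfl, rfl, fun i => i.elim0⟩
  | @tail b c' _ hbc ih =>
    obtain ⟨n, c, h0, hl, hc⟩ := ih
    refine ⟨n + 1, Fin.snoc c c', ?_, ?_, ?_⟩
    · have : (0 : Fin (n + 1 + 1)) = Fin.castSucc 0 := rfl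
      rw [this, Fin.snoc_castSucc, h0]
    · rw [Fin.snoc_last]
    · intro i
      induction i using Fin.lastCases with
      | last =>
        rw [Fin.snoc_castSucc, Fin.succ_last, Fin.snoc_last, hl]
        exact hbc
      | cast j =>
        rw [Fin.snoc_castSucc, ← Fin.castSucc_succ, Fin.snoc_castSucc]
        exact hc j

theorem chain_of_conn {p : ℕ} (h : ∀ S T : Sylow p G, Relation.ReflTransGen Adj S T) :
    Cfsg.IsSylowChainConnected p G := by
  intro S T
  by_cases hST : (S : Subgroup G) ⊓ (T : Subgroup G) = ⊥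
  · obtain ⟨n, c, h0, hl, hc⟩ := exists_chain (h S T)
    exact ⟨n, c, h0, hl, fun i => by rw [hST]; exact bot_le, hc⟩
  · by_cases heq : S = T
    · subst heq
      exact ⟨0, fun _ => S, rfl, rfl, fun i => inf_le_left, fun i => i.elim0⟩
    · refine ⟨1, ![S, T], rfl, rfl, ?_, ?_⟩
      · intro i
        fin_cases i
        · exact inf_le_left
        · exact inf_le_right
      · intro i
        fin_cases i
        exact ⟨heq, hST⟩

theorem chainConnected_iff {p : ℕ} :
    Cfsg.IsSylowChainConnected p G ↔ ∀ S T : Sylow p G, Relation.ReflTransGen Adj S T :=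
  ⟨conn_of_chain, chain_of_conn⟩

/-- The stabilizer of the connected component of `S`. -/
def compStab {p : ℕ} (S : Sylow p G) : Subgroup G where
  carrier := {g | Relation.ReflTransGen Adj S (g • S)}
  one_mem' := by
    show Relation.ReflTransGen Adj S ((1 : G) • S)
    rw [one_smul]
  mul_mem' := by
    intro a b ha hb
    show Relation.ReflTransGen Adj S ((a * b) • S)
    rw [mul_smul]
    exact Relation.ReflTransGen.trans ha (conn_smul a hb)
  inv_mem' := by
    intro a ha
    show Relation.ReflTransGen Adj S (a⁻¹ • S)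
    have := conn_smul a⁻¹ ha
    rw [inv_smul_smul] at this
    exact conn_symm this

theorem mem_compStab {p : ℕ} {S : Sylow p G} {g : G} :
    g ∈ compStab S ↔ Relation.ReflTransGen Adj S (g • S) := Iff.rfl

theorem le_compStab {p : ℕ} (S : Sylow p G) : (S : Subgroup G) ≤ compStab S := by
  intro s hs
  rw [mem_compStab]
  have : s • S = S := Sylow.smul_eq_iff_mem_normalizer.2 (Subgroup.le_normalizer hs)
  rw [this]

/-- a `p`-element of the component stabilizer lies in a Sylow subgroup of the component -/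
theorem exists_mem_smul [Finite G] {p : ℕ} [Fact p.Prime] (S : Sylow p G) {x : G}
    (hx : x ∈ compStab S) (hxp : ∃ k : ℕ, x ^ (p ^ k) = 1) :
    ∃ h ∈ compStab S, x ∈ h • S := by
  set H := compStab S with hH
  have hpg : IsPGroup p (Subgroup.zpowers (⟨x, hx⟩ : H)) := by
    obtain ⟨k, hk⟩ := hxp
    apply IsPGroup.of_card_dvd_pow (n := k)
    rw [Nat.card_zpowers]
    apply orderOf_dvd_of_pow_eq_one
    exact Subtype.ext (by simpa using hk)
  obtain ⟨T, hT⟩ := hpg.exists_le_sylow
  obtain ⟨h, hh⟩ := MulAction.exists_smul_eq H (S.subtype (le_compStab S)) T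
  refine ⟨h, h.2, ?_⟩
  have h1 : (⟨x, hx⟩ : H) ∈ T := hT (Subgroup.mem_zpowers _)
  rw [← hh, mem_smul_sylow] at h1
  rw [mem_smul_sylow]
  have h2 : h⁻¹ * (⟨x, hx⟩ : H) * h ∈ ((S.subtype (le_compStab S) : Sylow p H) : Subgroup H) := h1
  rw [Sylow.coe_subtype, Subgroup.mem_subgroupOf] at h2
  exact h2


/-- Let G be a finite group and p a prime. Join two Sylow p-subgroups when they are distinct and meet nontrivially. This graph on the Sylow p-subgroups is disconnected (the Sylow p-subgroups are not chain-connected through nontrivial intersections) if and only if G has a strongly p-embedded subgroup in the classical sense: a proper subgroup H of order divisible by p such that H ∩ gHg⁻¹ has order prime to p for every g outside H. -/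
theorem result {G : Type*} [Group G] [Finite G]
    (p : ℕ) [Fact p.Prime] :
    ¬ Cfsg.IsSylowChainConnected p G ↔
      ∃ H : Subgroup G, H ≠ ⊤ ∧ p ∣ Nat.card H ∧
        ∀ g : G, g ∉ H → ¬ p ∣ Nat.card ↥(H ⊓ H.map (MulAut.conj g).toMonoidHom) := by
  constructor
  · intro hnc
    rw [chainConnected_iff] at hnc
    push Not at hnc
    obtain ⟨S, T, hST⟩ := hnc
    refine ⟨compStab S, ?_, ?_, ?_⟩
    · intro htop
      obtain ⟨g, hg⟩ := MulAction.exists_smul_eq G S T
      apply hST
      rw [← hg, ← mem_compStab, htop]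
      exact Subgroup.mem_top g
    · have hS1 : (S : Subgroup G) ≠ ⊥ := by
        intro hbot
        apply hST
        obtain ⟨g, hg⟩ := MulAction.exists_smul_eq G S T
        have : T = S := by
          apply Sylow.ext
          rw [← hg, Sylow.coe_subgroup_smul, hbot]
          simp
        rw [this]
      obtain ⟨x, hx, hx1⟩ := exists_mem_ne_one hS1
      have h1 := prime_dvd_orderOf (p := p) hx1 (IsPGroup.pow_eq_one_of_mem S.isPGroup' hx)
      have h2 : orderOf x ∣ Nat.card (compStab S) := by
        rw [← Nat.card_zpowers]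
        apply Subgroup.card_dvd_of_le
        rw [Subgroup.zpowers_le]
        exact le_compStab S hx
      exact h1.trans h2
    · intro g hg hdvd
      apply hg
      obtain ⟨x, hx⟩ := exists_prime_orderOf_dvd_card' p hdvd
      have hx1 : (x : G) ≠ 1 := by
        intro h1
        have : x = 1 := Subtype.ext h1
        rw [this, orderOf_one] at hx
        exact (Fact.out : p.Prime).one_lt.ne hx
      have hxp : ∃ k : ℕ, (x : G) ^ (p ^ k) = 1 := by
        refine ⟨1, ?_⟩
        have := pow_orderOf_eq_one x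
        rw [hx] at this
        have h2 := congrArg Subtype.val this
        rw [pow_one]
        exact_mod_cast h2
      have hxH := (Subgroup.mem_inf.1 x.2).1
      have hxH' := mem_map_conj.1 (Subgroup.mem_inf.1 x.2).2
      obtain ⟨h, hh, hxh⟩ := exists_mem_smul S hxH hxp
      have hxp' : ∃ k : ℕ, (g⁻¹ * (x : G) * g) ^ (p ^ k) = 1 := by
        obtain ⟨k, hk⟩ := hxp
        refine ⟨k, ?_⟩
        have : g⁻¹ * (x : G) * g = g⁻¹ * (x : G) * g⁻¹⁻¹ := by simp
        rw [this, conj_pow, hk]; simp
      obtain ⟨h', hh', hxh'⟩ := exists_mem_smul S hxH' hxp'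
      have hx2 : (x : G) ∈ (g * h') • S := by
        rw [mem_smul_sylow] at hxh' ⊢
        have : (g * h')⁻¹ * (x : G) * (g * h') = h'⁻¹ * (g⁻¹ * ↑x * g) * h' := by group
        rw [this]; exact hxh'
      have hgh : g * h' ∈ compStab S := by
        rw [mem_compStab]
        by_cases heq : h • S = (g * h') • S
        · rw [← heq]; exact hh
        · refine Relation.ReflTransGen.tail hh ⟨heq, ?_⟩
          intro hbot
          have : (x : G) ∈ ((h • S : Sylow p G) : Subgroup G) ⊓ (((g * h') • S : Sylow p G) : Subgroup G) :=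
            Subgroup.mem_inf.2 ⟨hxh, hx2⟩
          rw [hbot, Subgroup.mem_bot] at this
          exact hx1 this
      have : g = (g * h') * h'⁻¹ := by group
      rw [this]
      exact Subgroup.mul_mem _ hgh (Subgroup.inv_mem _ hh')
  · rintro ⟨H, hH⟩ hc
    have hse : SE p H := hH
    rw [chainConnected_iff] at hc
    obtain ⟨S, hS⟩ := hse.exists_sylow_le
    have key : ∀ T : Sylow p G, Relation.ReflTransGen Adj S T → (T : Subgroup G) ≤ H := by
      intro T hT
      induction hT with
      | refl => exact hS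
      | tail _ hbc ih =>
        obtain ⟨x, hx, hx1⟩ := exists_mem_ne_one hbc.2
        exact hse.sylow_le_of_mem _ (Subgroup.mem_inf.1 hx).2 (ih (Subgroup.mem_inf.1 hx).1) hx1
    apply hse.1
    rw [eq_top_iff]
    intro g _
    have hS1 : (S : Subgroup G) ≠ ⊥ := by
      apply Sylow.ne_bot_of_dvd_card
      exact hse.2.1.trans (Subgroup.card_subgroup_dvd_card H)
    obtain ⟨x, hx, hx1⟩ := exists_mem_ne_one hS1
    have h1 : g⁻¹ * x * g ∈ g⁻¹ • S := by
      rw [mem_smul_sylow]
      have : g⁻¹⁻¹ * (g⁻¹ * x * g) * g⁻¹ = x := by group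
      rw [this]; exact hx
    exact hse.mem_of_conj_mem (hS hx) hx1 (IsPGroup.pow_eq_one_of_mem S.isPGroup' hx)
      (key _ (hc S _) h1)

end Cfsg.Agent.S3056
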