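import Cfsg.Statements.S3058
import Cfsg.Agent.Lib.Helper57.SE
import Cfsg.Agent.Lib.Helper57.SylowNormal
import Cfsg.Agent.S3056
import Cfsg.Agent.S0058
-- import your own Cfsg.Agent.* helpers here

set_option autoImplicit false
open Cfsg

namespace Cfsg.Agent.S3058

open Cfsg.Agent.Lib.Helper57

variable {G : Type*} [Group G]

theorem rank_two [Finite G] {p : ℕ} [Fact p.Prime] {x y : G} (hxy : x * y = y * x)
    (hx : x ^ p = 1) (hy : y ^ p = 1) (hx1 : x ≠ 1) (hyx : y ∉ Subgroup.zpowers x) :
    IsMulCommutative (Subgroup.closure ({x, y} : Set G)) ∧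
      (∀ a ∈ Subgroup.closure ({x, y} : Set G), a ^ p = 1) ∧
      p ^ 2 ≤ Nat.card (Subgroup.closure ({x, y} : Set G)) := by
  have hcomm : IsMulCommutative (Subgroup.closure ({x, y} : Set G)) := by
    apply Subgroup.isMulCommutative_closure
    intro a ha b hb
    simp only [Set.mem_insert_iff, Set.mem_singleton_iff] at ha hb
    rcases ha with rfl | rfl <;> rcases hb with rfl | rfl <;> simp [hxy]
  have hpow : ∀ a ∈ Subgroup.closure ({x, y} : Set G), a ^ p = 1 := by
    intro a ha
    induction ha using Subgroup.closure_induction with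
    | mem a ha =>
      simp only [Set.mem_insert_iff, Set.mem_singleton_iff] at ha
      rcases ha with rfl | rfl
      · exact hx
      · exact hy
    | one => simp
    | mul a b ha hb iha ihb =>
      have : Commute a b := setLike_mul_comm ha hb
      rw [this.mul_pow, iha, ihb, one_mul]
    | inv a _ iha => rw [inv_pow, iha, inv_one]
  refine ⟨hcomm, hpow, ?_⟩
  have hpg : IsPGroup p (Subgroup.closure ({x, y} : Set G)) := by
    rintro ⟨a, ha⟩
    exact ⟨1, Subtype.ext (by simpa using hpow a ha)⟩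
  obtain ⟨k, hk⟩ := IsPGroup.iff_card.1 hpg
  have hle : Subgroup.zpowers x ≤ Subgroup.closure ({x, y} : Set G) := by
    rw [Subgroup.zpowers_le]
    exact Subgroup.subset_closure (by simp)
  have hlt : Subgroup.zpowers x < Subgroup.closure ({x, y} : Set G) := by
    refine lt_of_le_of_ne hle ?_
    intro heq
    apply hyx
    rw [heq]
    exact Subgroup.subset_closure (by simp)
  have hcardx : Nat.card (Subgroup.zpowers x) = p := by
    rw [Nat.card_zpowers]
    exact orderOf_eq_prime hx hx1
  have hlt' : p < p ^ k := by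
    rw [← hk, ← hcardx]
    by_contra hcon
    exact hlt.ne (Subgroup.eq_of_le_of_card_ge hle (not_lt.1 hcon))
  rw [hk]
  have hk2 : 2 ≤ k := by
    by_contra hcon
    have hk1 : k ≤ 1 := by omega
    have := Nat.pow_le_pow_right (Fact.out : p.Prime).pos hk1
    rw [pow_one] at this
    omega
  exact Nat.pow_le_pow_right (Fact.out : p.Prime).pos hk2

theorem exists_order_p [Finite G] {p : ℕ} [Fact p.Prime] {Q : Subgroup G} (hQ : IsPGroup p Q)
    (hQ1 : Q ≠ ⊥) : ∃ x ∈ Q, x ≠ 1 ∧ x ^ p = 1 := by
  have : Nontrivial Q := (Subgroup.nontrivial_iff_ne_bot Q).2 hQ1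
  obtain ⟨n, hn, hcard⟩ := hQ.nontrivial_iff_card.1 this
  have hdvd : p ∣ Nat.card Q := by rw [hcard]; exact dvd_pow_self p hn.ne'
  obtain ⟨x, hx⟩ := exists_prime_orderOf_dvd_card' p hdvd
  refine ⟨x, x.2, ?_, ?_⟩
  · intro h1
    have : x = 1 := Subtype.ext h1
    rw [this, orderOf_one] at hx
    exact (Fact.out : p.Prime).one_lt.ne hx
  · have := pow_orderOf_eq_one x
    rw [hx] at this
    exact_mod_cast congrArg Subtype.val this



/-- Let p be a prime and G a finite group whose Sylow p-subgroups are not chain-connected through nontrivial intersections (so G has a strongly p-embedded subgroup). If N and M are normal subgroups of G whose orders are both divisible by p, then the order of N ∩ M is divisible by p. Consequently, among the normal subgroups of G whose order is divisible by p there is a smallest one (the intersection of all of them). -/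
theorem result {G : Type*} [Group G] [Finite G]
    (p : ℕ) [Fact p.Prime] (hG : ¬ Cfsg.IsSylowChainConnected p G)
    (N M : Subgroup G) [N.Normal] [M.Normal] (hN : p ∣ Nat.card N) (hM : p ∣ Nat.card M) :
    p ∣ Nat.card ↥(N ⊓ M) := by
  by_contra hK
  obtain ⟨H, hH⟩ := (Cfsg.Agent.S3056.result p).1 hG
  have hse : SE p H := hH
  obtain ⟨S, hS⟩ := hse.exists_sylow_le
  set K := N ⊓ M with hKdef
  -- trivial intersection of S with K
  have hSK : ∀ c : G, c ∈ S → c ∈ K → c = 1 := by
    intro c hcS hcK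
    by_contra hc1
    apply hK
    have h1 := prime_dvd_orderOf (p := p) hc1 (IsPGroup.pow_eq_one_of_mem S.isPGroup' hcS)
    refine h1.trans ?_
    rw [← Nat.card_zpowers]
    apply Subgroup.card_dvd_of_le
    rw [Subgroup.zpowers_le]
    exact hcK
  obtain ⟨y, hy, hy1, hyp⟩ := exists_order_p (S.isPGroup'.to_le (inf_le_left : (S : Subgroup G) ⊓ N ≤ S))
    (inf_normal_ne_bot S N hN)
  obtain ⟨x, hx, hx1, hxp⟩ := exists_order_p (S.isPGroup'.to_le (inf_le_left : (S : Subgroup G) ⊓ M ≤ S))
    (inf_normal_ne_bot S M hM)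
  have hyS := (Subgroup.mem_inf.1 hy).1
  have hyN := (Subgroup.mem_inf.1 hy).2
  have hxS := (Subgroup.mem_inf.1 hx).1
  have hxM := (Subgroup.mem_inf.1 hx).2
  have hNn : N.Normal := inferInstance
  have hMn : M.Normal := inferInstance
  -- for n ∈ N, the commutator with x lies in K
  have hcommK : ∀ n ∈ N, x⁻¹ * (n⁻¹ * x * n) ∈ K := by
    intro n hn
    refine Subgroup.mem_inf.2 ⟨?_, ?_⟩
    · have h1 : x⁻¹ * n⁻¹ * x⁻¹⁻¹ ∈ N := hNn.conj_mem _ (N.inv_mem hn) _
      have : x⁻¹ * (n⁻¹ * x * n) = (x⁻¹ * n⁻¹ * x⁻¹⁻¹) * n := by group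
      rw [this]; exact N.mul_mem h1 hn
    · have h1 : n⁻¹ * x * n⁻¹⁻¹ ∈ M := hMn.conj_mem _ hxM _
      rw [inv_inv] at h1
      exact M.mul_mem (M.inv_mem hxM) h1
  have hxy : x * y = y * x := by
    have h1 := hcommK y hyN
    have h2 : x⁻¹ * (y⁻¹ * x * y) ∈ S :=
      mul_mem (inv_mem hxS) (mul_mem (mul_mem (inv_mem hyS) hxS) hyS)
    have h3 := hSK _ h2 h1
    have : y * x * (x⁻¹ * (y⁻¹ * x * y)) = x * y := by group
    rw [← this, h3, mul_one]
  have hyx : y ∉ Subgroup.zpowers x := by
    intro hmem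
    apply hy1
    apply hSK y hyS
    refine Subgroup.mem_inf.2 ⟨hyN, ?_⟩
    exact (Subgroup.zpowers_le.2 hxM) hmem
  obtain ⟨hAc, hApow, hAcard⟩ := rank_two hxy hxp hyp hx1 hyx
  set A := Subgroup.closure ({x, y} : Set G) with hA
  have hAS : A ≤ S := by
    rw [hA, Subgroup.closure_le]
    intro a ha
    simp only [Set.mem_insert_iff, Set.mem_singleton_iff] at ha
    rcases ha with rfl | rfl
    · exact hxS
    · exact hyS
  have hAncyc : ¬ IsCyclic A := by
    intro hcyc
    have h1 := IsCyclic.exponent_eq_card (α := A)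
    have h2 : Monoid.exponent A ∣ p := by
      apply Monoid.exponent_dvd_of_forall_pow_eq_one
      rintro ⟨a, ha⟩
      exact Subtype.ext (by simpa using hApow a ha)
    have h3 := Nat.le_of_dvd (Fact.out : p.Prime).pos h2
    rw [h1] at h3
    have h4 : p < p ^ 2 := by
      have := (Fact.out : p.Prime).one_lt
      nlinarith
    omega
  have hKn : K.Normal := inferInstance
  have hAK : A ≤ Subgroup.normalizer (K : Set G) := by
    rw [Subgroup.normalizer_eq_top]
    exact le_top
  have hcop : (Nat.card A).Coprime (Nat.card K) := by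
    obtain ⟨k, hk⟩ := IsPGroup.iff_card.1 (S.isPGroup'.to_le hAS)
    rw [hk]
    exact Nat.Coprime.pow_left _ ((Fact.out : p.Prime).coprime_iff_not_dvd.2 hK)
  have hgen := Cfsg.Agent.S0058.result A K hAncyc hAK hcop
  have hKH : K ≤ H := by
    rw [← hgen]
    refine iSup₂_le ?_
    rintro a ⟨haA, ha1⟩ g hg
    have hgc := (Subgroup.mem_inf.1 hg).2
    rw [Subgroup.mem_centralizer_singleton_iff] at hgc
    have haH : a ∈ H := hS (hAS haA)
    apply hse.mem_of_conj_mem haH ha1 (IsPGroup.pow_eq_one_of_mem S.isPGroup' (hAS haA))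
    have : g⁻¹ * a * g = a := by
      rw [mul_assoc, ← hgc, ← mul_assoc, inv_mul_cancel, one_mul]
    rw [this]; exact haH
  have hNH : N ≤ H := by
    intro n hn
    apply hse.mem_of_conj_mem (hS hxS) hx1 (IsPGroup.pow_eq_one_of_mem S.isPGroup' hxS)
    have h1 := hKH (hcommK n hn)
    have : n⁻¹ * x * n = x * (x⁻¹ * (n⁻¹ * x * n)) := by group
    rw [this]
    exact H.mul_mem (hS hxS) h1
  apply hse.1
  have h1 := normalizer_inf_sup_eq_top S N
  have h2 : Subgroup.normalizer (((S : Subgroup G) ⊓ N : Subgroup G) : Set G) ≤ H :=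
    hse.normalizer_le (S.isPGroup'.to_le inf_le_left) (inf_le_left.trans hS)
      (inf_normal_ne_bot S N hN)
  rw [eq_top_iff, ← h1]
  exact sup_le h2 hNH

end Cfsg.Agent.S3058
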