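import Cfsg.Statements.S5102
import Cfsg.Agent.Lib.Helper87.FusionGroup
open Cfsg.Agent.Lib.Helper87

set_option autoImplicit false
open Cfsg

namespace Cfsg.Agent.S5102

/-- A normal p-subgroup of a finite group G is normal in the fusion system of G on a Sylow p-subgroup. -/
theorem result {G : Type*} [Group G] [Finite G] (p : ℕ) [Fact p.Prime] (S : Sylow p G) (R : Subgroup G) [R.Normal] (hR : IsPGroup p R) : (Cfsg.groupFusionSystem (S : Subgroup G)).IsNormal R := by
  have hRS : R ≤ S := hR.le_sylow_of_normal S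
  rw [isNormal_iff]
  refine ⟨hRS, fun P f hf => ?_⟩
  obtain ⟨hP, g, hg⟩ := (mor_group_iff _ P f).1 hf
  have hgR : cj g R = R := cj_eq_self_of_mem_normalizer (by rw [Subgroup.normalizer_eq_top]; trivial)
  refine ⟨fun x => g * x * g⁻¹, mor_group_conj g (sup_le hP hRS) ?_, fun x hx => (hg x hx).1.symm,
    fun y => ?_⟩
  · rw [cj_sup, hgR]
    exact sup_le (cj_le_iff.2 (fun x hx => (hg x hx).2)) hRS
  · conv_lhs => rw [← hgR]
    exact Iff.rfl

end Cfsg.Agent.S5102
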