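import Cfsg.Statements.S0286
import Cfsg.Agent.Lib.Helper50.QuadClosed

set_option autoImplicit false
open Cfsg
open Cfsg.Agent.Lib.Helper50 Cfsg.Agent.Lib.Helper50.Quad QuadraticMap

namespace Cfsg.Agent.S0286

/-- the form `x ^ 2` -/
noncomputable def T (F : Type*) [Field F] : QuadraticForm F (Unit → F) :=
  QuadraticMap.linMulLin (LinearMap.proj ()) (LinearMap.proj ())

theorem T_apply {F : Type*} [Field F] (s : Unit → F) : T F s = s () * s () := rfl

theorem card_T_zero {F : Type*} [Field F] : Nat.card {s : Unit → F // T F s = 0} = 1 := by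
  rw [Nat.card_eq_one_iff_unique]
  refine ⟨⟨fun a b => Subtype.ext ?_⟩, ⟨⟨0, by simp⟩⟩⟩
  have ha : a.1 () = 0 := by simpa [T_apply] using a.2
  have hb : b.1 () = 0 := by simpa [T_apply] using b.2
  ext u
  rw [ha, hb]

theorem card_T_one {F : Type*} [Field F] (h2 : (2 : F) ≠ 0) : Nat.card {s : Unit → F // T F s = 1} = 2 := by
  classical
  have hne : (1 : F) ≠ -1 := by
    intro h
    apply h2
    linear_combination h
  have e : {s : Unit → F // T F s = 1} ≃ Bool :=
    { toFun := fun s => decide (s.1 () = 1)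
      invFun := fun b => if b then ⟨fun _ => 1, by simp [T_apply]⟩ else ⟨fun _ => -1, by simp [T_apply]⟩
      left_inv := fun s => by
        have hs : s.1 () * s.1 () = 1 := s.2
        rcases mul_self_eq_one_iff.1 hs with h | h
        · simp only [h, decide_true, if_true]
          ext u; exact h.symm
        · have : ¬ ((-1 : F) = 1) := fun h' => hne h'.symm
          simp only [h, this, decide_false, Bool.false_eq_true, if_false]
          ext u; exact h.symm
      right_inv := fun b => by
        cases b
        · have : ¬ ((-1 : F) = 1) := fun h' => hne h'.symm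
          simp [this]
        · simp }
  rw [Nat.card_congr e]
  simp

/-- |GO_{2m+1}(q)| = 2 q^(m^2) prod_{i=1}^{m} (q^(2i) - 1) for q odd. -/
theorem result {F : Type*} [Field F] [Fintype F] {q : ℕ} (hF : Fintype.card F = q) (hodd : Odd q) (m : ℕ) : Nat.card (Cfsg.isometryGroup F (Cfsg.quadFormOdd m F)) = 2 * q ^ (m ^ 2) * ∏ i ∈ Finset.range m, (q ^ (2 * (i + 1)) - 1) := by
  have hq : 1 ≤ q := by rw [← hF]; exact Fintype.card_pos
  have h2 : (2 : F) ≠ 0 := by
    apply Ring.two_ne_zero
    intro hc
    rw [FiniteField.even_card_iff_char_two, hF] at hc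
    rw [Nat.odd_iff] at hodd
    omega
  have hT : Nondeg (T F) ⊤ := by
    intro w _ hw
    refine ⟨w, Submodule.mem_top, ?_⟩
    rw [polar_self, T_apply]
    have : w () ≠ 0 := fun h => hw (by ext u; exact h)
    simp [this, h2]
  rw [card_iso_reindex (Equiv.sumComm Unit (Fin m ⊕ Fin m)) (Cfsg.quadFormOdd m F) (fun v => Qgen m (T F) v)
    (fun v => by
      rw [Qgen_apply, T_apply, add_comm, ← _root_.sq]
      rfl)]
  rw [card_iso_gen m (T F) hT 2]
  · rw [hF, Fintype.card_unit, pow_one]
    simp only [alpha_odd q hq (fun c : F => Nat.card {s : Unit → F // T F s = c}) card_T_zero]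
    rw [prod_odd, mul_assoc]
  · intro W _ _ ha
    rw [← card_T_one h2, ← ha 1, aC]
    apply Nat.card_congr
    refine
      { toFun := fun t => ⟨t.1 (), t.2.1 (), ?_⟩
        invFun := fun w => ⟨fun _ => w.1, fun _ => w.2.1, fun _ => ?_, fun _ _ => ?_⟩
        left_inv := fun t => rfl
        right_inv := fun w => rfl }
    · rw [t.2.2.1 (), T_apply]; simp
    · rw [w.2.2, T_apply]; simp
    · rw [polar_self, polar_self, w.2.2, T_apply]; simp

end Cfsg.Agent.S0286
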