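import Cfsg.Statements.S0287
import Cfsg.Agent.Lib.Helper50.QuadClosed

set_option autoImplicit false
open Cfsg
open Cfsg.Agent.Lib.Helper50 Cfsg.Agent.Lib.Helper50.Quad

namespace Cfsg.Agent.S0287

/-- |GO^+_{2m}(q)| = 2 q^(m(m-1)) (q^m - 1) prod_{i=1}^{m-1} (q^(2i) - 1), m at least 1, all q. -/
theorem result {F : Type*} [Field F] [Fintype F] {q : ℕ} (hF : Fintype.card F = q) (m : ℕ) (hm : 1 ≤ m) : Nat.card (Cfsg.isometryGroup F (Cfsg.quadFormPlus m F)) = 2 * q ^ (m * (m - 1)) * (q ^ m - 1) * ∏ i ∈ Finset.range (m - 1), (q ^ (2 * (i + 1)) - 1) := by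
  have hq : 1 ≤ q := by rw [← hF]; exact Fintype.card_pos
  let T : QuadraticForm F (Empty → F) := 0
  have hT : Nondeg T ⊤ := fun w _ hw => absurd (Subsingleton.elim w 0) hw
  rw [card_iso_reindex (Equiv.sumEmpty (Fin m ⊕ Fin m) Empty).symm (Cfsg.quadFormPlus m F) (fun v => Qgen m T v)
    (fun v => by
      rw [Qgen_apply]
      simp only [T, zero_apply, add_zero]
      rfl)]
  rw [card_iso_gen m T hT 1]
  · have hα : (fun c : F => Nat.card {s : Empty → F // T s = c}) 0 = 1 := by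
      simp only [T, zero_apply]
      rw [Nat.card_eq_one_iff_unique]
      exact ⟨⟨fun a b => Subtype.ext (Subsingleton.elim _ _)⟩, ⟨⟨0, trivial⟩⟩⟩
    rw [hF, Fintype.card_empty, pow_zero, one_mul]
    simp only [alpha_plus q hq (fun c : F => Nat.card {s : Empty → F // T s = c}) hα]
    obtain ⟨k, rfl⟩ : ∃ k, m = k + 1 := ⟨m - 1, by omega⟩
    rw [prod_plus q hq k, Nat.add_sub_cancel]
  · intro W _ _ _
    rw [Nat.card_eq_one_iff_unique]
    exact ⟨⟨fun a b => Subtype.ext (Subsingleton.elim _ _)⟩, ⟨⟨fun k => k.elim, fun k => k.elim, fun k => k.elim,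
      fun k => k.elim⟩⟩⟩

end Cfsg.Agent.S0287
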