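import Cfsg.Statements.S3559
-- import your own Cfsg.Agent.* helpers here
import Cfsg.Agent.Lib.Helper63.SchurTransfer

set_option autoImplicit false
open Cfsg

namespace Cfsg.Agent.S3559

/-- Let G act faithfully and transitively on a finite set whose number of points n ≥ 2 is not a prime power, and suppose G has a cyclic subgroup acting regularly (transitively with trivial point stabilizers). Then G is imprimitive or doubly transitive. -/
theorem result {G Ω : Type*} [Group G] [Finite G] [MulAction G Ω] [FaithfulSMul G Ω] [Finite Ω]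
    (htrans : MulAction.IsPretransitive G Ω) (hn : 2 ≤ Nat.card Ω) (hnp : ¬ IsPrimePow (Nat.card Ω))
    (C : Subgroup G) (hcyc : IsCyclic ↥C) (hC : MulAction.IsPretransitive ↥C Ω ∧ ∀ a : Ω, MulAction.stabilizer ↥C a = ⊥) :
    ¬ MulAction.IsPreprimitive G Ω ∨ MulAction.IsMultiplyPretransitive G Ω 2 := by
  classical
  by_cases hprim : MulAction.IsPreprimitive G Ω
  swap
  · exact Or.inl hprim
  right
  haveI : Nonempty Ω := by
    apply (Nat.card_pos_iff.1 (by omega)).1
  obtain ⟨N, hN, e, hNcard, htransl⟩ := Lib.Helper63.exists_zmod_model C hcyc hC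
  have hT := Lib.Helper63.transport_hasTranslations e C htransl
  have hprim' := Lib.Helper63.transport_isPreprimitive e hprim
  apply Lib.Helper63.two_pretransitive_of_transport e 0 htrans
  rw [← hNcard] at hn hnp
  -- two distinct primes
  obtain ⟨p, hp, hpN⟩ := Nat.exists_prime_and_dvd (n := N) (by omega)
  obtain ⟨q, hq, hqN, hqp⟩ : ∃ q : ℕ, q.Prime ∧ q ∣ N ∧ q ≠ p := by
    by_contra hcon
    push Not at hcon
    have := Nat.eq_prime_pow_of_unique_prime_dvd (n := N) (p := p) (by omega)
      (fun {d} hd hdN => hcon d hd hdN)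
    apply hnp
    rw [this]
    apply hp.isPrimePow.pow
    intro h0
    rw [h0, pow_zero] at this
    omega
  haveI := Fact.mk hp
  haveI := Fact.mk hq
  have hcardZ : Fintype.card (ZMod N) = N := ZMod.card N
  obtain ⟨z₀, hz₀⟩ := exists_prime_addOrderOf_dvd_card (G := ZMod N) p (by rw [hcardZ]; exact hpN)
  obtain ⟨q₀, hq₀⟩ := exists_prime_addOrderOf_dvd_card (G := ZMod N) q (by rw [hcardZ]; exact hqN)
  apply Lib.Helper63.schur_wielandt hT hprim' p
    (IsAddCyclic.card_nsmul_eq_zero_le hp.pos) z₀ _ _ q₀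
  · intro h
    rw [h, addOrderOf_zero] at hq₀
    exact hq.one_lt.ne hq₀
  · rw [hq₀]
    exact (Nat.coprime_primes hq hp).2 hqp
  · intro h
    rw [h, addOrderOf_zero] at hz₀
    exact hp.one_lt.ne hz₀
  · rw [← hz₀]
    exact addOrderOf_nsmul_eq_zero z₀

end Cfsg.Agent.S3559
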