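import Cfsg.Statements.S0067
-- import your own Cfsg.Agent.* helpers here
import Cfsg.Agent.S0066
import Cfsg.Agent.Lib.Helper52.Subn
import Cfsg.Agent.Lib.Helper28.Cores

set_option autoImplicit false
open Pointwise
open Cfsg

namespace Cfsg.Agent.S0067

/-- If the join of a subgroup A with each of its conjugates is nilpotent, then A is subnormal in the finite group and contained in the Fitting subgroup. -/
theorem result {G : Type*} [Group G] [Finite G] (A : Subgroup G)
    (h : ∀ g : G, Group.IsNilpotent (A ⊔ MulAut.conj g • A : Subgroup G)) : A.IsSubnormal ∧ A ≤ Cfsg.fittingSubgroup G := by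
  have hsub : A.IsSubnormal := by
    apply Cfsg.Agent.S0066.result A
    intro g
    have := h g
    exact Cfsg.Agent.Lib.Helper52.isSubnormal_of_isNilpotent _
  refine ⟨hsub, ?_⟩
  apply Cfsg.Agent.Lib.Helper28.subnormal_le_fitting hsub
  have h1 := h 1
  have hle : A ≤ A ⊔ MulAut.conj (1 : G) • A := le_sup_left
  have := h1
  exact Subgroup.isNilpotent_of_ker_le_center (Subgroup.inclusion hle) (by rw [(MonoidHom.ker_eq_bot_iff _).2 (Subgroup.inclusion_injective hle)]; exact bot_le)

end Cfsg.Agent.S0067
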