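import Cfsg.Statements.S0086
-- import your own Cfsg.Agent.* helpers here

set_option autoImplicit false
open Cfsg

namespace Cfsg.Agent.S0086

/-- A normal complement to a Sylow p-subgroup is exactly the set of elements of order prime to p. -/
theorem result {G : Type*} [Group G] [Finite G] {p : ℕ} [Fact p.Prime] (P : Sylow p G) (N : Subgroup G) [N.Normal] (hN : N.IsComplement' (P : Subgroup G)) (x : G) : x ∈ N ↔ Nat.Coprime (orderOf x) p := by
  have hcard : Nat.card N * Nat.card (P : Subgroup G) = Nat.card G := hN.card_mul_card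
  have hNidx : Nat.card N = (P : Subgroup G).index := by
    have h1 := (P : Subgroup G).card_mul_index
    have hpos : 0 < Nat.card (P : Subgroup G) := Nat.card_pos
    nlinarith [hcard, h1]
  have hNcop : Nat.Coprime (Nat.card N) p := by
    rw [hNidx]
    exact ((Nat.Prime.coprime_iff_not_dvd (Fact.out : p.Prime)).mpr P.not_dvd_index).symm
  constructor
  · intro hx
    have : orderOf x ∣ Nat.card N := by
      have := orderOf_dvd_natCard (⟨x, hx⟩ : N)
      rwa [Subgroup.orderOf_mk] at this
    exact Nat.Coprime.coprime_dvd_left this hNcop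
  · intro hx
    rw [← QuotientGroup.eq_one_iff]
    have hq : Nat.card (G ⧸ N) = Nat.card (P : Subgroup G) := by
      have h1 := N.card_mul_index
      have hpos : 0 < Nat.card N := Nat.card_pos
      have : N.index = Nat.card (P : Subgroup G) := by
        apply Nat.eq_of_mul_eq_mul_left hpos
        rw [h1, hcard]
      rw [← this]; rfl
    obtain ⟨n, hn⟩ := (IsPGroup.iff_card.mp P.2)
    have h1 : orderOf (x : G ⧸ N) ∣ p ^ n := by
      rw [← hn, ← hq]; exact orderOf_dvd_natCard _
    have h2 : orderOf (x : G ⧸ N) ∣ orderOf x := orderOf_map_dvd (QuotientGroup.mk' N) x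
    have hc : Nat.Coprime (orderOf x) (p ^ n) := Nat.Coprime.pow_right n hx
    exact orderOf_eq_one_iff.mp (Nat.eq_one_of_dvd_coprimes hc h2 h1)

end Cfsg.Agent.S0086
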