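import Cfsg.Statements.S0239
import Mathlib
import Cfsg.Agent.Lib.Helper6.Pairs

set_option autoImplicit false
open Cfsg

namespace Cfsg.Agent.S0239

open Cfsg.Agent.Lib.Helper6

/-- If some nontrivial element x of a finite group G is conjugate to x⁻¹, then |G| is even. -/
theorem result {G : Type*} [Group G] [Finite G] (x : G) (hx : x ≠ 1) (hreal : IsConj x x⁻¹) : Even (Nat.card G) := by
  by_contra hodd
  rw [Nat.not_even_iff_odd] at hodd
  obtain ⟨g, hg⟩ := isConj_iff.mp hreal
  -- g has odd order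
  have hgo : Odd (orderOf g) := Odd.of_dvd_nat hodd (orderOf_dvd_natCard g)
  obtain ⟨k, hk⟩ := hgo
  -- odd powers of g invert x
  have hpow : ∀ n : ℕ, g ^ (2 * n + 1) * x * (g ^ (2 * n + 1))⁻¹ = x⁻¹ := by
    intro n
    induction n with
    | zero => simpa using hg
    | succ n ih =>
      have : g ^ (2 * (n + 1) + 1) = g * g * g ^ (2 * n + 1) := by
        rw [← pow_two, ← pow_add]; congr 1; ring
      rw [this]
      calc g * g * g ^ (2 * n + 1) * x * (g * g * g ^ (2 * n + 1))⁻¹
          = g * (g * (g ^ (2 * n + 1) * x * (g ^ (2 * n + 1))⁻¹) * g⁻¹) * g⁻¹ := by group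
        _ = g * (g * x * g⁻¹)⁻¹ * g⁻¹ := by rw [ih]; group
        _ = x⁻¹ := by rw [hg, inv_inv, hg]
  have h1 := hpow k
  rw [← hk, pow_orderOf_eq_one] at h1
  simp only [one_mul, inv_one, mul_one] at h1
  have h2 : x ^ 2 = 1 := by
    rw [pow_two]
    nth_rewrite 1 [h1]
    simp
  have h3 : orderOf x ∣ 2 := orderOf_dvd_of_pow_eq_one h2
  have h4 : Odd (orderOf x) := Odd.of_dvd_nat hodd (orderOf_dvd_natCard x)
  have h5 : orderOf x = 1 := by
    rcases (Nat.dvd_prime Nat.prime_two).mp h3 with h | h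
    · exact h
    · rw [h] at h4; exact absurd h4 (by decide)
  exact hx (orderOf_eq_one_iff.mp h5)

end Cfsg.Agent.S0239
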