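import Cfsg.Statements.S0276
import Mathlib
import Cfsg.Agent.Lib.Helper7.SL2Center
-- import your own Cfsg.Agent.* helpers here

set_option autoImplicit false
open Cfsg

namespace Cfsg.Agent.S0276

/-- For q = 3 or 5 mod 8 the Sylow 2-subgroups of PSL_2(q) are elementary abelian of order 4. -/
theorem result {F : Type*} [Field F] [Fintype F] {q : ℕ} (hF : Fintype.card F = q) (hq : q % 8 = 3 ∨ q % 8 = 5) (P : Sylow 2 (Matrix.ProjectiveSpecialLinearGroup (Fin 2) F)) : IsKleinFour (P : Subgroup (Matrix.ProjectiveSpecialLinearGroup (Fin 2) F)) := by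
  open Cfsg.Agent.Lib.Helper7 in
  have hodd : Odd (Fintype.card F) := by
    rw [hF, Nat.odd_iff]; omega
  have h2 : (2 : F) ≠ 0 := two_ne_zero_of_odd_card hodd
  have hns : ¬ IsSquare (2 : F) := by
    rw [FiniteField.isSquare_two_iff, hF]; omega
  have hcard := card_PSL2 (F := F) h2
  rw [hF] at hcard
  -- the order of PSL is 4 times an odd number
  obtain ⟨r, hr, hrodd⟩ : ∃ r, Nat.card (Matrix.ProjectiveSpecialLinearGroup (Fin 2) F) = 2 ^ 2 * r ∧ ¬ 2 ∣ r := by
    rcases hq with hq | hq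
    · obtain ⟨k, rfl⟩ : ∃ k, q = 8 * k + 3 := ⟨q / 8, by omega⟩
      refine ⟨(8 * k + 3) * ((4 * k + 1) * (2 * k + 1)), ?_, ?_⟩
      · have e : (8 * k + 3) ^ 2 - 1 = 8 * ((4 * k + 1) * (2 * k + 1)) := by
          have : (8 * k + 3) ^ 2 = 8 * ((4 * k + 1) * (2 * k + 1)) + 1 := by ring
          omega
        rw [e] at hcard
        have : Nat.card (Matrix.ProjectiveSpecialLinearGroup (Fin 2) F) * 2
            = (2 ^ 2 * ((8 * k + 3) * ((4 * k + 1) * (2 * k + 1)))) * 2 := by
          rw [hcard]; ring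
        exact Nat.eq_of_mul_eq_mul_right (by norm_num) this
      · rw [Nat.Prime.dvd_mul Nat.prime_two, Nat.Prime.dvd_mul Nat.prime_two]
        omega
    · obtain ⟨k, rfl⟩ : ∃ k, q = 8 * k + 5 := ⟨q / 8, by omega⟩
      refine ⟨(8 * k + 5) * ((2 * k + 1) * (4 * k + 3)), ?_, ?_⟩
      · have e : (8 * k + 5) ^ 2 - 1 = 8 * ((2 * k + 1) * (4 * k + 3)) := by
          have : (8 * k + 5) ^ 2 = 8 * ((2 * k + 1) * (4 * k + 3)) + 1 := by ring
          omega
        rw [e] at hcard
        have : Nat.card (Matrix.ProjectiveSpecialLinearGroup (Fin 2) F) * 2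
            = (2 ^ 2 * ((8 * k + 5) * ((2 * k + 1) * (4 * k + 3)))) * 2 := by
          rw [hcard]; ring
        exact Nat.eq_of_mul_eq_mul_right (by norm_num) this
      · rw [Nat.Prime.dvd_mul Nat.prime_two, Nat.Prime.dvd_mul Nat.prime_two]
        omega
  have hr0 : r ≠ 0 := fun h => hrodd (h ▸ dvd_zero 2)
  have hP : Nat.card P = 4 := by
    rw [Sylow.card_eq_multiplicity, hr, Nat.factorization_mul (by norm_num) hr0, Finsupp.add_apply,
      Nat.factorization_eq_zero_of_not_dvd hrodd, add_zero, Nat.prime_two.factorization_pow,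
      Finsupp.single_eq_same]
    norm_num
  refine ⟨hP, ?_⟩
  have hsq : ∀ x : (P : Subgroup (Matrix.ProjectiveSpecialLinearGroup (Fin 2) F)), x ^ 2 = 1 := by
    intro x
    have h4 : x ^ 4 = 1 := by
      have := pow_card_eq_one' (x := x)
      rwa [show Nat.card (P : Subgroup (Matrix.ProjectiveSpecialLinearGroup (Fin 2) F)) = 4 from hP] at this
    obtain ⟨g, hg⟩ := QuotientGroup.mk_surjective x.1
    have h4' : ((g ^ 4 : Matrix.SpecialLinearGroup (Fin 2) F) : Matrix.ProjectiveSpecialLinearGroup (Fin 2) F) = 1 := by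
      rw [QuotientGroup.mk_pow, hg]
      exact congrArg Subtype.val h4
    have h5 := sq_mem_center_of_pow_four hns ((QuotientGroup.eq_one_iff _).1 h4')
    apply Subtype.ext
    show x.1 ^ 2 = 1
    rw [← hg, ← QuotientGroup.mk_pow]
    exact (QuotientGroup.eq_one_iff _).2 h5
  have hd : Monoid.exponent (P : Subgroup (Matrix.ProjectiveSpecialLinearGroup (Fin 2) F)) ∣ 2 :=
    Monoid.exponent_dvd_of_forall_pow_eq_one hsq
  rcases (Nat.dvd_prime Nat.prime_two).1 hd with h1 | h1
  · rw [Monoid.exp_eq_one_iff] at h1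
    have := Nat.card_eq_one_iff_unique.2 ⟨h1, ⟨1⟩⟩
    rw [show Nat.card (P : Subgroup (Matrix.ProjectiveSpecialLinearGroup (Fin 2) F)) = 4 from hP] at this
    omega
  · exact h1

end Cfsg.Agent.S0276
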