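import Cfsg.Statements.S0338
import Cfsg.Agent.S0339
import Cfsg.Agent.S0740

set_option autoImplicit false
open Cfsg

namespace Cfsg.Agent.S0338

/-- A Zassenhaus group of odd degree is a simple group. -/
theorem result {G Ω : Type*} [Group G] [MulAction G Ω] [Fintype Ω]
    (hZ : Cfsg.IsZassenhausGroup G Ω) (hodd : Odd (Fintype.card Ω)) : IsSimpleGroup G := by
  have hZ' := hZ
  obtain ⟨hfaith, h2t, h3, ⟨g0, hg0, a, b, hab, hga, hgb⟩, hreg⟩ := hZ'
  have hfin : Finite G := Finite.of_injective (MulAction.toPermHom G Ω) MulAction.toPerm_injective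
  have hnt : Nontrivial G := ⟨⟨g0, 1, hg0⟩⟩
  refine ⟨fun N hNn => ?_⟩
  by_cases hN : N = ⊥
  · exact Or.inl hN
  right
  have hZN : Cfsg.IsZassenhausGroup N Ω := Cfsg.Agent.S0339.result hZ N hN
  obtain ⟨⟨s, hs2, hsa, hsb⟩, hfix, -⟩ := Cfsg.Agent.S0740.result hZN hab
  have hcard := (hfix s hs2 hsa hsb).1 hodd
  obtain ⟨hsub, ⟨c, hc⟩⟩ := Nat.card_eq_one_iff_unique.mp hcard
  have hsa' : (s : G) • a = b := hsa
  have hsb' : (s : G) • b = a := hsb
  have hc' : (s : G) • c = c := hc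
  have hca : a ≠ c := by
    rintro rfl
    exact hab (hc'.symm.trans hsa')
  have hcb : b ≠ c := by
    rintro rfl
    exact hab (hsb'.symm.trans hc')
  have huniq : ∀ x : Ω, (s : G) • x = x → x = c := by
    intro x hx
    have := hsub.elim (⟨x, hx⟩ : MulAction.fixedBy Ω s) ⟨c, hc⟩
    exact congrArg Subtype.val this
  obtain ⟨H, hH⟩ : ∃ H : Subgroup G, H = MulAction.stabilizer G a ⊓ MulAction.stabilizer G b := ⟨_, rfl⟩
  have hHmem : ∀ x : G, x ∈ H ↔ x • a = a ∧ x • b = b := by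
    intro x
    rw [hH, Subgroup.mem_inf, MulAction.mem_stabilizer_iff, MulAction.mem_stabilizer_iff]
  have hsinva : (s : G)⁻¹ • a = b := by rw [inv_smul_eq_iff, hsb']
  have hsinvb : (s : G)⁻¹ • b = a := by rw [inv_smul_eq_iff, hsa']
  have hnorm : ∀ x ∈ H, (s : G) * x * (s : G)⁻¹ ∈ H := by
    intro x hx
    obtain ⟨hxa, hxb⟩ := (hHmem x).mp hx
    rw [hHmem]
    constructor
    · rw [mul_smul, mul_smul, hsinva, hxb, hsb']
    · rw [mul_smul, mul_smul, hsinvb, hxa, hsa']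
  let ψ : H → H := fun x => ⟨(s : G) * x * (s : G)⁻¹ * (x : G)⁻¹, H.mul_mem (hnorm x x.2) (H.inv_mem x.2)⟩
  have hinj : Function.Injective ψ := by
    intro k k' hkk
    have e1 : (s : G) * k * (s : G)⁻¹ * (k : G)⁻¹ = (s : G) * k' * (s : G)⁻¹ * (k' : G)⁻¹ :=
      congrArg Subtype.val hkk
    have e2 : (s : G) * ((k' : G)⁻¹ * k) = ((k' : G)⁻¹ * k) * (s : G) := by
      have e3 : (k : G) * (s : G)⁻¹ * (k : G)⁻¹ = k' * (s : G)⁻¹ * (k' : G)⁻¹ := by
        have := congrArg (fun z => (s : G)⁻¹ * z) e1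
        simpa [mul_assoc] using this
      have e4 : ((k' : G)⁻¹ * k) * (s : G)⁻¹ = (s : G)⁻¹ * ((k' : G)⁻¹ * k) := by
        calc ((k' : G)⁻¹ * k) * (s : G)⁻¹ = (k' : G)⁻¹ * ((k : G) * (s : G)⁻¹ * (k : G)⁻¹) * k := by group
          _ = (k' : G)⁻¹ * (k' * (s : G)⁻¹ * (k' : G)⁻¹) * k := by rw [e3]
          _ = (s : G)⁻¹ * ((k' : G)⁻¹ * k) := by group
      calc (s : G) * ((k' : G)⁻¹ * k) = (s : G) * (((k' : G)⁻¹ * k) * (s : G)⁻¹) * (s : G) := by group
        _ = (s : G) * ((s : G)⁻¹ * ((k' : G)⁻¹ * k)) * (s : G) := by rw [e4]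
        _ = ((k' : G)⁻¹ * k) * (s : G) := by group
    have hu : (k' : G)⁻¹ * k ∈ H := H.mul_mem (H.inv_mem k'.2) k.2
    obtain ⟨hua, hub⟩ := (hHmem _).mp hu
    have huc : ((k' : G)⁻¹ * k) • c = c := by
      apply huniq
      rw [← mul_smul, e2, mul_smul, hc']
    have hu1 : (k' : G)⁻¹ * k = 1 := h3 _ a b c hab hcb hca hua hub huc
    apply Subtype.ext
    exact (inv_mul_eq_one.mp hu1).symm
  have hsurj : Function.Surjective ψ := Finite.injective_iff_surjective.mp hinj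
  have hHN : H ≤ N := by
    intro k hk
    obtain ⟨k1, hk1⟩ := hsurj ⟨k, hk⟩
    have e : (s : G) * k1 * (s : G)⁻¹ * (k1 : G)⁻¹ = k := congrArg Subtype.val hk1
    rw [← e]
    have : (s : G) * k1 * (s : G)⁻¹ * (k1 : G)⁻¹ = (s : G) * ((k1 : G) * (s : G)⁻¹ * (k1 : G)⁻¹) := by group
    rw [this]
    exact N.mul_mem s.2 (hNn.conj_mem _ (N.inv_mem s.2) _)
  rw [eq_top_iff]
  intro g _
  have hne : g • a ≠ g • b := fun h => hab (MulAction.injective g h)
  obtain ⟨n, hna, hnb⟩ := (MulAction.is_two_pretransitive_iff (G := N) (α := Ω)).mp hZN.2.1 hab hne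
  have hna' : (n : G) • a = g • a := hna
  have hnb' : (n : G) • b = g • b := hnb
  have hmem : (n : G)⁻¹ * g ∈ H := by
    rw [hHmem]
    constructor
    · rw [mul_smul, ← hna', inv_smul_smul]
    · rw [mul_smul, ← hnb', inv_smul_smul]
  have : g = (n : G) * ((n : G)⁻¹ * g) := by group
  rw [this]
  exact N.mul_mem n.2 (hHN hmem)

end Cfsg.Agent.S0338
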