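import Cfsg.Statements.S0436
import Cfsg.Agent.Lib.Helper10.ThreeTransp

set_option autoImplicit false
open Cfsg

namespace Cfsg.Agent.S0436

/-- For distinct commuting members a, b of a set of 3-transpositions E, a member e of E centralises the product a * b if and only if it centralises both a and b. -/
theorem result {G : Type*} [Group G] {E : Set G} (hE : Cfsg.IsThreeTranspositionSet E) {a b e : G} (ha : a ∈ E) (hb : b ∈ E) (he : e ∈ E) (hab : a ≠ b) (hcomm : Commute a b) : Commute e (a * b) ↔ (Commute e a ∧ Commute e b) := by
  open Cfsg.Agent.Lib.Helper10 in
  constructor
  · intro h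
    have ha2 := sq_one_of_orderOf_two (hE.1 a ha)
    have hb2 := sq_one_of_orderOf_two (hE.1 b hb)
    have he2 := sq_one_of_orderOf_two (hE.1 e he)
    have key : a * e * a = b * e * b := by
      have h1 : e * (a * b) = a * b * e := h
      calc a * e * a = a * (e * (a * b)) * b := by
            simp only [mul_assoc, hb2, mul_one]
        _ = a * (a * b * e) * b := by rw [h1]
        _ = (a * a) * b * e * b := by simp only [mul_assoc]
        _ = b * e * b := by rw [ha2, one_mul]
    rcases commute_or_braid hE ha he with h1 | h1
    · refine ⟨h1.symm, ?_⟩
      have h2 : a * e * a = e := by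
        rw [h1.eq, mul_assoc, ha2, mul_one]
      rw [h2] at key
      have : e * b = b * e := by
        calc e * b = b * e * b * b := by rw [← key]
          _ = b * e := by rw [mul_assoc, hb2, mul_one]
      exact this
    · rcases commute_or_braid hE hb he with h2 | h2
      · have h3 : b * e * b = e := by
          rw [h2.eq, mul_assoc, hb2, mul_one]
        rw [h3] at key
        have : e * a = a * e := by
          calc e * a = a * e * a * a := by rw [key]
            _ = a * e := by rw [mul_assoc, ha2, mul_one]
        exact ⟨this, h2.symm⟩
      · exfalso
        apply hab
        rw [h1, h2] at key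
        have := mul_right_cancel key
        exact mul_left_cancel this
  · rintro ⟨h1, h2⟩
    exact h1.mul_right h2

end Cfsg.Agent.S0436
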