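import Cfsg.Statements.S0437
import Cfsg.Agent.Lib.Helper10.ThreeTransp
import Cfsg.Agent.S0436

set_option autoImplicit false
open Cfsg

namespace Cfsg.Agent.S0437

open Cfsg.Agent.Lib.Helper10 in
theorem aux {G : Type*} [Group G] {E : Set G} (hE : Cfsg.IsThreeTranspositionSet E) {a b c e : G}
    (ha : a ∈ E) (hb : b ∈ E) (hc : c ∈ E) (he : e ∈ E) (hab : a ≠ b) (hac : a ≠ c)
    (h₁ : Commute a b) (h₂ : Commute a c) (h₃ : Commute b c)
    (h : Commute e (a * b * c)) : Commute e a := by
  have ha2 := sq_one_of_orderOf_two (hE.1 a ha)
  have hb2 := sq_one_of_orderOf_two (hE.1 b hb)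
  have hc2 := sq_one_of_orderOf_two (hE.1 c hc)
  have he2 := sq_one_of_orderOf_two (hE.1 e he)
  rcases commute_or_braid hE he ha with h1 | h1
  · exact h1
  rcases commute_or_braid hE he hb with h2 | h2
  · have h4 : Commute e (a * c) := by
      have h5 : a * c = (a * b * c) * b := by
        calc a * c = a * (b * b) * c := by rw [hb2, mul_one]
          _ = a * b * (b * c) := by simp only [mul_assoc]
          _ = a * b * (c * b) := by rw [h₃.eq]
          _ = (a * b * c) * b := by simp only [mul_assoc]
      rw [h5]
      exact h.mul_right h2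
    exact ((Cfsg.Agent.S0436.result hE ha hc he hac h₂).1 h4).1
  rcases commute_or_braid hE he hc with h3 | h3
  · have h4 : Commute e (a * b) := by
      have h5 : a * b = (a * b * c) * c := by
        rw [mul_assoc (a * b), hc2, mul_one]
      rw [h5]
      exact h.mul_right h3
    exact ((Cfsg.Agent.S0436.result hE ha hb he hab h₁).1 h4).1
  -- all braid
  have hg : e * (b * c * e * c * b) * e = b * c * e * c * b := by
    have e1 : b * c * e * c * b = b * e * c * e * b := by
      calc b * c * e * c * b = b * (c * e * c) * b := by simp only [mul_assoc]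
        _ = b * (e * c * e) * b := by rw [h3]
        _ = b * e * c * e * b := by simp only [mul_assoc]
    calc e * (b * c * e * c * b) * e = e * b * (c * e * c) * b * e := by simp only [mul_assoc]
      _ = e * b * (e * c * e) * b * e := by rw [h3]
      _ = (e * b * e) * c * (e * b * e) := by simp only [mul_assoc]
      _ = (b * e * b) * c * (b * e * b) := by rw [h2]
      _ = b * e * (b * c) * b * e * b := by simp only [mul_assoc]
      _ = b * e * (c * b) * b * e * b := by rw [h₃.eq]
      _ = b * e * c * (b * b) * e * b := by simp only [mul_assoc]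
      _ = b * e * c * e * b := by rw [hb2, mul_one]
      _ = b * c * e * c * b := e1.symm
  have hh : a * (b * c * e * c * b) * a = e := by
    have h5 : e * (a * b * c) = a * b * c * e := h
    calc a * (b * c * e * c * b) * a = (a * b * c * e) * c * b * a := by simp only [mul_assoc]
      _ = e * (a * b * c) * c * b * a := by rw [h5]
      _ = e * a * b * (c * c) * b * a := by simp only [mul_assoc]
      _ = e * a * (b * b) * a := by rw [hc2]; simp only [mul_assoc, mul_one]
      _ = e * (a * a) := by rw [hb2]; simp only [mul_assoc, mul_one]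
      _ = e := by rw [ha2, mul_one]
  set γ := b * c * e * c * b with hγ
  have h6 : a * e * a = e := by
    calc a * e * a = a * (e * e * e) * a := by rw [he2, one_mul]
      _ = a * (e * (a * γ * a) * e) * a := by rw [hh]
      _ = (a * e * a) * γ * (a * e * a) := by simp only [mul_assoc]
      _ = (e * a * e) * γ * (e * a * e) := by rw [h1]
      _ = e * a * (e * γ * e) * a * e := by simp only [mul_assoc]
      _ = e * (a * γ * a) * e := by rw [hg]; simp only [mul_assoc]
      _ = e := by rw [hh, he2, one_mul]
  have : e * a = a * e := by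
    calc e * a = a * e * a * a := by rw [h6]
      _ = a * e := by rw [mul_assoc, ha2, mul_one]
  exact this

/-- For three distinct, pairwise commuting members a, b, c of a set of 3-transpositions E, a member e of E centralises a * b * c if and only if it centralises each of a, b and c. -/
theorem result {G : Type*} [Group G] {E : Set G} (hE : Cfsg.IsThreeTranspositionSet E) {a b c e : G} (ha : a ∈ E) (hb : b ∈ E) (hc : c ∈ E) (he : e ∈ E) (hab : a ≠ b) (hac : a ≠ c) (hbc : b ≠ c) (h₁ : Commute a b) (h₂ : Commute a c) (h₃ : Commute b c) : Commute e (a * b * c) ↔ (Commute e a ∧ Commute e b ∧ Commute e c) := by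
  constructor
  · intro h
    refine ⟨aux hE ha hb hc he hab hac h₁ h₂ h₃ h, ?_, ?_⟩
    · refine aux hE hb ha hc he hab.symm hbc h₁.symm h₃ h₂ ?_
      rw [← h₁.eq]; exact h
    · refine aux hE hc ha hb he hac.symm hbc.symm h₂.symm h₃.symm h₁ ?_
      have : c * a * b = a * b * c := by
        rw [mul_assoc, (h₂.symm.mul_right h₃.symm).eq]
      rw [this]; exact h
  · rintro ⟨h1, h2, h3⟩
    exact (h1.mul_right h2).mul_right h3

end Cfsg.Agent.S0437
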