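import Cfsg.Statements.S0447
import Cfsg.Agent.Lib.Helper6.DC.Exists
import Cfsg.Agent.Lib.Helper6.DC.Small
import Cfsg.Agent.Lib.Helper6.DC.Conj
import Cfsg.Agent.Lib.Helper6.DC.Pair
import Cfsg.Agent.Lib.Helper29.DCAsm

set_option autoImplicit false
open Cfsg

namespace Cfsg.Agent.S0447

/-- Involutions in double covers of alternating groups: for n ≤ 7, a finite non-split double cover of the alternating group of degree n has exactly one element of order 2 (the central one); for degree 8 there is a non-split double cover with two distinct involutions. -/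
theorem result : (∀ (n : ℕ) (H : Type) (_ : Group H) (_ : Finite H), n ≤ 7 → Cfsg.IsNonsplitDoubleCover H (alternatingGroup (Fin n)) → ∀ x y : H, orderOf x = 2 → orderOf y = 2 → x = y) ∧ ∃ (H : Type) (_ : Group H) (_ : Finite H), Cfsg.IsNonsplitDoubleCover H (alternatingGroup (Fin 8)) ∧ ∃ x y : H, x ≠ y ∧ orderOf x = 2 ∧ orderOf y = 2 := by
  have r : Cfsg.Agent.Lib.Helper6.DC.Rungs :=
    { conj_inv := Cfsg.Agent.Lib.Helper6.DC.conj_inv
      pair := Cfsg.Agent.Lib.Helper6.DC.pair
      small := fun n h3 H _ e => Cfsg.Agent.Lib.Helper6.DC.small n h3 H e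
      asm := fun φ h1 h2 h3 h4 a b k h5 h6 h7 h8 h9 x h10 h11 =>
        Cfsg.Agent.Lib.Helper29.DC.asm φ h1 h2 h3 h4 a b k h5 h6 h7 h8 h9 x h10 h11 }
  refine ⟨?_, Cfsg.Agent.Lib.Helper6.DC.part2_of (Cfsg.Agent.Lib.Helper6.DC.exists_cover (by norm_num))⟩
  intro n H _ _ hn hH x y hx hy
  exact Cfsg.Agent.Lib.Helper6.DC.part1_of r n H hn hH x y hx hy

end Cfsg.Agent.S0447
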