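import Cfsg.Statements.S0472
import Cfsg.Agent.Lib.Helper35.Fi23Tr.Main

set_option autoImplicit false
open Cfsg

namespace Cfsg.Agent.S0472

open Cfsg.Agent.Lib.Helper35 in
/-- The Fischer group of order 4089470473293004800 exists as a 3-transposition group: a simple group of that order generated by a conjugacy class of 31671 3-transpositions, the centraliser of each being a non-split double cover of a simple group of order 64561751654400. -/
theorem result : ∃ (G : Type) (_ : Group G) (_ : Finite G), Cfsg.IsFi23 G ∧ ∃ D : Set G, Cfsg.IsThreeTranspositionClass D ∧ Nat.card D = 31671 ∧ ∀ d ∈ D, ∃ (K : Type) (_ : Group K), Cfsg.IsFi22 K ∧ Cfsg.IsNonsplitDoubleCover (Subgroup.centralizer ({d} : Set G)) K := by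
  obtain ⟨Φ, hΦ⟩ := exists_perm_hom Fi23Ord.I Fi23a.permData
  obtain ⟨_, _, hinj⟩ := card_eq_and_injective Fi23Ord.I Fi23a.permData.pv Φ hΦ 4089470473293004800
    (by norm_num) Fi23Ord.up0 Fi23Ord.lo0
  haveI := Fi23Ord.main.1
  obtain ⟨hcen, hset⟩ := Fi23Tr.key Fi23Ord.I.val Φ hΦ hinj
  have hz1 : wval Fi23Ord.I.val Fi23Tr.zW ≠ 1 := by
    intro h
    have h2 := hset.1 _ mem_conjugatesOf_self
    rw [h, orderOf_one] at h2
    exact absurd h2 (by decide)
  refine ⟨Cfsg.Spor.Fi23, inferInstance, Fi23Tr.finFi23, Fi23Ord.main,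
    conjugatesOf (wval Fi23Ord.I.val Fi23Tr.zW),
    ⟨hset, ⟨_, mem_conjugatesOf_self, rfl⟩, closure_conjugatesOf_eq_top _ hz1⟩, ?_, ?_⟩
  · have h1 := card_conjugatesOf_mul (wval Fi23Ord.I.val Fi23Tr.zW)
    have hc : Nat.card (wsub Fi23Ord.I.val Fi23a.S) = 2 * Nat.card Cfsg.Spor.Fi22 :=
      (Fi23Ord.cover_gen Fi23Ord.I.val Φ hΦ hinj).2
    rw [hcen, hc, Fi23Ord.main.2, Fi22Ord.main.2] at h1
    have h2 : (4089470473293004800 : Nat) = 31671 * (2 * 64561751654400) := by norm_num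
    rw [h2] at h1
    exact Nat.eq_of_mul_eq_mul_right (by norm_num) h1
  · intro d hd
    obtain ⟨c, rfl⟩ := isConj_iff.mp (show IsConj _ d from hd)
    refine ⟨Cfsg.Spor.Fi22, inferInstance, Fi22Ord.main, ?_⟩
    let κ : Cfsg.Spor.Fi23 →* Cfsg.Spor.Fi23 := (MulAut.conj c).toMonoidHom
    let κ' : Cfsg.Spor.Fi23 →* Cfsg.Spor.Fi23 := (MulAut.conj c⁻¹).toMonoidHom
    have hκ : ∀ x, κ' (κ x) = x := by
      intro x
      show c⁻¹ * (c * x * c⁻¹) * c⁻¹⁻¹ = x
      group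
    have hκi : Function.Injective κ' := (MulAut.conj c⁻¹).injective
    set u' : Nat → Cfsg.Spor.Fi23 := fun k => κ (Fi23Ord.I.val k) with hu'
    have hΨ : ∀ k, (Φ.comp κ') (u' k) = Fi23a.permData.pv k := by
      intro k
      rw [MonoidHom.comp_apply, hκ]
      exact hΦ k
    have hΨi : Function.Injective (Φ.comp κ') := hinj.comp hκi
    have hw : wval u' Fi23Tr.zW = c * wval Fi23Ord.I.val Fi23Tr.zW * c⁻¹ :=
      (map_wval κ Fi23Ord.I.val u' (fun _ => rfl) Fi23Tr.zW).symm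
    rw [← hw, (Fi23Tr.key u' _ hΨ hΨi).1]
    exact (Fi23Ord.cover_gen u' _ hΨ hΨi).1

end Cfsg.Agent.S0472
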