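import Cfsg.Statements.S0720
import Cfsg.Agent.Lib.Helper96.TwoP11

set_option autoImplicit false
open Cfsg

namespace Cfsg.Agent.S0720

/-- Wielandt's Theorem on primitive groups of degree `2p`: such a group is doubly transitive, or it has rank 3, `p = 2a² + 2a + 1`, and subdegrees `a(2a+1)` and `(a+1)(2a+1)`. -/
theorem result {α : Type*} [Fintype α] [DecidableEq α] {p : ℕ} (hp : p.Prime) (hα : Fintype.card α = 2 * p) (G : Subgroup (Equiv.Perm α)) (hG : MulAction.IsPreprimitive G α) (a₀ : α) : MulAction.IsMultiplyPretransitive G α 2 ∨ (Nat.card (MulAction.orbitRel.Quotient (MulAction.stabilizer G a₀) α) = 3 ∧ ∃ a : ℕ, 0 < a ∧ p = 2 * a ^ 2 + 2 * a + 1 ∧ ∀ b : α, b ≠ a₀ → Nat.card (MulAction.orbit (MulAction.stabilizer G a₀) b) = a * (2 * a + 1) ∨ Nat.card (MulAction.orbit (MulAction.stabilizer G a₀) b) = (a + 1) * (2 * a + 1)) := by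
  classical
  have : Fintype G := Fintype.ofFinite G
  by_cases hp2 : p = 2
  · left
    subst hp2
    exact Lib.Helper96.two_trans_of_card_four hG (by rw [hα]) a₀
  by_cases hfpf : ∀ g : G, orderOf g = p → ∀ a : α, g • a ≠ a
  · have hdvd : p ∣ Nat.card G := by
      have h1 := MulAction.index_stabilizer_of_transitive G a₀
      have h2 := (MulAction.stabilizer G a₀).index_dvd_card
      rw [h1, Nat.card_eq_fintype_card, hα] at h2
      exact (Dvd.intro_left 2 rfl).trans h2
    have : Fact p.Prime := ⟨hp⟩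
    obtain ⟨x, hx⟩ := exists_prime_orderOf_dvd_card' p hdvd
    exact Lib.Helper96.two_p_main hp hp2 hα hG hx hfpf a₀
  · left
    push Not at hfpf
    obtain ⟨g, hgo, a, hga⟩ := hfpf
    exact Lib.Helper96.two_trans_of_fixed_point hp hp2 hα G hG g.2
      (by rw [Subgroup.orderOf_coe]; exact hgo) hga

end Cfsg.Agent.S0720
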