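import Cfsg.Statements.S0724
import Mathlib
import Cfsg.Agent.S5729

set_option autoImplicit false
open Cfsg

namespace Cfsg.Agent.S0724

open Cfsg.Agent.S5729 MulAction

lemma fx_pi {G Ω : Type*} [Group G] [MulAction G Ω] (k : ℕ) (g : G) :
    fx G (Fin k → Ω) g = (fx G Ω g) ^ k := by
  unfold fx
  have e : fixedBy (Fin k → Ω) g ≃ (Fin k → fixedBy Ω g) :=
    { toFun := fun f i => ⟨f.1 i, by
        have := f.2
        rw [MulAction.mem_fixedBy] at this ⊢
        exact congrFun this i⟩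
      invFun := fun f => ⟨fun i => (f i).1, by
        rw [MulAction.mem_fixedBy]
        funext i
        exact (f i).2⟩
      left_inv := fun f => rfl
      right_inv := fun f => rfl }
  rw [Nat.card_congr e, Nat.card_fun, Nat.card_fin]

lemma dvd_sum_pow {G Ω : Type*} [Group G] [Fintype G] [MulAction G Ω] [Finite Ω] (k : ℕ) :
    (Nat.card G : ℤ) ∣ ∑ g : G, (fx G Ω g : ℤ) ^ k := by
  have h := burnside_nat G (Fin k → Ω)
  simp only [fx_pi] at h
  have h' : (∑ g : G, (fx G Ω g : ℤ) ^ k) = (Nat.card (Quotient (orbitRel G (Fin k → Ω))) : ℤ) * (Nat.card G : ℤ) := by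
    exact_mod_cast h
  rw [h']
  exact Dvd.intro_left _ rfl

lemma dvd_sum_eval {G Ω : Type*} [Group G] [Fintype G] [MulAction G Ω] [Finite Ω] (f : Polynomial ℤ) :
    (Nat.card G : ℤ) ∣ ∑ g : G, f.eval (fx G Ω g : ℤ) := by
  simp only [Polynomial.eval_eq_sum_range]
  rw [Finset.sum_comm]
  apply Finset.dvd_sum
  intro i _
  rw [← Finset.mul_sum]
  exact Dvd.dvd.mul_left (dvd_sum_pow i) _

/-- Blichfeldt. -/
theorem result {α : Type*} [Fintype α] [DecidableEq α] (G : Subgroup (Equiv.Perm α)) (L : Finset ℕ) (hL : ∀ g ∈ G, g ≠ 1 → Nat.card (MulAction.fixedBy α g) ∈ L) : Nat.card G ∣ ∏ l ∈ L, (Fintype.card α - l) := by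
  classical
  by_cases hbig : ∃ l ∈ L, Fintype.card α ≤ l
  · obtain ⟨l, hl, hle⟩ := hbig
    rw [Finset.prod_eq_zero hl (Nat.sub_eq_zero_of_le hle)]
    exact dvd_zero _
  push Not at hbig
  have := Fintype.ofFinite G
  set f : Polynomial ℤ := ∏ l ∈ L, (Polynomial.X - Polynomial.C (l : ℤ)) with hf
  have h := dvd_sum_eval (G := G) (Ω := α) f
  have hsum : ∑ g : G, f.eval (fx G α g : ℤ) = f.eval (fx G α (1 : G) : ℤ) := by
    apply Finset.sum_eq_single
    · intro g _ hg
      have hg' : (g : Equiv.Perm α) ≠ 1 := fun e => hg (Subtype.ext e)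
      have hmem := hL g g.2 hg'
      rw [hf, Polynomial.eval_prod]
      apply Finset.prod_eq_zero hmem
      simp only [Polynomial.eval_sub, Polynomial.eval_X, Polynomial.eval_C]
      have : fx G α g = Nat.card (MulAction.fixedBy α (g : Equiv.Perm α)) := rfl
      rw [this]; simp
    · intro h1; exact absurd (Finset.mem_univ _) h1
  rw [hsum] at h
  have h1 : fx G α (1 : G) = Fintype.card α := by
    unfold fx
    have : MulAction.fixedBy α (1 : G) = Set.univ := by
      ext x; simp [MulAction.mem_fixedBy]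
    rw [this, Nat.card_coe_set_eq, Set.ncard_univ, Nat.card_eq_fintype_card]
  rw [h1, hf, Polynomial.eval_prod] at h
  simp only [Polynomial.eval_sub, Polynomial.eval_X, Polynomial.eval_C] at h
  have h2 : ∏ l ∈ L, ((Fintype.card α : ℤ) - (l : ℤ)) = ((∏ l ∈ L, (Fintype.card α - l) : ℕ) : ℤ) := by
    rw [Nat.cast_prod]
    apply Finset.prod_congr rfl
    intro l hl
    rw [Nat.cast_sub (hbig l hl).le]
  rw [h2] at h
  exact_mod_cast h

end Cfsg.Agent.S0724
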