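import Cfsg.Statements.S0824
import Cfsg.Agent.S0288
import Cfsg.Agent.Lib.Helper6.PermRep
import Cfsg.Agent.Lib.Helper6.IsomTransport

set_option autoImplicit false
open Cfsg

namespace Cfsg.Agent.S0824


open Matrix Cfsg.Agent.Lib.Helper6

abbrev I4 := (Fin 1 ⊕ Fin 1) ⊕ Fin 2

def G5 : Matrix I4 (Fin 5) (ZMod 2) :=
  Matrix.of (Sum.elim (Sum.elim ![![1, 0, 1, 1, 1]] ![![0, 1, 1, 1, 1]])
    ![![0, 0, 1, 0, 1], ![0, 0, 0, 1, 1]])

def S5 : Matrix (Fin 5) I4 (ZMod 2) :=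
  Matrix.of fun k => Sum.elim
    (Sum.elim (fun _ => (![0, 1, 1, 1, 1] : Fin 5 → ZMod 2) k)
      (fun _ => (![1, 0, 1, 1, 1] : Fin 5 → ZMod 2) k))
    (fun i => (![![0, 0, 0, 1, 1], ![0, 0, 1, 0, 1]] : Fin 2 → Fin 5 → ZMod 2) i k)

def a5 : Fin 5 → ZMod 2 := fun _ => 1
def b5 : Fin 5 → ZMod 2 := fun _ => 0

theorem hG : ∀ u, ∑ k, G5 u k = 0 := by decide +kernel
theorem hS : ∀ u, ∑ k, S5 k u = 0 := by decide +kernel
theorem hGS : G5 * S5 = 1 := by decide +kernel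
theorem hSG : ∀ k l, (S5 * G5) k l = (if k = l then 1 else 0) + a5 l + b5 k := by decide +kernel

def rep5 : Equiv.Perm (Fin 5) →* Matrix I4 I4 (ZMod 2) :=
  PermRep.hom G5 S5 a5 b5 hG hS hGS hSG

theorem rep5_apply (σ : Equiv.Perm (Fin 5)) : rep5 σ = PermRep.mat G5 S5 σ := rfl

set_option maxRecDepth 100000 in
theorem sep : ∀ i a b c : Fin 5,
    ((fun u => G5 u a) - (fun u => G5 u b) : I4 → ZMod 2) =
      (fun u => G5 u i) - (fun u => G5 u (i + 1)) →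
    ((fun u => G5 u a) - (fun u => G5 u c) : I4 → ZMod 2) =
      (fun u => G5 u i) - (fun u => G5 u (i + 2)) → a = i := by
  decide +kernel

theorem rep5_injective : Function.Injective rep5 := by
  rw [injective_iff_map_eq_one]
  intro σ h
  ext i
  have h1 := PermRep.mat_mulVec_sub G5 S5 a5 b5 hG hSG σ i (i + 1)
  have h2 := PermRep.mat_mulVec_sub G5 S5 a5 b5 hG hSG σ i (i + 2)
  rw [← rep5_apply, h, one_mulVec] at h1 h2
  rw [sep i (σ i) (σ (i + 1)) (σ (i + 2)) h1.symm h2.symm]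
  rfl

set_option maxRecDepth 100000 in
theorem swap_pres : ∀ (a b : Fin 5) (v : I4 → ZMod 2),
    Cfsg.quadFormMinus 1 (ZMod 2) 1 1 (PermRep.mat G5 S5 (Equiv.swap a b) *ᵥ v) =
      Cfsg.quadFormMinus 1 (ZMod 2) 1 1 v := by
  decide +kernel

theorem rep5_pres (σ : Equiv.Perm (Fin 5)) (v : I4 → ZMod 2) :
    Cfsg.quadFormMinus 1 (ZMod 2) 1 1 (rep5 σ *ᵥ v) = Cfsg.quadFormMinus 1 (ZMod 2) 1 1 v := by
  induction σ using Equiv.Perm.swap_induction_on generalizing v with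
  | one => simp
  | swap_mul f x y _ ih =>
    rw [map_mul, ← mulVec_mulVec, rep5_apply (Equiv.swap x y), swap_pres, ih]

theorem aniso2 : ∀ a b : ZMod 2, a ^ 2 + 1 * a * b + 1 * b ^ 2 = 0 → a = 0 ∧ b = 0 := by decide

/-- O⁻_4(2) ≅ S_5: the isometry group of the form x y + z_1² + z_1 z_2 + z_2² over the field with 2 elements is isomorphic to the symmetric group on 5 letters. -/
theorem result {F : Type*} [Field F] [Fintype F] (hF : Fintype.card F = 2) : Nonempty (↥(Cfsg.isometryGroup F (Cfsg.quadFormMinus 1 F 1 1)) ≃* Equiv.Perm (Fin 5)) := by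
  classical
  let e : ZMod 2 ≃+* F := ZMod.ringEquivOfPrime F Nat.prime_two hF
  have hQ : ∀ w : I4 → ZMod 2, Cfsg.quadFormMinus 1 F 1 1 (fun i => e (w i)) =
      e (Cfsg.quadFormMinus 1 (ZMod 2) 1 1 w) := by
    intro w
    simp only [Cfsg.quadFormMinus, map_sum, map_mul, map_add, map_pow, map_one]
  have hab : ∀ z₁ z₂ : F, z₁ ^ 2 + 1 * z₁ * z₂ + 1 * z₂ ^ 2 = 0 → z₁ = 0 ∧ z₂ = 0 := by
    intro z₁ z₂ h
    obtain ⟨a, rfl⟩ := e.surjective z₁
    obtain ⟨b, rfl⟩ := e.surjective z₂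
    have h2 : e (a ^ 2 + 1 * a * b + 1 * b ^ 2) = 0 := by
      rw [← h]
      simp only [map_mul, map_add, map_pow, map_one]
    have h3 := aniso2 a b ((map_eq_zero_iff e e.injective).1 h2)
    rw [h3.1, h3.2]
    simp
  apply nonempty_mulEquiv_of_injective_of_card
    (homIsometry e (Cfsg.quadFormMinus 1 (ZMod 2) 1 1) (Cfsg.quadFormMinus 1 F 1 1) hQ rep5
      rep5_pres)
    (homIsometry_injective e _ _ hQ rep5 rep5_pres rep5_injective)
  have hc := Cfsg.Agent.S0288.result hF 2 (by norm_num) 1 1 hab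
  refine Eq.trans ?_ hc.symm
  rw [Nat.card_eq_fintype_card, Fintype.card_perm, Fintype.card_fin]
  decide

end Cfsg.Agent.S0824
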