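import Cfsg.Statements.S0853
import Cfsg.Agent.Lib.Helper5.Coherent2
import Cfsg.Agent.S0149

set_option autoImplicit false
open Cfsg

namespace Cfsg.Agent.S0853

open Cfsg.Agent.Lib.Helper5 Cfsg.Agent.Lib.Helper82 Cfsg.Agent.Lib.Helper20 Cfsg.Agent.Lib.Helper32
open scoped ComplexConjugate

/-- Let K be a subgroup of the finite group G that meets each conjugate by an element outside its normalizer N trivially, is properly contained in N, and contains the centralizer of each of its non-identity elements (a T.I. subgroup with Frobenius normalizer). Let S be the set of irreducible characters of N taking at some element of K a value different from their degree, suppose S has at least two members, and let star be a linear isometry on the integer span of S into the generalized characters of G that agrees with induction on the members vanishing at the identity (so S is coherent, with star as the extending isometry). Then there is a single integer m such that star χ k - χ k = m * χ 1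 / e for every χ in S and every non-identity element k of K, where e is the index of K in N. -/
theorem result {G : Type*} [Group G] [Fintype G] (K : Subgroup G) (hTI : ∀ g : G, g ∉ Subgroup.normalizer (K : Set G) → ∀ k ∈ K, g * k * g⁻¹ ∈ K → k = 1) (hlt : K < Subgroup.normalizer (K : Set G)) (hC : ∀ k ∈ K, k ≠ 1 → Subgroup.centralizer ({k} : Set G) ≤ K) [Fintype ↥(Subgroup.normalizer (K : Set G))] (S : Set (↥(Subgroup.normalizer (K : Set G)) → ℂ)) (hS : S = {χ : ↥(Subgroup.normalizer (K : Set G)) → ℂ | Cfsg.IsIrrCharacter ↥(Subgroup.normalizer (K : Set G)) χ ∧ ∃ k : ↥(Subgroup.normalizer (K : Set G)), (k : G) ∈ K ∧ χ k ≠ χ 1}) (htwo : ∃ χ ∈ S, ∃ ξ ∈ S, χ ≠ ξ) (star : (↥(Subgroup.normalizer (K : Set G)) → ℂ) → (G → ℂ)) (hstar : Cfsg.IsLinearIsometryOn (Cfsg.zspan S) star) (hext : ∀ α ∈ Cfsg.zspanOn S ({1}ᶜ : Set ↥(Subgroup.normalizer (K : Set G))), star α = Cfsg.indFun (Subgroup.normalizer (K : Set G)) α) : ∃ m : ℤ, ∀ χ ∈ S, ∀ k : ↥(Subgroup.normalizer (K : Set G)), (k : G) ∈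 K → k ≠ 1 → star χ k - χ k = (m : ℂ) * χ 1 / ((K.subgroupOf (Subgroup.normalizer (K : Set G))).index : ℂ) := by
  classical
  have hKN : K ≤ Subgroup.normalizer (K : Set G) := Subgroup.le_normalizer
  have hK'n : (K.subgroupOf (Subgroup.normalizer (K : Set G))).Normal :=
    Subgroup.normal_in_normalizer
  have hC' : ∀ k ∈ K.subgroupOf (Subgroup.normalizer (K : Set G)), k ≠ 1 →
      Subgroup.centralizer ({k} : Set (Subgroup.normalizer (K : Set G))) ≤
        K.subgroupOf (Subgroup.normalizer (K : Set G)) := by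
    intro k hk hk1 x hx
    have h1 : (k : G) ≠ 1 := fun h => hk1 (Subtype.ext h)
    apply hC k hk h1
    rw [Subgroup.mem_centralizer_singleton_iff] at hx ⊢
    exact congrArg Subtype.val hx
  have hSirr : ∀ χ ∈ S, IsIrrCharacter (Subgroup.normalizer (K : Set G)) χ := by
    rw [hS]; exact fun χ h => h.1
  have hSrel : ∀ χ ∈ S, ∃ k ∈ K.subgroupOf (Subgroup.normalizer (K : Set G)), χ k ≠ χ 1 := by
    rw [hS]
    rintro χ ⟨-, k, hk, hne⟩
    exact ⟨k, hk, hne⟩
  have hSmem : ∀ χ, IsIrrCharacter (Subgroup.normalizer (K : Set G)) χ →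
      (∃ k ∈ K.subgroupOf (Subgroup.normalizer (K : Set G)), χ k ≠ χ 1) → χ ∈ S := by
    rw [hS]
    rintro χ h1 ⟨k, hk, hne⟩
    exact ⟨h1, k, hk, hne⟩
  have hdeg : ∀ χ ∈ S, ∃ d : ℤ, d ≠ 0 ∧ χ 1 = d := by
    intro χ hχ
    obtain ⟨n, hn, h1⟩ := Cfsg.Agent.Lib.Helper83.isIrr_one (hSirr χ hχ)
    exact ⟨n, by exact_mod_cast hn.ne', by rw [h1]; simp⟩
  have hcf : ∀ χ ∈ S, IsClassFunction (Subgroup.normalizer (K : Set G)) χ := fun χ hχ =>
    isChar_isClassFunction (isIrr_isChar (hSirr χ hχ))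
  obtain ⟨χ₀, hχ₀, -⟩ := htwo
  obtain ⟨k₀, hk₀, hk₀ne⟩ := hSrel χ₀ hχ₀
  have hk₀1 : k₀ ≠ 1 := by
    rintro rfl
    exact hk₀ne rfl
  obtain ⟨d₀, hd₀0, hd₀⟩ := hdeg χ₀ hχ₀
  have hd₀0' : (d₀ : ℂ) ≠ 0 := by exact_mod_cast hd₀0
  -- (a)
  have hA : ∀ χ ∈ S, ∀ ξ ∈ S, ∀ dχ dξ : ℤ, χ 1 = dχ → ξ 1 = dξ →
      ∀ k ∈ K.subgroupOf (Subgroup.normalizer (K : Set G)), k ≠ 1 →
      (dξ : ℂ) * (star χ k - χ k) = dχ * (star ξ k - ξ k) := by
    intro χ hχ ξ hξ dχ dξ h1 h2 k hk hk1
    have hcomb := star_comb hstar hext hχ hξ h1 h2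
    have h149 := Cfsg.Agent.S0149.result (K : Set G) hTI hKN (dξ • χ - dχ • ξ)
      (by
        intro g h
        simp only [Pi.sub_apply, Pi.smul_apply, hcf χ hχ g h, hcf ξ hξ g h])
      (by
        intro x hx
        simp only [Pi.sub_apply, Pi.smul_apply,
          frob_vanish' hK'n hC' (hSirr χ hχ) (hSrel χ hχ) x hx,
          frob_vanish' hK'n hC' (hSirr ξ hξ) (hSrel ξ hξ) x hx]
        simp)
      k hk hk1
    rw [hcomb] at h149
    simp only [Pi.sub_apply, Pi.smul_apply] at h149
    simp only [zsmul_eq_mul] at h149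
    linear_combination h149
  -- (b)
  have hB : ∀ χ ∈ S, ∀ a ∈ K.subgroupOf (Subgroup.normalizer (K : Set G)),
      ∀ b ∈ K.subgroupOf (Subgroup.normalizer (K : Set G)), a ≠ 1 → b ≠ 1 →
      star χ a - χ a = star χ b - χ b := by
    intro χ hχ a ha b hb ha1 hb1
    have hgen : IsGeneralizedCharacter G (star χ) := hstar.2.2.2 χ (zspan_of_mem hχ)
    have hψc : IsClassFunction G (star χ) := genChar_isClassFunction hgen
    have hfc : IsClassFunction (Subgroup.normalizer (K : Set G))
        ((fun n : Subgroup.normalizer (K : Set G) => star χ n) - χ) := by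
      intro g h
      simp only [Pi.sub_apply, hcf χ hχ g h]
      congr 1
      exact hψc g h
    exact const_of_proportional (K.subgroupOf (Subgroup.normalizer (K : Set G))) hfc
      (classInner ((fun n : Subgroup.normalizer (K : Set G) => star χ n) - χ) χ₀ / d₀) (by
        intro η hη hrel
        have hηS := hSmem η hη hrel
        obtain ⟨dη, -, h2⟩ := hdeg η hηS
        have hrec := star_reciprocity hstar hext hχ₀ hηS hd₀ h2 hψc
        rw [hstar.2.2.1 χ₀ (zspan_of_mem hχ₀) χ (zspan_of_mem hχ),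
          hstar.2.2.1 η (zspan_of_mem hηS) χ (zspan_of_mem hχ)] at hrec
        have hrec' := congrArg conj hrec
        simp only [map_sub, map_mul, map_intCast, classInner_conj_symm] at hrec'
        rw [h2, classInner_sub_left, classInner_sub_left]
        field_simp
        linear_combination hrec') ha hb ha1 hb1
  -- the constant
  set u : ℂ := (star χ₀ k₀ - χ₀ k₀) / χ₀ 1 with hu
  have hU : ∀ χ ∈ S, ∀ k ∈ K.subgroupOf (Subgroup.normalizer (K : Set G)), k ≠ 1 →
      star χ k - χ k = u * χ 1 := by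
    intro χ hχ k hk hk1
    obtain ⟨dχ, -, h1⟩ := hdeg χ hχ
    have h2 := hA χ hχ χ₀ hχ₀ dχ d₀ h1 hd₀ k hk hk1
    rw [hB χ₀ hχ₀ k hk k₀ hk₀ hk1 hk₀1] at h2
    rw [hu, hd₀, h1]
    field_simp
    linear_combination h2
  have hnt : Nontrivial (K.subgroupOf (Subgroup.normalizer (K : Set G))) :=
    ⟨⟨⟨k₀, hk₀⟩, 1, fun h => hk₀1 (congrArg Subtype.val h)⟩⟩
  have hD : ∀ χ ∈ S, ∃ z : ℤ, u * χ 1 = z := by
    intro χ hχ
    have hgen : IsGeneralizedCharacter G (star χ) := hstar.2.2.2 χ (zspan_of_mem hχ)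
    have hF : IsGeneralizedCharacter (K.subgroupOf (Subgroup.normalizer (K : Set G)))
        ((fun k : K.subgroupOf (Subgroup.normalizer (K : Set G)) =>
          star χ (((Subgroup.normalizer (K : Set G)).subtype.comp
            (K.subgroupOf (Subgroup.normalizer (K : Set G))).subtype) k)) -
          (fun k : K.subgroupOf (Subgroup.normalizer (K : Set G)) =>
            χ ((K.subgroupOf (Subgroup.normalizer (K : Set G))).subtype k))) :=
      genChar_sub (genChar_comp_hom hgen _)
        (genChar_comp_hom (genChar_of_irr (hSirr χ hχ)) _)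
    apply int_of_const_genChar hF
    intro k hk1
    exact hU χ hχ k k.2 (fun h => hk1 (Subtype.ext h))
  have hW : ∃ m : ℤ, u * ((K.subgroupOf (Subgroup.normalizer (K : Set G))).index : ℂ) = m := by
    apply int_of_mul_degree (K := K.subgroupOf (Subgroup.normalizer (K : Set G)))
    intro θ hθ
    have hirr := indFun_irr_of_frob' hK'n hC' θ.2 hθ
    have hrel := indFun_relevant hK'n hC' θ.2 hθ
    obtain ⟨z, hz⟩ := hD _ (hSmem _ hirr hrel)
    refine ⟨z, ?_⟩
    rw [← hz, Cfsg.Agent.Lib.Helper5.indFun_one]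
    ring
  obtain ⟨m, hm⟩ := hW
  refine ⟨m, fun χ hχ k hk hk1 => ?_⟩
  have he : ((K.subgroupOf (Subgroup.normalizer (K : Set G))).index : ℂ) ≠ 0 := by
    exact_mod_cast (K.subgroupOf (Subgroup.normalizer (K : Set G))).index_ne_zero_of_finite
  rw [hU χ hχ k hk hk1, ← hm]
  field_simp

end Cfsg.Agent.S0853
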