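import Cfsg.Statements.S0875
import Cfsg.Agent.Lib.Helper4.BrauerR
import Cfsg.Agent.Lib.Helper4.PiPart2

set_option autoImplicit false
open Cfsg

namespace Cfsg.Agent.S0875

/-- Let G be a finite group of order m * n with m and n coprime, and g an element whose order is coprime to m. Every x in G factors uniquely as x = u * v with u, v commuting, the order of u coprime to n and the order of v coprime to m; let ϑ be the function on G equal to n at those x whose factor v is conjugate to g and equal to 0 elsewhere. Then ϑ is a linear combination of the irreducible characters of G with algebraic-integer coefficients. -/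
theorem result {G : Type*} [Group G] [Fintype G] (m n : ℕ) (hmn : Nat.card G = m * n) (hcop : Nat.Coprime m n) (g : G) (hg : Nat.Coprime (orderOf g) m) (ϑ : G → ℂ) (hϑ1 : ∀ x : G, (∃ v : G, IsConj v g ∧ (∃ u : G, x = u * v ∧ Commute u v ∧ Nat.Coprime (orderOf u) n ∧ Nat.Coprime (orderOf v) m)) → ϑ x = n) (hϑ0 : ∀ x : G, (¬ ∃ v : G, IsConj v g ∧ (∃ u : G, x = u * v ∧ Commute u v ∧ Nat.Coprime (orderOf u) n ∧ Nat.Coprime (orderOf v) m)) → ϑ x = 0) : ∃ c : Cfsg.IrrCharacter G → ℂ, (∀ χ, c χ ∈ Cfsg.AlgInt) ∧ ϑ = ∑ᶠ χ : Cfsg.IrrCharacter G, c χ • (χ : G → ℂ) := by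
  classical
  obtain ⟨k, hk0, hk1⟩ := Cfsg.Agent.Lib.Helper4.exists_part_exponent hcop
  have hval : ∀ x : G, ϑ x = if IsConj (x ^ k) g then (n : ℂ) else 0 := by
    intro x
    split_ifs with h
    · apply hϑ1
      exact ⟨x ^ k, h, (Cfsg.Agent.Lib.Helper4.exists_decomp_iff hmn hcop hk0 hk1 x (x ^ k)).mpr rfl⟩
    · apply hϑ0
      rintro ⟨v, hv, hu⟩
      rw [Cfsg.Agent.Lib.Helper4.exists_decomp_iff hmn hcop hk0 hk1 x v] at hu
      rw [hu] at hv
      exact h hv
  have hcl : Cfsg.IsClassFunction G ϑ := by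
    intro x a
    rw [hval, hval, conj_pow]
    have : IsConj (a * x ^ k * a⁻¹) g ↔ IsConj (x ^ k) g := by
      have h1 : IsConj (x ^ k) (a * x ^ k * a⁻¹) := isConj_iff.mpr ⟨a, rfl⟩
      exact ⟨fun h => h1.trans h, fun h => h1.symm.trans h⟩
    simp only [this]
  have hpow : ∀ x : G, ϑ (x ^ k) = ϑ x := by
    intro x
    rw [hval, hval, Cfsg.Agent.Lib.Helper4.pow_part_pow_part hmn hk0 hk1]
  let R : AddSubgroup ℂ := (Cfsg.AlgInt).toSubring.toAddSubgroup
  have hR : ∀ χ : G → ℂ, Cfsg.IsCharacter G χ → Cfsg.classInner ϑ χ ∈ R := by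
    intro χ hχ
    refine Cfsg.Agent.Lib.Helper4.section_coeff R hmn hcop hk0 hk1 hcl hpow ?_ hχ
    intro B _ _ ι _ _ hBn β hβ
    obtain ⟨d, hd⟩ := hBn
    have hB0 : (Nat.card B : ℂ) ≠ 0 := Cfsg.Agent.Lib.Helper4.card_ne_zero'
    have h1 : Cfsg.classInner (fun b => ϑ (ι b)) β =
        (d : ℂ) * ∑ b : B, (if IsConj ((ι b) ^ k) g then β b⁻¹ else 0) := by
      unfold Cfsg.classInner
      have h2 : ∀ b : B, ϑ (ι b) * (starRingEnd ℂ) (β b) =
          (Nat.card B : ℂ) * ((d : ℂ) * (if IsConj ((ι b) ^ k) g then β b⁻¹ else 0)) := by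
        intro b
        rw [hval, Cfsg.Agent.Lib.Helper4.char_apply_inv (Cfsg.Agent.Lib.Helper4.isCharacter_of_irr hβ)]
        split_ifs
        · rw [hd]
          push_cast
          ring
        · simp
      simp only [h2]
      rw [← Finset.mul_sum, ← Finset.mul_sum, ← mul_assoc, inv_mul_cancel₀ hB0, one_mul]
    rw [h1]
    change IsIntegral ℤ _
    apply IsIntegral.mul (isIntegral_natCast d)
    apply IsIntegral.sum
    intro b _
    split_ifs
    · exact Cfsg.Agent.Lib.Helper20.isCharacter_isIntegral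
        (Cfsg.Agent.Lib.Helper4.isCharacter_of_irr hβ) _
    · exact isIntegral_zero
  refine ⟨fun χ => Cfsg.classInner ϑ (χ : G → ℂ), ?_, ?_⟩
  · intro χ
    exact hR χ (Cfsg.Agent.Lib.Helper4.isCharacter_of_irr χ.2)
  · exact Cfsg.Agent.Lib.Helper20.eq_finsum_classInner_smul hcl

end Cfsg.Agent.S0875
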