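import Cfsg.Statements.S0876
import Cfsg.Agent.S0875
import Cfsg.Agent.Lib.Helper20.CharCongr

set_option autoImplicit false
open Cfsg

namespace Cfsg.Agent.S0876

/-- Let G be a finite group, p a prime and M a maximal ideal of the ring of algebraic integers containing p. Let x, y be elements with p-parts a and b (so a⁻¹ * x and b⁻¹ * y are their p-regular parts). Then a⁻¹ * x and b⁻¹ * y are conjugate in G if and only if, for every irreducible character χ, the difference χ x - χ y lies in the local ideal at M. -/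
theorem result {G : Type*} [Group G] [Finite G] (p : ℕ) (M : Ideal Cfsg.AlgInt) (hM : Cfsg.IsPModular p M) (x y a b : G) (ha : Cfsg.IsPPart p x a) (hb : Cfsg.IsPPart p y b) : IsConj (a⁻¹ * x) (b⁻¹ * y) ↔ ∀ χ : Cfsg.IrrCharacter G, Cfsg.MemLocalIdeal M ((χ : G → ℂ) x - (χ : G → ℂ) y) := by
  classical
  have := Fintype.ofFinite G
  have hp : p.Prime := hM.1
  obtain ⟨c, hac, hcomm, ⟨k, hk⟩, hc⟩ := ha
  obtain ⟨d, hbd, hcomm', ⟨k', hk'⟩, hd⟩ := hb
  have hx' : a⁻¹ * x = c := by rw [← hac]; group
  have hy' : b⁻¹ * y = d := by rw [← hbd]; group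
  rw [hx', hy']
  have hax : a ^ (p ^ k) = 1 := by rw [← hk]; exact pow_orderOf_eq_one a
  have hby : b ^ (p ^ k') = 1 := by rw [← hk']; exact pow_orderOf_eq_one b
  constructor
  · intro hconj χ
    have hχ := Cfsg.Agent.Lib.Helper4.isCharacter_of_irr χ.2
    have h1 := Cfsg.Agent.Lib.Helper20.isCharacter_mul_sub_memLocalIdeal hM hχ hcomm hax hc
    have h2 := Cfsg.Agent.Lib.Helper20.isCharacter_mul_sub_memLocalIdeal hM hχ hcomm' hby hd
    rw [hac] at h1
    rw [hbd] at h2
    have h3 : (χ : G → ℂ) c = (χ : G → ℂ) d := by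
      obtain ⟨t, ht⟩ := isConj_iff.mp hconj
      rw [← ht]
      exact (Cfsg.Agent.Lib.Helper4.isClassFunction_of_char hχ c t).symm
    have h4 := Cfsg.Agent.Lib.Helper81.memLocalIdeal_sub hM h1 h2
    have h5 : (χ : G → ℂ) x - (χ : G → ℂ) c - ((χ : G → ℂ) y - (χ : G → ℂ) d) =
        (χ : G → ℂ) x - (χ : G → ℂ) y := by rw [h3]; ring
    rwa [h5] at h4
  · intro hall
    have hG0 : Nat.card G ≠ 0 := Nat.card_pos.ne'
    have hmn : Nat.card G = p ^ (Nat.card G).factorization p *
        (Nat.card G / p ^ (Nat.card G).factorization p) :=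
      (Nat.ordProj_mul_ordCompl_eq_self (Nat.card G) p).symm
    have hpn : Nat.Coprime p (Nat.card G / p ^ (Nat.card G).factorization p) :=
      Nat.coprime_ordCompl hp hG0
    have hcop : Nat.Coprime (p ^ (Nat.card G).factorization p)
        (Nat.card G / p ^ (Nat.card G).factorization p) := Nat.Coprime.pow_left _ hpn
    have hcm : ∀ z : G, ¬ p ∣ orderOf z →
        Nat.Coprime (orderOf z) (p ^ (Nat.card G).factorization p) := by
      intro z hz
      apply Nat.Coprime.pow_right
      exact ((Nat.Prime.coprime_iff_not_dvd hp).mpr hz).symm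
    obtain ⟨co, hco, hsum⟩ := Cfsg.Agent.S0875.result (G := G) _ _ hmn hcop c (hcm c hc)
      (fun z => if (∃ v : G, IsConj v c ∧ (∃ u : G, z = u * v ∧ Commute u v ∧
        Nat.Coprime (orderOf u) (Nat.card G / p ^ (Nat.card G).factorization p) ∧
        Nat.Coprime (orderOf v) (p ^ (Nat.card G).factorization p))) then
          ((Nat.card G / p ^ (Nat.card G).factorization p : ℕ) : ℂ) else 0)
      (fun z hz => if_pos hz) (fun z hz => if_neg hz)
    have := Cfsg.Agent.Lib.Helper4.finite_irrCharacter (G := G)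
    have := Fintype.ofFinite (Cfsg.IrrCharacter G)
    rw [finsum_eq_sum_of_fintype] at hsum
    have hxsec : (∃ v : G, IsConj v c ∧ (∃ u : G, x = u * v ∧ Commute u v ∧
        Nat.Coprime (orderOf u) (Nat.card G / p ^ (Nat.card G).factorization p) ∧
        Nat.Coprime (orderOf v) (p ^ (Nat.card G).factorization p))) := by
      refine ⟨c, IsConj.refl c, a, hac.symm, hcomm, ?_, hcm c hc⟩
      rw [hk]
      exact Nat.Coprime.pow_left _ hpn
    by_contra hnc
    have hysec : ¬ (∃ v : G, IsConj v c ∧ (∃ u : G, y = u * v ∧ Commute u v ∧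
        Nat.Coprime (orderOf u) (Nat.card G / p ^ (Nat.card G).factorization p) ∧
        Nat.Coprime (orderOf v) (p ^ (Nat.card G).factorization p))) := by
      rintro ⟨v, hv, hu⟩
      obtain ⟨e, he0, he1⟩ := Cfsg.Agent.Lib.Helper4.exists_part_exponent hcop
      rw [Cfsg.Agent.Lib.Helper4.exists_decomp_iff hmn hcop he0 he1 y v] at hu
      have hd' : d = y ^ e := by
        rw [← Cfsg.Agent.Lib.Helper4.exists_decomp_iff hmn hcop he0 he1 y d]
        refine ⟨b, hbd.symm, hcomm', ?_, hcm d hd⟩
        rw [hk']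
        exact Nat.Coprime.pow_left _ hpn
      rw [hu, ← hd'] at hv
      exact hnc hv.symm
    have h1 := congrFun hsum x
    have h2 := congrFun hsum y
    simp only [if_pos hxsec] at h1
    simp only [if_neg hysec] at h2
    have h3 : ((Nat.card G / p ^ (Nat.card G).factorization p : ℕ) : ℂ) =
        ∑ χ : Cfsg.IrrCharacter G, co χ * ((χ : G → ℂ) x - (χ : G → ℂ) y) := by
      have h4 : ((Nat.card G / p ^ (Nat.card G).factorization p : ℕ) : ℂ) =
          ((Nat.card G / p ^ (Nat.card G).factorization p : ℕ) : ℂ) - 0 := by ring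
      rw [h4]
      conv_lhs => rw [h1, h2]
      simp only [Finset.sum_apply, Pi.smul_apply, smul_eq_mul]
      rw [← Finset.sum_sub_distrib]
      apply Finset.sum_congr rfl
      intro χ _
      ring
    have h5 : Cfsg.MemLocalIdeal M ((Nat.card G / p ^ (Nat.card G).factorization p : ℕ) : ℂ) := by
      rw [h3]
      apply Cfsg.Agent.Lib.Helper81.memLocalIdeal_sum hM
      intro χ _
      exact Cfsg.Agent.Lib.Helper81.memLocalIdeal_mul_left hM
        (Cfsg.Agent.Lib.Helper81.memLocalRing_of_isIntegral hM (hco χ)) (hall χ)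
    rw [Cfsg.Agent.Lib.Helper81.memLocalIdeal_natCast_iff hM] at h5
    exact Nat.not_dvd_ordCompl hp hG0 h5

end Cfsg.Agent.S0876
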