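import Cfsg.Statements.S4571
import Cfsg.Agent.Lib.Helper84.BlockQuot
import Cfsg.Agent.Lib.Helper21.Quot
import Cfsg.Agent.Lib.Helper81.BlockRank
import Cfsg.Agent.Lib.Helper20.FongReynolds
import Cfsg.Agent.S0925
import Cfsg.Agent.Lib.Helper4.CharBasic
-- import your own Cfsg.Agent.* helpers here

set_option autoImplicit false
open Cfsg
open scoped ComplexConjugate
open Cfsg.Agent.Lib.Helper20 Cfsg.Agent.Lib.Helper81 Cfsg.Agent.Lib.Helper21 Cfsg.Agent.Lib.Helper84

namespace Cfsg.Agent.S4571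

/-- If `G = Q C_G(Q)` for a normal `p`-subgroup `Q`, the `p`-regular elements centralize `Q`. -/
theorem regular_mem_centralizer {G : Type*} [Group G] [Finite G] {p : ℕ} (hp : p.Prime)
    (Q : Subgroup G) [Q.Normal] (hQ : IsPGroup p Q)
    (hsup : Q ⊔ Subgroup.centralizer (Q : Set G) = ⊤) {x : G} (hx : ¬ p ∣ orderOf x) :
    x ∈ Subgroup.centralizer (Q : Set G) := by
  have hx1 : x ∈ Q ⊔ Subgroup.centralizer (Q : Set G) := by rw [hsup]; trivial
  rw [← SetLike.mem_coe, Subgroup.normal_mul] at hx1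
  obtain ⟨u, hu, c, hc, rfl⟩ := hx1
  set C := Subgroup.centralizer (Q : Set G) with hC
  suffices h : u ∈ C from C.mul_mem h hc
  rw [← QuotientGroup.eq_one_iff]
  have h1 : ((u * c : G) : G ⧸ C) = (u : G ⧸ C) := by
    rw [QuotientGroup.mk_mul, (QuotientGroup.eq_one_iff c).2 hc, mul_one]
  obtain ⟨k, hk⟩ := hQ ⟨u, hu⟩
  have hk' : u ^ p ^ k = 1 := by
    have := congrArg Subtype.val hk
    simpa using this
  have h2 : orderOf (u : G ⧸ C) ∣ p ^ k := by
    apply orderOf_dvd_of_pow_eq_one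
    rw [← QuotientGroup.mk_pow, hk', QuotientGroup.mk_one]
  have h3 : orderOf (u : G ⧸ C) ∣ orderOf (u * c) := by
    rw [← h1]
    exact orderOf_map_dvd (QuotientGroup.mk' C) (u * c)
  have hcop : Nat.Coprime (orderOf (u * c)) (p ^ k) :=
    Nat.Coprime.pow_right k ((Nat.Prime.coprime_iff_not_dvd hp).2 hx).symm
  exact orderOf_eq_one_iff.1 (Nat.eq_one_of_dvd_coprimes hcop h3 h2)

/-- Sums over the `p`-regular elements of `G` and of `G ⧸ Q`. -/
theorem sum_regular_quot {G : Type*} [Group G] [Fintype G] {p : ℕ} (hp : p.Prime)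
    (Q : Subgroup G) [Q.Normal] [Fintype (G ⧸ Q)] (hQ : IsPGroup p Q)
    (hsup : Q ⊔ Subgroup.centralizer (Q : Set G) = ⊤) (H : G ⧸ Q → ℂ) :
    ∑ x : G, (if p ∣ orderOf x then 0 else H (x : G ⧸ Q)) =
      ∑ q : G ⧸ Q, (if p ∣ orderOf q then 0 else H q) := by
  classical
  simp only [← ite_not (p ∣ orderOf _)]
  rw [← Finset.sum_filter, ← Finset.sum_filter]
  apply Finset.sum_bij (fun (x : G) _ => (x : G ⧸ Q))
  · intro x hx
    rw [Finset.mem_filter] at hx ⊢
    refine ⟨Finset.mem_univ _, fun h => hx.2 (h.trans ?_)⟩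
    exact orderOf_map_dvd (QuotientGroup.mk' Q) x
  · intro x hx y hy hxy
    rw [Finset.mem_filter] at hx hy
    have hxy' : x⁻¹ * y ∈ Q := QuotientGroup.eq.1 hxy
    set u := x⁻¹ * y with hu
    have hxc := regular_mem_centralizer hp Q hQ hsup hx.2
    have hcomm : Commute x u := by
      rw [Subgroup.mem_centralizer_iff] at hxc
      exact (hxc u hxy').symm
    have hy' : y = x * u := by rw [hu]; group
    have h2 : (x * u) ^ (orderOf x * orderOf y) = 1 := by
      rw [← hy', mul_comm, pow_mul, pow_orderOf_eq_one, one_pow]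
    rw [hcomm.mul_pow, pow_mul, pow_orderOf_eq_one, one_pow, one_mul] at h2
    obtain ⟨k, hk⟩ := hQ ⟨u, hxy'⟩
    have hk' : u ^ p ^ k = 1 := by
      have := congrArg Subtype.val hk
      simpa using this
    have hcop : Nat.Coprime (orderOf x * orderOf y) (p ^ k) := by
      apply Nat.Coprime.pow_right k
      apply Nat.Coprime.mul_left
      · exact ((Nat.Prime.coprime_iff_not_dvd hp).2 hx.2).symm
      · exact ((Nat.Prime.coprime_iff_not_dvd hp).2 hy.2).symm
    have hu1 : u = 1 := by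
      have h3 : orderOf u ∣ orderOf x * orderOf y := orderOf_dvd_of_pow_eq_one h2
      have h4 : orderOf u ∣ p ^ k := orderOf_dvd_of_pow_eq_one hk'
      exact orderOf_eq_one_iff.1 (Nat.eq_one_of_dvd_coprimes hcop h3 h4)
    rw [hy', hu1, mul_one]
  · intro q hq
    rw [Finset.mem_filter] at hq
    obtain ⟨g, hg, hg2⟩ := exists_regular_lift hp Q hQ hq.2
    exact ⟨g, Finset.mem_filter.2 ⟨Finset.mem_univ _, hg2⟩, hg⟩
  · intro x _
    rfl

/-- Block orthogonality over a centralized normal `p`-subgroup. -/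
theorem bsum_eq_card_mul {G : Type*} [Group G] [Fintype G] {p : ℕ} [Fact p.Prime]
    {M : Ideal AlgInt} (hM : IsPModular p M)
    (Q : Subgroup G) [Q.Normal] (hQ : IsPGroup p Q)
    (B : Set (IrrCharacter G)) [DecidablePred (· ∈ B)] (hB : IsPBlock M B) {x : G}
    (hx : ¬ p ∣ orderOf x) (hxc : x ∈ Subgroup.centralizer (Q : Set G)) :
    ∑ᶠ χ ∈ B, (χ : G → ℂ) x * (χ : G → ℂ) x⁻¹ =
      (Nat.card Q : ℂ) * ∑ᶠ χ ∈ overKer Q,
        (if χ ∈ B then (χ : G → ℂ) x * (χ : G → ℂ) x⁻¹ else 0) := by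
  classical
  have : Finite (IrrCharacter G) := finite_irrCharacter
  have : Fintype (IrrCharacter G) := Fintype.ofFinite _
  have hQ0 : (Nat.card Q : ℂ) ≠ 0 := by exact_mod_cast Nat.card_pos.ne'
  set w := blockCoeff (overKer Q) with hw
  have h1 : ∑ t : G, w t * ∑ᶠ χ ∈ B, (χ : G → ℂ) x * (χ : G → ℂ) (x⁻¹ * t) =
      ∑ᶠ χ ∈ overKer Q, (if χ ∈ B then (χ : G → ℂ) x * (χ : G → ℂ) x⁻¹ else 0) := by
    simp only [finsum_mem_irr, Finset.mul_sum]
    rw [Finset.sum_comm]
    apply Finset.sum_congr rfl; intro χ _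
    by_cases hχ : χ ∈ B
    · simp only [if_pos hχ]
      have := sum_mul_char_mul χ.2 (blockCoeff_classFunction (overKer Q)) x⁻¹
      rw [omega_blockCoeff] at this
      calc ∑ t : G, w t * ((χ : G → ℂ) x * (χ : G → ℂ) (x⁻¹ * t))
          = (χ : G → ℂ) x * ∑ t : G, w t * (χ : G → ℂ) (x⁻¹ * t) := by
            rw [Finset.mul_sum]; apply Finset.sum_congr rfl; intro t _; ring
        _ = _ := by
            rw [this]
            split_ifs <;> ring
    · simp [if_neg hχ]
  have h2 : ∑ t : G, w t * ∑ᶠ χ ∈ B, (χ : G → ℂ) x * (χ : G → ℂ) (x⁻¹ * t) =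
      (Nat.card Q : ℂ)⁻¹ * ∑ᶠ χ ∈ B, (χ : G → ℂ) x * (χ : G → ℂ) x⁻¹ := by
    rw [Finset.sum_eq_single (1 : G)]
    · rw [hw, blockCoeff_overKer, if_pos Q.one_mem, mul_one]
    · intro t _ ht
      by_cases htQ : t ∈ Q
      · have h3 := (Cfsg.Agent.S0925.result p M hM).2 x (t⁻¹ * x) 1 t⁻¹
          (isPPart_one_of_regular hx) ?_ ?_ B hB
        · have h4 : (t⁻¹ * x)⁻¹ = x⁻¹ * t := by group
          rw [h4] at h3
          rw [h3, mul_zero]
        · refine ⟨x, rfl, ?_, ?_, hx⟩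
          · rw [Subgroup.mem_centralizer_iff] at hxc
            exact (hxc t⁻¹ (Q.inv_mem htQ))
          · obtain ⟨k, hk⟩ := (IsPGroup.iff_orderOf.1 hQ) ⟨t, htQ⟩
            rw [← Subgroup.orderOf_coe] at hk
            exact ⟨k, by rw [orderOf_inv]; exact hk⟩
        · intro hc
          rw [isConj_one_right] at hc
          exact ht (inv_eq_one.1 hc)
      · rw [hw, blockCoeff_overKer, if_neg htQ, zero_mul]
    · intro h; exact absurd (Finset.mem_univ _) h
  rw [← h1, h2]
  field_simp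


/-- Let Q be a normal p-subgroup of the finite group G with G = Q·C_G(Q), and M a maximal ideal of the algebraic integers containing p. Then the principal p-blocks of G and of G/Q have the same p-regular rank (the same number of irreducible Brauer characters). -/
theorem result {G : Type*} [Group G] [Finite G] (p : ℕ) [Fact p.Prime] (M : Ideal Cfsg.AlgInt) (hM : Cfsg.IsPModular p M) (Q : Subgroup G) [Q.Normal] (hQ : IsPGroup p Q) (hsup : Q ⊔ Subgroup.centralizer (Q : Set G) = ⊤) : Cfsg.blockRank p (Cfsg.principalBlock M G) = Cfsg.blockRank p (Cfsg.principalBlock M (G ⧸ Q)) := by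
  classical
  have := Fintype.ofFinite G
  have : Fintype (G ⧸ Q) := Fintype.ofFinite _
  have : Finite (IrrCharacter (G ⧸ Q)) := finite_irrCharacter
  have : Fintype (IrrCharacter (G ⧸ Q)) := Fintype.ofFinite _
  let tG : IrrCharacter G := ⟨fun _ => 1, Cfsg.Agent.Lib.Helper4.isIrrCharacter_one⟩
  let tQ : IrrCharacter (G ⧸ Q) := ⟨fun _ => 1, Cfsg.Agent.Lib.Helper4.isIrrCharacter_one⟩
  have hB : IsPBlock M (principalBlock M G) := ⟨tG, rfl⟩
  have hB' : IsPBlock M (principalBlock M (G ⧸ Q)) := ⟨tQ, rfl⟩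
  have h1 := card_mul_blockRank hM _ hB
  have h2 := card_mul_blockRank hM _ hB'
  have hp := hM.1
  set H : G ⧸ Q → ℂ := fun q => ∑ᶠ ψ ∈ principalBlock M (G ⧸ Q),
    (ψ : G ⧸ Q → ℂ) q * (ψ : G ⧸ Q → ℂ) q⁻¹ with hH
  have key : ∀ x : G, ∑ᶠ χ ∈ principalBlock M G, pRegularPart p (χ : G → ℂ) x * (χ : G → ℂ) x⁻¹ =
      if p ∣ orderOf x then 0 else (Nat.card Q : ℂ) * H (x : G ⧸ Q) := by
    intro x
    by_cases hx : p ∣ orderOf x
    · rw [if_pos hx]
      have : ∀ χ : IrrCharacter G, pRegularPart p (χ : G → ℂ) x = 0 := by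
        intro χ
        rw [pRegularPart_eq]; exact if_neg (fun h : IsPRegular p x => h hx)
      simp [this]
    · rw [if_neg hx]
      have : ∀ χ : IrrCharacter G, pRegularPart p (χ : G → ℂ) x = (χ : G → ℂ) x := by
        intro χ
        rw [pRegularPart_eq]; exact if_pos (show IsPRegular p x from hx)
      simp only [this]
      rw [bsum_eq_card_mul hM Q hQ _ hB hx (regular_mem_centralizer hp Q hQ hsup hx)]
      congr 1
      have h3 := finsum_mem_overKer Q
        (fun χ => if SameBlock M (fun _ : G => (1 : ℂ)) χ then χ x * χ x⁻¹ else 0)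
      refine Eq.trans ?_ (Eq.trans h3 ?_)
      · apply finsum_congr; intro χ
        apply finsum_congr; intro _
        rfl
      · rw [hH]
        simp only
        rw [finsum_mem_irr, finsum_eq_sum_of_fintype]
        apply Finset.sum_congr rfl; intro ψ _
        have hiff : ψ ∈ principalBlock M (G ⧸ Q) ↔
            SameBlock M (fun _ : G => (1 : ℂ)) (fun g : G => (ψ : G ⧸ Q → ℂ) (g : G ⧸ Q)) :=
          sameBlock_quot_iff hM Q hQ
            (fun g hg hgc => absurd (regular_mem_centralizer hp Q hQ hsup hg) hgc) tQ ψ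
        by_cases hψ : ψ ∈ principalBlock M (G ⧸ Q)
        · rw [if_pos hψ, if_pos (hiff.1 hψ)]
          rfl
        · rw [if_neg hψ, if_neg (fun h => hψ (hiff.2 h))]
  have key' : ∀ q : G ⧸ Q, ∑ᶠ χ ∈ principalBlock M (G ⧸ Q),
      pRegularPart p (χ : G ⧸ Q → ℂ) q * (χ : G ⧸ Q → ℂ) q⁻¹ =
      if p ∣ orderOf q then 0 else H q := by
    intro x
    by_cases hx : p ∣ orderOf x
    · rw [if_pos hx]
      have : ∀ χ : IrrCharacter (G ⧸ Q), pRegularPart p (χ : G ⧸ Q → ℂ) x = 0 := by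
        intro χ
        rw [pRegularPart_eq]; exact if_neg (fun h : IsPRegular p x => h hx)
      simp [this]
    · rw [if_neg hx]
      have : ∀ χ : IrrCharacter (G ⧸ Q), pRegularPart p (χ : G ⧸ Q → ℂ) x = (χ : G ⧸ Q → ℂ) x := by
        intro χ
        rw [pRegularPart_eq]; exact if_pos (show IsPRegular p x from hx)
      simp only [this, hH]
  simp only [key] at h1
  simp only [key'] at h2
  rw [sum_regular_quot hp Q hQ hsup (fun q => (Nat.card Q : ℂ) * H q)] at h1
  have h4 : ∑ q : G ⧸ Q, (if p ∣ orderOf q then 0 else (Nat.card Q : ℂ) * H q) =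
      (Nat.card Q : ℂ) * ∑ q : G ⧸ Q, (if p ∣ orderOf q then 0 else H q) := by
    rw [Finset.mul_sum]
    apply Finset.sum_congr rfl; intro q _
    split_ifs <;> simp
  rw [h4, ← h2] at h1
  have hG : (Nat.card G : ℂ) = (Nat.card (G ⧸ Q) : ℂ) * (Nat.card Q : ℂ) := by
    rw [← Nat.cast_mul, ← Subgroup.card_eq_card_quotient_mul_card_subgroup]
  have hG0 : (Nat.card G : ℂ) ≠ 0 := card_ne_zero_complex
  have h5 : (Nat.card G : ℂ) * (blockRank p (principalBlock M G) : ℂ) =
      (Nat.card G : ℂ) * (blockRank p (principalBlock M (G ⧸ Q)) : ℂ) := by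
    rw [h1, hG]; ring
  exact_mod_cast mul_left_cancel₀ hG0 h5

end Cfsg.Agent.S4571
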