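import Cfsg.Statements.S0951
import Cfsg.Agent.S0201
import Cfsg.Agent.S4512
import Cfsg.Agent.S0946
import Cfsg.Agent.S4571
import Cfsg.Agent.Lib.Helper67.NPC
import Cfsg.Agent.Lib.Helper11.TwoComplement
import Cfsg.Agent.Lib.Helper26.FusionTools
import Cfsg.Agent.Lib.Helper21.Tower
-- import your own Cfsg.Agent.* helpers here

set_option autoImplicit false
open Cfsg
open scoped ComplexConjugate
open Cfsg.Agent.Lib.Helper20 Cfsg.Agent.Lib.Helper81 Cfsg.Agent.Lib.Helper21

namespace Cfsg.Agent.S0951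

variable {G : Type*} [Group G]


theorem q8_facts {S : Type*} [Group S] (e : S ≃* QuaternionGroup 2) :
    Nat.card S = 8 ∧ ∃ z : S, z ≠ 1 ∧ z * z = 1 ∧ (∀ x : S, x = 1 ∨ x = z ∨ x * x = z) ∧
      (∀ x : S, ∃ y : S, y * x * y⁻¹ = x⁻¹) ∧ ∃ a : S, a * a = z := by
  have h1 : ∀ x : QuaternionGroup 2, x = 1 ∨ x = QuaternionGroup.a 2 ∨ x * x = QuaternionGroup.a 2 := by
    decide
  have h2 : ∀ x : QuaternionGroup 2, ∃ y : QuaternionGroup 2, y * x * y⁻¹ = x⁻¹ := by
    decide
  have h3 : (QuaternionGroup.a 1 : QuaternionGroup 2) * QuaternionGroup.a 1 = QuaternionGroup.a 2 := by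
    decide
  have h4 : (QuaternionGroup.a 2 : QuaternionGroup 2) ≠ 1 := by decide
  have h5 : (QuaternionGroup.a 2 : QuaternionGroup 2) * QuaternionGroup.a 2 = 1 := by decide
  refine ⟨?_, e.symm (QuaternionGroup.a 2), ?_, ?_, ?_, ?_, e.symm (QuaternionGroup.a 1), ?_⟩
  · rw [Nat.card_congr e.toEquiv, Nat.card_eq_fintype_card, QuaternionGroup.card]
  · intro h
    apply h4
    have := congrArg e h
    simpa using this
  · rw [← map_mul, h5, map_one]
  · intro x
    rcases h1 (e x) with h | h | h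
    · left; exact (MulEquiv.map_eq_one_iff e).1 h
    · right; left; rw [← h]; simp
    · right; right; rw [← h]; simp
  · intro x
    obtain ⟨y, hy⟩ := h2 (e x)
    refine ⟨e.symm y, ?_⟩
    apply e.injective
    simp [hy]
  · rw [← map_mul, h3]




theorem mem_center_iff_q8 (S : Sylow 2 G) {z : G} (hz1 : z ≠ 1)
    (hC : ∀ x ∈ (S : Subgroup G), x = 1 ∨ x = z ∨ x * x = z)
    (hcen : Nat.card (Subgroup.center G) = 2) (x : G) :
    x ∈ Subgroup.center G ↔ x = 1 ∨ x = z := by
  have : Fact (Nat.Prime 2) := ⟨Nat.prime_two⟩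
  have hp : IsPGroup 2 (Subgroup.center G) := IsPGroup.of_card (n := 1) (by rw [hcen, pow_one])
  have hle : Subgroup.center G ≤ S := hp.le_sylow_of_normal S
  obtain ⟨c, hc, huniq⟩ := (Nat.card_eq_two_iff' (1 : Subgroup.center G)).1 hcen
  have hcc : (c : G) * c = 1 := by
    have h := pow_card_eq_one' (x := c)
    rw [hcen, pow_two] at h
    exact congrArg Subtype.val h
  have hc1 : (c : G) ≠ 1 := fun h => hc (Subtype.ext h)
  have hcz : (c : G) = z := by
    rcases hC c (hle c.2) with h | h | h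
    · exact absurd h hc1
    · exact h
    · rw [hcc] at h; exact absurd h.symm hz1
  constructor
  · intro hx
    by_cases hx1 : x = 1
    · left; exact hx1
    · right
      have := huniq ⟨x, hx⟩ (fun h => hx1 (congrArg Subtype.val h))
      rw [← hcz, ← this]
  · rintro (rfl | rfl)
    · exact Subgroup.one_mem _
    · rw [← hcz]; exact c.2

theorem frattini_q8 (S : Sylow 2 G) (hS8 : Nat.card S = 8) {z : G} (hz1 : z ≠ 1)
    (hC : ∀ x ∈ (S : Subgroup G), x = 1 ∨ x = z ∨ x * x = z)
    (hcen : Nat.card (Subgroup.center G) = 2) (R : Subgroup G) (hR : R ≤ S)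
    (h : Subgroup.center G ⊔ R = S) : R = S := by
  by_cases hb : R = ⊥
  · rw [hb, sup_bot_eq] at h
    rw [h] at hcen
    omega
  · obtain ⟨⟨x, hx⟩, hx1'⟩ := Subgroup.ne_bot_iff_exists_ne_one.1 hb
    have hx1 : x ≠ 1 := fun h'' => hx1' (Subtype.ext h'')
    have hzR : z ∈ R := by
      rcases hC x (hR hx) with h' | h' | h'
      · exact absurd h' hx1
      · rw [← h']; exact hx
      · rw [← h']; exact R.mul_mem hx hx
    have hle : Subgroup.center G ≤ R := by
      intro y hy
      rcases (mem_center_iff_q8 S hz1 hC hcen y).1 hy with rfl | rfl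
      · exact R.one_mem
      · exact hzR
    rw [sup_eq_right.2 hle] at h
    exact h




theorem quot_sylow_q8 [Finite G] (S : Sylow 2 G) (hS8 : Nat.card S = 8) {z : G}
    (hzz : z * z = 1) (hC : ∀ x ∈ (S : Subgroup G), x = 1 ∨ x = z ∨ x * x = z)
    (hcen : Nat.card (Subgroup.center G) = 2) (hzc : z ∈ Subgroup.center G)
    (P : Sylow 2 (G ⧸ Subgroup.center G))
    (hP : (P : Subgroup (G ⧸ Subgroup.center G)) =
      (S : Subgroup G).map (QuotientGroup.mk' (Subgroup.center G))) :
    Nat.card P = 4 ∧ ∀ x : P, x * x = 1 := by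
  have : Fact (Nat.Prime 2) := ⟨Nat.prime_two⟩
  constructor
  · have h1 := P.card_eq_multiplicity
    have h2 := S.card_eq_multiplicity
    rw [hS8] at h2
    have h3 : (Nat.card G).factorization 2 = 3 :=
      (Nat.pow_right_injective (le_refl 2) (by show 2 ^ 3 = 2 ^ _; rw [← h2])).symm
    have h4 := Subgroup.card_eq_card_quotient_mul_card_subgroup (Subgroup.center G)
    rw [hcen] at h4
    rw [h4, Nat.factorization_mul Nat.card_pos.ne' (by norm_num)] at h3
    have h5 : (Nat.factorization 2) 2 = 1 := Nat.prime_two.factorization_self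
    simp only [Finsupp.coe_add, Pi.add_apply, h5] at h3
    have h6 : (Nat.card (G ⧸ Subgroup.center G)).factorization 2 = 2 := by omega
    rw [h1, h6]; norm_num
  · intro x
    have hx : (x : G ⧸ Subgroup.center G) ∈ (P : Subgroup (G ⧸ Subgroup.center G)) := x.2
    rw [hP] at hx
    obtain ⟨s, hs, hsx⟩ := hx
    apply Subtype.ext
    show (x : G ⧸ Subgroup.center G) * x = 1
    rw [← hsx, ← map_mul]
    show ((s * s : G) : G ⧸ Subgroup.center G) = 1
    rw [QuotientGroup.eq_one_iff]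
    rcases hC s hs with rfl | rfl | h
    · simp
    · rw [hzz]; exact Subgroup.one_mem _
    · rw [h]; exact hzc

theorem conj_order4 (S : Sylow 2 G) {z : G} (hz1 : z ≠ 1) (hzz : z * z = 1)
    (hD : ∀ x ∈ (S : Subgroup G), ∃ y ∈ (S : Subgroup G), y * x * y⁻¹ = x⁻¹)
    (hcen : ∀ x : G, x ∈ Subgroup.center G ↔ x = 1 ∨ x = z)
    (hone : ∀ s t : G ⧸ Subgroup.center G, orderOf s = 2 → orderOf t = 2 → IsConj s t)
    {s a : G} (hs : s * s = z) (ha : a * a = z) (haS : a ∈ (S : Subgroup G)) : IsConj s a := by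
  have hord : ∀ t : G, t * t = z → orderOf (t : G ⧸ Subgroup.center G) = 2 := by
    intro t ht
    apply orderOf_eq_prime
    · rw [pow_two, ← QuotientGroup.mk_mul, ht, QuotientGroup.eq_one_iff]
      exact (hcen z).2 (Or.inr rfl)
    · rw [Ne, QuotientGroup.eq_one_iff, hcen]
      rintro (rfl | rfl)
      · rw [mul_one] at ht; exact hz1 ht.symm
      · rw [hzz] at ht; exact hz1 ht.symm
  obtain ⟨c', hc'⟩ := isConj_iff.1 (hone _ _ (hord s hs) (hord a ha))
  obtain ⟨c, rfl⟩ := QuotientGroup.mk_surjective c'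
  have h1 : ((c * s * c⁻¹ : G) : G ⧸ Subgroup.center G) = (a : G ⧸ Subgroup.center G) := hc'
  have h2 := QuotientGroup.eq.1 h1.symm
  rw [hcen] at h2
  rcases h2 with h2 | h2
  · rw [isConj_iff]
    refine ⟨c, ?_⟩
    have := inv_mul_eq_one.1 h2
    exact this.symm
  · obtain ⟨y, -, hy⟩ := hD a haS
    have h3 : c * s * c⁻¹ = a⁻¹ := by
      have h4 : c * s * c⁻¹ = a * z := by rw [← h2]; group
      rw [h4]
      apply eq_inv_of_mul_eq_one_left
      have h7 : a * z * a = (a * a) * (a * a) := by rw [← ha]; group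
      rw [h7, ha, hzz]
    have h5 : IsConj s a⁻¹ := isConj_iff.2 ⟨c, h3⟩
    have h6 : IsConj a a⁻¹ := isConj_iff.2 ⟨y, hy⟩
    exact h5.trans h6.symm




theorem cyclic_sylow_centralizer_q8 [Finite G] (S : Sylow 2 G) (hS8 : Nat.card S = 8) {z : G}
    (hz1 : z ≠ 1) (hzz : z * z = 1)
    (hD : ∀ x ∈ (S : Subgroup G), ∃ y ∈ (S : Subgroup G), y * x * y⁻¹ = x⁻¹)
    {a : G} (haa : a * a = z) {C : Subgroup G} (hCdef : C = Subgroup.centralizer ({a} : Set G))
    (T : Sylow 2 C) : IsCyclic (T : Subgroup C) := by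
  have : Fact (Nat.Prime 2) := ⟨Nat.prime_two⟩
  have haC : a ∈ C := by
    rw [hCdef, Subgroup.mem_centralizer_singleton_iff]
  let a' : C := ⟨a, haC⟩
  have hord : orderOf a = 4 := by
    have := orderOf_eq_prime_pow (x := a) (p := 2) (n := 1)
      (by rw [pow_one, pow_two, haa]; exact hz1)
      (by
        have : a ^ 2 ^ (1 + 1) = (a * a) * (a * a) := by
          show a ^ 4 = _
          rw [show (4 : ℕ) = 2 + 2 from rfl, pow_add, pow_two]
        rw [this, haa, hzz])
    rw [this]; norm_num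
  have hord' : orderOf a' = 4 := by
    rw [← hord, ← Subgroup.orderOf_coe]
  have hnorm : (Subgroup.zpowers a').Normal := by
    constructor
    intro n hn g
    obtain ⟨k, rfl⟩ := hn
    have hg : (g : G) * a = a * g := Subgroup.mem_centralizer_singleton_iff.1 (hCdef ▸ g.2)
    have hcomm : Commute g a' := Subtype.ext hg
    have : g * a' ^ k * g⁻¹ = a' ^ k := by
      rw [(hcomm.zpow_right k).eq, mul_inv_cancel_right]
    show g * a' ^ k * g⁻¹ ∈ _
    rw [this]
    exact Subgroup.zpow_mem_zpowers a' k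
  have hpz : IsPGroup 2 (Subgroup.zpowers a') :=
    IsPGroup.of_card (n := 2) (by rw [Nat.card_zpowers, hord']; norm_num)
  have haT : a' ∈ (T : Subgroup C) := hpz.le_sylow_of_normal T (Subgroup.mem_zpowers a')
  -- the image of `T` in `G`
  set T' : Subgroup G := (T : Subgroup C).map C.subtype with hT'
  have hcT : Nat.card T' = Nat.card (T : Subgroup C) :=
    Subgroup.card_map_of_injective C.subtype_injective
  have hT'p : IsPGroup 2 T' := T.isPGroup'.map _
  obtain ⟨c, -, hc⟩ := Cfsg.Agent.Lib.Helper26.exists_conj_into_sylow S ⊤ T' 1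
    (fun _ _ => Subgroup.mem_top _) hT'p le_top
  simp only [mul_one] at hc
  set T'' : Subgroup G := T'.map (MulAut.conj c⁻¹).toMonoidHom with hT''
  have hT''S : T'' ≤ S := by
    rintro _ ⟨t, ht, rfl⟩
    have := hc t ht
    simpa using this
  have hcT'' : Nat.card T'' = Nat.card T' :=
    Subgroup.card_map_of_injective (MulAut.conj c⁻¹).injective
  have hdvd8 : Nat.card (T : Subgroup C) ∣ 8 := by
    rw [← hcT, ← hcT'', ← hS8]
    exact Subgroup.card_dvd_of_le hT''S
  have hdvd4 : 4 ∣ Nat.card (T : Subgroup C) := by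
    have h1 : orderOf (⟨a', haT⟩ : (T : Subgroup C)) = 4 := by
      rw [← hord', ← Subgroup.orderOf_coe]
    rw [← h1]
    exact orderOf_dvd_natCard _
  have hne8 : Nat.card (T : Subgroup C) ≠ 8 := by
    intro h8
    have hTS : T'' = S := by
      apply Subgroup.eq_of_le_of_card_ge hT''S
      rw [hcT'', hcT, h8, hS8]
    have haT' : a ∈ T' := ⟨a', haT, rfl⟩
    have hbS : c⁻¹ * a * c ∈ (S : Subgroup G) := hc a haT'
    obtain ⟨y, hy, hyb⟩ := hD _ hbS
    rw [← hTS] at hy
    obtain ⟨t, ⟨t', -, rfl⟩, rfl⟩ := hy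
    have ht : (t' : G) * a = a * t' := Subgroup.mem_centralizer_singleton_iff.1 (hCdef ▸ t'.2)
    have h1 : (MulAut.conj c⁻¹).toMonoidHom (C.subtype t') * (c⁻¹ * a * c) *
        ((MulAut.conj c⁻¹).toMonoidHom (C.subtype t'))⁻¹ = c⁻¹ * ((t' : G) * a * (t' : G)⁻¹) * c := by
      simp only [MulEquiv.coe_toMonoidHom, MulAut.conj_apply, Subgroup.coe_subtype, inv_inv]
      group
    rw [h1, ht, mul_inv_cancel_right] at hyb
    have h2 : (c⁻¹ * a * c) * (c⁻¹ * a * c) = 1 := by
      nth_rewrite 1 [hyb]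
      group
    have h3 : (c⁻¹ * a * c) * (c⁻¹ * a * c) = c⁻¹ * (a * a) * c := by group
    rw [h3, haa] at h2
    apply hz1
    have : z = c * (c⁻¹ * z * c) * c⁻¹ := by group
    rw [this, h2]; group
  have h4 : Nat.card (T : Subgroup C) = 4 := by
    have hle : Nat.card (T : Subgroup C) ≤ 8 := Nat.le_of_dvd (by norm_num) hdvd8
    obtain ⟨k, hk⟩ := hdvd4
    rw [hk] at hle hne8 hdvd8 ⊢
    have hk2 : k ≤ 2 := by omega
    have : k = 1 := by
      interval_cases k
      · simp at hdvd8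
      · rfl
      · exact absurd rfl hne8
    rw [this]
  apply isCyclic_of_orderOf_eq_card (⟨a', haT⟩ : (T : Subgroup C))
  rw [h4, ← hord', ← Subgroup.orderOf_coe]

theorem hasNPC_centralizer_q8 [Finite G] (S : Sylow 2 G) (hS8 : Nat.card S = 8) {z : G}
    (hz1 : z ≠ 1) (hzz : z * z = 1)
    (hD : ∀ x ∈ (S : Subgroup G), ∃ y ∈ (S : Subgroup G), y * x * y⁻¹ = x⁻¹)
    {a : G} (haa : a * a = z) :
    Cfsg.HasNormalPComplement 2 (Subgroup.centralizer ({a} : Set G)) := by
  have : Fact (Nat.Prime 2) := ⟨Nat.prime_two⟩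
  obtain ⟨T⟩ : Nonempty (Sylow 2 (Subgroup.centralizer ({a} : Set G))) := inferInstance
  exact Cfsg.Agent.Lib.Helper26.hasNormalPComplement_of_NC
    (Cfsg.Agent.Lib.Helper11.NC_of_cyclic_sylow T
      (cyclic_sylow_centralizer_q8 S hS8 hz1 hzz hD haa rfl T))


/-- Transport of the `p`-regular rank along an isomorphism. -/
theorem blockRank_image_irrCongr {K K' : Type*} [Group K] [Group K'] [Finite K] [Finite K']
    (p : ℕ) (e : K' ≃* K) (B : Set (IrrCharacter K)) :
    blockRank p (irrCongr e '' B) = blockRank p B := by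
  classical
  let L : (K → ℂ) ≃ₗ[ℂ] (K' → ℂ) := LinearEquiv.funCongrLeft ℂ ℂ e.toEquiv
  have hL : ∀ f : K → ℂ, L f = f ∘ e := fun f => rfl
  have h1 : (fun χ : IrrCharacter K' => pRegularPart p (χ : K' → ℂ)) '' (irrCongr e '' B) =
      L '' ((fun χ : IrrCharacter K => pRegularPart p (χ : K → ℂ)) '' B) := by
    rw [Set.image_image, Set.image_image]
    apply Set.image_congr
    intro χ _
    rw [hL, irrCongr_coe]
    funext x
    have ho : orderOf (e x) = orderOf x := MulEquiv.orderOf_eq e x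
    by_cases h : p ∣ orderOf x
    · simp [pRegularPart, IsPRegular, ho, h]
    · simp [pRegularPart, IsPRegular, ho, h]
  unfold blockRank
  rw [h1]
  have h2 := Submodule.map_span (L : (K → ℂ) →ₗ[ℂ] (K' → ℂ))
    ((fun χ : IrrCharacter K => pRegularPart p (χ : K → ℂ)) '' B)
  have h3 : (L : (K → ℂ) →ₗ[ℂ] (K' → ℂ)) '' ((fun χ : IrrCharacter K => pRegularPart p (χ : K → ℂ)) '' B)
      = L '' ((fun χ : IrrCharacter K => pRegularPart p (χ : K → ℂ)) '' B) := rfl
  rw [h3] at h2
  rw [← h2]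
  exact LinearEquiv.finrank_map_eq L _

theorem principalBlock_eq_image_irrCongr {K K' : Type*} [Group K] [Group K'] [Finite K] [Finite K']
    (M : Ideal AlgInt) (e : K' ≃* K) :
    principalBlock M K' = irrCongr e '' principalBlock M K := by
  ext ψ
  constructor
  · intro h
    refine ⟨(irrCongr e).symm ψ, ?_, by simp⟩
    have h1 : SameBlock M (fun _ : K' => (1 : ℂ)) (ψ : K' → ℂ) := h
    exact sameBlock_comp_equiv e.symm h1
  · rintro ⟨θ, hθ, rfl⟩
    have h1 : SameBlock M (fun _ : K => (1 : ℂ)) (θ : K → ℂ) := hθ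
    exact sameBlock_comp_equiv e h1

theorem blockRank_principal_congr {K K' : Type*} [Group K] [Group K'] [Finite K] [Finite K']
    (p : ℕ) (M : Ideal AlgInt) (e : K' ≃* K) :
    blockRank p (principalBlock M K') = blockRank p (principalBlock M K) := by
  rw [principalBlock_eq_image_irrCongr M e, blockRank_image_irrCongr]

theorem not_hasNPC_quot_q8 [Finite G] (S : Sylow 2 G) (hS8 : Nat.card S = 8) {z : G} (hz1 : z ≠ 1)
    (hC : ∀ x ∈ (S : Subgroup G), x = 1 ∨ x = z ∨ x * x = z)
    (hcen : Nat.card (Subgroup.center G) = 2)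
    (hO : ∀ N : Subgroup G, N.Normal → Odd (Nat.card N) → N = ⊥) (hG : (S : Subgroup G) ≠ ⊤) :
    ¬ HasNormalPComplement 2 (G ⧸ Subgroup.center G) := by
  have : Fact (Nat.Prime 2) := ⟨Nat.prime_two⟩
  intro h
  have hp : IsPGroup 2 (Subgroup.center G) := IsPGroup.of_card (n := 1) (by rw [hcen, pow_one])
  have hle : Subgroup.center G ≤ S := hp.le_sylow_of_normal S
  obtain ⟨P, N, hN, hc⟩ := Cfsg.Agent.Lib.Helper67.npc_of_quotient S (Subgroup.center G) hle
    (frattini_q8 S hS8 hz1 hC hcen) h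
  have h1 : Nat.card N = (P : Subgroup G).index := hc.index_eq_card.symm
  have h2 : Odd (Nat.card N) := by
    rw [h1, ← Nat.not_even_iff_odd, even_iff_two_dvd]
    exact P.not_dvd_index
  have h3 := hO N hN h2
  rw [h3, Subgroup.card_bot] at h1
  apply hG
  apply Subgroup.eq_top_of_card_eq
  rw [S.card_eq_multiplicity, ← P.card_eq_multiplicity, ← (P : Subgroup G).card_mul_index, ← h1,
    mul_one]


/-- Let S be a Sylow 2-subgroup of the finite group G isomorphic to the quaternion group of order 8. Suppose G has no nontrivial normal subgroup of odd order and G ≠ S. Then, relative to any maximal ideal M of the algebraic integers containing 2, the principal block of G consists of exactly 7 irreducible characters. -/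
theorem result {G : Type*} [Group G] [Finite G] (M : Ideal Cfsg.AlgInt) (hM : Cfsg.IsPModular 2 M) (S : Sylow 2 G) (e : (S : Subgroup G) ≃* QuaternionGroup 2) (hO : ∀ N : Subgroup G, N.Normal → Odd (Nat.card N) → N = ⊥) (hG : (S : Subgroup G) ≠ ⊤) : Nat.card (Cfsg.principalBlock M G) = 7 := by
  classical
  have : Fintype G := Fintype.ofFinite G
  have : Fact (Nat.Prime 2) := ⟨Nat.prime_two⟩
  have hfin : ∀ x : G, Finite (Cfsg.IrrCharacter (Subgroup.centralizer ({x} : Set G))) :=
    fun x => Cfsg.Agent.Lib.Helper20.finite_irrCharacter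
  have hfs : ∀ x : G, Fintype (Set (Cfsg.IrrCharacter (Subgroup.centralizer ({x} : Set G)))) :=
    fun x => Fintype.ofFinite _
  obtain ⟨hS8, z', hz1', hzz', hC', hD', a', haa'⟩ := q8_facts e
  set z : G := (z' : G) with hz
  set a : G := (a' : G) with ha
  have hz1 : z ≠ 1 := fun h => hz1' (Subtype.ext h)
  have hzz : z * z = 1 := congrArg Subtype.val hzz'
  have haa : a * a = z := congrArg Subtype.val haa'
  have haS : a ∈ (S : Subgroup G) := a'.2
  have hC : ∀ x ∈ (S : Subgroup G), x = 1 ∨ x = z ∨ x * x = z := by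
    intro x hx
    rcases hC' ⟨x, hx⟩ with h | h | h
    · left; exact congrArg Subtype.val h
    · right; left; exact congrArg Subtype.val h
    · right; right; exact congrArg Subtype.val h
  have hD : ∀ x ∈ (S : Subgroup G), ∃ y ∈ (S : Subgroup G), y * x * y⁻¹ = x⁻¹ := by
    intro x hx
    obtain ⟨y, hy⟩ := hD' ⟨x, hx⟩
    exact ⟨y, y.2, congrArg Subtype.val hy⟩
  have hcen : Nat.card (Subgroup.center G) = 2 := Cfsg.Agent.S0201.result S 0 e hO
  have hmc := mem_center_iff_q8 S hz1 hC hcen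
  have hzc : z ∈ Subgroup.center G := (hmc z).2 (Or.inr rfl)
  -- the quotient
  let P : Sylow 2 (G ⧸ Subgroup.center G) :=
    S.mapSurjective (QuotientGroup.mk'_surjective (Subgroup.center G))
  obtain ⟨hP4, hPexp⟩ := quot_sylow_q8 S hS8 hzz hC hcen hzc P rfl
  have hK : IsKleinFour P := Cfsg.Agent.Lib.Helper78.isKleinFour_of_card_of_exp hP4 hPexp
  obtain ⟨e1⟩ : Nonempty ((P : Subgroup (G ⧸ Subgroup.center G)) ≃*
      Multiplicative (ZMod (2 ^ 1) × ZMod (2 ^ 1))) := by
    have : IsKleinFour (Multiplicative (ZMod (2 ^ 1) × ZMod (2 ^ 1))) :=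
      (inferInstance : IsKleinFour (Multiplicative (ZMod 2 × ZMod 2)))
    exact IsKleinFour.nonempty_mulEquiv
  have hone : ∀ s t : G ⧸ Subgroup.center G, orderOf s = 2 → orderOf t = 2 → IsConj s t := by
    rcases Cfsg.Agent.S0946.result P 1 le_rfl e1 with ⟨N, hN, hc⟩ | hconj
    · exact absurd ⟨P, N, hN, hc⟩ (not_hasNPC_quot_q8 S hS8 hz1 hC hcen hO hG)
    · exact hconj
  have hl3 : blockRank 2 (principalBlock M (G ⧸ Subgroup.center G)) = 3 :=
    Cfsg.Agent.S4512.result M hM P hP4 hPexp hone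
  have hpc : IsPGroup 2 (Subgroup.center G) := IsPGroup.of_card (n := 1) (by rw [hcen, pow_one])
  have hlG : blockRank 2 (principalBlock M G) = 3 := by
    rw [Cfsg.Agent.S4571.result 2 M hM (Subgroup.center G) hpc ?_, hl3]
    rw [eq_top_iff]
    intro x _
    apply Subgroup.mem_sup_right
    rw [Subgroup.mem_centralizer_iff]
    intro y hy
    exact (Subgroup.mem_center_iff.1 hy x).symm
  have hCz : Subgroup.centralizer ({z} : Set G) = ⊤ := by
    rw [eq_top_iff]
    intro x _
    rw [Subgroup.mem_centralizer_singleton_iff]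
    exact (Subgroup.mem_center_iff.1 hzc x)
  have hlz : blockRank 2 (principalBlock M (Subgroup.centralizer ({z} : Set G))) = 3 := by
    rw [← hlG]
    exact blockRank_principal_congr 2 M
      ((MulEquiv.subgroupCongr hCz).trans Subgroup.topEquiv)
  have hla : blockRank 2 (principalBlock M (Subgroup.centralizer ({a} : Set G))) = 1 :=
    (Cfsg.Agent.Lib.Helper42.hasNormalPComplement_iff_blockRank 2 M hM).1
      (hasNPC_centralizer_q8 S hS8 hz1 hzz hD haa)
  -- orders
  have hoz : orderOf z = 2 := orderOf_eq_prime (by rw [pow_two]; exact hzz) hz1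
  have hoa : orderOf a = 4 := by
    have := orderOf_eq_prime_pow (x := a) (p := 2) (n := 1)
      (by rw [pow_one, pow_two, haa]; exact hz1)
      (by
        have : a ^ 2 ^ (1 + 1) = (a * a) * (a * a) := by
          show a ^ 4 = _
          rw [show (4 : ℕ) = 2 + 2 from rfl, pow_add, pow_two]
        rw [this, haa, hzz])
    rw [this]; norm_num
  have hza : z ≠ a := fun h => by rw [h, hoa] at hoz; omega
  have h1z : (1 : G) ≠ z := fun h => hz1 h.symm
  have h1a : (1 : G) ≠ a := fun h => by rw [← h, orderOf_one] at hoa; omega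
  set X : Finset G := insert (1 : G) (insert z ({a} : Finset G)) with hXdef
  have hmemX : ∀ x, x ∈ X ↔ x = 1 ∨ x = z ∨ x = a := by
    intro x
    rw [hXdef, Finset.mem_insert, Finset.mem_insert, Finset.mem_singleton]
  have hX : ∀ x ∈ X, ∃ k : ℕ, orderOf x = 2 ^ k := by
    intro x hx
    rcases (hmemX x).1 hx with rfl | rfl | rfl
    · exact ⟨0, by simp⟩
    · exact ⟨1, by rw [hoz, pow_one]⟩
    · exact ⟨2, by rw [hoa]; norm_num⟩
  have hordX : ∀ x ∈ X, ∀ y ∈ X, orderOf x = orderOf y → x = y := by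
    intro x hx y hy hxy
    rcases (hmemX x).1 hx with rfl | rfl | rfl <;> rcases (hmemX y).1 hy with rfl | rfl | rfl <;>
      first
        | rfl
        | (exfalso; simp only [orderOf_one, hoz, hoa] at hxy; omega)
  have hconjord : ∀ x y : G, IsConj x y → orderOf x = orderOf y := by
    intro x y hxy
    obtain ⟨c, rfl⟩ := isConj_iff.1 hxy
    exact ((MulAut.conj c).orderOf_eq x).symm
  have hXrep : ∀ g : G, (∃ k : ℕ, orderOf g = 2 ^ k) → ∃! x, x ∈ X ∧ IsConj g x := by
    rintro g ⟨k, hgk⟩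
    have hex : ∃ x, x ∈ X ∧ IsConj g x := by
      obtain ⟨c, hc⟩ := Cfsg.Agent.Lib.Helper26.exists_conj_mem_sylow S g k hgk
      have hgs : IsConj g (c * g * c⁻¹) := isConj_iff.2 ⟨c, rfl⟩
      rcases hC _ hc with h | h | h
      · exact ⟨1, (hmemX 1).2 (Or.inl rfl), h ▸ hgs⟩
      · exact ⟨z, (hmemX z).2 (Or.inr (Or.inl rfl)), h ▸ hgs⟩
      · exact ⟨a, (hmemX a).2 (Or.inr (Or.inr rfl)),
          hgs.trans (conj_order4 S hz1 hzz hD hmc hone h haa haS)⟩
    obtain ⟨x, hx, hgx⟩ := hex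
    refine ⟨x, ⟨hx, hgx⟩, ?_⟩
    rintro y ⟨hy, hgy⟩
    exact hordX y hy x hx ((hconjord g y hgy).symm.trans (hconjord g x hgx))
  have key := Cfsg.Agent.Lib.Helper81.card_block_eq hM (Cfsg.principalBlock M G)
    (Cfsg.Agent.Lib.Helper80.isPBlock_principal M) X hX hXrep
  have hne1 : (1 : G) ∉ (insert z ({a} : Finset G)) := by
    rw [Finset.mem_insert, Finset.mem_singleton]
    rintro (h | h)
    · exact h1z h
    · exact h1a h
  have hne2 : z ∉ ({a} : Finset G) := by
    rw [Finset.mem_singleton]; exact hza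
  rw [hXdef, Finset.sum_insert hne1, Finset.sum_insert hne2, Finset.sum_singleton,
    Cfsg.Agent.Lib.Helper78.sum_induced_one hM _ (Cfsg.Agent.Lib.Helper80.isPBlock_principal M),
    Cfsg.Agent.Lib.Helper78.sum_induced_principal hM z ⟨1, by rw [hoz, pow_one]⟩,
    Cfsg.Agent.Lib.Helper78.sum_induced_principal hM a ⟨2, by rw [hoa]; norm_num⟩,
    hlG, hlz, hla] at key
  have key' : (Nat.card (Cfsg.principalBlock M G) : ℂ) = ((7 : ℕ) : ℂ) := by
    rw [key]; norm_num
  exact_mod_cast key'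

end Cfsg.Agent.S0951
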