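import Cfsg.Statements.S0974
-- import your own Cfsg.Agent.* helpers here
import Cfsg.Agent.Lib.Helper76.BrauerPrime

set_option autoImplicit false
open Cfsg

namespace Cfsg.Agent.S0974

open Subgroup Cfsg.Agent.Lib.Helper76

instance fact19 : Fact (Nat.Prime 19) := ⟨by norm_num⟩

theorem arith_n : ∀ x, x ∣ 192 → x % 19 = 1 → 1 < x → x = 96 := by
  intro x h1 h2 h3
  have h4 : x ≤ 192 := Nat.le_of_dvd (by norm_num) h1
  interval_cases x <;> omega

theorem arith_x (x : ℕ) (a : ℤ) (ha : a = 1 ∨ a = -1) (h1 : x ∣ 192) (h2 : (x : ℤ) ≡ a [ZMOD (19 : ℕ)])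
    (h3 : 1 < x) : x = 96 ∧ a = 1 := by
  have h4 : x ≤ 192 := Nat.le_of_dvd (by norm_num) h1
  unfold Int.ModEq at h2
  rcases ha with rfl | rfl <;> interval_cases x <;> omega

/-- No finite simple group has order 3648 = 2^6 * 3 * 19. -/
theorem result {G : Type*} [Group G] [Finite G] [IsSimpleGroup G] : Nat.card G ≠ 3648 := by
  intro hG
  obtain ⟨P⟩ : Nonempty (Sylow 19 G) := inferInstance
  obtain ⟨hP, hN⟩ := sylow_data_of_simple P 192 96 (by rw [hG]) (by norm_num) (by norm_num) arith_n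
  have hN' : Nat.card (normalizer ((P : Subgroup G) : Set G)) = 19 * 2 := by omega
  obtain ⟨x, z, a, δ, ha, hδ, hx1, hx, hz, hxa, heq⟩ := simple_brauer_two P hP hN' (by norm_num)
  rw [hG] at hx hz
  have hx' : x ∣ 192 := dvd_of_modEq_pm (p := 19) (by norm_num) a ha (by simpa using hx) hxa
  obtain ⟨rfl, rfl⟩ := arith_x x a ha hx' hxa hx1
  have hz97 : z = 97 := by rcases hδ with rfl | rfl <;> omega
  rw [hz97] at hz
  norm_num at hz

end Cfsg.Agent.S0974
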