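import Cfsg.Statements.S1010
import Cfsg.Agent.Lib.Helper54.Syl21

set_option autoImplicit false
open Cfsg

namespace Cfsg.Agent.S1010

open Subgroup MulAction Cfsg.Agent.Lib.Helper54.Syl21

section Three
variable {S : Type*} [Group S] [Finite S] [IsSimpleGroup S] (h21 : Nat.card (Sylow 5 S) = 21)
include h21

theorem mem_centralizer_of_three (P : Sylow 5 S) (x : S) (hx : orderOf x = 3) (hxP : x • P = P) :
    x ∈ centralizer ((P : Subgroup S) : Set S) := by
  have hN : x ∈ normalizer ((P : Subgroup S) : Set S) := Sylow.smul_eq_iff_mem_normalizer.1 hxP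
  have hcyc : IsCyclic (P : Subgroup S) := isCyclic_of_prime_card (card5 h21 P)
  set φ := (P : Subgroup S).normalizerMonoidHom
  have h1 : orderOf (φ ⟨x, hN⟩) ∣ 3 := by
    have := orderOf_map_dvd φ (⟨x, hN⟩ : normalizer ((P : Subgroup S) : Set S))
    rwa [Subgroup.orderOf_mk, hx] at this
  have h2 : orderOf (φ ⟨x, hN⟩) ∣ 4 := by
    have := orderOf_dvd_natCard (φ ⟨x, hN⟩)
    rwa [hcyc.card_mulAut, card5 h21 P, Nat.totient_prime (by norm_num)] at this
  have h3 : orderOf (φ ⟨x, hN⟩) = 1 := by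
    have := Nat.dvd_gcd h1 h2
    simpa using this
  rw [orderOf_eq_one_iff] at h3
  have h4 : (⟨x, hN⟩ : normalizer ((P : Subgroup S) : Set S)) ∈ φ.ker := h3
  rw [normalizerMonoidHom_ker, mem_subgroupOf] at h4
  exact h4

theorem fx_three (P : Sylow 5 S) (x : S) (hx : orderOf x = 3) (hxP : x • P = P) : fx x = 6 := by
  obtain ⟨y, hyP, hy⟩ := exists_gen h21 P
  have hc := commute_of_mem_centralizer P x y (mem_centralizer_of_three h21 P x hx hxP) hyP
  rcases prime_case h21 x y hy hc 3 (by norm_num) hx with h | h | h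
  · omega
  · exact h.2
  · omega

theorem exists_three (hC : ∀ P : Sylow 5 S, 30 ≤ Nat.card (centralizer ((P : Subgroup S) : Set S)))
    (P Q : Sylow 5 S) (hPQ : P ≠ Q) : ∃ x : S, orderOf x = 3 ∧ x • P = P ∧ x • Q = Q := by
  obtain ⟨g, hgC, hg1, hgQ⟩ := exists_stab h21 (centralizer ((P : Subgroup S) : Set S)) P Q
    (fun h hh => smul_of_mem_centralizer P h hh) hPQ (by have := hC P; omega)
  obtain ⟨y, hyP, hy⟩ := exists_gen h21 P
  have hgP := smul_of_mem_centralizer P g hgC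
  have hc := commute_of_mem_centralizer P g y hgC hyP
  have ho1 : orderOf g ≠ 1 := by rwa [Ne, orderOf_eq_one_iff]
  obtain ⟨r, hr, hrd⟩ := Nat.exists_prime_and_dvd ho1
  have ho : orderOf (g ^ (orderOf g / r)) = r := orderOf_pow_orderOf_div (orderOf_pos g).ne' hrd
  have hP' : g ^ (orderOf g / r) • P = P := fixedBy_subset_pow g _ hgP
  have hQ' : g ^ (orderOf g / r) • Q = Q := fixedBy_subset_pow g _ hgQ
  have h2 := two_le_fx _ P Q hPQ hP' hQ'
  rcases prime_case h21 _ y hy (hc.pow_left _) r hr ho with h | h | h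
  · omega
  · exact ⟨_, ho.trans h.1, hP', hQ'⟩
  · omega

theorem fixedBy_eq_of_three (P Q : Sylow 5 S) (hPQ : P ≠ Q) (x x' : S) (hx : orderOf x = 3)
    (hx' : orderOf x' = 3) (hxP : x • P = P) (hxQ : x • Q = Q) (hxP' : x' • P = P)
    (hxQ' : x' • Q = Q) : fixedBy (Sylow 5 S) x = fixedBy (Sylow 5 S) x' := by
  obtain ⟨y, hyP, hy⟩ := exists_gen h21 P
  have hc := commute_of_mem_centralizer P x y (mem_centralizer_of_three h21 P x hx hxP) hyP
  have hc' := commute_of_mem_centralizer P x' y (mem_centralizer_of_three h21 P x' hx' hxP') hyP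
  have h6 : (fixedBy (Sylow 5 S) x).ncard = 6 := fx_three h21 P x hx hxP
  have h6' : (fixedBy (Sylow 5 S) x').ncard = 6 := fx_three h21 P x' hx' hxP'
  have h1 := card_modEq_one h21 y hy (fixedBy (Sylow 5 S) x ∩ fixedBy (Sylow 5 S) x') (by
    rintro R ⟨hR, hR'⟩
    have hR1 : x • R = R := hR
    have hR2 : x' • R = R := hR'
    constructor
    · change x • (y • R) = y • R
      rw [← mul_smul, hc.eq, mul_smul, hR1]
    · change x' • (y • R) = y • R
      rw [← mul_smul, hc'.eq, mul_smul, hR2]) P (smul_self_of_mem P y hyP) ⟨hxP, hxP'⟩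
  have h1' : (fixedBy (Sylow 5 S) x ∩ fixedBy (Sylow 5 S) x').ncard % 5 = 1 := h1
  have h2 : 2 ≤ (fixedBy (Sylow 5 S) x ∩ fixedBy (Sylow 5 S) x').ncard := by
    have h3 : ({P, Q} : Set (Sylow 5 S)) ⊆ fixedBy (Sylow 5 S) x ∩ fixedBy (Sylow 5 S) x' := by
      rintro R (rfl | rfl)
      · exact ⟨hxP, hxP'⟩
      · exact ⟨hxQ, hxQ'⟩
    have h4 := Set.ncard_le_ncard h3 (Set.toFinite _)
    rwa [Set.ncard_pair hPQ] at h4
  have h3 := Set.ncard_le_ncard (Set.inter_subset_left (s := fixedBy (Sylow 5 S) x)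
    (t := fixedBy (Sylow 5 S) x')) (Set.toFinite _)
  have e1 := Set.eq_of_subset_of_ncard_le (Set.inter_subset_left (s := fixedBy (Sylow 5 S) x)
    (t := fixedBy (Sylow 5 S) x')) (by omega) (Set.toFinite _)
  have e2 := Set.eq_of_subset_of_ncard_le (Set.inter_subset_right (s := fixedBy (Sylow 5 S) x)
    (t := fixedBy (Sylow 5 S) x')) (by omega) (Set.toFinite _)
  rw [← e1, e2]

theorem case_three (hC : ∀ P : Sylow 5 S, 30 ≤ Nat.card (centralizer ((P : Subgroup S) : Set S))) :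
    False := by
  classical
  have hex : ∀ P Q : Sylow 5 S, ∃ x : S, P ≠ Q → orderOf x = 3 ∧ x • P = P ∧ x • Q = Q := by
    intro P Q
    by_cases hPQ : P = Q
    · exact ⟨1, fun h => (h hPQ).elim⟩
    · obtain ⟨x, hx⟩ := exists_three h21 hC P Q hPQ
      exact ⟨x, fun _ => hx⟩
  choose X hX using hex
  refine design_false h21 (fun P Q => fixedBy (Sylow 5 S) (X P Q)) ?_ ?_ ?_
  · intro P Q hPQ
    obtain ⟨h1, h2, _⟩ := hX P Q hPQ
    exact fx_three h21 P _ h1 h2
  · intro P Q hPQ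
    obtain ⟨_, h2, h3⟩ := hX P Q hPQ
    exact ⟨h2, h3⟩
  · intro P Q R R' hPQ hRR' hR hR'
    obtain ⟨h1, _, _⟩ := hX P Q hPQ
    obtain ⟨h1', h2', h3'⟩ := hX R R' hRR'
    exact fixedBy_eq_of_three h21 R R' hRR' _ _ h1' h1 h2' h3' hR hR'

end Three

theorem arith_stab (o s : ℕ) (h : o * s = 80) (ho : o ≤ 20) : 2 ∣ s ∨ s = 5 := by
  interval_cases o <;> omega

theorem arith_fw (f : ℕ) (h1 : f % 4 = 1) (h2 : 2 ≤ f) (h3 : f ≤ 20) (h4 : f ∣ 1680) : f = 5 := by
  interval_cases f <;> omega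

section Twenty
variable {S : Type*} [Group S] [Finite S] [IsSimpleGroup S] (h21 : Nat.card (Sylow 5 S) = 21)
  (hC : ∀ P : Sylow 5 S, Nat.card (centralizer ((P : Subgroup S) : Set S)) = 20 ∧
      Nat.card (normalizer ((P : Subgroup S) : Set S)) = 80)
include h21 hC

theorem fx_eq_one (P : Sylow 5 S) (g : S) (hg : g ∈ centralizer ((P : Subgroup S) : Set S))
    (hg1 : g ≠ 1) : fx g = 1 := by
  obtain ⟨y, hyP, hy⟩ := exists_gen h21 P
  have hc := commute_of_mem_centralizer P g y hg hyP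
  have ho1 : orderOf g ≠ 1 := by rwa [Ne, orderOf_eq_one_iff]
  obtain ⟨r, hr, hrd⟩ := Nat.exists_prime_and_dvd ho1
  have h20 : r ∣ 20 := by
    rw [← (hC P).1]
    exact hrd.trans (Subgroup.orderOf_dvd_natCard _ hg)
  rcases fx_of_prime_dvd h21 g y hy hc r hr hrd with h | h | h
  · exact h.2
  · exfalso
    rw [h.1] at h20
    omega
  · exact h.2

theorem eq_one_of_fix (P Q : Sylow 5 S) (hPQ : P ≠ Q) (g : S)
    (hg : g ∈ centralizer ((P : Subgroup S) : Set S)) (hgQ : g • Q = Q) : g = 1 := by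
  by_contra hg1
  have h1 := fx_eq_one h21 hC P g hg hg1
  have h2 := two_le_fx g P Q hPQ (smul_of_mem_centralizer P g hg) hgQ
  omega

theorem exists_centralizer_smul (P Q Q' : Sylow 5 S) (hPQ : P ≠ Q) (hPQ' : P ≠ Q') :
    ∃ c ∈ centralizer ((P : Subgroup S) : Set S), c • Q = Q' :=
  exists_smul_eq_of_regular h21 _ P Q (fun h hh => smul_of_mem_centralizer P h hh) hPQ
    (fun g hg hgQ => eq_one_of_fix h21 hC P Q hPQ g hg hgQ) (hC P).1 Q' hPQ'

theorem exists_involution : ∃ (w : S) (P Q : Sylow 5 S), P ≠ Q ∧ orderOf w = 2 ∧ w • P = P ∧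
    w • Q = Q := by
  have : Fact (Nat.Prime 2) := ⟨by norm_num⟩
  have hnt : Nontrivial (Sylow 5 S) := by
    rw [← Finite.one_lt_card_iff_nontrivial]; omega
  obtain ⟨P, Q, hPQ⟩ := exists_pair_ne (Sylow 5 S)
  set N := normalizer ((P : Subgroup S) : Set S) with hN
  have hNP : ∀ h ∈ N, h • P = P := fun h hh => Sylow.smul_eq_iff_mem_normalizer.2 hh
  have hidx := index_stabilizer N Q
  obtain ⟨h1, h2⟩ := ncard_orbit_le h21 N P Q hNP hPQ
  have h3 := Set.ncard_le_ncard h1 (Set.toFinite _)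
  have h4 := (stabilizer N Q).index_mul_card
  rw [(hC P).2] at h4
  rcases arith_stab _ _ h4 (by omega) with h5 | h5
  · obtain ⟨w, hw⟩ := exists_prime_orderOf_dvd_card' 2 h5
    refine ⟨((w : N) : S), P, Q, hPQ, ?_, hNP _ (w : N).2, w.2⟩
    rw [Subgroup.orderOf_coe, Subgroup.orderOf_coe, hw]
  · exfalso
    obtain ⟨w, hw⟩ := exists_prime_orderOf_dvd_card' (G := stabilizer N Q) 5 (by rw [h5])
    have hw' : orderOf ((w : N) : S) = 5 := by
      rw [Subgroup.orderOf_coe, Subgroup.orderOf_coe, hw]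
    exact hPQ (unique_fixed h21 _ hw' P Q (hNP _ (w : N).2) w.2)

theorem exists_commute_smul (w : S) (P Q Q' : Sylow 5 S) (hPQ : P ≠ Q) (hPQ' : P ≠ Q')
    (hwP : w • P = P) (hwQ : w • Q = Q) (hwQ' : w • Q' = Q') :
    ∃ c : S, Commute c w ∧ c • Q = Q' := by
  obtain ⟨c, hc, hcQ⟩ := exists_centralizer_smul h21 hC P Q Q' hPQ hPQ'
  refine ⟨c, ?_, hcQ⟩
  have hwN : w ∈ normalizer ((P : Subgroup S) : Set S) := Sylow.smul_eq_iff_mem_normalizer.1 hwP
  have hc' : w * c * w⁻¹ ∈ centralizer ((P : Subgroup S) : Set S) := by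
    rw [mem_centralizer_iff]
    intro u hu
    have hu' : w⁻¹ * u * w ∈ (P : Subgroup S) := by
      have := (mem_normalizer_iff.1 (inv_mem hwN) u).1 hu
      simpa using this
    have h1 := (mem_centralizer_iff.1 hc) _ hu'
    calc u * (w * c * w⁻¹) = w * ((w⁻¹ * u * w) * c) * w⁻¹ := by group
      _ = w * (c * (w⁻¹ * u * w)) * w⁻¹ := by rw [h1]
      _ = w * c * w⁻¹ * u := by group
  have hw' : w⁻¹ • Q = Q := by rw [inv_smul_eq_iff, hwQ]
  have h2 : (c⁻¹ * (w * c * w⁻¹)) • Q = Q := by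
    rw [mul_smul, mul_smul, mul_smul, hw', hcQ, hwQ', inv_smul_eq_iff, hcQ]
  have h3 := eq_one_of_fix h21 hC P Q hPQ _ (mul_mem (inv_mem hc) hc') h2
  have h4 : w * c * w⁻¹ = c := by
    have := congrArg (fun t => c * t) h3
    simpa [mul_assoc] using this
  change c * w = w * c
  calc c * w = (w * c * w⁻¹) * w := by rw [h4]
    _ = w * c := by group

theorem case_twenty : False := by
  obtain ⟨w, P, Q, hPQ, hw, hwP, hwQ⟩ := exists_involution h21 hC
  have hw1 : w ≠ 1 := by
    rintro rfl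
    rw [orderOf_one] at hw
    omega
  have h1 := fx_two h21 w hw
  have h2 := two_le_fx w P Q hPQ hwP hwQ
  have h3 := fx_le_twenty h21 w hw1
  -- the centralizer of w is transitive on its fixed points
  have htrans : orbit (centralizer ({w} : Set S)) P = fixedBy (Sylow 5 S) w := by
    apply Set.Subset.antisymm
    · rintro _ ⟨c, rfl⟩
      have hc : (c : S) * w = w * c := (mem_centralizer_singleton_iff.1 c.2)
      change w • ((c : S) • P) = (c : S) • P
      rw [← mul_smul, ← hc, mul_smul, hwP]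
    · intro R hR
      have hwR : w • R = R := hR
      by_cases hRP : R = P
      · rw [hRP]; exact mem_orbit_self _
      -- a third fixed point
      have hex : ∃ P' : Sylow 5 S, w • P' = P' ∧ P' ≠ P ∧ P' ≠ R := by
        by_contra hcon
        push Not at hcon
        have hsub : fixedBy (Sylow 5 S) w ⊆ {P, R} := by
          intro P' hP'
          by_cases h : P' = P
          · left; exact h
          · right; exact hcon P' hP' h
        have h4 := Set.ncard_le_ncard hsub (Set.toFinite _)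
        have h5 := Set.ncard_pair (Ne.symm hRP)
        have h6 : fx w = (fixedBy (Sylow 5 S) w).ncard := rfl
        omega
      obtain ⟨P', hwP', hP'P, hP'R⟩ := hex
      obtain ⟨c, hc, hcP⟩ := exists_commute_smul h21 hC w P' P R hP'P hP'R hwP' hwP hwR
      exact ⟨⟨c, mem_centralizer_singleton_iff.2 hc.eq⟩, hcP⟩
  have hdvd : fx w ∣ Nat.card (centralizer ({w} : Set S)) := by
    have h4 := index_stabilizer (centralizer ({w} : Set S)) P
    rw [htrans] at h4
    have h5 : fx w = (fixedBy (Sylow 5 S) w).ncard := rfl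
    rw [h5, ← h4]
    exact index_dvd_card _
  have hS : Nat.card S = 1680 := by
    rw [← card_normalizer h21 P, (hC P).2]
  have h5 : fx w = 5 := arith_fw _ h1 h2 h3 (by
    rw [← hS]; exact hdvd.trans (card_subgroup_dvd_card _))
  rw [h5] at hdvd
  obtain ⟨z, hz⟩ := exists_prime_orderOf_dvd_card' 5 hdvd
  have hz' : orderOf (z : S) = 5 := by rw [Subgroup.orderOf_coe, hz]
  have hc : Commute w (z : S) := (mem_centralizer_singleton_iff.1 z.2).symm
  have h6 := fx_modEq_five h21 w z hz' hc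
  rw [h5] at h6
  exact absurd h6 (by decide)

end Twenty

theorem simple_false {S : Type*} [Group S] [Finite S] [IsSimpleGroup S]
    (h21 : Nat.card (Sylow 5 S) = 21) : False := by
  rcases dichotomy h21 with h | h
  · exact case_twenty h21 h
  · exact case_three h21 h

theorem arith21 (m : ℕ) (h1 : m ∣ 21) (h2 : m ≡ 1 [MOD 5]) (h3 : m ≠ 1) : m = 21 := by
  have h4 : m ≤ 21 := Nat.le_of_dvd (by norm_num) h1
  unfold Nat.ModEq at h2
  interval_cases m <;> omega

theorem not_isPrimePow_twentyone : ¬ IsPrimePow 21 := by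
  rintro ⟨p, k, hp, _, h⟩
  have hp' : p.Prime := hp.nat_prime
  have h3 : 3 ∣ p ^ k := by rw [h]; norm_num
  have h5 : 7 ∣ p ^ k := by rw [h]; norm_num
  have e3 := (Nat.prime_dvd_prime_iff_eq (by norm_num) hp').1 ((Nat.Prime.dvd_of_dvd_pow (by norm_num)) h3)
  have e5 := (Nat.prime_dvd_prime_iff_eq (by norm_num) hp').1 ((Nat.Prime.dvd_of_dvd_pow (by norm_num)) h5)
  omega

/-- No finite group has exactly twenty-one Sylow 5-subgroups. -/
theorem result {G : Type*} [Group G] [Finite G] : Nat.card (Sylow 5 G) ≠ 21 := by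
  intro h
  obtain ⟨l, hl, hm⟩ := Cfsg.Agent.S4303.result (G := G) 5
  rw [h] at hl
  have hex : ∃ m ∈ l, m ≠ 1 := by
    by_contra hcon
    push Not at hcon
    rw [List.prod_eq_one hcon] at hl
    omega
  obtain ⟨m, hml, hm1⟩ := hex
  have hdvd : m ∣ 21 := hl ▸ List.dvd_prod hml
  rcases hm m hml with ⟨hpp, hmod⟩ | ⟨S, _, _, hS, hmS⟩
  · have h21 : m = 21 := arith21 m hdvd hmod hm1
    subst h21
    exact not_isPrimePow_twentyone hpp
  · have hmod : m ≡ 1 [MOD 5] := by rw [hmS]; exact card_sylow_modEq_one 5 S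
    have h21 : m = 21 := arith21 m hdvd hmod hm1
    exact simple_false (h21 ▸ hmS).symm

end Cfsg.Agent.S1010
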