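import Cfsg.Statements.S1022
-- import your own Cfsg.Agent.* helpers here
import Cfsg.Agent.S4441
import Cfsg.Agent.Lib.Helper76.BrauerPrime
import Cfsg.Agent.Lib.Helper75.FixCount2
import Cfsg.Agent.Lib.Helper80.SylTrick
import Cfsg.Agent.Lib.Helper80.SylLocal
import Cfsg.Agent.Lib.Helper80.InvolVal

set_option autoImplicit false
open Cfsg

namespace Cfsg.Agent.S1022

open Subgroup Cfsg.Agent.Lib Cfsg.Agent.Lib.Helper80
open scoped ComplexConjugate

instance fact19 : Fact (Nat.Prime 19) := ⟨by norm_num⟩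

theorem arith_n (n : ℕ) (h1 : n ∣ 24192) (h2 : n % 19 = 1) (h3 : 1 < n) : n = 96 ∨ n = 1008 := by
  have key : ∀ n ∈ Nat.divisors 24192, n % 19 = 1 → 1 < n → n = 96 ∨ n = 1008 := by decide +kernel
  exact key n (Nat.mem_divisors.2 ⟨h1, by norm_num⟩) h2 h3

theorem deg_list (d : ℕ) (a : ℤ) (ha : a = 1 ∨ a = -1) (h1 : d ∣ 459648)
    (h2 : (d : ℤ) ≡ a [ZMOD (19 : ℕ)]) (h3 : 1 < d) (h4 : d ^ 2 ≤ 459648) :
    (d = 18 ∧ a = -1) ∨ (d = 56 ∧ a = -1) ∨ (d = 96 ∧ a = 1) ∨ (d = 189 ∧ a = -1) := by
  have h5 : d ≤ 677 := by nlinarith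
  unfold Int.ModEq at h2
  rcases ha with rfl | rfl <;> interval_cases d <;> omega

theorem val_sq (d : ℕ) (a c : ℤ) (k : ℕ)
    (hda : (d = 18 ∧ a = -1) ∨ (d = 56 ∧ a = -1) ∨ (d = 96 ∧ a = 1) ∨ (d = 189 ∧ a = -1))
    (hk : 2 * k ≤ d) (hc : c = d - 4 * k) (hk0 : k ≠ 0) (hmod : c ≡ a [ZMOD (19 : ℕ)]) :
    400 ≤ c ^ 2 := by
  unfold Int.ModEq at hmod
  have h : c ≤ -20 ∨ 20 ≤ c := by
    rcases hda with ⟨rfl, rfl⟩ | ⟨rfl, rfl⟩ | ⟨rfl, rfl⟩ | ⟨rfl, rfl⟩ <;> omega
  rcases h with h | h <;> nlinarith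

theorem arith_H (m n h : ℕ) (h19 : 19 ∣ m) (h8 : 8 ∣ m) (hm : m ∣ 456) (hh : h = n * m)
    (hd : h ∣ 459648) (hn : n % 19 = 1) : h ≤ 456 ∨ 459648 ≤ 3 * h := by
  have key : ∀ n ∈ Nat.divisors 3024, n % 19 = 1 → n = 1 ∨ n = 1008 := by decide +kernel
  have hm' : m = 152 ∨ m = 456 := by
    have := Nat.le_of_dvd (by norm_num) hm
    interval_cases m <;> omega
  have hn' : n ∣ 3024 := by
    rcases hm' with rfl | rfl
    · rw [hh] at hd
      exact Nat.dvd_of_mul_dvd_mul_right (k := 152) (by norm_num) (by simpa using hd)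
    · rw [hh] at hd
      have : n ∣ 1008 :=
        Nat.dvd_of_mul_dvd_mul_right (k := 456) (by norm_num) (by simpa using hd)
      exact this.trans (by norm_num)
  rcases key n (Nat.mem_divisors.2 ⟨hn', by norm_num⟩) hn with rfl | rfl
  · left; rcases hm' with rfl | rfl <;> omega
  · right; rcases hm' with rfl | rfl <;> omega

section chars
variable {G : Type*} [Group G] [Finite G]

theorem key_val [IsSimpleGroup G] (hG : Nat.card G = 459648)
    (hnc : ¬ ∀ a b : G, a * b = b * a) (χ : IrrCharacter G) (hχ1 : (χ : G → ℂ) ≠ fun _ => 1)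
    (a : ℤ) (ha : a = 1 ∨ a = -1)
    (hdeg : (charDegree (χ : G → ℂ) : ℤ) ≡ a [ZMOD (19 : ℕ)]) (t x : G) (ht : orderOf t = 2)
    (hx : x ^ 19 = 1) (hc : Commute x t) (hval : (χ : G → ℂ) (x * t) = a) :
    ((charDegree (χ : G → ℂ) = 18 ∧ a = -1) ∨ (charDegree (χ : G → ℂ) = 56 ∧ a = -1) ∨
      (charDegree (χ : G → ℂ) = 96 ∧ a = 1) ∨ (charDegree (χ : G → ℂ) = 189 ∧ a = -1)) ∧
    ∃ c : ℤ, (χ : G → ℂ) t = c ∧ 400 ≤ c ^ 2 := by
  classical
  have := Fintype.ofFinite (IrrCharacter G)
  have hch := Helper82.isIrr_isChar χ.2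
  have h1 : charDegree (χ : G → ℂ) ∣ 459648 := hG ▸ Helper82.isIrr_charDegree_dvd_card χ.2
  have h3 := Helper76.one_lt_charDegree_of_simple hnc χ.2 hχ1
  have h4 : charDegree (χ : G → ℂ) ^ 2 ≤ 459648 := by
    rw [← hG, ← Helper82.sum_sq_charDegree (G := G)]
    exact Finset.single_le_sum (f := fun χ : IrrCharacter G => charDegree (χ : G → ℂ) ^ 2)
      (fun _ _ => Nat.zero_le _) (Finset.mem_univ χ)
  have hl := deg_list _ a ha h1 hdeg h3 h4
  refine ⟨hl, ?_⟩
  have ht2 : t ^ 2 = 1 := by rw [← ht]; exact pow_orderOf_eq_one t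
  obtain ⟨k, hk, hkv⟩ := invol_value (Helper76.commutator_eq_top_of_simple hnc) hch t ht2
  have hk0 : k ≠ 0 := by
    rintro rfl
    have h5 : (χ : G → ℂ) t = (χ : G → ℂ) 1 := by
      rw [hkv, Helper82.isChar_one_eq hch]; simp
    have h6 : t ∈ Helper82.charKer (χ : G → ℂ) hch := h5
    rcases IsSimpleGroup.eq_bot_or_eq_top_of_normal (Helper82.charKer (χ : G → ℂ) hch)
      inferInstance with h | h
    · rw [h, mem_bot] at h6
      rw [h6, orderOf_one] at ht
      omega
    · apply hχ1
      apply Helper82.isIrr_eq_one_of_const χ.2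
      intro g
      have : g ∈ Helper82.charKer (χ : G → ℂ) hch := by rw [h]; trivial
      exact this
  have hcv : (χ : G → ℂ) t = (((charDegree (χ : G → ℂ) : ℤ) - 4 * k : ℤ) : ℂ) := by
    rw [hkv]; push_cast; ring
  refine ⟨_, hcv, ?_⟩
  have hmod := invol_value_modEq (p := 19) (by norm_num) (by norm_num) hch t x ht hc (j := 1)
    (by simpa using hx) a _ hval hcv
  exact val_sq _ a _ k hl hk rfl hk0 hmod

theorem card_centralizer_ge (t : G) (X' : Finset (IrrCharacter G))
    (h : ∀ χ ∈ X', ∃ c : ℤ, (χ : G → ℂ) t = c ∧ 400 ≤ c ^ 2) :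
    400 * X'.card ≤ Nat.card (centralizer ({t} : Set G)) := by
  classical
  have := Fintype.ofFinite (IrrCharacter G)
  have h1 := Helper82.finsum_irr_mul_conj_self t
  rw [finsum_eq_sum_of_fintype] at h1
  have h2 : ∀ χ : IrrCharacter G, (χ : G → ℂ) t * conj ((χ : G → ℂ) t)
      = ((Complex.normSq ((χ : G → ℂ) t) : ℝ) : ℂ) := fun χ => Complex.mul_conj _
  rw [Finset.sum_congr rfl (fun χ _ => h2 χ), ← Complex.ofReal_sum] at h1
  have h3 : ∑ χ : IrrCharacter G, Complex.normSq ((χ : G → ℂ) t)
      = (Nat.card (centralizer ({t} : Set G)) : ℝ) := by exact_mod_cast h1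
  have h4 : ∑ χ ∈ X', Complex.normSq ((χ : G → ℂ) t)
      ≤ ∑ χ : IrrCharacter G, Complex.normSq ((χ : G → ℂ) t) :=
    Finset.sum_le_sum_of_subset_of_nonneg (Finset.subset_univ _)
      (fun _ _ _ => Complex.normSq_nonneg _)
  have h5 : ∑ χ ∈ X', (400 : ℝ) ≤ ∑ χ ∈ X', Complex.normSq ((χ : G → ℂ) t) := by
    apply Finset.sum_le_sum
    intro χ hχ
    obtain ⟨c, hc, hc2⟩ := h χ hχ
    rw [hc]
    have : Complex.normSq ((c : ℤ) : ℂ) = ((c ^ 2 : ℤ) : ℝ) := by
      have h6 : ((c : ℤ) : ℂ) = ((c : ℝ) : ℂ) := by push_cast; rfl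
      rw [h6, Complex.normSq_ofReal]; push_cast; ring
    rw [this]
    exact_mod_cast hc2
  rw [Finset.sum_const, nsmul_eq_mul] at h5
  have h6 : (400 * X'.card : ℝ) ≤ (Nat.card (centralizer ({t} : Set G)) : ℝ) := by
    rw [← h3]; linarith
  exact_mod_cast h6

end chars

theorem normalizer_le_normalizer_centralizer {G : Type*} [Group G] (P : Subgroup G) :
    normalizer (P : Set G) ≤ normalizer ((centralizer (P : Set G) : Subgroup G) : Set G) := by
  intro n hn
  have key : ∀ m ∈ normalizer (P : Set G), ∀ c ∈ centralizer (P : Set G),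
      m * c * m⁻¹ ∈ centralizer (P : Set G) := by
    intro m hm c hc
    rw [mem_centralizer_iff] at hc ⊢
    intro x hx
    have h1 : m⁻¹ * x * m ∈ P := by
      have := (mem_normalizer_iff.1 ((normalizer (P : Set G)).inv_mem hm) x).1 hx
      simpa using this
    have h2 := hc _ h1
    calc x * (m * c * m⁻¹) = m * ((m⁻¹ * x * m) * c) * m⁻¹ := by group
      _ = m * (c * (m⁻¹ * x * m)) * m⁻¹ := by rw [h2]
      _ = m * c * m⁻¹ * x := by group
  rw [mem_normalizer_iff]
  intro c
  constructor
  · exact key n hn c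
  · intro h
    have := key n⁻¹ ((normalizer (P : Set G)).inv_mem hn) _ h
    have h2 : n⁻¹ * (n * c * n⁻¹) * n⁻¹⁻¹ = c := by group
    rwa [h2] at this


/-- No finite simple group has order 459648 = 2^7 * 3^3 * 7 * 19. -/
theorem result {G : Type*} [Group G] [Finite G] [IsSimpleGroup G] : Nat.card G ≠ 459648 := by
  intro hG
  classical
  have := Fintype.ofFinite G
  obtain ⟨P⟩ : Nonempty (Sylow 19 G) := inferInstance
  obtain ⟨hP, hnd, hnm, hn1, hNn, -, r, hr1, hr2, hr3, hr4⟩ :=
    Helper75.sylow_setup (p := 19) 24192 (by rw [hG]) (by norm_num) (by norm_num) P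
  have hnc : ¬ ∀ a b : G, a * b = b * a := by
    intro h
    have h1 : normalizer ((P : Subgroup G) : Set G) ≤ centralizer ((P : Subgroup G) : Set G) :=
      fun x _ => mem_centralizer_iff.2 (fun y _ => h y x)
    have h2 := Cfsg.Agent.S4304.card_eq_of_simple_of_normalizer_le_centralizer P h1
      (by rw [hP]; norm_num)
    rw [hG, hP] at h2
    omega
  have hnm' : Nat.card (Sylow 19 G) % 19 = 1 := by
    unfold Nat.ModEq at hnm
    simpa using hnm
  have hr18 : r ∣ 18 := hr2
  rcases arith_n _ hnd hnm' hn1 with hn | hn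
  · -- 96 Sylow subgroups
    rw [hn, hG] at hNn
    have hN : Nat.card (normalizer ((P : Subgroup G) : Set G)) = 4788 := by omega
    rw [hN] at hr1
    have h7 : 7 ∣ Nat.card (centralizer ((P : Subgroup G) : Set G)) := by
      have h7' : 7 ∣ Nat.card (centralizer ((P : Subgroup G) : Set G)) * r := by
        rw [hr1]; norm_num
      rcases (Nat.Prime.dvd_mul (by norm_num)).1 h7' with h | h
      · exact h
      · exfalso
        have := h.trans hr18
        norm_num at this
    have : Fact (Nat.Prime 7) := ⟨by norm_num⟩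
    obtain ⟨y, hy⟩ := exists_prime_orderOf_dvd_card'
      (G := centralizer ((P : Subgroup G) : Set G)) 7 h7
    have hy' : orderOf (y : G) = 7 := (Subgroup.orderOf_coe y).trans hy
    have hfix := sylow_trick (p := 19) (q := 7) (by norm_num) (by norm_num) P hP y.1 y.2 hy'
      (by rw [hn]; norm_num)
    have h1 := Helper75.sylow_faithful_of_simple hn1 y.1 hfix
    rw [h1, orderOf_one] at hy'
    omega
  · -- 1008 Sylow subgroups
    rw [hn, hG] at hNn
    have hN : Nat.card (normalizer ((P : Subgroup G) : Set G)) = 456 := by omega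
    rw [hN] at hr1
    have he : (centralizer ((P : Subgroup G) : Set G)).relIndex
        (normalizer ((P : Subgroup G) : Set G)) = r := by
      have h1 := Helper96.card_centralizer_mul_relIndex (P : Subgroup G)
      rw [hN, ← hr1] at h1
      exact Nat.eq_of_mul_eq_mul_left Nat.card_pos h1
    obtain ⟨c, hc⟩ := hr4
    have hr : r = 2 ∨ r = 3 ∨ r = 6 := by
      rw [hc] at hr1
      have h24 : c * r = 24 := by
        have : 19 * (c * r) = 19 * 24 := by rw [← mul_assoc, hr1]
        omega
      have h1 : r ∣ 24 := ⟨c, by rw [mul_comm]; exact h24.symm⟩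
      have h3 : r ≤ 18 := Nat.le_of_dvd (by norm_num) hr18
      interval_cases r <;> omega
    have hC76 : 76 ≤ Nat.card (centralizer ((P : Subgroup G) : Set G)) := by
      rcases hr with rfl | rfl | rfl <;> omega
    obtain ⟨K, hK⟩ := Sylow.exists_subgroup_card_pow_prime
      (G := normalizer ((P : Subgroup G) : Set G)) 2 (n := 3) (by rw [hN]; norm_num)
    obtain ⟨S, hS⟩ : ∃ S, S = K.map (normalizer ((P : Subgroup G) : Set G)).subtype := ⟨_, rfl⟩
    have hScard : Nat.card S = 8 := by
      rw [hS, Subgroup.card_subtype, hK]; norm_num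
    have hSN : S ≤ normalizer ((P : Subgroup G) : Set G) := by
      rw [hS]; exact map_subtype_le _
    obtain ⟨t, htC, ht, htS⟩ := exists_involution_centralized _ _ S
      (centralizer_le_normalizer ((P : Subgroup G) : Set G))
      (normalizer_le_normalizer_centralizer (P : Subgroup G))
      (IsPGroup.of_card (n := 3) (by rw [hScard]; norm_num)) hSN (by rw [hN, hScard]; omega)
    have hPH : (P : Subgroup G) ≤ centralizer ({t} : Set G) := by
      intro x hx
      rw [mem_centralizer_singleton_iff]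
      exact (mem_centralizer_iff.1 htC x hx)
    have hSH : S ≤ centralizer ({t} : Set G) := by
      intro x hx
      rw [mem_centralizer_singleton_iff]
      exact (mem_centralizer_iff.1 htS x hx)
    obtain ⟨n', hn', hH⟩ := card_overgroup_sylow P _ hPH
    have h19 : 19 ∣ Nat.card (normalizer ((P : Subgroup G) : Set G) ⊓ centralizer ({t} : Set G) :
        Subgroup G) := by
      have := card_dvd_of_le (le_inf le_normalizer hPH)
      rwa [hP] at this
    have h8 : 8 ∣ Nat.card (normalizer ((P : Subgroup G) : Set G) ⊓ centralizer ({t} : Set G) :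
        Subgroup G) := by
      have := card_dvd_of_le (le_inf hSN hSH)
      rwa [hScard] at this
    have hm : Nat.card (normalizer ((P : Subgroup G) : Set G) ⊓ centralizer ({t} : Set G) :
        Subgroup G) ∣ 456 := by
      have := card_dvd_of_le (inf_le_left :
        normalizer ((P : Subgroup G) : Set G) ⊓ centralizer ({t} : Set G) ≤ _)
      rwa [hN] at this
    have hHd : Nat.card (centralizer ({t} : Set G)) ∣ 459648 :=
      hG ▸ card_subgroup_dvd_card _
    have hHtop : centralizer ({t} : Set G) ≠ ⊤ := by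
      intro h
      have htc : t ∈ center G := by
        rw [mem_center_iff]
        intro g
        have h1 : g ∈ centralizer ({t} : Set G) := by rw [h]; trivial
        rw [mem_centralizer_singleton_iff] at h1
        exact h1
      rcases IsSimpleGroup.eq_bot_or_eq_top_of_normal (center G) inferInstance with h1 | h1
      · rw [h1, mem_bot] at htc
        rw [htc, orderOf_one] at ht
        omega
      · apply hnc
        intro a b
        have h2 : b ∈ center G := by rw [h1]; trivial
        exact mem_center_iff.1 h2 a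
    have hH456 : Nat.card (centralizer ({t} : Set G)) ≤ 456 := by
      rcases arith_H _ _ _ h19 h8 hm hH hHd hn' with h | h
      · exact h
      · exfalso
        have hidx : (centralizer ({t} : Set G)).index ≤ 3 := by
          have h1 := (centralizer ({t} : Set G)).card_mul_index
          rw [hG] at h1
          by_contra hcon
          push Not at hcon
          have h2 : Nat.card (centralizer ({t} : Set G)) * 4 ≤
              Nat.card (centralizer ({t} : Set G)) * (centralizer ({t} : Set G)).index :=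
            Nat.mul_le_mul_left _ hcon
          have h3 : 0 < Nat.card (centralizer ({t} : Set G)) := Nat.card_pos
          omega
        have h1 := Helper75.card_dvd_factorial_of_simple _ hHtop 3 hidx
        rw [hG] at h1
        norm_num [Nat.factorial] at h1
    -- characters
    obtain ⟨M, hM⟩ := Helper78.exists_isPModular (p := 19) (by norm_num)
    obtain ⟨X, Y, hXY, hdisj, hXc, hYc, εX, ε, hX, hε, hYdeg, hYag, hrel⟩ :=
      Cfsg.Agent.S4441.result 19 M hM (by norm_num) P hP r he
    obtain ⟨x0, hx0⟩ := exists_prime_orderOf_dvd_card' (G := (P : Subgroup G)) 19 (by rw [hP])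
    have hxo : orderOf (x0 : G) = 19 := (Subgroup.orderOf_coe x0).trans hx0
    have hx1 : (x0 : G) ≠ 1 := by
      intro h
      rw [h, orderOf_one] at hxo
      omega
    have hx19 : (x0 : G) ^ 19 = 1 := by
      have := pow_orderOf_eq_one (x0 : G)
      rwa [hxo] at this
    have hxt : Commute (x0 : G) t := mem_centralizer_iff.1 htC x0 x0.2
    have hkey : ∀ χ ∈ X, χ ≠ Helper82.trivIrr G →
        ((charDegree (χ : G → ℂ) = 18 ∧ εX χ = -1) ∨ (charDegree (χ : G → ℂ) = 56 ∧ εX χ = -1) ∨
        (charDegree (χ : G → ℂ) = 96 ∧ εX χ = 1) ∨ (charDegree (χ : G → ℂ) = 189 ∧ εX χ = -1)) ∧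
        ∃ c : ℤ, (χ : G → ℂ) t = c ∧ 400 ≤ c ^ 2 := by
      intro χ hχ hne
      obtain ⟨hs, hd, hv⟩ := hX χ hχ
      exact key_val hG hnc χ (fun h => hne (Subtype.ext h)) (εX χ) hs hd t x0 ht hx19 hxt
        (hv x0 x0.2 hx1 t htC (by rw [ht]; norm_num))
    have hXfin : X.Finite := X.toFinite
    have hXcard : hXfin.toFinset.card = r := by
      rw [← Set.ncard_eq_toFinset_card X hXfin, ← Nat.card_coe_set_eq, hXc]
    have hge := card_centralizer_ge t (hXfin.toFinset.erase (Helper82.trivIrr G)) (by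
      intro χ hχ
      rw [Finset.mem_erase, Set.Finite.mem_toFinset] at hχ
      exact (hkey χ hχ.2 hχ.1).2)
    have hpred := Finset.pred_card_le_card_erase (s := hXfin.toFinset) (a := Helper82.trivIrr G)
    rw [hXcard] at hpred
    have hr2' : r = 2 := by
      rcases hr with rfl | rfl | rfl <;> omega
    subst hr2'
    by_cases htriv : Helper82.trivIrr G ∈ X
    · obtain ⟨χ, hχne, hX2⟩ : ∃ χ, χ ≠ Helper82.trivIrr G ∧ X = {Helper82.trivIrr G, χ} := by
        obtain ⟨u, v, huv, hXuv⟩ := Set.ncard_eq_two.1 (by rw [← Nat.card_coe_set_eq, hXc] :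
          X.ncard = 2)
        have h1 := htriv
        rw [hXuv] at h1
        rcases h1 with h1 | h1
        · exact ⟨v, by rw [h1]; exact huv.symm, by rw [hXuv, h1]⟩
        · have h1' : Helper82.trivIrr G = v := h1
          exact ⟨u, by rw [h1']; exact huv, by rw [hXuv, h1', Set.pair_comm]⟩
      have hχX : χ ∈ X := by rw [hX2]; simp
      have hYne : Nonempty Y := by
        have : Nat.card Y ≠ 0 := by rw [hYc]; norm_num
        exact (Nat.card_ne_zero.1 this).1
      obtain ⟨⟨θ, hθ⟩⟩ := hYne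
      have h1 := hrel θ hθ 1 (by rw [orderOf_one]; norm_num)
      rw [hX2, finsum_mem_pair hχne.symm, Helper82.isChar_one_eq (Helper82.isIrr_isChar θ.2),
        Helper82.isChar_one_eq (Helper82.isIrr_isChar χ.2), Helper82.trivIrr_apply] at h1
      have hdt : charDegree ((Helper82.trivIrr G : IrrCharacter G) : G → ℂ) = 1 := by
        have h2 := Helper82.isChar_one_eq (Helper82.isIrr_isChar (Helper82.trivIrr G).2)
        rw [Helper82.trivIrr_apply] at h2
        exact_mod_cast h2.symm
      have hεt : εX (Helper82.trivIrr G) = 1 := by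
        obtain ⟨hs, hd, -⟩ := hX _ htriv
        rw [hdt] at hd
        unfold Int.ModEq at hd
        rcases hs with hs | hs
        · exact hs
        · rw [hs] at hd
          norm_num at hd
      rw [hεt] at h1
      have h2 : ε * (charDegree (θ : G → ℂ) : ℤ) = 1 + εX χ * (charDegree (χ : G → ℂ) : ℤ) := by
        have : ((ε * (charDegree (θ : G → ℂ) : ℤ) : ℤ) : ℂ)
            = ((1 + εX χ * (charDegree (χ : G → ℂ) : ℤ) : ℤ) : ℂ) := by
          push_cast
          push_cast at h1
          linear_combination h1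
        exact_mod_cast this
      have hθd : charDegree (θ : G → ℂ) ∣ 459648 := hG ▸ Helper82.isIrr_charDegree_dvd_card θ.2
      rcases (hkey χ hχX hχne).1 with ⟨hd, ha⟩ | ⟨hd, ha⟩ | ⟨hd, ha⟩ | ⟨hd, ha⟩
      · rw [hd, ha] at h2
        have hz : charDegree (θ : G → ℂ) = 17 := by rcases hε with rfl | rfl <;> omega
        rw [hz] at hθd
        norm_num at hθd
      · rw [hd, ha] at h2
        have hz : charDegree (θ : G → ℂ) = 55 := by rcases hε with rfl | rfl <;> omega
        rw [hz] at hθd
        norm_num at hθd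
      · rw [hd, ha] at h2
        have hz : charDegree (θ : G → ℂ) = 97 := by rcases hε with rfl | rfl <;> omega
        rw [hz] at hθd
        norm_num at hθd
      · rw [hd, ha] at h2
        have hz : charDegree (θ : G → ℂ) = 188 := by rcases hε with rfl | rfl <;> omega
        rw [hz] at hθd
        norm_num at hθd
    · rw [Finset.erase_eq_of_notMem (by rw [Set.Finite.mem_toFinset]; exact htriv), hXcard] at hge
      omega

end Cfsg.Agent.S1022
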