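import Cfsg.Statements.S1075
import Cfsg.Agent.S1011
import Cfsg.Agent.Lib.Helper91.R3.INST
import Cfsg.Agent.Lib.Helper91.R3.CARD
import Cfsg.Agent.Lib.Helper91.R3.C1
import Cfsg.Agent.Lib.Helper91.R3.C2

set_option autoImplicit false
open Cfsg

namespace Cfsg.Agent.S1075

open Cfsg.Agent.Lib.Helper91.R3 in
/-- The derived subgroup of ²G₂(3) (θ = identity over the field with three elements) has order 504 = 1512/3 and is isomorphic to PSL₂ over the field with eight elements. -/
theorem result {L : Type*} [Field L] [Fintype L] (hL : Fintype.card L = 8) :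
    Nat.card ↥(commutator ↥(Cfsg.Lie.twistedG2 (ZMod 3) 1)) = 504 ∧
      Nonempty (↥(commutator ↥(Cfsg.Lie.twistedG2 (ZMod 3) 1)) ≃* Matrix.ProjectiveSpecialLinearGroup (Fin 2) L) := by
  obtain ⟨D⟩ := exists_dat
  have := D.finite
  have h1 := card_comm D
  have := simple_of (D.U 0 1 0) (CARD_b_cube D) (sup_top D) h1 (fun M hM hne => comm_le D M hne)
  exact ⟨h1, Cfsg.Agent.S1011.result h1 hL⟩

end Cfsg.Agent.S1075
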