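import Cfsg.Statements.S1255
import Cfsg.Agent.S0111
import Cfsg.Agent.Lib.Helper11.DihedralSylow
import Cfsg.Agent.Lib.Helper11.SylowAux

set_option autoImplicit false
open Cfsg

namespace Cfsg.Agent.S1255

open Cfsg.Agent.Lib.Helper11
open scoped Pointwise

/-- every involution is conjugate into a given Sylow `2`-subgroup -/
theorem exists_conj_mem_sylow {X : Type*} [Group X] [Finite X] (S : Sylow 2 X) (a : X)
    (ha : orderOf a = 2) : ∃ k : X, k * a * k⁻¹ ∈ (S : Subgroup X) := by
  have hZ : IsPGroup 2 (Subgroup.zpowers a) :=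
    IsPGroup.of_card (n := 1) (by rw [Nat.card_zpowers, ha, pow_one])
  obtain ⟨k, -, hk⟩ := exists_conj_le_sylow_of_le ⊤ S le_top (Subgroup.zpowers a) hZ le_top
  exact ⟨k, hk (conj_mem_conj_smul (Subgroup.mem_zpowers a))⟩

/-- Let X be a finite group whose Sylow 2-subgroup S is dihedral of order 2m ≥ 4. Then X has no subgroup of index 2 and no isolated involution if and only if either all involutions of X are conjugate, or for every Klein four-subgroup U ≤ S the index |N_X(U) : C_X(U)| equals 3 when |S| = 4 and equals 6 when |S| > 4. -/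
theorem result {X : Type*} [Group X] [Finite X] (S : Sylow 2 X) (m : ℕ) (hm : 2 ≤ m) (eS : (S : Subgroup X) ≃* DihedralGroup m) : ((∀ H : Subgroup X, H.index ≠ 2) ∧ (∀ z : X, ¬ Cfsg.IsIsolatedInvolution z)) ↔ ((∀ a b : X, orderOf a = 2 → orderOf b = 2 → IsConj a b) ∨ (∀ U : Subgroup X, U ≤ S → IsKleinFour U → (Subgroup.centralizer (U : Set X)).relIndex (Subgroup.normalizer (U : Set X)) = (if Nat.card S = 4 then 3 else 6))) := by
  obtain ⟨Q, z, hQS, hQc, hQi, hzQ, hz2, hinv⟩ := dih_data (S : Subgroup X) S.isPGroup' m hm eS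
  have hzz : z * z = 1 := (orderOf_two_iff.1 hz2).1
  have hz1 : z ≠ 1 := (orderOf_two_iff.1 hz2).2
  have hzinv : z⁻¹ = z := inv_eq_of_mul_eq_one_left hzz
  have hconjord : ∀ (k a : X), orderOf (k * a * k⁻¹) = orderOf a :=
    fun k a => (MulAut.conj k).orderOf_eq a
  -- facts on elements outside `Q`
  have hout : ∀ u ∈ (S : Subgroup X), u ∉ Q → u * u = 1 ∧ u ≠ 1 ∧ z * u = u * z ∧ z ≠ u := by
    intro u huS huQ
    obtain ⟨h1, h2⟩ := hinv u huS huQ
    refine ⟨h1, fun h => huQ (h ▸ Q.one_mem), ?_, fun h => huQ (h ▸ hzQ)⟩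
    have h3 := h2 z hzQ
    rw [hzinv] at h3
    calc z * u = (u * z * u⁻¹) * u := by rw [h3]
      _ = u * z := by group
  obtain ⟨t, htS, htQ⟩ : ∃ t ∈ (S : Subgroup X), t ∉ Q := by
    by_contra hcon
    push Not at hcon
    have : Q.relIndex (S : Subgroup X) = 1 := Subgroup.relIndex_eq_one.2 hcon
    omega
  -- reduction: everything follows once all involutions are conjugate to `z`
  have hallconj : (∀ a : X, orderOf a = 2 → IsConj a z) →
      ((∀ H : Subgroup X, H.index ≠ 2) ∧ (∀ z : X, ¬ Cfsg.IsIsolatedInvolution z)) := by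
    intro hall
    constructor
    · intro H hH
      have hHn : H.Normal := Subgroup.normal_of_index_eq_two hH
      obtain ⟨ht1, ht2, ht3, ht4⟩ := hout t htS htQ
      have hztS : z * t ∈ (S : Subgroup X) := Subgroup.mul_mem _ (hQS hzQ) htS
      have hztQ : z * t ∉ Q := by
        intro h
        apply htQ
        have : t = z⁻¹ * (z * t) := by group
        rw [this]
        exact Q.mul_mem (Q.inv_mem hzQ) h
      obtain ⟨hzt1, hzt2, -, -⟩ := hout _ hztS hztQ
      obtain ⟨h0, hh0, hh2⟩ : ∃ h0 ∈ H, orderOf h0 = 2 := by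
        by_cases hzH : z ∈ H
        · exact ⟨z, hzH, hz2⟩
        · by_cases htH : t ∈ H
          · exact ⟨t, htH, orderOf_two_iff.2 ⟨ht1, ht2⟩⟩
          · refine ⟨z * t, ?_, orderOf_two_iff.2 ⟨hzt1, hzt2⟩⟩
            rw [Subgroup.mul_mem_iff_of_index_two hH]
            exact ⟨fun h => absurd h hzH, fun h => absurd h htH⟩
      have hinvH : ∀ a : X, orderOf a = 2 → a ∈ H := by
        intro a ha
        have h1 : IsConj h0 a := (hall h0 hh2).trans (hall a ha).symm
        obtain ⟨c, hc⟩ := isConj_iff.1 h1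
        rw [← hc]
        exact hHn.conj_mem h0 hh0 c
      have hSH : (S : Subgroup X) ≤ H := by
        intro x hx
        by_cases hxQ : x ∈ Q
        · have hxtS : x * t ∈ (S : Subgroup X) := Subgroup.mul_mem _ hx htS
          have hxtQ : x * t ∉ Q := by
            intro h
            apply htQ
            have : t = x⁻¹ * (x * t) := by group
            rw [this]
            exact Q.mul_mem (Q.inv_mem hxQ) h
          obtain ⟨h1, h2, -, -⟩ := hout _ hxtS hxtQ
          have h3 : x * t ∈ H := hinvH _ (orderOf_two_iff.2 ⟨h1, h2⟩)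
          have h4 : t ∈ H := hinvH _ (orderOf_two_iff.2 ⟨ht1, ht2⟩)
          have : x = (x * t) * t⁻¹ := by group
          rw [this]
          exact H.mul_mem h3 (H.inv_mem h4)
        · obtain ⟨h1, h2, -, -⟩ := hout _ hx hxQ
          exact hinvH _ (orderOf_two_iff.2 ⟨h1, h2⟩)
      have h1 : H.index ∣ (S : Subgroup X).index := Subgroup.index_dvd_of_le hSH
      rw [hH] at h1
      exact S.not_dvd_index h1
    · rintro w ⟨hw2, hw⟩
      obtain ⟨ht1, ht2, ht3, ht4⟩ := hout t htS htQ
      obtain ⟨c, hc⟩ := isConj_iff.1 (hall w hw2)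
      have hw' : orderOf (c⁻¹ * t * c) = 2 := by
        have := hconjord c⁻¹ t
        rw [inv_inv] at this
        rw [this]
        exact orderOf_two_iff.2 ⟨ht1, ht2⟩
      obtain ⟨g, hg⟩ := isConj_iff.1 ((hall w hw2).trans (hall _ hw').symm)
      have hwz : w = c⁻¹ * z * c := by rw [← hc]; group
      have hcomm : Commute w (g * w * g⁻¹) := by
        rw [hg, hwz]
        show c⁻¹ * z * c * (c⁻¹ * t * c) = c⁻¹ * t * c * (c⁻¹ * z * c)
        calc c⁻¹ * z * c * (c⁻¹ * t * c) = c⁻¹ * (z * t) * c := by group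
          _ = c⁻¹ * (t * z) * c := by rw [ht3]
          _ = c⁻¹ * t * c * (c⁻¹ * z * c) := by group
      have h1 := hw g hcomm
      rw [hg, hwz] at h1
      apply ht4
      have h2 : c * (c⁻¹ * t * c) * c⁻¹ = c * (c⁻¹ * z * c) * c⁻¹ := by rw [h1]
      have e1 : c * (c⁻¹ * t * c) * c⁻¹ = t := by group
      have e2 : c * (c⁻¹ * z * c) * c⁻¹ = z := by group
      rw [e1, e2] at h2
      exact h2.symm
  constructor
  · rintro ⟨hidx, -⟩
    left
    have hall : ∀ a : X, orderOf a = 2 → IsConj a z := by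
      intro a ha
      obtain ⟨k, hk⟩ := exists_conj_mem_sylow S a ha
      have hk2 : orderOf (k * a * k⁻¹) = 2 := by rw [hconjord, ha]
      by_cases hkQ : k * a * k⁻¹ ∈ Q
      · have := eq_of_orderOf_two_of_mem_cyclic Q hkQ hzQ hk2 hz2
        exact isConj_iff.2 ⟨k, this⟩
      · rcases Cfsg.Agent.S0111.result S Q hQS hQi _ hk2 hk hkQ with ⟨M, -, hMi, -⟩ | ⟨g, hg⟩
        · exact absurd hMi (hidx M)
        · have hg2 : orderOf (g * (k * a * k⁻¹) * g⁻¹) = 2 := by rw [hconjord, hk2]
          have := eq_of_orderOf_two_of_mem_cyclic Q hg hzQ hg2 hz2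
          exact isConj_iff.2 ⟨g * k, by rw [← this]; group⟩
    intro a b ha hb
    exact (hall a ha).trans (hall b hb).symm
  · rintro (h | h)
    · exact hallconj (fun a ha => h a z ha hz2)
    · apply hallconj
      intro a ha
      obtain ⟨k, hk⟩ := exists_conj_mem_sylow S a ha
      have hk2 : orderOf (k * a * k⁻¹) = 2 := by rw [hconjord, ha]
      by_cases hkQ : k * a * k⁻¹ ∈ Q
      · have := eq_of_orderOf_two_of_mem_cyclic Q hkQ hzQ hk2 hz2
        exact isConj_iff.2 ⟨k, this⟩
      · obtain ⟨h1, h2, h3, h4⟩ := hout _ hk hkQ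
        have hU := isKleinFour_fourSub z (k * a * k⁻¹) h3 hzz h1 hz1 h2 h4
        have hUS : fourSub z (k * a * k⁻¹) h3 hzz h1 ≤ (S : Subgroup X) := by
          intro x hx
          rw [mem_fourSub] at hx
          rcases hx with rfl | rfl | rfl | rfl
          · exact Subgroup.one_mem _
          · exact hQS hzQ
          · exact hk
          · exact Subgroup.mul_mem _ (hQS hzQ) hk
        have h5 := h _ hUS hU
        have h6 : IsConj z (k * a * k⁻¹) := by
          apply isConj_of_three_dvd z _ h3 hzz h1 hz1 h2 h4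
          rw [h5]
          split_ifs <;> norm_num
        exact (isConj_iff.2 ⟨k, rfl⟩ : IsConj a (k * a * k⁻¹)).trans h6.symm

end Cfsg.Agent.S1255
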