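import Cfsg.Statements.S1313
-- import your own Cfsg.Agent.* helpers here
import Cfsg.Agent.Lib.Helper28.Layer

set_option autoImplicit false
open Cfsg

namespace Cfsg.Agent.S1313

/-- For a finite group H, |H| ≤ |F*(H)|!. -/
theorem result {H : Type*} [Group H] [Finite H] : Nat.card H ≤ Nat.factorial (Nat.card ↥(Cfsg.generalizedFittingSubgroup H)) := by
  set F := Cfsg.generalizedFittingSubgroup H with hF
  have hFn : F.Normal := Cfsg.Agent.Lib.Helper28.genFitting_normal
  let φ : H →* MulAut ↥F := MulAut.conjNormal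
  have hker : ∀ c ∈ φ.ker, c ∈ F := by
    intro c hc
    apply Cfsg.Agent.Lib.Helper28.centralizer_genFitting_le
    rw [Subgroup.mem_centralizer_iff]
    intro x hx
    have h1 : φ c ⟨x, hx⟩ = ⟨x, hx⟩ := by
      rw [MonoidHom.mem_ker.mp hc]; rfl
    have h2 := congrArg Subtype.val h1
    simp only [φ, MulAut.conjNormal_apply] at h2
    calc x * c = (c * x * c⁻¹) * c := by rw [h2]
      _ = c * x := by group
  let ψ : ↥φ.ker × ↥φ.range → Equiv.Perm ↥F := fun q =>
    (q.2.1.toEquiv).trans (Equiv.mulLeft (⟨q.1.1, hker _ q.1.2⟩ : ↥F))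
  have hψ : Function.Injective ψ := by
    rintro ⟨c, σ⟩ ⟨d, τ⟩ h
    have h1 : ∀ x : ↥F, (⟨c.1, hker _ c.2⟩ : ↥F) * σ.1 x = (⟨d.1, hker _ d.2⟩ : ↥F) * τ.1 x := by
      intro x
      exact congrArg (fun e : Equiv.Perm ↥F => e x) h
    have h2 : (⟨c.1, hker _ c.2⟩ : ↥F) = (⟨d.1, hker _ d.2⟩ : ↥F) := by
      have := h1 1
      simpa using this
    have hcd : c = d := Subtype.ext (congrArg (fun z : ↥F => (z : H)) h2)
    have hστ : σ = τ := by
      apply Subtype.ext
      ext x
      have := h1 x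
      rw [h2] at this
      exact congrArg Subtype.val (mul_left_cancel this)
    rw [hcd, hστ]
  have h1 : Nat.card H = Nat.card (↥φ.ker × ↥φ.range) := by
    rw [Nat.card_prod, ← Subgroup.index_ker, Subgroup.card_mul_index]
  rw [h1, ← Nat.card_perm]
  exact Nat.card_le_card_of_injective ψ hψ

end Cfsg.Agent.S1313
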