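import Cfsg.Statements.S1349
import Cfsg.Agent.Lib.Helper26.ThompsonDih2
import Cfsg.Agent.Lib.Helper5.DihedralIso

set_option autoImplicit false
open Cfsg Cfsg.Agent.Lib.Helper26 Cfsg.Agent.Lib.Helper5

namespace Cfsg.Agent.S1349

/-- Let G be finite, L ≤ G solvable of odd order, and A an elementary abelian 2-subgroup of order 2^d (d ≥ 1) normalizing L with C_A(L) = 1. Then there are subgroups A_1, …, A_d of A of order 2 generating A and subgroups L_1, …, L_d of L such that each A_i ⊔ L_i is dihedral of order 2 n_i with n_i odd and at least 3, and A_i ⊔ L_i commutes elementwise with A_j ⊔ L_j for i ≠ j. -/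
theorem result {G : Type*} [Group G] [Finite G] (L A : Subgroup G) (hLs : Group.IsSolvable ↥L) (hLodd : Odd (Nat.card ↥L)) (hA : Cfsg.IsElementaryAbelian 2 A) (d : ℕ) (hd : 1 ≤ d) (hAd : Nat.card ↥A = 2 ^ d) (hAL : A ≤ Subgroup.normalizer (L : Set G)) (hfaith : A ⊓ Subgroup.centralizer (L : Set G) = ⊥) : ∃ (Ai : Fin d → Subgroup G) (Li : Fin d → Subgroup G) (n : Fin d → ℕ), (∀ i, Ai i ≤ A ∧ Nat.card ↥(Ai i) = 2 ∧ Li i ≤ L ∧ Odd (n i) ∧ 3 ≤ n i ∧ Nonempty (↥(Ai i ⊔ Li i) ≃* DihedralGroup (n i))) ∧ (⨆ i, Ai i) = A ∧ ∀ i j, i ≠ j → ∀ x ∈ Ai i ⊔ Li i, ∀ y ∈ Ai j ⊔ Li j, x * y = y * x := by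
  classical
  have hE : E2 A := by
    constructor
    · intro a ha b hb
      have h := hA.1.is_comm.comm (⟨a, ha⟩ : A) ⟨b, hb⟩
      exact congrArg Subtype.val h
    · intro a ha
      have := hA.2 a ha
      rwa [pow_two] at this
  have hinvL : CInv A L := CInv.of_le_normalizer hAL
  obtain ⟨V, hVL, hVab, hVinv, hVf⟩ := exists_abelian_faithful hE (Nat.card L) L le_rfl hLs hLodd hinvL
  have hVodd : Odd (Nat.card V) := Odd.of_dvd_nat hLodd (Subgroup.card_dvd_of_le hVL)
  have hf : ∀ a ∈ A, (∀ v ∈ V, a * v = v * a) → a = 1 := by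
    intro a ha h
    have h1 := hVf a ha h
    have h2 : a ∈ A ⊓ Subgroup.centralizer (L : Set G) := by
      refine Subgroup.mem_inf.2 ⟨ha, ?_⟩
      rw [Subgroup.mem_centralizer_iff]
      intro x hx
      exact (h1 x hx).symm
    rw [hfaith, Subgroup.mem_bot] at h2
    exact h2
  obtain ⟨a, x, h1, h2, h3, h4, h5, -⟩ := dual_system hE hVab hVodd hVinv hf d A le_rfl hAd
  have hcomm_gen : ∀ (p q r s : G), p * r = r * p → p * s = s * p → q * r = r * q → q * s = s * q →
      ∀ u ∈ Subgroup.zpowers p ⊔ Subgroup.zpowers q, ∀ v ∈ Subgroup.zpowers r ⊔ Subgroup.zpowers s,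
        u * v = v * u := by
    intro p q r s e1 e2 e3 e4
    have k1 : ∀ t : G, p * t = t * p → q * t = t * q →
        Subgroup.zpowers p ⊔ Subgroup.zpowers q ≤ Subgroup.centralizer ({t} : Set G) := by
      intro t f1 f2
      apply sup_le
      · rw [Subgroup.zpowers_le, Subgroup.mem_centralizer_singleton_iff]; exact f1
      · rw [Subgroup.zpowers_le, Subgroup.mem_centralizer_singleton_iff]; exact f2
    intro u hu
    have k2 : Subgroup.zpowers r ⊔ Subgroup.zpowers s ≤ Subgroup.centralizer ({u} : Set G) := by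
      apply sup_le
      · rw [Subgroup.zpowers_le, Subgroup.mem_centralizer_singleton_iff]
        exact (Subgroup.mem_centralizer_singleton_iff.1 (k1 r e1 e3 hu)).symm
      · rw [Subgroup.zpowers_le, Subgroup.mem_centralizer_singleton_iff]
        exact (Subgroup.mem_centralizer_singleton_iff.1 (k1 s e2 e4 hu)).symm
    intro v hv
    exact (Subgroup.mem_centralizer_singleton_iff.1 (k2 hv)).symm
  have hxne : ∀ i, x i ≠ (x i)⁻¹ := fun i => ne_inv_of_odd hVodd (h2 i).1 (h2 i).2.1
  have ha1 : ∀ i, a i ≠ 1 := by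
    intro i h
    have := h3 i
    rw [h] at this
    simp at this
    exact hxne i this
  have ha2 : ∀ i, orderOf (a i) = 2 := by
    intro i
    apply orderOf_eq_prime
    · rw [pow_two]; exact hE.sq _ (h1 i)
    · exact ha1 i
  refine ⟨fun i => Subgroup.zpowers (a i), fun i => Subgroup.zpowers (x i), fun i => orderOf (x i),
    ?_, ?_, ?_⟩
  · intro i
    have hord : orderOf (x i) ∣ Nat.card L := by
      have := orderOf_dvd_natCard (⟨x i, hVL (h2 i).1⟩ : L)
      rwa [Subgroup.orderOf_mk] at this
    have hoddn : Odd (orderOf (x i)) := Odd.of_dvd_nat hLodd hord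
    refine ⟨Subgroup.zpowers_le.2 (h1 i), ?_, Subgroup.zpowers_le.2 (hVL (h2 i).1), hoddn, ?_, ?_⟩
    · rw [Nat.card_zpowers, ha2 i]
    · have h0 : orderOf (x i) ≠ 1 := fun h => (h2 i).2.1 (orderOf_eq_one_iff.1 h)
      have h0' : 0 < orderOf (x i) := orderOf_pos _
      obtain ⟨k, hk⟩ := hoddn
      show 3 ≤ orderOf (x i)
      omega
    · have hax : orderOf (a i * x i) = 2 := by
        apply orderOf_eq_prime
        · have e := h3 i
          have hai : (a i)⁻¹ = a i := inv_eq_of_mul_eq_one_left (hE.sq _ (h1 i))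
          rw [hai] at e
          rw [pow_two]
          calc a i * x i * (a i * x i) = (a i * x i * a i) * x i := by group
            _ = 1 := by rw [e]; group
        · intro h
          have e := h3 i
          have : x i = (a i)⁻¹ := eq_inv_of_mul_eq_one_right h
          have hai : (a i)⁻¹ = a i := inv_eq_of_mul_eq_one_left (hE.sq _ (h1 i))
          apply hxne i
          rw [this, hai, hai]
      have e := dihEquiv (ha2 i) hax
      have hmul : a i * (a i * x i) = x i := by
        rw [← mul_assoc, hE.sq _ (h1 i), one_mul]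
      rw [hmul] at e
      have hcl : Subgroup.zpowers (a i) ⊔ Subgroup.zpowers (x i)
          = Subgroup.closure ({a i, a i * x i} : Set G) := by
        apply le_antisymm
        · apply sup_le
          · rw [Subgroup.zpowers_le]
            exact Subgroup.subset_closure (by simp)
          · rw [Subgroup.zpowers_le]
            have m1 : a i ∈ Subgroup.closure ({a i, a i * x i} : Set G) :=
              Subgroup.subset_closure (by simp)
            have m2 : a i * x i ∈ Subgroup.closure ({a i, a i * x i} : Set G) :=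
              Subgroup.subset_closure (by simp)
            have := mul_mem m1 m2
            rwa [hmul] at this
        · rw [Subgroup.closure_le]
          rintro g (rfl | hg)
          · exact Subgroup.mem_sup_left (Subgroup.mem_zpowers _)
          · rw [Set.mem_singleton_iff] at hg
            subst hg
            exact mul_mem (Subgroup.mem_sup_left (Subgroup.mem_zpowers _))
              (Subgroup.mem_sup_right (Subgroup.mem_zpowers _))
      exact ⟨(MulEquiv.subgroupCongr hcl).trans e⟩
  · apply le_antisymm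
    · exact iSup_le (fun i => Subgroup.zpowers_le.2 (h1 i))
    · rw [← h5, Subgroup.closure_le]
      rintro _ ⟨i, rfl⟩
      exact (le_iSup (fun i => Subgroup.zpowers (a i)) i) (Subgroup.mem_zpowers _)
  · intro i j hij
    apply hcomm_gen
    · exact hE.comm _ (h1 i) _ (h1 j)
    · exact h4 i j hij
    · exact (h4 j i (Ne.symm hij)).symm
    · exact hVab _ (h2 i).1 _ (h2 j).1

end Cfsg.Agent.S1349
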