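import Cfsg.Statements.S1482
import Cfsg.Agent.Lib.Helper30.BGUniq

set_option autoImplicit false
open Cfsg

namespace Cfsg.Agent.S1482

open Cfsg.Agent.Lib.Helper30 Cfsg.Agent.Lib.Helper28 Subgroup

/-- Let G be a minimal simple group of odd order, H a maximal subgroup whose Fitting subgroup F has at least two prime divisors, and M a subgroup of F containing the centre of F such that the only M-invariant subgroup of G of order coprime to #F is the trivial one. Then H is the only maximal subgroup of G containing M. -/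
theorem result {G : Type*} [Group G] [Finite G] (hG : Cfsg.IsMinSimpleOddOrder G) (H : Subgroup G) (hH : IsCoatom H) (hF2 : 2 ≤ (Nat.card (Cfsg.fittingOf H)).primeFactors.card)
    (M : Subgroup G) (hM : M ≤ Cfsg.fittingOf H) (hZM : Cfsg.fittingOf H ⊓ Subgroup.centralizer (Cfsg.fittingOf H : Set G) ≤ M)
    (hinv : ∀ Y ∈ Cfsg.invSubgroups ⊤ M (Cfsg.primesNotDvd (Nat.card (Cfsg.fittingOf H))), Y = ⊥) :
    ∀ L : Subgroup G, IsCoatom L → M ≤ L → L = H := by
  intro L hL hML
  have hF : Cfsg.fittingOf H = fitIn H := rfl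
  rw [hF] at hF2 hM hZM hinv
  apply bender_uniqueness hG hH hL
  · intro q hq
    have := Fact.mk hq
    refine le_trans ?_ (hZM.trans hML)
    exact le_inf ((zq_le_opIn q H).trans (opIn_le_fitIn q H))
      (le_centralizer_iff.mp (fitIn_le_centralizer_zq hq H))
  · obtain ⟨r₁, hr₁, r₂, hr₂, h12⟩ := Finset.one_lt_card.mp hF2
    have h1 := Nat.prime_of_mem_primeFactors hr₁
    have h2 := Nat.prime_of_mem_primeFactors hr₂
    have := Fact.mk h1
    have := Fact.mk h2
    exact ⟨r₁, r₂, h1, h2, h12, opIn_ne_bot_of_dvd (Nat.dvd_of_mem_primeFactors hr₁),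
      opIn_ne_bot_of_dvd (Nat.dvd_of_mem_primeFactors hr₂)⟩
  · intro q hq hqH
    have := Fact.mk hq
    apply hinv
    refine ⟨le_top, ?_, hML.trans (le_normalizer_opIn q L)⟩
    intro r hr hrd
    obtain ⟨n, hn⟩ := IsPGroup.iff_card.mp (opIn_isPGroup q L)
    rw [hn] at hrd
    have hrq : r = q := (Nat.prime_dvd_prime_iff_eq hr hq).mp (hr.dvd_of_dvd_pow hrd)
    rw [hrq]
    exact ⟨hq, fun hd => opIn_ne_bot_of_dvd hd hqH⟩

end Cfsg.Agent.S1482
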