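import Cfsg.Statements.S1550
import Cfsg.Agent.Lib.Helper33.SextetData
import Cfsg.Agent.Lib.Helper33.DuadData

set_option autoImplicit false
open scoped Pointwise
open Cfsg

namespace Cfsg.Agent.S1550

/-- Every 4-element set of the 24 points is a tetrad of exactly one sextet, and the sextets number 1771. -/
theorem result : (∀ t : Finset Cfsg.GolayPt, t.card = 4 → ∃! S : Finset (Finset Cfsg.GolayPt), S ∈ Cfsg.sextets ∧ t ∈ S) ∧ Cfsg.sextets.ncard = 1771 := by
  have hT := Cfsg.Agent.Lib.Helper33.sx_table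
  constructor
  · intro t ht
    obtain ⟨s, hst, hs⟩ := Finset.exists_subset_card_eq (show 2 ≤ t.card by rw [ht]; norm_num)
    obtain ⟨g, hg⟩ := Cfsg.Agent.Lib.Helper33.duad_rank.trans s hs
    have h0 : Cfsg.Agent.Lib.Helper33.pt 0 ∈ (g : Equiv.Perm Cfsg.GolayPt) • t := by
      have h1 : Cfsg.Agent.Lib.Helper33.pt 0 ∈ Cfsg.Agent.Lib.Helper33.unmask
          (Cfsg.Agent.Lib.Helper33.fld24 Cfsg.Agent.Lib.Helper33.duadTab 0) := by
        rw [Cfsg.Agent.Lib.Helper33.mem_unmask, Cfsg.Agent.Lib.Helper33.idx_pt (by norm_num)]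
        decide +kernel
      rw [← hg] at h1
      exact Finset.smul_finset_subset_smul_finset hst h1
    obtain ⟨k, hk, e⟩ := hT.tetrad0 _ (by rw [Finset.card_smul_finset]; exact ht) h0
    refine ⟨(g : Equiv.Perm Cfsg.GolayPt)⁻¹ • Cfsg.Agent.Lib.Helper33.objM Cfsg.Agent.Lib.Helper33.sxTab 6 k,
      ⟨Cfsg.Agent.Lib.Helper33.smul_mem_sextets (Cfsg.M24.inv_mem g.2) (hT.mem hk), ?_⟩, ?_⟩
    · have : t = (g : Equiv.Perm Cfsg.GolayPt)⁻¹ • ((g : Equiv.Perm Cfsg.GolayPt) • t) := (inv_smul_smul _ _).symm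
      rw [this, e]
      exact Finset.smul_mem_smul_finset (Cfsg.Agent.Lib.Helper33.SxTable.first_mem _ _)
    · rintro S' ⟨hS', htS'⟩
      refine Cfsg.Agent.Lib.Helper33.sextet_unique hS'
        (Cfsg.Agent.Lib.Helper33.smul_mem_sextets (Cfsg.M24.inv_mem g.2) (hT.mem hk)) htS' ?_
      have : t = (g : Equiv.Perm Cfsg.GolayPt)⁻¹ • ((g : Equiv.Perm Cfsg.GolayPt) • t) := (inv_smul_smul _ _).symm
      rw [this, e]
      exact Finset.smul_mem_smul_finset (Cfsg.Agent.Lib.Helper33.SxTable.first_mem _ _)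
  · have : Cfsg.sextets = (fun k => Cfsg.Agent.Lib.Helper33.objM Cfsg.Agent.Lib.Helper33.sxTab 6 k) ''
        ((Finset.range 1771 : Finset ℕ) : Set ℕ) := by
      ext S
      constructor
      · intro hS
        obtain ⟨k, hk, rfl⟩ := hT.cover S hS
        exact ⟨k, by simpa using hk, rfl⟩
      · rintro ⟨k, hk, rfl⟩
        exact hT.mem (by simpa using hk)
    rw [this, Set.InjOn.ncard_image, Set.ncard_coe_finset, Finset.card_range]
    intro k hk k' hk' h
    exact hT.inj k (by simpa using hk) k' (by simpa using hk') h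

end Cfsg.Agent.S1550
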