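import Cfsg.Statements.S1892
-- import your own Cfsg.Agent.* helpers here
import Cfsg.Agent.Lib.Helper14.PSolvable
import Cfsg.Agent.Lib.Helper27.Coprime

set_option autoImplicit false
open Cfsg

namespace Cfsg.Agent.S1892

/-- Let S be a finite p-solvable group with no nontrivial normal subgroup of order prime to p, A a p-subgroup of S, and Q a nontrivial A-invariant subgroup of order prime to p with [A, Q] = Q. Then the commutator [O_p(S), A, Q] is nontrivial. -/
theorem result {S : Type*} [Group S] [Finite S] {p : ℕ} [Fact p.Prime]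
    (hS : Cfsg.IsPSolvable p S) (hred : Cfsg.pPrimeCore p S = ⊥)
    (A Q : Subgroup S) (hA : IsPGroup p A) (hQ : ¬ p ∣ Nat.card Q) (hQ1 : Q ≠ ⊥)
    (hinv : ∀ a ∈ A, ∀ x ∈ Q, a * x * a⁻¹ ∈ Q) (hAQ : ⁅A, Q⁆ = Q) :
    ⁅⁅Cfsg.pCore p S, A⁆, Q⁆ ≠ ⊥ := by
  intro hbot
  classical
  set P := Cfsg.pCore p S with hP
  have hPn : P.Normal := inferInstance
  have hPp : IsPGroup p P := Cfsg.Agent.Lib.Helper14.isPGroup_pCore
  -- inverse-conjugation invariance of Q under A
  have hinv' : ∀ a ∈ A, ∀ x ∈ Q, a⁻¹ * x * a ∈ Q := by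
    intro a ha x hx
    have := hinv a⁻¹ (A.inv_mem ha) x hx
    simpa using this
  set C : Subgroup S := P ⊓ Subgroup.centralizer (Q : Set S) with hC
  have hCQ : ∀ c ∈ C, ∀ q ∈ Q, q * c = c * q := by
    intro c hc q hq
    exact (Subgroup.mem_centralizer_iff.mp hc.2) q hq
  -- the predicate
  let W : Set S := {g | (∀ c ∈ C, g * c * g⁻¹ ∈ C) ∧ (∀ c ∈ C, g⁻¹ * c * g ∈ C) ∧
      ∀ x ∈ P, x⁻¹ * (g * x * g⁻¹) ∈ C}
  have hWmul : ∀ g h, g ∈ W → h ∈ W → g * h ∈ W := by
    intro g h hg hh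
    refine ⟨?_, ?_, ?_⟩
    · intro c hc
      have := hg.1 _ (hh.1 c hc)
      simpa [mul_assoc] using this
    · intro c hc
      have := hh.2.1 _ (hg.2.1 c hc)
      simpa [mul_assoc] using this
    · intro x hx
      have h1 := hh.2.2 x hx
      have h2 := hg.2.2 x hx
      have h3 := hg.1 _ h1
      have h4 := C.mul_mem h2 h3
      have : x⁻¹ * (g * x * g⁻¹) * (g * (x⁻¹ * (h * x * h⁻¹)) * g⁻¹)
          = x⁻¹ * (g * h * x * (g * h)⁻¹) := by group
      rwa [this] at h4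
  have hWinv : ∀ g, g ∈ W → g⁻¹ ∈ W := by
    intro g hg
    refine ⟨?_, ?_, ?_⟩
    · intro c hc
      simpa using hg.2.1 c hc
    · intro c hc
      simpa using hg.1 c hc
    · intro x hx
      have hy : g⁻¹ * x * g ∈ P := by
        have := hPn.conj_mem x hx g⁻¹
        simpa using this
      have h1 := hg.2.2 _ hy
      have h2 := C.inv_mem h1
      have : ((g⁻¹ * x * g)⁻¹ * (g * (g⁻¹ * x * g) * g⁻¹))⁻¹ = x⁻¹ * (g⁻¹ * x * g⁻¹⁻¹) := by group
      rwa [this] at h2
  have hWA : ∀ a ∈ A, a ∈ W := by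
    intro a ha
    refine ⟨?_, ?_, ?_⟩
    · intro c hc
      refine Subgroup.mem_inf.mpr ⟨hPn.conj_mem c hc.1 a, ?_⟩
      rw [Subgroup.mem_centralizer_iff]
      intro q hq
      have h1 := hCQ c hc _ (hinv' a ha q hq)
      calc q * (a * c * a⁻¹) = a * ((a⁻¹ * q * a) * c) * a⁻¹ := by group
        _ = a * (c * (a⁻¹ * q * a)) * a⁻¹ := by rw [h1]
        _ = a * c * a⁻¹ * q := by group
    · intro c hc
      refine Subgroup.mem_inf.mpr ⟨by simpa using hPn.conj_mem c hc.1 a⁻¹, ?_⟩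
      rw [Subgroup.mem_centralizer_iff]
      intro q hq
      have h1 := hCQ c hc _ (hinv a ha q hq)
      calc q * (a⁻¹ * c * a) = a⁻¹ * ((a * q * a⁻¹) * c) * a := by group
        _ = a⁻¹ * (c * (a * q * a⁻¹)) * a := by rw [h1]
        _ = a⁻¹ * c * a * q := by group
    · intro x hx
      refine Subgroup.mem_inf.mpr ⟨P.mul_mem (P.inv_mem hx) (hPn.conj_mem x hx a), ?_⟩
      have h1 : x⁻¹ * (a * x * a⁻¹) ∈ ⁅P, A⁆ := by
        have := Subgroup.commutator_mem_commutator (P.inv_mem hx) ha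
        rw [commutatorElement_def] at this
        simpa [mul_assoc] using this
      rw [Subgroup.mem_centralizer_iff]
      intro q hq
      exact (Cfsg.Agent.Lib.Helper27.commute_of_comm_eq_bot hbot h1 hq).symm
  have hWconj : ∀ q ∈ Q, ∀ g ∈ W, q * g * q⁻¹ ∈ W := by
    intro q hq g hg
    have hcq : ∀ c ∈ C, q * c * q⁻¹ = c := by
      intro c hc
      rw [hCQ c hc q hq]; group
    have hcq' : ∀ c ∈ C, q⁻¹ * c * q = c := by
      intro c hc
      rw [mul_assoc, ← hCQ c hc q hq]; group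
    refine ⟨?_, ?_, ?_⟩
    · intro c hc
      have h1 := hg.1 c hc
      have : q * g * q⁻¹ * c * (q * g * q⁻¹)⁻¹ = q * (g * (q⁻¹ * c * q) * g⁻¹) * q⁻¹ := by group
      rw [this, hcq' c hc, hcq _ h1]; exact h1
    · intro c hc
      have h1 := hg.2.1 c hc
      have : (q * g * q⁻¹)⁻¹ * c * (q * g * q⁻¹) = q * (g⁻¹ * (q⁻¹ * c * q) * g) * q⁻¹ := by group
      rw [this, hcq' c hc, hcq _ h1]; exact h1
    · intro x hx
      have hy : q⁻¹ * x * q ∈ P := by simpa using hPn.conj_mem x hx q⁻¹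
      have h1 := hg.2.2 _ hy
      have : x⁻¹ * (q * g * q⁻¹ * x * (q * g * q⁻¹)⁻¹)
          = q * ((q⁻¹ * x * q)⁻¹ * (g * (q⁻¹ * x * q) * g⁻¹)) * q⁻¹ := by group
      rw [this, hcq _ h1]; exact h1
  have hW1 : (1 : S) ∈ W := by
    refine ⟨?_, ?_, ?_⟩
    · intro c hc; simpa using hc
    · intro c hc; simpa using hc
    · intro x hx; simp
  let WS : Subgroup S :=
    { carrier := W
      mul_mem' := fun {a b} ha hb => hWmul a b ha hb
      one_mem' := hW1
      inv_mem' := fun {a} ha => hWinv a ha }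
  have hQW : Q ≤ WS := by
    rw [← hAQ, Subgroup.commutator_le]
    intro a ha q hq
    rw [commutatorElement_def]
    have h1 : a ∈ WS := hWA a ha
    have h2 : q * a⁻¹ * q⁻¹ ∈ WS := hWconj q hq _ (hWinv a (hWA a ha))
    have := WS.mul_mem h1 h2
    simpa [mul_assoc] using this
  have hPQC : ⁅P, Q⁆ ≤ C := by
    rw [Subgroup.commutator_le]
    intro x hx q hq
    have h1 := (hQW hq).2.2 x⁻¹ (P.inv_mem hx)
    rw [commutatorElement_def]
    simpa [mul_assoc] using h1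
  have hPQQ : ⁅⁅P, Q⁆, Q⁆ = ⊥ := by
    rw [eq_bot_iff, Subgroup.commutator_le]
    intro c hc q hq
    rw [Subgroup.mem_bot, commutatorElement_eq_one_iff_mul_comm]
    exact (hCQ c (hPQC hc) q hq).symm
  have hcop : (Nat.card Q).Coprime p :=
    ((Nat.Prime.coprime_iff_not_dvd (Fact.out : p.Prime)).mpr hQ).symm
  have hQN : Q ≤ Subgroup.normalizer (P : Set S) := by
    rw [Subgroup.normalizer_eq_top]; exact le_top
  have hPQ : ⁅P, Q⁆ = ⊥ := Cfsg.Agent.Lib.Helper27.comm_eq_bot_of_coprime hPp hcop hQN hPQQ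
  have hQcent : Q ≤ Subgroup.centralizer (P : Set S) := by
    intro q hq
    rw [Subgroup.mem_centralizer_iff]
    intro x hx
    exact Cfsg.Agent.Lib.Helper27.commute_of_comm_eq_bot hPQ hx hq
  have hQP : Q ≤ P := hQcent.trans (Cfsg.Agent.Lib.Helper14.centralizer_pCore_le_of_isPSolvable hS hred)
  have hQp : IsPGroup p Q := hPp.to_le hQP
  apply hQ1
  obtain ⟨k, hk⟩ := IsPGroup.iff_card.mp hQp
  rw [hk] at hcop
  rcases Nat.eq_zero_or_pos k with rfl | hkpos
  · rw [pow_zero] at hk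
    exact Subgroup.card_eq_one.mp hk
  · exfalso
    have : p ∣ p ^ k := dvd_pow_self p hkpos.ne'
    have h2 := Nat.Coprime.eq_one_of_dvd hcop.symm this
    exact (Fact.out : p.Prime).one_lt.ne' h2

end Cfsg.Agent.S1892
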