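import Cfsg.Statements.S1894
-- import your own Cfsg.Agent.* helpers here
import Cfsg.Agent.Lib.Helper38.PGroup

set_option autoImplicit false
open Cfsg

namespace Cfsg.Agent.S1894

/-- Let P be a finite p-group, A a normal subgroup of P and B an abelian subgroup of A that is normal in P. Then some subgroup C of A containing B is normal in P and is self-centralizing and normal in A (C ∈ SCN(A)). -/
theorem result {P : Type*} [Group P] [Finite P] {p : ℕ} [Fact p.Prime] (hP : IsPGroup p P)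
    (A : Subgroup P) [A.Normal] (B : Subgroup P) [B.Normal] (hBA : B ≤ A) (hB : IsMulCommutative B) :
    ∃ C : Subgroup P, C.Normal ∧ B ≤ C ∧ Cfsg.IsSCN A C := by
  classical
  let 𝒮 : Set (Subgroup P) := {C | C.Normal ∧ B ≤ C ∧ C ≤ A ∧ IsMulCommutative C}
  have hfin : 𝒮.Finite := Set.toFinite _
  have hne : 𝒮.Nonempty := ⟨B, inferInstance, le_rfl, hBA, hB⟩
  obtain ⟨C, hC, hmax⟩ := hfin.exists_maximal hne
  obtain ⟨hCn, hBC, hCA, hCc⟩ := hC
  have hCcomm : ∀ a ∈ C, ∀ b ∈ C, a * b = b * a := by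
    intro a ha b hb
    have := (isMulCommutative_iff.mp hCc) ⟨a, ha⟩ ⟨b, hb⟩
    exact congrArg Subtype.val this
  refine ⟨C, hCn, hBC, hCA, Subgroup.le_normalizer_of_normal, ?_⟩
  have hCD : C ≤ A ⊓ Subgroup.centralizer (C : Set P) := by
    refine le_inf hCA ?_
    intro a ha
    rw [Subgroup.mem_centralizer_iff]
    intro b hb
    exact hCcomm b hb a ha
  by_contra hne'
  have hDC : ¬ (A ⊓ Subgroup.centralizer (C : Set P)) ≤ C := fun h => hne' (le_antisymm h hCD)
  have hDn : (A ⊓ Subgroup.centralizer (C : Set P)).Normal := inferInstance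
  have hmapn : ((A ⊓ Subgroup.centralizer (C : Set P)).map (QuotientGroup.mk' C)).Normal :=
    hDn.map _ (QuotientGroup.mk'_surjective C)
  have hmapne : (A ⊓ Subgroup.centralizer (C : Set P)).map (QuotientGroup.mk' C) ≠ ⊥ := by
    intro h
    apply hDC
    rw [Subgroup.map_eq_bot_iff, QuotientGroup.ker_mk'] at h
    exact h
  obtain ⟨xb, hxb, hxb1, hxbc⟩ :=
    Cfsg.Agent.Lib.Helper38.exists_ne_one_mem_center_of_normal (hP.to_quotient C) _ hmapne
  obtain ⟨x, hx, rfl⟩ := hxb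
  have hxC : x ∉ C := by
    intro h
    apply hxb1
    exact (QuotientGroup.eq_one_iff x).mpr h
  have hzn : (Subgroup.zpowers (QuotientGroup.mk' C x)).Normal := by
    constructor
    intro n hn g
    obtain ⟨k, rfl⟩ := hn
    have hc : (QuotientGroup.mk' C x) ^ k ∈ Subgroup.center (P ⧸ C) :=
      (Subgroup.center (P ⧸ C)).zpow_mem hxbc k
    rw [Subgroup.mem_center_iff] at hc
    rw [hc g, mul_assoc, mul_inv_cancel, mul_one]
    exact ⟨k, rfl⟩
  have hrep : ∀ y ∈ (Subgroup.zpowers (QuotientGroup.mk' C x)).comap (QuotientGroup.mk' C),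
      ∃ k : ℤ, ∃ c ∈ C, y = x ^ k * c := by
    intro y hy
    obtain ⟨k, hk⟩ := hy
    refine ⟨k, (x ^ k)⁻¹ * y, ?_, by group⟩
    have h1 : QuotientGroup.mk' C (x ^ k) = QuotientGroup.mk' C y := by
      rw [map_zpow]; exact hk
    exact QuotientGroup.eq.mp h1
  have hxcent : ∀ c ∈ C, c * x = x * c := by
    intro c hc
    exact (Subgroup.mem_centralizer_iff.mp hx.2) c hc
  have hxkcent : ∀ k : ℤ, ∀ c ∈ C, c * x ^ k = x ^ k * c := by
    intro k c hc
    exact ((Commute.zpow_right (hxcent c hc) k))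
  have hmem : (Subgroup.zpowers (QuotientGroup.mk' C x)).comap (QuotientGroup.mk' C) ∈ 𝒮 := by
    refine ⟨hzn.comap _, ?_, ?_, ?_⟩
    · intro b hb
      have : QuotientGroup.mk' C b = 1 := (QuotientGroup.eq_one_iff b).mpr (hBC hb)
      rw [Subgroup.mem_comap, this]
      exact Subgroup.one_mem _
    · intro y hy
      obtain ⟨k, c, hc, rfl⟩ := hrep y hy
      exact A.mul_mem (A.zpow_mem hx.1 k) (hCA hc)
    · apply IsMulCommutative.of_comm
      rintro ⟨y1, hy1⟩ ⟨y2, hy2⟩
      obtain ⟨k1, c1, hc1, rfl⟩ := hrep y1 hy1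
      obtain ⟨k2, c2, hc2, rfl⟩ := hrep y2 hy2
      ext
      change x ^ k1 * c1 * (x ^ k2 * c2) = x ^ k2 * c2 * (x ^ k1 * c1)
      calc x ^ k1 * c1 * (x ^ k2 * c2) = x ^ k1 * (c1 * x ^ k2) * c2 := by group
        _ = x ^ k1 * (x ^ k2 * c1) * c2 := by rw [hxkcent k2 c1 hc1]
        _ = (x ^ k1 * x ^ k2) * (c1 * c2) := by group
        _ = (x ^ k2 * x ^ k1) * (c2 * c1) := by
            rw [hCcomm c1 hc1 c2 hc2, ← zpow_add, ← zpow_add, add_comm]
        _ = x ^ k2 * (x ^ k1 * c2) * c1 := by group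
        _ = x ^ k2 * (c2 * x ^ k1) * c1 := by rw [hxkcent k1 c2 hc2]
        _ = x ^ k2 * c2 * (x ^ k1 * c1) := by group
  have hle : C ≤ (Subgroup.zpowers (QuotientGroup.mk' C x)).comap (QuotientGroup.mk' C) := by
    intro b hb
    have : QuotientGroup.mk' C b = 1 := (QuotientGroup.eq_one_iff b).mpr hb
    rw [Subgroup.mem_comap, this]
    exact Subgroup.one_mem _
  have hle2 := hmax hmem hle
  exact hxC (hle2 (by rw [Subgroup.mem_comap]; exact Subgroup.mem_zpowers _))

end Cfsg.Agent.S1894
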