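import Cfsg.Statements.S1898
-- import your own Cfsg.Agent.* helpers here

set_option autoImplicit false
open Cfsg

namespace Cfsg.Agent.S1898

open scoped commutatorElement

theorem pow4_mul {X : Type*} [Group X] (hel : ∀ a ∈ commutator X, a ^ 2 = 1)
    (hcen : commutator X ≤ Subgroup.center X) (x y : X) : (x * y) ^ 4 = x ^ 4 * y ^ 4 := by
  obtain ⟨c, hc⟩ : ∃ c, c = y * x * y⁻¹ * x⁻¹ := ⟨_, rfl⟩
  have hcmem : c ∈ commutator X := by
    have := Subgroup.commutator_mem_commutator (Subgroup.mem_top y) (Subgroup.mem_top x)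
    rw [hc]
    simpa [commutator_def, commutatorElement_def] using this
  have hc2 : c * c = 1 := by have := hel c hcmem; rwa [pow_two] at this
  have hcc : ∀ g, g * c = c * g := fun g => (Subgroup.mem_center_iff.mp (hcen hcmem)) g
  have hyx : y * x = c * (x * y) := by rw [hc]; group
  have h2 : (x * y) * (x * y) = c * (x * x * (y * y)) := by
    calc (x * y) * (x * y) = x * (y * x) * y := by group
      _ = x * (c * (x * y)) * y := by rw [hyx]
      _ = (x * c) * (x * y * y) := by group
      _ = (c * x) * (x * y * y) := by rw [hcc]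
      _ = c * (x * x * (y * y)) := by group
  have hyA : y * (x * x) = (x * x) * y := by
    calc y * (x * x) = (y * x) * x := by group
      _ = c * (x * y) * x := by rw [hyx]
      _ = c * x * (y * x) := by group
      _ = c * x * (c * (x * y)) := by rw [hyx]
      _ = c * (x * c) * (x * y) := by group
      _ = c * (c * x) * (x * y) := by rw [hcc]
      _ = (c * c) * (x * x * y) := by group
      _ = x * x * y := by rw [hc2, one_mul]
  calc (x * y) ^ 4 = ((x * y) * (x * y)) * ((x * y) * (x * y)) := by simp only [pow_succ, pow_zero, one_mul, mul_assoc]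
    _ = c * (x * x * (y * y)) * (c * (x * x * (y * y))) := by rw [h2]
    _ = c * ((x * x * (y * y)) * c) * (x * x * (y * y)) := by group
    _ = c * (c * (x * x * (y * y))) * (x * x * (y * y)) := by rw [hcc]
    _ = (c * c) * (x * x * y * (y * (x * x)) * (y * y)) := by group
    _ = (x * x * y * ((x * x) * y) * (y * y)) := by rw [hc2, one_mul, hyA]
    _ = x * x * (y * (x * x)) * y * (y * y) := by group
    _ = x * x * ((x * x) * y) * y * (y * y) := by rw [hyA]
    _ = x ^ 4 * y ^ 4 := by simp only [pow_succ, pow_zero, one_mul, mul_assoc]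

theorem fix_all {X : Type*} [Group X] (hel : ∀ a ∈ commutator X, a ^ 2 = 1)
    (ψ : MulAut X) (m : ℕ) (hm : Odd m) (hψm : ψ ^ m = 1)
    (hfix : ∀ g : X, g ^ 4 = 1 → ψ g = g) : ∀ n : ℕ, ∀ x : X, x ^ (2 ^ n) = 1 → ψ x = x := by
  intro n
  induction n with
  | zero => intro x hx; simp at hx; simp [hx]
  | succ n ih =>
    intro x hx
    have hx2 : ψ (x * x) = x * x := by
      apply ih
      rw [← pow_two, ← pow_mul, ← pow_succ']; exact hx
    obtain ⟨w, hw⟩ : ∃ w, w = x⁻¹ * ψ x := ⟨_, rfl⟩
    have hψx : ψ x = x * w := by rw [hw]; group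
    have h1 : x * w * (x * w) = x * x := by rw [← hψx, ← map_mul]; exact hx2
    have h2 : x * w * x⁻¹ * w⁻¹ = (w * w)⁻¹ := by
      have h3 : w * x * w = x := by
        have := congrArg (fun z => x⁻¹ * z) h1
        simpa [mul_assoc] using this
      calc x * w * x⁻¹ * w⁻¹ = w⁻¹ * (w * x * w) * x⁻¹ * w⁻¹ := by group
        _ = w⁻¹ * x * x⁻¹ * w⁻¹ := by rw [h3]
        _ = (w * w)⁻¹ := by group
    have hmem : (w * w)⁻¹ ∈ commutator X := by
      rw [← h2]
      have := Subgroup.commutator_mem_commutator (Subgroup.mem_top x) (Subgroup.mem_top w)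
      simpa [commutator_def, commutatorElement_def] using this
    have hw4 : w ^ 4 = 1 := by
      have := hel _ hmem
      have h3 : ((w * w)⁻¹) ^ 2 = (w ^ 4)⁻¹ := by group
      rw [h3] at this
      exact inv_eq_one.mp this
    have hψw : ψ w = w := hfix w hw4
    have hpow : ∀ j : ℕ, (ψ ^ j) x = x * w ^ j := by
      intro j
      induction j with
      | zero => simp
      | succ j ihj =>
        rw [pow_succ', MulAut.mul_apply, ihj, map_mul, map_pow, hψw, hψx, pow_succ', mul_assoc]
    have hwm : w ^ m = 1 := by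
      have := hpow m
      rw [hψm] at this
      simpa using this.symm
    have hw1 : w = 1 := by
      have hcop : Nat.Coprime (2 ^ 2) m := Nat.Coprime.pow_left 2 (Nat.coprime_two_left.mpr hm)
      have d1 : orderOf w ∣ 2 ^ 2 := orderOf_dvd_of_pow_eq_one (by norm_num; exact hw4)
      have d2 : orderOf w ∣ m := orderOf_dvd_of_pow_eq_one hwm
      have := Nat.dvd_gcd d1 d2
      rw [hcop] at this
      exact orderOf_eq_one_iff.mp (Nat.dvd_one.mp this)
    rw [hψx, hw1, mul_one]


/-- Let X be a finite 2-group whose derived subgroup is elementary abelian and central. Then the subgroup generated by the elements of order dividing 4 has exponent dividing 4, and every automorphism of X fixing each element of order dividing 4 has 2-power order. -/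
theorem result {X : Type*} [Group X] [Finite X] (hX : IsPGroup 2 X)
    (hel : Cfsg.IsElementaryAbelian 2 (commutator X)) (hcen : commutator X ≤ Subgroup.center X) :
    (∀ x ∈ Subgroup.closure {g : X | g ^ 4 = 1}, x ^ 4 = 1) ∧
      ∀ φ : MulAut X, (∀ g : X, g ^ 4 = 1 → φ g = g) → ∃ k : ℕ, φ ^ (2 ^ k) = 1 := by
  refine ⟨?_, ?_⟩
  · intro x hx
    induction hx using Subgroup.closure_induction with
    | mem x hx => exact hx
    | one => simp
    | mul x y _ _ hx hy => rw [pow4_mul hel.2 hcen, hx, hy, one_mul]
    | inv x _ hx => rw [inv_pow, hx, inv_one]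
  · intro φ hφ
    obtain ⟨k, m, hm, hkm⟩ := Nat.exists_eq_two_pow_mul_odd (orderOf_pos φ).ne'
    refine ⟨k, ?_⟩
    have hψm : (φ ^ (2 ^ k)) ^ m = 1 := by
      rw [← pow_mul, ← hkm]; exact pow_orderOf_eq_one φ
    have hfix : ∀ g : X, g ^ 4 = 1 → (φ ^ (2 ^ k)) g = g := by
      intro g hg
      have : ∀ j : ℕ, (φ ^ j) g = g := by
        intro j
        induction j with
        | zero => simp
        | succ j ih => rw [pow_succ', MulAut.mul_apply, ih, hφ g hg]
      exact this _
    ext x
    obtain ⟨n, hn⟩ := hX x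
    exact fix_all hel.2 _ m hm hψm hfix n x hn

end Cfsg.Agent.S1898
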