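import Cfsg.Statements.S1899
-- import your own Cfsg.Agent.* helpers here

set_option autoImplicit false
open Cfsg

namespace Cfsg.Agent.S1899

/-- Let a dihedral group of order 2n, n odd and n > 1, act on a finite abelian 2-group A through automorphisms d and t with d^n = 1, t² = 1 and t d t⁻¹ = d⁻¹, and suppose that d fixes only the identity. Then A is the internal direct product of C_A(t) and its image under d. -/
theorem result {A : Type*} [CommGroup A] [Finite A] (hA : IsPGroup 2 A)
    {n : ℕ} (hn : Odd n) (hn1 : 1 < n) (d t : MulAut A) (hd : d ^ n = 1) (ht : t ^ 2 = 1) (hdt : t * d * t⁻¹ = d⁻¹)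
    (hfix : ∀ a : A, d a = a → a = 1) :
    (MulEquiv.toMonoidHom t).eqLocus (MonoidHom.id A) ⊓ ((MulEquiv.toMonoidHom t).eqLocus (MonoidHom.id A)).map d.toMonoidHom = ⊥ ∧
      (MulEquiv.toMonoidHom t).eqLocus (MonoidHom.id A) ⊔ ((MulEquiv.toMonoidHom t).eqLocus (MonoidHom.id A)).map d.toMonoidHom = ⊤ := by
  have e1 : t * d = d⁻¹ * t := by
    have := congrArg (· * t) hdt
    simpa [mul_assoc] using this
  have e2 : t * d⁻¹ = d * t := by
    calc t * d⁻¹ = d * (d⁻¹ * t) * d⁻¹ := by group
      _ = d * (t * d) * d⁻¹ := by rw [e1]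
      _ = d * t := by group
  have h_td : ∀ x, t (d x) = d⁻¹ (t x) := fun x => by
    have := congrArg (fun f : MulAut A => f x) e1
    simpa using this
  have h_tdi : ∀ x, t (d⁻¹ x) = d (t x) := fun x => by
    have := congrArg (fun f : MulAut A => f x) e2
    simpa using this
  have h_tt : ∀ x, t (t x) = x := fun x => by
    have := congrArg (fun f : MulAut A => f x) ht
    simpa [pow_two] using this
  have hfix2 : ∀ x, d (d x) = x → x = 1 := by
    intro x hx
    obtain ⟨k, rfl⟩ := hn
    have h1 : ∀ j : ℕ, (d ^ (2 * j)) x = x := by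
      intro j
      induction j with
      | zero => simp
      | succ j ih =>
        rw [mul_add, mul_one, pow_add, MulAut.mul_apply, pow_two, MulAut.mul_apply, hx, ih]
    apply hfix
    have h2 : (d ^ (2 * k + 1)) x = x := by rw [hd]; rfl
    rw [pow_succ', MulAut.mul_apply, h1] at h2
    exact h2
  constructor
  · rw [eq_bot_iff]
    rintro a ⟨ha1, ha2⟩
    obtain ⟨c, hc, rfl⟩ := ha2
    have hc' : t c = c := hc
    have ha' : t (d c) = d c := ha1
    rw [h_td, hc'] at ha'
    have h3 : d (d c) = c := by rw [← ha']; simp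
    have h4 := hfix2 c h3
    simp [h4]
  · rw [eq_top_iff]
    intro a _
    let F : A →* A :=
      { toFun := fun x => x / d⁻¹ (d⁻¹ x)
        map_one' := by simp
        map_mul' := fun x y => by simp [mul_div_mul_comm] }
    have hFinj : Function.Injective F := by
      rw [injective_iff_map_eq_one]
      intro x hx
      have h5 : x = d⁻¹ (d⁻¹ x) := div_eq_one.mp hx
      apply hfix2
      have h6 : d (d (d⁻¹ (d⁻¹ x))) = x := by simp
      rw [← h5] at h6
      exact h6
    have hFsurj := Finite.surjective_of_injective hFinj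
    obtain ⟨c', hc'⟩ := hFsurj (a / t a)
    have hc'' : c' / d⁻¹ (d⁻¹ c') = a / t a := hc'
    have key : t c' = d⁻¹ (d⁻¹ c') := by
      have h7 : t c' / d (d (t c')) = t a / a := by
        have := congrArg t hc''
        rw [map_div, map_div, h_tdi, h_tdi, h_tt] at this
        exact this
      have h8 : d⁻¹ (d⁻¹ c') / c' = t a / a := by
        rw [← inv_div, hc'', inv_div]
      have h9 : d (d (t c' / d⁻¹ (d⁻¹ c'))) = t c' / d⁻¹ (d⁻¹ c') := by
        rw [map_div, map_div]
        have h10 : d (d (d⁻¹ (d⁻¹ c'))) = c' := by simp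
        rw [h10]
        have h11 : t c' / d (d (t c')) = d⁻¹ (d⁻¹ c') / c' := by rw [h7, h8]
        rw [div_eq_div_iff_mul_eq_mul] at h11 ⊢
        rw [mul_comm, ← h11, mul_comm]
      exact div_eq_one.mp (hfix2 _ h9)
    refine Subgroup.mem_sup.mpr ⟨a / c', ?_, c', ?_, by simp⟩
    · change t (a / c') = a / c'
      rw [map_div, key]
      rw [div_eq_div_iff_mul_eq_mul] at hc'' ⊢
      rw [mul_comm, hc'', mul_comm]
    · refine ⟨d⁻¹ c', ?_, by simp⟩
      change t (d⁻¹ c') = d⁻¹ c'
      rw [h_tdi, key]
      simp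

end Cfsg.Agent.S1899
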