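import Cfsg.Statements.S1900
-- import your own Cfsg.Agent.* helpers here
import Cfsg.Agent.S1324
import Cfsg.Agent.Lib.Helper27.Coprime
import Cfsg.Agent.Lib.Helper58.SylowConj
import Cfsg.Agent.Lib.Helper39.SylowRel

set_option autoImplicit false
open Cfsg

namespace Cfsg.Agent.S1900

open Subgroup
open scoped commutatorElement

section
variable {S : Type*} [Group S] [Finite S] {p q : ℕ} [Fact p.Prime] [Fact q.Prime]

/-- the standing hypotheses on a `Q`-invariant `p`-subgroup -/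
def Good (p q : ℕ) (Q X₁ X₂ P : Subgroup S) : Prop :=
  IsPGroup p P ∧ Q ≤ normalizer (P : Set S) ∧
    ∀ X : Subgroup S, X ≤ Q → Nat.card X = q → X ≠ X₁ → X ≠ X₂ → P ⊓ centralizer (X : Set S) = ⊥

theorem coprime_card (hpq : p ≠ q) {P X : Subgroup S} (hP : IsPGroup p P) (hX : Nat.card X = q) :
    (Nat.card X).Coprime (Nat.card P) := by
  obtain ⟨k, hk⟩ := IsPGroup.iff_card.mp hP
  rw [hk, hX]
  exact Nat.Coprime.pow_right k ((Nat.coprime_primes Fact.out Fact.out).mpr (Ne.symm hpq))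

theorem Q_le_centralizer {Q X : Subgroup S} (hQ : Cfsg.IsElementaryAbelian q Q) (hX : X ≤ Q) :
    Q ≤ centralizer (X : Set S) := by
  intro a ha
  rw [mem_centralizer_iff]
  intro b hb
  have := (isMulCommutative_iff.mp hQ.1) ⟨b, hX hb⟩ ⟨a, ha⟩
  exact congrArg Subtype.val this

theorem gen (hpq : p ≠ q) {Q X₁ X₂ P : Subgroup S} (hQ : Cfsg.IsElementaryAbelian q Q)
    (hQc : Nat.card Q = q ^ 2) (h₁ : X₁ ≤ Q) (hG : Good p q Q X₁ X₂ P) :
    P = (P ⊓ centralizer (X₁ : Set S)) ⊔ (P ⊓ centralizer (X₂ : Set S)) := by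
  obtain ⟨hP, hQN, honly⟩ := hG
  have hq : q.Prime := Fact.out
  have hnd : ¬ q ∣ Nat.card P := by
    obtain ⟨k, hk⟩ := IsPGroup.iff_card.mp hP
    rw [hk]
    intro h
    have := (Nat.prime_dvd_prime_iff_eq hq Fact.out).mp (hq.dvd_of_dvd_pow h)
    exact hpq this.symm
  have h := Cfsg.Agent.S1324.result q Q P hQ (by rw [hQc]) hnd hQN
  apply le_antisymm _ (sup_le inf_le_left inf_le_left)
  conv_lhs => rw [h]
  apply iSup_le
  rintro ⟨B, hBQ, hBi⟩
  have hmul : Nat.card B * B.relIndex Q = q ^ 2 := by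
    rw [← hQc]
    have := Subgroup.relIndex_mul_relIndex ⊥ B Q bot_le hBQ
    simpa [Subgroup.relIndex_bot_left] using this
  have hdvd : B.relIndex Q ∣ q ^ 2 := Dvd.intro_left _ hmul
  obtain ⟨k, hk2, hk⟩ := (Nat.dvd_prime_pow hq).mp hdvd
  change P ⊓ centralizer (B : Set S) ≤ _
  interval_cases k
  · -- relIndex = 1
    rw [pow_zero, Subgroup.relIndex_eq_one] at hk
    refine le_trans ?_ le_sup_left
    exact inf_le_inf_left P (centralizer_le (h₁.trans hk))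
  · rw [pow_one] at hk
    rw [hk] at hmul
    have hcB : Nat.card B = q := by
      have : Nat.card B * q = q * q := by rw [hmul]; ring
      exact Nat.eq_of_mul_eq_mul_right hq.pos this
    by_cases e1 : B = X₁
    · rw [e1]; exact le_sup_left
    by_cases e2 : B = X₂
    · rw [e2]; exact le_sup_right
    rw [honly B hBQ hcB e1 e2]; exact bot_le
  · exfalso
    rw [hk] at hBi
    have : q < q ^ 2 := by
      have := hq.one_lt
      nlinarith
    omega

theorem inf_eq_bot_of_prime {X₁ X₂ : Subgroup S} (h₁₂ : X₁ ≠ X₂) (hc₁ : Nat.card X₁ = q)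
    (hc₂ : Nat.card X₂ = q) : X₁ ⊓ X₂ = ⊥ := by
  have hq : q.Prime := Fact.out
  have h1 : Nat.card (X₁ ⊓ X₂ : Subgroup S) ∣ q := hc₁ ▸ Subgroup.card_dvd_of_le inf_le_left
  rcases (Nat.dvd_prime hq).mp h1 with h | h
  · exact Subgroup.card_eq_one.mp h
  · exfalso
    have e1 : X₁ ⊓ X₂ = X₁ := Subgroup.eq_of_le_of_card_ge inf_le_left (by rw [h, hc₁])
    have e2 : X₁ ⊓ X₂ = X₂ := Subgroup.eq_of_le_of_card_ge inf_le_right (by rw [h, hc₂])
    exact h₁₂ (e1.symm.trans e2)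

theorem exists_ne_one_of_card {X : Subgroup S} (hc : Nat.card X = q) : ∃ x ∈ X, x ≠ 1 := by
  have hq : q.Prime := Fact.out
  by_contra hcon
  push Not at hcon
  have : X = ⊥ := by
    rw [eq_bot_iff]; intro x hx; exact mem_bot.mpr (hcon x hx)
  rw [this, Subgroup.card_bot] at hc
  exact hq.one_lt.ne hc

theorem disj {Q X₁ X₂ P : Subgroup S} (hQ : Cfsg.IsElementaryAbelian q Q)
    (h₁ : X₁ ≤ Q) (h₂ : X₂ ≤ Q) (h₁₂ : X₁ ≠ X₂) (hc₁ : Nat.card X₁ = q) (hc₂ : Nat.card X₂ = q)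
    (hG : Good p q Q X₁ X₂ P) :
    ∀ z ∈ P, z ∈ centralizer (X₁ : Set S) → z ∈ centralizer (X₂ : Set S) → z = 1 := by
  obtain ⟨hP, hQN, honly⟩ := hG
  have hq : q.Prime := Fact.out
  intro z hz hz1 hz2
  obtain ⟨x₁, hx₁, hx₁1⟩ := exists_ne_one_of_card hc₁
  obtain ⟨x₂, hx₂, hx₂1⟩ := exists_ne_one_of_card hc₂
  have hinf := inf_eq_bot_of_prime h₁₂ hc₁ hc₂
  have hbot : ∀ y, y ∈ X₁ → y ∈ X₂ → y = 1 := by
    intro y h1 h2
    have : y ∈ X₁ ⊓ X₂ := mem_inf.mpr ⟨h1, h2⟩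
    rw [hinf] at this
    exact mem_bot.mp this
  set w := x₁ * x₂ with hw
  have hwQ : w ∈ Q := Q.mul_mem (h₁ hx₁) (h₂ hx₂)
  have hw1 : w ≠ 1 := by
    intro h0
    apply hx₁1
    apply hbot x₁ hx₁
    have : x₁ = x₂⁻¹ := eq_inv_of_mul_eq_one_left h0
    rw [this]; exact X₂.inv_mem hx₂
  have hord : orderOf w = q := orderOf_eq_prime (hQ.2 w hwQ) hw1
  have hX3 := honly (zpowers w) (zpowers_le.mpr hwQ) (by rw [Nat.card_zpowers, hord])
    (by
      intro h0
      apply hx₂1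
      apply hbot x₂ _ hx₂
      have h3 : w ∈ X₁ := h0 ▸ mem_zpowers w
      have : x₂ = x₁⁻¹ * w := by rw [hw]; group
      rw [this]; exact X₁.mul_mem (X₁.inv_mem hx₁) h3)
    (by
      intro h0
      apply hx₁1
      apply hbot x₁ hx₁
      have h3 : w ∈ X₂ := h0 ▸ mem_zpowers w
      have : x₁ = w * x₂⁻¹ := by rw [hw]; group
      rw [this]; exact X₂.mul_mem h3 (X₂.inv_mem hx₂))
  have hzw : z ∈ P ⊓ centralizer ((zpowers w : Subgroup S) : Set S) := by
    refine mem_inf.mpr ⟨hz, ?_⟩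
    rw [mem_centralizer_iff]
    intro y hy
    obtain ⟨k, rfl⟩ := mem_zpowers_iff.mp hy
    have c1 : Commute x₁ z := mem_centralizer_iff.mp hz1 x₁ hx₁
    have c2 : Commute x₂ z := mem_centralizer_iff.mp hz2 x₂ hx₂
    exact ((c1.mul_left c2).zpow_left k)
  rw [hX3] at hzw
  exact mem_bot.mp hzw

theorem comm_full (hpq : p ≠ q) {K X : Subgroup S} (hK : IsPGroup p K) (hX : Nat.card X = q)
    (hXK : X ≤ normalizer (K : Set S)) (hfix : K ⊓ centralizer (X : Set S) = ⊥) : ⁅K, X⁆ = K := by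
  have : Group.IsNilpotent K := hK.isNilpotent
  have h := Cfsg.Agent.Lib.Helper30.commutator_sup_centralizer hXK (coprime_card hpq hK hX)
    (Or.inr inferInstance)
  rwa [hfix, sup_bot_eq] at h

theorem key (hpq : p ≠ q) {Q X₁ X₂ : Subgroup S} (hQ : Cfsg.IsElementaryAbelian q Q)
    (hQc : Nat.card Q = q ^ 2)
    (h₁ : X₁ ≤ Q) (h₂ : X₂ ≤ Q) (h₁₂ : X₁ ≠ X₂) (hc₁ : Nat.card X₁ = q) (hc₂ : Nat.card X₂ = q) :
    ∀ n : ℕ, ∀ P : Subgroup S, Nat.card P = n → Good p q Q X₁ X₂ P →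
      ⁅P ⊓ centralizer (X₁ : Set S), P ⊓ centralizer (X₂ : Set S)⁆ = ⊥ := by
  intro n
  induction n using Nat.strong_induction_on with
  | _ n ih =>
  intro P hPn hG
  have hdisj := disj hQ h₁ h₂ h₁₂ hc₁ hc₂ hG
  obtain ⟨hP, hQN, honly⟩ := hG
  set P₁ := P ⊓ centralizer (X₁ : Set S) with hP₁
  set P₂ := P ⊓ centralizer (X₂ : Set S) with hP₂
  have hQC₁ : Q ≤ centralizer (X₁ : Set S) := Q_le_centralizer hQ h₁
  have hQC₂ : Q ≤ centralizer (X₂ : Set S) := Q_le_centralizer hQ h₂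
  have hQP₁ : Q ≤ normalizer (P₁ : Set S) :=
    Cfsg.Agent.Lib.Helper30.le_normalizer_inf hQN (hQC₁.trans le_normalizer)
  have hQP₂ : Q ≤ normalizer (P₂ : Set S) :=
    Cfsg.Agent.Lib.Helper30.le_normalizer_inf hQN (hQC₂.trans le_normalizer)
  by_cases hcase : P₁ = P
  · have : P₂ = ⊥ := by
      rw [eq_bot_iff]
      intro z hz
      obtain ⟨h1, h2⟩ := mem_inf.mp hz
      have h3 : z ∈ P₁ := hcase ▸ h1
      exact mem_bot.mpr (hdisj z h1 (mem_inf.mp h3).2 h2)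
    rw [this]
    exact commutator_bot_right _
  · have hlt : P₁ < P := lt_of_le_of_ne inf_le_left hcase
    obtain ⟨M, hP₁M, hMmax⟩ := Finite.exists_le_maximal
      (p := fun M : Subgroup S => P₁ ≤ M ∧ M < P ∧ Q ≤ normalizer (M : Set S)) (a := P₁)
      ⟨le_rfl, hlt, hQP₁⟩
    obtain ⟨⟨-, hMP, hQM⟩, hmax⟩ := hMmax
    -- M is normal in P
    have hPM : P ≤ normalizer (M : Set S) := by
      obtain ⟨s, hsP, hsM, hsN⟩ := Cfsg.Agent.Lib.Helper58.exists_normalizing_not_mem P M hP hMP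
      set N := P ⊓ normalizer (M : Set S) with hN
      have hMN : M ≤ N := le_inf hMP.le le_normalizer
      have hQNn : Q ≤ normalizer (N : Set S) := by
        apply Cfsg.Agent.Lib.Helper30.le_normalizer_inf hQN
        intro a ha
        have h1 := Cfsg.Agent.Lib.Helper39.cj_eq_of_mem_normalizer (hQM ha)
        apply Cfsg.Agent.Lib.Helper39.mem_normalizer_of_cj_eq
        rw [Cfsg.Agent.Lib.Helper39.cj_normalizer a M, h1]
      by_contra hcon
      have hNP : N < P := by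
        refine lt_of_le_of_ne inf_le_left ?_
        intro h0
        apply hcon
        rw [← h0]; exact inf_le_right
      have := hmax (y := N) ⟨hP₁M.trans hMN, hNP, hQNn⟩ hMN
      exact hsM (this (mem_inf.mpr ⟨hsP, hsN⟩))
    have hGM : Good p q Q X₁ X₂ M := by
      refine ⟨hP.to_le hMP.le, hQM, ?_⟩
      intro X hX hXc e1 e2
      rw [eq_bot_iff, ← honly X hX hXc e1 e2]
      exact inf_le_inf_right _ hMP.le
    have hcardM : Nat.card M < n := by
      rw [← hPn]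
      exact Cfsg.Agent.Lib.Helper27.card_lt_of_lt hMP
    have hIH := ih (Nat.card M) hcardM M rfl hGM
    have hgenM := gen hpq hQ hQc h₁ hGM
    have hM₁ : M ⊓ centralizer (X₁ : Set S) = P₁ := by
      apply le_antisymm
      · exact inf_le_inf_right _ hMP.le
      · exact le_inf hP₁M inf_le_right
    rw [hM₁] at hIH hgenM
    set M₂ := M ⊓ centralizer (X₂ : Set S) with hM₂
    have hP₁p : IsPGroup p P₁ := hP.to_le inf_le_left
    have hP₂p : IsPGroup p P₂ := hP.to_le inf_le_left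
    have hfix12 : P₁ ⊓ centralizer (X₂ : Set S) = ⊥ := by
      rw [eq_bot_iff]
      intro z hz
      obtain ⟨h1, h2⟩ := mem_inf.mp hz
      exact mem_bot.mpr (hdisj z (mem_inf.mp h1).1 (mem_inf.mp h1).2 h2)
    have hfix21 : P₂ ⊓ centralizer (X₁ : Set S) = ⊥ := by
      rw [eq_bot_iff]
      intro z hz
      obtain ⟨h1, h2⟩ := mem_inf.mp hz
      exact mem_bot.mpr (hdisj z (mem_inf.mp h1).1 h2 (mem_inf.mp h1).2)
    have hfull1 : ⁅P₁, X₂⁆ = P₁ := comm_full hpq hP₁p hc₂ (h₂.trans hQP₁) hfix12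
    have hfull2 : ⁅P₂, X₁⁆ = P₂ := comm_full hpq hP₂p hc₁ (h₁.trans hQP₂) hfix21
    have hMX : ⁅M, X₂⁆ = P₁ := by
      apply le_antisymm
      · rw [commutator_le]
        intro m hm x hx
        rw [hgenM] at hm
        obtain ⟨a, ha, b, hb, rfl⟩ := (Cfsg.Agent.Lib.Helper27.mem_sup_of_comm hIH).mp hm
        have hbx : x * b = b * x := mem_centralizer_iff.mp (mem_inf.mp hb).2 x hx
        have e : ⁅a * b, x⁆ = a * (x * a⁻¹ * x⁻¹) := by
          rw [commutatorElement_def]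
          calc a * b * x * (a * b)⁻¹ * x⁻¹ = a * (b * x) * b⁻¹ * a⁻¹ * x⁻¹ := by group
            _ = a * (x * b) * b⁻¹ * a⁻¹ * x⁻¹ := by rw [hbx]
            _ = a * (x * a⁻¹ * x⁻¹) := by group
        rw [e]
        exact P₁.mul_mem ha ((mem_normalizer_iff.mp (hQP₁ (h₂ hx)) _).mp (P₁.inv_mem ha))
      · conv_lhs => rw [← hfull1]
        exact commutator_mono hP₁M le_rfl
    have hP₂N : P₂ ≤ normalizer (P₁ : Set S) := by
      rw [← hMX]
      apply Cfsg.Agent.Lib.Helper27.le_normalizer_comm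
      · exact inf_le_left.trans hPM
      · exact inf_le_right.trans (centralizer_le_normalizer _)
    have hc1 : ⁅P₂, P₁⁆ ≤ P₁ := le_normalizer_iff_commutator_le_right.mp hP₂N
    have hP₁X₁ : ⁅P₁, X₁⁆ = ⊥ := by
      rw [commutator_eq_bot_iff_le_centralizer]
      exact inf_le_right
    have t1 : ⁅⁅P₂, P₁⁆, X₁⁆ = ⊥ := by
      rw [eq_bot_iff, ← hP₁X₁]
      exact commutator_mono hc1 le_rfl
    have t2 : ⁅⁅P₁, X₁⁆, P₂⁆ = ⊥ := by
      rw [hP₁X₁]; exact commutator_bot_left _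
    have t3 := commutator_commutator_eq_bot_of_rotate t1 t2
    rw [commutator_comm X₁ P₂, hfull2, commutator_comm] at t3
    exact t3

end


/-- Let S = PQ be a finite group with P a normal Sylow p-subgroup and Q elementary abelian of order q², q a prime different from p. If exactly two subgroups X₁, X₂ of order q in Q have a nontrivial centralizer in P, then P is the internal direct product of C_P(X₁) and C_P(X₂): they commute elementwise, meet trivially and generate P. -/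
theorem result {S : Type*} [Group S] [Finite S] {p q : ℕ} [Fact p.Prime] [Fact q.Prime] (hpq : p ≠ q)
    (P : Sylow p S) [(P : Subgroup S).Normal] (Q : Subgroup S) (hQ : Cfsg.IsElementaryAbelian q Q) (hQc : Nat.card Q = q ^ 2)
    (hS : (P : Subgroup S) ⊔ Q = ⊤)
    (X₁ X₂ : Subgroup S) (h₁ : X₁ ≤ Q) (h₂ : X₂ ≤ Q) (h₁₂ : X₁ ≠ X₂) (hc₁ : Nat.card X₁ = q) (hc₂ : Nat.card X₂ = q)
    (hf₁ : (P : Subgroup S) ⊓ Subgroup.centralizer (X₁ : Set S) ≠ ⊥)
    (hf₂ : (P : Subgroup S) ⊓ Subgroup.centralizer (X₂ : Set S) ≠ ⊥)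
    (honly : ∀ X : Subgroup S, X ≤ Q → Nat.card X = q →
      (P : Subgroup S) ⊓ Subgroup.centralizer (X : Set S) ≠ ⊥ → X = X₁ ∨ X = X₂) :
    ⁅(P : Subgroup S) ⊓ Subgroup.centralizer (X₁ : Set S), (P : Subgroup S) ⊓ Subgroup.centralizer (X₂ : Set S)⁆ = ⊥ ∧
      ((P : Subgroup S) ⊓ Subgroup.centralizer (X₁ : Set S)) ⊓ ((P : Subgroup S) ⊓ Subgroup.centralizer (X₂ : Set S)) = ⊥ ∧
      ((P : Subgroup S) ⊓ Subgroup.centralizer (X₁ : Set S)) ⊔ ((P : Subgroup S) ⊓ Subgroup.centralizer (X₂ : Set S)) = P := by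
  have hG : Good p q Q X₁ X₂ (P : Subgroup S) := by
    refine ⟨P.2, ?_, ?_⟩
    · rw [Subgroup.normalizer_eq_top]; exact le_top
    · intro X hX hXc e1 e2
      by_contra hne
      rcases honly X hX hXc hne with h | h
      · exact e1 h
      · exact e2 h
  refine ⟨key hpq hQ hQc h₁ h₂ h₁₂ hc₁ hc₂ _ _ rfl hG, ?_, (gen hpq hQ hQc h₁ hG).symm⟩
  rw [eq_bot_iff]
  intro z hz
  obtain ⟨h1, h2⟩ := Subgroup.mem_inf.mp hz
  exact Subgroup.mem_bot.mpr (disj hQ h₁ h₂ h₁₂ hc₁ hc₂ hG z (Subgroup.mem_inf.mp h1).1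
    (Subgroup.mem_inf.mp h1).2 (Subgroup.mem_inf.mp h2).2)

end Cfsg.Agent.S1900
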