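import Cfsg.Statements.S1901
-- import your own Cfsg.Agent.* helpers here
import Cfsg.Agent.Lib.Helper39.SylowRel

set_option autoImplicit false
open Cfsg

namespace Cfsg.Agent.S1901

open Cfsg.Agent.Lib.Helper39 in
theorem lemA {K : Type*} [Group K] [Finite K] {p : ℕ} [Fact p.Prime] (P : Sylow p K)
    (Y : Subgroup K) (hPY : (P : Subgroup K) ≤ Subgroup.centralizer (Y : Set K)) {x : K}
    (hx : x ∈ Subgroup.normalizer (Y : Set K)) (hxp : IsPGroup p (Subgroup.zpowers x)) :
    x ∈ Subgroup.centralizer (Y : Set K) := by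
  have hCN : Subgroup.centralizer (Y : Set K) ≤ Subgroup.normalizer (Y : Set K) :=
    Subgroup.centralizer_le_normalizer _
  obtain ⟨h, hh, hle⟩ := exists_conj_le_of_relIndex (H := Subgroup.normalizer (Y : Set K))
    (R := (P : Subgroup K)) (Q := Subgroup.zpowers x) (hPY.trans hCN) P.2
    (sylow_relIndex_of_le P (hPY.trans hCN)) (Subgroup.zpowers_le.mpr hx) hxp
  have h1 : h * x * h⁻¹ ∈ (P : Subgroup K) := hle (conj_mem_cj (Subgroup.mem_zpowers x))
  have h2 := hPY h1
  rw [Subgroup.mem_centralizer_iff] at h2 ⊢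
  intro y hy
  have hy' : h * y * h⁻¹ ∈ Y := (Subgroup.mem_normalizer_iff.mp hh y).mp hy
  have h3 := h2 _ hy'
  have h4 : h * (y * x) * h⁻¹ = h * (x * y) * h⁻¹ := by
    calc h * (y * x) * h⁻¹ = (h * y * h⁻¹) * (h * x * h⁻¹) := by group
      _ = (h * x * h⁻¹) * (h * y * h⁻¹) := h3
      _ = h * (x * y) * h⁻¹ := by group
  exact mul_left_cancel (mul_right_cancel h4)

theorem mem_of_pow_mem_coprime {G : Type*} [Group G] (M : Subgroup G) {z : G} {a b : ℕ}
    (ha : z ^ a ∈ M) (hb : z ^ b ∈ M) (hab : a.Coprime b) : z ∈ M := by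
  have h := Nat.gcd_eq_gcd_ab a b
  rw [hab] at h
  have : z = (z ^ a) ^ (a.gcdA b) * (z ^ b) ^ (a.gcdB b) := by
    rw [← zpow_natCast z a, ← zpow_natCast z b, ← zpow_mul, ← zpow_mul, ← zpow_add, ← h]
    simp
  rw [this]
  exact M.mul_mem (M.zpow_mem ha _) (M.zpow_mem hb _)


/-- Let G be a finite p-solvable group and Q a subgroup of order prime to p such that p divides the index of C_G(Q) in N_G(Q). Then Q normalizes no Sylow p-subgroup of G. -/
theorem result {G : Type*} [Group G] [Finite G] {p : ℕ} [Fact p.Prime]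
    (hG : Cfsg.IsPSolvable p G) (Q : Subgroup G) (hQ : ¬ p ∣ Nat.card Q)
    (hA : p ∣ (Subgroup.centralizer (Q : Set G)).relIndex (Subgroup.normalizer (Q : Set G)))
    (P : Sylow p G) : ¬ Q ≤ Subgroup.normalizer ((P : Subgroup G) : Set G) := by
  intro hQP
  classical
  have hp : p.Prime := Fact.out
  obtain ⟨n, H, h0, hlast, hmono, hnorm, hfac⟩ := hG
  have key : ∀ i : ℕ, ∀ hi : i < n + 1, ∀ Q : Subgroup G, Q ≤ H ⟨i, hi⟩ →
      (Nat.card Q).Coprime p → Q ≤ Subgroup.normalizer ((P : Subgroup G) : Set G) →
      ∀ x ∈ Subgroup.normalizer (Q : Set G), IsPGroup p (Subgroup.zpowers x) →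
        x ∈ Subgroup.centralizer (Q : Set G) := by
    intro i
    induction i with
    | zero =>
      intro hi Q hQH _ _ x _ _
      have : H ⟨0, hi⟩ = ⊥ := h0
      rw [this] at hQH
      rw [Subgroup.mem_centralizer_iff]
      intro u hu
      have := hQH hu
      rw [Subgroup.mem_bot] at this
      simp [this]
    | succ i ih =>
      intro hi Q hQH hQc hQN x hx hxp
      have hi' : i < n := by omega
      have hM : (H ⟨i, by omega⟩).Normal := hnorm _
      have hL : (H ⟨i + 1, hi⟩).Normal := hnorm _
      set M := H ⟨i, by omega⟩ with hMdef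
      set L := H ⟨i + 1, hi⟩ with hLdef
      have hf := hfac ⟨i, hi'⟩
      have e1 : H (Fin.castSucc ⟨i, hi'⟩) = M := rfl
      have e2 : H (Fin.succ ⟨i, hi'⟩) = L := rfl
      rw [e1, e2] at hf
      rcases hf with ⟨m, hm⟩ | hcop
      · -- p-factor
        have hQM : Q ≤ M := by
          intro u hu
          have h1 : u ^ (M.relIndex L) ∈ M := Subgroup.pow_relIndex_mem M (hQH hu)
          rw [hm] at h1
          have h2 : u ^ (Nat.card Q) ∈ M := by
            have : u ^ (Nat.card Q) = 1 := by
              have h9 := pow_card_eq_one' (G := Q) (x := ⟨u, hu⟩)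
              have h10 := congrArg Subtype.val h9
              rwa [Subgroup.coe_pow, Subgroup.coe_one] at h10
            rw [this]; exact M.one_mem
          exact mem_of_pow_mem_coprime M h2 h1 (hQc.pow_right m)
        exact ih (by omega) Q hQM hQc hQN x hx hxp
      · -- p'-factor
        -- P ∩ L ≤ M
        have hPL : ∀ z ∈ (P : Subgroup G), z ∈ L → z ∈ M := by
          intro z hzP hzL
          have h1 : z ^ (M.relIndex L) ∈ M := Subgroup.pow_relIndex_mem M hzL
          obtain ⟨k, hk⟩ := P.2 ⟨z, hzP⟩
          have h2 : z ^ (p ^ k) ∈ M := by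
            have : z ^ (p ^ k) = 1 := by simpa using congrArg Subtype.val hk
            rw [this]; exact M.one_mem
          exact mem_of_pow_mem_coprime M h1 h2 (hcop.pow_right k)
        let π := QuotientGroup.mk' M
        have hπ : Function.Surjective π := QuotientGroup.mk'_surjective M
        let P' : Sylow p (G ⧸ M) := P.mapSurjective hπ
        have hP' : (P' : Subgroup (G ⧸ M)) = (P : Subgroup G).map π := Sylow.coe_mapSurjective hπ P
        have hcent : (P' : Subgroup (G ⧸ M)) ≤ Subgroup.centralizer ((Q.map π : Subgroup (G ⧸ M)) : Set (G ⧸ M)) := by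
          rw [hP']
          rintro _ ⟨a, ha, rfl⟩
          rw [Subgroup.mem_centralizer_iff]
          rintro _ ⟨u, hu, rfl⟩
          have h1 : u * a * u⁻¹ ∈ (P : Subgroup G) :=
            (Subgroup.mem_normalizer_iff.mp (hQN hu) a).mp ha
          have h2 : (u * a * u⁻¹) * a⁻¹ ∈ (P : Subgroup G) := mul_mem h1 (inv_mem ha)
          have h3 : (u * a * u⁻¹) * a⁻¹ ∈ L := by
            have : (u * a * u⁻¹) * a⁻¹ = u * (a * u⁻¹ * a⁻¹) := by group
            rw [this]
            exact L.mul_mem (hQH hu) (hL.conj_mem _ (L.inv_mem (hQH hu)) a)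
          have h4 := hPL _ h2 h3
          have h5 : π ((u * a * u⁻¹) * a⁻¹) = 1 := (QuotientGroup.eq_one_iff _).mpr h4
          rw [map_mul, map_mul, map_mul, map_inv, map_inv] at h5
          have : π u * π a = (π u * π a * (π u)⁻¹ * (π a)⁻¹) * (π a * π u) := by group
          rw [this, h5, one_mul]
        have hxN : π x ∈ Subgroup.normalizer ((Q.map π : Subgroup (G ⧸ M)) : Set (G ⧸ M)) := by
          have := Subgroup.le_normalizer_map π (H := Q) (Subgroup.mem_map_of_mem π hx)
          exact this
        have hxp' : IsPGroup p (Subgroup.zpowers (π x)) := by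
          have : Subgroup.zpowers (π x) = (Subgroup.zpowers x).map π := by
            rw [MonoidHom.map_zpowers]
          rw [this]
          exact hxp.map π
        have hxc := lemA P' (Q.map π) hcent hxN hxp'
        -- so [u,x] in M
        have hux : ∀ u ∈ Q, u * x * u⁻¹ * x⁻¹ ∈ M := by
          intro u hu
          have h1 := (Subgroup.mem_centralizer_iff.mp hxc) (π u) (Subgroup.mem_map_of_mem π hu)
          apply (QuotientGroup.eq_one_iff _).mp
          change π (u * x * u⁻¹ * x⁻¹) = 1
          rw [map_mul, map_mul, map_mul, map_inv, map_inv, h1]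
          group
        -- Q ⊓ M
        have hx0 : x ∈ Subgroup.normalizer ((Q ⊓ M : Subgroup G) : Set G) := by
          rw [Subgroup.mem_normalizer_iff]
          intro u
          rw [Subgroup.mem_inf, Subgroup.mem_inf, ← Subgroup.mem_normalizer_iff.mp hx u]
          constructor
          · rintro ⟨h1, h2⟩
            exact ⟨h1, hM.conj_mem u h2 x⟩
          · rintro ⟨h1, h2⟩
            refine ⟨h1, ?_⟩
            have := hM.conj_mem _ h2 x⁻¹
            simpa [mul_assoc] using this
        have hc0 : (Nat.card (Q ⊓ M : Subgroup G)).Coprime p :=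
          Nat.Coprime.coprime_dvd_left (Subgroup.card_dvd_of_le inf_le_left) hQc
        have hxc0 := ih (by omega) (Q ⊓ M) inf_le_right hc0 (inf_le_left.trans hQN) x hx0 hxp
        rw [Subgroup.mem_centralizer_iff]
        intro u hu
        set y := u * x * u⁻¹ * x⁻¹ with hy
        have hyQ : y ∈ Q := by
          have h1 : x * u⁻¹ * x⁻¹ ∈ Q := (Subgroup.mem_normalizer_iff.mp hx _).mp (Q.inv_mem hu)
          have : y = u * (x * u⁻¹ * x⁻¹) := by rw [hy]; group
          rw [this]; exact Q.mul_mem hu h1
        have hyx : y * x = x * y := (Subgroup.mem_centralizer_iff.mp hxc0) y ⟨hyQ, hux u hu⟩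
        have h1 : u * x * u⁻¹ = y * x := by rw [hy]; group
        have h2 : ∀ k : ℕ, u * x ^ k * u⁻¹ = y ^ k * x ^ k := by
          intro k
          rw [← conj_pow, h1, (show Commute y x from hyx).mul_pow]
        obtain ⟨k, hk⟩ := hxp ⟨x, Subgroup.mem_zpowers x⟩
        have hk' : x ^ p ^ k = 1 := by simpa using congrArg Subtype.val hk
        have h3 : y ^ (p ^ k) = 1 := by
          have := h2 (p ^ k)
          rw [hk'] at this
          simpa using this.symm
        have h4 : y ^ (Nat.card Q) = 1 := by
          have h9 := pow_card_eq_one' (G := Q) (x := ⟨y, hyQ⟩)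
          have h10 := congrArg Subtype.val h9
          rwa [Subgroup.coe_pow, Subgroup.coe_one] at h10
        have hy1 : y = 1 := by
          have := mem_of_pow_mem_coprime (⊥ : Subgroup G) (z := y) (a := Nat.card Q) (b := p ^ k)
            (by rw [h4]; exact Subgroup.one_mem _) (by rw [h3]; exact Subgroup.one_mem _)
            (hQc.pow_right k)
          simpa using this
        rw [hy1, one_mul] at h1
        calc u * x = (u * x * u⁻¹) * u := by group
          _ = x * u := by rw [h1]
  have hQc : (Nat.card Q).Coprime p := ((Nat.Prime.coprime_iff_not_dvd hp).mpr hQ).symm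
  have hall : ∀ x ∈ Subgroup.normalizer (Q : Set G), IsPGroup p (Subgroup.zpowers x) →
        x ∈ Subgroup.centralizer (Q : Set G) := by
    have := key n (by omega) Q (by
      have : H ⟨n, by omega⟩ = ⊤ := hlast
      rw [this]; exact le_top) hQc hQP
    exact this
  -- a Sylow p-subgroup of N(Q)
  obtain ⟨R⟩ : Nonempty (Sylow p (Subgroup.normalizer (Q : Set G))) := inferInstance
  have hRle : (R : Subgroup (Subgroup.normalizer (Q : Set G))) ≤
      (Subgroup.centralizer (Q : Set G)).subgroupOf (Subgroup.normalizer (Q : Set G)) := by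
    intro r hr
    rw [Subgroup.mem_subgroupOf]
    apply hall _ r.2
    have hz : IsPGroup p (Subgroup.zpowers r) := R.2.to_le (Subgroup.zpowers_le.mpr hr)
    have : Subgroup.zpowers (r : G) = (Subgroup.zpowers r).map (Subgroup.subtype _) := by
      rw [MonoidHom.map_zpowers]; rfl
    rw [this]
    exact hz.map _
  have h1 : ((Subgroup.centralizer (Q : Set G)).subgroupOf (Subgroup.normalizer (Q : Set G))).index ∣
      (R : Subgroup (Subgroup.normalizer (Q : Set G))).index := Subgroup.index_dvd_of_le hRle
  exact R.not_dvd_index (hA.trans h1)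

end Cfsg.Agent.S1901
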