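import Cfsg.Statements.S1902
import Cfsg.Agent.S0629
import Cfsg.Agent.S1302
import Cfsg.Agent.Lib.Helper73.PSolvSub
import Cfsg.Agent.Lib.Helper26.Conj

set_option autoImplicit false
open Cfsg Cfsg.Agent.Lib Cfsg.Agent.Lib.Helper26

namespace Cfsg.Agent.S1902

/-- Let p be an odd prime, G a finite p-solvable group, and B an elementary abelian subgroup of order p² such that B is the subgroup generated by the elements of order p of some Sylow p-subgroup of C_G(b₀), for some nontrivial b₀ ∈ B. Then every B-invariant subgroup of G of order prime to p lies in O_{p'}(G). -/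
theorem result {G : Type*} [Group G] [Finite G] {p : ℕ} [Fact p.Prime] (hp : p ≠ 2)
    (hG : Cfsg.IsPSolvable p G) (B : Subgroup G) (hB : Cfsg.IsElementaryAbelian p B) (hBc : Nat.card B = p ^ 2)
    (b₀ : G) (hb₀ : b₀ ∈ B) (hb₁ : b₀ ≠ 1) (P : Sylow p ↥(Subgroup.centralizer ({b₀} : Set G)))
    (hBP : B = Subgroup.closure {x : G | x ∈ ((P : Subgroup ↥(Subgroup.centralizer ({b₀} : Set G))).map
      (Subgroup.centralizer ({b₀} : Set G)).subtype : Subgroup G) ∧ orderOf x = p})
    (Q : Subgroup G) (hQ : ¬ p ∣ Nat.card Q) (hinv : ∀ b ∈ B, ∀ x ∈ Q, b * x * b⁻¹ ∈ Q) :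
    Q ≤ Cfsg.pPrimeCore p G := by
  classical
  have hpp : p.Prime := Fact.out
  have hX : Cfsg.IsPConstrained p G := by
    obtain ⟨P0⟩ : Nonempty (Sylow p ↥(Cfsg.pPrimePCore p G)) := inferInstance
    exact Cfsg.Agent.S0629.result P0 (Helper73.isPSolvable_subgroup hG _)
  have hBp : IsPGroup p B := IsPGroup.of_card hBc
  have hBcomm : ∀ a ∈ B, ∀ b ∈ B, a * b = b * a := by
    intro a ha b hb
    have := hB.1.is_comm.comm (⟨a, ha⟩ : B) ⟨b, hb⟩
    exact congrArg Subtype.val this
  have hgen : ∀ y ∈ ((P : Subgroup ↥(Subgroup.centralizer ({b₀} : Set G))).map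
      (Subgroup.centralizer ({b₀} : Set G)).subtype : Subgroup G), orderOf y = p → y ∈ B := by
    intro y hy ho
    rw [hBP]
    exact Subgroup.subset_closure ⟨hy, ho⟩
  have hΩ : ∀ x ∈ Subgroup.centralizer (B : Set G), orderOf x = p → x ∈ B := by
    intro x hx ho
    set E := B ⊔ Subgroup.zpowers x with hEdef
    have hxp : IsPGroup p (Subgroup.zpowers x) := by
      apply IsPGroup.of_card (n := 1)
      rw [Nat.card_zpowers, ho, pow_one]
    have hE : IsPGroup p E := by
      apply IsPGroup.to_sup_of_normal_left' hBp hxp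
      rw [Subgroup.zpowers_le]
      exact Subgroup.centralizer_le_normalizer _ hx
    have hEC : E ≤ Subgroup.centralizer ({b₀} : Set G) := by
      apply sup_le
      · intro b hb
        rw [Subgroup.mem_centralizer_singleton_iff]
        exact hBcomm b hb b₀ hb₀
      · rw [Subgroup.zpowers_le, Subgroup.mem_centralizer_singleton_iff]
        exact ((Subgroup.mem_centralizer_iff.1 hx) b₀ hb₀).symm
    obtain ⟨c, hc, hcE⟩ := exists_conj_le_sylow _ P E hE hEC
    have key : ∀ e ∈ E, orderOf e = p → c * e * c⁻¹ ∈ B := by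
      intro e he hoe
      refine hgen _ (hcE (conj_mem_cj he)) ?_
      rw [← hoe]
      exact orderOf_injective (MulAut.conj c).toMonoidHom (MulAut.conj c).injective e
    have keyB : ∀ b ∈ B, c * b * c⁻¹ ∈ B := by
      intro b hb
      by_cases h1 : b = 1
      · rw [h1]; simp [B.one_mem]
      · exact key b ((le_sup_left : B ≤ E) hb) (orderOf_eq_prime (hB.2 b hb) h1)
    let β : B → B := fun b => ⟨c * b.1 * c⁻¹, keyB b.1 b.2⟩
    have hinj : Function.Injective β := by
      intro a b hab
      have h1 : c * a.1 * c⁻¹ = c * b.1 * c⁻¹ := congrArg Subtype.val hab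
      exact Subtype.ext (mul_left_cancel (mul_right_cancel h1))
    have hsurj : Function.Surjective β := Finite.injective_iff_surjective.1 hinj
    obtain ⟨b, hb⟩ := hsurj ⟨c * x * c⁻¹,
      key x ((le_sup_right : Subgroup.zpowers x ≤ E) (Subgroup.mem_zpowers x)) ho⟩
    have h1 : c * b.1 * c⁻¹ = c * x * c⁻¹ := congrArg Subtype.val hb
    have h2 : b.1 = x := mul_left_cancel (mul_right_cancel h1)
    rw [← h2]; exact b.2
  have hAQ : B ≤ Subgroup.normalizer (Q : Set G) := by
    intro b hb
    rw [Subgroup.mem_normalizer_iff]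
    intro x
    constructor
    · intro hx; exact hinv b hb x hx
    · intro hx
      have := hinv b⁻¹ (B.inv_mem hb) _ hx
      have e : b⁻¹ * (b * x * b⁻¹) * b⁻¹⁻¹ = x := by group
      rwa [e] at this
  exact Cfsg.Agent.S1302.result p hp hX B hB.1 hBp hΩ Q hQ hAQ

end Cfsg.Agent.S1902
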