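import Cfsg.Statements.S1905
-- import your own Cfsg.Agent.* helpers here
import Cfsg.Agent.Lib.Helper26.StronglyEmbedded
import Cfsg.Agent.Lib.Helper39.SylowRel

set_option autoImplicit false
open Cfsg

namespace Cfsg.Agent.S1905

open Cfsg.Agent.Lib.Helper26 Cfsg.Agent.Lib.Helper39

theorem lemA {S : Type*} [Group S] [Finite S] (M : Subgroup S)
    (hC : ∀ i ∈ M, orderOf i = 2 → Subgroup.centralizer ({i} : Set S) ≤ M)
    {i j : S} (hi : orderOf i = 2) (hj : orderOf j = 2) (hiM : i ∈ M) (hjM : j ∉ M) :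
    ∃ v : S, v * v = 1 ∧ v * i * v⁻¹ = j := by
  rcases Nat.even_or_odd (orderOf (i * j)) with h | h
  · exfalso
    obtain ⟨k, hk⟩ := h
    have hpos : 0 < orderOf (i * j) := orderOf_pos _
    obtain ⟨h1, h2, h3⟩ := dihedral_central i j (invol_mul_self hi) (invol_mul_self hj) k
      (by omega) (by omega)
    have hw : (i * j) ^ k ∈ M := hC i hiM hi (by
      rw [Subgroup.mem_centralizer_singleton_iff]; exact h2.eq)
    have hjM' : j ∈ M := hC _ hw h1 (by
      rw [Subgroup.mem_centralizer_singleton_iff]; exact h3.eq.symm)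
    exact hjM hjM'
  · obtain ⟨k, hk⟩ := h
    exact ⟨_, dihedral_conj i j (invol_mul_self hi) (invol_mul_self hj) k
      (by rw [← hk, pow_orderOf_eq_one])⟩

theorem exists_invol_not_mem {S : Type*} [Group S] [Finite S] (M : Subgroup S)
    (hM : Even (Nat.card M)) (hcore : Odd (Nat.card M.normalCore)) :
    ∃ j : S, orderOf j = 2 ∧ j ∉ M := by
  by_contra hcon
  push Not at hcon
  obtain ⟨t, ht⟩ := exists_prime_orderOf_dvd_card' (G := M) 2 (even_iff_two_dvd.mp hM)
  have ht' : orderOf (t : S) = 2 := by rwa [Subgroup.orderOf_coe]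
  have hle : Subgroup.normalClosure {t : S | orderOf t = 2} ≤ M := by
    unfold Subgroup.normalClosure
    rw [Subgroup.closure_le]
    intro x hx
    obtain ⟨a, ha, hax⟩ := Group.mem_conjugatesOfSet_iff.mp hx
    obtain ⟨g, rfl⟩ := isConj_iff.mp hax
    apply hcon
    rw [orderOf_conj_eq]; exact ha
  have hle2 : Subgroup.normalClosure {t : S | orderOf t = 2} ≤ M.normalCore :=
    (Subgroup.normal_le_normalCore).mpr hle
  have hmem : (t : S) ∈ M.normalCore := hle2 (Subgroup.subset_normalClosure ht')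
  have hdvd := orderOf_dvd_natCard (⟨(t : S), hmem⟩ : M.normalCore)
  rw [Subgroup.orderOf_mk, ht'] at hdvd
  exact (Nat.not_even_iff_odd.mpr hcore) (even_iff_two_dvd.mpr hdvd)


/-- Let M be a subgroup of even order of a finite group S such that M contains the centralizer in S of each of its involutions and the normal core of M in S has odd order. Then all involutions of S are conjugate. If moreover N_S(X) ≤ M for a Sylow 2-subgroup X of M and I is an involution in the centre of X, then all involutions of M are conjugate in M and M = M₀ C_M(I) for some subgroup M₀ of M of odd order. -/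
theorem result {S : Type*} [Group S] [Finite S] (M : Subgroup S) (hM : Even (Nat.card M))
    (hC : ∀ i ∈ M, orderOf i = 2 → Subgroup.centralizer ({i} : Set S) ≤ M) (hcore : Odd (Nat.card M.normalCore)) :
    (∀ x y : S, orderOf x = 2 → orderOf y = 2 → IsConj x y) ∧
      ∀ (X : Sylow 2 M) (I : M), I ∈ (Subgroup.center ↥(X : Subgroup ↥M)).map (X : Subgroup ↥M).subtype → orderOf I = 2 →
        Subgroup.normalizer (((X : Subgroup M).map M.subtype : Subgroup S) : Set S) ≤ M →
        (∀ x y : M, orderOf x = 2 → orderOf y = 2 → IsConj x y) ∧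
          ∃ M₀ : Subgroup M, Odd (Nat.card M₀) ∧
            ∀ m : M, ∃ a ∈ M₀, ∃ c ∈ Subgroup.centralizer ({I} : Set M), m = a * c := by
  obtain ⟨j0, hj0, hj0M⟩ := exists_invol_not_mem M hM hcore
  obtain ⟨i0', hi0'⟩ := exists_prime_orderOf_dvd_card' (G := M) 2 (even_iff_two_dvd.mp hM)
  have hi0 : orderOf (i0' : S) = 2 := by rwa [Subgroup.orderOf_coe]
  have key : ∀ c : S, orderOf c = 2 → IsConj c j0 := by
    intro c hc
    by_cases hcM : c ∈ M
    · obtain ⟨v, -, hv⟩ := lemA M hC hc hj0 hcM hj0M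
      exact isConj_iff.mpr ⟨v, hv⟩
    · obtain ⟨v, -, hv⟩ := lemA M hC hi0 hc i0'.2 hcM
      obtain ⟨w, -, hw⟩ := lemA M hC hi0 hj0 i0'.2 hj0M
      exact (isConj_iff.mpr ⟨v, hv⟩).symm.trans (isConj_iff.mpr ⟨w, hw⟩)
  refine ⟨fun x y hx hy => (key x hx).trans (key y hy).symm, ?_⟩
  intro X I hI hI2 hN
  set X' : Subgroup S := (X : Subgroup M).map M.subtype with hX'
  have hX'M : X' ≤ M := Subgroup.map_subtype_le _
  have hX'p : IsPGroup 2 X' := X.2.map _
  have hX'idx : ¬ 2 ∣ X'.relIndex M := by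
    have : X'.subgroupOf M = X :=
      Subgroup.comap_map_eq_self_of_injective (Subgroup.subtype_injective _) _
    rw [Subgroup.relIndex, this]
    exact X.not_dvd_index
  have hI2' : orderOf (I : S) = 2 := by rwa [Subgroup.orderOf_coe]
  have hIcomm : ∀ s ∈ X', (I : S) * s = s * (I : S) := by
    intro s hs
    obtain ⟨s', hs', rfl⟩ := hs
    obtain ⟨c, hc, rfl⟩ := hI
    have := (Subgroup.mem_center_iff.mp hc) ⟨s', hs'⟩
    have h2 := congrArg (fun z : (X : Subgroup M) => ((z : M) : S)) this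
    exact h2.symm
  have hB0 : ∀ x ∈ X', orderOf x = 2 → ∀ g : S, g * x * g⁻¹ ∈ M → g ∈ M := by
    intro x hx hx2 g hg
    have h1 : g * (I : S) * g⁻¹ ∈ M := by
      apply hC _ hg (by rw [orderOf_conj_eq, hx2])
      rw [Subgroup.mem_centralizer_singleton_iff, eq_comm]
      have := hIcomm x hx
      calc g * x * g⁻¹ * (g * (I : S) * g⁻¹) = g * (x * (I : S)) * g⁻¹ := by group
        _ = g * ((I : S) * x) * g⁻¹ := by rw [this]
        _ = g * (I : S) * g⁻¹ * (g * x * g⁻¹) := by group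
    have h2 : cj g X' ≤ M := by
      intro s hs
      rw [mem_cj] at hs
      have h3 : g * (g⁻¹ * s * g) * g⁻¹ ∈ M := by
        apply hC _ h1 (by rw [orderOf_conj_eq, hI2'])
        rw [Subgroup.mem_centralizer_singleton_iff, eq_comm]
        have := hIcomm _ hs
        calc g * (I : S) * g⁻¹ * (g * (g⁻¹ * s * g) * g⁻¹)
            = g * ((I : S) * (g⁻¹ * s * g)) * g⁻¹ := by group
          _ = g * ((g⁻¹ * s * g) * (I : S)) * g⁻¹ := by rw [this]
          _ = g * (g⁻¹ * s * g) * g⁻¹ * (g * (I : S) * g⁻¹) := by group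
      have e : g * (g⁻¹ * s * g) * g⁻¹ = s := by group
      rwa [e] at h3
    obtain ⟨m, hm, hle⟩ := exists_conj_le_of_relIndex hX'M hX'p hX'idx h2 (isPGroup_cj g hX'p)
    rw [← cj_mul] at hle
    have h4 : m * g ∈ M := hN (mem_normalizer_of_cj_eq (cj_eq_of_le hle))
    have e : g = m⁻¹ * (m * g) := by group
    rw [e]
    exact M.mul_mem (M.inv_mem hm) h4
  have hB : ∀ x ∈ M, orderOf x = 2 → ∀ g : S, g * x * g⁻¹ ∈ M → g ∈ M := by
    intro x hx hx2 g hg
    have hz : Subgroup.zpowers x ≤ M := by rwa [Subgroup.zpowers_le]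
    have hzp : IsPGroup 2 (Subgroup.zpowers x) := by
      apply IsPGroup.of_card (n := 1)
      rw [Nat.card_zpowers, hx2, pow_one]
    obtain ⟨m, hm, hle⟩ := exists_conj_le_of_relIndex hX'M hX'p hX'idx hz hzp
    have h1 : m * x * m⁻¹ ∈ X' := hle (conj_mem_cj (Subgroup.mem_zpowers x))
    have h2 : g * m⁻¹ ∈ M := by
      apply hB0 _ h1 (by rw [orderOf_conj_eq, hx2])
      have e : g * m⁻¹ * (m * x * m⁻¹) * (g * m⁻¹)⁻¹ = g * x * g⁻¹ := by group
      rw [e]; exact hg
    have e : g = (g * m⁻¹) * m := by group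
    rw [e]
    exact M.mul_mem h2 hm
  refine ⟨?_, ?_⟩
  · intro x y hx hy
    have hx' : orderOf (x : S) = 2 := by rwa [Subgroup.orderOf_coe]
    have hy' : orderOf (y : S) = 2 := by rwa [Subgroup.orderOf_coe]
    obtain ⟨v, -, hv⟩ := lemA M hC hx' hj0 x.2 hj0M
    obtain ⟨w, -, hw⟩ := lemA M hC hy' hj0 y.2 hj0M
    have e : (w⁻¹ * v) * (x : S) * (w⁻¹ * v)⁻¹ = y := by
      calc (w⁻¹ * v) * (x : S) * (w⁻¹ * v)⁻¹ = w⁻¹ * (v * x * v⁻¹) * w := by group
        _ = w⁻¹ * (w * y * w⁻¹) * w := by rw [hv, hw]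
        _ = y := by group
    have hmem : w⁻¹ * v ∈ M := hB x x.2 hx' _ (by rw [e]; exact y.2)
    exact isConj_iff.mpr ⟨⟨_, hmem⟩, Subtype.ext e⟩
  · have hj0inv : j0⁻¹ = j0 := invol_inv hj0
    refine ⟨(cj j0 M).subgroupOf M, ?_, ?_⟩
    · by_contra hodd
      rw [Nat.not_odd_iff_even] at hodd
      obtain ⟨w, hw⟩ := exists_prime_orderOf_dvd_card' (G := (cj j0 M).subgroupOf M) 2
        (even_iff_two_dvd.mp hodd)
      have hw2 : orderOf ((w : M) : S) = 2 := by
        rw [Subgroup.orderOf_coe, Subgroup.orderOf_coe]; exact hw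
      have hwm : ((w : M) : S) ∈ cj j0 M := w.2
      rw [mem_cj] at hwm
      apply hj0M
      apply hB _ hwm (by
        have := orderOf_conj_eq j0⁻¹ ((w : M) : S)
        rw [inv_inv] at this
        rw [this, hw2])
      have e : j0 * (j0⁻¹ * ((w : M) : S) * j0) * j0⁻¹ = ((w : M) : S) := by group
      rw [e]; exact (w : M).2
    · intro m
      have hy2 : orderOf ((m : S) * (I : S) * (m : S)⁻¹) = 2 := by rw [orderOf_conj_eq, hI2']
      have hyM : (m : S) * (I : S) * (m : S)⁻¹ ∈ M := M.mul_mem (M.mul_mem m.2 I.2) (M.inv_mem m.2)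
      have hy'' : j0 * ((m : S) * (I : S) * (m : S)⁻¹) * j0⁻¹ ∉ M := fun h => hj0M (hB _ hyM hy2 j0 h)
      obtain ⟨v, hvv, hv⟩ := lemA M hC hI2' (by rw [orderOf_conj_eq, hy2]) I.2 hy''
      have hvinv : v⁻¹ = v := inv_eq_of_mul_eq_one_left hvv
      have e1 : (j0 * v) * (I : S) * (j0 * v)⁻¹ = (m : S) * (I : S) * (m : S)⁻¹ := by
        calc (j0 * v) * (I : S) * (j0 * v)⁻¹ = j0 * (v * (I : S) * v⁻¹) * j0⁻¹ := by group
          _ = j0 * (j0 * ((m : S) * (I : S) * (m : S)⁻¹) * j0⁻¹) * j0⁻¹ := by rw [hv]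
          _ = (j0 * j0) * ((m : S) * (I : S) * (m : S)⁻¹) * (j0 * j0)⁻¹ := by group
          _ = (m : S) * (I : S) * (m : S)⁻¹ := by rw [invol_mul_self hj0]; group
      have hd : j0 * v ∈ M := hB _ I.2 hI2' _ (by rw [e1]; exact hyM)
      have hd2 : j0 * v ∈ cj j0 M := by
        rw [mem_cj]
        have e2 : j0⁻¹ * (j0 * v) * j0 = (j0 * v)⁻¹ := by
          rw [mul_inv_rev, hvinv, hj0inv, ← mul_assoc, invol_mul_self hj0, one_mul]
        rw [e2]; exact M.inv_mem hd
      refine ⟨⟨j0 * v, hd⟩, hd2, (⟨j0 * v, hd⟩ : M)⁻¹ * m, ?_, by group⟩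
      rw [Subgroup.mem_centralizer_singleton_iff, eq_comm]
      apply Subtype.ext
      change (I : S) * ((j0 * v)⁻¹ * (m : S)) = (j0 * v)⁻¹ * (m : S) * (I : S)
      have e3 : (I : S) = (j0 * v)⁻¹ * ((m : S) * (I : S) * (m : S)⁻¹) * (j0 * v) := by
        rw [← e1]; group
      calc (I : S) * ((j0 * v)⁻¹ * (m : S))
          = ((j0 * v)⁻¹ * ((m : S) * (I : S) * (m : S)⁻¹) * (j0 * v)) * ((j0 * v)⁻¹ * (m : S)) := by
            rw [← e3]
        _ = (j0 * v)⁻¹ * (m : S) * (I : S) := by group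

end Cfsg.Agent.S1905
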