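import Cfsg.Statements.S1924
-- import your own Cfsg.Agent.* helpers here
import Cfsg.Agent.Lib.Helper38.SignTransfer
import Cfsg.Agent.Lib.Helper40.PComp
import Cfsg.Agent.Lib.Helper56.Basic
import Cfsg.Agent.Lib.Helper11.TwoComplement
import Cfsg.Agent.Lib.Helper39.SylowRel
import Cfsg.Agent.Lib.Helper57.SylowNormal

set_option autoImplicit false
open Cfsg

namespace Cfsg.Agent.S1924

open Cfsg.Agent.Lib.Helper38 Cfsg.Agent.Lib.Helper39

theorem dih_outside {D : Type*} [Group D] {n : ℕ} (hn : 2 ≤ n) (e : D ≃* DihedralGroup n)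
    (C : Subgroup D) (hC : IsCyclic C) (hCi : C.index = 2) : ∀ y, y ∉ C → orderOf y = 2 := by
  intro y hy
  have hord : orderOf y = orderOf (e y) := (MulEquiv.orderOf_eq e y).symm
  have hcardD : Nat.card D = 2 * n := by rw [Nat.card_congr e.toEquiv, DihedralGroup.nat_card]
  have hcardC : Nat.card C = n := by
    have := C.card_mul_index
    rw [hCi, hcardD] at this
    omega
  obtain ⟨c₀, hc₀⟩ := hC.exists_generator
  have hoc : orderOf c₀ = n := by rw [orderOf_eq_card_of_forall_mem_zpowers hc₀, hcardC]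
  rcases h : e y with i | i
  · rcases Nat.lt_or_ge 2 n with h3 | h3
    · exfalso
      rcases h' : e (c₀ : D) with j | j
      · have hrot : ∀ z ∈ C, ∃ l, e z = DihedralGroup.r l := by
          intro z hz
          obtain ⟨k, hk⟩ := Subgroup.mem_zpowers_iff.mp (hc₀ ⟨z, hz⟩)
          have : z = (c₀ : D) ^ k := by rw [← Subgroup.coe_zpow, hk]
          rw [this, map_zpow, h', DihedralGroup.r_zpow]
          exact ⟨_, rfl⟩
        have hs : e.symm (DihedralGroup.sr 0) ∉ C := by
          intro hmem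
          obtain ⟨l, hl⟩ := hrot _ hmem
          simp at hl
        have := (Subgroup.mul_mem_iff_of_index_two hCi (a := y)
          (b := e.symm (DihedralGroup.sr 0))).mpr (by simp [hy, hs])
        obtain ⟨l, hl⟩ := hrot _ this
        rw [map_mul, h] at hl
        simp at hl
      · have : orderOf (e (c₀ : D)) = 2 := by rw [h', DihedralGroup.orderOf_sr]
        rw [MulEquiv.orderOf_eq, Subgroup.orderOf_coe, hoc] at this
        omega
    · have hn2 : n = 2 := by omega
      subst hn2
      rw [hord, h]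
      fin_cases i
      · exfalso
        apply hy
        have : e y = 1 := by rw [h]; rfl
        have : y = 1 := by simpa using this
        rw [this]; exact C.one_mem
      · exact DihedralGroup.orderOf_r_one
  · rw [hord, h, DihedralGroup.orderOf_sr]


/-- A consequence of Thompson's transfer lemma. Let G be a finite group, L a subgroup with O²(L) = L, T a Sylow 2-subgroup of L and S a Sylow 2-subgroup of G containing T. Suppose D ≤ S is a dihedral subgroup of order at least 4 (the four-group counts) with D ∩ T = 1 and S = TD as a set of products (so |S| = |T|·|D|), and C ≤ D is cyclic of index 2 in D. If no involution of D outside C is G-conjugate to an involution of the subgroup generated by T and C, and the involution of C is not G-conjugate to any involution of T, then G has a normal subgroup K, containing every Sylow 2-subgroup of L as a Sylow 2-subgroup, with G = KD. -/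
theorem result {G : Type*} [Group G] [Finite G] (L T S D C : Subgroup G) (hL : Cfsg.pResidual 2 ↥L = ⊤)
    (hTL : T ≤ L) (hT2 : IsPGroup 2 T) (hTsyl : ¬ 2 ∣ T.relIndex L)
    (hS2 : IsPGroup 2 S) (hSsyl : ¬ 2 ∣ S.index) (hTS : T ≤ S)
    (hDS : D ≤ S) (hDih : ∃ n : ℕ, 2 ≤ n ∧ Nonempty (↥D ≃* DihedralGroup n)) (hDT : D ⊓ T = ⊥) (hTD : T ⊔ D = S) (hTDc : Nat.card T * Nat.card D = Nat.card S)
    (hCD : C ≤ D) (hC : IsCyclic ↥C) (hCi : C.relIndex D = 2)
    (h1 : ∀ x ∈ D, x ∉ C → orderOf x = 2 → ∀ g : G, g * x * g⁻¹ ∈ T ⊔ C → False)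
    (h2 : ∀ c ∈ C, orderOf c = 2 → ∀ g : G, g * c * g⁻¹ ∈ T → False) :
    ∃ K : Subgroup G, K.Normal ∧ K ⊔ D = ⊤ ∧
      ∀ T' : Subgroup G, T' ≤ L → IsPGroup 2 T' → ¬ 2 ∣ T'.relIndex L → T' ≤ K ∧ ¬ 2 ∣ T'.relIndex K := by
  classical
  have : Fact (Nat.Prime 2) := ⟨Nat.prime_two⟩
  set O := Cfsg.pResidual 2 G with hO
  have hOn : O.Normal := Cfsg.Agent.Lib.Helper40.pResidual_normal 2 G
  -- L ≤ O
  have hLO : L ≤ O := by
    intro l hl
    have h1 : (⟨l, hl⟩ : L) ∈ Cfsg.pResidual 2 ↥L := by rw [hL]; exact Subgroup.mem_top _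
    have h2 : (Cfsg.pResidual 2 ↥L).map L.subtype ≤ O := by
      unfold Cfsg.pResidual
      rw [MonoidHom.map_closure, Subgroup.closure_le]
      rintro _ ⟨y, hy, rfl⟩
      apply Subgroup.subset_closure
      change (orderOf (y : G)).Coprime 2
      rw [Subgroup.orderOf_coe]; exact hy
    exact h2 ⟨⟨l, hl⟩, h1, rfl⟩
  have hTO : T ≤ O := hTL.trans hLO
  -- product decomposition of S
  have hprod : ∀ s ∈ S, ∃ t ∈ T, ∃ d ∈ D, s = t * d := by
    intro s hs
    have h1 := Cfsg.Agent.Lib.Helper56.mul_eq_of_card_le' T D (by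
      rw [hTD, inf_comm, hDT, Subgroup.card_bot, mul_one, hTDc])
    rw [hTD] at h1
    have h2 : s ∈ (S : Set G) := hs
    rw [h1, Set.mem_mul] at h2
    obtain ⟨t, ht, d, hd, rfl⟩ := h2
    exact ⟨t, ht, d, hd, rfl⟩
  -- elements of D outside C are involutions
  obtain ⟨n, hn, ⟨e⟩⟩ := hDih
  have hD1 : ∀ y ∈ D, y ∉ C → orderOf y = 2 := by
    intro y hyD hyC
    have hcyc : IsCyclic (C.subgroupOf D) :=
      (Subgroup.subgroupOfEquivOfLe hCD).symm.isCyclic.mp hC
    have := dih_outside hn e (C.subgroupOf D) hcyc hCi ⟨y, hyD⟩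
      (by rw [Subgroup.mem_subgroupOf]; exact hyC)
    rwa [Subgroup.orderOf_mk] at this
  -- an element of D outside C
  obtain ⟨x₀, hx₀D, hx₀C⟩ : ∃ x ∈ D, x ∉ C := by
    have : ¬ D ≤ C := by
      intro h
      rw [Subgroup.relIndex_eq_one.mpr h] at hCi
      omega
    exact SetLike.not_le_iff_exists.mp this
  set U := T ⊔ C with hU
  have hUS : U ≤ S := sup_le hTS (hCD.trans hDS)
  have hx₀U : x₀ ∉ U := by
    intro h
    exact h1 x₀ hx₀D hx₀C (hD1 x₀ hx₀D hx₀C) 1 (by simpa using h)
  have hcCD : Nat.card C * 2 = Nat.card D := by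
    rw [← hCi]; exact Cfsg.Agent.Lib.Helper57.card_mul_relIndex hCD
  have hTC : T ⊓ C = ⊥ := by
    rw [eq_bot_iff, ← hDT, inf_comm D T]
    exact inf_le_inf_left T hCD
  have hcU : Nat.card T * Nat.card C ≤ Nat.card U := by
    have := Cfsg.Agent.Lib.Helper56.card_mul_card_le T C
    rwa [hTC, Subgroup.card_bot, mul_one] at this
  have hUr : U.relIndex S = 2 := by
    have h3 := Cfsg.Agent.Lib.Helper57.card_mul_relIndex hUS
    have h4 : U.relIndex S ≠ 1 := by
      intro h
      exact hx₀U (Subgroup.relIndex_eq_one.mp h (hDS hx₀D))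
    have h5 : U.relIndex S ≠ 0 := by
      intro h
      rw [h, mul_zero] at h3
      exact (Nat.card_pos (α := S)).ne h3
    have h6 : U.relIndex S ≤ 2 := by
      have h7 : Nat.card U * U.relIndex S ≤ Nat.card U * 2 := by
        rw [h3, ← hTDc, ← hcCD]
        calc Nat.card T * (Nat.card C * 2) = (Nat.card T * Nat.card C) * 2 := by ring
          _ ≤ Nat.card U * 2 := Nat.mul_le_mul_right 2 hcU
      exact Nat.le_of_mul_le_mul_left h7 Nat.card_pos
    omega
  set m := S.index with hm
  have hmodd : Odd m := by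
    rw [← Nat.not_even_iff_odd, even_iff_two_dvd]; exact hSsyl
  have hUidx : U.index = 2 ^ (0 + 1) * m := by
    rw [← Subgroup.relIndex_mul_index hUS, hUr]; norm_num [hm]
  set φ₁ := sgn U with hφ₁
  have hφx : ∀ x ∈ D, x ∉ C → φ₁ x = -1 := by
    intro x hxD hxC
    have hox := hD1 x hxD hxC
    apply sgn_eq_neg_one U x 0 m _ hmodd hUidx
    · intro g hg
      exact h1 x hxD hxC hox g (by simpa using hg)
    · rw [← hox]; simp [pow_orderOf_eq_one x]
  have hφc : ∀ c ∈ C, φ₁ c = 1 := by
    intro c hc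
    have h3 : x₀ * c ∉ C := by
      intro h
      apply hx₀C
      have : x₀ = x₀ * c * c⁻¹ := by group
      rw [this]; exact C.mul_mem h (C.inv_mem hc)
    have h4 := hφx (x₀ * c) (D.mul_mem hx₀D (hCD hc)) h3
    rw [map_mul, hφx x₀ hx₀D hx₀C] at h4
    rcases Int.units_eq_one_or (φ₁ c) with h | h
    · exact h
    · rw [h] at h4; exact absurd h4 (by decide)
  have hOker : O ≤ φ₁.ker := pResidual_le_ker φ₁
  have hkeridx : φ₁.ker.index = 2 := index_ker_eq_two φ₁ (hφx x₀ hx₀D hx₀C)
  -- no involution of D lies in O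
  have hinv : ∀ u ∈ D, orderOf u = 2 → u ∉ O := by
    intro u huD hou huO
    by_cases huC : u ∈ C
    · obtain ⟨c₀, hc₀⟩ := hC.exists_generator
      have hC2 : IsPGroup 2 C := hS2.to_le (hCD.trans hDS)
      obtain ⟨j, hj⟩ := IsPGroup.iff_card.mp hC2
      have hj0 : j ≠ 0 := by
        rintro rfl
        rw [pow_zero] at hj
        have h3 : orderOf (⟨u, huC⟩ : C) ∣ Nat.card C := orderOf_dvd_natCard _
        rw [Subgroup.orderOf_mk, hou, hj] at h3
        omega
      obtain ⟨k, rfl⟩ := Nat.exists_eq_succ_of_ne_zero hj0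
      have hoc : orderOf c₀ = 2 ^ (k + 1) := by
        rw [orderOf_eq_card_of_forall_mem_zpowers hc₀, hj]
      have how : orderOf (c₀ ^ 2 ^ k) = 2 := by
        rw [orderOf_pow_of_dvd (by positivity) (by rw [hoc]; exact pow_dvd_pow 2 (Nat.le_succ k)),
          hoc, pow_succ]
        exact Nat.mul_div_cancel_left 2 (by positivity)
      have huw : (⟨u, huC⟩ : C) = c₀ ^ 2 ^ k :=
        Cfsg.Agent.Lib.Helper11.eq_of_orderOf_two_of_cyclic
          (by rw [Subgroup.orderOf_mk]; exact hou) how
      have huw' : u = (c₀ : G) ^ 2 ^ k := by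
        have := congrArg Subtype.val huw
        simpa using this
      have hTrel : T.relIndex φ₁.ker = 2 ^ (k + 1) * m := by
        have h3 := Subgroup.relIndex_mul_index (hTO.trans hOker)
        have h4 := Subgroup.relIndex_mul_index hTS
        have h5 := Cfsg.Agent.Lib.Helper57.card_mul_relIndex hTS
        rw [← hTDc] at h5
        have h6 : T.relIndex S = Nat.card D := Nat.eq_of_mul_eq_mul_left Nat.card_pos h5
        rw [hkeridx, ← h4, h6, ← hcCD, hj] at h3
        have : T.relIndex φ₁.ker * 2 = (2 ^ (k + 1) * m) * 2 := by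
          rw [h3, hm, Nat.succ_eq_add_one]; ring
        exact Nat.eq_of_mul_eq_mul_right (by norm_num) this
      have hpow1 : (c₀ : G) ^ 2 ^ (k + 1) = 1 := by
        have := pow_orderOf_eq_one c₀
        rw [hoc] at this
        simpa using congrArg Subtype.val this
      have := pow_not_mem_pResidual T hTO m hmodd k φ₁.ker (c₀ : G) hOker (hφc _ c₀.2) hpow1 hTrel
        (by
          intro g hg
          rw [← huw'] at hg
          exact h2 u huC hou g hg)
      rw [← huw'] at this
      exact this huO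
    · have h3 := hφx u huD huC
      have h4 : φ₁ u = 1 := hOker huO
      rw [h3] at h4
      exact absurd h4 (by decide)
  -- O ∩ D = 1
  have hOD : ∀ d ∈ D, d ∈ O → d = 1 := by
    intro d hdD hdO
    by_contra hne
    have hD2 : IsPGroup 2 D := hS2.to_le hDS
    obtain ⟨j, hj⟩ := (IsPGroup.iff_orderOf.mp hD2) ⟨d, hdD⟩
    rw [Subgroup.orderOf_mk] at hj
    have hj0 : j ≠ 0 := by
      rintro rfl
      rw [pow_zero, orderOf_eq_one_iff] at hj
      exact hne hj
    obtain ⟨k, rfl⟩ := Nat.exists_eq_succ_of_ne_zero hj0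
    have how : orderOf (d ^ 2 ^ k) = 2 := by
      rw [orderOf_pow_of_dvd (by positivity) (by rw [hj]; exact pow_dvd_pow 2 (Nat.le_succ k)),
        hj, pow_succ]
      exact Nat.mul_div_cancel_left 2 (by positivity)
    exact hinv _ (D.pow_mem hdD _) how (O.pow_mem hdO _)
  have hSO : S ⊓ O = T := by
    apply le_antisymm
    · intro y hy
      obtain ⟨hyS, hyO⟩ := Subgroup.mem_inf.mp hy
      obtain ⟨t, ht, d, hd, rfl⟩ := hprod y hyS
      have hdO : d ∈ O := by
        have : d = t⁻¹ * (t * d) := by group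
        rw [this]; exact O.mul_mem (O.inv_mem (hTO ht)) hyO
      rw [hOD d hd hdO, mul_one]; exact ht
    · exact le_inf hTS hTO
  let S' : Sylow 2 G := hS2.toSylow hSsyl
  have hS' : (S' : Subgroup G) = S := rfl
  refine ⟨O, hOn, ?_, ?_⟩
  · rw [eq_top_iff]
    intro x _
    obtain ⟨r, hr, u, hu, rfl⟩ := Cfsg.Agent.Lib.Helper40.sylow_mul_pResidual S' x
    obtain ⟨t, ht, d, hd, rfl⟩ := hprod r hr
    have hOle : O ≤ O ⊔ D := le_sup_left
    have hDle : D ≤ O ⊔ D := le_sup_right
    exact mul_mem (mul_mem (hOle (hTO ht)) (hDle hd)) (hOle hu)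
  · intro T' hT'L hT'2 hT'syl
    refine ⟨hT'L.trans hLO, ?_⟩
    have hTsylO : ¬ 2 ∣ T.relIndex O := by
      have := Cfsg.Agent.Lib.Helper57.not_dvd_relIndex_inf_normal S' O
      rwa [hS', hSO] at this
    have hcard : Nat.card T' = Nat.card T := by
      apply le_antisymm
      · obtain ⟨h, _, hle⟩ := exists_conj_le_of_relIndex hTL hT2 hTsyl hT'L hT'2
        rw [← card_cj h T']
        exact Nat.card_le_card_of_injective _ (Subgroup.inclusion_injective hle)
      · obtain ⟨h, _, hle⟩ := exists_conj_le_of_relIndex hT'L hT'2 hT'syl hTL hT2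
        rw [← card_cj h T]
        exact Nat.card_le_card_of_injective _ (Subgroup.inclusion_injective hle)
    have h3 := Cfsg.Agent.Lib.Helper57.card_mul_relIndex hTO
    have h4 := Cfsg.Agent.Lib.Helper57.card_mul_relIndex (hT'L.trans hLO)
    rw [← h3, hcard] at h4
    rw [Nat.eq_of_mul_eq_mul_left Nat.card_pos h4]
    exact hTsylO

end Cfsg.Agent.S1924
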