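import Cfsg.Statements.S1939
import Cfsg.Agent.Lib.Helper39.SylowRel

set_option autoImplicit false
open Cfsg
open Cfsg.Agent.Lib.Helper39

namespace Cfsg.Agent.S1939

/-- Let S be a Sylow p-subgroup of the finite group G and a an element of S that is the only G-conjugate of a lying in S. Then every power of a has the same property: for every n, the only G-conjugate of a^n lying in S is a^n. -/
theorem result {G : Type*} [Group G] [Finite G] {p : ℕ} [Fact p.Prime] (S : Sylow p G) (a : G)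
    (haS : a ∈ (S : Subgroup G)) (hwc : ∀ g : G, g * a * g⁻¹ ∈ (S : Subgroup G) → g * a * g⁻¹ = a) (n : ℕ) :
    ∀ g : G, g * a ^ n * g⁻¹ ∈ (S : Subgroup G) → g * a ^ n * g⁻¹ = a ^ n := by
  intro g hg
  have hcen : ∀ s ∈ (S : Subgroup G), s * a = a * s := by
    intro s hs
    have h1 := hwc s (S.1.mul_mem (S.1.mul_mem hs haS) (S.1.inv_mem hs))
    calc s * a = (s * a * s⁻¹) * s := by group
      _ = a * s := by rw [h1]
  set y := g * a ^ n * g⁻¹ with hy
  have hRH : cj g (S : Subgroup G) ≤ Subgroup.centralizer ({y} : Set G) := by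
    intro x hx
    rw [mem_cj] at hx
    rw [Subgroup.mem_centralizer_singleton_iff]
    have h1 : (g⁻¹ * x * g) * a ^ n = a ^ n * (g⁻¹ * x * g) :=
      (Commute.pow_right (hcen _ hx) n)
    calc x * y = g * ((g⁻¹ * x * g) * a ^ n) * g⁻¹ := by rw [hy]; group
      _ = g * (a ^ n * (g⁻¹ * x * g)) * g⁻¹ := by rw [h1]
      _ = y * x := by rw [hy]; group
  have hidx : ¬ p ∣ (cj g (S : Subgroup G)).relIndex (Subgroup.centralizer ({y} : Set G)) :=
    sylow_relIndex_of_le (g • S) hRH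
  have hQH : Subgroup.zpowers a ≤ Subgroup.centralizer ({y} : Set G) := by
    rw [Subgroup.zpowers_le, Subgroup.mem_centralizer_singleton_iff]
    exact (hcen y hg).symm
  have hQ : IsPGroup p (Subgroup.zpowers a) :=
    S.2.to_le (by rw [Subgroup.zpowers_le]; exact haS)
  obtain ⟨c, hc, hcle⟩ := exists_conj_le_of_relIndex hRH (isPGroup_cj g S.2) hidx hQH hQ
  have h1 : c * a * c⁻¹ ∈ cj g (S : Subgroup G) := hcle (conj_mem_cj (Subgroup.mem_zpowers a))
  rw [mem_cj] at h1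
  have h2 : (g⁻¹ * c) * a * (g⁻¹ * c)⁻¹ = a := by
    apply hwc
    have : (g⁻¹ * c) * a * (g⁻¹ * c)⁻¹ = g⁻¹ * (c * a * c⁻¹) * g := by group
    rw [this]; exact h1
  have h3 : (g⁻¹ * c) * a ^ n * (g⁻¹ * c)⁻¹ = a ^ n := by
    rw [← conj_pow, h2]
  rw [Subgroup.mem_centralizer_singleton_iff] at hc
  have h4 : c * a ^ n * c⁻¹ = y := by
    rw [hy]
    calc c * a ^ n * c⁻¹ = g * ((g⁻¹ * c) * a ^ n * (g⁻¹ * c)⁻¹) * g⁻¹ := by group
      _ = g * a ^ n * g⁻¹ := by rw [h3]
  calc y = c⁻¹ * (c * y) := by group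
    _ = c⁻¹ * (y * c) := by rw [hc]
    _ = c⁻¹ * (c * a ^ n * c⁻¹ * c) := by rw [h4]
    _ = a ^ n := by group

end Cfsg.Agent.S1939
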