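import Cfsg.Statements.S1940

set_option autoImplicit false
open Cfsg

namespace Cfsg.Agent.S1940

/-- Let the finite group L act by automorphisms on the finite abelian group M, and let N be an L-invariant subgroup of M such that M/N is a p-group on which L acts trivially (every l • m lies in the coset mN). If every element of M is a product of an element of N and an element fixed by a Sylow p-subgroup T of L, then every element of M is a product of an element of N and an element fixed by all of L. -/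
theorem result {L : Type*} [Group L] [Finite L] {M : Type*} [CommGroup M] [Finite M] [MulDistribMulAction L M]
    {p : ℕ} [Fact p.Prime] (N : Subgroup M) (hN : ∀ (l : L) (m : M), m ∈ N → l • m ∈ N)
    (hquot : IsPGroup p (M ⧸ N)) (htriv : ∀ (l : L) (m : M), (l • m) * m⁻¹ ∈ N) (T : Sylow p L)
    (hT : ∀ m : M, ∃ n ∈ N, ∃ c : M, (∀ t ∈ (T : Subgroup L), t • c = c) ∧ m = n * c) :
    ∀ m : M, ∃ n ∈ N, ∃ c : M, (∀ l : L, l • c = c) ∧ m = n * c := by
  classical
  intro m
  have : Fintype (L ⧸ (T : Subgroup L)) := Fintype.ofFinite _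
  obtain ⟨a, ha⟩ := (IsPGroup.iff_card.1 hquot)
  have hcop : Nat.Coprime (Nat.card (M ⧸ N)) (T : Subgroup L).index := by
    rw [ha]
    apply Nat.Coprime.pow_left
    exact (Nat.Prime.coprime_iff_not_dvd (Fact.out : p.Prime)).2 T.not_dvd_index
  obtain ⟨y, hy⟩ := (powCoprime hcop).surjective (QuotientGroup.mk m : M ⧸ N)
  obtain ⟨m1, rfl⟩ := QuotientGroup.mk_surjective y
  have hy' : ((m1 ^ (T : Subgroup L).index : M) : M ⧸ N) = (m : M ⧸ N) := hy
  have h1 : (m1 ^ (T : Subgroup L).index)⁻¹ * m ∈ N := QuotientGroup.eq.1 hy'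
  obtain ⟨n1, hn1, c1, hc1, rfl⟩ := hT m1
  -- the trace of `c1`
  have hrep : ∀ (l : L) (x : L ⧸ (T : Subgroup L)), (l * x.out) • c1 = (l • x).out • c1 := by
    intro l x
    have e1 : ((l • x).out : L ⧸ (T : Subgroup L)) = ((l * x.out : L) : L ⧸ (T : Subgroup L)) := by
      rw [QuotientGroup.out_eq']
      conv_lhs => rw [← QuotientGroup.out_eq' x]
      rfl
    have e2 := QuotientGroup.eq.1 e1
    have e3 := hc1 _ e2
    calc (l * x.out) • c1 = ((l • x).out * ((l • x).out⁻¹ * (l * x.out))) • c1 := by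
          rw [mul_inv_cancel_left]
      _ = (l • x).out • c1 := by rw [mul_smul, e3]
  have hfix : ∀ l : L, l • (∏ x : L ⧸ (T : Subgroup L), x.out • c1) = ∏ x : L ⧸ (T : Subgroup L), x.out • c1 := by
    intro l
    rw [Finset.smul_prod']
    have : ∀ x : L ⧸ (T : Subgroup L), l • x.out • c1 = (MulAction.toPerm l x).out • c1 := by
      intro x
      rw [← mul_smul, hrep]
      rfl
    rw [Finset.prod_congr rfl (fun x _ => this x)]
    exact Equiv.prod_comp (MulAction.toPerm l) (fun x : L ⧸ (T : Subgroup L) => x.out • c1)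
  have h2 : (∏ x : L ⧸ (T : Subgroup L), x.out • c1) * (c1 ^ (T : Subgroup L).index)⁻¹ ∈ N := by
    have e : (∏ x : L ⧸ (T : Subgroup L), x.out • c1) * (c1 ^ (T : Subgroup L).index)⁻¹ =
        ∏ x : L ⧸ (T : Subgroup L), ((x.out • c1) * c1⁻¹) := by
      rw [Finset.prod_mul_distrib, Finset.prod_const, Finset.card_univ, inv_pow, Subgroup.index,
        Nat.card_eq_fintype_card]
    rw [e]
    exact Subgroup.prod_mem _ (fun x _ => htriv _ _)
  refine ⟨m * (∏ x : L ⧸ (T : Subgroup L), x.out • c1)⁻¹, ?_, _, hfix, by rw [inv_mul_cancel_right]⟩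
  have e : m * (∏ x : L ⧸ (T : Subgroup L), x.out • c1)⁻¹ =
      (((n1 * c1) ^ (T : Subgroup L).index)⁻¹ * m) * n1 ^ (T : Subgroup L).index *
        ((∏ x : L ⧸ (T : Subgroup L), x.out • c1) * (c1 ^ (T : Subgroup L).index)⁻¹)⁻¹ := by
    rw [mul_pow, mul_inv, mul_inv, inv_inv]
    have hA : ∀ A B C D : M, C * D⁻¹ = (A⁻¹ * B⁻¹ * C) * A * (D⁻¹ * B) := by
      intro A B C D
      calc C * D⁻¹ = (A⁻¹ * A) * (B⁻¹ * B) * (C * D⁻¹) := by simp
        _ = (A⁻¹ * B⁻¹ * C) * A * (D⁻¹ * B) := by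
          simp only [mul_assoc, mul_comm, mul_left_comm]
    exact hA _ _ _ _
  rw [e]
  exact N.mul_mem (N.mul_mem h1 (N.pow_mem hn1 _)) (N.inv_mem h2)

end Cfsg.Agent.S1940
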