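import Cfsg.Statements.S1941
-- import your own Cfsg.Agent.* helpers here
import Cfsg.Agent.Lib.Helper28.Cocycle

set_option autoImplicit false
open Cfsg

namespace Cfsg.Agent.S1941

open Cfsg.Agent.Lib.Helper28

/-- Let G be a finite group with no nontrivial normal subgroup of order prime to p, T a Sylow p-subgroup of G and E(G) the layer of G (the subgroup generated by its components). An automorphism of G of p-power order that fixes T and E(G) elementwise is inner. -/
theorem result {G : Type*} [Group G] [Finite G] {p : ℕ} [Fact p.Prime] (hcore : Cfsg.pPrimeCore p G = ⊥)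
    (T : Sylow p G) (α : MulAut G) (hα : ∃ j : ℕ, orderOf α = p ^ j) (hfixT : ∀ x ∈ (T : Subgroup G), α x = x)
    (hfixE : ∀ x ∈ Cfsg.layer G, α x = x) : ∃ g : G, ∀ x : G, α x = g * x * g⁻¹ := by
  have hFn : (Cfsg.generalizedFittingSubgroup G).Normal := genFitting_normal
  set A := Subgroup.centralizer (Cfsg.generalizedFittingSubgroup G : Set G) with hA
  have hAn : A.Normal := inferInstance
  have hFp : Cfsg.fittingSubgroup G ≤ Cfsg.pCore p G := fitting_le_pCore_of_pPrimeCore_eq_bot p hcore
  have hpT : Cfsg.pCore p G ≤ (T : Subgroup G) := (pCore_isPGroup p).le_sylow_of_normal T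
  have hfix : ∀ x ∈ Cfsg.generalizedFittingSubgroup G, α x = x := by
    have : Cfsg.generalizedFittingSubgroup G ≤
        MonoidHom.eqLocus α.toMonoidHom (MonoidHom.id G) := by
      unfold Cfsg.generalizedFittingSubgroup
      refine sup_le (fun x hx => hfixE x hx) (fun x hx => hfixT x (hpT (hFp hx)))
    exact fun x hx => this hx
  have hAp : IsPGroup p ↥A :=
    (pCore_isPGroup (G := G) p).to_le (centralizer_genFitting_le_fitting.trans hFp)
  have hcop : (Nat.card ↥A).Coprime (T : Subgroup G).index := by
    obtain ⟨n, hn⟩ := IsPGroup.iff_card.mp hAp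
    rw [hn]
    exact Nat.Coprime.pow_left n ((Nat.Prime.coprime_iff_not_dvd Fact.out).mpr T.not_dvd_index)
  have hc : ∀ g, α g * g⁻¹ ∈ A := by
    intro g
    rw [hA, Subgroup.mem_centralizer_iff]
    intro f hf
    have h1 : g⁻¹ * f * g ∈ Cfsg.generalizedFittingSubgroup G := by
      have := hFn.conj_mem f hf g⁻¹
      rwa [inv_inv] at this
    have h2 := hfix _ h1
    have h3 := hfix f hf
    rw [map_mul, map_mul, h3, map_inv] at h2
    calc f * (α g * g⁻¹) = α g * ((α g)⁻¹ * f * α g) * g⁻¹ := by group
      _ = α g * (g⁻¹ * f * g) * g⁻¹ := by rw [h2]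
      _ = α g * g⁻¹ * f := by group
  obtain ⟨w, -, hw⟩ := inner_of_cocycle A (T : Subgroup G) centralizer_genFitting_comm hcop α hfixT hc
  exact ⟨w, hw⟩

end Cfsg.Agent.S1941
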