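import Cfsg.Statements.S1947
import Cfsg.Agent.S0071
import Cfsg.Agent.Lib.Helper11.OmegaAut

set_option autoImplicit false
open Cfsg

namespace Cfsg.Agent.S1947

open Cfsg.Agent.Lib.Helper11

universe u

/-- An element of a term of the upper central series commutes with every element of coprime order. -/
theorem commute_of_mem_upperCentralSeries (n : ℕ) :
    ∀ (G : Type u) [Group G] (x y : G), x ∈ Subgroup.upperCentralSeries G n →
      (orderOf x).Coprime (orderOf y) → Commute x y := by
  induction n with
  | zero =>
    intro G _ x y hx _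
    rw [Subgroup.upperCentralSeries_zero, Subgroup.mem_bot] at hx
    rw [hx]; exact Commute.one_left y
  | succ n ih =>
    intro G _ x y hx hxy
    have h1 : (orderOf (QuotientGroup.mk' (Subgroup.center G) x)).Coprime
        (orderOf (QuotientGroup.mk' (Subgroup.center G) y)) :=
      Nat.Coprime.coprime_dvd_left (orderOf_map_dvd _ x)
        (Nat.Coprime.coprime_dvd_right (orderOf_map_dvd _ y) hxy)
    have hx' : QuotientGroup.mk' (Subgroup.center G) x ∈
        Subgroup.upperCentralSeries (G ⧸ Subgroup.center G) n := by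
      rw [← Subgroup.comap_upperCentralSeries_quotient_center] at hx
      exact hx
    have h2 := ih _ _ _ hx' h1
    set c := x * y * x⁻¹ * y⁻¹ with hc
    have hcz : c ∈ Subgroup.center G := by
      rw [← QuotientGroup.eq_one_iff, hc]
      have h3 : QuotientGroup.mk' (Subgroup.center G) x * QuotientGroup.mk' (Subgroup.center G) y
          = QuotientGroup.mk' (Subgroup.center G) y * QuotientGroup.mk' (Subgroup.center G) x := h2
      change QuotientGroup.mk' (Subgroup.center G) (x * y * x⁻¹ * y⁻¹) = 1
      rw [map_mul, map_mul, map_mul, h3, map_inv, map_inv]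
      group
    have hcc : ∀ g : G, Commute c g := fun g => (Subgroup.mem_center_iff.mp hcz g).symm
    have hn : c ^ orderOf y = 1 := by
      have h4 : x * y * x⁻¹ = c * y := by rw [hc]; group
      have h5 : (x * y * x⁻¹) ^ orderOf y = 1 := by
        rw [conj_pow, pow_orderOf_eq_one]; group
      rw [h4, (hcc y).mul_pow, pow_orderOf_eq_one, mul_one] at h5
      exact h5
    have hm : c ^ orderOf x = 1 := by
      have h4 : y * x⁻¹ * y⁻¹ = x⁻¹ * c := by rw [hc]; group
      have h5 : (y * x⁻¹ * y⁻¹) ^ orderOf x = 1 := by
        rw [conj_pow, inv_pow, pow_orderOf_eq_one]; group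
      rw [h4, (hcc x⁻¹).symm.mul_pow, inv_pow, pow_orderOf_eq_one, inv_one, one_mul] at h5
      exact h5
    have h6 : orderOf c ∣ 1 := by
      have := Nat.dvd_gcd (orderOf_dvd_of_pow_eq_one hm) (orderOf_dvd_of_pow_eq_one hn)
      rwa [Nat.Coprime.gcd_eq_one hxy] at this
    have h7 : c = 1 := orderOf_eq_one_iff.mp (Nat.dvd_one.mp h6)
    have : x * y = c * (y * x) := by rw [hc]; group
    rw [h7, one_mul] at this
    exact this

/-- Let G be a finite group and p a prime. If every element of G of order dividing p (dividing 4 when p = 2) lies in some fixed term Z_n(G) of the upper central series, then G has a normal p-complement. -/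
theorem result {G : Type*} [Group G] [Finite G] {p : ℕ} [Fact p.Prime] (n : ℕ)
    (h : ∀ a : G, (a ^ p = 1 ∨ (p = 2 ∧ a ^ 4 = 1)) → a ∈ Subgroup.upperCentralSeries G n) : Cfsg.HasNormalPComplement p G := by
  obtain ⟨P⟩ : Nonempty (Sylow p G) := inferInstance
  have key : ∃ N : Subgroup G, N.Normal ∧ N.IsComplement' (P : Subgroup G) := by
    rw [Cfsg.Agent.S0071.result P]
    intro Q hQP g hgN hgp
    have hQp : IsPGroup p Q := P.isPGroup'.to_le hQP
    apply mem_centralizer_of_fix_omega Q hQp g hgN hgp
    intro x hxQ hx
    obtain ⟨k, hk⟩ := hQp ⟨x, hxQ⟩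
    have hk' : x ^ p ^ k = 1 := by
      have := congrArg Subtype.val hk
      simpa using this
    have h11 : orderOf x ∣ p ^ k := orderOf_dvd_of_pow_eq_one hk'
    have h12 : (orderOf x).Coprime (orderOf g) :=
      Nat.Coprime.coprime_dvd_left h11 ((hgp.pow_right k).symm)
    exact (commute_of_mem_upperCentralSeries n G x g (h x hx) h12).symm
  obtain ⟨N, hN, hc⟩ := key
  exact ⟨P, N, hN, hc⟩

end Cfsg.Agent.S1947
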