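import Cfsg.Statements.S1948
-- import your own Cfsg.Agent.* helpers here
import Cfsg.Agent.Lib.Helper14.PConstrained
import Cfsg.Agent.Lib.Helper52.SylowN

set_option autoImplicit false
open Cfsg

namespace Cfsg.Agent.S1948

open Cfsg.Agent.Lib.Helper14 in
/-- a group with a normal `p`-subgroup of index prime to `p` is `p`-soluble. -/
theorem isPSolvable_of_normal {p : ℕ} {D : Type*} [Group D] [Finite D] (Z : Subgroup D) [hZ : Z.Normal]
    (h1 : ∃ m : ℕ, Nat.card Z = p ^ m) (h2 : Z.index.Coprime p) : Cfsg.IsPSolvable p D := by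
  refine ⟨2, ![⊥, Z, ⊤], rfl, rfl, ?_, ?_, ?_⟩
  · intro i j hij
    fin_cases i <;> fin_cases j <;> simp_all
  · intro i
    fin_cases i
    · exact (inferInstance : (⊥ : Subgroup D).Normal)
    · exact hZ
    · exact (inferInstance : (⊤ : Subgroup D).Normal)
  · intro i
    fin_cases i
    · left
      obtain ⟨m, hm⟩ := h1
      refine ⟨m, ?_⟩
      change (⊥ : Subgroup D).relIndex Z = _
      rw [Subgroup.relIndex_bot_left, hm]
    · right
      change (Z.relIndex ⊤).Coprime p
      rw [Subgroup.relIndex_top_right]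
      exact h2

/-- Let S be a Sylow p-subgroup of the finite group G. Then G = N_G(S)·O_{p'}(G) if and only if G is p-constrained and N_G(S) controls fusion in S, in the sense that whenever a subgroup Q of S has a conjugate g Q g⁻¹ inside S, the element g is a product n c with n normalizing S and c centralizing Q. -/
theorem result {G : Type*} [Group G] [Finite G] {p : ℕ} [Fact p.Prime] (S : Sylow p G) :
    Subgroup.normalizer ((S : Subgroup G) : Set G) ⊔ Cfsg.pPrimeCore p G = ⊤ ↔
      (Cfsg.IsPConstrained p G ∧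
        ∀ Q : Subgroup G, Q ≤ (S : Subgroup G) → ∀ g : G, Q.map (MulAut.conj g).toMonoidHom ≤ (S : Subgroup G) →
          ∃ n ∈ Subgroup.normalizer ((S : Subgroup G) : Set G), ∃ c ∈ Subgroup.centralizer (Q : Set G), g = n * c) := by
  have hp : p.Prime := Fact.out
  set K := Cfsg.pPrimeCore p G with hK
  set π := QuotientGroup.mk' K with hπ
  have hs : Function.Surjective π := QuotientGroup.mk'_surjective K
  constructor
  · intro htop
    constructor
    · -- p-constrained
      rw [Cfsg.Agent.Lib.Helper14.isPConstrained_iff]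
      have hSn : ((S : Subgroup G).map π).Normal := by
        rw [← Subgroup.normalizer_eq_top_iff, eq_top_iff]
        have h1 : (Subgroup.normalizer ((S : Subgroup G) : Set G) ⊔ K).map π = ⊤ := by
          rw [htop, ← MonoidHom.range_eq_map, MonoidHom.range_eq_top]; exact hs
        rw [← h1, Subgroup.map_sup]
        apply sup_le (Subgroup.le_normalizer_map π)
        have : K.map π = ⊥ := by
          rw [Subgroup.map_eq_bot_iff, hπ, QuotientGroup.ker_mk']
        rw [this]; exact bot_le
      have hcore : Cfsg.pCore p (G ⧸ K) = (S : Subgroup G).map π := by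
        apply le_antisymm
        · exact Cfsg.Agent.Lib.Helper14.pCore_le_sylow (S.mapSurjective hs)
        · exact Cfsg.Agent.Lib.Helper14.le_pCore hSn (S.2.map π)
      have hO : Cfsg.pPrimeCore p (G ⧸ K) = ⊥ := Cfsg.Agent.Lib.Helper14.pPrimeCore_quotient_pPrimeCore
      apply Cfsg.Agent.Lib.Helper14.le_pCore_of_isPSolvable_of_le_centralizer hO _ _ le_rfl
      set D := Subgroup.centralizer ((Cfsg.pCore p (G ⧸ K) : Subgroup (G ⧸ K)) : Set (G ⧸ K)) with hD
      apply isPSolvable_of_normal ((Cfsg.pCore p (G ⧸ K)).subgroupOf D)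
      · exact ((Cfsg.Agent.Lib.Helper14.isPGroup_pCore (p := p) (G := G ⧸ K)).comap_of_injective D.subtype
          D.subtype_injective).exists_card_eq
      · have h1 : (Cfsg.pCore p (G ⧸ K)).relIndex D ∣ (Cfsg.pCore p (G ⧸ K)).index :=
          Subgroup.relIndex_dvd_index_of_normal _ _
        have h2 : ¬ p ∣ (Cfsg.pCore p (G ⧸ K)).index := by
          rw [hcore]; exact (S.mapSurjective hs).not_dvd_index
        exact (Nat.Coprime.coprime_dvd_left h1 ((Nat.Prime.coprime_iff_not_dvd hp).mpr h2).symm)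
    · intro Q hQS g hg
      have hgt : g ∈ Subgroup.normalizer ((S : Subgroup G) : Set G) ⊔ K := htop ▸ Subgroup.mem_top g
      obtain ⟨n, hn, k, hk, rfl⟩ := Subgroup.mem_sup_of_normal_right.mp hgt
      refine ⟨n, hn, k, ?_, rfl⟩
      rw [Subgroup.mem_centralizer_iff]
      intro q hq
      have h1 : n * k * q * (n * k)⁻¹ ∈ (S : Subgroup G) := hg ⟨q, hq, rfl⟩
      have h2 : k * q * k⁻¹ ∈ (S : Subgroup G) := by
        have := (Subgroup.mem_normalizer_iff.mp (Subgroup.inv_mem _ hn) _).mp h1
        have e : n⁻¹ * (n * k * q * (n * k)⁻¹) * n⁻¹⁻¹ = k * q * k⁻¹ := by group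
        rwa [e] at this
      have h3 : k * q * k⁻¹ * q⁻¹ ∈ (S : Subgroup G) ⊓ K := by
        refine Subgroup.mem_inf.mpr ⟨Subgroup.mul_mem _ h2 (Subgroup.inv_mem _ (hQS hq)), ?_⟩
        have e : k * q * k⁻¹ * q⁻¹ = k * (q * k⁻¹ * q⁻¹) := by group
        rw [e]
        exact K.mul_mem hk ((inferInstance : K.Normal).conj_mem _ (K.inv_mem hk) q)
      have h4 : (S : Subgroup G) ⊓ K = ⊥ := by
        apply (Subgroup.disjoint_of_coprime_natCard _).eq_bot
        obtain ⟨m, hm⟩ := S.2.exists_card_eq
        rw [hm]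
        exact (Nat.Coprime.pow_right m Cfsg.Agent.Lib.Helper14.card_pPrimeCore_coprime).symm
      rw [h4, Subgroup.mem_bot, mul_inv_eq_one, mul_inv_eq_iff_eq_mul] at h3
      exact h3.symm
  · rintro ⟨hcon, hctl⟩
    rw [eq_top_iff]
    intro g _
    have hRn : (Cfsg.pPrimePCore p G).Normal := Cfsg.Agent.Lib.Helper14.pPrimePCore_normal p G
    set R := Cfsg.pPrimePCore p G with hR
    obtain ⟨a, ha, c, hc, rfl⟩ := Cfsg.Agent.Lib.Helper52.frattini_elementwise S R g
    obtain ⟨P, hP⟩ := Cfsg.Agent.Lib.Helper52.exists_sylow_inf_normal S R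
    have hPmap : (P : Subgroup ↥R).map R.subtype = (S : Subgroup G) ⊓ R := by
      rw [hP, Subgroup.subgroupOf_map_subtype]
    have hRle : R ≤ Subgroup.normalizer ((S : Subgroup G) : Set G) ⊔ K := by
      have h1 := Cfsg.Agent.Lib.Helper14.pPrimePCore_le_sylow_sup P
      rw [hPmap] at h1
      exact h1.trans (sup_le_sup_right (inf_le_left.trans Subgroup.le_normalizer) K)
    have hCR : Subgroup.centralizer (((S : Subgroup G) ⊓ R : Subgroup G) : Set G) ≤ R := by
      have := hcon P
      rwa [hPmap] at this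
    obtain ⟨n, hn, c', hc', rfl⟩ := hctl ((S : Subgroup G) ⊓ R) inf_le_left a (by
      rw [Subgroup.mem_normalizer_iff_map_conj_eq] at ha
      have : ((S : Subgroup G) ⊓ R).map (MulAut.conj a).toMonoidHom = (S : Subgroup G) ⊓ R := ha
      rw [this]; exact inf_le_left)
    exact Subgroup.mul_mem _ (Subgroup.mul_mem _ (Subgroup.mem_sup_left hn) (hRle (hCR hc'))) (hRle hc)

end Cfsg.Agent.S1948
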