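import Cfsg.Statements.S1949
-- import your own Cfsg.Agent.* helpers here
import Cfsg.Agent.Lib.Helper14.Class2
import Cfsg.Agent.Lib.Helper3.PGroup
import Cfsg.Agent.Lib.Helper53.Basic

set_option autoImplicit false
open Cfsg

namespace Cfsg.Agent.S1949

variable {P : Type*} [Group P]

/-- `X` is invariant under the automorphism group `G` -/
def Inv (G : Subgroup (MulAut P)) (X : Subgroup P) : Prop := ∀ α ∈ G, ∀ x ∈ X, α x ∈ X

theorem Inv.map_eq {G : Subgroup (MulAut P)} {X : Subgroup P} (h : Inv G X) {α : MulAut P} (hα : α ∈ G) :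
    X.map α.toMonoidHom = X := by
  apply le_antisymm
  · rintro _ ⟨x, hx, rfl⟩
    exact h α hα x hx
  · intro x hx
    exact ⟨α⁻¹ x, h α⁻¹ (G.inv_mem hα) x hx, MulAut.apply_inv_self _ α x⟩

theorem Inv.conj_mem {G : Subgroup (MulAut P)} (hG : Cfsg.Inn P ≤ G) {X : Subgroup P} (h : Inv G X)
    (y : P) {x : P} (hx : x ∈ X) : y * x * y⁻¹ ∈ X :=
  h (MulAut.conj y) (hG ⟨y, rfl⟩) x hx

theorem Inv.normal {G : Subgroup (MulAut P)} (hG : Cfsg.Inn P ≤ G) {X : Subgroup P} (h : Inv G X) :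
    X.Normal := ⟨fun _ hx y => h.conj_mem hG y hx⟩

theorem fix_lemma {p : ℕ} (hP : IsPGroup p P) (α : MulAut P)
    (hα : (orderOf α).Coprime p) (x c : P) (h : α x = x * c) (hc : α c = c) : c = 1 := by
  have key : ∀ k : ℕ, (α ^ k) x = x * c ^ k := by
    intro k
    induction k with
    | zero => simp
    | succ k ih =>
      rw [pow_succ', MulAut.mul_apply, ih, map_mul, map_pow, h, hc, pow_succ', mul_assoc]
  have h1 := key (orderOf α)
  rw [pow_orderOf_eq_one, MulAut.one_apply] at h1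
  have h2 : c ^ orderOf α = 1 := by
    have := h1.symm
    rwa [mul_eq_left] at this
  obtain ⟨j, hj⟩ := hP c
  have d1 := orderOf_dvd_of_pow_eq_one h2
  have d2 := orderOf_dvd_of_pow_eq_one hj
  have := Nat.eq_one_of_dvd_coprimes (Nat.Coprime.pow_right j hα) d1 d2
  exact orderOf_eq_one_iff.1 this

theorem exists_order_p {X : Type*} [Group X] [Finite X] {p : ℕ} [hp : Fact p.Prime] {Y : Subgroup X}
    (hY : IsPGroup p Y) (hne : Y ≠ ⊥) : ∃ z ∈ Y, orderOf z = p := by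
  obtain ⟨n, hn⟩ := IsPGroup.iff_card.1 hY
  have hd : p ∣ Nat.card Y := by
    rw [hn]
    rcases Nat.eq_zero_or_pos n with h0 | h0
    · exfalso
      rw [h0, pow_zero] at hn
      exact hne (Subgroup.card_eq_one.1 hn)
    · exact dvd_pow_self p h0.ne'
  obtain ⟨z, hz⟩ := exists_prime_orderOf_dvd_card' p hd
  exact ⟨z, z.2, by rw [← hz, Subgroup.orderOf_coe]⟩

/-- the subgroup `[P, O^p(G)]` -/
def P0 (p : ℕ) (G : Subgroup (MulAut P)) : Subgroup P :=
  Subgroup.closure {y : P | ∃ α ∈ Cfsg.pResidual p ↥G, ∃ x : P, y = x⁻¹ * (α : MulAut P) x}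

theorem inv_P0 (p : ℕ) (G : Subgroup (MulAut P)) : Inv G (P0 p G) := by
  intro β hβ x hx
  have h1 : (P0 p G).map β.toMonoidHom ≤ P0 p G := by
    unfold P0
    rw [MonoidHom.map_closure, Subgroup.closure_le]
    rintro _ ⟨_, ⟨α, hα, x, rfl⟩, rfl⟩
    apply Subgroup.subset_closure
    have hn := Cfsg.Agent.Lib.Helper53.pResidual_normal p ↥G
    obtain ⟨b, hb⟩ : ∃ b : ↥G, (b : MulAut P) = β := ⟨⟨β, hβ⟩, rfl⟩
    refine ⟨b * α * b⁻¹, hn.conj_mem α hα b, β x, ?_⟩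
    show β (x⁻¹ * (α : MulAut P) x) = (β x)⁻¹ * ((b * α * b⁻¹ : ↥G) : MulAut P) (β x)
    rw [Subgroup.coe_mul, Subgroup.coe_mul, Subgroup.coe_inv, hb, MulAut.mul_apply, MulAut.mul_apply,
      MulAut.inv_apply_self, map_mul, map_inv]
  exact h1 ⟨x, hx, rfl⟩

theorem triv_of_P0 {p : ℕ} (hP : IsPGroup p P) (G : Subgroup (MulAut P)) (α : MulAut P) (hα : α ∈ G)
    (ho : (orderOf α).Coprime p) (h : ∀ x ∈ P0 p G, α x = x) : α = 1 := by
  ext x
  have h1 : x⁻¹ * α x ∈ P0 p G := by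
    apply Subgroup.subset_closure
    refine ⟨⟨α, hα⟩, ?_, x, rfl⟩
    apply Cfsg.Agent.Lib.Helper53.mem_pResidual
    rw [Subgroup.orderOf_mk]
    exact ho
  have h2 := fix_lemma hP α ho x (x⁻¹ * α x) (by group) (h _ h1)
  rw [MulAut.one_apply]
  exact (inv_mul_eq_one.1 h2).symm

/-- the critical subgroup over `A0` inside `Q0` -/
def CC (p : ℕ) (Q0 A0 : Subgroup P) : Subgroup P where
  carrier := {x | x ∈ Q0 ∧ (∀ a ∈ A0, x * a = a * x) ∧ (∀ y : P, x * y * x⁻¹ * y⁻¹ ∈ A0) ∧ x ^ p ∈ A0}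
  one_mem' := ⟨Q0.one_mem, by simp, by simp [A0.one_mem], by simp [A0.one_mem]⟩
  mul_mem' := by
    rintro x x' ⟨h1, h2, h3, h4⟩ ⟨h1', h2', h3', h4'⟩
    refine ⟨Q0.mul_mem h1 h1', ?_, ?_, ?_⟩
    · intro a ha
      rw [mul_assoc, h2' a ha, ← mul_assoc, h2 a ha, mul_assoc]
    · intro y
      have e : x * x' * y * (x * x')⁻¹ * y⁻¹ = x * (x' * y * x'⁻¹ * y⁻¹) * x⁻¹ * (x * y * x⁻¹ * y⁻¹) := by
        group
      rw [e, h2 _ (h3' y), mul_inv_cancel_right]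
      exact A0.mul_mem (h3' y) (h3 y)
    · have hz : x' * x = (x' * x * x'⁻¹ * x⁻¹) * x * x' := by group
      have hzx : Commute (x' * x * x'⁻¹ * x⁻¹) x := (h2 _ (h3' x)).symm
      have hzx' : Commute (x' * x * x'⁻¹ * x⁻¹) x' := (h2' _ (h3' x)).symm
      rw [Cfsg.Agent.Lib.Helper14.mul_pow_of_commutator_central hz hzx hzx']
      exact A0.mul_mem (A0.mul_mem h4 h4') (A0.pow_mem (h3' x) _)
  inv_mem' := by
    rintro x ⟨h1, h2, h3, h4⟩
    refine ⟨Q0.inv_mem h1, ?_, ?_, ?_⟩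
    · intro a ha
      have := h2 a ha
      calc x⁻¹ * a = x⁻¹ * (a * x) * x⁻¹ := by group
        _ = x⁻¹ * (x * a) * x⁻¹ := by rw [this]
        _ = a * x⁻¹ := by group
    · intro y
      have e : x⁻¹ * y * x⁻¹⁻¹ * y⁻¹ = x⁻¹ * ((x * y * x⁻¹ * y⁻¹)⁻¹ * x) := by group
      rw [e, ← h2 _ (A0.inv_mem (h3 y)), inv_mul_cancel_left]
      exact A0.inv_mem (h3 y)
    · rw [inv_pow]; exact A0.inv_mem h4

theorem mem_CC {p : ℕ} {Q0 A0 : Subgroup P} {x : P} : x ∈ CC p Q0 A0 ↔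
    x ∈ Q0 ∧ (∀ a ∈ A0, x * a = a * x) ∧ (∀ y : P, x * y * x⁻¹ * y⁻¹ ∈ A0) ∧ x ^ p ∈ A0 := Iff.rfl

/-- the exponent -/
def qq (p : ℕ) : ℕ := if p = 2 then 4 else p

theorem pow_hom {p : ℕ} (hp : p.Prime) {Q0 A0 : Subgroup P} {x x' : P} (hx : x ∈ CC p Q0 A0)
    (hx' : x' ∈ CC p Q0 A0) : (x * x') ^ qq p = x ^ qq p * x' ^ qq p := by
  obtain ⟨h1, h2, h3, h4⟩ := hx
  obtain ⟨h1', h2', h3', h4'⟩ := hx'
  have hz : x' * x = (x' * x * x'⁻¹ * x⁻¹) * x * x' := by group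
  have hzx : Commute (x' * x * x'⁻¹ * x⁻¹) x := (h2 _ (h3' x)).symm
  have hzx' : Commute (x' * x * x'⁻¹ * x⁻¹) x' := (h2' _ (h3' x)).symm
  rw [Cfsg.Agent.Lib.Helper14.mul_pow_of_commutator_central hz hzx hzx']
  have hzp : (x' * x * x'⁻¹ * x⁻¹) ^ p = 1 := by
    have e := Cfsg.Agent.Lib.Helper14.pow_mul_of_commutator_central hz hzx' p
    rw [← h2 _ h4', mul_assoc] at e
    exact (mul_eq_right.1 e.symm)
  have : (x' * x * x'⁻¹ * x⁻¹) ^ ((qq p).choose 2) = 1 := by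
    unfold qq
    split_ifs with h
    · subst h
      have : (4 : ℕ).choose 2 = 2 * 3 := by decide
      rw [this, pow_mul, hzp, one_pow]
    · obtain ⟨c, hc⟩ := Cfsg.Agent.Lib.Helper14.dvd_choose_two_of_odd (hp.odd_of_ne_two h)
      rw [hc, pow_mul, hzp, one_pow]
  rw [this, mul_one]

/-- `D = Ω(C)` -/
def DD (p : ℕ) (hp : p.Prime) (Q0 A0 : Subgroup P) : Subgroup P where
  carrier := {x | x ∈ CC p Q0 A0 ∧ x ^ qq p = 1}
  one_mem' := ⟨Subgroup.one_mem _, one_pow _⟩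
  mul_mem' := by
    rintro x x' ⟨h1, h2⟩ ⟨h1', h2'⟩
    exact ⟨Subgroup.mul_mem _ h1 h1', by rw [pow_hom hp h1 h1', h2, h2', one_mul]⟩
  inv_mem' := by
    rintro x ⟨h1, h2⟩
    exact ⟨Subgroup.inv_mem _ h1, by rw [inv_pow, h2, inv_one]⟩

theorem mem_DD {p : ℕ} {hp : p.Prime} {Q0 A0 : Subgroup P} {x : P} : x ∈ DD p hp Q0 A0 ↔
    x ∈ CC p Q0 A0 ∧ x ^ qq p = 1 := Iff.rfl

theorem inv_CC {p : ℕ} {G : Subgroup (MulAut P)} {Q0 A0 : Subgroup P} (hQ : Inv G Q0) (hA : Inv G A0) :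
    Inv G (CC p Q0 A0) := by
  rintro β hβ x ⟨h1, h2, h3, h4⟩
  refine ⟨hQ β hβ x h1, ?_, ?_, ?_⟩
  · intro a ha
    have h5 := h2 _ (hA β⁻¹ (G.inv_mem hβ) a ha)
    have h6 := congrArg β h5
    rwa [map_mul, map_mul, MulAut.apply_inv_self] at h6
  · intro y
    have h5 := hA β hβ _ (h3 (β⁻¹ y))
    rwa [map_mul, map_mul, map_mul, map_inv, map_inv, MulAut.apply_inv_self] at h5
  · rw [← map_pow]; exact hA β hβ _ h4

theorem inv_DD {p : ℕ} {hp : p.Prime} {G : Subgroup (MulAut P)} {Q0 A0 : Subgroup P} (hQ : Inv G Q0)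
    (hA : Inv G A0) : Inv G (DD p hp Q0 A0) := by
  rintro β hβ x ⟨h1, h2⟩
  exact ⟨inv_CC hQ hA β hβ x h1, by rw [← map_pow, h2, map_one]⟩

theorem le_CC {p : ℕ} {Q0 A0 : Subgroup P} (hA0 : A0 ≤ Q0) [hn : A0.Normal]
    (hAc : ∀ a ∈ A0, ∀ b ∈ A0, a * b = b * a) : A0 ≤ CC p Q0 A0 := by
  intro a ha
  refine ⟨hA0 ha, fun b hb => hAc a ha b hb, ?_, A0.pow_mem ha p⟩
  intro y
  have : a * y * a⁻¹ * y⁻¹ = a * (y * a⁻¹ * y⁻¹) := by group
  rw [this]
  exact A0.mul_mem ha (hn.conj_mem _ (A0.inv_mem ha) y)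

theorem core [Finite P] {p : ℕ} [hp : Fact p.Prime] (hP : IsPGroup p P) (G : Subgroup (MulAut P))
    (hG : Cfsg.Inn P ≤ G) (A0 : Subgroup P) (hA0 : A0 ≤ P0 p G) (hAinv : Inv G A0)
    (hAc : ∀ a ∈ A0, ∀ b ∈ A0, a * b = b * a)
    (hmax : ∀ X : Subgroup P, X ≤ P0 p G → Inv G X → (∀ a ∈ X, ∀ b ∈ X, a * b = b * a) → A0 ≤ X → X = A0) :
    ∀ x ∈ P0 p G, (∀ c ∈ CC p (P0 p G) A0, x * c = c * x) → x ∈ A0 := by
  intro x hx hxc
  by_contra hxA
  haveI hAn : A0.Normal := hAinv.normal hG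
  have hCinv : Inv G (CC p (P0 p G) A0) := inv_CC (inv_P0 p G) hAinv
  have hA0C : A0 ≤ CC p (P0 p G) A0 := le_CC hA0 hAc
  obtain ⟨Q, hQ⟩ : ∃ Q, Q = P0 p G ⊓ Subgroup.centralizer (CC p (P0 p G) A0 : Set P) := ⟨_, rfl⟩
  have hmemQ : ∀ g, g ∈ Q ↔ g ∈ P0 p G ∧ ∀ c ∈ CC p (P0 p G) A0, g * c = c * g := by
    intro g
    rw [hQ, Subgroup.mem_inf, Subgroup.mem_centralizer_iff]
    constructor
    · rintro ⟨h1, h2⟩
      exact ⟨h1, fun c hc => (h2 c hc).symm⟩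
    · rintro ⟨h1, h2⟩
      exact ⟨h1, fun c hc => (h2 c hc).symm⟩
  have hQinv : Inv G Q := by
    intro β hβ g hg
    obtain ⟨h1, h2⟩ := (hmemQ g).1 hg
    refine (hmemQ _).2 ⟨inv_P0 p G β hβ g h1, ?_⟩
    intro c hc
    have h3 := congrArg β (h2 _ (hCinv β⁻¹ (G.inv_mem hβ) c hc))
    rwa [map_mul, map_mul, MulAut.apply_inv_self] at h3
  have hA0Q : A0 ≤ Q := by
    intro a ha
    exact (hmemQ a).2 ⟨hA0 ha, fun c hc => ((mem_CC.1 hc).2.1 a ha).symm⟩
  have hQC : Q ⊓ CC p (P0 p G) A0 = A0 := by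
    apply hmax
    · exact inf_le_left.trans (hQ ▸ inf_le_left)
    · intro β hβ g hg
      exact Subgroup.mem_inf.2 ⟨hQinv β hβ g (Subgroup.mem_inf.1 hg).1, hCinv β hβ g (Subgroup.mem_inf.1 hg).2⟩
    · intro a ha b hb
      exact ((hmemQ a).1 (Subgroup.mem_inf.1 ha).1).2 b (Subgroup.mem_inf.1 hb).2
    · exact le_inf hA0Q hA0C
  haveI hQn : Q.Normal := hQinv.normal hG
  haveI : (Q.map (QuotientGroup.mk' A0)).Normal := hQn.map _ (QuotientGroup.mk'_surjective A0)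
  have hne : Q.map (QuotientGroup.mk' A0) ≠ ⊥ := by
    intro h
    have h1 : QuotientGroup.mk' A0 x ∈ Q.map (QuotientGroup.mk' A0) :=
      Subgroup.mem_map_of_mem _ ((hmemQ x).2 ⟨hx, hxc⟩)
    rw [h, Subgroup.mem_bot] at h1
    exact hxA ((QuotientGroup.eq_one_iff x).1 h1)
  have hPq : IsPGroup p (P ⧸ A0) := hP.to_quotient A0
  have hY := Cfsg.Agent.Lib.Helper3.normal_inf_center_ne_bot' hPq _ hne
  obtain ⟨z, hz, hzp⟩ := exists_order_p (hPq.to_subgroup _) hY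
  obtain ⟨⟨x1, hx1, rfl⟩, hzc⟩ := Subgroup.mem_inf.1 hz
  obtain ⟨h1, h2⟩ := (hmemQ x1).1 hx1
  have hx1C : x1 ∈ CC p (P0 p G) A0 := by
    refine ⟨h1, fun a ha => h2 a (hA0C ha), ?_, ?_⟩
    · intro y
      rw [← QuotientGroup.eq_one_iff, ← QuotientGroup.mk'_apply, map_mul, map_mul, map_mul, map_inv, map_inv,
        ← Subgroup.mem_center_iff.1 hzc (QuotientGroup.mk' A0 y)]
      group
    · rw [← QuotientGroup.eq_one_iff, ← QuotientGroup.mk'_apply, map_pow, ← hzp, pow_orderOf_eq_one]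
  have hx1A : x1 ∈ A0 := hQC ▸ Subgroup.mem_inf.2 ⟨hx1, hx1C⟩
  rw [QuotientGroup.mk'_apply, (QuotientGroup.eq_one_iff x1).2 hx1A, orderOf_one] at hzp
  exact hp.out.one_lt.ne hzp

/-- Let P be a finite p-group and G a group of automorphisms of P containing the inner automorphisms. Then there is a G-invariant subgroup D of P, contained in the subgroup generated by the elements x⁻¹α(x) with x in P and α in O^p(G), of exponent dividing p when p is odd and dividing 4 when p = 2, with [D, P] ≤ Z(D), such that every automorphism in G of order prime to p that fixes D elementwise is the identity; moreover every maximal abelian subgroup A of D is normal in P and every automorphism in G fixing A elementwise has p-power order. -/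
theorem result {P : Type*} [Group P] [Finite P] {p : ℕ} [Fact p.Prime] (hP : IsPGroup p P)
    (G : Subgroup (MulAut P)) (hG : Cfsg.Inn P ≤ G) :
    ∃ D : Subgroup P,
      (∀ α ∈ G, D.map α.toMonoidHom = D) ∧
      D ≤ Subgroup.closure {y : P | ∃ α ∈ Cfsg.pResidual p ↥G, ∃ x : P, y = x⁻¹ * (α : MulAut P) x} ∧
      (∀ d ∈ D, d ^ p = 1 ∨ (p = 2 ∧ d ^ 4 = 1)) ∧
      ⁅D, (⊤ : Subgroup P)⁆ ≤ D ⊓ Subgroup.centralizer (D : Set P) ∧
      (∀ α ∈ G, (orderOf α).Coprime p → (∀ d ∈ D, α d = d) → α = 1) ∧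
      ∀ A : Subgroup P, A ≤ D → IsMulCommutative ↥A →
        (∀ B : Subgroup P, A ≤ B → B ≤ D → IsMulCommutative ↥B → B = A) →
        A.Normal ∧ ∀ α ∈ G, (∀ a ∈ A, α a = a) → ∃ k : ℕ, orderOf α = p ^ k := by
  have hp : p.Prime := Fact.out
  obtain ⟨A0, ⟨hA0, hAinv, hAc⟩, hmax⟩ : ∃ A0 : Subgroup P,
      (A0 ≤ P0 p G ∧ Inv G A0 ∧ ∀ a ∈ A0, ∀ b ∈ A0, a * b = b * a) ∧
      ∀ X : Subgroup P, X ≤ P0 p G → Inv G X → (∀ a ∈ X, ∀ b ∈ X, a * b = b * a) → A0 ≤ X → X = A0 := by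
    have hfin : Set.Finite {X : Subgroup P | X ≤ P0 p G ∧ Inv G X ∧ ∀ a ∈ X, ∀ b ∈ X, a * b = b * a} :=
      Set.toFinite _
    have hne : Set.Nonempty {X : Subgroup P | X ≤ P0 p G ∧ Inv G X ∧ ∀ a ∈ X, ∀ b ∈ X, a * b = b * a} := by
      refine ⟨⊥, bot_le, ?_, ?_⟩
      · intro α _ x hx
        rw [Subgroup.mem_bot] at hx ⊢
        rw [hx, map_one]
      · intro a ha b hb
        rw [Subgroup.mem_bot] at ha hb
        rw [ha, hb]
    obtain ⟨A0, hA0⟩ := hfin.exists_maximal hne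
    exact ⟨A0, hA0.prop, fun X h1 h2 h3 hle => le_antisymm (hA0.2 ⟨h1, h2, h3⟩ hle) hle⟩
  have hcore := core hP G hG A0 hA0 hAinv hAc hmax
  haveI hAn : A0.Normal := hAinv.normal hG
  have hCinv : Inv G (CC p (P0 p G) A0) := inv_CC (inv_P0 p G) hAinv
  have hDinv : Inv G (DD p hp (P0 p G) A0) := inv_DD (inv_P0 p G) hAinv
  have hA0C : A0 ≤ CC p (P0 p G) A0 := le_CC hA0 hAc
  have detectC : ∀ α ∈ G, (orderOf α).Coprime p → (∀ c ∈ CC p (P0 p G) A0, α c = c) → α = 1 := by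
    intro α hα ho h
    apply triv_of_P0 hP G α hα ho
    intro x hx
    have hc : x⁻¹ * α x ∈ A0 := by
      apply hcore _ ((P0 p G).mul_mem ((P0 p G).inv_mem hx) (inv_P0 p G α hα x hx))
      intro e he
      have h2 := h _ (hCinv.conj_mem hG x he)
      rw [map_mul, map_mul, map_inv, h e he] at h2
      calc x⁻¹ * α x * e = x⁻¹ * (α x * e * (α x)⁻¹) * α x := by group
        _ = x⁻¹ * (x * e * x⁻¹) * α x := by rw [h2]
        _ = e * (x⁻¹ * α x) := by group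
    have h3 := fix_lemma hP α ho x (x⁻¹ * α x) (by group) (h _ (hA0C hc))
    exact (inv_mul_eq_one.1 h3).symm
  have hqp : ∀ c : P, c ^ p = 1 → c ^ qq p = 1 := by
    intro c hc
    unfold qq
    split_ifs with h
    · subst h
      have : (4 : ℕ) = 2 * 2 := by norm_num
      rw [this, pow_mul, hc, one_pow]
    · exact hc
  have hqA : ∀ x ∈ CC p (P0 p G) A0, x ^ qq p ∈ A0 := by
    intro x hx
    have h4 := (mem_CC.1 hx).2.2.2
    unfold qq
    split_ifs with h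
    · subst h
      have : (4 : ℕ) = 2 * 2 := by norm_num
      rw [this, pow_mul]
      exact A0.pow_mem h4 2
    · exact h4
  have detectD : ∀ α ∈ G, (orderOf α).Coprime p → (∀ d ∈ DD p hp (P0 p G) A0, α d = d) → α = 1 := by
    intro α hα ho h
    have ha : ∀ j : ℕ, ∀ a ∈ A0, a ^ p ^ j = 1 → α a = a := by
      intro j
      induction j with
      | zero =>
        intro a _ h1
        rw [pow_zero, pow_one] at h1
        rw [h1, map_one]
      | succ j ih =>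
        intro a haA h1
        have h2 : α (a ^ p) = a ^ p := ih (a ^ p) (A0.pow_mem haA p) (by rw [← pow_mul, ← pow_succ']; exact h1)
        have hαa : α a ∈ A0 := hAinv α hα a haA
        have hc : a⁻¹ * α a ∈ A0 := A0.mul_mem (A0.inv_mem haA) hαa
        have hcp : (a⁻¹ * α a) ^ p = 1 := by
          have hcm : Commute a⁻¹ (α a) := hAc _ (A0.inv_mem haA) _ hαa
          rw [hcm.mul_pow, ← map_pow, h2, inv_pow, inv_mul_cancel]
        have h3 := fix_lemma hP α ho a (a⁻¹ * α a) (by group) (h _ ⟨hA0C hc, hqp _ hcp⟩)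
        exact (inv_mul_eq_one.1 h3).symm
    have ha' : ∀ a ∈ A0, α a = a := by
      intro a haA
      obtain ⟨j, hj⟩ := hP a
      exact ha j a haA hj
    apply detectC α hα ho
    intro x hx
    have hαx : α x ∈ CC p (P0 p G) A0 := hCinv α hα x hx
    have hc : x⁻¹ * α x ∈ CC p (P0 p G) A0 := Subgroup.mul_mem _ (Subgroup.inv_mem _ hx) hαx
    have hcq : (x⁻¹ * α x) ^ qq p = 1 := by
      rw [pow_hom hp (Subgroup.inv_mem _ hx) hαx, ← map_pow, ha' _ (hqA x hx), inv_pow, inv_mul_cancel]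
    have h3 := fix_lemma hP α ho x (x⁻¹ * α x) (by group) (h _ ⟨hc, hcq⟩)
    exact (inv_mul_eq_one.1 h3).symm
  have hcommA0 : ∀ d ∈ DD p hp (P0 p G) A0, ∀ y : P, d * y * d⁻¹ * y⁻¹ ∈ A0 :=
    fun d hd y => (mem_CC.1 hd.1).2.2.1 y
  have hcommD : ∀ d ∈ DD p hp (P0 p G) A0, ∀ y : P, d * y * d⁻¹ * y⁻¹ ∈ DD p hp (P0 p G) A0 := by
    intro d hd y
    have : d * y * d⁻¹ * y⁻¹ = d * (y * d⁻¹ * y⁻¹) := by group
    rw [this]
    exact Subgroup.mul_mem _ hd (hDinv.conj_mem hG y (Subgroup.inv_mem _ hd))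
  refine ⟨DD p hp (P0 p G) A0, fun α hα => hDinv.map_eq hα, fun d hd => (mem_CC.1 hd.1).1, ?_, ?_, detectD, ?_⟩
  · intro d hd
    have h1 := hd.2
    by_cases h : p = 2
    · right
      refine ⟨h, ?_⟩
      unfold qq at h1
      rwa [if_pos h] at h1
    · left
      unfold qq at h1
      rwa [if_neg h] at h1
  · rw [Subgroup.commutator_le]
    intro d hd y _
    rw [commutatorElement_def]
    refine Subgroup.mem_inf.2 ⟨hcommD d hd y, ?_⟩
    rw [Subgroup.mem_centralizer_iff]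
    intro e he
    exact (mem_CC.1 he.1).2.1 _ (hcommA0 d hd y)
  · intro A hAD hAcomm hAmax
    have hM : ∀ g ∈ DD p hp (P0 p G) A0, (∀ a ∈ A, g * a = a * g) → g ∈ A := by
      intro g hg hga
      have hB : Subgroup.closure ((A : Set P) ∪ {g}) = A := by
        apply hAmax
        · exact fun a ha => Subgroup.subset_closure (Or.inl ha)
        · rw [Subgroup.closure_le]
          rintro x (hx | rfl)
          · exact hAD hx
          · exact hg
        · apply Subgroup.isMulCommutative_closure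
          rintro x (hx | rfl) y (hy | rfl)
          · exact congrArg Subtype.val (hAcomm.is_comm.comm ⟨x, hx⟩ ⟨y, hy⟩)
          · exact (hga x hx).symm
          · exact hga y hy
          · rfl
      rw [← hB]
      exact Subgroup.subset_closure (Or.inr rfl)
    have hZ : ∀ d ∈ DD p hp (P0 p G) A0, ∀ y : P, d * y * d⁻¹ * y⁻¹ ∈ A := by
      intro d hd y
      apply hM _ (hcommD d hd y)
      intro a ha
      exact ((mem_CC.1 (hAD ha).1).2.1 _ (hcommA0 d hd y)).symm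
    have hAn' : A.Normal := by
      refine ⟨fun a ha y => ?_⟩
      have : y * a * y⁻¹ = (a * y * a⁻¹ * y⁻¹)⁻¹ * a := by group
      rw [this]
      exact A.mul_mem (A.inv_mem (hZ a (hAD ha) y)) ha
    refine ⟨hAn', ?_⟩
    intro α hα hαA
    obtain ⟨k, m, hm, hkm⟩ := Nat.exists_eq_pow_mul_and_not_dvd (orderOf_pos α).ne' p hp.ne_one
    have hβG : α ^ p ^ k ∈ G := G.pow_mem hα _
    have hβo : (orderOf (α ^ p ^ k)).Coprime p := by
      have h1 : orderOf (α ^ p ^ k) ∣ m := by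
        apply orderOf_dvd_of_pow_eq_one
        rw [← pow_mul, ← hkm, pow_orderOf_eq_one]
      exact Nat.Coprime.coprime_dvd_left h1 ((Nat.Prime.coprime_iff_not_dvd hp).2 hm).symm
    have hβA : ∀ a ∈ A, (α ^ p ^ k) a = a := by
      intro a ha
      generalize p ^ k = N
      induction N with
      | zero => simp
      | succ N ih => rw [pow_succ', MulAut.mul_apply, ih, hαA a ha]
    have hβ1 : α ^ p ^ k = 1 := by
      apply detectD _ hβG hβo
      intro d hd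
      have hβd := hDinv _ hβG d hd
      have hc : d⁻¹ * (α ^ p ^ k) d ∈ A := by
        apply hM _ (Subgroup.mul_mem _ (Subgroup.inv_mem _ hd) hβd)
        intro e he
        have h2 := hβA _ (hAn'.conj_mem e he d)
        rw [map_mul, map_mul, map_inv, hβA e he] at h2
        calc d⁻¹ * (α ^ p ^ k) d * e = d⁻¹ * ((α ^ p ^ k) d * e * ((α ^ p ^ k) d)⁻¹) * (α ^ p ^ k) d := by group
          _ = d⁻¹ * (d * e * d⁻¹) * (α ^ p ^ k) d := by rw [h2]
          _ = e * (d⁻¹ * (α ^ p ^ k) d) := by group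
      have h3 := fix_lemma hP _ hβo d (d⁻¹ * (α ^ p ^ k) d) (by group) (hβA _ hc)
      exact (inv_mul_eq_one.1 h3).symm
    obtain ⟨j, -, hj⟩ := (Nat.dvd_prime_pow hp).1 (orderOf_dvd_of_pow_eq_one hβ1)
    exact ⟨j, hj⟩

end Cfsg.Agent.S1949
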