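import Cfsg.Statements.S1952
import Mathlib

set_option autoImplicit false
open Cfsg

namespace Cfsg.Agent.S1952

theorem const_of_shift_invariant (p : ℕ) [hp : Fact p.Prime] (R : AddSubgroup (ZMod p → ZMod p))
    (hR : ∀ c ∈ R, ∀ k : ZMod p, (fun i => c (i + k)) ∈ R) (hne : R ≠ ⊥) :
    ∃ γ : ZMod p, γ ≠ 0 ∧ (fun _ => γ) ∈ R := by
  classical
  let act : MulAction (Multiplicative (ZMod p)) R :=
    { smul := fun k c => ⟨fun i => c.1 (i + k.toAdd), hR c.1 c.2 _⟩
      one_smul := fun c => by
        apply Subtype.ext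
        funext i
        show c.1 (i + 0) = c.1 i
        rw [add_zero]
      mul_smul := fun k l c => by
        apply Subtype.ext
        funext i
        show c.1 (i + (k.toAdd + l.toAdd)) = c.1 (i + k.toAdd + l.toAdd)
        rw [add_assoc] }
  have hG : IsPGroup p (Multiplicative (ZMod p)) := by
    apply IsPGroup.of_card (n := 1)
    rw [pow_one, Nat.card_eq_fintype_card, Fintype.card_multiplicative, ZMod.card]
  have hcardV : Nat.card (ZMod p → ZMod p) = p ^ p := by
    rw [Nat.card_eq_fintype_card, Fintype.card_fun, ZMod.card]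
  have hdvd : p ∣ Nat.card R := by
    have h1 : Nat.card R ∣ p ^ p := by
      rw [← hcardV]; exact AddSubgroup.card_addSubgroup_dvd_card R
    obtain ⟨k, -, hk⟩ := (Nat.dvd_prime_pow hp.out).mp h1
    rw [hk]
    apply dvd_pow_self
    rintro rfl
    rw [pow_zero] at hk
    exact hne (AddSubgroup.card_eq_one.mp hk)
  have h0 : (0 : R) ∈ MulAction.fixedPoints (Multiplicative (ZMod p)) R := by
    intro k
    apply Subtype.ext
    funext i
    rfl
  obtain ⟨b, hb, hb0⟩ := hG.exists_fixed_point_of_prime_dvd_card_of_fixed_point R hdvd h0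
  have hconst : ∀ i, b.1 i = b.1 0 := by
    intro i
    have := congrArg (fun c : R => c.1 0) (hb (Multiplicative.ofAdd i))
    have h2 : b.1 (0 + i) = b.1 0 := this
    rwa [zero_add] at h2
  refine ⟨b.1 0, ?_, ?_⟩
  · intro h
    apply hb0
    apply Subtype.ext
    funext i
    show (0 : ZMod p) = b.1 i
    rw [hconst i, h]
  · have : (fun _ => b.1 0) = b.1 := by funext i; exact (hconst i).symm
    rw [this]; exact b.2

theorem circ_surj (p : ℕ) [hp : Fact p.Prime] (v : ZMod p → ZMod p) (hv : ∑ i, v i ≠ 0)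
    (w : ZMod p → ZMod p) : ∃ c : ZMod p → ZMod p, ∀ j, ∑ i, c i * v (i + j) = w j := by
  classical
  let ψ : (ZMod p → ZMod p) →+ (ZMod p → ZMod p) :=
    { toFun := fun c j => ∑ i, c i * v (i + j)
      map_zero' := by funext j; simp
      map_add' := fun c d => by
        funext j
        simp [add_mul, Finset.sum_add_distrib] }
  have hker : ψ.ker = ⊥ := by
    by_contra hne
    obtain ⟨γ, hγ, hmem⟩ := const_of_shift_invariant p ψ.ker (by
      intro c hc k
      rw [AddMonoidHom.mem_ker] at hc ⊢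
      funext j
      have h1 := congrFun hc (j - k)
      show ∑ i, c (i + k) * v (i + j) = 0
      have h2 : ∑ i, c i * v (i + (j - k)) = 0 := h1
      rw [← h2]
      apply Fintype.sum_equiv (Equiv.addRight k)
      intro i
      simp only [Equiv.coe_addRight]
      congr 2
      ring) hne
    rw [AddMonoidHom.mem_ker] at hmem
    have h1 := congrFun hmem 0
    have h2 : ∑ i, γ * v (i + 0) = 0 := h1
    simp only [add_zero, ← Finset.mul_sum] at h2
    rcases mul_eq_zero.mp h2 with h | h
    · exact hγ h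
    · exact hv h
  have hinj : Function.Injective ψ := (AddMonoidHom.ker_eq_bot_iff ψ).mp hker
  obtain ⟨c, hc⟩ := (Finite.injective_iff_surjective.mp hinj) w
  exact ⟨c, fun j => congrFun hc j⟩


theorem exists_dual' {V : Type*} [AddCommGroup V] (p : ℕ) [hp : Fact p.Prime] [Module (ZMod p) V]
    (z : V) (hz : z ≠ 0) : ∃ f : V →ₗ[ZMod p] ZMod p, f z ≠ 0 :=
  Module.Projective.exists_dual_ne_zero (ZMod p) hz

theorem exists_char {A : Type*} [CommGroup A] (p : ℕ) [hp : Fact p.Prime]
    (hA : ∀ a : A, a ^ p = 1) (z : A) (hz : z ≠ 1) :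
    ∃ lam : A →* Multiplicative (ZMod p), lam z ≠ 1 := by
  let _ : Module (ZMod p) (Additive A) := AddCommGroup.zmodModule (n := p) (fun a => by
    show Additive.ofMul (a.toMul ^ p) = 0
    rw [hA]; rfl)
  have hz' : Additive.ofMul z ≠ 0 := fun h => hz h
  obtain ⟨f, hf⟩ := exists_dual' p _ hz'
  refine ⟨AddMonoidHom.toMultiplicativeRight f.toAddMonoidHom, ?_⟩
  intro h1
  exact hf h1

theorem sum_zmod_val {M : Type*} [AddCommMonoid M] (p : ℕ) [hp : Fact p.Prime] (F : ℕ → M) :
    ∑ i : ZMod p, F i.val = ∑ i ∈ Finset.range p, F i := by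
  have : NeZero p := ⟨hp.out.ne_zero⟩
  symm
  apply Finset.sum_bij' (fun (i : ℕ) _ => (i : ZMod p)) (fun (j : ZMod p) _ => j.val)
  · intro i _; exact Finset.mem_univ _
  · intro j _; exact Finset.mem_range.mpr (ZMod.val_lt j)
  · intro i hi; exact ZMod.val_natCast_of_lt (Finset.mem_range.mp hi)
  · intro j _; exact ZMod.natCast_zmod_val j
  · intro i hi; rw [ZMod.val_natCast_of_lt (Finset.mem_range.mp hi)]

theorem core {A : Type*} [CommGroup A] (p : ℕ) [hp : Fact p.Prime]
    (hA : ∀ a : A, a ^ p = 1) (σ : A →* A) (hσ : ∀ a, σ^[p] a = a) (x : A)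
    (hx : (∏ i ∈ Finset.range p, σ^[i] x) ≠ 1) :
    ∃ lam : A →* Multiplicative (ZMod p), (∃ a, lam a ≠ 1) ∧
      ∀ w : ZMod p → ZMod p, ∃ a : A, ∀ j : ZMod p,
        lam (σ^[j.val] a) = Multiplicative.ofAdd (w j) := by
  classical
  have : NeZero p := ⟨hp.out.ne_zero⟩
  obtain ⟨lam, hlam⟩ := exists_char p hA _ hx
  refine ⟨lam, ⟨_, hlam⟩, ?_⟩
  -- periodicity
  have hper : ∀ (m : ℕ) (a : A), σ^[m % p] a = σ^[m] a := by
    intro m a
    have h1 : ∀ k : ℕ, σ^[p * k] a = a := by
      intro k
      induction k with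
      | zero => rfl
      | succ k ih => rw [Nat.mul_succ, Function.iterate_add_apply, hσ, ih]
    conv_rhs => rw [← Nat.mod_add_div m p, Function.iterate_add_apply, h1]
  let v : ZMod p → ZMod p := fun k => (lam (σ^[k.val] x)).toAdd
  have hv : ∑ i, v i ≠ 0 := by
    intro h
    apply hlam
    rw [map_prod]
    have h2 : ∑ i : ZMod p, v i = ∑ i ∈ Finset.range p, (lam (σ^[i] x)).toAdd :=
      sum_zmod_val p (fun i => (lam (σ^[i] x)).toAdd)
    rw [h2] at h
    have h3 : (∏ i ∈ Finset.range p, lam (σ^[i] x)).toAdd = 0 := by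
      rw [toAdd_prod]; exact h
    exact h3
  intro w
  obtain ⟨c, hc⟩ := circ_surj p v hv w
  refine ⟨∏ i : ZMod p, (σ^[i.val] x) ^ (c i).val, fun j => ?_⟩
  have hiter : ∀ (m : ℕ) (f : ZMod p → A), σ^[m] (∏ i, f i) = ∏ i, σ^[m] (f i) := by
    intro m f
    induction m with
    | zero => rfl
    | succ m ih =>
      rw [Function.iterate_succ_apply', ih, map_prod]
      apply Finset.prod_congr rfl
      intro i _
      rw [Function.iterate_succ_apply']
  rw [hiter, map_prod, ← hc j]
  apply Multiplicative.toAdd.injective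
  rw [toAdd_prod, toAdd_ofAdd]
  apply Finset.sum_congr rfl
  intro i _
  rw [iterate_map_pow, map_pow, ← Function.iterate_add_apply, toAdd_pow]
  have h5 : σ^[j.val + i.val] x = σ^[(i + j).val] x := by
    rw [ZMod.val_add, hper, add_comm]
  rw [h5]
  show (c i).val • v (i + j) = c i * v (i + j)
  rw [nsmul_eq_mul, ZMod.natCast_zmod_val]


theorem card_sylow_perm (p : ℕ) [hp : Fact p.Prime] (Q : Sylow p (Equiv.Perm (Fin (p ^ 2)))) :
    Nat.card Q = p ^ (p + 1) := by
  rw [Sylow.card_eq_multiplicity, Nat.card_eq_fintype_card, Fintype.card_perm, Fintype.card_fin,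
    Nat.factorization_def _ hp.out]
  congr 1
  have hlog : Nat.log p (p ^ 2) < 3 := by
    rw [Nat.log_pow hp.out.one_lt]; norm_num
  rw [padicValNat_factorial hlog]
  have : Finset.Ico 1 3 = {1, 2} := by decide
  rw [this, Finset.sum_pair (by norm_num)]
  rw [pow_one, Nat.div_self (pow_pos hp.out.pos 2), sq, Nat.mul_div_cancel _ hp.out.pos]

/-- Let P be a finite p-group with a normal elementary abelian subgroup A of index p, and let x ∈ A and y ∈ P with y outside A. If the product of the p conjugates y^(-i) x y^i (i = 0, …, p−1) is not the identity, then the wreath product Z_p ≀ Z_p, realised as a Sylow p-subgroup of the symmetric group of degree p², is a homomorphic image of P. -/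
theorem result {P : Type*} [Group P] [Finite P] {p : ℕ} [Fact p.Prime] (hP : IsPGroup p P) (A : Subgroup P) [A.Normal]
    (hA : Cfsg.IsElementaryAbelian p A) (hidx : A.index = p) (x y : P) (hx : x ∈ A) (hy : y ∉ A)
    (hprod : ((List.range p).map (fun i => (y ^ i)⁻¹ * x * y ^ i)).prod ≠ 1) :
    ∃ (Q : Sylow p (Equiv.Perm (Fin (p ^ 2)))) (f : P →* ↥(Q : Subgroup (Equiv.Perm (Fin (p ^ 2))))), Function.Surjective f := by
  classical
  have hp : p.Prime := Fact.out
  let _ : CommGroup ↥A :=
    { (inferInstance : Group ↥A) with mul_comm := fun a b => (isMulCommutative_iff.mp hA.1) a b }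
  have hA' : ∀ a : A, a ^ p = 1 := fun a => Subtype.ext (by simpa using hA.2 a a.2)
  let σ : ↥A →* ↥A := (MulAut.conjNormal y⁻¹ : MulAut A).toMonoidHom
  have hσ1 : ∀ a : A, ((σ a : A) : P) = y⁻¹ * a * y := by
    intro a
    show ((MulAut.conjNormal y⁻¹ a : A) : P) = _
    rw [MulAut.conjNormal_apply, inv_inv]
  have hσi : ∀ (i : ℕ) (a : A), ((σ^[i] a : A) : P) = (y ^ i)⁻¹ * a * y ^ i := by
    intro i a
    induction i with
    | zero => simp
    | succ i ih =>
      rw [Function.iterate_succ_apply', hσ1, ih, pow_succ]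
      group
  have hyp : y ^ p ∈ A := by
    have := A.pow_index_mem y
    rwa [hidx] at this
  have hσp : ∀ a : A, σ^[p] a = a := by
    intro a
    apply Subtype.ext
    rw [hσi]
    have hc : (a : P) * y ^ p = y ^ p * a :=
      congrArg Subtype.val (mul_comm a (⟨y ^ p, hyp⟩ : A))
    rw [mul_assoc, hc, ← mul_assoc, inv_mul_cancel, one_mul]
  have hx' : (∏ i ∈ Finset.range p, σ^[i] (⟨x, hx⟩ : A)) ≠ 1 := by
    intro h
    apply hprod
    have key : ∀ n : ℕ, ((List.range n).map (fun i => (y ^ i)⁻¹ * x * y ^ i)).prod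
        = ((∏ i ∈ Finset.range n, σ^[i] (⟨x, hx⟩ : A) : A) : P) := by
      intro n
      induction n with
      | zero => simp
      | succ n ih =>
        rw [List.range_succ, List.map_append, List.prod_append, ih, Finset.prod_range_succ,
          Subgroup.coe_mul, hσi]
        simp
    rw [key, h]; rfl
  obtain ⟨lam, ⟨a0, ha0⟩, hsurj⟩ := core p hA' σ hσp ⟨x, hx⟩ hx'
  -- the hyperplane
  obtain ⟨B, hB⟩ : ∃ B : Subgroup P, B = lam.ker.map A.subtype := ⟨_, rfl⟩
  have hcardZ : Nat.card (Multiplicative (ZMod p)) = p := by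
    rw [Nat.card_eq_fintype_card, Fintype.card_multiplicative, ZMod.card]
  have hlamidx : lam.ker.index = p := by
    rw [Subgroup.index_ker]
    have h1 : Nat.card lam.range ∣ p := by
      have := Subgroup.card_subgroup_dvd_card lam.range
      rwa [hcardZ] at this
    rcases (Nat.dvd_prime hp).mp h1 with h | h
    · exfalso
      have := Subgroup.card_eq_one.mp h
      have hm : lam a0 ∈ lam.range := ⟨a0, rfl⟩
      rw [this, Subgroup.mem_bot] at hm
      exact ha0 hm
    · exact h
  have hBidx : B.index = p ^ 2 := by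
    rw [hB, Subgroup.index_map_subtype, hlamidx, hidx, sq]
  have e : (P ⧸ B) ≃ Fin (p ^ 2) := Finite.equivFinOfCardEq (by rw [← Subgroup.index_eq_card, hBidx])
  let f : P →* Equiv.Perm (Fin (p ^ 2)) := e.permCongrHom.toMonoidHom.comp (MulAction.toPermHom P (P ⧸ B))
  have hker : f.ker = B.normalCore := by
    rw [Subgroup.normalCore_eq_ker]
    ext g
    simp only [f, MonoidHom.mem_ker, MonoidHom.comp_apply, MulEquiv.coe_toMonoidHom,
      EmbeddingLike.map_eq_one_iff]
  -- the index of the core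
  let φ : ↥A →* (ZMod p → Multiplicative (ZMod p)) :=
    MonoidHom.mk' (fun a j => lam (σ^[j.val] a)) (fun a b => by
      funext j
      simp only [Pi.mul_apply]
      rw [iterate_map_mul, map_mul])
  have hφsurj : Function.Surjective φ := by
    intro w
    obtain ⟨a, ha⟩ := hsurj (fun j => (w j).toAdd)
    exact ⟨a, funext fun j => ha j⟩
  have hφidx : φ.ker.index = p ^ p := by
    rw [Subgroup.index_ker, MonoidHom.range_eq_top.mpr hφsurj, Subgroup.card_top,
      Nat.card_eq_fintype_card, Fintype.card_fun, Fintype.card_multiplicative, ZMod.card]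
  have hCA : B.normalCore ≤ A := by
    refine (Subgroup.normalCore_le B).trans ?_
    rw [hB]; rintro _ ⟨a, -, rfl⟩; exact a.2
  have hCle : (B.normalCore).subgroupOf A ≤ φ.ker := by
    intro a ha
    rw [Subgroup.mem_subgroupOf] at ha
    rw [MonoidHom.mem_ker]
    funext j
    show lam (σ^[j.val] a) = 1
    have h1 : (y ^ j.val)⁻¹ * (a : P) * ((y ^ j.val)⁻¹)⁻¹ ∈ B := ha _
    rw [inv_inv, ← hσi, hB] at h1
    obtain ⟨b, hb, hbe⟩ := h1
    have : b = σ^[j.val] a := Subtype.ext hbe
    rw [← this]; exact hb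
  have hdvd : p ^ (p + 1) ∣ B.normalCore.index := by
    rw [← Subgroup.relIndex_mul_index hCA, hidx, pow_succ]
    apply Nat.mul_dvd_mul_right
    rw [← hφidx]
    exact Subgroup.index_dvd_of_le hCle
  have hHp : IsPGroup p f.range := hP.of_surjective f.rangeRestrict f.rangeRestrict_surjective
  obtain ⟨Q, hQ⟩ := hHp.exists_le_sylow
  have hcardH : Nat.card f.range = B.normalCore.index := by
    rw [← Subgroup.index_ker, hker]
  have hEq : f.range = (Q : Subgroup _) := by
    apply Subgroup.eq_of_le_of_card_ge hQ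
    have h1 : Nat.card (Q : Subgroup (Equiv.Perm (Fin (p ^ 2)))) = p ^ (p + 1) := card_sylow_perm p Q
    rw [h1, hcardH]
    exact Nat.le_of_dvd (Nat.pos_of_ne_zero (Subgroup.index_ne_zero_of_finite)) hdvd
  refine ⟨Q, f.codRestrict (Q : Subgroup _) (fun g => hQ ⟨g, rfl⟩), ?_⟩
  rintro ⟨q, hq⟩
  have : q ∈ f.range := by rw [hEq]; exact hq
  obtain ⟨g, hg⟩ := this
  exact ⟨g, Subtype.ext hg⟩

end Cfsg.Agent.S1952
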