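import Cfsg.Statements.S1954
import Cfsg.Agent.Lib.Helper39.NormalCtl2

set_option autoImplicit false
open Cfsg
open Cfsg.Agent.Lib.Helper39

namespace Cfsg.Agent.S1954

/-- Let N be a normal subgroup of the finite group G, P a Sylow p-subgroup of G, and V a subgroup of P ∩ N normal in P ∩ N such that N_N(V) controls strong fusion in P ∩ N with respect to N (whenever a subgroup A of P ∩ N has n A n⁻¹ ≤ P ∩ N for some n in N, then n = h c with h in N_N(V) and c in C_N(A)). Let W be the subgroup generated by the conjugates of V under N_G(P ∩ N). Then N_G(W) controls strong fusion in P with respect to G. -/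
theorem result {G : Type*} [Group G] [Finite G] {p : ℕ} [Fact p.Prime] (N : Subgroup G) [N.Normal] (P : Sylow p G) (V : Subgroup G)
    (hV : V ≤ (P : Subgroup G) ⊓ N) (hVn : ∀ x ∈ (P : Subgroup G) ⊓ N, V.map (MulAut.conj x).toMonoidHom = V)
    (hctrl : ∀ A : Subgroup G, A ≤ (P : Subgroup G) ⊓ N → ∀ n ∈ N, A.map (MulAut.conj n).toMonoidHom ≤ (P : Subgroup G) ⊓ N →
      ∃ h ∈ N ⊓ Subgroup.normalizer (V : Set G), ∃ c ∈ N ⊓ Subgroup.centralizer (A : Set G), n = h * c)
    (W : Subgroup G) (hW : W = Subgroup.closure (⋃ x ∈ Subgroup.normalizer (((P : Subgroup G) ⊓ N : Subgroup G) : Set G),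
      ((V.map (MulAut.conj x).toMonoidHom : Subgroup G) : Set G))) :
    ∀ A : Subgroup G, A ≤ (P : Subgroup G) → ∀ g : G, A.map (MulAut.conj g).toMonoidHom ≤ (P : Subgroup G) →
        ∃ h ∈ Subgroup.normalizer (W : Set G), ∃ c ∈ Subgroup.centralizer (A : Set G), g = h * c := by
  have hN : N.Normal := inferInstance
  have hW1 : ∀ x ∈ Subgroup.normalizer (((P : Subgroup G) ⊓ N : Subgroup G) : Set G), cj x V ≤ W := by
    intro x hx
    rw [hW]
    intro v hv
    apply Subgroup.subset_closure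
    exact Set.mem_biUnion hx hv
  have hW2 : ∀ U : Subgroup G,
      (∀ x ∈ Subgroup.normalizer (((P : Subgroup G) ⊓ N : Subgroup G) : Set G), cj x V ≤ U) → W ≤ U := by
    intro U hU
    rw [hW, Subgroup.closure_le]
    intro v hv
    obtain ⟨x, hx, hv'⟩ := Set.mem_iUnion₂.mp hv
    exact hU x hx hv'
  obtain ⟨hWT, hNT, hctl⟩ := Ctl.closure (N := N) (T := (P : Subgroup G) ⊓ N) (V := V) (W := W) hN hV
    hctrl hW1 hW2
  intro A hA g hg
  obtain ⟨x, hx, hxa⟩ := Ctl.global N P W hWT hNT hctl A hA g hg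
  refine ⟨x, hx, x⁻¹ * g, ?_, by group⟩
  rw [Subgroup.mem_centralizer_iff]
  intro a ha
  have h1 := hxa a ha
  calc a * (x⁻¹ * g) = x⁻¹ * (x * a * x⁻¹) * g := by group
    _ = x⁻¹ * (g * a * g⁻¹) * g := by rw [h1]
    _ = x⁻¹ * g * a := by group

end Cfsg.Agent.S1954
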