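import Cfsg.Statements.S1976
import Cfsg.Agent.S1975
import Mathlib.Order.OrderIsoNat

set_option autoImplicit false
open Cfsg

namespace Cfsg.Agent.S1976

theorem odd_anti {P : Type*} [Group P] : Antitone (Cfsg.kSeqOdd P) :=
  antitone_nat_of_succ_le (fun n => Cfsg.Agent.S1975.odd_antitone n)

theorem even_mono {P : Type*} [Group P] : Monotone (Cfsg.kSeqEven P) :=
  monotone_nat_of_le_succ
    (fun n => sSup_le_sSup (Cfsg.Agent.S1975.lower_antitone (Cfsg.Agent.S1975.odd_antitone n)))

theorem stab {P : Type*} [Group P] [Finite P] : ∃ n : ℕ, ∀ m : ℕ, n ≤ m → Cfsg.kSeqEven P m = Cfsg.kInfLower P ∧ Cfsg.kSeqOdd P m = Cfsg.kInfUpper P := by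
  obtain ⟨n1, h1⟩ := WellFoundedGT.monotone_chain_condition (α := Subgroup P) ⟨Cfsg.kSeqEven P, even_mono⟩
  obtain ⟨n2, h2⟩ := WellFoundedLT.antitone_chain_condition (α := Subgroup P) (odd_anti (P := P))
  refine ⟨max n1 n2, fun m hm => ⟨?_, ?_⟩⟩
  · apply le_antisymm
    · exact le_iSup (Cfsg.kSeqEven P) m
    · apply iSup_le
      intro k
      rcases le_total k m with hk | hk
      · exact even_mono hk
      · have e1 := h1 m (le_trans (le_max_left _ _) hm)
        have e2 := h1 k (le_trans (le_trans (le_max_left _ _) hm) hk)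
        simp only [OrderHom.coe_mk] at e1 e2
        rw [← e2, e1]
  · apply le_antisymm
    · apply le_iInf
      intro k
      rcases le_total k m with hk | hk
      · exact odd_anti hk
      · have e1 := h2 m (le_trans (le_max_right _ _) hm)
        have e2 := h2 k (le_trans (le_trans (le_max_right _ _) hm) hk)
        rw [← e2, e1]
    · exact iInf_le (Cfsg.kSeqOdd P) m

/-- Let P be a finite p-group. The K-sequence of P is eventually constant on each parity: from some index on, every even-indexed term equals the lower K-infinity subgroup and every odd-indexed term equals the upper K-infinity subgroup. -/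
theorem result {P : Type*} [Group P] [Finite P] {p : ℕ} [Fact p.Prime] (hP : IsPGroup p P) : ∃ n : ℕ, ∀ m : ℕ, n ≤ m → Cfsg.kSeqEven P m = Cfsg.kInfLower P ∧ Cfsg.kSeqOdd P m = Cfsg.kInfUpper P := by
  exact stab

end Cfsg.Agent.S1976
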