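import Cfsg.Statements.S1977
import Cfsg.Agent.Lib.Helper39.KGood
import Cfsg.Agent.Lib.Helper3.PGroup

set_option autoImplicit false
open Cfsg
open Cfsg.Agent.Lib.Helper39
open scoped commutatorElement

namespace Cfsg.Agent.S1977

theorem commutator_sup_le' {G : Type*} [Group G] (B Z A K : Subgroup G)
    (hB : B ≤ Subgroup.normalizer (K : Set G)) (hZ : Z ≤ Subgroup.normalizer (K : Set G))
    (h1 : ⁅B, A⁆ ≤ K) (h2 : ⁅Z, A⁆ ≤ K) : ⁅B ⊔ Z, A⁆ ≤ K := by
  let H : Subgroup G :=
    { carrier := {c | c ∈ Subgroup.normalizer (K : Set G) ∧ ∀ a ∈ A, ⁅c, a⁆ ∈ K}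
      mul_mem' := by
        rintro c c' ⟨hc, hc'⟩ ⟨hd, hd'⟩
        refine ⟨Subgroup.mul_mem _ hc hd, ?_⟩
        intro a ha
        rw [comm_mul_left]
        refine K.mul_mem ?_ (hc' a ha)
        have := conj_mem_cj (g := c) (hd' a ha)
        rwa [cj_eq_of_mem_normalizer hc] at this
      one_mem' := ⟨Subgroup.one_mem _, fun x _ => by
        rw [commutatorElement_one_left]; exact K.one_mem⟩
      inv_mem' := by
        rintro c ⟨hc, hc'⟩
        refine ⟨Subgroup.inv_mem _ hc, ?_⟩
        intro a ha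
        have e : ⁅c⁻¹, a⁆ = c⁻¹ * ⁅c, a⁆⁻¹ * c⁻¹⁻¹ := by
          simp only [commutatorElement_def]; group
        rw [e]
        have := conj_mem_cj (g := c⁻¹) (K.inv_mem (hc' a ha))
        rwa [cj_eq_of_mem_normalizer (Subgroup.inv_mem _ hc)] at this }
  have hBH : B ≤ H := fun b hb => ⟨hB hb, fun a ha => h1 (Subgroup.commutator_mem_commutator hb ha)⟩
  have hZH : Z ≤ H := fun b hb => ⟨hZ hb, fun a ha => h2 (Subgroup.commutator_mem_commutator hb ha)⟩
  rw [Subgroup.commutator_le]
  intro c hc a ha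
  exact ((sup_le hBH hZH) hc).2 a ha

theorem exists_ext {P : Type*} [Group P] [Finite P] {p : ℕ} [Fact p.Prime] (hP : IsPGroup p P)
    (B : Subgroup P) (hnot : ¬ Subgroup.centralizer (B : Set P) ≤ B) :
    ∃ x, x ∈ Subgroup.centralizer (B : Set P) ∧ x ∉ B ∧
      ∀ q ∈ Subgroup.normalizer (B : Set P), ⁅x, q⁆ ∈ B ⊓ Subgroup.centralizer (B : Set P) := by
  set N := Subgroup.normalizer (B : Set P) with hN
  have hBn : (B.subgroupOf N).Normal := Subgroup.normal_in_normalizer
  have hCN : Subgroup.centralizer (B : Set P) ≤ N := Subgroup.centralizer_le_normalizer _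
  have hCn : ((Subgroup.centralizer (B : Set P)).subgroupOf N).Normal := by
    apply Subgroup.normal_subgroupOf_of_le_normalizer
    exact normalizer_le_normalizer_centralizer B
  have hDn : (((Subgroup.centralizer (B : Set P)).subgroupOf N).map
      (QuotientGroup.mk' (B.subgroupOf N))).Normal :=
    hCn.map _ (QuotientGroup.mk'_surjective _)
  have hDne : ((Subgroup.centralizer (B : Set P)).subgroupOf N).map
      (QuotientGroup.mk' (B.subgroupOf N)) ≠ ⊥ := by
    intro h
    rw [Subgroup.map_eq_bot_iff, QuotientGroup.ker_mk'] at h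
    apply hnot
    intro c hc
    exact h (show (⟨c, hCN hc⟩ : N) ∈ (Subgroup.centralizer (B : Set P)).subgroupOf N from hc)
  have hQp : IsPGroup p (N ⧸ B.subgroupOf N) := (hP.to_subgroup N).to_quotient _
  have hne := Cfsg.Agent.Lib.Helper3.normal_inf_center_ne_bot' hQp _ hDne
  obtain ⟨⟨z, hz⟩, hz1⟩ := Subgroup.ne_bot_iff_exists_ne_one.mp hne
  obtain ⟨⟨⟨x, hxN⟩, hxC, hxz⟩, hzc⟩ := id hz
  have hz1' : (z : N ⧸ B.subgroupOf N) ≠ 1 := fun h => hz1 (Subtype.ext h)
  have hxC' : x ∈ Subgroup.centralizer (B : Set P) := hxC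
  refine ⟨x, hxC', ?_, ?_⟩
  · intro hxB
    apply hz1'
    rw [← hxz]
    exact (QuotientGroup.eq_one_iff _).mpr hxB
  · intro q hq
    constructor
    · have h1 : (QuotientGroup.mk' (B.subgroupOf N)) ⁅(⟨x, hxN⟩ : N), ⟨q, hq⟩⁆ = 1 := by
        rw [map_commutatorElement, hxz, commutatorElement_eq_one_iff_mul_comm]
        exact ((Subgroup.mem_center_iff.mp hzc) _).symm
      have h2 := (QuotientGroup.eq_one_iff _).mp h1
      exact h2
    · have h3 : q * x⁻¹ * q⁻¹ ∈ Subgroup.centralizer (B : Set P) := by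
        have := conj_mem_cj (g := q) (Subgroup.inv_mem _ hxC')
        rwa [cj_eq_of_mem_normalizer (normalizer_le_normalizer_centralizer B hq)] at this
      have e : ⁅x, q⁆ = x * (q * x⁻¹ * q⁻¹) := by
        simp only [commutatorElement_def]; group
      rw [e]
      exact Subgroup.mul_mem _ hxC' h3

/-- Let P be a finite p-group. A member B that is maximal under inclusion in any one of the families used to build the K-sequence of P — the class-two family, the lower-star family relative to an odd-indexed term, or the upper-star family relative to an even-indexed term — contains its centralizer: C_P(B) ≤ B. -/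
theorem result {P : Type*} [Group P] [Finite P] {p : ℕ} [Fact p.Prime] (hP : IsPGroup p P) (B : Subgroup P) (𝒦 : Set (Subgroup P)) (h𝒦 : 𝒦 = Cfsg.classTwoSubgroups P ∨ (∃ n, 𝒦 = Cfsg.kLowerStarFamily (Cfsg.kSeqOdd P n)) ∨ ∃ n, 𝒦 = Cfsg.kUpperStarFamily (Cfsg.kSeqEven P n)) (hB : B ∈ 𝒦) (hmax : ∀ C ∈ 𝒦, B ≤ C → C = B) : Subgroup.centralizer (B : Set P) ≤ B := by
  by_contra hnot
  obtain ⟨x, hxC, hxB, hxq⟩ := exists_ext hP B hnot
  set Z := Subgroup.zpowers x with hZ
  set C := B ⊔ Z with hC
  set K0 := B ⊓ Subgroup.centralizer (B : Set P) with hK0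
  set K := C ⊓ Subgroup.centralizer (C : Set P) with hK
  have hBC : B ≤ C := le_sup_left
  have hZC : Z ≤ C := le_sup_right
  have hxmem : x ∈ C := hZC (Subgroup.mem_zpowers x)
  have hfin : C ∉ 𝒦 := by
    intro h
    apply hxB
    rw [← hmax C h hBC]
    exact hxmem
  -- basic facts
  have hZcB : Z ≤ Subgroup.centralizer (B : Set P) := by
    rw [hZ, Subgroup.zpowers_le]; exact hxC
  have hBcZ : B ≤ Subgroup.centralizer (Z : Set P) := Subgroup.le_centralizer_iff.mp hZcB
  have hZcZ : Z ≤ Subgroup.centralizer (Z : Set P) := by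
    intro a ha
    rw [Subgroup.mem_centralizer_iff]
    intro b hb
    obtain ⟨i, rfl⟩ := Subgroup.mem_zpowers_iff.mp ha
    obtain ⟨j, rfl⟩ := Subgroup.mem_zpowers_iff.mp hb
    rw [← zpow_add, ← zpow_add, add_comm]
  have hZcC : Z ≤ Subgroup.centralizer (C : Set P) :=
    Subgroup.le_centralizer_iff.mp (sup_le hBcZ hZcZ)
  have hK0K : K0 ≤ K := by
    refine le_inf (inf_le_left.trans hBC) ?_
    apply Subgroup.le_centralizer_iff.mp
    refine sup_le ?_ ?_
    · exact Subgroup.le_centralizer_iff.mp inf_le_right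
    · exact hZcB.trans (Subgroup.centralizer_le inf_le_left)
  have hCK : C ≤ Subgroup.normalizer (K : Set P) :=
    le_normalizer_inf Subgroup.le_normalizer
      (Subgroup.le_normalizer.trans (normalizer_le_normalizer_centralizer C))
  have hZbot : ∀ D : Subgroup P, D ≤ C → ⁅Z, D⁆ ≤ K := by
    intro D hD
    have : ⁅Z, D⁆ = ⊥ := by
      rw [Subgroup.commutator_eq_bot_iff_le_centralizer]
      exact hZcC.trans (Subgroup.centralizer_le hD)
    rw [this]; exact bot_le
  have hZN : ⁅Z, Subgroup.normalizer (B : Set P)⁆ ≤ K0 := by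
    rw [Subgroup.commutator_comm]
    apply commutator_zpowers_le
    · have h1 : x ∈ Subgroup.centralizer (K0 : Set P) := Subgroup.centralizer_le inf_le_left hxC
      exact Subgroup.centralizer_le_normalizer _ h1
    · intro q hq
      have := K0.inv_mem (hxq q hq)
      rwa [commutatorElement_inv] at this
  have hclass : ∀ hB2 : B ∈ Cfsg.classTwoSubgroups P, C ∈ Cfsg.classTwoSubgroups P := by
    intro hB2
    have hB2' : ⁅B, B⁆ ≤ Subgroup.centralizer (B : Set P) := hB2
    have hBB : ⁅B, B⁆ ≤ K := (le_inf (Subgroup.commutator_le_self B) hB2').trans hK0K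
    have h1 : ⁅C, B⁆ ≤ K :=
      commutator_sup_le' B Z B K (hBC.trans hCK) (hZC.trans hCK) hBB (hZbot B hBC)
    have h2 : ⁅C, C⁆ ≤ K := by
      apply commutator_sup_le' B Z C K (hBC.trans hCK) (hZC.trans hCK) _ (hZbot C le_rfl)
      rw [Subgroup.commutator_comm]; exact h1
    exact h2.trans inf_le_right
  rcases h𝒦 with h | ⟨n, h⟩ | ⟨n, h⟩
  · rw [h] at hB hfin
    exact hfin (hclass hB)
  · rw [h] at hB hfin
    obtain ⟨hB2, hQB, hcond⟩ := hB
    apply hfin
    refine ⟨hclass hB2, ?_, ?_⟩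
    · rw [le_normalizer_iff_commutator_le, Subgroup.commutator_comm]
      apply commutator_sup_le' B Z _ C (hBC.trans Subgroup.le_normalizer)
        (hZC.trans Subgroup.le_normalizer)
      · rw [Subgroup.commutator_comm]
        exact (le_normalizer_iff_commutator_le.mp hQB).trans hBC
      · exact (Subgroup.commutator_mono le_rfl hQB).trans (hZN.trans (inf_le_left.trans hBC))
    · intro A hA hAQ hCA h1 h2
      apply commutator_sup_le' B Z A K (hBC.trans hCK) (hZC.trans hCK)
      · refine le_trans (hcond A hA hAQ (hBC.trans hCA) ?_ ?_) hK0K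
        · rw [eq_bot_iff, ← h1]
          exact Subgroup.commutator_mono hBC le_rfl
        · rw [eq_bot_iff, ← h2]
          exact Subgroup.commutator_mono (Subgroup.commutator_mono hK0K le_rfl) le_rfl
      · exact (Subgroup.commutator_mono le_rfl (hAQ.trans hQB)).trans (hZN.trans hK0K)
  · rw [h] at hB hfin
    obtain ⟨hB2, hBQ⟩ := hB
    apply hfin
    refine ⟨hclass hB2, ?_⟩
    have hQB : Cfsg.kSeqEven P n ≤ Subgroup.normalizer (B : Set P) := by
      rw [le_normalizer_iff_commutator_le, Subgroup.commutator_comm]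
      exact hBQ.trans inf_le_left
    apply commutator_sup_le' B Z _ K (hBC.trans hCK) (hZC.trans hCK)
    · exact hBQ.trans hK0K
    · exact (Subgroup.commutator_mono le_rfl hQB).trans (hZN.trans hK0K)

end Cfsg.Agent.S1977
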