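import Cfsg.Statements.S1978
import Cfsg.Agent.S1975
import Cfsg.Agent.S1976
import Cfsg.Agent.S1977

set_option autoImplicit false
open Cfsg

namespace Cfsg.Agent.S1978

theorem bot_mem_classTwo (P : Type*) [Group P] : (⊥ : Subgroup P) ∈ Cfsg.classTwoSubgroups P := by
  change ⁅(⊥ : Subgroup P), (⊥ : Subgroup P)⁆ ≤ _
  rw [Subgroup.commutator_bot_left]; exact bot_le

theorem bot_mem_lower {P : Type*} [Group P] (Q : Subgroup P) :
    (⊥ : Subgroup P) ∈ Cfsg.kLowerStarFamily Q := by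
  refine ⟨bot_mem_classTwo P, ?_, ?_⟩
  · intro q _
    rw [Subgroup.mem_normalizer_iff]
    intro h
    simp
  · intro A _ _ _ _ _
    rw [Subgroup.commutator_bot_left]; exact bot_le

theorem bot_mem_upper {P : Type*} [Group P] (Q : Subgroup P) :
    (⊥ : Subgroup P) ∈ Cfsg.kUpperStarFamily Q := by
  refine ⟨bot_mem_classTwo P, ?_⟩
  rw [Subgroup.commutator_bot_left]; exact bot_le

theorem key {P : Type*} [Group P] [Finite P] {p : ℕ} [Fact p.Prime] (hP : IsPGroup p P)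
    (𝒦 : Set (Subgroup P)) (h𝒦 : 𝒦 = Cfsg.classTwoSubgroups P ∨ (∃ n, 𝒦 = Cfsg.kLowerStarFamily (Cfsg.kSeqOdd P n)) ∨ ∃ n, 𝒦 = Cfsg.kUpperStarFamily (Cfsg.kSeqEven P n))
    (hne : 𝒦.Nonempty) : Subgroup.centralizer ((sSup 𝒦 : Subgroup P) : Set P) ≤ sSup 𝒦 := by
  obtain ⟨B, hB, hmax⟩ := (Set.toFinite 𝒦).exists_maximal hne
  have h1 := Cfsg.Agent.S1977.result hP B 𝒦 h𝒦 hB
    (fun C hC hBC => le_antisymm (hmax hC hBC) hBC)
  have h2 : B ≤ sSup 𝒦 := le_sSup hB
  exact (Subgroup.centralizer_le h2).trans (h1.trans h2)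

/-- Let P be a finite p-group. Each of the two K-infinity subgroups of P contains its own centralizer in P, which in turn contains Z(P); in particular both are nontrivial when P is. -/
theorem result {P : Type*} [Group P] [Finite P] {p : ℕ} [Fact p.Prime] (hP : IsPGroup p P) : Subgroup.centralizer (Cfsg.kInfLower P : Set P) ≤ Cfsg.kInfLower P ∧ Subgroup.center P ≤ Subgroup.centralizer (Cfsg.kInfLower P : Set P) ∧ Subgroup.centralizer (Cfsg.kInfUpper P : Set P) ≤ Cfsg.kInfUpper P ∧ Subgroup.center P ≤ Subgroup.centralizer (Cfsg.kInfUpper P : Set P) := by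
  obtain ⟨n, hn⟩ := Cfsg.Agent.S1976.result hP
  refine ⟨?_, Subgroup.center_le_centralizer _, ?_, Subgroup.center_le_centralizer _⟩
  · have h1 := (hn n le_rfl).1
    rw [← h1]
    exact key hP _ (Or.inr (Or.inl ⟨n, rfl⟩)) ⟨⊥, bot_mem_lower _⟩
  · have h1 := (hn (n + 1) (Nat.le_succ n)).2
    rw [← h1]
    exact key hP _ (Or.inr (Or.inr ⟨n, rfl⟩)) ⟨⊥, bot_mem_upper _⟩

end Cfsg.Agent.S1978
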