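import Cfsg.Statements.S1990
import Cfsg.Agent.S2005
import Cfsg.Agent.Lib.Helper62.PAPStable

set_option autoImplicit false
universe u
open Cfsg

namespace Cfsg.Agent.S1990

open Subgroup Cfsg.Agent.Lib.Helper62 Cfsg.Agent.Lib.Helper77

/-- Let p be an odd prime, G a finite group with Sylow p-subgroup S, and W an isomorphism-invariant p-group functor (W assigns to every group Q a subgroup W(Q), nontrivial whenever Q is a nontrivial finite p-group, and every isomorphism from a finite p-group Q onto a group R carries W(Q) onto W(R)). Suppose N_G(W(S)) has a normal p-complement, and W(T) controls strong fusion in every section G* = K/R of G all of whose sections are p-stable in the normalizer form, for every Sylow p-subgroup T of G*. Then G has a normal p-complement. -/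
theorem result {G : Type u} [Group G] [Finite G] {p : ℕ} [Fact p.Prime] (hp : p ≠ 2) (W : ∀ (Q : Type u) [Group Q], Subgroup Q) (hW : Cfsg.IsCharPFunctor.{u} p W) (S : Sylow p G) (hN : Cfsg.HasNormalPComplement p ↥(Subgroup.normalizer ((Cfsg.inducedFunctor (G := G) W (S : Subgroup G) : Subgroup G) : Set G))) (hctl : ∀ (K R : Subgroup G) [hR : (R.subgroupOf K).Normal], (∀ (K' R' : Subgroup (↥K ⧸ R.subgroupOf K)) [hR' : (R'.subgroupOf K').Normal], Cfsg.IsNormalizerPStable p (↥K' ⧸ R'.subgroupOf K')) → ∀ T : Sylow p (↥K ⧸ R.subgroupOf K), Cfsg.ControlsStrongFusion p (Cfsg.inducedFunctor (G := (↥K ⧸ R.subgroupOf K)) W (T : Subgroup (↥K ⧸ R.subgroupOf K)))) : Cfsg.HasNormalPComplement p G := by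
  apply Cfsg.Agent.S2005.result W hW S hN
  intro K R hR hC hq T hco
  rw [Cfsg.Agent.S0072.hasNPC_iff] at hq
  obtain ⟨K₀, hPAP⟩ := exists_PAP (Cfsg.pCore p (↥K ⧸ R.subgroupOf K))
    Cfsg.Agent.Lib.Helper14.isPGroup_pCore hq T hco
  have hst : ∀ (K' R' : Subgroup (↥K ⧸ R.subgroupOf K)) [hR' : (R'.subgroupOf K').Normal],
      Cfsg.IsNormalizerPStable p (↥K' ⧸ R'.subgroupOf K') := by
    intro K' R' hR'
    exact ((hPAP.comap K'.subtype K'.subtype_injective).map (QuotientGroup.mk' (R'.subgroupOf K'))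
      (QuotientGroup.mk'_surjective _)).isNormalizerPStable hp
  obtain ⟨T', hUT', hctl'⟩ := hctl K R hst T
  rw [← normalizer_eq_top_iff, eq_top_iff]
  intro g _
  have hA : ((Cfsg.pCore p (↥K ⧸ R.subgroupOf K) : Subgroup _) : Set (↥K ⧸ R.subgroupOf K)) ⊆
      (T' : Subgroup (↥K ⧸ R.subgroupOf K)) := Cfsg.Agent.Lib.Helper14.pCore_le_sylow T'
  obtain ⟨x, hx, hxa⟩ := (hctl' _ hA).2 g (by
    rintro _ ⟨a, ha, rfl⟩
    exact hA ((inferInstance : (Cfsg.pCore p (↥K ⧸ R.subgroupOf K)).Normal).conj_mem a ha g))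
  have h1 : x⁻¹ * g ∈ centralizer ((Cfsg.pCore p (↥K ⧸ R.subgroupOf K) : Subgroup _) :
      Set (↥K ⧸ R.subgroupOf K)) := by
    rw [mem_centralizer_iff]
    intro a ha
    have h2 := hxa a ha
    calc a * (x⁻¹ * g) = x⁻¹ * (x * a * x⁻¹) * g := by group
      _ = x⁻¹ * (g * a * g⁻¹) * g := by rw [h2]
      _ = x⁻¹ * g * a := by group
  have h3 : x⁻¹ * g ∈ normalizer ((Cfsg.inducedFunctor W (T : Subgroup (↥K ⧸ R.subgroupOf K)) :
      Subgroup _) : Set (↥K ⧸ R.subgroupOf K)) :=
    normalizer_le_ind hW _ T.2 (le_normalizer (Cfsg.Agent.Lib.Helper14.pCore_le_sylow T (hC h1)))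
  have h4 := mul_mem hx h3
  rwa [mul_inv_cancel_left] at h4

end Cfsg.Agent.S1990
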