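import Cfsg.Statements.S1988
import Cfsg.Agent.Lib.Helper68.SFMain
import Cfsg.Agent.S2795
import Cfsg.Agent.S1990
import Cfsg.Agent.S2007
import Cfsg.Agent.S1978

set_option autoImplicit false
universe u
open Cfsg

namespace Cfsg.Agent.S1988

/-- Let p be an odd prime, G a finite group with Sylow p-subgroup S and K the lower K-infinity subgroup of S. If N_G(K) has a normal p-complement, or if N_G(K)/C_G(K) is a p-group (every element of N_G(K) of order prime to p centralizes K), then G has a normal p-complement. -/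
theorem result {G : Type u} [Group G] [Finite G] {p : ℕ} [Fact p.Prime] (hp : p ≠ 2) (S : Sylow p G) (h : Cfsg.HasNormalPComplement p ↥(Subgroup.normalizer ((Cfsg.inducedFunctor Cfsg.kInfLower (S : Subgroup G) : Subgroup G) : Set G)) ∨ ∀ g ∈ Subgroup.normalizer ((Cfsg.inducedFunctor Cfsg.kInfLower (S : Subgroup G) : Subgroup G) : Set G), (orderOf g).Coprime p → g ∈ Subgroup.centralizer ((Cfsg.inducedFunctor Cfsg.kInfLower (S : Subgroup G) : Subgroup G) : Set G)) : Cfsg.HasNormalPComplement p G := by
  have hW := Cfsg.Agent.Lib.Helper39.kInfLower_isCharPFunctor.{u} p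
  have hN : Cfsg.HasNormalPComplement p ↥(Subgroup.normalizer
      ((Cfsg.inducedFunctor Cfsg.kInfLower (S : Subgroup G) : Subgroup G) : Set G)) := by
    rcases h with h | h
    · exact h
    · refine Cfsg.Agent.S2007.result S _ (Cfsg.Agent.Lib.Helper40.ind_le _) ?_ ?_ h
      · exact Subgroup.le_normalizer.trans
          (Cfsg.Agent.Lib.Helper39.normalizer_le_normalizer_functor
            (Cfsg.Agent.Lib.Helper40.isConjugacyFunctor_ind hW G) S.2)
      · intro x hx
        obtain ⟨hxS, hxC⟩ := Subgroup.mem_inf.1 hx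
        have h1 := (Cfsg.Agent.S1978.result (P := ↥(S : Subgroup G)) (p := p) S.2).1
        have h2 : (⟨x, hxS⟩ : ↥(S : Subgroup G)) ∈
            Subgroup.centralizer (Cfsg.kInfLower ↥(S : Subgroup G) : Set ↥(S : Subgroup G)) := by
          rw [Subgroup.mem_centralizer_iff]
          intro y hy
          apply Subtype.ext
          have h3 : (y : G) ∈ Cfsg.inducedFunctor Cfsg.kInfLower (S : Subgroup G) :=
            ⟨y, hy, rfl⟩
          exact (Subgroup.mem_centralizer_iff.1 hxC) (y : G) h3
        exact ⟨⟨x, hxS⟩, h1 h2, rfl⟩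
  refine Cfsg.Agent.S1990.result hp Cfsg.kInfLower hW S hN ?_
  intro K R hR hst T
  exact Cfsg.Agent.Lib.Helper68.kInfLower_good hp ((Cfsg.Agent.S2795.result hp).mpr hst) T

end Cfsg.Agent.S1988
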