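import Cfsg.Statements.S2001
import Cfsg.Agent.Lib.Helper57.FC16
import Cfsg.Agent.Lib.Helper39.NormalCtl
-- import your own Cfsg.Agent.* helpers here

set_option autoImplicit false
open Cfsg

namespace Cfsg.Agent.S2001


/-- Let p be a prime dividing the order of the finite group G, P a Sylow p-subgroup, W a conjugacy functor for p on G with Z(H) ≤ W(H) for every nontrivial p-subgroup H, and V a central functor: a conjugacy functor with V(H) ≤ Z(H), and V(H) ≤ V(K) whenever Z(H) ≤ Z(K), for nontrivial p-subgroups H, K. Say that W with V controls transfer in a subgroup L when some Sylow p-subgroup Q of L satisfies Q ∩ L' = (Q ∩ (N_L(W(Q)))')·(Q ∩ (C_L(V(Q)))') as a product of two subgroups. If W with V controls transfer in N_G(H) for every subgroup H with Z(P) ≤ H ≤ P, then W with V controls transfer in G. -/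
theorem result {G : Type*} [Group G] [Finite G] {p : ℕ} [Fact p.Prime] (hdiv : p ∣ Nat.card G) (P : Sylow p G) (W V : Subgroup G → Subgroup G) (hW : Cfsg.IsConjugacyFunctor p W) (hV : Cfsg.IsConjugacyFunctor p V) (hWZ : ∀ H : Subgroup G, IsPGroup p ↥H → H ⊓ Subgroup.centralizer ((H : Subgroup G) : Set G) ≤ W H) (hVZ : ∀ H : Subgroup G, IsPGroup p ↥H → V H ≤ H ⊓ Subgroup.centralizer ((H : Subgroup G) : Set G)) (hVmono : ∀ H K : Subgroup G, IsPGroup p ↥H → IsPGroup p ↥K → H ≠ ⊥ → K ≠ ⊥ → H ⊓ Subgroup.centralizer ((H : Subgroup G) : Set G) ≤ K ⊓ Subgroup.centralizer ((K : Subgroup G) : Set G) → V H ≤ V K) (hloc : ∀ H : Subgroup G, (P : Subgroup G) ⊓ Subgroup.centralizer (((P : Subgroup G) : Subgroup G) : Set G) ≤ H → H ≤ (P : Subgroup G) → ∃ Q : Subgroup G, Q ≤ Subgroup.normalizer ((H : Subgroup G) : Set G) ∧ IsPGroup p ↥Q ∧ ¬ p ∣ (Q).relIndex (Subgroup.normalizer ((H : Subgroup G) : Set G)) ∧ ∀ x : G, x ∈ Q ⊓ ⁅Subgroup.normalizer ((H : Subgroup G)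 : Set G), Subgroup.normalizer ((H : Subgroup G) : Set G)⁆ ↔ ∃ a ∈ Q ⊓ ⁅Subgroup.normalizer ((H : Subgroup G) : Set G) ⊓ Subgroup.normalizer ((W Q : Subgroup G) : Set G), Subgroup.normalizer ((H : Subgroup G) : Set G) ⊓ Subgroup.normalizer ((W Q : Subgroup G) : Set G)⁆, ∃ b ∈ Q ⊓ ⁅Subgroup.normalizer ((H : Subgroup G) : Set G) ⊓ Subgroup.centralizer ((V Q : Subgroup G) : Set G), Subgroup.normalizer ((H : Subgroup G) : Set G) ⊓ Subgroup.centralizer ((V Q : Subgroup G) : Set G)⁆, x = a * b) : ∃ Q : Subgroup G, IsPGroup p ↥Q ∧ ¬ p ∣ Q.index ∧ ∀ x : G, x ∈ Q ⊓ commutator G ↔ ∃ a ∈ Q ⊓ ⁅Subgroup.normalizer ((W Q : Subgroup G) : Set G), Subgroup.normalizer ((W Q : Subgroup G) : Set G)⁆, ∃ b ∈ Q ⊓ ⁅Subgroup.centralizer ((V Q : Subgroup G) : Set G), Subgroup.centralizer ((V Q : Subgroup G) : Set G)⁆, x = a * b := by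
  classical
  have hPne : (P : Subgroup G) ≠ ⊥ := by
    intro h
    have h1 := P.card_eq_multiplicity
    rw [h, Subgroup.card_bot] at h1
    have h2 : (Nat.card G).factorization p ≠ 0 := by
      have := (Nat.Prime.dvd_iff_one_le_factorization (Fact.out : p.Prime) Nat.card_pos.ne').mp hdiv
      omega
    have := Nat.one_lt_pow h2 (Fact.out : p.Prime).one_lt
    omega
  have hmain := Cfsg.Agent.Lib.Helper57.FC.transfer_WV P hPne W V hW hV hWZ hVmono (by
    intro H hZ hHP
    obtain ⟨Q, hQN, hQp, hQidx, hQ⟩ := hloc H hZ hHP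
    refine ⟨Q, hQN, hQp, hQidx, ?_⟩
    intro x hx
    obtain ⟨a, ha, b, hb, rfl⟩ := (hQ x).mp hx
    exact Subgroup.mul_mem_sup ha hb)
  refine ⟨P, P.2, P.not_dvd_index, ?_⟩
  intro x
  constructor
  · intro hx
    have hx' := hmain hx
    have hPC : (P : Subgroup G) ≤ Subgroup.centralizer ((V (P : Subgroup G) : Subgroup G) : Set G) := by
      rw [Subgroup.le_centralizer_iff]
      exact (hVZ _ P.2).trans inf_le_right
    have hnorm : (P : Subgroup G) ≤ Subgroup.normalizer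
        (((P : Subgroup G) ⊓ ⁅Subgroup.centralizer ((V (P : Subgroup G) : Subgroup G) : Set G),
          Subgroup.centralizer ((V (P : Subgroup G) : Subgroup G) : Set G)⁆ : Subgroup G) : Set G) := by
      apply Cfsg.Agent.Lib.Helper39.le_normalizer_inf Subgroup.le_normalizer
      intro s hs
      rw [Cfsg.Agent.Lib.Helper39.mem_normalizer_iff_cj, Cfsg.Agent.Lib.Helper39.cj_commutator,
        Cfsg.Agent.Lib.Helper39.cj_self_of_mem (hPC hs)]
    exact Cfsg.Agent.Lib.Helper39.mem_sup_of_le_normalizer (inf_le_left.trans hnorm) hx'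
  · rintro ⟨a, ha, b, hb, rfl⟩
    refine ⟨Subgroup.mul_mem _ ha.1 hb.1, ?_⟩
    exact Subgroup.mul_mem _ (Subgroup.commutator_mono le_top le_top ha.2)
      (Subgroup.commutator_mono le_top le_top hb.2)

end Cfsg.Agent.S2001
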