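import Cfsg.Statements.S2002
import Cfsg.Agent.Lib.Helper57.FC14
-- import your own Cfsg.Agent.* helpers here

set_option autoImplicit false
open Cfsg

namespace Cfsg.Agent.S2002


/-- Let p be a prime dividing the order of the finite group G, P a Sylow p-subgroup, W a conjugacy functor for p on G with Z(H) ≤ W(H) for every nontrivial p-subgroup H, and V a central functor (a conjugacy functor with V(H) ≤ Z(H), and V(H) ≤ V(K) whenever Z(H) ≤ Z(K)). Say that W with V controls strong fusion in a subgroup L when some Sylow p-subgroup Q of L has the property: whenever X ⊆ Q and a ∈ L with a⁻¹Xa ⊆ Q, then a = c b with c ∈ C_L(X) and b = b₁ ⋯ bₙ a product of elements each in N_L(W(Q)) or in C_L(V(Q)) such that every partial conjugate (b₁ ⋯ bₖ)⁻¹ X (b₁ ⋯ bₖ) lies in Q. If W with V controls strong fusion in N_G(H) for every subgroup H with Z(P) ≤ H ≤ P, then W with V controls strong fusion in G. -/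
theorem result {G : Type*} [Group G] [Finite G] {p : ℕ} [Fact p.Prime] (hdiv : p ∣ Nat.card G) (P : Sylow p G) (W V : Subgroup G → Subgroup G) (hW : Cfsg.IsConjugacyFunctor p W) (hV : Cfsg.IsConjugacyFunctor p V) (hWZ : ∀ H : Subgroup G, IsPGroup p ↥H → H ⊓ Subgroup.centralizer ((H : Subgroup G) : Set G) ≤ W H) (hVZ : ∀ H : Subgroup G, IsPGroup p ↥H → V H ≤ H ⊓ Subgroup.centralizer ((H : Subgroup G) : Set G)) (hVmono : ∀ H K : Subgroup G, IsPGroup p ↥H → IsPGroup p ↥K → H ≠ ⊥ → K ≠ ⊥ → H ⊓ Subgroup.centralizer ((H : Subgroup G) : Set G) ≤ K ⊓ Subgroup.centralizer ((K : Subgroup G) : Set G) → V H ≤ V K) (hloc : ∀ H : Subgroup G, (P : Subgroup G) ⊓ Subgroup.centralizer (((P : Subgroup G) : Subgroup G) : Set G) ≤ H → H ≤ (P : Subgroup G) → ∃ Q : Subgroup G, Q ≤ Subgroup.normalizer ((H : Subgroup G) : Set G) ∧ IsPGroup p ↥Q ∧ ¬ p ∣ (Q).relIndex (Subgroup.normalizer ((H : Subgroup G) : Set G)) ∧ ∀ (X : Set G) (a : G), X ⊆ Q → a ∈ Subgroup.normalizer ((H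 : Subgroup G) : Set G) → (fun x => a⁻¹ * x * a) '' X ⊆ Q → ∃ c ∈ Subgroup.normalizer ((H : Subgroup G) : Set G) ⊓ Subgroup.centralizer X, ∃ (n : ℕ) (b : Fin n → G), (∀ i, b i ∈ Subgroup.normalizer ((H : Subgroup G) : Set G) ⊓ Subgroup.normalizer ((W Q : Subgroup G) : Set G) ∨ b i ∈ Subgroup.normalizer ((H : Subgroup G) : Set G) ⊓ Subgroup.centralizer ((V Q : Subgroup G) : Set G)) ∧ a = c * (List.ofFn b).prod ∧ ∀ k : ℕ, k ≤ n → (fun x => (((List.ofFn b).take k).prod)⁻¹ * x * ((List.ofFn b).take k).prod) '' ((fun x => c⁻¹ * x * c) '' X) ⊆ Q) : ∃ Q : Subgroup G, IsPGroup p ↥Q ∧ ¬ p ∣ Q.index ∧ ∀ (X : Set G) (a : G), X ⊆ Q → (fun x => a⁻¹ * x * a) '' X ⊆ Q → ∃ c ∈ Subgroup.centralizer X, ∃ (n : ℕ) (b : Fin n → G), (∀ i, b i ∈ ⊤ ⊓ Subgroup.normalizer ((W Q : Subgroup G) : Set G) ∨ b i ∈ ⊤ ⊓ Subgroup.centralizer ((V Q : Subgroup G) : Set G)) ∧ a = c * (List.ofFn b).prod ∧ ∀ k : ℕ, k ≤ n → (fun x => (((List.ofFn b).take k).prod)⁻¹ * x * ((List.ofFn b).take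 k).prod) '' ((fun x => c⁻¹ * x * c) '' X) ⊆ Q := by
  classical
  have hPne : (P : Subgroup G) ≠ ⊥ := by
    intro h
    have h1 := P.card_eq_multiplicity
    rw [h, Subgroup.card_bot] at h1
    have h2 : (Nat.card G).factorization p ≠ 0 := by
      have := (Nat.Prime.dvd_iff_one_le_factorization (Fact.out : p.Prime) Nat.card_pos.ne').mp hdiv
      omega
    have := Nat.one_lt_pow h2 (Fact.out : p.Prime).one_lt
    omega
  have hctl := Cfsg.Agent.Lib.Helper57.FC.ctl_WV P hPne W V hW hV hWZ hVmono (by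
    intro H hZ hHP
    obtain ⟨Q, hQN, hQp, hQidx, hQ⟩ := hloc H hZ hHP
    refine ⟨Q, hQN, hQp, hQidx, ?_⟩
    intro B hB g hg hgB
    obtain ⟨c, hc, n, b, hb, hprod, hk⟩ := hQ (B : Set G) g⁻¹ hB (Subgroup.inv_mem _ hg) (by
      rintro _ ⟨x, hx, rfl⟩
      apply hgB
      simp only [inv_inv]
      exact Cfsg.Agent.Lib.Helper39.conj_mem_cj hx)
    have hLG : Cfsg.Agent.Lib.Helper57.FC.LG (Cfsg.Agent.Lib.Helper57.FC.HWV W V Q) Q B g⁻¹ := by
      refine ⟨c, hc.2, List.ofFn b, ?_, hprod, ?_⟩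
      · intro z hz
        rw [List.mem_ofFn] at hz
        obtain ⟨i, rfl⟩ := hz
        rcases hb i with h | h
        · exact ⟨_, Or.inl rfl, h.2⟩
        · exact ⟨_, Or.inr rfl, h.2⟩
      · have key : ∀ k : ℕ, k ≤ n →
            Cfsg.Agent.Lib.Helper39.cj (((List.ofFn b).take k).prod)⁻¹ B ≤ Q := by
          intro k hkn x hx
          rw [Cfsg.Agent.Lib.Helper39.mem_cj, inv_inv] at hx
          apply hk k hkn
          refine ⟨_, ⟨_, hx, rfl⟩, ?_⟩
          have h1 := Subgroup.mem_centralizer_iff.mp hc.2 _ hx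
          have h2 : c⁻¹ * (((List.ofFn b).take k).prod * x * (((List.ofFn b).take k).prod)⁻¹) * c =
              ((List.ofFn b).take k).prod * x * (((List.ofFn b).take k).prod)⁻¹ := by
            rw [mul_assoc, h1, inv_mul_cancel_left]
          simp only [h2]
          group
        intro k
        rcases le_total k n with h | h
        · exact key k h
        · have h3 : (List.ofFn b).take k = (List.ofFn b).take n := by
            rw [List.take_of_length_le (by simpa using h), List.take_of_length_le (by simp)]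
          rw [h3]
          exact key n le_rfl
    have := hLG.gen
    rwa [inv_inv] at this)
  refine ⟨P, P.2, P.not_dvd_index, ?_⟩
  intro X a hX haX
  have hB : Subgroup.closure X ≤ (P : Subgroup G) := (Subgroup.closure_le _).mpr hX
  have haB : Cfsg.Agent.Lib.Helper39.cj a⁻¹ (Subgroup.closure X) ≤ (P : Subgroup G) := by
    show Subgroup.map _ _ ≤ _
    rw [MonoidHom.map_closure, Subgroup.closure_le]
    rintro _ ⟨x, hx, rfl⟩
    apply haX
    exact ⟨x, hx, by simp [MulAut.conj_apply]⟩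
  obtain ⟨c, hc, l, hl, hprod, hk⟩ := (hctl _ hB a⁻¹ haB).lg
  rw [inv_inv] at hprod
  have hcX : c ∈ Subgroup.centralizer X := Subgroup.centralizer_le Subgroup.subset_closure hc
  refine ⟨c, hcX, l.length, fun i => l.get i, ?_, ?_, ?_⟩
  · intro i
    obtain ⟨H, hH, hz⟩ := hl (l.get i) (List.get_mem l i)
    rcases hH with rfl | hH
    · left; exact ⟨trivial, hz⟩
    · right
      rw [Set.mem_singleton_iff] at hH
      subst hH
      exact ⟨trivial, hz⟩
  · rw [List.ofFn_get]; exact hprod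
  · intro k _
    rw [List.ofFn_get]
    rintro _ ⟨_, ⟨x, hx, rfl⟩, rfl⟩
    have h1 := Subgroup.mem_centralizer_iff.mp hcX x hx
    have h2 : c⁻¹ * x * c = x := by rw [mul_assoc, h1, inv_mul_cancel_left]
    simp only [h2]
    apply hk k
    have := Cfsg.Agent.Lib.Helper39.conj_mem_cj (g := ((l.take k).prod)⁻¹)
      (Subgroup.subset_closure hx : x ∈ Subgroup.closure X)
    rwa [inv_inv] at this

end Cfsg.Agent.S2002
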