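import Cfsg.Statements.S2086
import Cfsg.Agent.Lib.Helper85.StNStem
import Cfsg.Agent.Lib.Helper85.SL2CoverE
import Cfsg.Agent.Lib.Helper9.SchurTriv

set_option autoImplicit false
open Cfsg

namespace Cfsg.Agent.S2086

/-- Schur multipliers of the linear groups: for n ≥ 2 and a field F with q elements (q ≥ 4 when n = 2), apart from the five exceptional pairs (n, q) = (2, 4), (2, 9), (3, 2), (3, 4), (4, 2), the Schur multiplier of PSL_n(F) is cyclic of order gcd(n, q − 1); here the Schur multiplier is described through stem extensions, as in the definitions. -/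
theorem result {F : Type*} [Field F] [Fintype F] {q : ℕ} (hF : Fintype.card F = q) (n : ℕ) (hn : 2 ≤ n) (h2 : n = 2 → 4 ≤ q) (hexc : (n, q) ∉ ({(2, 4), (2, 9), (3, 2), (3, 4), (4, 2)} : Set (ℕ × ℕ))) : Cfsg.HasCyclicSchurMultiplier (Matrix.ProjectiveSpecialLinearGroup (Fin n) F) (Nat.gcd n (q - 1)) := by
  subst hF
  rcases Nat.lt_or_ge n 3 with hlt | hge
  · obtain rfl : n = 2 := by omega
    have h4 := h2 rfl
    refine Cfsg.Agent.Lib.Helper85.SL2Cover.psl2_multiplier (by omega) ?_ ?_
    · intro h
      apply hexc
      rw [h]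
      simp
    · intro h
      apply hexc
      rw [h]
      simp
  · refine Cfsg.Agent.Lib.Helper85.SL2Cover.psl_multiplier_of_sl n (by omega)
      (Cfsg.Agent.Lib.Helper6.commutator_SL_eq_top (by rw [Fintype.card_fin]; exact hge))
      (Cfsg.Agent.Lib.Helper9.hasTrivialMultiplier ?_)
    intro Γ _ _ σ hσ
    refine Cfsg.Agent.Lib.Helper85.StN.sl_stem_trivial σ hσ.1 hσ.2.1 hσ.2.2
      (by rw [Fintype.card_fin]; exact hge) ?_ ?_
    · intro h3
      rw [Fintype.card_fin] at h3
      subst h3
      rw [Nat.card_eq_fintype_card]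
      constructor
      · intro h
        apply hexc
        rw [h]
        simp
      · intro h
        apply hexc
        rw [h]
        simp
    · intro h4
      rw [Fintype.card_fin] at h4
      subst h4
      rw [Nat.card_eq_fintype_card]
      intro h
      apply hexc
      rw [h]
      simp

end Cfsg.Agent.S2086
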