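import Cfsg.Statements.S2087
import Cfsg.Agent.Lib.Helper85.SL2CoverE
import Cfsg.Agent.S0255

set_option autoImplicit false
open Cfsg

namespace Cfsg.Agent.S2087

/-- Exceptional Schur multiplier: over the field with 2 elements, PSL₃ has Schur multiplier cyclic of order 2 (here the Schur multiplier is described through stem extensions, as in the definitions). -/
theorem result {F : Type*} [Field F] [Fintype F] (hF : Fintype.card F = 2) : Cfsg.HasCyclicSchurMultiplier (Matrix.ProjectiveSpecialLinearGroup (Fin 3) F) 2 := by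
  open Cfsg.Agent.Lib.Helper85 in
  have h7 : Fintype.card (ULift.{u_1} (ZMod 7)) = 7 := by
    rw [Fintype.card_ulift, ZMod.card]
  have := Fact.mk (show Nat.Prime 7 by norm_num)
  obtain ⟨e⟩ := Cfsg.Agent.S0255.result (F := ULift.{u_1} (ZMod 7)) (K := F) h7 hF
  have h := SL2Cover.psl2_multiplier (F := ULift.{u_1} (ZMod 7)) (by rw [h7]; norm_num)
    (by rw [h7]; norm_num) (by rw [h7]; norm_num)
  rw [h7] at h
  exact SL2Cover.hsm_congr e h

end Cfsg.Agent.S2087
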