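import Cfsg.Statements.S2107
import Cfsg.Agent.Lib.Lead.Mil.FIN
import Cfsg.Agent.Lib.Lead.Mil.AxTab
import Cfsg.Agent.Lib.Helper49.MilTABE8

set_option autoImplicit false
open Cfsg

namespace Cfsg.Agent.S2107

/-- Schur multipliers of the Chevalley groups of type E₈: over every finite field the Schur multiplier of E₈(q) is trivial (here the Schur multiplier is described through stem extensions, as in the definitions). -/
theorem result {F : Type*} [Field F] [Fintype F] : Cfsg.HasCyclicSchurMultiplier ↥(Cfsg.Lie.chevE8.group F) 1 := by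
  exact Cfsg.Agent.Lib.Lead.Mil.e8_mult Cfsg.Agent.Lib.Lead.Mil.milTab_E8
    (Cfsg.Agent.Lib.Lead.Mil.ax_of_tab Cfsg.Agent.Lib.Lead.Mil.milTab_E8 F)

end Cfsg.Agent.S2107
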