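import Cfsg.Statements.S2162
import Cfsg.Agent.Lib.Helper48.SqZero

set_option autoImplicit false
open Cfsg

namespace Cfsg.Agent.S2162

theorem sq_zero_of_order_two {F : Type*} [Field F] [CharP F 2] {n : ℕ}
    (a : Matrix.SpecialLinearGroup (Fin n) F) (ha : orderOf a = 2) :
    ((a : Matrix (Fin n) (Fin n) F) - 1) * ((a : Matrix (Fin n) (Fin n) F) - 1) = 0 ∧
      (a : Matrix (Fin n) (Fin n) F) - 1 ≠ 0 := by
  have h2 : (2 : F) = 0 := CharP.cast_eq_zero F 2
  have h1 : a * a = 1 := by rw [← pow_two, ← ha, pow_orderOf_eq_one]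
  have h1' : (a : Matrix (Fin n) (Fin n) F) * (a : Matrix (Fin n) (Fin n) F) = 1 := by
    rw [← Matrix.SpecialLinearGroup.coe_mul, h1]; rfl
  constructor
  · generalize (a : Matrix (Fin n) (Fin n) F) = T at h1'
    have : (T - 1) * (T - 1) = T * T - (2 : F) • T + 1 := by
      rw [two_smul]; noncomm_ring
    rw [this, h1', h2, zero_smul, sub_zero]
    have h3 : (1 : Matrix (Fin n) (Fin n) F) + 1 = (2 : F) • 1 := by rw [two_smul]
    rw [h3, h2, zero_smul]
  · intro h0
    have h3 : a = 1 := Subtype.ext (sub_eq_zero.1 h0)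
    rw [h3, orderOf_one] at ha
    norm_num at ha


/-- Conjugacy of involutions in the special linear group over a finite field of characteristic two, in dimension at least 3: two elements of order 2 of SL_n(F) are conjugate in SL_n(F) exactly when the matrices a − 1 and b − 1 have the same rank (the rank of a − 1 is the dimension of the commutator space [V, a]). -/
theorem result {F : Type*} [Field F] [Fintype F] [CharP F 2] {n : ℕ} (hn : 3 ≤ n) (a b : Matrix.SpecialLinearGroup (Fin n) F) (ha : orderOf a = 2) (hb : orderOf b = 2) :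
    IsConj a b ↔ ((a : Matrix (Fin n) (Fin n) F) - 1).rank = ((b : Matrix (Fin n) (Fin n) F) - 1).rank := by
  classical
  constructor
  · intro h
    rw [isConj_iff] at h
    obtain ⟨c, hc⟩ := h
    have hc3 : c * a = b * c := by
      rw [← hc]; group
    have hc4 : (c : Matrix (Fin n) (Fin n) F) * ((a : Matrix (Fin n) (Fin n) F) - 1) =
        ((b : Matrix (Fin n) (Fin n) F) - 1) * (c : Matrix (Fin n) (Fin n) F) := by
      have := congrArg (fun x : Matrix.SpecialLinearGroup (Fin n) F =>
        (x : Matrix (Fin n) (Fin n) F)) hc3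
      simp only [Matrix.SpecialLinearGroup.coe_mul] at this
      rw [mul_sub, sub_mul, mul_one, one_mul, this]
    have hu : IsUnit (c : Matrix (Fin n) (Fin n) F).det := by
      rw [c.2]; exact isUnit_one
    rw [← Matrix.rank_mul_eq_right_of_isUnit_det (c : Matrix (Fin n) (Fin n) F) _ hu, hc4,
      Matrix.rank_mul_eq_left_of_isUnit_det _ _ hu]
  · intro hrank
    obtain ⟨ha2, ha0⟩ := sq_zero_of_order_two a ha
    obtain ⟨hb2, -⟩ := sq_zero_of_order_two b hb
    have hrank' : Module.finrank F (LinearMap.range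
        (Matrix.toLin' ((a : Matrix (Fin n) (Fin n) F) - 1))) = Module.finrank F (LinearMap.range
        (Matrix.toLin' ((b : Matrix (Fin n) (Fin n) F) - 1))) := by
      rw [Matrix.toLin'_apply', Matrix.toLin'_apply']; exact hrank
    have ha2' : (Matrix.toLin' ((a : Matrix (Fin n) (Fin n) F) - 1) : Module.End F (Fin n → F)) *
        Matrix.toLin' ((a : Matrix (Fin n) (Fin n) F) - 1) = 0 := by
      rw [Module.End.mul_eq_comp, ← Matrix.toLin'_mul, ha2, map_zero]
    have hb2' : (Matrix.toLin' ((b : Matrix (Fin n) (Fin n) F) - 1) : Module.End F (Fin n → F)) *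
        Matrix.toLin' ((b : Matrix (Fin n) (Fin n) F) - 1) = 0 := by
      rw [Module.End.mul_eq_comp, ← Matrix.toLin'_mul, hb2, map_zero]
    have ha0' : (Matrix.toLin' ((a : Matrix (Fin n) (Fin n) F) - 1) : Module.End F (Fin n → F)) ≠ 0 := by
      intro h0
      exact ha0 ((LinearEquiv.map_eq_zero_iff _).1 h0)
    obtain ⟨h, hdet, hconj⟩ := Cfsg.Agent.Lib.Helper48.exists_det_one_conj_sq_zero (K := F)
      (V := Fin n → F) (FiniteField.isSquare_of_char_two (ringChar.eq F 2)) _ _ ha2' hb2' ha0' hrank'
    have hH : (LinearMap.toMatrix' h).det = 1 := by rw [LinearMap.det_toMatrix', hdet]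
    have hc : LinearMap.toMatrix' h * ((a : Matrix (Fin n) (Fin n) F) - 1) =
        ((b : Matrix (Fin n) (Fin n) F) - 1) * LinearMap.toMatrix' h := by
      have := congrArg LinearMap.toMatrix' hconj
      rw [Module.End.mul_eq_comp, Module.End.mul_eq_comp, LinearMap.toMatrix'_comp,
        LinearMap.toMatrix'_comp, LinearMap.toMatrix'_toLin', LinearMap.toMatrix'_toLin'] at this
      exact this
    rw [isConj_iff]
    let c : Matrix.SpecialLinearGroup (Fin n) F := ⟨LinearMap.toMatrix' h, hH⟩
    have hcc : (c : Matrix (Fin n) (Fin n) F) = LinearMap.toMatrix' h := rfl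
    refine ⟨c, ?_⟩
    rw [mul_inv_eq_iff_eq_mul]
    apply Subtype.ext
    simp only [Matrix.SpecialLinearGroup.coe_mul, hcc]
    rw [Matrix.mul_sub, Matrix.sub_mul, Matrix.mul_one, Matrix.one_mul] at hc
    exact sub_left_injective hc

end Cfsg.Agent.S2162
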