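import Cfsg.Statements.S2163
-- import your own Cfsg.Agent.* helpers here

set_option autoImplicit false
open Cfsg

namespace Cfsg.Agent.S2163

/-- Over a finite field of characteristic two and for n ≥ 3: for every ℓ with 1 ≤ ℓ and 2ℓ ≤ n, the matrix j_ℓ that is the identity plus the entries 1 in positions (n − ℓ + i, i) for i < ℓ (an identity block of size ℓ in the lower left corner) lies in SL_n(F), has order 2, and j_ℓ − 1 has rank ℓ. Together with the conjugacy criterion by rank, these matrices represent the conjugacy classes of involutions of SL_n(F). -/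
theorem result {F : Type*} [Field F] [Fintype F] [CharP F 2] {n : ℕ} (hn : 3 ≤ n) (ℓ : ℕ) (h1 : 1 ≤ ℓ) (h2 : 2 * ℓ ≤ n) :
    ∃ a : Matrix.SpecialLinearGroup (Fin n) F, (a : Matrix (Fin n) (Fin n) F) = 1 + Matrix.of (fun i j : Fin n => if j.val < ℓ ∧ i.val = j.val + (n - ℓ) then (1 : F) else 0) ∧ orderOf a = 2 ∧ ((a : Matrix (Fin n) (Fin n) F) - 1).rank = ℓ := by
  classical
  set N : Matrix (Fin n) (Fin n) F := Matrix.of (fun i j : Fin n => if j.val < ℓ ∧ i.val = j.val + (n - ℓ) then (1 : F) else 0) with hN
  have hNN : N * N = 0 := by
    ext i j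
    rw [Matrix.mul_apply]
    apply Finset.sum_eq_zero
    intro k _
    simp only [hN, Matrix.of_apply]
    by_cases h1' : (k.val < ℓ ∧ i.val = k.val + (n - ℓ))
    · by_cases h2' : (j.val < ℓ ∧ k.val = j.val + (n - ℓ))
      · exfalso; omega
      · rw [if_neg h2', mul_zero]
    · rw [if_neg h1', zero_mul]
  have hdet : (1 + N).det = 1 := by
    rw [Matrix.det_of_isLowerTriangular]
    · apply Finset.prod_eq_one
      intro i _
      simp only [hN, Matrix.add_apply, Matrix.one_apply_eq, Matrix.of_apply]
      rw [if_neg (by omega), add_zero]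
    · intro i j hij
      have hij' : i.val < j.val := hij
      have hne : i ≠ j := fun h => by rw [h] at hij'; exact lt_irrefl _ hij'
      show (1 + N) i j = 0
      simp only [hN, Matrix.add_apply, Matrix.of_apply]
      rw [Matrix.one_apply_ne hne, if_neg (by omega), add_zero]
  have h2F : (2 : F) = 0 := CharP.cast_eq_zero F 2
  have hrank : N.rank = ℓ := by
    apply le_antisymm
    · set A : Matrix (Fin n) (Fin ℓ) F := Matrix.of (fun i k => if i.val = k.val + (n - ℓ) then (1 : F) else 0) with hA
      set B : Matrix (Fin ℓ) (Fin n) F := Matrix.of (fun k j => if j.val = k.val then (1 : F) else 0) with hB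
      have hAB : N = A * B := by
        ext i j
        rw [Matrix.mul_apply]
        simp only [hN, hA, hB, Matrix.of_apply]
        by_cases hj : j.val < ℓ
        · rw [Finset.sum_eq_single (⟨j.val, hj⟩ : Fin ℓ)]
          · simp [hj]
          · intro k _ hk
            have : j.val ≠ k.val := by
              intro h
              apply hk
              ext
              exact h.symm
            rw [if_neg this, mul_zero]
          · intro h; exact absurd (Finset.mem_univ _) h
        · rw [if_neg (by tauto)]
          symm
          apply Finset.sum_eq_zero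
          intro k _
          have : j.val ≠ k.val := by
            have := k.isLt
            omega
          rw [if_neg this, mul_zero]
      rw [hAB]
      exact (Matrix.rank_mul_le_left A B).trans (Matrix.rank_le_width A)
    · have hsub : N.submatrix (fun k : Fin ℓ => (⟨k.val + (n - ℓ), by have := k.isLt; omega⟩ : Fin n)) (fun k : Fin ℓ => (⟨k.val, by have := k.isLt; omega⟩ : Fin n)) = 1 := by
        ext i j
        simp only [hN, Matrix.submatrix_apply, Matrix.of_apply, Matrix.one_apply]
        by_cases hij : i = j
        · subst hij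
          simp
        · have : i.val ≠ j.val := fun h => hij (Fin.ext h)
          rw [if_neg hij, if_neg (by omega)]
      have := Matrix.rank_submatrix_le N (fun k : Fin ℓ => (⟨k.val + (n - ℓ), by have := k.isLt; omega⟩ : Fin n)) (fun k : Fin ℓ => (⟨k.val, by have := k.isLt; omega⟩ : Fin n))
      rw [hsub, Matrix.rank_one, Fintype.card_fin] at this
      exact this
  obtain ⟨a, ha⟩ : ∃ a : Matrix.SpecialLinearGroup (Fin n) F, (a : Matrix (Fin n) (Fin n) F) = 1 + N := ⟨⟨1 + N, hdet⟩, rfl⟩
  refine ⟨a, ha, ?_, ?_⟩
  · have : Fact (Nat.Prime 2) := ⟨Nat.prime_two⟩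
    apply orderOf_eq_prime
    · have : ((1 + N) ^ 2 : Matrix (Fin n) (Fin n) F) = 1 := by
        rw [pow_two, add_mul, mul_add, mul_add, hNN, one_mul, mul_one, one_mul, add_zero, add_assoc, ← two_smul F N, h2F, zero_smul, add_zero] 
      apply Matrix.SpecialLinearGroup.ext
      intro i j
      rw [Matrix.SpecialLinearGroup.coe_pow, ha, this, Matrix.SpecialLinearGroup.coe_one]
    · intro h
      have h1 : ((1 + N : Matrix (Fin n) (Fin n) F)) = 1 := by
        rw [← ha, h, Matrix.SpecialLinearGroup.coe_one]
      have h0 : N = 0 := by simpa using h1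
      rw [h0, Matrix.rank_zero] at hrank
      omega
  · rw [ha, add_sub_cancel_left]
    exact hrank

end Cfsg.Agent.S2163
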