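import Cfsg.Statements.S2165
-- import your own Cfsg.Agent.* helpers here

set_option autoImplicit false
open Cfsg

namespace Cfsg.Agent.S2165

/-- In SU_n(q), q even, n ≥ 3 (matrices of determinant 1 over the field with q² elements preserving Σ u_i v_i^q): for every ℓ with 1 ≤ ℓ and 2ℓ ≤ n, the permutation matrix of the involution of {0, …, n−1} exchanging i and n − ℓ + i for each i < ℓ lies in SU_n(q), has order 2, and differs from the identity by a matrix of rank ℓ. So every rank between 1 and n/2 occurs for involutions of SU_n(q). -/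
theorem result {F : Type*} [Field F] [Fintype F] [CharP F 2] {n q : ℕ} (hF : Fintype.card F = q ^ 2) (hn : 3 ≤ n) (ℓ : ℕ) (h1 : 1 ≤ ℓ) (h2 : 2 * ℓ ≤ n) :
    ∃ a : ↥(Cfsg.SU n F q), (((a : Matrix.SpecialLinearGroup (Fin n) F) : Matrix (Fin n) (Fin n) F) = Matrix.of (fun i j : Fin n => if (j.val < ℓ ∧ i.val = j.val + (n - ℓ)) ∨ (i.val < ℓ ∧ j.val = i.val + (n - ℓ)) ∨ (i = j ∧ ℓ ≤ i.val ∧ i.val < n - ℓ) then (1 : F) else 0)) ∧ orderOf a = 2 ∧ ((((a : Matrix.SpecialLinearGroup (Fin n) F) : Matrix (Fin n) (Fin n) F)) - 1).rank = ℓ := by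
  classical
  have h2F : (2 : F) = 0 := CharP.cast_eq_zero F 2
  have hneg : (-1 : F) = 1 := by
    have : (1 : F) + 1 = 0 := by rw [one_add_one_eq_two, h2F]
    exact (eq_neg_of_add_eq_zero_left this).symm
  set f : Fin n → Fin n := fun i =>
    if h : i.val < ℓ then ⟨i.val + (n - ℓ), by omega⟩
    else if h' : n - ℓ ≤ i.val then ⟨i.val - (n - ℓ), by have := i.isLt; omega⟩ else i with hf
  have hfval : ∀ i : Fin n, (f i).val = if i.val < ℓ then i.val + (n - ℓ) else if n - ℓ ≤ i.val then i.val - (n - ℓ) else i.val := by
    intro i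
    simp only [hf]
    split_ifs <;> rfl
  have hinv : Function.Involutive f := by
    intro i
    apply Fin.ext
    rw [hfval, hfval]
    have := i.isLt
    split_ifs <;> omega
  set M : Matrix (Fin n) (Fin n) F := Matrix.of (fun i j : Fin n => if (j.val < ℓ ∧ i.val = j.val + (n - ℓ)) ∨ (i.val < ℓ ∧ j.val = i.val + (n - ℓ)) ∨ (i = j ∧ ℓ ≤ i.val ∧ i.val < n - ℓ) then (1 : F) else 0) with hM
  have hMf : ∀ i j, M i j = if f i = j then 1 else 0 := by
    intro i j
    simp only [hM, Matrix.of_apply]
    have hiff : ((j.val < ℓ ∧ i.val = j.val + (n - ℓ)) ∨ (i.val < ℓ ∧ j.val = i.val + (n - ℓ)) ∨ (i = j ∧ ℓ ≤ i.val ∧ i.val < n - ℓ)) ↔ f i = j := by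
      rw [Fin.ext_iff, Fin.ext_iff, hfval]
      have := i.isLt
      have := j.isLt
      split_ifs <;> omega
    simp only [hiff]
  have hperm : M = (hinv.toPerm f).permMatrix F := by
    ext i j
    rw [hMf]
    simp [Equiv.Perm.permMatrix, PEquiv.toMatrix_apply, Equiv.toPEquiv_apply]
  have hdet : M.det = 1 := by
    rw [hperm, Matrix.det_permutation]
    rcases Int.units_eq_one_or (Equiv.Perm.sign (hinv.toPerm f)) with h | h <;> rw [h] <;> simp [hneg]
  have hmv : ∀ v : Fin n → F, ∀ i, (Matrix.mulVec M v) i = v (f i) := by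
    intro v i
    simp only [Matrix.mulVec, dotProduct, hMf]
    simp
  obtain ⟨a0, ha0⟩ : ∃ a : Matrix.SpecialLinearGroup (Fin n) F, (a : Matrix (Fin n) (Fin n) F) = M := ⟨⟨M, hdet⟩, rfl⟩
  have hmem : a0 ∈ Cfsg.SU n F q := by
    intro u v
    show Cfsg.hermForm n F q (Matrix.mulVec (a0 : Matrix (Fin n) (Fin n) F) u) (Matrix.mulVec (a0 : Matrix (Fin n) (Fin n) F) v) = Cfsg.hermForm n F q u v
    rw [ha0]
    unfold Cfsg.hermForm
    simp only [hmv]
    exact Equiv.sum_comp (hinv.toPerm f) (fun i => u i * v i ^ q)
  have hrank : (M - 1).rank = ℓ := by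
    apply le_antisymm
    · set A : Matrix (Fin n) (Fin ℓ) F := Matrix.of (fun i k => if i.val = k.val + (n - ℓ) ∨ i.val = k.val then (1 : F) else 0) with hA
      set B : Matrix (Fin ℓ) (Fin n) F := Matrix.of (fun k j => if j.val = k.val + (n - ℓ) ∨ j.val = k.val then (1 : F) else 0) with hB
      have hAB : M - 1 = A * B := by
        ext i j
        rw [Matrix.mul_apply]
        simp only [hM, hA, hB, Matrix.of_apply, Matrix.sub_apply, Matrix.one_apply]
        by_cases hj : j.val < ℓ
        · rw [Finset.sum_eq_single (⟨j.val, hj⟩ : Fin ℓ)]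
          · simp only [Fin.ext_iff]
            have := i.isLt
            split_ifs <;> first | omega | (simp [hneg]; done) | (exfalso; simp only [or_true, not_true_eq_false] at *; done) | (exfalso; simp at *; omega)
          · intro k _ hk
            have hk' : k.val ≠ j.val := fun h => hk (Fin.ext h)
            have := k.isLt
            have hn' : ¬ (j.val = k.val + (n - ℓ) ∨ j.val = k.val) := by omega
            rw [if_neg hn', mul_zero]
          · intro h; exact absurd (Finset.mem_univ _) h
        · by_cases hj' : n - ℓ ≤ j.val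
          · rw [Finset.sum_eq_single (⟨j.val - (n - ℓ), by have := j.isLt; omega⟩ : Fin ℓ)]
            · simp only [Fin.ext_iff]
              have := i.isLt
              have := j.isLt
              split_ifs <;> first | omega | (simp [hneg]; done) | (exfalso; simp only [or_true, not_true_eq_false] at *; done) | (exfalso; simp at *; omega)
            · intro k _ hk
              have hk' : k.val ≠ j.val - (n - ℓ) := fun h => hk (Fin.ext h)
              have := k.isLt
              have hn' : ¬ (j.val = k.val + (n - ℓ) ∨ j.val = k.val) := by omega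
              rw [if_neg hn', mul_zero]
            · intro h; exact absurd (Finset.mem_univ _) h
          · rw [Finset.sum_eq_zero]
            · simp only [Fin.ext_iff]
              have := i.isLt
              have := j.isLt
              split_ifs <;> first | omega | (simp [hneg]; done) | (exfalso; simp only [or_true, not_true_eq_false] at *; done) | (exfalso; simp at *; omega)
            · intro k _
              have := k.isLt
              have hn' : ¬ (j.val = k.val + (n - ℓ) ∨ j.val = k.val) := by omega
              rw [if_neg hn', mul_zero]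
      rw [hAB]
      exact (Matrix.rank_mul_le_left A B).trans (Matrix.rank_le_width A)
    · have hsub : (M - 1).submatrix (fun k : Fin ℓ => (⟨k.val + (n - ℓ), by have := k.isLt; omega⟩ : Fin n)) (fun k : Fin ℓ => (⟨k.val, by have := k.isLt; omega⟩ : Fin n)) = 1 := by
        ext i j
        simp only [hM, Matrix.submatrix_apply, Matrix.of_apply, Matrix.one_apply, Matrix.sub_apply, Fin.ext_iff]
        have := i.isLt
        have := j.isLt
        split_ifs <;> first | omega | (simp [hneg]; done) | (exfalso; simp only [or_true, not_true_eq_false] at *; done) | (exfalso; simp at *; omega)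
      have := Matrix.rank_submatrix_le (M - 1) (fun k : Fin ℓ => (⟨k.val + (n - ℓ), by have := k.isLt; omega⟩ : Fin n)) (fun k : Fin ℓ => (⟨k.val, by have := k.isLt; omega⟩ : Fin n))
      rw [hsub, Matrix.rank_one, Fintype.card_fin] at this
      exact this
  refine ⟨⟨a0, hmem⟩, ha0, ?_, ?_⟩
  · have : Fact (Nat.Prime 2) := ⟨Nat.prime_two⟩
    apply orderOf_eq_prime
    · have hsq : (M ^ 2 : Matrix (Fin n) (Fin n) F) = 1 := by
        ext i j
        rw [pow_two, Matrix.mul_apply]
        simp only [hMf]
        rw [Finset.sum_eq_single (f i)]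
        · rw [if_pos rfl, one_mul, hinv i, Matrix.one_apply]
        · intro k _ hk
          rw [if_neg (Ne.symm hk), zero_mul]
        · intro h; exact absurd (Finset.mem_univ _) h
      apply Subtype.ext
      apply Matrix.SpecialLinearGroup.ext
      intro i j
      show ((a0 ^ 2 : Matrix.SpecialLinearGroup (Fin n) F) : Matrix (Fin n) (Fin n) F) i j = _
      rw [Matrix.SpecialLinearGroup.coe_pow, ha0, hsq]
      rfl
    · intro h
      have h1 : a0 = 1 := congrArg Subtype.val h
      have h0 : M - 1 = 0 := by
        rw [← ha0, h1, Matrix.SpecialLinearGroup.coe_one, sub_self]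
      rw [h0, Matrix.rank_zero] at hrank
      omega
  · show ((a0 : Matrix (Fin n) (Fin n) F) - 1).rank = ℓ
    rw [ha0]
    exact hrank

end Cfsg.Agent.S2165
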