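import Cfsg.Statements.S2172
import Cfsg.Agent.Lib.Helper49.MinusNoLagr

set_option autoImplicit false
open Cfsg Cfsg.Agent.Lib.Helper49

namespace Cfsg.Agent.S2172

/-- Splitting of involution classes from O to Ω for the hyperbolic quadratic form Q = Σ x_i y_i in dimension 2m over a finite field F of characteristic two, m ≥ 4. Let t, s be involutions of the commutator subgroup Ω that are conjugate in the full isometry group O. If it is not the case that t − 1 has rank m and Q(v + t v) = 0 for every vector v, then t and s are conjugate by an element of Ω. If t − 1 has rank m and Q(v + t v) = 0 for all v, then t and s are conjugate by an element of Ω exactly when the intersection of the images of t − 1 and s − 1 has even dimension (so the class of t in O meets at most two classes of Ω). -/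
theorem result {F : Type*} [Field F] [Fintype F] [CharP F 2] {m : ℕ} (hm : 4 ≤ m) (t s : ↥(Cfsg.isometryGroup F (Cfsg.quadFormPlus m F))) (ht : orderOf t = 2) (hs : orderOf s = 2) (htO : t ∈ Cfsg.Omega F (Cfsg.quadFormPlus m F)) (hsO : s ∈ Cfsg.Omega F (Cfsg.quadFormPlus m F)) (hconj : IsConj t s) :
    (¬ (((((t : ↥(Cfsg.isometryGroup F (Cfsg.quadFormPlus m F))) : GL (Fin m ⊕ Fin m) F) : Matrix (Fin m ⊕ Fin m) (Fin m ⊕ Fin m) F) - 1).rank = m ∧ ∀ v : Fin m ⊕ Fin m → F, Cfsg.quadFormPlus m F (v + Matrix.mulVec (((t : ↥(Cfsg.isometryGroup F (Cfsg.quadFormPlus m F))) : GL (Fin m ⊕ Fin m) F) : Matrix (Fin m ⊕ Fin m) (Fin m ⊕ Fin m) F) v) = 0) →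
      ∃ g ∈ Cfsg.Omega F (Cfsg.quadFormPlus m F), g * t * g⁻¹ = s) ∧
    ((((((t : ↥(Cfsg.isometryGroup F (Cfsg.quadFormPlus m F))) : GL (Fin m ⊕ Fin m) F) : Matrix (Fin m ⊕ Fin m) (Fin m ⊕ Fin m) F) - 1).rank = m ∧ ∀ v : Fin m ⊕ Fin m → F, Cfsg.quadFormPlus m F (v + Matrix.mulVec (((t : ↥(Cfsg.isometryGroup F (Cfsg.quadFormPlus m F))) : GL (Fin m ⊕ Fin m) F) : Matrix (Fin m ⊕ Fin m) (Fin m ⊕ Fin m) F) v) = 0) →
      ((∃ g ∈ Cfsg.Omega F (Cfsg.quadFormPlus m F), g * t * g⁻¹ = s) ↔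
        Even (Module.finrank F ↥(LinearMap.range (Matrix.toLin' ((((t : ↥(Cfsg.isometryGroup F (Cfsg.quadFormPlus m F))) : GL (Fin m ⊕ Fin m) F) : Matrix (Fin m ⊕ Fin m) (Fin m ⊕ Fin m) F) - 1)) ⊓ LinearMap.range (Matrix.toLin' ((((s : ↥(Cfsg.isometryGroup F (Cfsg.quadFormPlus m F))) : GL (Fin m ⊕ Fin m) F) : Matrix (Fin m ⊕ Fin m) (Fin m ⊕ Fin m) F) - 1)))))) := by
  have h2 : (2 : F) = 0 := CharTwo.two_eq_zero
  have hQ := plusQF_nondegenerate m F
  have hc4 : Fintype.card F ≠ 2 ∨ Fintype.card (Fin m ⊕ Fin m) ≠ 4 := by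
    right
    simp only [Fintype.card_sum, Fintype.card_fin]
    omega
  have hc4' : Fintype.card F ≠ 2 ∨ Module.finrank F (Fin m ⊕ Fin m → F) ≠ 4 := by
    rwa [Module.finrank_fintype_fun_eq_card]
  have key : ∀ t s : ↥(Cfsg.isometryGroup F ⇑(plusQF m F)), orderOf t = 2 →
      t ∈ Cfsg.Omega F ⇑(plusQF m F) → IsConj t s →
      (¬ (((((t : ↥(Cfsg.isometryGroup F ⇑(plusQF m F))) : GL (Fin m ⊕ Fin m) F) : Matrix (Fin m ⊕ Fin m) (Fin m ⊕ Fin m) F) - 1).rank = m ∧ ∀ v : Fin m ⊕ Fin m → F, (⇑(plusQF m F)) (v + Matrix.mulVec (((t : ↥(Cfsg.isometryGroup F ⇑(plusQF m F))) : GL (Fin m ⊕ Fin m) F) : Matrix (Fin m ⊕ Fin m) (Fin m ⊕ Fin m) F) v) = 0) →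
      ∃ g ∈ Cfsg.Omega F ⇑(plusQF m F), g * t * g⁻¹ = s) ∧
    ((((((t : ↥(Cfsg.isometryGroup F ⇑(plusQF m F))) : GL (Fin m ⊕ Fin m) F) : Matrix (Fin m ⊕ Fin m) (Fin m ⊕ Fin m) F) - 1).rank = m ∧ ∀ v : Fin m ⊕ Fin m → F, (⇑(plusQF m F)) (v + Matrix.mulVec (((t : ↥(Cfsg.isometryGroup F ⇑(plusQF m F))) : GL (Fin m ⊕ Fin m) F) : Matrix (Fin m ⊕ Fin m) (Fin m ⊕ Fin m) F) v) = 0) →
      ((∃ g ∈ Cfsg.Omega F ⇑(plusQF m F), g * t * g⁻¹ = s) ↔
        Even (Module.finrank F ↥(LinearMap.range (Matrix.toLin' ((((t : ↥(Cfsg.isometryGroup F ⇑(plusQF m F))) : GL (Fin m ⊕ Fin m) F) : Matrix (Fin m ⊕ Fin m) (Fin m ⊕ Fin m) F) - 1)) ⊓ LinearMap.range (Matrix.toLin' ((((s : ↥(Cfsg.isometryGroup F ⇑(plusQF m F))) : GL (Fin m ⊕ Fin m) F) : Matrix (Fin m ⊕ Fin m) (Fin m ⊕ Fin m) F) - 1)))))) := by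
    intro t s ht htO hconj
    obtain ⟨c, hc⟩ := isConj_iff.1 hconj
    have hc' : isoEquiv (plusQF m F) c * isoEquiv (plusQF m F) t * (isoEquiv (plusQF m F) c)⁻¹ =
        isoEquiv (plusQF m F) s := by
      rw [← hc]; simp
    have ht' : isoEquiv (plusQF m F) t * isoEquiv (plusQF m F) t = 1 := by
      rw [← map_mul, mul_self_eq_one_of_orderOf ht, map_one]
    have hadd : ∀ v : Fin m ⊕ Fin m → F, v + Matrix.mulVec (((t : ↥(Cfsg.isometryGroup F ⇑(plusQF m F))) : GL (Fin m ⊕ Fin m) F) : Matrix (Fin m ⊕ Fin m) (Fin m ⊕ Fin m) F) v = dOG (plusQF m F) (isoEquiv (plusQF m F) t) v := by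
      intro v
      rw [dOG_apply, isoEquiv_apply]
      have h3 : v + v = 0 := by
        have : (2 : F) • v = 0 := by rw [h2, zero_smul]
        rwa [two_smul] at this
      generalize Matrix.mulVec (((t : ↥(Cfsg.isometryGroup F ⇑(plusQF m F))) : GL (Fin m ⊕ Fin m) F) : Matrix (Fin m ⊕ Fin m) (Fin m ⊕ Fin m) F) v = w
      calc v + w = w - v + (v + v) := by abel
        _ = w - v := by rw [h3, add_zero]
    rw [exists_Omega_conj_iff, rank_sub_one_eq]
    constructor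
    · intro hnot
      by_cases hy : ∃ y, plusQF m F y ≠ 0 ∧ (isoEquiv (plusQF m F) t).1 y = y
      · obtain ⟨y, hy1, hy2⟩ := hy
        exact exists_commutator_conj_of_fixed (plusQF m F) h2 hQ hc4' _ _ _ hc' y hy1 hy2
      · push Not at hy
        exfalso
        have hL := (isLagr_range_dOG_of_singular (plusQF m F) h2 hQ _ ht' (by
          intro y hy'
          by_contra h0
          exact hy y h0 hy')).1
        apply hnot
        refine ⟨hL.finrank_plus, fun v => ?_⟩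
        rw [hadd]
        exact hL.1 _ ⟨v, rfl⟩
    · rintro ⟨hr, hv⟩
      have hL : IsLagr (plusQF m F) (LinearMap.range (dOG (plusQF m F) (isoEquiv (plusQF m F) t))) := by
        apply isLagr_of_finrank hQ
        · rintro _ ⟨v, rfl⟩
          rw [← hadd]
          exact hv v
        · rw [hr, finrank_plus_space]
      have he : Even (Module.finrank F (LinearMap.range (dOG (plusQF m F) (isoEquiv (plusQF m F) t)))) := by
        rw [← rank_sub_one_eq]
        exact (mem_Omega_iff_even_rank (plusQF m F) h2 hQ hc4 t).1 htO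
      rw [exists_commutator_conj_iff_of_lagr (plusQF m F) h2 hQ hc4' _ _ _ hc' hL he,
        Matrix.toLin'_apply', Matrix.toLin'_apply', mulVecLin_sub_one_eq_dOG,
        mulVecLin_sub_one_eq_dOG]
  rw [plusQF_coe] at key
  exact key t s ht htO hconj

end Cfsg.Agent.S2172
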