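import Cfsg.Statements.S2178
import Cfsg.Agent.Lib.Helper45.HighCent2

set_option autoImplicit false
open Cfsg

namespace Cfsg.Agent.S2178

open Cfsg.Lie Cfsg.Agent.Lib.Helper45

set_option maxRecDepth 100000 in
theorem dataLong : HighData chevF4 [14, 20, 22] 3 :=
  ⟨by decide +kernel, by decide +kernel, by decide +kernel, by decide +kernel, by decide +kernel⟩

set_option maxRecDepth 100000 in
theorem tabShort : chevF4.IsPosRoot 44 ∧ (0 < chevF4.rank) ∧
    (∀ i < chevF4.rank, i ≠ 0 → chevF4.neg (chevF4.simple i) ∈ [20, 22, 23] ∧ chevF4.cartan i 44 = 0) ∧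
    chevF4.cartan 0 44 = 1 ∧ chevF4.reflectRoot 0 44 ≠ 44 ∧
    (∀ r < chevF4.nroots, (r ≠ 44 ∧ r ≠ chevF4.neg 44 ∧ (chevF4.IsPosRoot r ∨ r ∈ [20, 22, 23])) →
      ∀ c ∈ chevF4.commTerms r 44, c.2.1 % 2 = 0) ∧
    (∀ r ∈ [20, 22, 23], r < chevF4.nroots ∧ r ≠ 44 ∧ r ≠ chevF4.neg 44) ∧ chevF4.neg (chevF4.neg 44) = 44 :=
  ⟨by decide +kernel, by decide +kernel, by decide +kernel, by decide +kernel, by decide +kernel,
    by decide +kernel, by decide +kernel, by decide +kernel⟩

theorem memF4 : chevF4 ∈ [chevG2, chevB2, chevD4, chevF4, chevE6, chevE7, chevE8] := by simp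

theorem dataShort {F : Type*} [Field F] [CharP F 2] (hA : Cfsg.Agent.Lib.Helper23.AddFact chevF4 F) :
    CenData chevF4 F hA 44 [20, 22, 23] 0 := by
  obtain ⟨h1, h2, h3, h4, h5, h6, h7, h8⟩ := tabShort
  have hz : ∀ r < chevF4.nroots, r ≠ 44 → r ≠ chevF4.neg 44 → (chevF4.IsPosRoot r ∨ r ∈ [20, 22, 23]) →
      ∀ t u : F, hA.X r t * hA.X 44 u = hA.X 44 u * hA.X r t := by
    intro r hr hr1 hr2 hr3 t u
    apply X_commute_of_coeff memF4 hA hr h1.1 (Ne.symm hr1)
    · intro h
      apply hr2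
      rw [h]
      exact (Cfsg.Agent.Lib.Helper23.rootFacts_of_mem memF4).neg_neg hr |>.symm
    · intro c hc
      have := h6 r hr ⟨hr1, hr2, hr3⟩ c hc
      exact (CharP.intCast_eq_zero_iff F 2 _).2 (Int.dvd_of_emod_eq_zero this)
  refine ⟨h1, h2, h3, h4, h5, ?_, ?_⟩
  · intro r hr t u
    by_cases h : r = 44
    · rw [h, ← hA.X_add, ← hA.X_add, add_comm]
    · apply hz r hr.1 h _ (Or.inl hr)
      intro h'
      have hR := Cfsg.Agent.Lib.Helper23.rootFacts_of_mem memF4
      exact hR.not_neg_of_pos hr (h' ▸ hR.neg_of_pos h1)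
  · intro s hs c
    obtain ⟨a1, a2, a3⟩ := h7 s hs
    exact (hz s a1 a2 a3 (Or.inr hs) c 1).symm

/-- Centralizers of the long and the short root involutions in the Chevalley group G of type F₄ over a finite field F of characteristic two (this problem's root numbering for type F₄, from the Chevalley data module: fundamental roots p₁, p₂ short, p₃, p₄ long, with indices 33, 27, 25, 24, their negatives 14, 20, 22, 23; highest root 47, highest short root 44; U the subgroup generated by the positive root subgroups). For an element t of G with matrix x_47(1): the centralizer of t in G is the subgroup generated by U and the root subgroups X_{−p₁}, X_{−p₂}, X_{−p₃} (the unipotent radical of the maximal parabolic subgroup whose Levi factor has fundamental roots p₁, p₂, p₃, together with that Levi factor's root subgroups; the Levi factor is of type C₃). For an element u of G with matrix x_44(1): the centralizer of u in G is generated by U and X_{−p₂}, X_{−p₃}, X_{−p₄} (the same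 construction for the Levi factor with fundamental roots p₂, p₃, p₄, of type B₃). -/
theorem result {F : Type*} [Field F] [Fintype F] [CharP F 2] (t u : GL Cfsg.Lie.chevF4.Idx F) (ht : (t : Matrix Cfsg.Lie.chevF4.Idx Cfsg.Lie.chevF4.Idx F) = Cfsg.Lie.chevF4.x F 47 1) (hu : (u : Matrix Cfsg.Lie.chevF4.Idx Cfsg.Lie.chevF4.Idx F) = Cfsg.Lie.chevF4.x F 44 1) :
    Cfsg.Lie.chevF4.group F ⊓ Subgroup.centralizer {t} = Cfsg.Lie.chevF4.posUnipotent F ⊔ Cfsg.Lie.chevF4.rootSubgroup F 14 ⊔ Cfsg.Lie.chevF4.rootSubgroup F 20 ⊔ Cfsg.Lie.chevF4.rootSubgroup F 22 ∧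
    Cfsg.Lie.chevF4.group F ⊓ Subgroup.centralizer {u} = Cfsg.Lie.chevF4.posUnipotent F ⊔ Cfsg.Lie.chevF4.rootSubgroup F 20 ⊔ Cfsg.Lie.chevF4.rootSubgroup F 22 ⊔ Cfsg.Lie.chevF4.rootSubgroup F 23 := by
  have b := Cfsg.Agent.Lib.Helper23.bundle_of_mem F memF4
  have P := Cfsg.Agent.Lib.Helper22.bruhatPack_of_mem F memF4
  rw [b.hA.eq_X_iff] at ht hu
  rw [ht, hu, ← highC_three, ← highC_three]
  exact ⟨cen_eq memF4 b (cenData_of_high memF4 b.hA dataLong) P, cen_eq memF4 b (dataShort b.hA) P⟩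

end Cfsg.Agent.S2178
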