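import Cfsg.Statements.S2222
import Cfsg.Agent.Lib.Helper11.AltSylow
import Cfsg.Agent.Lib.Helper75.Pronormal2

set_option autoImplicit false
open Cfsg

namespace Cfsg.Agent.S2222

open Subgroup Cfsg.Agent.Lib.Helper75

section General

variable {G : Type*} [Group G] [Finite G] {p : ℕ} [Fact p.Prime]

/-- If Sylow `p`-subgroups are self-normalizing, subgroups of index prime to `p` are pronormal. -/
theorem pronormal_of_selfNormalizing
    (hSN : ∀ P : Sylow p G, normalizer ((P : Subgroup G) : Set G) ≤ P)
    (H : Subgroup G) (hH : ¬ p ∣ H.index) : Cfsg.IsPronormal H := by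
  rw [isPronormal_iff]
  intro g
  obtain ⟨P, hP⟩ := exists_sylow_le_iff.mpr hH
  have h1 : (P : Subgroup G) ≤ H ⊔ cj g H := hP.trans le_sup_left
  have h2 : cj g (P : Subgroup G) ≤ H ⊔ cj g H := (cj_mono g hP).trans le_sup_right
  have hi : ∀ T D : Subgroup G, T ≤ D → ¬ p ∣ T.index → ¬ p ∣ T.relIndex D := by
    intro T D hTD hT hd
    exact hT (hd.trans (relIndex_dvd_index_of_le hTD))
  have hidx : ¬ p ∣ (cj g (P : Subgroup G)).index := by
    have : (cj g (P : Subgroup G)).index = (P : Subgroup G).index := by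
      have h3 := Subgroup.card_mul_index (cj g (P : Subgroup G))
      have h4 := Subgroup.card_mul_index (P : Subgroup G)
      rw [card_cj] at h3
      have hpos : 0 < Nat.card (P : Subgroup G) := Nat.card_pos
      exact Nat.eq_of_mul_eq_mul_left hpos (h3.trans h4.symm)
    rw [this]
    exact P.not_dvd_index
  obtain ⟨y, hy, hye⟩ := exists_cj_eq_of_sylow_in h1 h2 P.2 (P.2.map _)
    (hi _ _ h1 P.not_dvd_index) (hi _ _ h2 hidx)
  have h5 : y⁻¹ * g ∈ normalizer ((P : Subgroup G) : Set G) := cj_eq_cj_iff.mp hye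
  have h6 : y⁻¹ * g ∈ H := hP (hSN P h5)
  exact prnAt_of_mul_left hy (prnAt_of_mem_normalizer (le_normalizer h6))

/-- A `p`-subgroup of index prime to `p` is pronormal. -/
theorem pronormal_of_sylow (H : Subgroup G) (hp : IsPGroup p H) (hH : ¬ p ∣ H.index) :
    Cfsg.IsPronormal H := by
  rw [isPronormal_iff]
  intro g
  have hi : ∀ T D : Subgroup G, T ≤ D → ¬ p ∣ T.index → ¬ p ∣ T.relIndex D := by
    intro T D hTD hT hd
    exact hT (hd.trans (relIndex_dvd_index_of_le hTD))
  have hidx : ¬ p ∣ (cj g H).index := by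
    have : (cj g H).index = H.index := by
      have h3 := Subgroup.card_mul_index (cj g H)
      have h4 := Subgroup.card_mul_index H
      rw [card_cj] at h3
      have hpos : 0 < Nat.card H := Nat.card_pos
      exact Nat.eq_of_mul_eq_mul_left hpos (h3.trans h4.symm)
    rw [this]
    exact hH
  obtain ⟨y, hy, hye⟩ := exists_cj_eq_of_sylow_in (le_sup_left : H ≤ H ⊔ cj g H)
    (le_sup_right : cj g H ≤ H ⊔ cj g H) hp (hp.map _) (hi _ _ le_sup_left hH)
    (hi _ _ le_sup_right hidx)
  exact ⟨y, hy, hye⟩

omit [Fact p.Prime] in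
/-- A subgroup of prime index (or index one) is pronormal. -/
theorem pronormal_of_index (H : Subgroup G) (hH : H.index = 1 ∨ H.index.Prime) :
    Cfsg.IsPronormal H := by
  rw [isPronormal_iff]
  intro g
  have h1 : H.relIndex (H ⊔ cj g H) * (H ⊔ cj g H).index = H.index :=
    relIndex_mul_index le_sup_left
  have h2 : (H ⊔ cj g H).index = 1 ∨ H.relIndex (H ⊔ cj g H) = 1 := by
    rcases hH with h | h
    · left
      rw [h] at h1
      exact Nat.eq_one_of_mul_eq_one_left h1
    · rw [← h1] at h
      rcases Nat.prime_mul_iff.mp h with ⟨_, h'⟩ | ⟨_, h'⟩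
      · exact Or.inl h'
      · exact Or.inr h'
  rcases h2 with h | h
  · refine ⟨g, ?_, rfl⟩
    rw [index_eq_one.mp h]; trivial
  · have h3 : H ⊔ cj g H ≤ H := relIndex_eq_one.mp h
    have h4 : cj g H ≤ H := le_sup_right.trans h3
    have h5 : cj g H = H := by
      apply Subgroup.eq_of_le_of_card_ge h4
      rw [card_cj]
    exact ⟨1, Subgroup.one_mem _, by rw [h5, cj_one]⟩

end General

theorem card_alt_five : Nat.card (alternatingGroup (Fin 5)) = 60 := by
  have := two_mul_card_alternatingGroup (α := Fin 5)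
  rw [Fintype.card_perm, Fintype.card_fin] at this
  rw [Nat.card_eq_fintype_card]
  have h5 : Nat.factorial 5 = 120 := by decide
  omega

/-- In the alternating group of degree n ≥ 5 every subgroup H of odd index is pronormal: for every element g, the subgroups H and gHg⁻¹ are conjugate by an element of the subgroup they generate. -/
theorem result (n : ℕ) (hn : 5 ≤ n)
    (H : Subgroup (alternatingGroup (Fin n))) (hH : Odd H.index) : Cfsg.IsPronormal H := by
  have : Fact (Nat.Prime 2) := ⟨Nat.prime_two⟩
  have h2 : ¬ 2 ∣ H.index := by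
    intro h
    exact (Nat.not_even_iff_odd.mpr hH) (even_iff_two_dvd.mpr h)
  rcases Nat.lt_or_ge n 6 with h6 | h6
  · obtain rfl : n = 5 := by omega
    have hc := Subgroup.card_mul_index H
    rw [card_alt_five] at hc
    have hd : H.index ∣ 60 := Dvd.intro_left _ hc
    have hle : H.index ≤ 60 := Nat.le_of_dvd (by norm_num) hd
    have hcases : H.index = 1 ∨ H.index = 3 ∨ H.index = 5 ∨ H.index = 15 := by
      generalize H.index = k at hd hle h2
      interval_cases k <;> simp_all
    rcases hcases with h | h | h | h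
    · exact pronormal_of_index H (Or.inl h)
    · exact pronormal_of_index H (Or.inr (by rw [h]; norm_num))
    · exact pronormal_of_index H (Or.inr (by rw [h]; norm_num))
    · rw [h] at hc
      have h4 : Nat.card H = 2 ^ 2 := by omega
      exact pronormal_of_sylow (p := 2) H (IsPGroup.of_card h4) h2
  · exact pronormal_of_selfNormalizing (p := 2)
      (Cfsg.Agent.Lib.Helper11.SymSyl.alt_normalizer_le n h6) H h2

end Cfsg.Agent.S2222
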