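import Cfsg.Statements.S2231
-- import your own Cfsg.Agent.* helpers here

set_option autoImplicit false
open Cfsg

namespace Cfsg.Agent.S2231

def AbP (p : ℕ) (G : Type*) [Group G] : Prop :=
  ∀ P : Subgroup G, IsPGroup p P → ∀ x ∈ P, ∀ y ∈ P, x * y = y * x

lemma AbP.of_surjective {p : ℕ} [Fact p.Prime] {G G' : Type*} [Group G] [Group G'] [Finite G]
    (h : AbP p G) (f : G →* G') (hf : Function.Surjective f) : AbP p G' := by
  intro Q hQ x hx y hy
  obtain ⟨Q', hQQ'⟩ := hQ.exists_le_sylow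
  obtain ⟨P, rfl⟩ := Sylow.mapSurjective_surjective hf p Q'
  obtain ⟨x', hx', rfl⟩ := hQQ' hx
  obtain ⟨y', hy', rfl⟩ := hQQ' hy
  rw [← map_mul, ← map_mul, h P P.2 x' hx' y' hy']

lemma AbP.subgroup {p : ℕ} {G : Type*} [Group G] (h : AbP p G) (K : Subgroup G) : AbP p K := by
  intro Q hQ x hx y hy
  have := h (Q.map K.subtype) (hQ.map _) x ⟨x, hx, rfl⟩ y ⟨y, hy, rfl⟩
  exact Subtype.ext this

lemma param {K : Type*} [Field K] (a b c d v0 v1 : K) (hv : v0 ≠ 0 ∨ v1 ≠ 0)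
    (h1 : a * v0 + b * v1 = v0) (h2 : c * v0 + d * v1 = v1) (hdet : a * d - b * c = 1) :
    ∃ x : K, a = 1 - x * v0 * v1 ∧ b = x * v0 ^ 2 ∧ c = - x * v1 ^ 2 ∧ d = 1 + x * v0 * v1 := by
  by_cases h0 : v0 = 0
  · have hv1 : v1 ≠ 0 := by tauto
    subst h0
    have hb : b = 0 := by
      have : b * v1 = 0 := by linear_combination h1
      rcases mul_eq_zero.mp this with h | h
      · exact h
      · exact absurd h hv1
    have hd : d = 1 := by
      have : (d - 1) * v1 = 0 := by linear_combination h2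
      rcases mul_eq_zero.mp this with h | h
      · linear_combination h
      · exact absurd h hv1
    have ha : a = 1 := by
      subst hb hd
      linear_combination hdet
    refine ⟨- c / v1 ^ 2, ?_, ?_, ?_, ?_⟩
    · simp [ha]
    · simp [hb]
    · field_simp
    · simp [hd]
  · have hd : d * v0 = v0 + b * v1 := by
      linear_combination v0 * hdet - d * h1 + b * h2
    refine ⟨b / v0 ^ 2, ?_, ?_, ?_, ?_⟩
    · field_simp
      linear_combination h1
    · field_simp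
    · field_simp
      linear_combination v0 * h2 - v1 * hd
    · field_simp
      linear_combination hd

lemma comm_of_fix {K : Type*} [Field K] (g h : Matrix.SpecialLinearGroup (Fin 2) K) (v : Fin 2 → K)
    (hv : v ≠ 0) (hg : Matrix.mulVec (g : Matrix (Fin 2) (Fin 2) K) v = v)
    (hh : Matrix.mulVec (h : Matrix (Fin 2) (Fin 2) K) v = v) : g * h = h * g := by
  have hv' : v 0 ≠ 0 ∨ v 1 ≠ 0 := by
    by_contra hcon
    push Not at hcon
    apply hv
    ext i
    fin_cases i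
    · exact hcon.1
    · exact hcon.2
  have hg0 := congrFun hg 0
  have hg1 := congrFun hg 1
  have hh0 := congrFun hh 0
  have hh1 := congrFun hh 1
  simp only [Matrix.mulVec, dotProduct, Fin.sum_univ_two] at hg0 hg1 hh0 hh1
  have hgd := g.det_coe
  have hhd := h.det_coe
  rw [Matrix.det_fin_two] at hgd hhd
  obtain ⟨x, ha, hb, hc, hd⟩ := param _ _ _ _ _ _ hv' hg0 hg1 hgd
  obtain ⟨x', ha', hb', hc', hd'⟩ := param _ _ _ _ _ _ hv' hh0 hh1 hhd
  apply Matrix.SpecialLinearGroup.ext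
  intro i j
  rw [Matrix.SpecialLinearGroup.coe_mul, Matrix.SpecialLinearGroup.coe_mul, Matrix.mul_apply, Matrix.mul_apply,
    Fin.sum_univ_two, Fin.sum_univ_two]
  fin_cases i <;> fin_cases j <;> simp only [Fin.zero_eta, Fin.mk_one, Fin.isValue] <;>
    simp only [ha, hb, hc, hd, ha', hb', hc', hd'] <;> ring

lemma abP_SL2 {p : ℕ} [Fact p.Prime] {K : Type*} [Field K] [Fintype K] [CharP K p] :
    AbP p (Matrix.SpecialLinearGroup (Fin 2) K) := by
  intro P hP x hx y hy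
  let act : MulAction P (Fin 2 → K) :=
    { smul := fun g v => Matrix.mulVec ((g : Matrix.SpecialLinearGroup (Fin 2) K) : Matrix (Fin 2) (Fin 2) K) v
      one_smul := fun v => by
        show Matrix.mulVec (((1 : P) : Matrix.SpecialLinearGroup (Fin 2) K) : Matrix (Fin 2) (Fin 2) K) v = v
        simp
      mul_smul := fun g h v => by
        show Matrix.mulVec (((g * h : P) : Matrix.SpecialLinearGroup (Fin 2) K) : Matrix (Fin 2) (Fin 2) K) v =
          Matrix.mulVec ((g : Matrix.SpecialLinearGroup (Fin 2) K) : Matrix (Fin 2) (Fin 2) K)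
            (Matrix.mulVec ((h : Matrix.SpecialLinearGroup (Fin 2) K) : Matrix (Fin 2) (Fin 2) K) v)
        rw [Matrix.mulVec_mulVec]
        rfl }
  have hsmul : ∀ (g : P) (v : Fin 2 → K), g • v = Matrix.mulVec ((g : Matrix.SpecialLinearGroup (Fin 2) K) : Matrix (Fin 2) (Fin 2) K) v := fun _ _ => rfl
  have hdvd : p ∣ Nat.card (Fin 2 → K) := by
    obtain ⟨n, _, hn⟩ := FiniteField.card K p
    rw [Nat.card_eq_fintype_card, Fintype.card_fun, Fintype.card_fin, hn]
    exact Dvd.dvd.pow (dvd_pow_self p n.ne_zero) (by norm_num)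
  have h0 : (0 : Fin 2 → K) ∈ MulAction.fixedPoints P (Fin 2 → K) := by
    intro g
    rw [hsmul]
    simp
  obtain ⟨v, hvfix, hv0⟩ := hP.exists_fixed_point_of_prime_dvd_card_of_fixed_point (Fin 2 → K) hdvd h0
  exact comm_of_fix x y v (Ne.symm hv0) (hvfix ⟨x, hx⟩) (hvfix ⟨y, hy⟩)

def U3 (p : ℕ) [Fact p.Prime] : Subgroup (Matrix.SpecialLinearGroup (Fin 3) (ZMod p)) where
  carrier := {M | (M : Matrix (Fin 3) (Fin 3) (ZMod p)) 1 0 = 0 ∧ (M : Matrix (Fin 3) (Fin 3) (ZMod p)) 2 0 = 0 ∧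
    (M : Matrix (Fin 3) (Fin 3) (ZMod p)) 2 1 = 0 ∧ (M : Matrix (Fin 3) (Fin 3) (ZMod p)) 0 0 = 1 ∧
    (M : Matrix (Fin 3) (Fin 3) (ZMod p)) 1 1 = 1 ∧ (M : Matrix (Fin 3) (Fin 3) (ZMod p)) 2 2 = 1}
  mul_mem' := by
    rintro a b ⟨a1, a2, a3, a4, a5, a6⟩ ⟨b1, b2, b3, b4, b5, b6⟩
    simp only [Set.mem_ofPred_eq, Matrix.SpecialLinearGroup.coe_mul, Matrix.mul_apply, Fin.sum_univ_three]
    simp [a1, a2, a3, a4, a5, a6, b1, b2, b3, b4, b5, b6]
  one_mem' := by
    simp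
  inv_mem' := by
    rintro a ⟨a1, a2, a3, a4, a5, a6⟩
    simp only [Set.mem_ofPred_eq, Matrix.SpecialLinearGroup.coe_inv, Matrix.adjugate_fin_three]
    simp [a1, a2, a3, a4, a5, a6]

lemma U3_isPGroup (p : ℕ) [Fact p.Prime] (hp : p ≠ 2) : IsPGroup p (U3 p) := by
  rintro ⟨M, a1, a2, a3, a4, a5, a6⟩
  refine ⟨1, ?_⟩
  apply Subtype.ext
  apply Matrix.SpecialLinearGroup.ext
  intro i j
  show ((M ^ (p ^ 1) : Matrix.SpecialLinearGroup (Fin 3) (ZMod p)) : Matrix (Fin 3) (Fin 3) (ZMod p)) i j = (1 : Matrix (Fin 3) (Fin 3) (ZMod p)) i j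
  rw [pow_one, Matrix.SpecialLinearGroup.coe_pow]
  set A : Matrix (Fin 3) (Fin 3) (ZMod p) := (M : Matrix (Fin 3) (Fin 3) (ZMod p)) with hA
  have hN3 : (A - 1) ^ 3 = 0 := by
    ext i j
    fin_cases i <;> fin_cases j <;>
      simp [pow_succ, Matrix.mul_apply, Fin.sum_univ_three, a1, a2, a3, a4, a5, a6]
  have hp3 : 3 ≤ p := by
    have := (Fact.out : p.Prime).two_le
    omega
  have hNp : (A - 1) ^ p = 0 := by
    exact pow_eq_zero_of_le hp3 hN3
  have : A ^ p = 1 := by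
    have h := add_pow_char_of_commute p (Commute.one_right (A - 1))
    rw [sub_add_cancel, hNp, one_pow, zero_add] at h
    exact h
  rw [this]

/-- Let p be an odd prime and K a finite field of characteristic p. Then Qd(p) (the natural semidirect product of an elementary abelian group of order p² by SL₂(p)) is not involved in the projective special linear group PSL₂(K). -/
theorem result {p : ℕ} [Fact p.Prime] (hp : p ≠ 2) {K : Type*} [Field K] [Fintype K] [CharP K p] : ¬ Cfsg.Involves ↥(Cfsg.qd p) (Matrix.ProjectiveSpecialLinearGroup (Fin 2) K) := by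
  classical
  rintro ⟨K0, R0, hN, ⟨e⟩⟩
  have h1 : AbP p (Matrix.SpecialLinearGroup (Fin 2) K) := abP_SL2
  have h2 : AbP p (Matrix.ProjectiveSpecialLinearGroup (Fin 2) K) :=
    h1.of_surjective (QuotientGroup.mk' _) (QuotientGroup.mk'_surjective _)
  have h3 : AbP p K0 := h2.subgroup K0
  have h4 : AbP p (K0 ⧸ R0.subgroupOf K0) := h3.of_surjective (QuotientGroup.mk' _) (QuotientGroup.mk'_surjective _)
  have h5 : AbP p (Cfsg.qd p) := h4.of_surjective e.toMonoidHom e.surjective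
  have hle : U3 p ≤ Cfsg.qd p := by
    intro M hM
    obtain ⟨a1, a2, a3, a4, a5, a6⟩ := hM
    exact Subgroup.subset_closure ⟨a2, a3, a6⟩
  obtain ⟨x, hx⟩ : ∃ x : Matrix.SpecialLinearGroup (Fin 3) (ZMod p), (x : Matrix (Fin 3) (Fin 3) (ZMod p)) = !![1,1,0;0,1,0;0,0,1] :=
    ⟨⟨!![1,1,0;0,1,0;0,0,1], by simp [Matrix.det_fin_three]⟩, rfl⟩
  obtain ⟨y, hy⟩ : ∃ x : Matrix.SpecialLinearGroup (Fin 3) (ZMod p), (x : Matrix (Fin 3) (Fin 3) (ZMod p)) = !![1,0,0;0,1,1;0,0,1] :=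
    ⟨⟨!![1,0,0;0,1,1;0,0,1], by simp [Matrix.det_fin_three]⟩, rfl⟩
  have hxU : x ∈ U3 p := by
    show _ ∧ _ ∧ _ ∧ _ ∧ _ ∧ _
    rw [hx]
    simp
  have hyU : y ∈ U3 p := by
    show _ ∧ _ ∧ _ ∧ _ ∧ _ ∧ _
    rw [hy]
    simp
  have hPG : IsPGroup p ((U3 p).subgroupOf (Cfsg.qd p)) :=
    (U3_isPGroup p hp).comap_of_injective (Cfsg.qd p).subtype (Subgroup.subtype_injective _)
  have hcomm := h5 _ hPG ⟨x, hle hxU⟩ (by simpa [Subgroup.mem_subgroupOf] using hxU) ⟨y, hle hyU⟩ (by simpa [Subgroup.mem_subgroupOf] using hyU)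
  have hcomm' : x * y = y * x := congrArg Subtype.val hcomm
  have h02 := congrArg (fun M : Matrix.SpecialLinearGroup (Fin 3) (ZMod p) => (M : Matrix (Fin 3) (Fin 3) (ZMod p)) 0 2) hcomm'
  simp only [Matrix.SpecialLinearGroup.coe_mul, hx, hy, Matrix.mul_apply, Fin.sum_univ_three] at h02
  simp at h02

end Cfsg.Agent.S2231
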