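import Cfsg.Statements.S2239
import Cfsg.Agent.Lib.Helper8.SzSubConj

set_option autoImplicit false
open Cfsg

namespace Cfsg.Agent.S2239

/-- Subfield subgroups of the Suzuki group: let q = 2^(2m+1) and s = 2^(2k+1) with m, k ≥ 1 and 2k+1 dividing 2m+1 (so q is a power of s), both groups realised as stabilisers in SL₄ of the Suzuki–Tits ovoid. Then Sz(q) has a subgroup isomorphic to Sz(s), and any two subgroups of Sz(q) isomorphic to Sz(s) are conjugate. -/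
theorem result {F : Type*} [Field F] [Fintype F] {m : ℕ} (hm : 1 ≤ m) (hF : Fintype.card F = 2 ^ (2 * m + 1)) {K : Type*} [Field K] [Fintype K] {k : ℕ} (hk : 1 ≤ k) (hK : Fintype.card K = 2 ^ (2 * k + 1)) (hdiv : 2 * k + 1 ∣ 2 * m + 1) :
    (∃ S : Subgroup ↥(Cfsg.Sz F m), Nonempty (↥S ≃* ↥(Cfsg.Sz K k))) ∧
    ∀ S₁ S₂ : Subgroup ↥(Cfsg.Sz F m), Nonempty (↥S₁ ≃* ↥(Cfsg.Sz K k)) → Nonempty (↥S₂ ≃* ↥(Cfsg.Sz K k)) →
      ∃ g : ↥(Cfsg.Sz F m), S₂ = S₁.map (MulAut.conj g).toMonoidHom := by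
  have := Cfsg.Agent.Lib.Helper8.charP_two_of_card hF
  have := Cfsg.Agent.Lib.Helper8.charP_two_of_card hK
  constructor
  · obtain ⟨ι⟩ := Cfsg.Agent.Lib.Helper8.exists_ringHom (K := K) (F := F)
      (by rw [Nat.card_eq_fintype_card, hK]) (by rw [Nat.card_eq_fintype_card, hF]) hdiv
    exact ⟨(Cfsg.Agent.Lib.Helper8.subHom hF hK hk hdiv ι).range,
      ⟨(MonoidHom.ofInjective (Cfsg.Agent.Lib.Helper8.subHom_injective hF hK hk hdiv ι)).symm⟩⟩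
  · rintro S₁ S₂ ⟨φ₁⟩ ⟨φ₂⟩
    obtain ⟨x₁, K₁, c₁, e₁⟩ := Cfsg.Agent.Lib.Helper8.conj_GK_of_equiv hF hm hK hk S₁ φ₁
    obtain ⟨x₂, K₂, c₂, e₂⟩ := Cfsg.Agent.Lib.Helper8.conj_GK_of_equiv hF hm hK hk S₂ φ₂
    have hKK : K₁ = K₂ := Cfsg.Agent.Lib.Helper8.subfield_eq_of_card (c₁.trans c₂.symm)
    subst hKK
    refine ⟨x₂⁻¹ * x₁, ?_⟩
    rw [← Cfsg.Agent.Lib.Helper8.map_conj_map_conj, e₁, ← e₂,
      Cfsg.Agent.Lib.Helper8.map_conj_map_conj, inv_mul_cancel]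
    ext y
    rw [Cfsg.Agent.Lib.Helper8.mem_map_conj]
    simp

end Cfsg.Agent.S2239
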