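import Cfsg.Statements.S2251
import Cfsg.Agent.Lib.Helper8.SzSubgroups

set_option autoImplicit false
open Cfsg

namespace Cfsg.Agent.S2251

/-- The subgroups of the Suzuki group: with q = 2^(2m+1), m ≥ 1, r = 2^m and the group realised as the stabiliser in SL₄ of the Suzuki–Tits ovoid, every proper subgroup is contained in the normalizer of a Sylow 2-subgroup, or in the normalizer of a cyclic subgroup of order q − 1, q + 2r + 1 or q − 2r + 1, or in a subgroup isomorphic to a smaller Suzuki group Sz(s) with s = 2^(2k+1) ≥ 8 and 2k+1 a proper divisor of 2m+1. -/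
theorem result {F : Type*} [Field F] [Fintype F] {m : ℕ} (hm : 1 ≤ m) (hF : Fintype.card F = 2 ^ (2 * m + 1)) (M : Subgroup ↥(Cfsg.Sz F m)) (hM : M ≠ ⊤) :
    (∃ P : Sylow 2 ↥(Cfsg.Sz F m), M ≤ Subgroup.normalizer ((P : Subgroup ↥(Cfsg.Sz F m)) : Set ↥(Cfsg.Sz F m))) ∨
    (∃ U : Subgroup ↥(Cfsg.Sz F m), IsCyclic ↥U ∧ Nat.card ↥U ∈ ({2 ^ (2 * m + 1) - 1, 2 ^ (2 * m + 1) + 2 ^ (m + 1) + 1, 2 ^ (2 * m + 1) - 2 ^ (m + 1) + 1} : Set ℕ) ∧
      M ≤ Subgroup.normalizer (U : Set ↥(Cfsg.Sz F m))) ∨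
    (∃ (K : Type) (_ : Field K) (_ : Fintype K) (k : ℕ), 1 ≤ k ∧ k < m ∧ Fintype.card K = 2 ^ (2 * k + 1) ∧ 2 * k + 1 ∣ 2 * m + 1 ∧
      ∃ S : Subgroup ↥(Cfsg.Sz F m), Nonempty (↥S ≃* ↥(Cfsg.Sz K k)) ∧ M ≤ S) := by
  have := Cfsg.Agent.Lib.Helper8.charP_two_of_card hF
  rcases Cfsg.Agent.Lib.Helper8.Sz_subgroups hF hm M hM with (h | h) | ⟨x, K₁, k, hk, hkm, hcard, hMK⟩
  · exact Or.inl h
  · exact Or.inr (Or.inl h)
  · right; right
    have : Fact (Nat.Prime 2) := ⟨Nat.prime_two⟩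
    have hc := GaloisField.card 2 (2 * k + 1) (by omega)
    have hfin : Finite (GaloisField 2 (2 * k + 1)) :=
      Nat.finite_of_card_ne_zero (by rw [hc]; positivity)
    let inst : Fintype (GaloisField 2 (2 * k + 1)) := Fintype.ofFinite _
    have hK : Fintype.card (GaloisField 2 (2 * k + 1)) = 2 ^ (2 * k + 1) := by
      rw [← Nat.card_eq_fintype_card, hc]
    obtain ⟨⟨e⟩, hdiv⟩ := Cfsg.Agent.Lib.Helper8.GK_equiv hF K₁ hK hk hcard
    refine ⟨GaloisField 2 (2 * k + 1), inferInstance, inst, k, hk, hkm, hK, hdiv, M, ⟨?_⟩, le_refl M⟩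
    exact ((M.equivMapOfInjective _ (MulAut.conj x).injective).trans
      (MulEquiv.subgroupCongr hMK)).trans e

end Cfsg.Agent.S2251
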