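import Cfsg.Statements.S2255
import Cfsg.Agent.Lib.Helper46.NilSym.GA4
import Cfsg.Agent.Lib.Helper46.NilSym.GC
import Cfsg.Agent.Lib.Helper46.NilSym.GM
import Cfsg.Agent.Lib.Helper46.NilSym.NE1

set_option autoImplicit false
open Cfsg

namespace Cfsg.Agent.S2255

/-- Let n be a natural number not congruent to 3 modulo 4, with n ∉ {5, 6, 9}. Then every nilpotent subgroup of the alternating group on n letters has order at most the order of a Sylow 2-subgroup of the alternating group (so the nilpotent subgroups of largest order are exactly the Sylow 2-subgroups). -/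
theorem result  (n : ℕ) (hn : n % 4 ≠ 3)
    (h5 : n ≠ 5) (h6 : n ≠ 6) (h9 : n ≠ 9)
    (N : Subgroup (alternatingGroup (Fin n))) (hN : Group.IsNilpotent N)
    (P : Sylow 2 (alternatingGroup (Fin n))) :
    Nat.card N ≤ Nat.card P := by
  obtain ⟨k1, k2, k3⟩ := Cfsg.Agent.Lib.Helper46.NilSym.alt_map_facts N hN
  have h1 := Cfsg.Agent.Lib.Helper46.NilSym.alt_bound _ k1 k3
  rw [k2] at h1
  have h2 : Nat.card (Fin n) = n := by simp
  rw [h2] at h1
  by_cases hn2 : n < 2
  · have hE : Cfsg.Agent.Lib.Helper46.NilSym.E n = 1 := by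
      interval_cases n <;> simp [Cfsg.Agent.Lib.Helper46.NilSym.E]
    have hP : 0 < Nat.card P := Nat.card_pos
    omega
  · have e1 := Cfsg.Agent.Lib.Helper46.NilSym.two_E_eq n (by omega) (by omega) (by omega) h5 h6 h9
    have e2 := Cfsg.Agent.Lib.Helper46.NilSym.card_sylow_two_alt n (by omega) P
    have e3 : Cfsg.Agent.Lib.Helper46.NilSym.F n = Cfsg.Agent.Lib.Helper46.NilSym.W n := by
      simp [Cfsg.Agent.Lib.Helper46.NilSym.F, hn]
    omega

end Cfsg.Agent.S2255
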