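import Cfsg.Statements.S2256
import Cfsg.Agent.Lib.Helper46.NilSym.GA4
import Cfsg.Agent.Lib.Helper46.NilSym.GC
import Cfsg.Agent.Lib.Helper46.NilSym.GM
import Cfsg.Agent.Lib.Helper46.NilSym.NE1
import Cfsg.Agent.Lib.Helper46.NilSym.GX
import Cfsg.Agent.Lib.Helper46.NilSym.GS5

set_option autoImplicit false
open Cfsg

namespace Cfsg.Agent.S2256

/-- Let n ≡ 3 (mod 4) with n ≥ 7. Then every nilpotent subgroup of the alternating group on n letters has order at most 3 times the order of a Sylow 2-subgroup of the alternating group on n − 3 letters; the bound is attained by a nilpotent subgroup isomorphic to the direct product of such a Sylow 2-subgroup with a cyclic group of order 3; and any two nilpotent subgroups of the alternating group attaining the bound are conjugate in it. -/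
theorem result  (n : ℕ) (hn : n % 4 = 3) (h7 : 7 ≤ n)
    (P : Sylow 2 (alternatingGroup (Fin (n - 3)))) :
    (∀ N : Subgroup (alternatingGroup (Fin n)), Group.IsNilpotent N → Nat.card N ≤ 3 * Nat.card P) ∧
    (∃ M : Subgroup (alternatingGroup (Fin n)), Group.IsNilpotent M ∧ Nat.card M = 3 * Nat.card P ∧
      Nonempty (M ≃* (↥(P : Subgroup (alternatingGroup (Fin (n - 3)))) × Multiplicative (ZMod 3)))) ∧
    (∀ N₁ N₂ : Subgroup (alternatingGroup (Fin n)), Group.IsNilpotent N₁ → Group.IsNilpotent N₂ →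
      Nat.card N₁ = 3 * Nat.card P → Nat.card N₂ = 3 * Nat.card P →
      ∃ g : alternatingGroup (Fin n), N₂ = N₁.map (MulAut.conj g).toMonoidHom) := by
  have hcard : Nat.card (Fin n) = n := by simp
  have hP := Cfsg.Agent.Lib.Helper46.NilSym.card_sylow_two_alt (n - 3) (by omega) P
  have hF : Cfsg.Agent.Lib.Helper46.NilSym.F n = 3 * Cfsg.Agent.Lib.Helper46.NilSym.W (n - 3) := by
    simp [Cfsg.Agent.Lib.Helper46.NilSym.F, hn]
  have hE := Cfsg.Agent.Lib.Helper46.NilSym.two_E_eq n (by omega) (by omega) (by omega) (by omega)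
    (by omega) (by omega)
  refine ⟨?_, ?_, ?_⟩
  · intro N hN
    obtain ⟨k1, k2, k3⟩ := Cfsg.Agent.Lib.Helper46.NilSym.alt_map_facts N hN
    have h1 := Cfsg.Agent.Lib.Helper46.NilSym.alt_bound _ k1 k3
    rw [k2, hcard] at h1
    omega
  · obtain ⟨M', ⟨e⟩, hM'⟩ := Cfsg.Agent.Lib.Helper46.NilSym.exists_prod_three n (by omega)
      ((P : Subgroup (alternatingGroup (Fin (n - 3)))).map (alternatingGroup (Fin (n - 3))).subtype)
    have hle : M' ≤ alternatingGroup (Fin n) := by
      apply hM'
      rintro _ ⟨x, -, rfl⟩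
      exact x.2
    let e1 : (M'.subgroupOf (alternatingGroup (Fin n))) ≃* M' := Subgroup.subgroupOfEquivOfLe hle
    let e2 : ↥(P : Subgroup (alternatingGroup (Fin (n - 3)))) ≃*
        ((P : Subgroup (alternatingGroup (Fin (n - 3)))).map
          (alternatingGroup (Fin (n - 3))).subtype) :=
      Subgroup.equivMapOfInjective _ _ Subtype.val_injective
    let e3 : (M'.subgroupOf (alternatingGroup (Fin n))) ≃*
        (↥(P : Subgroup (alternatingGroup (Fin (n - 3)))) × Multiplicative (ZMod 3)) :=
      (e1.trans e).trans (MulEquiv.prodCongr e2.symm (MulEquiv.refl _))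
    refine ⟨M'.subgroupOf (alternatingGroup (Fin n)), ?_, ?_, ⟨e3⟩⟩
    · have : Group.IsNilpotent (P : Subgroup (alternatingGroup (Fin (n - 3)))) :=
        P.isPGroup'.isNilpotent
      exact Group.nilpotent_of_mulEquiv e3.symm
    · rw [Nat.card_congr e3.toEquiv, Nat.card_prod]
      have : Nat.card (Multiplicative (ZMod 3)) = 3 := by
        rw [Nat.card_congr Multiplicative.toAdd, Nat.card_zmod]
      rw [this, mul_comm]
  · intro N₁ N₂ h₁ h₂ c₁ c₂
    exact Cfsg.Agent.Lib.Helper46.NilSym.alt_ext_conj N₁ N₂ h₁ h₂ (by rw [hcard]; exact hn)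
      (by rw [hcard]; exact h7) (by rw [hcard]; omega) (by rw [hcard]; omega)

end Cfsg.Agent.S2256
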