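import Cfsg.Statements.S2268
import Cfsg.Agent.Lib.Helper43.Automizer

set_option autoImplicit false
open Cfsg

namespace Cfsg.Agent.S2268

/-- Let G be a finite group with an abelian Sylow p-subgroup P and let Q ≤ P. Then N_G(Q) = (N_G(Q) ∩ N_G(P))·C_G(Q), so that N_G(Q)/C_G(Q) is a homomorphic image of the subgroup (N_G(Q) ∩ N_G(P))/C_G(P) of N_G(P)/C_G(P); in particular the order of N_G(Q)/C_G(Q) divides the order of N_G(P)/C_G(P). -/
theorem result {G : Type*} [Group G] [Finite G] {p : ℕ} [Fact p.Prime]
    (P : Sylow p G) (hP : IsMulCommutative (P : Subgroup G)) (Q : Subgroup G) (hQ : Q ≤ (P : Subgroup G)) :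
    Subgroup.normalizer (Q : Set G) =
      (Subgroup.normalizer (Q : Set G) ⊓ Subgroup.normalizer ((P : Subgroup G) : Set G)) ⊔ Subgroup.centralizer (Q : Set G) ∧
    ((Subgroup.centralizer (Q : Set G)).subgroupOf (Subgroup.normalizer (Q : Set G))).index ∣ ((Subgroup.centralizer ((P : Subgroup G) : Set G)).subgroupOf (Subgroup.normalizer ((P : Subgroup G) : Set G))).index := by
  have hCN : Subgroup.centralizer (Q : Set G) ≤ Subgroup.normalizer (Q : Set G) :=
    Subgroup.centralizer_le_normalizer _
  have h1 : (P : Subgroup G) ≤ Subgroup.centralizer (Q : Set G) := by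
    intro y hy z hz
    have := hP.is_comm.comm ⟨z, hQ hz⟩ ⟨y, hy⟩
    exact congrArg Subtype.val this
  have part1 : Subgroup.normalizer (Q : Set G) =
      (Subgroup.normalizer (Q : Set G) ⊓ Subgroup.normalizer ((P : Subgroup G) : Set G)) ⊔
        Subgroup.centralizer (Q : Set G) := by
    apply le_antisymm
    · intro g hg
      have h2 : ((g • P : Sylow p G) : Subgroup G) ≤ Subgroup.centralizer (Q : Set G) := by
        rintro - ⟨z, hz, rfl⟩
        intro w hw
        have hw' : g⁻¹ * w * g ∈ Q := by
          have := (Subgroup.mem_normalizer_iff.mp (inv_mem hg) w).mp hw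
          simpa using this
        have h3 := h1 hz (g⁻¹ * w * g) hw'
        simp only [MulAut.smul_def, MulAut.conj_apply, MulDistribMulAction.toMonoidEnd_apply,
          MulDistribMulAction.toMonoidHom_apply]
        calc w * (g * z * g⁻¹) = g * ((g⁻¹ * w * g) * z) * g⁻¹ := by group
          _ = g * (z * (g⁻¹ * w * g)) * g⁻¹ := by rw [h3]
          _ = g * z * g⁻¹ * w := by group
      obtain ⟨h, hh⟩ := MulAction.exists_smul_eq (Subgroup.centralizer (Q : Set G))
        ((g • P).subtype h2) (P.subtype h1)
      simp_rw [Sylow.smul_subtype, Subgroup.smul_def, smul_smul] at hh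
      have h4 : (h : G) * g ∈ Subgroup.normalizer ((P : Subgroup G) : Set G) :=
        Sylow.smul_eq_iff_mem_normalizer.mp (Sylow.subtype_injective hh)
      have h5 : g = (h : G)⁻¹ * ((h : G) * g) := by group
      rw [h5, sup_comm]
      exact Subgroup.mul_mem_sup (inv_mem h.2) ⟨mul_mem (hCN h.2) hg, h4⟩
    · exact sup_le inf_le_left hCN
  refine ⟨part1, ?_⟩
  set K : Subgroup G :=
    Subgroup.normalizer (Q : Set G) ⊓ Subgroup.normalizer ((P : Subgroup G) : Set G) with hK
  have e1 : ((Subgroup.centralizer (Q : Set G)).subgroupOf (Subgroup.normalizer (Q : Set G))).index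
      = (Subgroup.centralizer (Q : Set G)).relIndex K := by
    rw [Cfsg.Agent.Lib.Helper43.automizer_index_eq]
    have h6 : (K.subgroupOf (Subgroup.normalizer (Q : Set G))).map Q.normalizerMonoidHom
        = Q.normalizerMonoidHom.range := by
      rw [Subgroup.map_eq_range_iff, Subgroup.normalizerMonoidHom_ker, codisjoint_iff,
        ← Subgroup.subgroupOf_sup inf_le_left hCN, ← part1, Subgroup.subgroupOf_self]
    rw [← h6, ← Subgroup.relIndex_ker, Subgroup.normalizerMonoidHom_ker,
      Subgroup.relIndex_subgroupOf inf_le_left]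
  have e2 : (Subgroup.centralizer ((P : Subgroup G) : Set G)).relIndex K ∣
      ((Subgroup.centralizer ((P : Subgroup G) : Set G)).subgroupOf
        (Subgroup.normalizer ((P : Subgroup G) : Set G))).index := by
    rw [Cfsg.Agent.Lib.Helper43.automizer_index_eq,
      ← Subgroup.relIndex_subgroupOf (inf_le_right : K ≤ Subgroup.normalizer ((P : Subgroup G) : Set G)),
      ← Subgroup.normalizerMonoidHom_ker, Subgroup.relIndex_ker]
    exact Subgroup.card_dvd_of_le (Subgroup.map_le_range _ _)
  rw [e1]
  exact (Subgroup.relIndex_dvd_of_le_left K (Subgroup.centralizer_le hQ)).trans e2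

end Cfsg.Agent.S2268
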