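import Cfsg.Statements.S2269
import Cfsg.Agent.Lib.Helper43.RealElt

set_option autoImplicit false
open Cfsg

namespace Cfsg.Agent.S2269


open Equiv.Perm in
theorem real_pcycle (n p : ℕ) (hp : p.Prime) (hp2 : p ≠ 2) (h : p + 2 ≤ n) :
    ∃ x c : alternatingGroup (Fin n), orderOf x = p ^ 1 ∧ c * x * c⁻¹ = x⁻¹ ∧ x ^ 2 ≠ 1 := by
  classical
  obtain ⟨x0, hx0⟩ := (Equiv.Perm.exists_with_cycleType_iff (α := Fin n) (m := {p})).mpr
    ⟨by simp; omega, by simp [hp.two_le]⟩
  have hodd : Odd p := hp.odd_of_ne_two hp2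
  have hsign : sign x0 = 1 := by
    rw [sign_of_cycleType, hx0]
    simp only [Multiset.sum_singleton, Multiset.card_singleton]
    exact Even.neg_one_pow (hodd.add_one)
  have hord : orderOf x0 = p := by
    rw [← lcm_cycleType, hx0]; simp
  have hsupp : x0.support.card = p := by
    rw [← sum_cycleType, hx0]; simp
  have hcompl : 1 < (x0.supportᶜ).card := by
    rw [Finset.card_compl, hsupp, Fintype.card_fin]; omega
  obtain ⟨u, hu, v, hv, huv⟩ := Finset.one_lt_card.mp hcompl
  have hu' : x0 u = u := by simpa using hu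
  have hv' : x0 v = v := by simpa using hv
  have hconj : IsConj x0 x0⁻¹ := by
    rw [isConj_iff_cycleType_eq, cycleType_inv]
  obtain ⟨c0, hc0⟩ := isConj_iff.mp hconj
  have hcomm : Equiv.swap u v * x0 * (Equiv.swap u v)⁻¹ = x0 := by
    rw [mul_inv_eq_iff_eq_mul]
    ext w
    simp only [Equiv.Perm.coe_mul, Function.comp_apply]
    by_cases hwu : w = u
    · subst hwu; simp [hu', hv']
    · by_cases hwv : w = v
      · subst hwv; simp [hu', hv']
      · have h1 : x0 w ≠ u := fun h => hwu (x0.injective (h.trans hu'.symm))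
        have h2 : x0 w ≠ v := fun h => hwv (x0.injective (h.trans hv'.symm))
        rw [Equiv.swap_apply_of_ne_of_ne hwu hwv, Equiv.swap_apply_of_ne_of_ne h1 h2]
  have hx2 : x0 ^ 2 ≠ 1 := by
    intro h2
    have h3 : p ∣ 2 := hord ▸ orderOf_dvd_of_pow_eq_one h2
    exact hp2 ((Nat.prime_dvd_prime_iff_eq hp Nat.prime_two).mp h3)
  have hxmem : x0 ∈ alternatingGroup (Fin n) := hsign
  have main : ∃ c1 : Equiv.Perm (Fin n), sign c1 = 1 ∧ c1 * x0 * c1⁻¹ = x0⁻¹ := by
    rcases Int.units_eq_one_or (sign c0) with h1 | h1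
    · exact ⟨c0, h1, hc0⟩
    · refine ⟨c0 * Equiv.swap u v, ?_, ?_⟩
      · rw [map_mul, h1, sign_swap huv]; rfl
      · calc c0 * Equiv.swap u v * x0 * (c0 * Equiv.swap u v)⁻¹
            = c0 * (Equiv.swap u v * x0 * (Equiv.swap u v)⁻¹) * c0⁻¹ := by group
          _ = x0⁻¹ := by rw [hcomm, hc0]
  obtain ⟨c1, hc1, hc1x⟩ := main
  refine ⟨⟨x0, hxmem⟩, ⟨c1, hc1⟩, ?_, ?_, ?_⟩
  · rw [Subgroup.orderOf_mk, hord, pow_one]
  · exact Subtype.ext hc1x
  · intro h2
    exact hx2 (congrArg Subtype.val h2)

theorem real_four (n : ℕ) (h : 6 ≤ n) :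
    ∃ x c : alternatingGroup (Fin n), orderOf x = 2 ^ 2 ∧ c * x * c⁻¹ = x⁻¹ ∧ x ^ 2 ≠ 1 := by
  classical
  let e : Fin 6 ≃ Subtype (· ∈ Set.range (Fin.castLE h)) :=
    Equiv.ofInjective (Fin.castLE h) (Fin.castLE_injective h)
  let ι : Equiv.Perm (Fin 6) →* Equiv.Perm (Fin n) := Equiv.Perm.extendDomainHom e
  have hι : Function.Injective ι := Equiv.Perm.extendDomainHom_injective e
  have hsign : ∀ σ, Equiv.Perm.sign (ι σ) = Equiv.Perm.sign σ :=
    fun σ => Equiv.Perm.sign_extendDomain σ e
  let x0 : Equiv.Perm (Fin 6) := c[0, 3, 1, 2] * c[4, 5]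
  let s0 : Equiv.Perm (Fin 6) := c[0, 2] * c[1, 3]
  have hx0 : Equiv.Perm.sign x0 = 1 := by decide
  have hs0 : Equiv.Perm.sign s0 = 1 := by decide
  have hrel : s0 * x0 * s0⁻¹ = x0⁻¹ := by decide
  have hx2 : x0 ^ 2 ≠ 1 := by decide
  have hx4 : x0 ^ 2 ^ 2 = 1 := by decide
  have hord : orderOf x0 = 2 ^ 2 := by
    refine orderOf_eq_prime_pow (p := 2) (n := 1) ?_ hx4
    simpa using hx2
  refine ⟨⟨ι x0, Equiv.Perm.mem_alternatingGroup.mpr ((hsign x0).trans hx0)⟩,
    ⟨ι s0, Equiv.Perm.mem_alternatingGroup.mpr ((hsign s0).trans hs0)⟩, ?_, ?_, ?_⟩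
  · rw [Subgroup.orderOf_mk, orderOf_injective ι hι, hord]
  · apply Subtype.ext
    change ι s0 * ι x0 * (ι s0)⁻¹ = (ι x0)⁻¹
    rw [← map_inv, ← map_mul, ← map_mul, hrel, map_inv]
  · intro h2
    have h3 : (ι x0) ^ 2 = 1 := congrArg Subtype.val h2
    rw [← map_pow, ← map_one ι] at h3
    exact hx2 (hι h3)

theorem cyclic_small (n : ℕ) (hn : 5 ≤ n) {p : ℕ} [Fact p.Prime] (h : n < p + 2) (hp2 : p ≠ 2)
    (P : Sylow p (alternatingGroup (Fin n))) : IsCyclic (P : Subgroup (alternatingGroup (Fin n))) := by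
  have hp : p.Prime := Fact.out
  have : Nontrivial (Fin n) := Fin.nontrivial_iff_two_le.mpr (by omega)
  have hp3 : 3 ≤ p := by
    have := hp.two_le
    omega
  have hnot : ¬ p ^ 2 ∣ Nat.card (alternatingGroup (Fin n)) := by
    intro hdvd
    have h1 : p ^ 2 ∣ n.factorial := by
      have h2 := two_mul_nat_card_alternatingGroup (α := Fin n)
      rw [Nat.card_perm, Nat.card_eq_fintype_card (α := Fin n), Fintype.card_fin] at h2
      rw [← h2]
      exact Dvd.dvd.mul_left hdvd 2
    have hlog : Nat.log p n < 2 := by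
      apply Nat.log_lt_of_lt_pow (by omega)
      nlinarith
    rw [hp.pow_dvd_factorial_iff hlog] at h1
    have h3 : n / p ≤ 1 := by
      have : n < p * 2 := by omega
      have := Nat.div_lt_of_lt_mul this
      omega
    simp at h1
    omega
  obtain ⟨k, hk⟩ := IsPGroup.iff_card.mp P.2
  have hk1 : k ≤ 1 := by
    by_contra hk2
    apply hnot
    have h4 : p ^ 2 ∣ p ^ k := pow_dvd_pow p (by omega)
    rw [← hk] at h4
    exact h4.trans (Subgroup.card_subgroup_dvd_card _)
  interval_cases k
  · rw [pow_zero] at hk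
    have : Subsingleton (P : Subgroup (alternatingGroup (Fin n))) :=
      (Nat.card_eq_one_iff_unique.mp hk).1
    exact isCyclic_of_subsingleton
  · rw [pow_one] at hk
    exact isCyclic_of_prime_card hk

theorem case_five (P : Sylow 2 (alternatingGroup (Fin 5))) :
    ((Subgroup.centralizer ((P : Subgroup (alternatingGroup (Fin 5))) : Set (alternatingGroup (Fin 5)))).subgroupOf (Subgroup.normalizer ((P : Subgroup (alternatingGroup (Fin 5))) : Set (alternatingGroup (Fin 5))))).index = 3 ∧ IsKleinFour (P : Subgroup (alternatingGroup (Fin 5))) := by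
  have hcardG : Nat.card (alternatingGroup (Fin 5)) = 60 := by
    rw [nat_card_alternatingGroup]; simp [Nat.factorial]
  have hcardP : Nat.card (P : Subgroup (alternatingGroup (Fin 5))) = 4 := by
    rw [P.card_eq_multiplicity, hcardG]
    have : (60 : ℕ).factorization 2 = 2 := by
      have h60 : (60 : ℕ) = 2 ^ 2 * 15 := by norm_num
      rw [h60, Nat.factorization_mul (by norm_num) (by norm_num),
        Nat.Prime.factorization_pow Nat.prime_two]
      simp [Nat.factorization_eq_zero_of_not_dvd]
    rw [this]; norm_num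
  have hsq : ∀ x : Equiv.Perm (Fin 5), Equiv.Perm.sign x = 1 → x ^ 4 = 1 → x ^ 2 = 1 := by decide +kernel
  have hK : IsKleinFour (P : Subgroup (alternatingGroup (Fin 5))) := by
    refine ⟨hcardP, ?_⟩
    have h1 : Monoid.exponent (P : Subgroup (alternatingGroup (Fin 5))) ∣ 2 := by
      apply Monoid.exponent_dvd_of_forall_pow_eq_one
      intro g
      have h2 : g ^ 4 = 1 := by rw [← hcardP]; exact pow_card_eq_one'
      apply Subtype.ext
      apply Subtype.ext
      exact hsq g.1.1 g.1.2 (congrArg (fun z => z.1.1) h2)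
    rcases (Nat.dvd_prime Nat.prime_two).mp h1 with h3 | h3
    · exfalso
      have h4 : Subsingleton (P : Subgroup (alternatingGroup (Fin 5))) :=
        Monoid.exp_eq_one_iff.mp h3
      have h5 := Nat.card_eq_one_iff_unique.mpr ⟨h4, ⟨1⟩⟩
      omega
    · exact h3
  refine ⟨?_, hK⟩
  set idx := ((Subgroup.centralizer ((P : Subgroup (alternatingGroup (Fin 5))) : Set (alternatingGroup (Fin 5)))).subgroupOf (Subgroup.normalizer ((P : Subgroup (alternatingGroup (Fin 5))) : Set (alternatingGroup (Fin 5))))).index with hidx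
  have hcomm : IsMulCommutative (P : Subgroup (alternatingGroup (Fin 5))) := by
    have := hK
    exact ⟨⟨fun a b => mul_comm_of_exponent_two (by simp) a b⟩⟩
  have hPC : (P : Subgroup (alternatingGroup (Fin 5))) ≤
      Subgroup.centralizer ((P : Subgroup (alternatingGroup (Fin 5))) : Set (alternatingGroup (Fin 5))) := by
    intro y hy z hz
    exact congrArg Subtype.val (hcomm.is_comm.comm ⟨z, hz⟩ ⟨y, hy⟩)
  have h24 : idx ∣ 24 := by
    rw [hidx, Cfsg.Agent.Lib.Helper43.automizer_index_eq]
    have h1 : Nat.card (P : Subgroup (alternatingGroup (Fin 5))).normalizerMonoidHom.range ∣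
        Nat.card (Equiv.Perm (P : Subgroup (alternatingGroup (Fin 5)))) := by
      have hinj : Function.Injective
          ((MulAut.toPerm (P : Subgroup (alternatingGroup (Fin 5)))).comp
            (P : Subgroup (alternatingGroup (Fin 5))).normalizerMonoidHom.range.subtype) := by
        intro a b hab
        apply Subtype.ext
        apply MulEquiv.ext
        intro z
        exact congrArg (fun f : Equiv.Perm _ => f z) hab
      exact Subgroup.card_dvd_of_injective _ hinj
    rw [Nat.card_perm, hcardP] at h1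
    exact h1
  have hodd : ¬ 2 ∣ idx := by
    intro h2
    apply P.not_dvd_index
    have h3 : (P : Subgroup (alternatingGroup (Fin 5))).relIndex (Subgroup.normalizer ((P : Subgroup (alternatingGroup (Fin 5))) : Set (alternatingGroup (Fin 5)))) ∣ (P : Subgroup (alternatingGroup (Fin 5))).index :=
      Subgroup.relIndex_dvd_index_of_le Subgroup.le_normalizer
    refine Dvd.dvd.trans ?_ h3
    rw [← Subgroup.relIndex_mul_relIndex _ _ _ hPC (Subgroup.centralizer_le_normalizer _)]
    exact Dvd.dvd.mul_left h2 _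
  have hne1 : idx ≠ 1 := by
    intro h1
    have h2 : Subgroup.normalizer ((P : Subgroup (alternatingGroup (Fin 5))) : Set (alternatingGroup (Fin 5))) ≤ Subgroup.centralizer ((P : Subgroup (alternatingGroup (Fin 5))) : Set (alternatingGroup (Fin 5))) := by
      rw [hidx, Subgroup.index_eq_one, Subgroup.subgroupOf_eq_top] at h1
      exact h1
    have h3 := MonoidHom.ker_transferSylow_isComplement' P h2
    have h4 := h3.card_mul_card
    rw [hcardP, hcardG] at h4
    have := alternatingGroup.isSimpleGroup (α := Fin 5) (by simp)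
    rcases (MonoidHom.normal_ker (MonoidHom.transferSylow P h2)).eq_bot_or_eq_top with h5 | h5
    · rw [h5, Subgroup.card_bot] at h4; omega
    · rw [h5, Subgroup.card_top, hcardG] at h4; omega
  have h3 : idx ∣ 3 := by
    have hcop : Nat.Coprime idx 8 := by
      have : Nat.Coprime idx (2 ^ 3) := Nat.Coprime.pow_right 3
        ((Nat.coprime_comm.mp ((Nat.Prime.coprime_iff_not_dvd Nat.prime_two).mpr hodd)))
      simpa using this
    exact hcop.dvd_of_dvd_mul_left (by simpa using h24)
  rcases (Nat.dvd_prime Nat.prime_three).mp h3 with h | h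
  · exact absurd h hne1
  · exact h

/-- Let n ≥ 5 and let P be an abelian Sylow p-subgroup of the alternating group A_n. Then N(P)/C(P) (taken in A_n) has even order, or P is cyclic, except when n = 5 and p = 2, where P is a four-group and N(P)/C(P) has order 3. -/
theorem result (n : ℕ) (hn : 5 ≤ n) {p : ℕ} [Fact p.Prime]
    (P : Sylow p (alternatingGroup (Fin n))) (hP : IsMulCommutative (P : Subgroup (alternatingGroup (Fin n)))) :
    (¬ (n = 5 ∧ p = 2) → 2 ∣ ((Subgroup.centralizer ((P : Subgroup (alternatingGroup (Fin n))) : Set (alternatingGroup (Fin n)))).subgroupOf (Subgroup.normalizer ((P : Subgroup (alternatingGroup (Fin n))) : Set (alternatingGroup (Fin n))))).index ∨ IsCyclic (P : Subgroup (alternatingGroup (Fin n)))) ∧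
    ((n = 5 ∧ p = 2) → ((Subgroup.centralizer ((P : Subgroup (alternatingGroup (Fin n))) : Set (alternatingGroup (Fin n)))).subgroupOf (Subgroup.normalizer ((P : Subgroup (alternatingGroup (Fin n))) : Set (alternatingGroup (Fin n))))).index = 3 ∧ IsKleinFour (P : Subgroup (alternatingGroup (Fin n)))) := by
  have hp : p.Prime := Fact.out
  constructor
  · intro hnp
    by_cases hp2 : p = 2
    · subst hp2
      left
      obtain ⟨x, c, hx, hc, hx2⟩ := real_four n (by omega)
      exact Cfsg.Agent.Lib.Helper43.two_dvd_automizer_of_real P hP x c 2 hx hc hx2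
    · by_cases hpn : p + 2 ≤ n
      · left
        obtain ⟨x, c, hx, hc, hx2⟩ := real_pcycle n p hp hp2 hpn
        exact Cfsg.Agent.Lib.Helper43.two_dvd_automizer_of_real P hP x c 1 hx hc hx2
      · right
        exact cyclic_small n hn (by omega) hp2 P
  · rintro ⟨rfl, rfl⟩
    exact case_five P

end Cfsg.Agent.S2269
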