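import Cfsg.Statements.S2270
import Cfsg.Agent.Lib.Helper43.Automizer

set_option autoImplicit false
open Cfsg

namespace Cfsg.Agent.S2270

/-- Let n ≥ 3, p an odd prime, and P an abelian Sylow p-subgroup of the symmetric group S_n (with p dividing n!, so that P ≠ 1). Then N(P)/C(P) has even order. -/
theorem result (n : ℕ) (hn : 3 ≤ n) {p : ℕ} [Fact p.Prime] (hp : p ≠ 2) (hpn : p ≤ n)
    (P : Sylow p (Equiv.Perm (Fin n))) (hP : IsMulCommutative (P : Subgroup (Equiv.Perm (Fin n)))) :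
    2 ∣ ((Subgroup.centralizer ((P : Subgroup (Equiv.Perm (Fin n))) : Set (Equiv.Perm (Fin n)))).subgroupOf (Subgroup.normalizer ((P : Subgroup (Equiv.Perm (Fin n))) : Set (Equiv.Perm (Fin n))))).index := by
  have hpp : p.Prime := Fact.out
  have := hP
  have hdvd : p ∣ Nat.card (Equiv.Perm (Fin n)) := by
    rw [Nat.card_eq_fintype_card, Fintype.card_perm, Fintype.card_fin]
    exact Nat.dvd_factorial hpp.pos hpn
  have hdvdP : p ∣ Nat.card (P : Subgroup (Equiv.Perm (Fin n))) := P.dvd_card_of_dvd_card hdvd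
  obtain ⟨y, hy⟩ := exists_prime_orderOf_dvd_card' p hdvdP
  set x : Equiv.Perm (Fin n) := (y : Equiv.Perm (Fin n)) with hx
  have hxP : x ∈ (P : Subgroup (Equiv.Perm (Fin n))) := y.2
  have hox : orderOf x = p := by rw [hx, Subgroup.orderOf_coe, hy]
  have hconj : IsConj x x⁻¹ := by
    rw [Equiv.Perm.isConj_iff_cycleType_eq, Equiv.Perm.cycleType_inv]
  obtain ⟨c, hc⟩ := isConj_iff.mp hconj
  obtain ⟨m, hm, hmx⟩ := P.conj_eq_normalizer_conj_of_mem x c⁻¹ hxP (by
    rw [inv_inv, hc]; exact inv_mem hxP)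
  rw [inv_inv, hc] at hmx
  refine Cfsg.Agent.Lib.Helper43.two_dvd_automizer_of_inverting _ x m⁻¹ hxP (inv_mem hm)
    (by rw [inv_inv]; exact hmx.symm) ?_
  intro h2
  have h3 : p ∣ 2 := hox ▸ orderOf_dvd_of_pow_eq_one h2
  exact hp ((Nat.prime_dvd_prime_iff_eq hpp Nat.prime_two).mp h3)

end Cfsg.Agent.S2270
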