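import Cfsg.Statements.S2337
import Cfsg.Agent.Lib.Helper44.SuzDegree
import Cfsg.Agent.Lib.Helper8.SzLie
import Cfsg.Agent.Lib.Helper8.SzSimple
import Cfsg.Agent.Lib.Helper8.SzOrder

set_option autoImplicit false
open Cfsg

namespace Cfsg.Agent.S2337

open Cfsg.Agent.Lib.Helper44 Cfsg.Agent.Lib.Helper8 in
/-- For the Suzuki group Sz(q), q = 2^(2m+1) with m ≥ 1 (realised inside Sp₄ over the field with q elements), every irreducible complex representation of degree at least 2 has degree at least 2^m·(q − 1). -/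
theorem result {F : Type*} [Field F] [Fintype F] (m : ℕ) (hm : 1 ≤ m) (hF : Fintype.card F = 2 ^ (2 * m + 1)) :
    (∀ (k : ℕ) (ρ : Representation ℂ (Cfsg.Lie.Sz F (2 ^ (m + 1))) (Fin k → ℂ)), ρ.IsIrreducible → 2 ≤ k → 2 ^ m * (2 ^ (2 * m + 1) - 1) ≤ k) := by
  intro k ρ hρ hk
  have hchar : CharP F 2 := charP_two_of_card hF
  have hirr0 : IsIrrCharacter (Cfsg.Lie.Sz F (2 ^ (m + 1))) ρ.character := ⟨k, ρ, hρ, rfl⟩
  have hirr : IsIrrCharacter (Cfsg.Sz F m) (fun g => ρ.character ((lieSzEquiv hF hm).toMonoidHom g)) :=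
    Cfsg.Agent.Lib.Helper82.isIrr_comp_surj hirr0 (lieSzEquiv hF hm).toMonoidHom (lieSzEquiv hF hm).surjective
  set χ : Cfsg.Sz F m → ℂ := fun g => ρ.character ((lieSzEquiv hF hm).toMonoidHom g) with hχdef
  have hch := Cfsg.Agent.Lib.Helper82.isIrr_isChar hirr
  have hdeg : χ 1 = k := by
    simp only [hχdef, map_one, Representation.char_one]
    simp
  have hfin : Finite (Cfsg.Sz F m) := by
    classical
    infer_instance
  have hnt : ∃ b, χ ((QG hF).subtype ⟨tG hF 0 b, tG_mem_QG hF 0 b⟩) ≠ χ 1 := by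
    refine ⟨1, ?_⟩
    intro h
    have hmem : tG hF 0 1 ∈ Cfsg.Agent.Lib.Helper82.charKer χ hch := h
    have hsimple := Sz_simple hF hm
    rcases hsimple.eq_bot_or_eq_top_of_normal (Cfsg.Agent.Lib.Helper82.charKer χ hch) inferInstance with hb | ht
    · rw [hb, Subgroup.mem_bot, ← tG_zero hF] at hmem
      exact one_ne_zero (tG_injective hF hmem).2
    · have h1 : χ 1 = 1 := by
        rw [Cfsg.Agent.Lib.Helper82.isIrr_linear_iff hirr]
        intro x _
        have : x ∈ Cfsg.Agent.Lib.Helper82.charKer χ hch := by rw [ht]; trivial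
        exact this
      rw [hdeg] at h1
      have : k = 1 := by exact_mod_cast h1
      omega
  refine suz_degree_bound hF (QG hF).subtype (fun a b => ⟨tG hF a b, tG_mem_QG hF a b⟩) ?_ (th m) (th_apply m)
    (th_th hF) ?_ (dG hF) ?_ hch hnt hdeg
  · constructor
    · rintro ⟨a, b⟩ ⟨c, d⟩ h
      have h1 := congrArg Subtype.val h
      obtain ⟨e1, e2⟩ := tG_injective hF h1
      simp only at e1 e2
      rw [e1, e2]
    · rintro ⟨g, a, b, rfl⟩
      exact ⟨(a, b), rfl⟩
  · intro a b c d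
    apply Subtype.ext
    exact tG_mul hF a b c d
  · intro k a b
    exact dG_tG hF k a b

end Cfsg.Agent.S2337
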