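import Cfsg.Statements.S2343
import Cfsg.Agent.Lib.Helper8.ReeDeg2
import Cfsg.Agent.Lib.Helper8.ReeInst

set_option autoImplicit false
open Cfsg

namespace Cfsg.Agent.S2343

/-- For the Ree group ²G₂(q), q = 3^(2m+1) with m ≥ 1 (realised over the field with q elements), every irreducible complex representation of degree at least 2 has degree at least q² − q + 1. -/
theorem result {K : Type*} [Field K] [Fintype K] (m : ℕ) (hm : 1 ≤ m) (hK : Fintype.card K = 3 ^ (2 * m + 1)) :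
    (∀ (k : ℕ) (ρ : Representation ℂ (Cfsg.Lie.twistedG2 K (3 ^ m)) (Fin k → ℂ)), ρ.IsIrreducible → 2 ≤ k → (3 ^ (2 * m + 1)) ^ 2 - 3 ^ (2 * m + 1) + 1 ≤ k) := by
  intro k ρ hρ hk
  have : CharP K 3 := Cfsg.Agent.Lib.Helper22.charP_of_card_pow Nat.prime_three hK
  have b := Cfsg.Agent.Lib.Helper23.bundle_of_mem K (D := Cfsg.Lie.chevG2) (by simp)
  obtain ⟨α, hα⟩ := Cfsg.Agent.Lib.Helper22.exists_isogG2 (Cfsg.Agent.Lib.Helper22.cube_surj hK) b.hA
  obtain ⟨t₀, ht₀⟩ := Cfsg.Agent.Lib.Helper8.exists_reePs_ne hK hm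
  have h := (Cfsg.Agent.Lib.Helper8.reeData hK b α hα t₀ ht₀).min_degree
    (Cfsg.Agent.Lib.Helper22.ree_simple hK b α hα hm).1 (Cfsg.Agent.Lib.Helper22.ree_perfect hK b α hα hm)
    (by rw [hK]; exact Cfsg.Agent.Lib.Helper22.three_pow_mod_four m) ρ hρ hk
  rwa [hK] at h

end Cfsg.Agent.S2343
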