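import Cfsg.Statements.S2354
import Cfsg.Agent.Lib.Helper44.WordGroup
import Cfsg.Agent.Lib.Helper8.SzLie

set_option autoImplicit false
open Cfsg

namespace Cfsg.Agent.S2354

open Cfsg.Agent.Lib.Helper44 Cfsg.Agent.Lib.Helper8 Polynomial Matrix

variable {F : Type*} [Field F]

/-- the polynomial torus -/
noncomputable def polyD (m : ℕ) (b : Bool) : Matrix (Fin 4) (Fin 4) F[X] :=
  if b then !![X ^ (2 * (1 + 2 ^ m)), 0, 0, 0; 0, X ^ (1 + 2 ^ m + 2 ^ m), 0, 0; 0, 0, X, 0; 0, 0, 0, 1]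
  else !![1, 0, 0, 0; 0, X, 0, 0; 0, 0, X ^ (1 + 2 ^ m + 2 ^ m), 0; 0, 0, 0, X ^ (2 * (1 + 2 ^ m))]

def rIdx (b : Bool) : Fin 4 := if b then 0 else 3

theorem polyD_deg (m : ℕ) (b : Bool) : DegLE (polyD (F := F) m b) (2 * (1 + 2 ^ m)) := by
  have h1 : 1 + 2 ^ m + 2 ^ m ≤ 2 * (1 + 2 ^ m) := by omega
  have h2 : 1 ≤ 2 * (1 + 2 ^ m) := by generalize 2 ^ m = t; omega
  intro i j
  cases b <;> fin_cases i <;> fin_cases j <;> simp [polyD, h1, h2]

theorem polyD_top (m : ℕ) (b : Bool) :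
    topC (polyD (F := F) m b) (2 * (1 + 2 ^ m)) = Matrix.single (rIdx b) (rIdx b) 1 := by
  have h1 : 2 * (1 + 2 ^ m) ≠ 1 + 2 ^ m + 2 ^ m := by omega
  have h2 : 2 * (1 + 2 ^ m) ≠ 1 := by generalize 2 ^ m = t; omega
  have h3 : 2 * (1 + 2 ^ m) ≠ 0 := by generalize 2 ^ m = t; omega
  ext i j
  cases b <;> fin_cases i <;> fin_cases j <;>
    simp [polyD, topC, rIdx, coeff_one, coeff_X, coeff_X_pow, h1, h3, h2.symm]

section
variable [CharP F 2]

noncomputable def torD (m : ℕ) (b : Bool) (k : F) : Matrix (Fin 4) (Fin 4) F :=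
  if b then Dmat m k else Dmat m k⁻¹

theorem polyD_eval (m : ℕ) (b : Bool) (k : F) (hk : k ≠ 0) :
    (evalRingHom k).mapMatrix (polyD m b) = (k ^ (1 + 2 ^ m)) • torD m b k := by
  ext i j
  cases b <;> fin_cases i <;> fin_cases j <;> simp [polyD, torD, Dmat, rh_apply] <;> field_simp <;> ring

/-- the transition matrices -/
noncomputable def cM (m : ℕ) (β : F) : Matrix (Fin 4) (Fin 4) F :=
  Tmat m 0 1 * Wmat * Tmat m 0 β * Wmat * Tmat m 0 1

theorem corner (m : ℕ) (β : F) :
    cM m β 0 0 = 1 + β + th m β ∧ cM m β 0 3 = th m β ∧ cM m β 3 0 = th m β ∧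
      cM m β 3 3 = 1 + β + th m β := by
  have h2 : (2 : F) = 0 := CharTwo.two_eq_zero
  refine ⟨?_, ?_, ?_, ?_⟩ <;>
    simp [cM, Tmat, Wmat, Matrix.mul_apply, Fin.sum_univ_four, fS_eq] <;> grind

theorem corner_ne [Fintype F] {m : ℕ} (hF : Fintype.card F = 2 ^ (2 * m + 1)) (β : F) (hβ : β ≠ 0)
    (b b' : Bool) : cM m β (rIdx b) (rIdx b') ≠ 0 := by
  obtain ⟨h00, h03, h30, h33⟩ := corner m β
  have h2 : (2 : F) = 0 := CharTwo.two_eq_zero
  have e1 : th m β ≠ 0 := by simpa using hβ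
  have e2 : 1 + β + th m β ≠ 0 := by
    intro h
    have h1 : th m β = 1 + β := by grind
    have h3 := th_th hF β
    rw [h1, map_add, map_one, h1] at h3
    have h4 : β * (β + 1) = 0 := by grind
    rcases mul_eq_zero.1 h4 with h5 | h5
    · exact hβ h5
    · have h6 : β = 1 := by grind
      rw [h6, map_one] at h1
      have : (1 : F) = 0 := by grind
      exact one_ne_zero this
  cases b <;> cases b' <;> simp only [rIdx, if_true, if_false, Bool.false_eq_true]
  · rw [h33]; exact e2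
  · rw [h30]; exact e1
  · rw [h03]; exact e1
  · rw [h00]; exact e2

/-- the inclusion of the Suzuki group into matrices -/
def szCoe (m : ℕ) : Cfsg.Sz F m →* Matrix (Fin 4) (Fin 4) F where
  toFun A := A.1.1
  map_one' := rfl
  map_mul' _ _ := rfl

end

theorem arith (t l : ℕ) (h : 2 * l + 2 ≤ t) : 2 * (1 + t) * l < 2 * (t * t) - 1 := by
  have h1 : 2 * (1 + t) * l + 1 < 2 * (t * t) := by nlinarith
  omega

/-- A non-trivial law holds in only finitely many Suzuki groups: for every non-trivial element w of the free group on countably many generators there is N such that for q = 2^(2m+1) with m ≥ N some substitution of elements of the Suzuki group over the field with q elements into w is not the identity. -/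
theorem result (w : FreeGroup ℕ) (hw : w ≠ 1) :
    ∃ N : ℕ, ∀ (F : Type*) [Field F] [Fintype F] (m : ℕ), 1 ≤ m → N ≤ m →
      Fintype.card F = 2 ^ (2 * m + 1) →
      ∃ f : ℕ → ↥(Cfsg.Lie.Sz F (2 ^ (m + 1))), FreeGroup.lift f w ≠ 1 := by
  classical
  obtain ⟨n₀, hn₀⟩ := exists_letter_bound w.toWord
  refine ⟨2 * w.toWord.length + 2 + n₀, ?_⟩
  intro F _ _ m hm hN hF
  have : CharP F 2 := charP_two_of_card hF
  obtain ⟨pt, hpt⟩ := exists_points F
  have hL : w.toWord ≠ [] := fun h => hw (FreeGroup.toWord_eq_nil_iff.1 h)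
  have hmq : m < 2 ^ m := Nat.lt_two_pow_self
  have hq2 : Fintype.card F = 2 * (2 ^ m * 2 ^ m) := by rw [hF]; ring
  have hq3 : 2 ^ m ≤ Fintype.card F := by rw [hq2]; nlinarith
  let G : ℕ → Cfsg.Sz F m := fun i => tG hF 0 (pt i) * wG hF * tG hF 0 1
  have hGG : ∀ i j, szCoe m ((G i)⁻¹ * G j) = cM m (pt i + pt j) := by
    intro i j
    have e : (G i)⁻¹ * G j = tG hF 0 1 * wG hF * tG hF 0 (pt i + pt j) * wG hF * tG hF 0 1 := by
      simp only [G, _root_.mul_inv_rev, tG_inv, wG_inv, zero_mul, add_zero]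
      have e2 := tG_mul hF 0 (pt i) 0 (pt j)
      simp only [mul_zero, add_zero] at e2
      rw [← e2]
      simp only [mul_assoc]
    rw [e]
    rfl
  obtain ⟨k, hk⟩ := exists_nonscalar_conj_torus rIdx (by decide) (polyD m) (2 * (1 + 2 ^ m))
    (polyD_deg m) (polyD_top m) (torD m)
    (fun _ k => k ^ (1 + 2 ^ m)) (polyD_eval m) (fun i => szCoe m (G i)) (fun i => szCoe m (G i)⁻¹)
    (fun i => by rw [← map_mul, inv_mul_cancel, map_one])
    w.toWord hL FreeGroup.isReduced_toWord (by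
      intro a ha b hb hab
      have h1 := hn₀ a ha
      have h2 := hn₀ b hb
      rw [← map_mul, hGG]
      apply corner_ne hF
      intro h0
      apply hab
      apply hpt _ _ (by omega) (by omega)
      exact CharTwo.add_eq_zero.1 h0) (by
      rw [hq2]
      exact arith _ _ (by omega))
  let f' : ℕ → Cfsg.Sz F m := fun i => G i * dG hF k * (G i)⁻¹
  refine ⟨fun i => (lieSzEquiv hF hm).toMonoidHom (f' i), ?_⟩
  rw [← map_freeGroup_lift]
  intro h1
  have h2 : FreeGroup.lift f' w = 1 := by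
    apply (lieSzEquiv hF hm).injective
    rw [map_one]
    exact h1
  have h3 := lift_word_eq (szCoe m) f'
    (fun ℓ => szCoe m (G ℓ.1) * torD m ℓ.2 (k : F) * szCoe m (G ℓ.1)⁻¹) (fun i => rfl) (by
      intro i
      have e1 : torD m true (k : F) = szCoe m (dG hF k) := rfl
      have e2 : torD m false (k : F) = szCoe m (dG hF k⁻¹) := by
        show Dmat m (k : F)⁻¹ = Dmat m ((k⁻¹ : Fˣ) : F)
        rw [Units.val_inv_eq_inv_val]
      simp only [e1, e2, ← map_mul]
      rw [← map_one (szCoe m)]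
      congr 1
      rw [← dG_inv]
      group) w
  apply hk 1
  rw [← h3, h2, map_one, one_smul]

end Cfsg.Agent.S2354
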