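import Cfsg.Statements.S2355
import Cfsg.Agent.Lib.Helper44.LawBounds

set_option autoImplicit false
open Cfsg

namespace Cfsg.Agent.S2355

open Cfsg.Agent.Lib.Helper44 Matrix

theorem claw_of {w : FreeGroup ℕ} {G H : Type*} [Group G] [Group H]
    (e : G ≃* H ⧸ Subgroup.center H) (hlaw : ∀ f : ℕ → G, FreeGroup.lift f w = 1) : CLaw w H :=
  claw_of_law_quotient (law_of_mulEquiv e hlaw)

theorem card_of {G H : Type*} [Group G] [Group H] (e : G ≃* H ⧸ Subgroup.center H)
    {ι : Type*} [Fintype ι] [DecidableEq ι] {F : Type*}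
    [Field F] [Fintype F] (φ : H → Matrix ι ι F) (hφ : Function.Injective φ)
    (d Q : ℕ) (hd : Fintype.card ι ≤ d) (hQ : Fintype.card F ≤ Q) :
    Nat.card G ≤ Q ^ (d * d) := by
  rw [Nat.card_congr e.toEquiv]
  exact card_quot_le φ hφ _ d Q hd hQ

/-- the inclusion of Omega into matrices -/
def omCoe {ι : Type} [Fintype ι] [DecidableEq ι] (F : Type) [Field F] (Q : (ι → F) → F)
    (x : Cfsg.Omega F Q) : Matrix ι ι F := ((x.1.1 : GL ι F) : Matrix ι ι F)

theorem omCoe_injective {ι : Type} [Fintype ι] [DecidableEq ι] (F : Type) [Field F]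
    (Q : (ι → F) → F) : Function.Injective (omCoe F Q) :=
  fun _ _ h => Subtype.ext (Subtype.ext (Units.ext h))

/-- A non-trivial law is satisfied by only finitely many finite simple groups that are alternating or classical, up to isomorphism: for every non-trivial element w of the free group on countably many generators there is a bound N such that every alternating group of degree ≥ 5 and every simple classical group (linear, symplectic, unitary or orthogonal, in this problem's sense) in which w is a law has order at most N. -/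
theorem result (w : FreeGroup ℕ) (hw : w ≠ 1) :
    ∃ N : ℕ, ∀ (G : Type*) [Group G] [Finite G],
      (Cfsg.IsAlternating G ∨ Cfsg.IsPSL G ∨ Cfsg.IsPSp G ∨ Cfsg.IsPSU G ∨ Cfsg.IsPOmegaOdd G ∨
          Cfsg.IsPOmegaPlus G ∨ Cfsg.IsPOmegaMinus G) →
      (∀ f : ℕ → G, FreeGroup.lift f w = 1) → Nat.card G ≤ N := by
  obtain ⟨N₁, h1⟩ := not_claw_SL2.{0} w hw
  obtain ⟨N₂, h2⟩ := not_claw_alt w hw
  obtain ⟨N₃, h3⟩ := not_claw_SU2.{0} w hw
  obtain ⟨Q, hQ⟩ : ∃ Q, Q = max (max N₁ 4) (N₃ ^ 2) := ⟨_, rfl⟩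
  obtain ⟨d, hd⟩ : ∃ d, d = 2 * max N₂ 5 + 2 := ⟨_, rfl⟩
  have hQ1 : max N₁ 4 ≤ Q := hQ ▸ le_max_left _ _
  have hQ2 : N₃ ^ 2 ≤ Q := hQ ▸ le_max_right _ _
  have hQ3 : N₁ ≤ Q := le_trans (le_max_left _ _) hQ1
  have hd1 : N₂ ≤ max N₂ 5 := le_max_left _ _
  refine ⟨max (Q ^ (d * d)) N₂.factorial, ?_⟩
  intro G _ _ hG hlaw
  rcases hG with ⟨n, hn, ⟨e⟩⟩ | ⟨F, _, _, n, hn, -, ⟨e⟩⟩ | ⟨F, _, _, n, hn, -, ⟨e⟩⟩ |
    ⟨F, _, _, n, q, hF, hn, -, ⟨e⟩⟩ | ⟨F, _, _, n, hn, -, ⟨e⟩⟩ | ⟨F, _, _, n, hn, ⟨e⟩⟩ |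
    ⟨F, _, _, n, a, b, hn, -, ⟨e⟩⟩
  · refine le_trans ?_ (le_max_right _ _)
    have hc : CLaw w (alternatingGroup (Fin n)) := by
      intro f
      rw [law_of_mulEquiv e hlaw f]
      exact one_mem _
    have hlt : n < N₂ := by
      by_contra hcon
      exact h2 n (not_lt.1 hcon) hc
    rw [Nat.card_congr e.toEquiv]
    calc Nat.card (alternatingGroup (Fin n)) ≤ Nat.card (Equiv.Perm (Fin n)) :=
          Subgroup.card_le_card_group _
      _ = n.factorial := by rw [Nat.card_eq_fintype_card, Fintype.card_perm, Fintype.card_fin]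
      _ ≤ N₂.factorial := Nat.factorial_le hlt.le
  · refine le_trans ?_ (le_max_left _ _)
    obtain ⟨b1, b2⟩ := sl_bound w N₁ N₂ h1 h2 F n hn (claw_of e hlaw)
    exact card_of e (slCoeHom (Fin n) F) (slCoeHom_injective _ _) d Q
      (by rw [Fintype.card_fin]; omega) (by omega)
  · refine le_trans ?_ (le_max_left _ _)
    obtain ⟨b1, b2⟩ := sp_bound w N₁ N₂ h1 h2 F n hn (claw_of e hlaw)
    exact card_of e Subtype.val Subtype.val_injective d Q
      (by rw [Fintype.card_sum, Fintype.card_fin]; omega) (by omega)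
  · refine le_trans ?_ (le_max_left _ _)
    obtain ⟨b1, b2⟩ := su_bound w N₂ N₃ h2 h3 F n q hF (by omega) (claw_of e hlaw)
    exact card_of e (suCoe n q F) (suCoe_injective _ _ _) d Q
      (by rw [Fintype.card_fin]; omega)
      (by rw [hF]; exact le_trans (Nat.pow_le_pow_left b1.le 2) hQ2)
  · refine le_trans ?_ (le_max_left _ _)
    obtain ⟨b1, b2⟩ := omega_bound w N₁ N₂ h1 h2 F (Cfsg.quadFormOdd n F) n (by omega)
      (fun K _ ρ => padL Unit (hypHom ρ))
      (fun K _ ρ h => padL_injective _ (hypHom_injective ρ h))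
      (fun K _ ρ k v => quadOdd_inv ρ k v) (claw_of e hlaw)
    exact card_of e (omCoe F _) (omCoe_injective F _) d Q
      (by simp only [Fintype.card_sum, Fintype.card_fin, Fintype.card_unit]; omega) (by omega)
  · refine le_trans ?_ (le_max_left _ _)
    obtain ⟨b1, b2⟩ := omega_bound w N₁ N₂ h1 h2 F (Cfsg.quadFormPlus n F) n (by omega)
      (fun K _ ρ => hypHom ρ)
      (fun K _ ρ h => hypHom_injective ρ h)
      (fun K _ ρ k v => quadPlus_inv ρ k v) (claw_of e hlaw)
    exact card_of e (omCoe F _) (omCoe_injective F _) d Q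
      (by simp only [Fintype.card_sum, Fintype.card_fin]; omega) (by omega)
  · refine le_trans ?_ (le_max_left _ _)
    obtain ⟨b1, b2⟩ := omega_bound w N₁ N₂ h1 h2 F (Cfsg.quadFormMinus (n - 1) F a b) (n - 1)
      (by omega)
      (fun K _ ρ => padR (Fin 2) (hypHom ρ))
      (fun K _ ρ h => padR_injective _ (hypHom_injective ρ h))
      (fun K _ ρ k v => quadMinus_inv a b ρ k v) (claw_of e hlaw)
    exact card_of e (omCoe F _) (omCoe_injective F _) d Q
      (by simp only [Fintype.card_sum, Fintype.card_fin]; omega) (by omega)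

end Cfsg.Agent.S2355
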