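import Cfsg.Statements.S2381
import Cfsg.Agent.Lib.Helper48.SylSp

set_option autoImplicit false
open Cfsg

namespace Cfsg.Agent.S2381

/-- Sylow subgroups of `Sp_{2n}(q)` for large primes. Let `F` be a field with `q` elements and `r` an odd prime with `r > n` and `r ∤ q` (so `r` does not divide the order `2^n n!` of the Weyl group). Let `d` be the multiplicative order of `q` modulo `r`, `a` the number of `i` with `1 ≤ i ≤ n` and `d ∣ 2i` (the degrees being `2, 4, …, 2n`), and `m` the `r`-part of the value at `q` of the `d`-th cyclotomic polynomial. Then every Sylow `r`-subgroup of the symplectic group `Sp_{2n}(q)` is a direct product of `a` cyclic groups of order `m`. -/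
theorem result {F : Type*} [Field F] [Fintype F] {q : ℕ} (hq : Fintype.card F = q) (n : ℕ)
    (r : ℕ) [Fact r.Prime] (hr2 : r ≠ 2) (hrn : n < r) (hrq : ¬ r ∣ q) (P : Sylow r ↥(Matrix.symplecticGroup (Fin n) F)) :
    Nonempty (↥(P : Subgroup ↥(Matrix.symplecticGroup (Fin n) F)) ≃*
      (Fin ((Finset.Icc 1 n).filter (fun i => orderOf (q : ZMod r) ∣ 2 * i)).card →
        Multiplicative (ZMod (r ^ padicValNat r ((Polynomial.cyclotomic (orderOf (q : ZMod r)) ℤ).eval (q : ℤ)).natAbs)))) := by
  classical
  have hr : r.Prime := Fact.out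
  obtain rfl : q = Nat.card F := by rw [Nat.card_eq_fintype_card, hq]
  have hq2 : 2 ≤ Nat.card F := Cfsg.Agent.Lib.Helper48.two_le_card_field (F := F)
  rw [Cfsg.Agent.Lib.Helper48.factorization_cyclotomic hq2 hrq]
  have hd0 : 0 < orderOf (Nat.card F : ZMod r) :=
    Cfsg.Agent.Lib.Helper48.orderOf_pos_of_not_dvd hrq
  have hSp : (Nat.card ↥(Matrix.symplecticGroup (Fin n) F)).factorization r =
      ((Finset.Icc 1 n).filter (fun i => orderOf (Nat.card F : ZMod r) ∣ 2 * i)).card *
        (Nat.card F ^ orderOf (Nat.card F : ZMod r) - 1).factorization r := by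
    rw [Cfsg.Agent.S0245.result hq n]
    exact Cfsg.Agent.Lib.Helper48.factorization_card_Sp hq2 hrq hr2 n hrn
  rcases Nat.even_or_odd (orderOf (Nat.card F : ZMod r)) with hev | hodd
  · rw [Cfsg.Agent.Lib.Helper48.card_filter_of_even n _ hd0 hev] at hSp ⊢
    have hlt : (n + n) / orderOf (Nat.card F : ZMod r) < r := by
      have h2 : 2 ≤ orderOf (Nat.card F : ZMod r) := by
        obtain ⟨e, he⟩ := hev
        omega
      calc (n + n) / orderOf (Nat.card F : ZMod r) ≤ (n + n) / 2 := Nat.div_le_div_left h2 (by norm_num)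
        _ = n := by omega
        _ < r := hrn
    let ψ : ↥(Matrix.symplecticGroup (Fin n) F) →* GL (Fin (n + n)) F :=
      (Units.mapEquiv (Matrix.reindexAlgEquiv F F (finSumFinEquiv (m := n) (n := n))).toMulEquiv).toMonoidHom.comp
        (Matrix.symplecticGroup (Fin n) F).subtype.toHomUnits
    have hψ : Function.Injective ψ := by
      intro a b hab
      have h1 := (Units.mapEquiv (Matrix.reindexAlgEquiv F F
        (finSumFinEquiv (m := n) (n := n))).toMulEquiv).injective hab
      have h2 := congrArg Units.val h1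
      exact Subtype.ext h2
    have hP : Nat.card ((P : Subgroup ↥(Matrix.symplecticGroup (Fin n) F)).map ψ) =
        r ^ (Nat.card (GL (Fin (n + n)) F)).factorization r := by
      rw [Cfsg.Agent.Lib.Helper48.card_GL_factorization (n + n) r hrq hlt, ← hSp,
        ← Sylow.card_eq_multiplicity P]
      exact (Nat.card_congr (Subgroup.equivMapOfInjective _ ψ hψ).toEquiv).symm
    obtain ⟨ε⟩ := Cfsg.Agent.Lib.Helper48.sylow_GL_homocyclic (n + n) r hrq hlt (Sylow.ofCard _ hP)
    exact ⟨(Subgroup.equivMapOfInjective _ ψ hψ).trans ε⟩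
  · rw [Cfsg.Agent.Lib.Helper48.card_filter_of_odd n _ hodd] at hSp ⊢
    obtain ⟨θ, hθ⟩ := Cfsg.Agent.Lib.Helper48.exists_injective_homocyclic_GL (F := F) n r hrq
    refine Cfsg.Agent.Lib.Helper48.sylow_mulEquiv_of_injective r
      (Cfsg.Agent.Lib.Helper44.spHom ((Units.coeHom _).comp θ))
      (Cfsg.Agent.Lib.Helper44.spHom_injective _ (fun a b hab => hθ (Units.ext hab))) ?_ P
    rw [Cfsg.Agent.Lib.Helper48.card_homocyclic, hSp, ← pow_mul, mul_comm]

end Cfsg.Agent.S2381
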