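import Cfsg.Statements.S2394
import Cfsg.Agent.S0245
import Cfsg.Agent.S2904

set_option autoImplicit false
open scoped MatrixGroups
open Cfsg

namespace Cfsg.Agent.S2394

/-- The smallest degree of a faithful representation of the symplectic group `Sp_{2n}(q)` over its own field `F_q` is `2n`: every injective homomorphism from `Sp_{2n}(F)` to `GL_d(F)`, `F` the field with `q` elements, has `d ≥ 2n`. -/
theorem result {F : Type*} [Field F] [Fintype F] (n : ℕ) {d : ℕ}
    (ρ : ↥(Matrix.symplecticGroup (Fin n) F) →* GL (Fin d) F) (hρ : Function.Injective ρ) : 2 * n ≤ d := by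
  classical
  by_contra hlt
  push Not at hlt
  have hq : 1 < Fintype.card F := Fintype.one_lt_card
  have hdvd : Nat.card ↥(Matrix.symplecticGroup (Fin n) F) ∣ Nat.card (GL (Fin d) F) :=
    Subgroup.card_dvd_of_injective ρ hρ
  rw [Cfsg.Agent.S0245.result rfl n, Matrix.card_GL_field] at hdvd
  generalize hqq : Fintype.card F = q at hdvd hq
  rcases Nat.lt_or_ge n 2 with hn | hn
  · -- `n = 1`
    have hn1 : n = 1 := by omega
    subst hn1
    have hcomm : ∀ A B : GL (Fin d) F, A * B = B * A := by
      intro A B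
      have hd : d = 0 ∨ d = 1 := by omega
      rcases hd with rfl | rfl
      · exact Subsingleton.elim _ _
      · apply Units.ext
        ext i j
        simp only [Units.val_mul, Matrix.mul_apply, Finset.univ_unique, Finset.sum_singleton]
        have hi : i = default := Subsingleton.elim _ _
        have hj : j = default := Subsingleton.elim _ _
        rw [hi, hj, mul_comm]
    have hA : (Matrix.fromBlocks 1 1 0 1 : Matrix (Fin 1 ⊕ Fin 1) (Fin 1 ⊕ Fin 1) F) ∈
        Matrix.symplecticGroup (Fin 1) F := by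
      rw [SymplecticGroup.mem_iff, Matrix.J, Matrix.fromBlocks_transpose,
        Matrix.fromBlocks_multiply, Matrix.fromBlocks_multiply]
      simp
    have hB : (Matrix.fromBlocks 1 0 1 1 : Matrix (Fin 1 ⊕ Fin 1) (Fin 1 ⊕ Fin 1) F) ∈
        Matrix.symplecticGroup (Fin 1) F := by
      rw [SymplecticGroup.mem_iff, Matrix.J, Matrix.fromBlocks_transpose,
        Matrix.fromBlocks_multiply, Matrix.fromBlocks_multiply]
      simp
    have h := hcomm (ρ ⟨_, hA⟩) (ρ ⟨_, hB⟩)
    rw [← map_mul, ← map_mul] at h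
    have h' := congrArg (fun X : ↥(Matrix.symplecticGroup (Fin 1) F) =>
      (X : Matrix (Fin 1 ⊕ Fin 1) (Fin 1 ⊕ Fin 1) F) (Sum.inl 0) (Sum.inl 0)) (hρ h)
    simp [Matrix.fromBlocks_multiply] at h'
  · by_cases h6 : q = 2 ∧ n = 3
    · obtain ⟨rfl, rfl⟩ := h6
      have hd : d ≤ 5 := by omega
      interval_cases d <;>
        norm_num [Finset.prod_range_succ, Fin.prod_univ_succ] at hdvd
    · obtain ⟨r, hr, hr1, hr2⟩ := Cfsg.Agent.S2904.result q (2 * n) hq (by omega)
        (by rintro ⟨h1, h2⟩; exact h6 ⟨h1, by omega⟩) (by rintro ⟨h1, -⟩; omega)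
      have hrq : ¬ r ∣ q := by
        intro h
        have h1 : r ∣ q ^ (2 * n) := dvd_pow h (by omega)
        have h2 : 1 ≤ q ^ (2 * n) := Nat.one_le_pow _ _ (by omega)
        have h3 : r ∣ 1 := by
          have := (Nat.dvd_sub h1 hr1)
          rwa [Nat.sub_sub_self h2] at this
        exact hr.one_lt.ne' (Nat.dvd_one.1 h3)
      have h1 : r ∣ ∏ i : Fin d, (q ^ d - q ^ (i : ℕ)) := by
        refine dvd_trans ?_ hdvd
        apply Dvd.dvd.mul_left
        refine dvd_trans ?_ (Finset.dvd_prod_of_mem _ (Finset.mem_range.2 (show n - 1 < n by omega)))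
        have : 2 * (n - 1 + 1) = 2 * n := by omega
        rw [this]
        exact hr1
      obtain ⟨i, -, hi⟩ := (hr.prime.dvd_finsetProd_iff _).1 h1
      have hid := i.2
      have e : q ^ d - q ^ (i : ℕ) = q ^ (i : ℕ) * (q ^ (d - (i : ℕ)) - 1) := by
        rw [Nat.mul_sub, mul_one, ← pow_add, Nat.add_sub_cancel' hid.le]
      rw [e] at hi
      rcases (hr.dvd_mul).1 hi with h | h
      · exact hrq (hr.dvd_of_dvd_pow h)
      · exact hr2 (d - (i : ℕ)) (by omega) (by omega) h

end Cfsg.Agent.S2394
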