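import Cfsg.Statements.S2400
import Cfsg.Agent.Lib.Helper45.StWA
import Cfsg.Agent.Lib.Helper45.StW9
import Cfsg.Agent.Lib.Helper45.StW6
import Cfsg.Agent.Lib.Helper23.W2L23
import Cfsg.Agent.Lib.Lead.Mil.AxTab
import Cfsg.Agent.Lib.Helper57.MilTABE6
import Cfsg.Agent.Lib.Helper57.MilTABE7

set_option autoImplicit false
open Cfsg

namespace Cfsg.Agent.S2400

/-- a field with more than two elements has an element different from `0` and `1` -/
theorem exists_ne01 {K : Type*} [Field K] [Fintype K] (h : 2 < Fintype.card K) : ∃ x : K, x ≠ 0 ∧ x ≠ 1 := by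
  classical
  have hc : ({0, 1} : Finset K).card < (Finset.univ : Finset K).card := by
    rw [Finset.card_univ]
    exact lt_of_le_of_lt (Finset.card_le_two) h
  obtain ⟨x, -, hx⟩ := Finset.exists_mem_notMem_of_card_lt_card hc
  simp only [Finset.mem_insert, Finset.mem_singleton, not_or] at hx
  exact ⟨x, hx.1, hx.2⟩

/-- Over a finite field `K`, the group presented by Steinberg's relators (R1)–(R3) (the universal Chevalley group) of type E₆ or E₇, or of type B₂ or D₄ with `K` of more than two elements, has trivial Schur multiplier: every finite stem extension of it is an isomorphism (Schur multiplier described through stem extensions as in the definitions). Types G₂, F₄ and E₈ are not covered here. -/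
theorem result {K : Type*} [Field K] [Fintype K] (e : Cfsg.Lie.ChevalleyDatum × ℕ)
    (he : e ∈ [(Cfsg.Lie.chevE6, 0), (Cfsg.Lie.chevE7, 0), (Cfsg.Lie.chevB2, 2), (Cfsg.Lie.chevD4, 2)]) (hK : Fintype.card K ≠ e.2) :
    Cfsg.HasCyclicSchurMultiplier (e.1.SteinbergGroup K) 1 := by
  have h1 : 1 < Fintype.card K := Fintype.one_lt_card
  simp only [List.mem_cons, List.not_mem_nil, or_false] at he
  rcases he with rfl | rfl | rfl | rfl
  · have := Cfsg.Agent.Lib.Helper45.StW.finite_st (K := K) (D := Cfsg.Lie.chevE6) (by simp)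
    exact Cfsg.Agent.Lib.Lead.Mil.st_mult (by simp) Cfsg.Agent.Lib.Lead.Mil.milTab_E6
      (Cfsg.Agent.Lib.Lead.Mil.ax_of_tab Cfsg.Agent.Lib.Lead.Mil.milTab_E6 K)
  · have := Cfsg.Agent.Lib.Helper45.StW.finite_st (K := K) (D := Cfsg.Lie.chevE7) (by simp)
    exact Cfsg.Agent.Lib.Lead.Mil.st_mult (by simp) Cfsg.Agent.Lib.Lead.Mil.milTab_E7
      (Cfsg.Agent.Lib.Lead.Mil.ax_of_tab Cfsg.Agent.Lib.Lead.Mil.milTab_E7 K)
  · have hK2 : Fintype.card K ≠ 2 := hK
    have hA := Cfsg.Agent.Lib.Helper23.addFact_of_mem K (D := Cfsg.Lie.chevB2) (by simp)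
    apply Cfsg.Agent.Lib.Helper45.StW.st_mult_of_lift (D := Cfsg.Lie.chevB2) (by simp)
      (fun _ => exists_ne01 (by omega)) hA
    intro E _ ρ cen lift
    by_cases h5 : 5 ≤ Fintype.card K
    · exact Cfsg.Agent.Lib.Helper23.StP.exists_lift_main (by simp) hA
        (Cfsg.Agent.Lib.Helper23.StP.utabs_of_mem (by simp))
        ⟨Finset.univ, by rw [Finset.card_univ]; omega⟩ ρ cen lift
    · by_cases h3 : Fintype.card K = 3
      · exact Cfsg.Agent.Lib.Helper45.StW.lift_B2_3 h3 hA ρ cen lift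
      · exact Cfsg.Agent.Lib.Helper45.StW.lift_B2_4 (by omega) hA ρ cen lift
  · have hK2 : Fintype.card K ≠ 2 := hK
    have hA := Cfsg.Agent.Lib.Helper23.addFact_of_mem K (D := Cfsg.Lie.chevD4) (by simp)
    apply Cfsg.Agent.Lib.Helper45.StW.st_mult_of_lift (D := Cfsg.Lie.chevD4) (by simp)
      (fun _ => exists_ne01 (by omega)) hA
    intro E _ ρ cen lift
    by_cases h5 : 5 ≤ Fintype.card K
    · exact Cfsg.Agent.Lib.Helper23.StP.exists_lift_main (by simp) hA
        (Cfsg.Agent.Lib.Helper23.StP.utabs_of_mem (by simp))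
        ⟨Finset.univ, by rw [Finset.card_univ]; omega⟩ ρ cen lift
    · by_cases h3 : Fintype.card K = 3
      · exact Cfsg.Agent.Lib.Helper45.StW.lift_D4_3 h3 hA ρ cen lift
      · exact Cfsg.Agent.Lib.Helper45.StW.lift_D4_4 (by omega) hA ρ cen lift

end Cfsg.Agent.S2400
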