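import Cfsg.Statements.S2450
import Cfsg.Agent.Lib.Helper46.SL2Basic

set_option autoImplicit false
open Cfsg
open Cfsg.Agent.Lib.Helper46

namespace Cfsg.Agent.S2450

/-- The Arad–Herzog conjecture for PSL(2,q): let F be a finite field with q ≥ 4 elements. For any two non-identity elements a, b of PSL(2,F), the set of products of a conjugate of a with a conjugate of b is not a single conjugacy class. -/
theorem result {F : Type*} [Field F] [Fintype F] (h4 : 4 ≤ Fintype.card F)
    (a b : Matrix.ProjectiveSpecialLinearGroup (Fin 2) F) (ha : a ≠ 1) (hb : b ≠ 1) (c : Matrix.ProjectiveSpecialLinearGroup (Fin 2) F) :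
    {g : Matrix.ProjectiveSpecialLinearGroup (Fin 2) F | ∃ u v : Matrix.ProjectiveSpecialLinearGroup (Fin 2) F, g = (u * a * u⁻¹) * (v * b * v⁻¹)} ≠ {g | IsConj c g} := by
  intro hset
  obtain ⟨A, rfl⟩ := QuotientGroup.mk_surjective a
  obtain ⟨B, rfl⟩ := QuotientGroup.mk_surjective b
  obtain ⟨C, rfl⟩ := QuotientGroup.mk_surjective c
  have hA : A ∉ Subgroup.center (Matrix.SpecialLinearGroup (Fin 2) F) := by
    intro h; exact ha ((QuotientGroup.eq_one_iff A).2 h)
  have hB : B ∉ Subgroup.center (Matrix.SpecialLinearGroup (Fin 2) F) := by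
    intro h; exact hb ((QuotientGroup.eq_one_iff B).2 h)
  obtain ⟨P, hP⟩ := exists_conj_10_ne_zero A hA
  obtain ⟨Q, hQ⟩ := exists_conj_10_ne_zero B hB
  have key : ∀ x : F, tr ((P * A * P⁻¹) * (uu x * (Q * B * Q⁻¹) * (uu x)⁻¹)) = tr C ∨
      tr ((P * A * P⁻¹) * (uu x * (Q * B * Q⁻¹) * (uu x)⁻¹)) = - tr C := by
    intro x
    apply tr_eq_or_neg_of_isConj
    have hmem : (QuotientGroup.mk ((P * A * P⁻¹) * (uu x * (Q * B * Q⁻¹) * (uu x)⁻¹)) :
        Matrix.ProjectiveSpecialLinearGroup (Fin 2) F) ∈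
        {g : Matrix.ProjectiveSpecialLinearGroup (Fin 2) F |
          ∃ u v : Matrix.ProjectiveSpecialLinearGroup (Fin 2) F,
            g = (u * QuotientGroup.mk A * u⁻¹) * (v * QuotientGroup.mk B * v⁻¹)} := by
      refine ⟨QuotientGroup.mk P, QuotientGroup.mk (uu x * Q), ?_⟩
      simp only [QuotientGroup.mk_mul, QuotientGroup.mk_inv, mul_inv_rev, mul_assoc]
    rw [hset] at hmem
    exact hmem
  generalize P * A * P⁻¹ = A' at hP key
  generalize Q * B * Q⁻¹ = B' at hQ key
  obtain ⟨α, β, γ, hα, htr⟩ : ∃ α β γ : F, α ≠ 0 ∧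
      ∀ x, tr (A' * (uu x * B' * (uu x)⁻¹)) = α * x ^ 2 + β * x + γ := by
    refine ⟨-((A' : Matrix (Fin 2) (Fin 2) F) 1 0 * (B' : Matrix (Fin 2) (Fin 2) F) 1 0),
      (A' : Matrix (Fin 2) (Fin 2) F) 0 0 * (B' : Matrix (Fin 2) (Fin 2) F) 1 0
        + (A' : Matrix (Fin 2) (Fin 2) F) 1 0 * (B' : Matrix (Fin 2) (Fin 2) F) 1 1
        - (A' : Matrix (Fin 2) (Fin 2) F) 1 0 * (B' : Matrix (Fin 2) (Fin 2) F) 0 0
        - (A' : Matrix (Fin 2) (Fin 2) F) 1 1 * (B' : Matrix (Fin 2) (Fin 2) F) 1 0,
      (A' : Matrix (Fin 2) (Fin 2) F) 0 0 * (B' : Matrix (Fin 2) (Fin 2) F) 0 0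
        + (A' : Matrix (Fin 2) (Fin 2) F) 0 1 * (B' : Matrix (Fin 2) (Fin 2) F) 1 0
        + (A' : Matrix (Fin 2) (Fin 2) F) 1 0 * (B' : Matrix (Fin 2) (Fin 2) F) 0 1
        + (A' : Matrix (Fin 2) (Fin 2) F) 1 1 * (B' : Matrix (Fin 2) (Fin 2) F) 1 1,
      neg_ne_zero.2 (mul_ne_zero hP hQ), ?_⟩
    intro x
    simp only [tr, mul_00, mul_01, mul_10, mul_11, inv_00, inv_01, inv_10, inv_11, uu,
      mk2_00, mk2_01, mk2_10, mk2_11]
    ring
  simp only [htr] at key
  generalize tr C = τ at key
  have hdeg : ∀ δ : F, (Polynomial.C α * Polynomial.X ^ 2 + Polynomial.C β * Polynomial.X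
      + Polynomial.C δ).natDegree = 2 := fun δ => Polynomial.natDegree_quadratic hα
  have hne : ∀ δ : F, (Polynomial.C α * Polynomial.X ^ 2 + Polynomial.C β * Polynomial.X
      + Polynomial.C δ) ≠ 0 := by
    intro δ h
    have := hdeg δ
    rw [h] at this
    simp at this
  rcases Nat.lt_or_ge 4 (Fintype.card F) with h5 | h5
  · have hp : (Polynomial.C α * Polynomial.X ^ 2 + Polynomial.C β * Polynomial.X
        + Polynomial.C (γ - τ)) * (Polynomial.C α * Polynomial.X ^ 2 + Polynomial.C β * Polynomial.X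
        + Polynomial.C (γ + τ)) = 0 := by
      apply Polynomial.eq_zero_of_natDegree_lt_card_of_eval_eq_zero' _ Finset.univ
      · intro x _
        simp only [Polynomial.eval_mul, Polynomial.eval_add, Polynomial.eval_C, Polynomial.eval_pow,
          Polynomial.eval_X]
        rcases key x with h | h
        · rw [mul_eq_zero]; left; linear_combination h
        · rw [mul_eq_zero]; right; linear_combination h
      · rw [Polynomial.natDegree_mul (hne _) (hne _), hdeg, hdeg, Finset.card_univ]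
        exact h5
    rcases mul_eq_zero.1 hp with h | h
    · exact hne _ h
    · exact hne _ h
  · have h4' : Fintype.card F = 4 := le_antisymm h5 h4
    have h2 : (2 : F) = 0 := by
      have h := Nat.cast_card_eq_zero F
      rw [h4'] at h
      have h' : (2 : F) ^ 2 = 0 := by
        push_cast at h
        linear_combination h
      exact pow_eq_zero_iff (two_ne_zero) |>.1 h'
    have hp : (Polynomial.C α * Polynomial.X ^ 2 + Polynomial.C β * Polynomial.X
        + Polynomial.C (γ - τ)) = 0 := by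
      apply Polynomial.eq_zero_of_natDegree_lt_card_of_eval_eq_zero' _ Finset.univ
      · intro x _
        simp only [Polynomial.eval_add, Polynomial.eval_mul, Polynomial.eval_C, Polynomial.eval_pow,
          Polynomial.eval_X]
        rcases key x with h | h
        · linear_combination h
        · linear_combination h - τ * h2
      · rw [hdeg, Finset.card_univ, h4']
        norm_num
    exact hne _ hp

end Cfsg.Agent.S2450
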