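import Cfsg.Statements.S2455
import Cfsg.Agent.Lib.Helper46.SL2Order

set_option autoImplicit false
open Cfsg
open Cfsg.Agent.Lib.Helper46

namespace Cfsg.Agent.S2455

/-- A strong covering result in the direction of Thompson's conjecture (non-identity elements) for PSL(2,q), q odd: let F be a finite field of odd characteristic p with at least 5 elements and let x ∈ PSL(2,F) have order greater than 2 and not divisible by p (so x is not unipotent). Then every non-identity element of PSL(2,F) is a product of two conjugates of x. -/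
theorem result {F : Type*} [Field F] [Fintype F] (p : ℕ) [Fact p.Prime] [CharP F p] (hp : p ≠ 2) (h5 : 5 ≤ Fintype.card F)
    (x : Matrix.ProjectiveSpecialLinearGroup (Fin 2) F) (hx2 : 2 < orderOf x) (hxp : ¬ p ∣ orderOf x) : ∀ g : Matrix.ProjectiveSpecialLinearGroup (Fin 2) F, g ≠ 1 → ∃ u v : Matrix.ProjectiveSpecialLinearGroup (Fin 2) F, g = (u * x * u⁻¹) * (v * x * v⁻¹) := by
  obtain ⟨X, rfl⟩ := QuotientGroup.mk_surjective x
  have hodd : Fintype.card F % 2 = 1 :=
    FiniteField.odd_card_of_char_ne_two (by rw [ringChar.eq F p]; exact hp)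
  have hs0 : tr X ≠ 0 := by
    intro h
    have h1 : (QuotientGroup.mk X : Matrix.ProjectiveSpecialLinearGroup (Fin 2) F) ^ 2 = 1 := by
      rw [pow_two, ← QuotientGroup.mk_mul, sq_of_tr_zero X h]
      exact (QuotientGroup.eq_one_iff _).2 negOne_mem_center
    have := Nat.le_of_dvd (by norm_num) (orderOf_dvd_of_pow_eq_one h1)
    omega
  have hs4 : tr X ^ 2 ≠ 4 := by
    intro h
    have h1 : (QuotientGroup.mk X : Matrix.ProjectiveSpecialLinearGroup (Fin 2) F) ^ p = 1 := by
      rw [← QuotientGroup.mk_pow]
      exact (QuotientGroup.eq_one_iff _).2 (pow_char_mem_center p X h)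
    rcases (Nat.dvd_prime (Fact.out : p.Prime)).1 (orderOf_dvd_of_pow_eq_one h1) with h2 | h2
    · omega
    · exact hxp (h2 ▸ dvd_refl _)
  exact prod2_of_nf (repAll_of_odd hodd _ hs4) hs4 X rfl
    (fun c t hc => solve_odd hodd _ hs0 c t hc)

end Cfsg.Agent.S2455
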