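import Cfsg.Statements.S2456
import Cfsg.Agent.Lib.Helper46.SL2Order

set_option autoImplicit false
open Cfsg
open Cfsg.Agent.Lib.Helper46

namespace Cfsg.Agent.S2456

/-- A strong covering result in the direction of Thompson's conjecture (non-identity elements) for PSL(2,q), q even: let F be a finite field of characteristic 2 with q ≥ 4 elements and let x ∈ PSL(2,F) have order greater than 2 and not dividing q + 1. Then every non-identity element of PSL(2,F) is a product of two conjugates of x. -/
theorem result {F : Type*} [Field F] [Fintype F] [CharP F 2] (h4 : 4 ≤ Fintype.card F)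
    (x : Matrix.ProjectiveSpecialLinearGroup (Fin 2) F) (hx2 : 2 < orderOf x) (hxq : ¬ orderOf x ∣ Fintype.card F + 1) : ∀ g : Matrix.ProjectiveSpecialLinearGroup (Fin 2) F, g ≠ 1 → ∃ u v : Matrix.ProjectiveSpecialLinearGroup (Fin 2) F, g = (u * x * u⁻¹) * (v * x * v⁻¹) := by
  obtain ⟨X, rfl⟩ := QuotientGroup.mk_surjective x
  have h20 : (2 : F) = 0 := by
    have := CharP.cast_eq_zero F 2
    exact_mod_cast this
  have hs0 : tr X ≠ 0 := by
    intro h
    have h1 : (QuotientGroup.mk X : Matrix.ProjectiveSpecialLinearGroup (Fin 2) F) ^ 2 = 1 := by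
      rw [pow_two, ← QuotientGroup.mk_mul, sq_of_tr_zero X h]
      exact (QuotientGroup.eq_one_iff _).2 negOne_mem_center
    have := Nat.le_of_dvd (by norm_num) (orderOf_dvd_of_pow_eq_one h1)
    omega
  have hs4 : tr X ^ 2 ≠ 4 := by
    intro h
    apply hs0
    have : tr X ^ 2 = 0 := by rw [h]; linear_combination 2 * h20
    exact pow_eq_zero_iff (two_ne_zero) |>.1 this
  obtain ⟨a, ha⟩ : ∃ a : F, a ^ 2 - tr X * a + 1 = 0 := by
    by_contra hcon
    push Not at hcon
    apply hxq
    apply orderOf_dvd_of_pow_eq_one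
    rw [← QuotientGroup.mk_pow, pow_card_add_one_of_nonsplit X hcon]
    rfl
  have ha0 : a ≠ 0 := by
    rintro rfl
    simp at ha
  have hs : tr X = a + a⁻¹ := by
    field_simp
    linear_combination -ha
  have ha2 : a ^ 2 ≠ 1 := by
    intro h
    apply hs0
    have : tr X * a = 0 := by linear_combination -ha + h + h20
    exact (mul_eq_zero.1 this).resolve_right ha0
  refine prod2_of_nf (hs ▸ repAll_of_split a ha0 ha2) hs4 X rfl ?_
  intro c t hc
  obtain ⟨Y, hY1, hY2⟩ := solve_split a ha0 c t hc
  exact ⟨Y, by rw [hY1, hs], Or.inl (by rw [hY2, hs])⟩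

end Cfsg.Agent.S2456
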