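import Cfsg.Statements.S2459
import Cfsg.Agent.Lib.Helper46.SL3Factor

set_option autoImplicit false
open Cfsg

namespace Cfsg.Agent.S2459

/-- A form of Thompson's conjecture for PSL(3,q), q > 2 (covering the non-identity elements), with a semisimple class: for F a finite field of characteristic p with more than 2 elements there is an element x of PSL(3,F) of order prime to p such that every non-identity element of PSL(3,F) is a product of two conjugates of x. -/
theorem result {F : Type*} [Field F] [Fintype F] (p : ℕ) [Fact p.Prime] [CharP F p] (h3 : 3 ≤ Fintype.card F) :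
    ∃ x : Matrix.ProjectiveSpecialLinearGroup (Fin 3) F, ¬ p ∣ orderOf x ∧ ∀ g : Matrix.ProjectiveSpecialLinearGroup (Fin 3) F, g ≠ 1 → ∃ u v : Matrix.ProjectiveSpecialLinearGroup (Fin 3) F, g = (u * x * u⁻¹) * (v * x * v⁻¹) := by
  classical
  have hmain : ∀ (s : F) (k : ℕ), s ≠ 2 → s ≠ -2 → (s = 0 ∨ (2 : F) = 0) →
      (Cfsg.Agent.Lib.Helper46.XsSL s) ^ k = 1 → ¬ p ∣ k →
      ∃ x : Matrix.ProjectiveSpecialLinearGroup (Fin 3) F, ¬ p ∣ orderOf x ∧
        ∀ g : Matrix.ProjectiveSpecialLinearGroup (Fin 3) F, g ≠ 1 →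
          ∃ u v : Matrix.ProjectiveSpecialLinearGroup (Fin 3) F,
            g = (u * x * u⁻¹) * (v * x * v⁻¹) := by
    intro s k hs hs' hs0 hk hpk
    refine ⟨QuotientGroup.mk (Cfsg.Agent.Lib.Helper46.XsSL s), ?_, ?_⟩
    · intro hp
      apply hpk
      refine hp.trans (orderOf_dvd_of_pow_eq_one ?_)
      rw [← QuotientGroup.mk_pow, hk, QuotientGroup.mk_one]
    · intro g hg
      obtain ⟨A, rfl⟩ := QuotientGroup.mk_surjective g
      have hA : A ∉ Subgroup.center (Matrix.SpecialLinearGroup (Fin 3) F) := by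
        intro h
        exact hg ((QuotientGroup.eq_one_iff A).mpr h)
      obtain ⟨U, V, hUV⟩ := Cfsg.Agent.Lib.Helper46.exists_conj_mul_conj s hs hs' hs0 A hA
      refine ⟨QuotientGroup.mk U, QuotientGroup.mk V, ?_⟩
      rw [hUV]
      rfl
  by_cases hp2 : p = 2
  · subst hp2
    have h2 : (2 : F) = 0 := by
      have := CharP.cast_eq_zero F 2
      exact_mod_cast this
    refine hmain 1 3 ?_ ?_ (Or.inr h2) (Cfsg.Agent.Lib.Helper46.XsSL_one_pow h2) (by norm_num)
    · rw [h2]; exact one_ne_zero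
    · rw [h2, neg_zero]; exact one_ne_zero
  · have h2 : (2 : F) ≠ 0 := by
      intro h
      have h3 : ((2 : ℕ) : F) = 0 := by exact_mod_cast h
      rw [CharP.cast_eq_zero_iff F p 2] at h3
      exact hp2 ((Nat.prime_dvd_prime_iff_eq (Fact.out) Nat.prime_two).mp h3)
    refine hmain 0 4 (Ne.symm h2) ?_ (Or.inl rfl) Cfsg.Agent.Lib.Helper46.XsSL_zero_pow ?_
    · intro h
      apply h2
      linear_combination h
    · intro h
      have h4 : p ∣ 2 ^ 2 := by simpa using h
      exact hp2 ((Nat.prime_dvd_prime_iff_eq (Fact.out) Nat.prime_two).mp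
        ((Fact.out : p.Prime).dvd_of_dvd_pow h4))

end Cfsg.Agent.S2459
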