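import Cfsg.Statements.S2471
import Cfsg.Agent.Lib.Helper46.SL2Spectrum

set_option autoImplicit false
open Cfsg
open Cfsg.Agent.Lib.Helper46

namespace Cfsg.Agent.S2471

/-- In PSL(2,q) with q odd, the characteristic p is isolated from 2 in the prime graph: for F a finite field of odd characteristic p with at least 5 elements, PSL(2,F) has no element of order 2p. -/
theorem result {F : Type*} [Field F] [Fintype F] (p : ℕ) [Fact p.Prime] [CharP F p] (hp : p ≠ 2) (h5 : 5 ≤ Fintype.card F) (g : Matrix.ProjectiveSpecialLinearGroup (Fin 2) F) :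
    orderOf g ≠ 2 * p := by
  intro ho
  have hq : 2 ≤ Fintype.card F := Fintype.one_lt_card
  have hpp : p.Prime := Fact.out
  have hpq : p ∣ Fintype.card F := by
    rw [← CharP.cast_eq_zero_iff F p]
    exact Nat.cast_card_eq_zero F
  rcases psl2_pow_cases p g with h | h | h
  · have := Nat.le_of_dvd hpp.pos (orderOf_dvd_of_pow_eq_one h)
    have := hpp.pos
    omega
  · have h1 : p ∣ Fintype.card F - 1 :=
      (Dvd.intro_left 2 rfl).trans ((ho ▸ orderOf_dvd_of_pow_eq_one h).trans (Nat.div_dvd_of_dvd (Nat.gcd_dvd_right _ _)))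
    have h2 : p ∣ 1 := by
      have := (Nat.dvd_sub hpq h1)
      have e : Fintype.card F - (Fintype.card F - 1) = 1 := by omega
      rwa [e] at this
    exact hpp.one_lt.ne' (Nat.dvd_one.1 h2)
  · have hd : Nat.gcd 2 (Fintype.card F - 1) ∣ Fintype.card F + 1 := by
      rcases parity_cases (F := F) with ⟨-, h2⟩ | ⟨-, h2⟩
      · rw [gcd_two_sub.1 h2]; omega
      · rw [gcd_two_sub.2 h2]; exact one_dvd _
    have h1 : p ∣ Fintype.card F + 1 :=
      (Dvd.intro_left 2 rfl).trans ((ho ▸ orderOf_dvd_of_pow_eq_one h).trans (Nat.div_dvd_of_dvd hd))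
    have h2 : p ∣ 1 := by
      have := (Nat.dvd_sub h1 hpq)
      have e : Fintype.card F + 1 - Fintype.card F = 1 := by omega
      rwa [e] at this
    exact hpp.one_lt.ne' (Nat.dvd_one.1 h2)

end Cfsg.Agent.S2471
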