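import Cfsg.Statements.S2476
import Cfsg.Agent.Lib.Helper48.L3Exist

set_option autoImplicit false
open Cfsg

namespace Cfsg.Agent.S2476

/-- The set of element orders of PSL(3,q): let F be a finite field of characteristic p with q elements and d = gcd(3, q − 1). The orders of elements of PSL(3,F) are exactly the divisors of (q² + q + 1)/d, of (q² − 1)/d, of q − 1, of p(q − 1)/d, and, when p = 2, of 4. -/
theorem result {F : Type*} [Field F] [Fintype F] (p : ℕ) [Fact p.Prime] [CharP F p] :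
    Set.range (orderOf : Matrix.ProjectiveSpecialLinearGroup (Fin 3) F → ℕ) =
      {m : ℕ | m ∣ (Fintype.card F ^ 2 + Fintype.card F + 1) / Nat.gcd 3 (Fintype.card F - 1) ∨
        m ∣ (Fintype.card F ^ 2 - 1) / Nat.gcd 3 (Fintype.card F - 1) ∨ m ∣ Fintype.card F - 1 ∨
        m ∣ p * (Fintype.card F - 1) / Nat.gcd 3 (Fintype.card F - 1) ∨ (p = 2 ∧ m ∣ 4)} := by
  classical
  have hq2 : 2 ≤ Fintype.card F := Fintype.one_lt_card
  have : Finite (Matrix.ProjectiveSpecialLinearGroup (Fin 3) F) := inferInstance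
  ext s
  simp only [Set.mem_range, Set.mem_setOf_eq]
  constructor
  · rintro ⟨y, rfl⟩
    obtain ⟨T, hdet, hT⟩ := Cfsg.Agent.Lib.Helper48.exists_pord_of_PSL y
    rw [Nat.mul_div_assoc p (Nat.gcd_dvd_right 3 (Fintype.card F - 1))]
    rcases Cfsg.Agent.Lib.Helper48.l3_scalar p (by simp) hdet with h | h | h | h | ⟨hp, h⟩
    · exact Or.inl ((hT _).1 h)
    · exact Or.inr (Or.inl ((hT _).1 h))
    · exact Or.inr (Or.inr (Or.inl ((hT _).1 h)))
    · exact Or.inr (Or.inr (Or.inr (Or.inl ((hT _).1 h))))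
    · exact Or.inr (Or.inr (Or.inr (Or.inr ⟨hp, (hT _).1 h⟩)))
  · rintro (h | h | h | h | ⟨hp, h⟩)
    · obtain ⟨y, hy⟩ := Cfsg.Agent.Lib.Helper48.exists_PSL_orderOf_singer (F := F) 3 (by norm_num)
      rw [Cfsg.Agent.Lib.Helper48.geom3 _ hq2] at hy
      exact Cfsg.Agent.Lib.Helper48.exists_orderOf_eq_of_dvd y (hy ▸ h)
    · obtain ⟨y, hy⟩ := Cfsg.Agent.Lib.Helper48.exists_psl3_torus2 (F := F)
      exact Cfsg.Agent.Lib.Helper48.exists_orderOf_eq_of_dvd y (h.trans hy)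
    · obtain ⟨y, hy⟩ := Cfsg.Agent.Lib.Helper48.exists_psl3_split (F := F)
      exact Cfsg.Agent.Lib.Helper48.exists_orderOf_eq_of_dvd y (h.trans hy)
    · obtain ⟨y, hy⟩ := Cfsg.Agent.Lib.Helper48.exists_psl3_mixed (F := F) p
      exact Cfsg.Agent.Lib.Helper48.exists_orderOf_eq_of_dvd y (h.trans hy)
    · obtain ⟨y, hy⟩ := Cfsg.Agent.Lib.Helper48.exists_PSL_orderOf_unip (F := F) p 3 (by norm_num)
      have h4 : p ^ Nat.clog p 3 = 4 := by
        rw [hp]
        decide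
      rw [h4] at hy
      exact Cfsg.Agent.Lib.Helper48.exists_orderOf_eq_of_dvd y (hy ▸ h)

end Cfsg.Agent.S2476
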