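import Cfsg.Statements.S2485
-- import your own Cfsg.Agent.* helpers here
import Mathlib

set_option autoImplicit false
open scoped Pointwise
open Cfsg

namespace Cfsg.Agent.S2485

open Matrix

section

variable {q : ℕ} [Fact q.Prime]

def formT (M : Matrix (Fin 2) (Fin 2) (ZMod q)) : Prop := ∃ a b, M = !![a, -b; b, a]

def formW (M : Matrix (Fin 2) (Fin 2) (ZMod q)) : Prop := ∃ a b, M = !![a, b; b, -a]

def H0' : Subgroup (GL (Fin 2) (ZMod q)) where
  carrier := {g | formT (g : Matrix (Fin 2) (Fin 2) (ZMod q)) ∨ formW (g : Matrix (Fin 2) (Fin 2) (ZMod q))}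
  mul_mem' := by
    rintro g h (⟨a, b, hg⟩ | ⟨a, b, hg⟩) (⟨c, d, hh⟩ | ⟨c, d, hh⟩)
    · left
      refine ⟨a * c - b * d, a * d + b * c, ?_⟩
      rw [Units.val_mul, hg, hh]
      ext i j; fin_cases i <;> fin_cases j <;> simp [Matrix.mul_apply, Fin.sum_univ_two] <;> ring
    · right
      refine ⟨a * c - b * d, a * d + b * c, ?_⟩
      rw [Units.val_mul, hg, hh]
      ext i j; fin_cases i <;> fin_cases j <;> simp [Matrix.mul_apply, Fin.sum_univ_two] <;> ring
    · right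
      refine ⟨a * c + b * d, b * c - a * d, ?_⟩
      rw [Units.val_mul, hg, hh]
      ext i j; fin_cases i <;> fin_cases j <;> simp [Matrix.mul_apply, Fin.sum_univ_two] <;> ring
    · left
      refine ⟨a * c + b * d, b * c - a * d, ?_⟩
      rw [Units.val_mul, hg, hh]
      ext i j; fin_cases i <;> fin_cases j <;> simp [Matrix.mul_apply, Fin.sum_univ_two] <;> ring
  one_mem' := Or.inl ⟨1, 0, by ext i j; fin_cases i <;> fin_cases j <;> simp⟩
  inv_mem' := by
    rintro g (⟨a, b, hg⟩ | ⟨a, b, hg⟩)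
    · left
      refine ⟨Ring.inverse (g : Matrix (Fin 2) (Fin 2) (ZMod q)).det * a,
        - (Ring.inverse (g : Matrix (Fin 2) (Fin 2) (ZMod q)).det * b), ?_⟩
      rw [Matrix.coe_units_inv, Matrix.inv_def]
      generalize Ring.inverse (g : Matrix (Fin 2) (Fin 2) (ZMod q)).det = s
      rw [hg, Matrix.adjugate_fin_two_of]
      ext i j; fin_cases i <;> fin_cases j <;> simp
    · right
      refine ⟨- (Ring.inverse (g : Matrix (Fin 2) (Fin 2) (ZMod q)).det * a),
        - (Ring.inverse (g : Matrix (Fin 2) (Fin 2) (ZMod q)).det * b), ?_⟩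
      rw [Matrix.coe_units_inv, Matrix.inv_def]
      generalize Ring.inverse (g : Matrix (Fin 2) (Fin 2) (ZMod q)).det = s
      rw [hg, Matrix.adjugate_fin_two_of]
      ext i j; fin_cases i <;> fin_cases j <;> simp

theorem formT_pow {X : ℕ} (hk : q + 1 = 8 * X) (a b : ZMod q) :
    (!![a, -b; b, a] : Matrix (Fin 2) (Fin 2) (ZMod q)) ^ (q + 1) = (a ^ 2 + b ^ 2) • 1 := by
  set J : Matrix (Fin 2) (Fin 2) (ZMod q) := !![0, -1; 1, 0] with hJ
  have hJ2 : J * J = -1 := by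
    ext i j; fin_cases i <;> fin_cases j <;> simp [hJ, Matrix.mul_apply, Fin.sum_univ_two]
  have hdec : (!![a, -b; b, a] : Matrix (Fin 2) (Fin 2) (ZMod q)) = a • 1 + b • J := by
    ext i j; fin_cases i <;> fin_cases j <;> simp [hJ]
  have hcomm : Commute (a • (1 : Matrix (Fin 2) (Fin 2) (ZMod q))) (b • J) := by
    apply Commute.smul_left
    exact Commute.one_left _
  have hJq : J ^ q = -J := by
    have hq : q = 2 * (4 * X - 1) + 1 := by omega
    have hodd : Odd (4 * X - 1) := ⟨2 * X - 1, by omega⟩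
    have e1 : J ^ q = J ^ (2 * (4 * X - 1) + 1) := congrArg (fun n => J ^ n) hq
    rw [e1, pow_succ, pow_mul, pow_two, hJ2, hodd.neg_one_pow]
    simp
  rw [hdec, pow_succ, add_pow_char_of_commute q hcomm, smul_pow, smul_pow, one_pow, ZMod.pow_card,
    ZMod.pow_card, hJq]
  simp only [add_mul, mul_add, smul_mul_assoc, mul_smul_comm, one_mul, mul_one, neg_mul, hJ2,
    smul_neg, neg_neg]
  module

theorem sq_add_sq_ne_zero (hq : q % 4 = 3) {a b : ZMod q} (h : a ^ 2 + b ^ 2 = 0) : a = 0 ∧ b = 0 := by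
  have hns : ¬ IsSquare (-1 : ZMod q) := by
    rw [ZMod.exists_sq_eq_neg_one_iff]; simp [hq]
  by_cases hb : b = 0
  · subst hb
    simp at h
    exact ⟨h, rfl⟩
  · exfalso
    apply hns
    refine ⟨a / b, ?_⟩
    field_simp
    linear_combination -h

theorem key (hq : q % 4 = 3) (u : GL (Fin 2) (ZMod q)) :
    ∃ w : GL (Fin 2) (ZMod q), w ∈ H0' ∧ w ∉ Subgroup.center (GL (Fin 2) (ZMod q)) ∧
      u * w * u⁻¹ ∈ H0' := by
  obtain ⟨x, y, z, t, hu⟩ : ∃ x y z t, (u : Matrix (Fin 2) (Fin 2) (ZMod q)) = !![x, y; z, t] :=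
    ⟨_, _, _, _, Matrix.eta_fin_two _⟩
  obtain ⟨a, b, hab, hcond⟩ : ∃ a b : ZMod q, (a ≠ 0 ∨ b ≠ 0) ∧
      b * (x ^ 2 - y ^ 2 - t ^ 2 + z ^ 2) - a * (2 * (x * y + z * t)) = 0 := by
    by_cases h : (x ^ 2 - y ^ 2 - t ^ 2 + z ^ 2) = 0 ∧ 2 * (x * y + z * t) = 0
    · exact ⟨1, 0, Or.inl one_ne_zero, by rw [h.2]; ring⟩
    · refine ⟨(x ^ 2 - y ^ 2 - t ^ 2 + z ^ 2), 2 * (x * y + z * t), ?_, by ring⟩
      tauto
  have hdet : (!![a, b; b, -a] : Matrix (Fin 2) (Fin 2) (ZMod q)).det ≠ 0 := by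
    rw [Matrix.det_fin_two_of]
    intro h
    have := sq_add_sq_ne_zero hq (a := a) (b := b) (by linear_combination -h)
    tauto
  have h2 : (2 : ZMod q) ≠ 0 := by
    intro h
    have h' : ((2 : ℕ) : ZMod q) = 0 := by exact_mod_cast h
    rw [ZMod.natCast_eq_zero_iff] at h'
    have := Nat.le_of_dvd (by norm_num) h'
    omega
  refine ⟨Matrix.GeneralLinearGroup.mkOfDetNeZero _ hdet, Or.inr ⟨a, b, rfl⟩, ?_, Or.inr ?_⟩
  · rw [Matrix.GeneralLinearGroup.mem_center_iff_val_mem_range_scalar]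
    rintro ⟨c, hc⟩
    have hc' : Matrix.scalar (Fin 2) c = !![a, b; b, -a] := hc
    have h01 := congrFun (congrFun hc' 0) 1
    have h00 := congrFun (congrFun hc' 0) 0
    have h11 := congrFun (congrFun hc' 1) 1
    simp at h01 h00 h11
    have ha : a = 0 := by
      have : 2 * a = 0 := by linear_combination h11 - h00
      rcases mul_eq_zero.mp this with h | h
      · exact absurd h h2
      · exact h
    rcases hab with h | h
    · exact h ha
    · exact h h01.symm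
  · have hval : ((u * Matrix.GeneralLinearGroup.mkOfDetNeZero _ hdet * u⁻¹ : GL (Fin 2) (ZMod q)) :
        Matrix (Fin 2) (Fin 2) (ZMod q)) =
        !![x, y; z, t] * !![a, b; b, -a] * (Ring.inverse (u : Matrix (Fin 2) (Fin 2) (ZMod q)).det •
          !![t, -y; -z, x]) := by
      rw [Units.val_mul, Units.val_mul, Matrix.coe_units_inv, Matrix.inv_def]
      generalize Ring.inverse (u : Matrix (Fin 2) (Fin 2) (ZMod q)).det = s
      rw [hu, Matrix.adjugate_fin_two_of]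
      rfl
    rw [hval]
    generalize Ring.inverse (u : Matrix (Fin 2) (Fin 2) (ZMod q)).det = s
    refine ⟨s * (a * (x * t + y * z) + b * (y * t - x * z)),
      s * (b * (x ^ 2 - y ^ 2) - 2 * x * y * a), ?_⟩
    ext i j
    fin_cases i <;> fin_cases j <;> simp [Matrix.mul_apply, Fin.sum_univ_two]
    · ring
    · ring
    · linear_combination (-s) * hcond
    · ring

end

/-- Let q = 2^k − 1 ≥ 7 be a prime and let G = PGL(2,q), the general linear group of degree 2 over the field with q elements modulo its centre. Then any two Sylow 2-subgroups of G have a non-trivial intersection: for a Sylow 2-subgroup H and every x ∈ G, H ∩ H^x ≠ 1. -/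
theorem result {q k : ℕ} [Fact q.Prime] (hk : q + 1 = 2 ^ k) (hq : 7 ≤ q)
    (H : Sylow 2 (GL (Fin 2) (ZMod q) ⧸ Subgroup.center (GL (Fin 2) (ZMod q))))
    (x : GL (Fin 2) (ZMod q) ⧸ Subgroup.center (GL (Fin 2) (ZMod q))) :
    (H : Subgroup (GL (Fin 2) (ZMod q) ⧸ Subgroup.center (GL (Fin 2) (ZMod q)))) ⊓ MulAut.conj x • (H : Subgroup _) ≠ ⊥ := by
  classical
  obtain ⟨X, hX⟩ : ∃ X, q + 1 = 8 * X := by
    have hk3 : 3 ≤ k := by
      by_contra h
      push Not at h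
      have : 2 ^ k ≤ 2 ^ 2 := Nat.pow_le_pow_right (by norm_num) (by omega)
      omega
    obtain ⟨k', rfl⟩ := Nat.exists_eq_add_of_le hk3
    exact ⟨2 ^ k', by rw [hk, pow_add]; norm_num⟩
  have hq4 : q % 4 = 3 := by omega
  obtain ⟨x', rfl⟩ := QuotientGroup.mk'_surjective _ x
  set Z := Subgroup.center (GL (Fin 2) (ZMod q)) with hZ
  have hscal : ∀ (g : GL (Fin 2) (ZMod q)) (c : ZMod q),
      (g : Matrix (Fin 2) (Fin 2) (ZMod q)) = c • 1 → g ∈ Z := by
    intro g c hg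
    rw [hZ, Matrix.GeneralLinearGroup.mem_center_iff_val_mem_range_scalar]
    exact ⟨c, by rw [hg, Matrix.scalar_apply, Matrix.smul_one_eq_diagonal]⟩
  let H0 : Subgroup (GL (Fin 2) (ZMod q) ⧸ Z) := H0'.map (QuotientGroup.mk' Z)
  have hp : IsPGroup 2 H0 := by
    rintro ⟨h, hh⟩
    obtain ⟨g, hg, rfl⟩ := hh
    rcases hg with ⟨a, b, hg⟩ | ⟨a, b, hg⟩
    · refine ⟨k, ?_⟩
      apply Subtype.ext
      change (QuotientGroup.mk' Z g) ^ (2 ^ k) = 1
      rw [← map_pow, ← hk, QuotientGroup.mk'_apply, QuotientGroup.eq_one_iff]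
      apply hscal _ (a ^ 2 + b ^ 2)
      rw [Units.val_pow_eq_pow_val, hg, formT_pow hX]
    · refine ⟨1, ?_⟩
      apply Subtype.ext
      change (QuotientGroup.mk' Z g) ^ (2 ^ 1) = 1
      rw [← map_pow, QuotientGroup.mk'_apply, QuotientGroup.eq_one_iff]
      apply hscal _ (a ^ 2 + b ^ 2)
      rw [Units.val_pow_eq_pow_val, hg]
      ext i j
      fin_cases i <;> fin_cases j <;> simp [pow_two, Matrix.mul_apply, Fin.sum_univ_two] <;> ring
  obtain ⟨P, hP⟩ := hp.exists_le_sylow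
  obtain ⟨g, hg⟩ := MulAction.exists_smul_eq (GL (Fin 2) (ZMod q) ⧸ Z) P H
  obtain ⟨g', rfl⟩ := QuotientGroup.mk'_surjective Z g
  obtain ⟨w, hw1, hw2, hw3⟩ := key hq4 ((x' * g')⁻¹ * g')
  have hH : (H : Subgroup (GL (Fin 2) (ZMod q) ⧸ Z)) =
      MulAut.conj (QuotientGroup.mk' Z g') • (P : Subgroup (GL (Fin 2) (ZMod q) ⧸ Z)) := by
    rw [← hg, Sylow.smul_def]
    rfl
  intro hbot
  have he1 : QuotientGroup.mk' Z (g' * w * g'⁻¹) ∈ (H : Subgroup (GL (Fin 2) (ZMod q) ⧸ Z)) := by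
    rw [hH]
    have h1 : QuotientGroup.mk' Z w ∈ (P : Subgroup (GL (Fin 2) (ZMod q) ⧸ Z)) :=
      hP (Subgroup.mem_map_of_mem _ hw1)
    have h2 := Subgroup.smul_mem_pointwise_smul _ (MulAut.conj (QuotientGroup.mk' Z g')) _ h1
    rw [MulAut.smul_def, MulAut.conj_apply] at h2
    rw [map_mul, map_mul, map_inv]
    exact h2
  have he2 : QuotientGroup.mk' Z (g' * w * g'⁻¹) ∈
      MulAut.conj (QuotientGroup.mk' Z x') • (H : Subgroup (GL (Fin 2) (ZMod q) ⧸ Z)) := by
    rw [hH]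
    have h1 : QuotientGroup.mk' Z ((x' * g')⁻¹ * g' * w * ((x' * g')⁻¹ * g')⁻¹) ∈
        (P : Subgroup (GL (Fin 2) (ZMod q) ⧸ Z)) :=
      hP (Subgroup.mem_map_of_mem _ hw3)
    have h2 := Subgroup.smul_mem_pointwise_smul _ (MulAut.conj (QuotientGroup.mk' Z g')) _ h1
    have h3 := Subgroup.smul_mem_pointwise_smul _ (MulAut.conj (QuotientGroup.mk' Z x')) _ h2
    rw [MulAut.smul_def, MulAut.smul_def, MulAut.conj_apply, MulAut.conj_apply, ← map_inv, ← map_inv,
      ← map_mul, ← map_mul, ← map_mul, ← map_mul] at h3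
    have e : x' * (g' * ((x' * g')⁻¹ * g' * w * ((x' * g')⁻¹ * g')⁻¹) * g'⁻¹) * x'⁻¹ = g' * w * g'⁻¹ := by
      group
    rw [e] at h3
    exact h3
  have he : QuotientGroup.mk' Z (g' * w * g'⁻¹) ∈ (⊥ : Subgroup (GL (Fin 2) (ZMod q) ⧸ Z)) := by
    rw [← hbot]
    exact ⟨he1, he2⟩
  rw [Subgroup.mem_bot, QuotientGroup.mk'_apply, QuotientGroup.eq_one_iff] at he
  apply hw2
  have := (inferInstance : Z.Normal).conj_mem _ he g'⁻¹
  simpa [mul_assoc] using this

end Cfsg.Agent.S2485
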