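import Cfsg.Statements.S2487
import Cfsg.Agent.Lib.Helper68.OFlag.ASM
import Cfsg.Agent.Lib.Helper68.OFlag.STD
import Cfsg.Agent.Lib.Helper49.Transfer

set_option autoImplicit false
open scoped Pointwise
open Cfsg

namespace Cfsg.Agent.S2487

open Cfsg.Agent.Lib.Helper68.OFlag Cfsg.Agent.Lib.Helper49

/-- Let m ≥ 4 and let G be the full isometry group of the hyperbolic quadratic form x₁y₁ + ⋯ + x_m y_m on the 2m-dimensional space over the field with 2 elements (the orthogonal group O⁺(2m,2), which contains Ω⁺(2m,2) with index 2). Then any two Sylow 2-subgroups of G have a non-trivial intersection: for a Sylow 2-subgroup H and every x ∈ G, H ∩ H^x ≠ 1. -/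
theorem result {F : Type*} [Field F] [Fintype F] (hF : Fintype.card F = 2) {m : ℕ} (hm : 4 ≤ m)
    (H : Sylow 2 (Cfsg.isometryGroup F (Cfsg.quadFormPlus m F)))
    (x : Cfsg.isometryGroup F (Cfsg.quadFormPlus m F)) :
    (H : Subgroup (Cfsg.isometryGroup F (Cfsg.quadFormPlus m F))) ⊓ MulAut.conj x • (H : Subgroup _) ≠ ⊥ := by
  have key : ∀ (q : (Fin m ⊕ Fin m → F) → F), q = ⇑(plusQF m F) →
      ∀ (H : Sylow 2 (Cfsg.isometryGroup F q)) (x : Cfsg.isometryGroup F q),
      (H : Subgroup (Cfsg.isometryGroup F q)) ⊓ MulAut.conj x • (H : Subgroup _) ≠ ⊥ := by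
    intro q hq
    subst hq
    intro H x
    obtain ⟨hQ, hV, M₀, hM, hMd⟩ := std F m
    set e := isoEquiv (plusQF m F) with he
    set H' : Subgroup (OG (plusQF m F)) := (H : Subgroup _).map e.toMonoidHom with hH'
    have hp : IsPGroup 2 H' := H.2.map e.toMonoidHom
    have hmax : ∀ K : Subgroup (OG (plusQF m F)), IsPGroup 2 K → H' ≤ K → K = H' := by
      intro K hK hle
      have h1 : IsPGroup 2 (K.comap e.toMonoidHom) := hK.comap_of_injective e.toMonoidHom e.injective
      have h2 : (H : Subgroup _) ≤ K.comap e.toMonoidHom := by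
        intro g hg
        exact hle (Subgroup.mem_map_of_mem _ hg)
      have h3 := H.is_maximal' h1 h2
      rw [hH', ← h3, Subgroup.map_comap_eq_self_of_surjective (f := e.toMonoidHom) e.surjective]
    have hmain := abs_main (plusQF m F) hF hQ (by omega) hV M₀ hM hMd H' hp hmax (e x)
    intro hbot
    apply hmain
    rw [eq_bot_iff]
    intro g' hg'
    rw [Subgroup.mem_inf, Subgroup.mem_pointwise_smul_iff_inv_smul_mem] at hg'
    obtain ⟨⟨g, hg, rfl⟩, h, hh, hh2⟩ := hg'
    have h4 : h = x⁻¹ * g * x := by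
      apply e.injective
      change e h = (e x)⁻¹ * e g * (e x)⁻¹⁻¹ at hh2
      rw [hh2, inv_inv, map_mul, map_mul, map_inv]
    have h5 : g ∈ (H : Subgroup _) ⊓ MulAut.conj x • (H : Subgroup _) := by
      rw [Subgroup.mem_inf, Subgroup.mem_pointwise_smul_iff_inv_smul_mem]
      refine ⟨hg, ?_⟩
      change x⁻¹ * g * x⁻¹⁻¹ ∈ (H : Subgroup _)
      rw [inv_inv, ← h4]
      exact hh
    rw [hbot, Subgroup.mem_bot] at h5
    rw [h5, Subgroup.mem_bot]
    exact map_one e
  exact key _ (plusQF_coe m F).symm H x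

end Cfsg.Agent.S2487
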