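import Cfsg.Statements.S2488
-- import your own Cfsg.Agent.* helpers here
import Mathlib

set_option autoImplicit false
open scoped Pointwise
open Cfsg

namespace Cfsg.Agent.S2488


set_option maxRecDepth 100000 in
theorem F1 : ∀ σ : Equiv.Perm (Fin 6), Equiv.Perm.sign σ = 1 →
    σ ^ 4 = 1 ∨ σ ^ 3 = 1 ∨ σ ^ 5 = 1 := by decide +kernel

/-- number of even permutations of six letters killed by the `k`-th power -/
def cnt (k : ℕ) : ℕ :=
  (Finset.univ.filter (fun σ : Equiv.Perm (Fin 6) => Equiv.Perm.sign σ = 1 ∧ σ ^ k = 1)).card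

set_option maxRecDepth 100000 in
theorem cnt2 : cnt 2 = 46 := by decide +kernel

set_option maxRecDepth 100000 in
theorem cnt3 : cnt 3 = 81 := by decide +kernel

set_option maxRecDepth 100000 in
theorem cnt5 : cnt 5 = 145 := by decide +kernel

theorem L1 {G : Type*} [Group G] [Finite G] (s r : G) (hs : s * s = 1)
    (hsr : s * r * s⁻¹ = r⁻¹)
    (h2 : 2 ∣ Nat.card (Subgroup.centralizer ({r} : Set G))) :
    ∃ z : G, z ≠ 1 ∧ Commute z s ∧ Commute z r := by
  classical
  have hsi : s⁻¹ = s := inv_eq_of_mul_eq_one_left hs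
  have hmem : ∀ c ∈ Subgroup.centralizer ({r} : Set G),
      s * c * s⁻¹ ∈ Subgroup.centralizer ({r} : Set G) := by
    intro c hc
    rw [Subgroup.mem_centralizer_singleton_iff] at hc ⊢
    have h1 : r = s * r⁻¹ * s⁻¹ := by
      rw [← hsr]; simp only [hsi]
      calc r = (s * s) * r * (s * s) := by rw [hs]; simp
        _ = _ := by group
    have hc' : c * r⁻¹ = r⁻¹ * c := by
      calc c * r⁻¹ = r⁻¹ * (r * c) * r⁻¹ := by group
        _ = r⁻¹ * (c * r) * r⁻¹ := by rw [hc]
        _ = _ := by group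
    calc s * c * s⁻¹ * r = s * c * s⁻¹ * (s * r⁻¹ * s⁻¹) := by rw [← h1]
      _ = s * (c * r⁻¹) * s⁻¹ := by group
      _ = s * (r⁻¹ * c) * s⁻¹ := by rw [hc']
      _ = (s * r⁻¹ * s⁻¹) * (s * c * s⁻¹) := by group
      _ = _ := by rw [← h1]
  have hinv : ∀ c : G, s * (s * c * s⁻¹) * s⁻¹ = c := by
    intro c
    simp only [hsi]
    calc s * (s * c * s) * s = (s * s) * c * (s * s) := by group
      _ = c := by rw [hs]; simp
  let σ : Equiv.Perm (Subgroup.centralizer ({r} : Set G)) :=
    ⟨fun c => ⟨s * c * s⁻¹, hmem c c.2⟩, fun c => ⟨s * c * s⁻¹, hmem c c.2⟩,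
      fun c => Subtype.ext (hinv c), fun c => Subtype.ext (hinv c)⟩
  have hσ : σ ^ 2 ^ 1 = 1 := by
    ext c
    simp only [pow_one, pow_two, Equiv.Perm.mul_apply, Equiv.Perm.one_apply]
    exact hinv c
  have : Fintype (Subgroup.centralizer ({r} : Set G)) := Fintype.ofFinite _
  have h2' : 2 ∣ Fintype.card (Subgroup.centralizer ({r} : Set G)) := by
    rwa [← Nat.card_eq_fintype_card]
  have h1 : σ 1 = 1 := by
    apply Subtype.ext
    change s * 1 * s⁻¹ = 1
    simp
  obtain ⟨b, hb, hne⟩ := Equiv.Perm.exists_fixed_point_of_prime' (p := 2) (n := 1) h2' hσ h1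
  refine ⟨b, fun h => hne (Subtype.ext h), ?_, ?_⟩
  · have : s * b * s⁻¹ = b := congrArg Subtype.val hb
    change (b : G) * s = s * b
    calc (b : G) * s = (s * b * s⁻¹) * s := by rw [this]
      _ = _ := by group
  · exact Subgroup.mem_centralizer_singleton_iff.mp b.2

theorem conj_centralizer {G : Type*} [Group G] (g u : G) :
    MulAut.conj g • Subgroup.centralizer ({u} : Set G)
      = Subgroup.centralizer ({g * u * g⁻¹} : Set G) := by
  ext z
  rw [Subgroup.mem_pointwise_smul_iff_inv_smul_mem, Subgroup.mem_centralizer_singleton_iff,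
    Subgroup.mem_centralizer_singleton_iff, MulAut.smul_def, MulAut.conj_inv_apply]
  constructor
  · intro h
    calc z * (g * u * g⁻¹) = g * (g⁻¹ * z * g * u) * g⁻¹ := by group
      _ = g * (u * (g⁻¹ * z * g)) * g⁻¹ := by rw [h]
      _ = _ := by group
  · intro h
    calc g⁻¹ * z * g * u = g⁻¹ * (z * (g * u * g⁻¹)) * g := by group
      _ = g⁻¹ * (g * u * g⁻¹ * z) * g := by rw [h]
      _ = _ := by group

theorem orderOf_conj' {G : Type*} [Group G] (g u : G) : orderOf (g * u * g⁻¹) = orderOf u := by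
  have h : SemiconjBy g u (g * u * g⁻¹) := by
    change g * u = g * u * g⁻¹ * g
    group
  exact (h.orderOf_eq g).symm

section
variable {G : Type*} [Group G] [Finite G] (N : Subgroup G) [N.Normal]
    (e : N ≃* alternatingGroup (Fin 6))

include e in
theorem card_N : Nat.card N = 360 := by
  rw [Nat.card_congr e.toEquiv, nat_card_alternatingGroup]
  simp [Nat.factorial]

include e in
theorem card_G (hidx : N.index = 4) : Nat.card G = 1440 := by
  have h1 := card_N N e
  have := N.card_mul_index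
  rw [h1, hidx] at this; omega

include e in
theorem idx_le (k : ℕ) (r : G) (hr : r ∈ N) (hk : r ^ k = 1) :
    (Subgroup.centralizer ({r} : Set G)).index ≤ cnt k := by
  classical
  have hconj : ∀ g : G, g * r * g⁻¹ ∈ N := fun g => ‹N.Normal›.conj_mem r hr g
  let f : G ⧸ (Subgroup.centralizer ({r} : Set G)) → Equiv.Perm (Fin 6) := fun q =>
    Quotient.liftOn' q
      (fun g => ((e ⟨g * r * g⁻¹, hconj g⟩ : alternatingGroup (Fin 6)) : Equiv.Perm (Fin 6)))
      (by
        intro a b hab
        rw [QuotientGroup.leftRel_apply, Subgroup.mem_centralizer_singleton_iff] at hab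
        have : a * r * a⁻¹ = b * r * b⁻¹ := by
          calc a * r * a⁻¹ = a * (r * (a⁻¹ * b)) * b⁻¹ := by group
            _ = a * (a⁻¹ * b * r) * b⁻¹ := by rw [hab]
            _ = _ := by group
        simp only [this])
  have hf : Function.Injective f := by
    intro q q'
    induction q using Quotient.inductionOn' with | _ a => ?_
    induction q' using Quotient.inductionOn' with | _ b => ?_
    intro h
    have h1 : a * r * a⁻¹ = b * r * b⁻¹ := by
      have h2 : (e ⟨a * r * a⁻¹, hconj a⟩ : alternatingGroup (Fin 6))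
          = e ⟨b * r * b⁻¹, hconj b⟩ := Subtype.ext h
      exact congrArg Subtype.val (e.injective h2)
    apply QuotientGroup.eq.mpr
    rw [Subgroup.mem_centralizer_singleton_iff]
    calc a⁻¹ * b * r = a⁻¹ * (b * r * b⁻¹) * b := by group
      _ = a⁻¹ * (a * r * a⁻¹) * b := by rw [h1]
      _ = _ := by group
  have hmem : ∀ q, f q ∈ (Finset.univ.filter
      (fun σ : Equiv.Perm (Fin 6) => Equiv.Perm.sign σ = 1 ∧ σ ^ k = 1)) := by
    intro q
    induction q using Quotient.inductionOn' with | _ a => ?_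
    simp only [Finset.mem_filter, Finset.mem_univ, true_and]
    refine ⟨Equiv.Perm.mem_alternatingGroup.mp (e ⟨a * r * a⁻¹, hconj a⟩).2, ?_⟩
    change ((e ⟨a * r * a⁻¹, hconj a⟩ : alternatingGroup (Fin 6)) : Equiv.Perm (Fin 6)) ^ k = 1
    rw [← Subgroup.coe_pow, ← map_pow]
    have : (⟨a * r * a⁻¹, hconj a⟩ : N) ^ k = 1 := by
      apply Subtype.ext
      rw [Subgroup.coe_pow]
      change (a * r * a⁻¹) ^ k = 1
      rw [conj_pow, hk]; simp
    rw [this]; simp
  have : Fintype (G ⧸ (Subgroup.centralizer ({r} : Set G))) := Fintype.ofFinite _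
  rw [Subgroup.index, Nat.card_eq_fintype_card, ← Finset.card_univ]
  exact Finset.card_le_card_of_injOn f (fun q _ => hmem q) hf.injOn

include e in
theorem pow_cases (n : G) (hn : n ∈ N) : n ^ 4 = 1 ∨ n ^ 3 = 1 ∨ n ^ 5 = 1 := by
  have h := F1 (e ⟨n, hn⟩ : alternatingGroup (Fin 6))
    (Equiv.Perm.mem_alternatingGroup.mp (e ⟨n, hn⟩).2)
  have key : ∀ k : ℕ, ((e ⟨n, hn⟩ : alternatingGroup (Fin 6)) : Equiv.Perm (Fin 6)) ^ k = 1 →
      n ^ k = 1 := by
    intro k hk
    rw [← Subgroup.coe_pow, ← map_pow] at hk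
    have h1 : e ((⟨n, hn⟩ : N) ^ k) = 1 := Subtype.ext hk
    have h2 : (⟨n, hn⟩ : N) ^ k = 1 := by
      apply e.injective; rw [h1, map_one]
    have := congrArg Subtype.val h2
    simpa using this
  rcases h with h | h | h
  · exact Or.inl (key _ h)
  · exact Or.inr (Or.inl (key _ h))
  · exact Or.inr (Or.inr (key _ h))

include e in
theorem no_mixed (a b : G) (ha : a ∈ N) (hb : b ∈ N) (hab : Commute a b)
    (hco : (orderOf a).Coprime (orderOf b)) :
    orderOf a * orderOf b ∣ 4 ∨ orderOf a * orderOf b ∣ 3 ∨ orderOf a * orderOf b ∣ 5 := by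
  rw [← hab.orderOf_mul_eq_mul_orderOf_of_coprime hco]
  rcases pow_cases N e (a * b) (N.mul_mem ha hb) with h | h | h
  · exact Or.inl (orderOf_dvd_of_pow_eq_one h)
  · exact Or.inr (Or.inl (orderOf_dvd_of_pow_eq_one h))
  · exact Or.inr (Or.inr (orderOf_dvd_of_pow_eq_one h))

theorem pow4_mem (hidx : N.index = 4) (y : G) : y ^ 4 ∈ N := by
  rw [← QuotientGroup.eq_one_iff, QuotientGroup.mk_pow]
  have : Nat.card (G ⧸ N) = 4 := hidx
  rw [← this]
  exact pow_card_eq_one'

theorem mem_of_order (hidx : N.index = 4) (y : G) (h : orderOf y = 3 ∨ orderOf y = 5) :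
    y ∈ N := by
  rcases h with h | h
  · have h3 : y ^ 3 = 1 := by rw [← h]; exact pow_orderOf_eq_one y
    have : y ^ 4 = y := by rw [pow_succ, h3, one_mul]
    rw [← this]; exact pow4_mem N hidx y
  · have h5 : y ^ 5 = 1 := by rw [← h]; exact pow_orderOf_eq_one y
    have : (y ^ 4) ^ 4 = y := by
      rw [← pow_mul]
      calc y ^ 16 = (y ^ 5) ^ 3 * y := by rw [← pow_mul, ← pow_succ]
        _ = y := by rw [h5]; simp
    rw [← this]; exact N.pow_mem (pow4_mem N hidx y) 4

include e in
theorem not_dvd_centralizer (hidx : N.index = 4) (r : G) (hr : r ∈ N) (q : ℕ)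
    (hq : q = 3 ∨ q = 5) (hp : orderOf r = 2 ∨ orderOf r = 3 ∨ orderOf r = 5)
    (hne : orderOf r ≠ q) :
    ¬ q ∣ Nat.card (Subgroup.centralizer ({r} : Set G)) := by
  intro hdvd
  have hqp : Fact q.Prime := ⟨by rcases hq with rfl | rfl <;> norm_num⟩
  obtain ⟨c, hc⟩ := exists_prime_orderOf_dvd_card' q hdvd
  have hc' : orderOf (c : G) = q := by rw [Subgroup.orderOf_coe]; exact hc
  have hcN : (c : G) ∈ N := mem_of_order N hidx c (by rw [hc']; exact hq)
  have hcomm : Commute (c : G) r := Subgroup.mem_centralizer_singleton_iff.mp c.2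
  have hco : (orderOf (c : G)).Coprime (orderOf r) := by
    rw [hc']
    rcases hq with rfl | rfl <;> rcases hp with h | h | h <;> rw [h] at hne ⊢ <;>
      first | exact absurd rfl hne | norm_num
  have := no_mixed N e c r hcN hr hcomm hco
  rw [hc'] at this
  rcases hq with rfl | rfl <;> rcases hp with h | h | h <;> rw [h] at this hne <;>
    first | exact absurd rfl hne | (revert this; decide)

include e in
theorem two_dvd_centralizer (hidx : N.index = 4) (r : G) (hr : r ∈ N)
    (hp : orderOf r = 3 ∨ orderOf r = 5) :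
    2 ∣ Nat.card (Subgroup.centralizer ({r} : Set G)) := by
  have hG := card_G N e hidx
  have hmul := (Subgroup.centralizer ({r} : Set G)).card_mul_index
  rw [hG] at hmul
  rcases hp with h | h
  · have h1 := idx_le N e 3 r hr (by rw [← h]; exact pow_orderOf_eq_one r)
    rw [cnt3] at h1
    have h2 := not_dvd_centralizer N e hidx r hr 5 (Or.inr rfl) (Or.inr (Or.inl h))
      (by rw [h]; norm_num)
    generalize Nat.card (Subgroup.centralizer ({r} : Set G)) = c at *
    generalize (Subgroup.centralizer ({r} : Set G)).index = i at *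
    interval_cases i <;> omega
  · have h1 := idx_le N e 5 r hr (by rw [← h]; exact pow_orderOf_eq_one r)
    rw [cnt5] at h1
    have h2 := not_dvd_centralizer N e hidx r hr 3 (Or.inl rfl) (Or.inr (Or.inr h))
      (by rw [h]; norm_num)
    generalize Nat.card (Subgroup.centralizer ({r} : Set G)) = c at *
    generalize (Subgroup.centralizer ({r} : Set G)).index = i at *
    interval_cases i <;> omega

include e in
theorem card_centralizer_invol (hidx : N.index = 4) (r : G) (hr : r ∈ N)
    (hp : orderOf r = 2) :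
    Nat.card (Subgroup.centralizer ({r} : Set G)) = 32 := by
  have hG := card_G N e hidx
  have hmul := (Subgroup.centralizer ({r} : Set G)).card_mul_index
  rw [hG] at hmul
  have h1 := idx_le N e 2 r hr (by rw [← hp]; exact pow_orderOf_eq_one r)
  rw [cnt2] at h1
  have h2 := not_dvd_centralizer N e hidx r hr 3 (Or.inl rfl) (Or.inl hp)
    (by rw [hp]; norm_num)
  have h3 := not_dvd_centralizer N e hidx r hr 5 (Or.inr rfl) (Or.inl hp)
    (by rw [hp]; norm_num)
  generalize Nat.card (Subgroup.centralizer ({r} : Set G)) = c at *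
  generalize (Subgroup.centralizer ({r} : Set G)).index = i at *
  interval_cases i <;> omega

include e in
theorem common_centralizer (hidx : N.index = 4) (t₀ t₁ : G) (h₀ : t₀ ∈ N) (h₁ : t₁ ∈ N)
    (o₀ : orderOf t₀ = 2) (o₁ : orderOf t₁ = 2) :
    ∃ z : G, z ≠ 1 ∧ Commute z t₀ ∧ Commute z t₁ := by
  have s₀ : t₀ * t₀ = 1 := by rw [← pow_two, ← o₀]; exact pow_orderOf_eq_one t₀
  have s₁ : t₁ * t₁ = 1 := by rw [← pow_two, ← o₁]; exact pow_orderOf_eq_one t₁
  have i₀ : t₀⁻¹ = t₀ := inv_eq_of_mul_eq_one_left s₀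
  have i₁ : t₁⁻¹ = t₁ := inv_eq_of_mul_eq_one_left s₁
  have hrN : t₀ * t₁ ∈ N := N.mul_mem h₀ h₁
  have hinv : t₀ * (t₀ * t₁) * t₀⁻¹ = (t₀ * t₁)⁻¹ := by
    rw [mul_inv_rev, i₀, i₁, ← mul_assoc, s₀, one_mul]
  have h2 : 2 ∣ Nat.card (Subgroup.centralizer ({t₀ * t₁} : Set G)) := by
    by_cases hr1 : t₀ * t₁ = 1
    · rw [← o₀]
      apply Subgroup.orderOf_dvd_natCard
      rw [Subgroup.mem_centralizer_singleton_iff, hr1]; simp
    · have hself : orderOf (t₀ * t₁) ∣ Nat.card (Subgroup.centralizer ({t₀ * t₁} : Set G)) := by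
        apply Subgroup.orderOf_dvd_natCard
        rw [Subgroup.mem_centralizer_singleton_iff]
      have hne1 : orderOf (t₀ * t₁) ≠ 1 := by
        rw [Ne, orderOf_eq_one_iff]; exact hr1
      rcases pow_cases N e _ hrN with h | h | h
      · have hd : orderOf (t₀ * t₁) ∣ 4 := orderOf_dvd_of_pow_eq_one h
        have hle : orderOf (t₀ * t₁) ≤ 4 := Nat.le_of_dvd (by norm_num) hd
        refine dvd_trans ?_ hself
        generalize orderOf (t₀ * t₁) = o at *
        interval_cases o <;> omega
      · have hd : orderOf (t₀ * t₁) ∣ 3 := orderOf_dvd_of_pow_eq_one h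
        have : orderOf (t₀ * t₁) = 3 := by
          rcases (Nat.dvd_prime (by norm_num)).mp hd with h' | h'
          · exact absurd h' hne1
          · exact h'
        exact two_dvd_centralizer N e hidx _ hrN (Or.inl this)
      · have hd : orderOf (t₀ * t₁) ∣ 5 := orderOf_dvd_of_pow_eq_one h
        have : orderOf (t₀ * t₁) = 5 := by
          rcases (Nat.dvd_prime (by norm_num)).mp hd with h' | h'
          · exact absurd h' hne1
          · exact h'
        exact two_dvd_centralizer N e hidx _ hrN (Or.inr this)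
  obtain ⟨z, hz1, hz0, hzr⟩ := L1 t₀ (t₀ * t₁) s₀ hinv h2
  refine ⟨z, hz1, hz0, ?_⟩
  have : t₁ = t₀⁻¹ * (t₀ * t₁) := by group
  rw [this]
  exact hz0.inv_right.mul_right hzr

end

/-- Let G be a finite group with a normal subgroup N of index 4 isomorphic to the alternating group of degree 6 and with trivial centralizer in G (so G is the full automorphism group of A₆). Then any two Sylow 2-subgroups of G have a non-trivial intersection: for a Sylow 2-subgroup H and every x ∈ G, H ∩ H^x ≠ 1. -/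
theorem result {G : Type*} [Group G] [Finite G] (N : Subgroup G) [N.Normal]
    (e : N ≃* alternatingGroup (Fin 6)) (hidx : N.index = 4)
    (hC : Subgroup.centralizer (N : Set G) = ⊥)
    (H : Sylow 2 G) (x : G) :
    (H : Subgroup G) ⊓ MulAut.conj x • (H : Subgroup G) ≠ ⊥ := by
  classical
  have hG := card_G N e hidx
  have hN := card_N N e
  obtain ⟨u, hu⟩ := exists_prime_orderOf_dvd_card' (G := N) 2 (by rw [hN]; norm_num)
  have hu' : orderOf (u : G) = 2 := by rw [Subgroup.orderOf_coe]; exact hu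
  have hC := card_centralizer_invol N e hidx u u.2 hu'
  have hCp : IsPGroup 2 (Subgroup.centralizer ({(u : G)} : Set G)) :=
    IsPGroup.of_card (n := 5) (by rw [hC]; norm_num)
  obtain ⟨Q, hQ⟩ := hCp.exists_le_sylow
  have hQC : Subgroup.centralizer ({(u : G)} : Set G) = (Q : Subgroup G) := by
    apply Subgroup.eq_of_le_of_card_ge hQ
    rw [hC]
    obtain ⟨n, hn⟩ := IsPGroup.iff_card.mp Q.isPGroup'
    have hd : Nat.card (Q : Subgroup G) ∣ 1440 := hG ▸ Subgroup.card_subgroup_dvd_card _
    rw [hn] at hd ⊢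
    by_contra hlt
    have h6 : 6 ≤ n := by
      by_contra h6
      have : n ≤ 5 := by omega
      exact hlt (by simpa using Nat.pow_le_pow_right (n := 2) (by norm_num) this)
    have : 2 ^ 6 ∣ 1440 := dvd_trans (pow_dvd_pow 2 h6) hd
    revert this; decide
  obtain ⟨g, hg⟩ := MulAction.exists_smul_eq G Q H
  have hH : (H : Subgroup G) = Subgroup.centralizer ({g * u * g⁻¹} : Set G) := by
    rw [← hg, Sylow.smul_def, Sylow.pointwise_smul_def, ← hQC, conj_centralizer]
  have ht₀N : g * u * g⁻¹ ∈ N := ‹N.Normal›.conj_mem u u.2 g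
  have ht₁N : x * (g * u * g⁻¹) * x⁻¹ ∈ N := ‹N.Normal›.conj_mem _ ht₀N x
  have o₀ : orderOf (g * u * g⁻¹) = 2 := by rw [orderOf_conj']; exact hu'
  have o₁ : orderOf (x * (g * u * g⁻¹) * x⁻¹) = 2 := by rw [orderOf_conj']; exact o₀
  obtain ⟨z, hz1, hz0, hz1'⟩ := common_centralizer N e hidx _ _ ht₀N ht₁N o₀ o₁
  rw [hH, conj_centralizer]
  intro hbot
  apply hz1
  rw [← Subgroup.mem_bot, ← hbot, Subgroup.mem_inf, Subgroup.mem_centralizer_singleton_iff,
    Subgroup.mem_centralizer_singleton_iff]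
  exact ⟨hz0, hz1'⟩

end Cfsg.Agent.S2488
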