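import Cfsg.Statements.S2503
-- import your own Cfsg.Agent.* helpers here
import Cfsg.Agent.Lib.Helper7.SL2Tori
import Cfsg.Agent.Lib.Helper64.SemiGraph
import Cfsg.Agent.Lib.Helper46.SL2Basic

set_option autoImplicit false
open Cfsg

namespace Cfsg.Agent.S2503


set_option linter.unusedSimpArgs false
open Matrix Cfsg.Agent.Lib.Helper7 Cfsg.Agent.Lib.Helper46

theorem exists_vec {F : Type*} [Field F] (h2 : (2 : F) = 0) (hsq : ∀ c : F, IsSquare c)
    {a b : F} (hab : ∀ z₁ z₂ : F, z₁ ^ 2 + a * z₁ * z₂ + b * z₂ ^ 2 = 0 → z₁ = 0 ∧ z₂ = 0)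
    (p q r s : F) (hdet : p * s - q * r = 1) :
    ∃ x y : F, x ^ 2 + a * x * y + b * y ^ 2 = 1 ∧
      (p * x + q * y) ^ 2 + a * (p * x + q * y) * (r * x + s * y) + b * (r * x + s * y) ^ 2 = 1 := by
  obtain ⟨α, hα⟩ := hsq (p ^ 2 + a * p * r + b * r ^ 2 + 1)
  obtain ⟨γ, hγ⟩ := hsq (q ^ 2 + a * q * s + b * s ^ 2 + b)
  have key : ∀ x y : F,
      (p * x + q * y) ^ 2 + a * (p * x + q * y) * (r * x + s * y) + b * (r * x + s * y) ^ 2
        = (x ^ 2 + a * x * y + b * y ^ 2) + (α * x + γ * y) ^ 2 := by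
    intro x y
    linear_combination (x * y * a) * hdet
      + (x * y * (p * q + b * r * s + a * q * r - α * γ) - x ^ 2 - b * y ^ 2) * h2
      + x ^ 2 * hα + y ^ 2 * hγ
  obtain ⟨x₀, y₀, hne, hz⟩ : ∃ x₀ y₀ : F, ¬ (x₀ = 0 ∧ y₀ = 0) ∧ α * x₀ + γ * y₀ = 0 := by
    by_cases h : α = 0 ∧ γ = 0
    · exact ⟨1, 0, by simp, by simp [h.1]⟩
    · exact ⟨γ, α, fun h' => h ⟨h'.2, h'.1⟩, by linear_combination (α * γ) * h2⟩
  have hQ0 : x₀ ^ 2 + a * x₀ * y₀ + b * y₀ ^ 2 ≠ 0 := fun h => hne (hab _ _ h)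
  obtain ⟨μ, hμ⟩ := hsq (x₀ ^ 2 + a * x₀ * y₀ + b * y₀ ^ 2)
  have hμ0 : μ ≠ 0 := by
    rintro rfl
    apply hQ0; rw [hμ]; simp
  have h1 : (x₀ / μ) ^ 2 + a * (x₀ / μ) * (y₀ / μ) + b * (y₀ / μ) ^ 2 = 1 := by
    field_simp
    linear_combination hμ
  refine ⟨x₀ / μ, y₀ / μ, h1, ?_⟩
  rw [key, h1]
  have : α * (x₀ / μ) + γ * (y₀ / μ) = 0 := by
    field_simp
    linear_combination hz
  rw [this]; simp

theorem sl_ABA {F : Type*} [Field F] (h2 : (2 : F) = 0) (hsq : ∀ c : F, IsSquare c)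
    {a b : F} (hab : ∀ z₁ z₂ : F, z₁ ^ 2 + a * z₁ * z₂ + b * z₂ ^ 2 = 0 → z₁ = 0 ∧ z₂ = 0)
    (g : SpecialLinearGroup (Fin 2) F) :
    ∃ X ∈ nonsplit a b, ∃ u ∈ USL F, ∃ Y ∈ nonsplit a b, g = X * u * Y := by
  have hdet := det2 g
  obtain ⟨x, y, hQ, hQ'⟩ := exists_vec h2 hsq hab _ _ _ _ hdet
  set x' := (g : Matrix (Fin 2) (Fin 2) F) 0 0 * x + (g : Matrix (Fin 2) (Fin 2) F) 0 1 * y with hx'
  set y' := (g : Matrix (Fin 2) (Fin 2) F) 1 0 * x + (g : Matrix (Fin 2) (Fin 2) F) 1 1 * y with hy'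
  let C : SpecialLinearGroup (Fin 2) F := mk2 x (-b * y) y (x + a * y) (by linear_combination hQ)
  let X : SpecialLinearGroup (Fin 2) F := mk2 x' (-b * y') y' (x' + a * y')
    (by linear_combination hQ')
  have hC : C ∈ nonsplit a b := by rw [mem_nonsplit]; exact ⟨rfl, rfl⟩
  have hX : X ∈ nonsplit a b := by rw [mem_nonsplit]; exact ⟨rfl, rfl⟩
  have hu00 : ((X⁻¹ * g * C : SpecialLinearGroup (Fin 2) F) : Matrix (Fin 2) (Fin 2) F) 0 0 = 1 := by
    simp only [C, X, mul_00, mul_01, mul_10, mul_11, inv_00, inv_01, inv_10, inv_11,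
      mk2_00, mk2_01, mk2_10, mk2_11]
    linear_combination hQ'
  have hu10 : ((X⁻¹ * g * C : SpecialLinearGroup (Fin 2) F) : Matrix (Fin 2) (Fin 2) F) 1 0 = 0 := by
    simp only [C, X, mul_00, mul_01, mul_10, mul_11, inv_00, inv_01, inv_10, inv_11,
      mk2_00, mk2_01, mk2_10, mk2_11]
    rw [hx', hy']
    ring
  have hu11 : ((X⁻¹ * g * C : SpecialLinearGroup (Fin 2) F) : Matrix (Fin 2) (Fin 2) F) 1 1 = 1 := by
    have := det2 (X⁻¹ * g * C)
    rw [hu00, hu10] at this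
    simpa using this
  refine ⟨X, hX, X⁻¹ * g * C, ?_, C⁻¹, (nonsplit a b).inv_mem hC, by group⟩
  rw [mem_USL]
  refine ⟨((X⁻¹ * g * C : SpecialLinearGroup (Fin 2) F) : Matrix (Fin 2) (Fin 2) F) 0 1, ?_⟩
  apply ext2
  · rw [hu00]; rfl
  · rfl
  · rw [hu10]; rfl
  · rw [hu11]; rfl

/-- Let F be a finite field with q = 2^t ≥ 4 elements and L = PSL(2,F). Then L has a cyclic subgroup A of order q + 1 and an elementary abelian 2-subgroup B of order q such that L = ABA: every element of L is a product a·b·a' with a, a' ∈ A and b ∈ B. -/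
theorem result {F : Type*} [Field F] [Fintype F]
    (h2 : 2 ∣ Fintype.card F) (h4 : 4 ≤ Fintype.card F) :
    ∃ A B : Subgroup (Matrix.ProjectiveSpecialLinearGroup (Fin 2) F),
      IsCyclic A ∧ Nat.card A = Fintype.card F + 1 ∧ IsMulCommutative B ∧ (∀ b ∈ B, b * b = 1) ∧
        Nat.card B = Fintype.card F ∧
        ∀ g : Matrix.ProjectiveSpecialLinearGroup (Fin 2) F, ∃ a ∈ A, ∃ b ∈ B, ∃ c ∈ A, g = a * b * c := by
  classical
  have hchar : ringChar F = 2 := FiniteField.even_card_iff_char_two.mpr (by omega)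
  have : CharP F 2 := ringChar.of_eq hchar
  have h20 : (2 : F) = 0 := CharTwo.two_eq_zero
  have hsq : ∀ c : F, IsSquare c := FiniteField.isSquare_of_char_two hchar
  obtain ⟨e⟩ := Cfsg.Agent.Lib.Helper64.psl2_equiv_sl2 F
  obtain ⟨a, b, hab⟩ := exists_aniso (F := F)
  have hinj : Function.Injective (e.symm.toMonoidHom) := e.symm.injective
  refine ⟨(nonsplit a b).map e.symm.toMonoidHom, (USL F).map e.symm.toMonoidHom, ?_, ?_, ?_, ?_, ?_, ?_⟩
  · have := isCyclic_nonsplit hab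
    exact (((nonsplit a b).equivMapOfInjective _ hinj).isCyclic).mp this
  · rw [Subgroup.card_map_of_injective hinj, card_nonsplit hab]
  · have : IsMulCommutative (USL F) := by
      refine ⟨⟨?_⟩⟩
      rintro ⟨u, hu⟩ ⟨v, hv⟩
      obtain ⟨β, rfl⟩ := mem_USL.mp hu
      obtain ⟨β', rfl⟩ := mem_USL.mp hv
      apply Subtype.ext
      change uSL β * uSL β' = uSL β' * uSL β
      rw [uSL_mul, uSL_mul, add_comm]
    exact Subgroup.map_isMulCommutative _ _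
  · rintro _ ⟨u, hu, rfl⟩
    obtain ⟨β, rfl⟩ := mem_USL.mp hu
    rw [← map_mul, uSL_mul]
    have : β + β = 0 := by linear_combination β * h20
    rw [this, uSL_zero, map_one]
  · rw [Subgroup.card_map_of_injective hinj, card_USL]
  · intro g
    obtain ⟨X, hX, u, hu, Y, hY, h⟩ := sl_ABA h20 hsq hab (e g)
    refine ⟨_, ⟨X, hX, rfl⟩, _, ⟨u, hu, rfl⟩, _, ⟨Y, hY, rfl⟩, ?_⟩
    rw [← map_mul, ← map_mul, ← h]
    simp

end Cfsg.Agent.S2503
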