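import Cfsg.Statements.S2504
-- import your own Cfsg.Agent.* helpers here
import Mathlib
import Cfsg.Agent.Lib.Helper47.AbelianAlt

set_option autoImplicit false
open Cfsg

namespace Cfsg.Agent.S2504

open Cfsg.Agent.Lib.Helper47

/-- The largest order of an abelian subgroup of the alternating group of degree n is 3^k when n = 3k, 4·3^(k−1) when n = 3k + 1, and 16·3^(k−2) when n = 3k + 2, for every k ≥ 2 (so for all degrees n ≥ 6). -/
theorem result (k : ℕ) (hk : 2 ≤ k) :
    IsGreatest {c : ℕ | ∃ A : Subgroup (alternatingGroup (Fin (3 * k))), IsMulCommutative A ∧ Nat.card A = c} (3 ^ k) ∧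
    IsGreatest {c : ℕ | ∃ A : Subgroup (alternatingGroup (Fin (3 * k + 1))), IsMulCommutative A ∧ Nat.card A = c}
      (4 * 3 ^ (k - 1)) ∧
    IsGreatest {c : ℕ | ∃ A : Subgroup (alternatingGroup (Fin (3 * k + 2))), IsMulCommutative A ∧ Nat.card A = c}
      (16 * 3 ^ (k - 2)) := by
  obtain ⟨j, rfl⟩ : ∃ j, k = j + 2 := ⟨k - 2, by omega⟩
  refine ⟨⟨?_, ?_⟩, ⟨?_, ?_⟩, ⟨?_, ?_⟩⟩
  · exact (HasAb.three_mul True (j + 2)).toAlt
  · rintro c ⟨A, hA, rfl⟩
    rw [← gmax_three_mul]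
    exact card_le_gmax_alt _ A hA
  · have h := HasAb.four.add (HasAb.three_mul True (j + 1))
    rw [show 4 + 3 * (j + 1) = 3 * (j + 2) + 1 by ring] at h
    exact h.toAlt
  · rintro c ⟨A, hA, rfl⟩
    rw [show j + 2 - 1 = j + 1 by omega, ← gmax_three_mul_add_one]
    exact card_le_gmax_alt _ A hA
  · have h := (HasAb.four.add HasAb.four).add (HasAb.three_mul True j)
    rw [show 4 + 4 + 3 * j = 3 * (j + 2) + 2 by ring] at h
    exact h.toAlt
  · rintro c ⟨A, hA, rfl⟩
    rw [Nat.add_sub_cancel, ← hmax_three_mul_add_eight, show 3 * j + 8 = 3 * (j + 2) + 2 by ring]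
    exact card_le_hmax_alt _ A hA

end Cfsg.Agent.S2504
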