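import Cfsg.Statements.S2506
import Cfsg.Agent.Lib.Helper46.AbAlt.Main

set_option autoImplicit false
open scoped Pointwise
open Cfsg

namespace Cfsg.Agent.S2506

/-- In the alternating group of any degree, any two abelian subgroups of the largest possible order (among abelian subgroups) are conjugate. -/
theorem result (n : ℕ)
    (A B : Subgroup (alternatingGroup (Fin n))) (hA : IsMulCommutative A) (hB : IsMulCommutative B)
    (hAmax : ∀ C : Subgroup (alternatingGroup (Fin n)), IsMulCommutative C → Nat.card C ≤ Nat.card A)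
    (hBmax : ∀ C : Subgroup (alternatingGroup (Fin n)), IsMulCommutative C → Nat.card C ≤ Nat.card B) :
    ∃ g : alternatingGroup (Fin n), B = MulAut.conj g • A := by
  classical
  have hcardOf : ∀ D : Subgroup (alternatingGroup (Fin n)), IsMulCommutative D →
      (∀ C : Subgroup (alternatingGroup (Fin n)), IsMulCommutative C → Nat.card C ≤ Nat.card D) →
      Nat.card D = Cfsg.Agent.Lib.Helper47.hmax n := by
    intro D hD hmax
    obtain ⟨C, hC, hCc⟩ := (Cfsg.Agent.Lib.Helper46.AbAlt.hasAb_hmax n).toAlt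
    have h1 := hmax C hC
    have h2 := Cfsg.Agent.Lib.Helper47.card_le_hmax_alt n D hD
    omega
  have hcA := hcardOf A hA hAmax
  have hcB := hcardOf B hB hBmax
  by_cases hn : n ≤ 2
  · have h1 : Cfsg.Agent.Lib.Helper47.hmax n = 1 := by
      interval_cases n <;> rfl
    rw [h1] at hcA hcB
    have hAb : A = ⊥ := Subgroup.card_eq_one.mp hcA
    have hBb : B = ⊥ := Subgroup.card_eq_one.mp hcB
    refine ⟨1, ?_⟩
    rw [hAb, hBb]
    simp
  by_cases h5 : n = 5
  · subst h5
    exact Cfsg.Agent.Lib.Helper46.AbAlt.conj_five A B hcA hcB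
  have hExt : ∀ D : Subgroup (alternatingGroup (Fin n)), IsMulCommutative D →
      Nat.card D = Cfsg.Agent.Lib.Helper47.hmax n →
      Cfsg.Agent.Lib.Helper46.AbAlt.Ext (D.map (alternatingGroup (Fin n)).subtype) := by
    intro D hD hc
    refine ⟨?_, ?_, ?_⟩
    · rintro _ ⟨a, ha, rfl⟩ _ ⟨b, hb, rfl⟩
      have := congrArg Subtype.val (mul_comm' (⟨a, ha⟩ : D) ⟨b, hb⟩)
      exact congrArg Subtype.val this
    · rintro _ ⟨a, -, rfl⟩
      exact Equiv.Perm.mem_alternatingGroup.mp a.2
    · rw [Subgroup.card_map_of_injective (alternatingGroup (Fin n)).subtype_injective, hc,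
        Fintype.card_fin]
  obtain ⟨f, hf1, hf⟩ := Cfsg.Agent.Lib.Helper46.AbAlt.exists_conj_even _ _ (hExt A hA hcA)
    (hExt B hB hcB) (by rw [Fintype.card_fin]; omega) (by rw [Fintype.card_fin]; exact h5)
  refine ⟨⟨f, Equiv.Perm.mem_alternatingGroup.mpr hf1⟩, ?_⟩
  ext b
  constructor
  · intro hb
    have h1 : (b : Equiv.Perm (Fin n)) ∈ B.map (alternatingGroup (Fin n)).subtype := ⟨b, hb, rfl⟩
    rw [hf, Cfsg.Agent.Lib.Helper46.AbAlt.mem_conj_iff] at h1
    obtain ⟨_, ⟨a, ha, rfl⟩, h2⟩ := h1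
    rw [Subgroup.mem_smul_pointwise_iff_exists]
    refine ⟨a, ha, ?_⟩
    apply Subtype.ext
    simpa [MulAut.smul_def, MulAut.conj_apply] using h2
  · intro hb
    rw [Subgroup.mem_smul_pointwise_iff_exists] at hb
    obtain ⟨a, ha, h2⟩ := hb
    have h3 : (b : Equiv.Perm (Fin n)) ∈ B.map (alternatingGroup (Fin n)).subtype := by
      rw [hf, Cfsg.Agent.Lib.Helper46.AbAlt.mem_conj_iff]
      refine ⟨a, ⟨a, ha, rfl⟩, ?_⟩
      rw [← h2]
      simp [MulAut.smul_def, MulAut.conj_apply]
    obtain ⟨b', hb', h4⟩ := h3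
    have : b' = b := Subtype.ext h4
    rwa [this] at hb'

end Cfsg.Agent.S2506
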