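import Cfsg.Statements.S2507
-- import your own Cfsg.Agent.* helpers here
import Cfsg.Agent.Lib.Helper47.SL2Class

set_option autoImplicit false
open Cfsg

namespace Cfsg.Agent.S2507


open Matrix Cfsg.Agent.Lib.Helper46 Cfsg.Agent.Lib.Helper47

/-- Let F be a finite field with q = 2^f ≥ 4 elements. The conjugacy class sizes of PSL(2,F) are exactly 1, q(q − 1), q² − 1 and q(q + 1). -/
theorem result {F : Type*} [Field F] [Fintype F]
    (h2 : 2 ∣ Fintype.card F) (h4 : 4 ≤ Fintype.card F) :
    Set.range (fun g : (Matrix.ProjectiveSpecialLinearGroup (Fin 2) F) => (Subgroup.centralizer ({g} : Set (Matrix.ProjectiveSpecialLinearGroup (Fin 2) F))).index) =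
      {1, Fintype.card F * (Fintype.card F - 1), Fintype.card F ^ 2 - 1, Fintype.card F * (Fintype.card F + 1)} := by
  classical
  have h20 : (2 : F) = 0 := by
    rcases parity_cases (F := F) with ⟨-, h⟩ | ⟨h, -⟩
    · omega
    · exact h
  have hk : Nat.card {s : F // s ^ 2 = 1} = 1 := card_sq_eq_one_of_two_eq_zero h20
  have hidx : ∀ X : SpecialLinearGroup (Fin 2) F,
      (Subgroup.centralizer ({(QuotientGroup.mk X : ProjectiveSpecialLinearGroup (Fin 2) F)} :
        Set (ProjectiveSpecialLinearGroup (Fin 2) F))).index
      = (Subgroup.centralizer ({X} : Set (SpecialLinearGroup (Fin 2) F))).index := by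
    intro X
    rw [index_centralizer_mk, Cstar_eq X (Or.inl h20)]
  ext n
  simp only [Set.mem_range, Set.mem_insert_iff, Set.mem_singleton_iff]
  constructor
  · rintro ⟨g, rfl⟩
    obtain ⟨X, rfl⟩ := QuotientGroup.mk_surjective g
    rw [hidx]
    by_cases hX : X ∈ Subgroup.center (SpecialLinearGroup (Fin 2) F)
    · left
      exact index_centralizer_of_mem_center X hX
    · rcases index_centralizer_cases X hX with ⟨-, h⟩ | ⟨-, h⟩ | ⟨-, h⟩
      · right; left; exact h
      · right; right; right; exact h
      · right; right; left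
        rw [hk, one_mul] at h
        exact h
  · rintro (rfl | rfl | rfl | rfl)
    · exact ⟨1, index_centralizer_of_mem_center _ (Subgroup.one_mem _)⟩
    · obtain ⟨X₀, -, h⟩ := exists_nonsplit (F := F)
      refine ⟨QuotientGroup.mk X₀, ?_⟩
      rw [hidx]
      exact index_centralizer_of_nonsplit X₀ h
    · refine ⟨QuotientGroup.mk (uu 1), ?_⟩
      rw [hidx]
      have := index_centralizer_of_unip (uu (1 : F)) uu_not_mem_center (by rw [tr_uu]; norm_num)
      rw [hk, one_mul] at this
      exact this
    · obtain ⟨u, hu⟩ := exists_unit_order (F := F)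
      refine ⟨QuotientGroup.mk (dd u), ?_⟩
      rw [hidx]
      apply index_centralizer_of_split (dd u) u (dd_root u)
      intro h
      have h1 : u ^ 2 = 1 := by
        apply Units.ext
        simpa using h
      have h2 := Nat.le_of_dvd (by norm_num) (orderOf_dvd_of_pow_eq_one h1)
      omega

end Cfsg.Agent.S2507
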