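import Cfsg.Statements.S2508
-- import your own Cfsg.Agent.* helpers here
import Cfsg.Agent.Lib.Helper47.SL2Class

set_option autoImplicit false
open Cfsg

namespace Cfsg.Agent.S2508


open Matrix Cfsg.Agent.Lib.Helper46 Cfsg.Agent.Lib.Helper47

/-- abbreviation for the class size of `g` in `PSL₂` -/
noncomputable def cs {F : Type*} [Field F] (g : ProjectiveSpecialLinearGroup (Fin 2) F) : ℕ :=
  (Subgroup.centralizer ({g} : Set (ProjectiveSpecialLinearGroup (Fin 2) F))).index

section
variable {F : Type*} [Field F] [Fintype F]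

theorem two_ne (hodd : ¬ 2 ∣ Fintype.card F) : (2 : F) ≠ 0 := by
  rcases parity_cases (F := F) with ⟨h, -⟩ | ⟨-, h⟩
  · exact h
  · omega

omit [Fintype F] in
theorem cs_of_tr_ne (X : SpecialLinearGroup (Fin 2) F) (ht : tr X ≠ 0) :
    cs (QuotientGroup.mk X : ProjectiveSpecialLinearGroup (Fin 2) F)
      = (Subgroup.centralizer ({X} : Set (SpecialLinearGroup (Fin 2) F))).index := by
  rw [cs, index_centralizer_mk, Cstar_eq X (Or.inr ht)]

theorem cs_cases (hodd : ¬ 2 ∣ Fintype.card F) (g : ProjectiveSpecialLinearGroup (Fin 2) F) :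
    cs g = 1 ∨ cs g = (Fintype.card F ^ 2 - 1) / 2 ∨
      cs g = Fintype.card F * (Fintype.card F - 1) ∨
      cs g = Fintype.card F * (Fintype.card F + 1) ∨
      (Fintype.card F % 4 = 1 ∧ cs g = Fintype.card F * (Fintype.card F + 1) / 2) ∨
      (Fintype.card F % 4 = 3 ∧ cs g = Fintype.card F * (Fintype.card F - 1) / 2) := by
  have h20 := two_ne hodd
  have hk : Nat.card {s : F // s ^ 2 = 1} = 2 := card_sq_eq_one_of_two_ne_zero h20
  obtain ⟨X, rfl⟩ := QuotientGroup.mk_surjective g
  by_cases hX : X ∈ Subgroup.center (SpecialLinearGroup (Fin 2) F)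
  · left
    rw [cs, index_centralizer_mk, Cstar_eq_top X hX, Subgroup.index_top]
  · by_cases ht : tr X = 0
    · have h := psl_index_tr_zero (by omega) X ht
      have h4 : Fintype.card F % 4 = 1 ∨ Fintype.card F % 4 = 3 := by omega
      rcases h4 with h4 | h4
      · right; right; right; right; left
        exact ⟨h4, h.1 h4⟩
      · right; right; right; right; right
        exact ⟨h4, h.2 h4⟩
    · rw [cs_of_tr_ne X ht]
      rcases index_centralizer_cases X hX with ⟨-, h⟩ | ⟨-, h⟩ | ⟨-, h⟩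
      · right; right; left; exact h
      · right; right; right; left; exact h
      · right; left
        rw [hk] at h
        omega

omit [Fintype F] in
theorem exists_cs_one : ∃ g : ProjectiveSpecialLinearGroup (Fin 2) F, cs g = 1 :=
  ⟨1, index_centralizer_of_mem_center _ (Subgroup.one_mem _)⟩

theorem exists_cs_unip (hodd : ¬ 2 ∣ Fintype.card F) :
    ∃ g : ProjectiveSpecialLinearGroup (Fin 2) F, cs g = (Fintype.card F ^ 2 - 1) / 2 := by
  have h20 := two_ne hodd
  have hk : Nat.card {s : F // s ^ 2 = 1} = 2 := card_sq_eq_one_of_two_ne_zero h20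
  refine ⟨QuotientGroup.mk (uu 1), ?_⟩
  rw [cs_of_tr_ne _ (by rw [tr_uu]; exact h20)]
  have := index_centralizer_of_unip (uu (1 : F)) uu_not_mem_center (by rw [tr_uu]; norm_num)
  rw [hk] at this
  omega

theorem exists_cs_nonsplit (h7 : 7 ≤ Fintype.card F) :
    ∃ g : ProjectiveSpecialLinearGroup (Fin 2) F,
      cs g = Fintype.card F * (Fintype.card F - 1) := by
  obtain ⟨X₀, ho, h⟩ := exists_nonsplit (F := F)
  refine ⟨QuotientGroup.mk X₀, ?_⟩
  rw [cs_of_tr_ne]
  · exact index_centralizer_of_nonsplit X₀ h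
  · intro ht
    have h1 := sq_of_tr_zero X₀ ht
    have h2 : X₀ ^ 4 = 1 := by
      calc X₀ ^ 4 = (X₀ * X₀) * (X₀ * X₀) := by simp only [pow_succ, pow_zero, one_mul, mul_assoc]
        _ = 1 := by rw [h1, negOne_mul_negOne]
    have h3 := Nat.le_of_dvd (by norm_num) (orderOf_dvd_of_pow_eq_one h2)
    omega

theorem exists_cs_split (h7 : 7 ≤ Fintype.card F) :
    ∃ g : ProjectiveSpecialLinearGroup (Fin 2) F,
      cs g = Fintype.card F * (Fintype.card F + 1) := by
  obtain ⟨u, hu⟩ := exists_unit_order (F := F)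
  have hu4 : u ^ 4 ≠ 1 := by
    intro h1
    have h2 := Nat.le_of_dvd (by norm_num) (orderOf_dvd_of_pow_eq_one h1)
    omega
  have hu4' : (u : F) ^ 4 ≠ 1 := by
    intro h
    apply hu4
    apply Units.ext
    simpa using h
  refine ⟨QuotientGroup.mk (dd u), ?_⟩
  rw [cs_of_tr_ne]
  · apply index_centralizer_of_split (dd u) u (dd_root u)
    intro h
    apply hu4'
    calc (u : F) ^ 4 = ((u : F) ^ 2) ^ 2 := by ring
      _ = 1 := by rw [h]; ring
  · intro ht
    have h1 := dd_root u
    rw [ht] at h1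
    apply hu4'
    have h2 : (u : F) ^ 2 = -1 := by linear_combination h1
    calc (u : F) ^ 4 = ((u : F) ^ 2) ^ 2 := by ring
      _ = 1 := by rw [h2]; ring

theorem exists_cs_tr_zero (hodd : ¬ 2 ∣ Fintype.card F) :
    ∃ g : ProjectiveSpecialLinearGroup (Fin 2) F,
      (Fintype.card F % 4 = 1 → cs g = Fintype.card F * (Fintype.card F + 1) / 2) ∧
      (Fintype.card F % 4 = 3 → cs g = Fintype.card F * (Fintype.card F - 1) / 2) :=
  ⟨QuotientGroup.mk ww, psl_index_tr_zero (by omega) ww tr_ww⟩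

end

/-- Let F be a finite field with q elements, q odd and q ≥ 7. If q ≡ 1 (mod 4) the conjugacy class sizes of PSL(2,F) are exactly 1, (q² − 1)/2, q(q + 1)/2, q(q − 1) and q(q + 1); if q ≡ 3 (mod 4) they are exactly 1, (q² − 1)/2, q(q − 1)/2, q(q + 1) and q(q − 1). -/
theorem result {F : Type*} [Field F] [Fintype F]
    (hodd : ¬ 2 ∣ Fintype.card F) (h7 : 7 ≤ Fintype.card F) :
    (Fintype.card F % 4 = 1 →
      Set.range (fun g : (Matrix.ProjectiveSpecialLinearGroup (Fin 2) F) => (Subgroup.centralizer ({g} : Set (Matrix.ProjectiveSpecialLinearGroup (Fin 2) F))).index) =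
        {1, (Fintype.card F ^ 2 - 1) / 2, Fintype.card F * (Fintype.card F + 1) / 2,
          Fintype.card F * (Fintype.card F - 1), Fintype.card F * (Fintype.card F + 1)}) ∧
    (Fintype.card F % 4 = 3 →
      Set.range (fun g : (Matrix.ProjectiveSpecialLinearGroup (Fin 2) F) => (Subgroup.centralizer ({g} : Set (Matrix.ProjectiveSpecialLinearGroup (Fin 2) F))).index) =
        {1, (Fintype.card F ^ 2 - 1) / 2, Fintype.card F * (Fintype.card F - 1) / 2,
          Fintype.card F * (Fintype.card F + 1), Fintype.card F * (Fintype.card F - 1)}) := by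
  classical
  obtain ⟨g1, hg1⟩ := exists_cs_one (F := F)
  obtain ⟨g2, hg2⟩ := exists_cs_unip hodd
  obtain ⟨g3, hg3⟩ := exists_cs_nonsplit h7
  obtain ⟨g4, hg4⟩ := exists_cs_split h7
  obtain ⟨g5, hg5⟩ := exists_cs_tr_zero hodd
  constructor
  · intro h4
    ext n
    simp only [Set.mem_range, Set.mem_insert_iff, Set.mem_singleton_iff]
    constructor
    · rintro ⟨g, rfl⟩
      rcases cs_cases hodd g with h | h | h | h | ⟨-, h⟩ | ⟨h', -⟩
      · exact Or.inl h
      · exact Or.inr (Or.inl h)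
      · exact Or.inr (Or.inr (Or.inr (Or.inl h)))
      · exact Or.inr (Or.inr (Or.inr (Or.inr h)))
      · exact Or.inr (Or.inr (Or.inl h))
      · omega
    · rintro (rfl | rfl | rfl | rfl | rfl)
      · exact ⟨g1, hg1⟩
      · exact ⟨g2, hg2⟩
      · exact ⟨g5, hg5.1 h4⟩
      · exact ⟨g3, hg3⟩
      · exact ⟨g4, hg4⟩
  · intro h4
    ext n
    simp only [Set.mem_range, Set.mem_insert_iff, Set.mem_singleton_iff]
    constructor
    · rintro ⟨g, rfl⟩
      rcases cs_cases hodd g with h | h | h | h | ⟨h', -⟩ | ⟨-, h⟩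
      · exact Or.inl h
      · exact Or.inr (Or.inl h)
      · exact Or.inr (Or.inr (Or.inr (Or.inr h)))
      · exact Or.inr (Or.inr (Or.inr (Or.inl h)))
      · omega
      · exact Or.inr (Or.inr (Or.inl h))
    · rintro (rfl | rfl | rfl | rfl | rfl)
      · exact ⟨g1, hg1⟩
      · exact ⟨g2, hg2⟩
      · exact ⟨g5, hg5.2 h4⟩
      · exact ⟨g4, hg4⟩
      · exact ⟨g3, hg3⟩

end Cfsg.Agent.S2508
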