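import Cfsg.Statements.S2510
import Cfsg.Agent.Lib.Helper48.ProjPSL

set_option autoImplicit false
open Cfsg

namespace Cfsg.Agent.S2510

/-- Let F be a finite field with q = p^a elements, n ≥ 2 (with q ≥ 4 when n = 2), L = PSL(n, F), and let r be a prime dividing q − 1 and not dividing n. Then for every m the direct product L × L × L × (ℤ/r)^m has the same set of element orders as L × L × L; and if n − 1 ≠ p^j for every j ≥ 0 (so never when n = 2, since 1 = p^0), then already L × L × (ℤ/r)^m has the same set of element orders as L × L. -/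
theorem result {F : Type*} [Field F] [Fintype F] (p a n r m : ℕ) (hp : p.Prime) (ha : 1 ≤ a) (hF : Fintype.card F = p ^ a)
    (hn : 2 ≤ n) (hn2 : n = 2 → 4 ≤ Fintype.card F) (hr : r.Prime) (hrq : r ∣ Fintype.card F - 1) (hrn : ¬ r ∣ n) :
    Set.range (orderOf : Matrix.ProjectiveSpecialLinearGroup (Fin n) F × Matrix.ProjectiveSpecialLinearGroup (Fin n) F × Matrix.ProjectiveSpecialLinearGroup (Fin n) F × Multiplicative (Fin m → ZMod r) → ℕ) =
      Set.range (orderOf : Matrix.ProjectiveSpecialLinearGroup (Fin n) F × Matrix.ProjectiveSpecialLinearGroup (Fin n) F × Matrix.ProjectiveSpecialLinearGroup (Fin n) F → ℕ) ∧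
    ((¬ ∃ j : ℕ, n - 1 = p ^ j) →
      Set.range (orderOf : Matrix.ProjectiveSpecialLinearGroup (Fin n) F × Matrix.ProjectiveSpecialLinearGroup (Fin n) F × Multiplicative (Fin m → ZMod r) → ℕ) =
        Set.range (orderOf : Matrix.ProjectiveSpecialLinearGroup (Fin n) F × Matrix.ProjectiveSpecialLinearGroup (Fin n) F → ℕ)) := by
  classical
  haveI : Fact p.Prime := ⟨hp⟩
  haveI : CharP F p := by
    obtain ⟨p', hp'⟩ := CharP.exists F
    obtain ⟨k, hk1, hk2⟩ := FiniteField.card F p'
    have h1 : p ∣ p' ^ (k : ℕ) := by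
      rw [← hk2, hF]
      exact dvd_pow_self p (by omega)
    have h2 : p = p' := (Nat.prime_dvd_prime_iff_eq hp hk1).1 (hp.dvd_of_dvd_pow h1)
    rw [h2]
    exact hp'
  have H0 : ∀ x : Matrix.ProjectiveSpecialLinearGroup (Fin n) F,
      (∃ y : Matrix.ProjectiveSpecialLinearGroup (Fin n) F, orderOf x ∣ orderOf y ∧ r ∣ orderOf y) ∨
      orderOf x ∣ ((Fintype.card F ^ n - 1) / (Fintype.card F - 1)) / Nat.gcd n (Fintype.card F - 1) ∨
      (∃ t, 1 ≤ t ∧ n = p ^ (t - 1) + 1 ∧ orderOf x ∣ p ^ t) := by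
    intro x
    obtain ⟨T, hT, hTo⟩ := Lib.Helper48.exists_pord_of_PSL x
    rcases Lib.Helper48.pord_dichotomy p n hn r hr hrq hrn T hT _ hTo with
      ⟨T', b, h1, h2, h3, h4⟩ | h | h
    · left
      obtain ⟨y, hy⟩ := Lib.Helper48.exists_PSL_orderOf_of_pord T' h1 b h2
      exact ⟨y, hy ▸ h3, hy ▸ h4⟩
    · exact Or.inr (Or.inl h)
    · exact Or.inr (Or.inr h)
  refine ⟨Lib.Helper48.range_orderOf_prod3 r m hr _ (p ^ Nat.clog p n)
    (Lib.Helper48.exists_PSL_orderOf_singer n (by omega))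
    (Lib.Helper48.exists_PSL_orderOf_unip p n (by omega))
    (Lib.Helper48.exists_PSL_orderOf_prime p n hn r hr hrq hrn) ?_, fun hj =>
    Lib.Helper48.range_orderOf_prod2 r m hr _
    (Lib.Helper48.exists_PSL_orderOf_singer n (by omega))
    (Lib.Helper48.exists_PSL_orderOf_prime p n hn r hr hrq hrn) ?_⟩
  · intro x
    rcases H0 x with h | h | ⟨t, ht1, ht2, ht3⟩
    · exact Or.inl h
    · exact Or.inr (Or.inl h)
    · refine Or.inr (Or.inr (ht3.trans (pow_dvd_pow p ?_)))
      have h5 : t - 1 < Nat.clog p n := by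
        rw [Nat.lt_clog_iff_pow_lt hp.one_lt]
        omega
      omega
  · intro x
    rcases H0 x with h | h | ⟨t, ht1, ht2, ht3⟩
    · exact Or.inl h
    · exact Or.inr h
    · exact absurd ⟨t - 1, by omega⟩ hj

end Cfsg.Agent.S2510
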