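import Cfsg.Statements.S2511
import Cfsg.Agent.Lib.Helper48.UDich

set_option autoImplicit false
open Cfsg

namespace Cfsg.Agent.S2511

/-- Let F be a finite field with q² elements, q = p^a, n ≥ 3 with (n, q) ≠ (3, 2), L = PSU(n, q) realised over F, and let r be a prime dividing q + 1 and not dividing n. Then for every m the direct product L × L × L × (ℤ/r)^m has the same set of element orders as L × L × L; and if n − 1 is not a power of p, then already L × L × (ℤ/r)^m has the same set of element orders as L × L. -/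
theorem result {F : Type*} [Field F] [Fintype F] (p a n q r m : ℕ) (hp : p.Prime) (ha : 1 ≤ a) (hq : q = p ^ a) (hF : Fintype.card F = q ^ 2)
    (hn : 3 ≤ n) (hn3 : ¬ (n = 3 ∧ q = 2)) (hr : r.Prime) (hrq : r ∣ q + 1) (hrn : ¬ r ∣ n) :
    Set.range (orderOf : Cfsg.PSU n F q × Cfsg.PSU n F q × Cfsg.PSU n F q × Multiplicative (Fin m → ZMod r) → ℕ) = Set.range (orderOf : Cfsg.PSU n F q × Cfsg.PSU n F q × Cfsg.PSU n F q → ℕ) ∧
    ((¬ ∃ j : ℕ, n - 1 = p ^ j) →
      Set.range (orderOf : Cfsg.PSU n F q × Cfsg.PSU n F q × Multiplicative (Fin m → ZMod r) → ℕ) = Set.range (orderOf : Cfsg.PSU n F q × Cfsg.PSU n F q → ℕ)) := by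
  classical
  haveI : Fact p.Prime := ⟨hp⟩
  haveI : CharP F p := by
    obtain ⟨p', hp'⟩ := CharP.exists F
    obtain ⟨k, hk1, hk2⟩ := FiniteField.card F p'
    have h1 : p ∣ p' ^ (k : ℕ) := by
      rw [← hk2, hF, hq, ← pow_mul]
      exact dvd_pow_self p (by omega)
    have h2 : p = p' := (Nat.prime_dvd_prime_iff_eq hp hk1).1 (hp.dvd_of_dvd_pow h1)
    rw [h2]
    exact hp'
  have H0 : ∀ x : Cfsg.PSU n F q,
      (∃ y : Cfsg.PSU n F q, orderOf x ∣ orderOf y ∧ r ∣ orderOf y) ∨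
      orderOf x ∣ Lib.Helper48.uM q n / Nat.gcd n (q + 1) ∨
      (∃ t, 1 ≤ t ∧ n = p ^ (t - 1) + 1 ∧ orderOf x ∣ p ^ t) := by
    intro x
    obtain ⟨T, hTo⟩ := Lib.Helper48.exists_pord_of_PSU hF x
    rcases Lib.Helper48.psu_dichotomy hF p (by omega) r hr hrq hrn T _ hTo with
      ⟨T', b, h2, h3, h4⟩ | h | h
    · left
      have hy := Lib.Helper48.orderOf_mk_of_pord hF T' h2
      exact ⟨QuotientGroup.mk T', hy.symm ▸ h3, hy.symm ▸ h4⟩
    · exact Or.inr (Or.inl h)
    · exact Or.inr (Or.inr h)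
  refine ⟨Lib.Helper48.range_orderOf_prod3 r m hr _ (p ^ Nat.clog p n)
    (Lib.Helper48.exists_PSU_torus hF (by omega))
    (Lib.Helper48.exists_PSU_unip hF p (by omega))
    (Lib.Helper48.exists_PSU_prime hF (by omega) r hr hrq hrn) ?_, fun hj =>
    Lib.Helper48.range_orderOf_prod2 r m hr _
    (Lib.Helper48.exists_PSU_torus hF (by omega))
    (Lib.Helper48.exists_PSU_prime hF (by omega) r hr hrq hrn) ?_⟩
  · intro x
    rcases H0 x with h | h | ⟨t, ht1, ht2, ht3⟩
    · exact Or.inl h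
    · exact Or.inr (Or.inl h)
    · refine Or.inr (Or.inr (ht3.trans (pow_dvd_pow p ?_)))
      have h5 : t - 1 < Nat.clog p n := by
        rw [Nat.lt_clog_iff_pow_lt hp.one_lt]
        omega
      omega
  · intro x
    rcases H0 x with h | h | ⟨t, ht1, ht2, ht3⟩
    · exact Or.inl h
    · exact Or.inr h
    · exact absurd ⟨t - 1, by omega⟩ hj

end Cfsg.Agent.S2511
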