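import Cfsg.Statements.S2513
import Cfsg.Agent.Lib.Helper48.GLOrders
import Cfsg.Agent.Lib.Helper48.SpecPow
import Cfsg.Agent.Lib.Helper48.PSLTwo

set_option autoImplicit false
open Cfsg

namespace Cfsg.Agent.S2513

/-- Let F be the field with two elements, n ≥ 2, L = PSL(n, F) and k₀ = ⌊(n + 3)/2⌋. Then for every k ≥ k₀ the direct product of k copies of L has the same set of element orders as the direct product of k₀ copies of L. -/
theorem result {F : Type*} [Field F] [Fintype F] (hF : Fintype.card F = 2) (n k : ℕ) (hn : 2 ≤ n) (hk : (n + 3) / 2 ≤ k) :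
    Set.range (orderOf : (Fin k → Matrix.ProjectiveSpecialLinearGroup (Fin n) F) → ℕ) = Set.range (orderOf : (Fin ((n + 3) / 2) → Matrix.ProjectiveSpecialLinearGroup (Fin n) F) → ℕ) := by
  classical
  obtain ⟨ε⟩ := Cfsg.Agent.Lib.Helper48.nonempty_GL_mulEquiv_PSL hF n
  have h20 : (2 : F) = 0 := by
    by_contra h
    have h1 := Cfsg.Agent.Lib.Helper48.eq_one_of_ne_zero_of_card_two hF 2 h
    have h2 : (1 : F) = 0 := by
      have : (1 : F) + 1 = 1 := by rw [one_add_one_eq_two]; exact h1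
      simpa using this
    exact one_ne_zero h2
  have hchar : CharP F 2 := CharTwo.of_one_ne_zero_of_two_eq_zero one_ne_zero h20
  have hcard : Nat.card F = 2 := by rw [Nat.card_eq_fintype_card, hF]
  have hM : ∀ j : Fin ((n + 3) / 2), ∃ g : GL (Fin n) F,
      (j.val = 0 → orderOf g = 2 ^ Nat.clog 2 n) ∧ (j.val = 1 → orderOf g = 2 ^ n - 1) ∧
      (2 ≤ j.val → orderOf g = Nat.lcm (2 ^ (j.val - 1) - 1) (2 ^ (n - (j.val - 1)) - 1)) := by
    intro j
    have hj := j.isLt
    rcases Nat.lt_or_ge j.val 2 with h2 | h2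
    · rcases Nat.eq_zero_or_pos j.val with h0 | h0
      · obtain ⟨g, hg⟩ := Cfsg.Agent.Lib.Helper48.exists_GL_orderOf_unip (F := F) 2 n
        exact ⟨g, fun _ => hg, fun h => by omega, fun h => by omega⟩
      · obtain ⟨g, hg⟩ := Cfsg.Agent.Lib.Helper48.exists_GL_orderOf_singer (F := F) n n
          (by omega) le_rfl
        rw [hcard] at hg
        exact ⟨g, fun h => by omega, fun _ => hg, fun h => by omega⟩
    · obtain ⟨g, hg⟩ := Cfsg.Agent.Lib.Helper48.exists_GL_orderOf_pair (F := F) n (j.val - 1)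
        (n - (j.val - 1)) (by omega) (by omega) (by omega)
      rw [hcard] at hg
      exact ⟨g, fun h => by omega, fun h => by omega, fun _ => hg⟩
  choose M hM0 hM1 hM2 using hM
  refine Cfsg.Agent.Lib.Helper48.range_orderOf_pi_eq ((n + 3) / 2) k hk (fun j => ε (M j)) ?_
  intro x r e hr hx
  simp only [MulEquiv.orderOf_eq]
  have hx' : orderOf (ε.symm x) = r ^ e := by rw [MulEquiv.orderOf_eq, hx]
  rcases Nat.eq_zero_or_pos e with rfl | he
  · exact ⟨⟨0, by omega⟩, by simp⟩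
  by_cases hr2 : r = 2
  · subst hr2
    refine ⟨⟨0, by omega⟩, ?_⟩
    rw [hM0 ⟨0, by omega⟩ rfl]
    exact Cfsg.Agent.Lib.Helper48.pow_dvd_of_orderOf_GL_eq 2 n e _ hx'
  · obtain ⟨d, hd1, hdn, hd⟩ := Cfsg.Agent.Lib.Helper48.exists_dvd_pow_sub_one_of_orderOf_GL 2 n r e
      hr hr2 he.ne' _ hx'
    rw [hF] at hd
    by_cases h1 : d = n
    · subst h1
      refine ⟨⟨1, by omega⟩, ?_⟩
      rw [hM1 ⟨1, by omega⟩ rfl]
      exact hd
    by_cases h2 : d + 2 ≤ (n + 3) / 2
    · refine ⟨⟨d + 1, by omega⟩, ?_⟩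
      rw [hM2 ⟨d + 1, by omega⟩ (by simp; omega)]
      simp only [Nat.add_sub_cancel]
      exact hd.trans (Nat.dvd_lcm_left _ _)
    by_cases h3 : n - d + 2 ≤ (n + 3) / 2
    · refine ⟨⟨n - d + 1, by omega⟩, ?_⟩
      rw [hM2 ⟨n - d + 1, by omega⟩ (by simp; omega)]
      simp only [Nat.add_sub_cancel]
      have : n - (n - d) = d := by omega
      rw [this]
      exact hd.trans (Nat.dvd_lcm_right _ _)
    · have h4 : n = d * 2 := by omega
      refine ⟨⟨1, by omega⟩, ?_⟩
      rw [hM1 ⟨1, by omega⟩ rfl]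
      refine hd.trans ?_
      have := Nat.sub_dvd_pow_sub_pow (2 ^ d) 1 2
      rwa [one_pow, ← pow_mul, ← h4] at this

end Cfsg.Agent.S2513
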