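import Cfsg.Statements.S2514
-- import your own Cfsg.Agent.* helpers here
import Mathlib

set_option autoImplicit false
open Cfsg

namespace Cfsg.Agent.S2514

theorem exists_of_dvd {X : Type*} [Group X] [Finite X] (x : X) (d : ℕ) (hd : d ∣ orderOf x) :
    ∃ y : X, orderOf y = d :=
  ⟨x ^ (orderOf x / d), orderOf_pow_orderOf_div (orderOf_pos x).ne' hd⟩

theorem exists_max {X : Type*} [Group X] [Finite X] (x : X) :
    ∃ m : ℕ, (m ∈ Set.range (orderOf : X → ℕ) ∧ ∀ m' ∈ Set.range (orderOf : X → ℕ), m ∣ m' → m' = m) ∧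
      orderOf x ∣ m := by
  classical
  have hfin : {m : ℕ | m ∈ Set.range (orderOf : X → ℕ) ∧ orderOf x ∣ m}.Finite :=
    (Set.finite_range (orderOf : X → ℕ)).subset (fun m hm => hm.1)
  have hne : {m : ℕ | m ∈ Set.range (orderOf : X → ℕ) ∧ orderOf x ∣ m}.Nonempty :=
    ⟨orderOf x, ⟨x, rfl⟩, dvd_rfl⟩
  obtain ⟨m, ⟨hm1, hm2⟩, hmax⟩ := Set.exists_max_image _ id hfin hne
  refine ⟨m, ⟨hm1, ?_⟩, hm2⟩
  rintro m' ⟨y, rfl⟩ hdvd
  have h1 : orderOf y ≤ m := hmax (orderOf y) ⟨⟨y, rfl⟩, hm2.trans hdvd⟩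
  have h2 : m ≤ orderOf y := Nat.le_of_dvd (orderOf_pos y) hdvd
  exact le_antisymm h1 h2

theorem caseA {G H : Type*} [Group G] [Group H] (k : ℕ) (f : Fin (k + 1) → G)
    (i : Fin (k + 1)) (h : H) (hh : orderOf h = orderOf (f i)) :
    orderOf f ∈ Set.range (orderOf : (Fin k → G) × H → ℕ) := by
  refine ⟨(fun j => f (i.succAbove j), h), ?_⟩
  rw [orderOf_eq_orderOf_iff]
  intro n
  rw [Prod.ext_iff, funext_iff, funext_iff, Fin.forall_iff_succAbove i]
  simp only [Prod.pow_fst, Prod.pow_snd, Prod.fst_one, Prod.snd_one, Pi.pow_apply, Pi.one_apply]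
  rw [← orderOf_dvd_iff_pow_eq_one (x := h), ← orderOf_dvd_iff_pow_eq_one (x := f i), hh]
  tauto

/-- For a finite group X write μ(X) for the set of element orders of X that are maximal under divisibility. Let G and H be finite groups and k ≥ 1 such that μ(H) ⊆ μ(G) and μ(G) has fewer than k elements outside μ(H). Then the direct product of k copies of G has the same set of element orders as the direct product of k − 1 copies of G with H. -/
theorem result {G H : Type*} [Group G] [Finite G] [Group H] [Finite H] (k : ℕ) (hk : 1 ≤ k)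
    (hsub : {n : ℕ | n ∈ Set.range (orderOf : H → ℕ) ∧ ∀ m ∈ Set.range (orderOf : H → ℕ), n ∣ m → m = n} ⊆ {n : ℕ | n ∈ Set.range (orderOf : G → ℕ) ∧ ∀ m ∈ Set.range (orderOf : G → ℕ), n ∣ m → m = n})
    (hfew : ({n : ℕ | n ∈ Set.range (orderOf : G → ℕ) ∧ ∀ m ∈ Set.range (orderOf : G → ℕ), n ∣ m → m = n} \ {n : ℕ | n ∈ Set.range (orderOf : H → ℕ) ∧ ∀ m ∈ Set.range (orderOf : H → ℕ), n ∣ m → m = n}).ncard < k) :
    Set.range (orderOf : (Fin k → G) → ℕ) = Set.range (orderOf : (Fin (k - 1) → G) × H → ℕ) := by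
  classical
  obtain ⟨k, rfl⟩ : ∃ k', k = k' + 1 := ⟨k - 1, by omega⟩
  change Set.range (orderOf : (Fin (k + 1) → G) → ℕ) = Set.range (orderOf : (Fin k → G) × H → ℕ)
  apply Set.Subset.antisymm
  · rintro _ ⟨f, rfl⟩
    choose m hm hdvd using fun l => exists_max (f l)
    by_cases hcase : ∃ l, m l ∈ {n : ℕ | n ∈ Set.range (orderOf : H → ℕ) ∧ ∀ m ∈ Set.range (orderOf : H → ℕ), n ∣ m → m = n}
    · obtain ⟨l, ⟨⟨h0, hh0⟩, -⟩⟩ := hcase
      obtain ⟨h, hh⟩ := exists_of_dvd h0 (orderOf (f l)) (hh0 ▸ hdvd l)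
      exact caseA k f l h hh
    · push Not at hcase
      have hfin : ({n : ℕ | n ∈ Set.range (orderOf : G → ℕ) ∧ ∀ m ∈ Set.range (orderOf : G → ℕ), n ∣ m → m = n} \ {n : ℕ | n ∈ Set.range (orderOf : H → ℕ) ∧ ∀ m ∈ Set.range (orderOf : H → ℕ), n ∣ m → m = n}).Finite :=
        (Set.finite_range (orderOf : G → ℕ)).subset (fun m hm => hm.1.1)
      have hcard : ({n : ℕ | n ∈ Set.range (orderOf : G → ℕ) ∧ ∀ m ∈ Set.range (orderOf : G → ℕ), n ∣ m → m = n} \ {n : ℕ | n ∈ Set.range (orderOf : H → ℕ) ∧ ∀ m ∈ Set.range (orderOf : H → ℕ), n ∣ m → m = n}).ncard < (Set.univ : Set (Fin (k + 1))).ncard := by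
        rw [Set.ncard_univ, Nat.card_fin]
        exact hfew
      obtain ⟨i, -, j, -, hij, hmij⟩ := Set.exists_ne_map_eq_of_ncard_lt_of_maps_to hcard
        (f := m) (fun l _ => ⟨hm l, hcase l⟩) hfin
      obtain ⟨g0, hg0⟩ := (hm i).1
      have hl : Nat.lcm (orderOf (f i)) (orderOf (f j)) ∣ orderOf g0 := by
        rw [hg0]
        exact Nat.lcm_dvd (hdvd i) (hmij ▸ hdvd j)
      obtain ⟨g', hg'⟩ := exists_of_dvd g0 _ hl
      set f'' : Fin (k + 1) → G := Function.update (Function.update f i g') j 1 with hf''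
      have heq : orderOf f = orderOf f'' := by
        rw [orderOf_eq_orderOf_iff]
        intro n
        rw [funext_iff, funext_iff]
        simp only [Pi.pow_apply, Pi.one_apply]
        constructor
        · intro hall l
          by_cases hlj : l = j
          · subst hlj; simp [hf'']
          · by_cases hli : l = i
            · subst hli
              simp only [hf'', Function.update_of_ne hlj, Function.update_self]
              rw [← orderOf_dvd_iff_pow_eq_one, hg']
              exact Nat.lcm_dvd (orderOf_dvd_iff_pow_eq_one.mpr (hall l)) (orderOf_dvd_iff_pow_eq_one.mpr (hall j))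
            · simp only [hf'', Function.update_of_ne hlj, Function.update_of_ne hli]
              exact hall l
        · intro hall l
          have hi := hall i
          simp only [hf'', Function.update_of_ne hij, Function.update_self] at hi
          rw [← orderOf_dvd_iff_pow_eq_one, hg'] at hi
          by_cases hlj : l = j
          · subst hlj
            exact orderOf_dvd_iff_pow_eq_one.mp ((Nat.dvd_lcm_right _ _).trans hi)
          · by_cases hli : l = i
            · subst hli
              exact orderOf_dvd_iff_pow_eq_one.mp ((Nat.dvd_lcm_left _ _).trans hi)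
            · have := hall l
              simpa only [hf'', Function.update_of_ne hlj, Function.update_of_ne hli] using this
      rw [heq]
      exact caseA k f'' j (1 : H) (by simp [hf''])
  · rintro _ ⟨⟨f', h⟩, rfl⟩
    obtain ⟨m, hm, hdvd⟩ := exists_max h
    obtain ⟨⟨g0, hg0⟩, -⟩ := hsub hm
    obtain ⟨g, hg⟩ := exists_of_dvd g0 (orderOf h) (hg0 ▸ hdvd)
    refine ⟨Fin.cons g f', ?_⟩
    rw [orderOf_eq_orderOf_iff]
    intro n
    rw [Prod.ext_iff, funext_iff, funext_iff, Fin.forall_fin_succ]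
    simp only [Prod.pow_fst, Prod.pow_snd, Prod.fst_one, Prod.snd_one, Pi.pow_apply, Pi.one_apply,
      Fin.cons_zero, Fin.cons_succ]
    rw [← orderOf_dvd_iff_pow_eq_one (x := h), ← orderOf_dvd_iff_pow_eq_one (x := g), hg]
    tauto

end Cfsg.Agent.S2514
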