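import Cfsg.Statements.S2515
import Cfsg.Agent.Lib.Helper8.Cube.SPEC
import Cfsg.Agent.Lib.Helper8.Cube.FINC
import Cfsg.Agent.Lib.Helper8.Cube.MU

set_option autoImplicit false
open Cfsg

namespace Cfsg.Agent.S2515

/-- Let q = 3^α with α ≥ 3 odd. There is a finite group H having a non-trivial normal 3-subgroup and whose element orders maximal under divisibility are exactly 6, 9, q − 1 and (q + 1)/2. -/
theorem result (α : ℕ) (hα : 3 ≤ α) (hodd : Odd α) :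
    ∃ (H : Type) (_ : Group H) (_ : Fintype H), (∃ P : Subgroup H, P.Normal ∧ P ≠ ⊥ ∧ IsPGroup 3 ↥P) ∧
      {n : ℕ | n ∈ Set.range (orderOf : H → ℕ) ∧ ∀ m ∈ Set.range (orderOf : H → ℕ), n ∣ m → m = n} = ({6, 9, 3 ^ α - 1, (3 ^ α + 1) / 2} : Set ℕ) := by
  classical
  obtain ⟨m, rfl⟩ := hodd
  have hm : 1 ≤ m := by omega
  have : Fact (Nat.Prime 3) := ⟨Nat.prime_three⟩
  let K₀ := GaloisField 3 (2 * m + 1)
  letI : Fintype K₀ := Fintype.ofFinite K₀
  have hK₀ : Fintype.card K₀ = 3 ^ (2 * m + 1) := by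
    rw [← Nat.card_eq_fintype_card]
    exact GaloisField.card 3 (2 * m + 1) (by omega)
  let θ : K₀ →+* K₀ := iterateFrobenius K₀ 3 (m + 1)
  have hθ : ∀ x, θ (θ x) = x ^ 3 := by
    intro x
    show iterateFrobenius K₀ 3 (m + 1) (iterateFrobenius K₀ 3 (m + 1) x) = x ^ 3
    rw [iterateFrobenius_def, iterateFrobenius_def, ← pow_mul, ← pow_add]
    have h1 : m + 1 + (m + 1) = (2 * m + 1) + 1 := by ring
    rw [h1, pow_succ, pow_mul, ← hK₀, FiniteField.pow_card]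
  have h3 : (3 : K₀) = 0 := by
    have := CharP.cast_eq_zero K₀ 3
    exact_mod_cast this
  have hfin : Finite (Cfsg.Agent.Lib.Helper8.Cube.XG θ 1) :=
    Cfsg.Agent.Lib.Helper8.Cube.finite_XG θ 1
  exact ⟨↥(Cfsg.Agent.Lib.Helper8.Cube.XG θ 1), inferInstance, Fintype.ofFinite _,
    Cfsg.Agent.Lib.Helper8.Cube.exists_normal_three θ 1 h3 le_rfl,
    Cfsg.Agent.Lib.Helper8.Cube.mu_set hm
      (fun d => Cfsg.Agent.Lib.Helper8.Cube.spec_XG θ 1 hK₀ hθ le_rfl d)⟩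

end Cfsg.Agent.S2515
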