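import Cfsg.Statements.S2516
-- import your own Cfsg.Agent.* helpers here

set_option autoImplicit false
open Cfsg

namespace Cfsg.Agent.S2516

/-- Let F be a field of characteristic p > 0, V a non-zero finite-dimensional F-vector space, G a finite group and ρ a representation of G on V; form the semidirect product V ⋊ G. For g ∈ G of order k, the coset Vg contains an element of order pk if and only if the minimal polynomial of ρ(g) does not divide 1 + X + ⋯ + X^(k−1). -/
theorem result {F : Type*} [Field F] (p : ℕ) [Fact p.Prime] [CharP F p] {V : Type*} [AddCommGroup V] [Module F V] [FiniteDimensional F V] [Nontrivial V]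
    {G : Type*} [Group G] [Finite G] (ρ : Representation F G V) (g : G) :
    (∃ x : Multiplicative V ⋊[(MulAutMultiplicative V).symm.toMonoidHom.comp
        ((DistribMulAction.toAddAut ((V →ₗ[F] V)ˣ) V).comp ρ.asGroupHom)] G,
        x.right = g ∧ orderOf x = p * orderOf g) ↔
      ¬ (minpoly F (ρ g) ∣ ∑ i ∈ Finset.range (orderOf g), (Polynomial.X : Polynomial F) ^ i) := by
  classical
  set φ : G →* MulAut (Multiplicative V) := (MulAutMultiplicative V).symm.toMonoidHom.comp
        ((DistribMulAction.toAddAut ((V →ₗ[F] V)ˣ) V).comp ρ.asGroupHom) with hφ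
  have hφapp : ∀ (h : G) (w : Multiplicative V), φ h w = Multiplicative.ofAdd (ρ h (Multiplicative.toAdd w)) := by
    intro h w
    rfl
  have hk : 0 < orderOf g := orderOf_pos g
  have hpow : ∀ (x : Multiplicative V ⋊[φ] G) (n : ℕ), x.right = g →
      (x ^ n).right = g ^ n ∧ (x ^ n).left =
        Multiplicative.ofAdd ((∑ i ∈ Finset.range n, (ρ g) ^ i) (Multiplicative.toAdd x.left)) := by
    intro x n hx
    induction n with
    | zero => simp
    | succ n ih =>
      obtain ⟨ih1, ih2⟩ := ih
      refine ⟨by rw [pow_succ, SemidirectProduct.mul_right, ih1, hx, pow_succ], ?_⟩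
      rw [pow_succ, SemidirectProduct.mul_left, ih1, ih2, hφapp, Finset.sum_range_succ,
        LinearMap.add_apply, ofAdd_add, map_pow]
  have haeval : Polynomial.aeval (ρ g) (∑ i ∈ Finset.range (orderOf g), (Polynomial.X : Polynomial F) ^ i)
      = ∑ i ∈ Finset.range (orderOf g), (ρ g) ^ i := by
    simp
  rw [minpoly.dvd_iff, haeval]
  constructor
  · rintro ⟨x, hx, hord⟩ hN
    obtain ⟨h1, h2⟩ := hpow x (orderOf g) hx
    have hx1 : x ^ orderOf g = 1 := by
      apply SemidirectProduct.ext
      · rw [h2, hN]; simp
      · rw [h1, pow_orderOf_eq_one]; simp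
    have hdvd := orderOf_dvd_of_pow_eq_one hx1
    rw [hord] at hdvd
    have hle := Nat.le_of_dvd hk hdvd
    have hp2 : 2 ≤ p := (Fact.out : p.Prime).two_le
    nlinarith
  · intro hN
    obtain ⟨v, hv⟩ : ∃ v, (∑ i ∈ Finset.range (orderOf g), (ρ g) ^ i) v ≠ 0 := by
      by_contra hcon
      push Not at hcon
      exact hN (LinearMap.ext hcon)
    refine ⟨⟨Multiplicative.ofAdd v, g⟩, rfl, ?_⟩
    set x : Multiplicative V ⋊[φ] G := ⟨Multiplicative.ofAdd v, g⟩ with hxdef
    obtain ⟨h1, h2⟩ := hpow x (orderOf g) rfl
    set w := (∑ i ∈ Finset.range (orderOf g), (ρ g) ^ i) v with hw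
    have hxk : x ^ orderOf g = SemidirectProduct.inl (Multiplicative.ofAdd w) := by
      apply SemidirectProduct.ext
      · rw [h2]; simp [hxdef, hw]
      · rw [h1, pow_orderOf_eq_one]; simp
    have hy : orderOf (x ^ orderOf g) = p := by
      apply orderOf_eq_prime
      · rw [hxk, ← map_pow, ← ofAdd_nsmul]
        have : p • w = 0 := by
          rw [← Nat.cast_smul_eq_nsmul F, CharP.cast_eq_zero, zero_smul]
        rw [this]; simp
      · rw [hxk]
        intro h
        have := SemidirectProduct.inl_injective (h.trans (map_one _).symm)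
        exact hv (by simpa using this)
    have hdvd : orderOf g ∣ orderOf x := by
      have := orderOf_map_dvd (SemidirectProduct.rightHom : Multiplicative V ⋊[φ] G →* G) x
      simpa [hxdef] using this
    rw [orderOf_pow_of_dvd hk.ne' hdvd] at hy
    rw [← hy, Nat.div_mul_cancel hdvd]

end Cfsg.Agent.S2516
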