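import Cfsg.Statements.S2518
import Cfsg.Agent.Lib.Helper93.GP3.Main
import Cfsg.Agent.Lib.Helper90.GI.Asm
import Cfsg.Agent.S2371
import Cfsg.Agent.S1059
-- import your own Cfsg.Agent.* helpers here

set_option autoImplicit false
open Cfsg

namespace Cfsg.Agent.S2518

/-- Let F₃ be the field with 3 elements and F₁₃ the field with 13 elements. The Chevalley group G₂(F₃) and PSL(2, F₁₃) have the same prime graph: the same prime divisors of their orders, and for distinct primes r, s an element of order rs in one iff in the other. -/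
theorem result {F : Type*} [Field F] [Fintype F] (hF : Fintype.card F = 3) {E : Type*} [Field E] [Fintype E] (hE : Fintype.card E = 13) :
    ((∀ r : ℕ, r.Prime → (r ∣ Nat.card ↥(Cfsg.Lie.chevG2.group F) ↔ r ∣ Nat.card (Matrix.ProjectiveSpecialLinearGroup (Fin 2) E))) ∧
      (∀ r s : ℕ, r.Prime → s.Prime → r ≠ s → ((∃ x : ↥(Cfsg.Lie.chevG2.group F), orderOf x = r * s) ↔ (∃ y : (Matrix.ProjectiveSpecialLinearGroup (Fin 2) E), orderOf y = r * s)))) := by
  obtain ⟨e⟩ := Cfsg.Agent.Lib.Helper90.GI.exists_iso (F := F)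
  obtain ⟨H, -, hH, hC⟩ := Cfsg.Agent.S2371.result 3 hF (le_refl 3)
  exact Cfsg.Agent.Lib.Helper93.GP3.main_of hF hE e (by rw [Cfsg.Agent.S1059.result hF]; norm_num) H
    (by rw [hH]; norm_num) hC

end Cfsg.Agent.S2518
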