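import Cfsg.Statements.S2553
import Cfsg.Agent.Lib.Helper94.GL4C7
import Cfsg.Agent.Lib.Helper94.GL4C5
import Cfsg.Agent.Lib.Helper94.GL4R7
import Cfsg.Agent.Lib.Helper94.GL4R5
import Cfsg.Agent.S0144

set_option autoImplicit false
open Cfsg

namespace Cfsg.Agent.S2553

open Cfsg.Agent.Lib.Helper94

open Cfsg.Agent.Lib.Helper94.GL4

theorem case7 (H : Subgroup GG) (hg : Good H) (h7 : 7 ∣ Nat.card H) : Concl H := by
  have := Fact.mk (by norm_num : Nat.Prime 7)
  obtain ⟨x, hx⟩ := code_surj 26689 (by norm_num) (by decide +kernel)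
  obtain ⟨k, hk⟩ := exists_conj_mem 7 (by rw [card_GG]; norm_num) x (order7 x hx) H h7
  obtain ⟨d, hd, hHd⟩ := classify7 x hx _ hk
  let e : H ≃* Kc d.S := ((MulAut.conj k).subgroupMap H).trans (MulEquiv.subgroupCongr hHd)
  exact (res7 d hd (hg.of_equiv e)).of_equiv e

theorem case5 (H : Subgroup GG) (hg : Good H) (h7 : ¬ 7 ∣ Nat.card H) (h5 : 5 ∣ Nat.card H) : Concl H := by
  have := Fact.mk (by norm_num : Nat.Prime 5)
  obtain ⟨x, hx⟩ := code_surj 63554 (by norm_num) (by decide +kernel)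
  obtain ⟨k, hk⟩ := exists_conj_mem 5 (by rw [card_GG]; norm_num) x (order5 x hx) H h5
  obtain ⟨d, hd, hHd⟩ := classify5 x hx _ hk
  let e : H ≃* Kc d.S := ((MulAut.conj k).subgroupMap H).trans (MulEquiv.subgroupCongr hHd)
  exact (res5 d hd (hg.of_equiv e) (by rw [← Nat.card_congr e.toEquiv]; exact h7)).of_equiv e

theorem case0 (H : Subgroup GG) (hH : H ≠ ⊥) (hg : Good H) (h7 : ¬ 7 ∣ Nat.card H) (h5 : ¬ 5 ∣ Nat.card H) :
    False := by
  have hd : Nat.card H ∣ 20160 := by rw [← card_GG]; exact Subgroup.card_subgroup_dvd_card H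
  have c7 : (Nat.card H).Coprime 7 := ((Nat.Prime.coprime_iff_not_dvd (by norm_num)).2 h7).symm
  have c5 : (Nat.card H).Coprime 5 := ((Nat.Prime.coprime_iff_not_dvd (by norm_num)).2 h5).symm
  have h1 : Nat.card H ∣ 2880 := c7.dvd_of_dvd_mul_right (by norm_num; exact hd)
  have h2 : Nat.card H ∣ 2 ^ 6 * 3 ^ 2 := c5.dvd_of_dvd_mul_right (by norm_num; exact h1)
  obtain ⟨a, b, hab⟩ := Cfsg.Agent.S0144.dvd_form Nat.prime_two Nat.prime_three h2
  have hs : Group.IsSolvable H := Cfsg.Agent.S0144.result 2 3 a b Nat.prime_two Nat.prime_three hab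
  have : Nontrivial H := (Subgroup.nontrivial_iff_ne_bot H).2 hH
  exact not_good_of_solvable H hg

/-- Let H be a nontrivial subgroup of GL(4,2) (a group isomorphic to the alternating group of degree 8) whose largest normal 2-subgroup and largest normal subgroup of odd order are both trivial. Then H is isomorphic to an alternating group of degree n for some 5 ≤ n ≤ 8, to the symmetric group of degree 5 or 6, or to GL(3,2). -/
theorem result (H : Subgroup (GL (Fin 4) (ZMod 2))) (hH : H ≠ ⊥) (hO : Cfsg.pPrimeCore 2 ↥H = ⊥) (hO2 : Cfsg.pCore 2 ↥H = ⊥) :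
    (∃ n : ℕ, 5 ≤ n ∧ n ≤ 8 ∧ Nonempty (↥H ≃* alternatingGroup (Fin n))) ∨
    Nonempty (↥H ≃* Equiv.Perm (Fin 5)) ∨ Nonempty (↥H ≃* Equiv.Perm (Fin 6)) ∨ Nonempty (↥H ≃* GL (Fin 3) (ZMod 2)) := by
  have hg : Good H := ⟨hO, hO2⟩
  by_cases h7 : 7 ∣ Nat.card H
  · exact case7 H hg h7
  · by_cases h5 : 5 ∣ Nat.card H
    · exact case5 H hg h7 h5
    · exact (case0 H hH hg h7 h5).elim

end Cfsg.Agent.S2553
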