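import Cfsg.Statements.S2694
import Cfsg.Agent.Lib.Helper95.AutO.Main
import Cfsg.Agent.Lib.Helper29.AutOGlue
import Cfsg.Agent.Lib.Helper49.HypPairs
import Cfsg.Agent.Lib.Helper49.MinusNoLagr
import Cfsg.Agent.Lib.Helper49.RankParity
import Cfsg.Agent.Lib.Helper49.FinSq

set_option autoImplicit false
open Cfsg

namespace Cfsg.Agent.S2694

/-- For m ≥ 3 and a finite field F of odd order, the automorphism group of the orthogonal group Ω_{2m+1}(F) (realised as PΩ of the form x₀² + Σ xᵢ yᵢ, whose centre is trivial) is generated by the automorphisms induced by the semisimilarities v ↦ g σ(v) of the form (the image of the projective semisimilarity group); there are no graph or graph-field automorphisms. -/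
theorem result {F : Type*} [Field F] [Fintype F] (hodd : Odd (Fintype.card F)) {m : ℕ} (hm : 3 ≤ m) :
    Cfsg.gammaPOmega F (Cfsg.quadFormOdd m F) = ⊤ := by
  have h2 : (2 : F) ≠ 0 := Cfsg.Agent.Lib.Helper49.two_ne_zero_of_odd_card rfl hodd
  rw [← Cfsg.Agent.Lib.Helper49.oddQF_coe]
  apply Cfsg.Agent.Lib.Helper29.AutO.gamma_eq_top_of_abstract
  intro α
  have hfr : Module.finrank F (Unit ⊕ (Fin m ⊕ Fin m) → F) = 2 * m + 1 := by
    rw [Module.finrank_fintype_fun_eq_card]
    simp only [Fintype.card_sum, Fintype.card_fin, Fintype.card_unit]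
    omega
  exact Cfsg.Agent.Lib.Helper95.AutO.aut_main (Cfsg.Agent.Lib.Helper49.oddQF_nondegenerate m F h2)
    (by omega) (fun W _ hW => by omega) α

end Cfsg.Agent.S2694
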