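import Cfsg.Statements.S2733
import Cfsg.Agent.Lib.Helper95.BalOM.Transport
import Cfsg.Agent.Lib.Helper95.BalOM.Invol
import Cfsg.Agent.Lib.Helper95.BalOM.FieldClass
import Cfsg.Agent.Lib.Helper62.BalOMT2
import Cfsg.Agent.Lib.Helper64.BalOMT5
import Cfsg.Agent.Lib.Helper49.GamO8

set_option autoImplicit false
open Cfsg

namespace Cfsg.Agent.S2733

open Cfsg.Agent.Lib.Helper95.BalOM
open Cfsg.Agent.Lib.Helper62.BalOM (field_case)
open Cfsg.Agent.Lib.Helper64.BalOM (not_field_class_two)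

theorem result {F : Type*} [Field F] [Fintype F] {r : ℕ} [Fact r.Prime] [CharP F r] {m : ℕ} (hm : 3 ≤ m) (a b : F) (hab : (∀ z₁ z₂ : F, z₁ ^ 2 + a * z₁ * z₂ + b * z₂ ^ 2 = 0 → z₁ = 0 ∧ z₂ = 0)) (hK : IsSimpleGroup (Cfsg.POmega F (Cfsg.quadFormMinus m F a b))) (A : Subgroup (MulAut (Cfsg.POmega F (Cfsg.quadFormMinus m F a b)))) (hinn : ∀ k : Cfsg.POmega F (Cfsg.quadFormMinus m F a b), MulAut.conj k ∈ A) {p : ℕ} [Fact p.Prime] (hpr : p ≠ r) (x : MulAut (Cfsg.POmega F (Cfsg.quadFormMinus m F a b))) (hxA : x ∈ A) (hord : orderOf x = p) (hnot : ¬ Cfsg.IsInnerDiagonalAutPOmegaMinus m a b x) :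
    Cfsg.pPrimeCore p ↥(A ⊓ Subgroup.centralizer {x}) ≠ ⊥ ↔ (Cfsg.IsFieldAutClassPOmegaMinus m x ∧ Nat.Coprime p (Nat.card ↥(MonoidHom.eqLocus x.toMonoidHom (MonoidHom.id (Cfsg.POmega F (Cfsg.quadFormMinus m F a b)))))) := by
  have hfin : Finite (Cfsg.POmega F (Cfsg.quadFormMinus m F a b)) := by
    unfold Cfsg.POmega
    infer_instance
  have hZ : Subgroup.center (Cfsg.POmega F (Cfsg.quadFormMinus m F a b)) = ⊥ := by
    have h := Cfsg.Agent.Lib.Helper49.center_POmega (Cfsg.Agent.Lib.Helper49.minusQF m F a b)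
      (Cfsg.Agent.Lib.Helper49.minusQF_nondegenerate m F a b
        (Cfsg.Agent.Lib.Helper49.minus_disc_ne_zero a b hab))
      (by simp only [Fintype.card_sum, Fintype.card_fin]; omega)
    rwa [Cfsg.Agent.Lib.Helper49.minusQF_coe] at h
  by_cases hp2 : p = 2
  · subst hp2
    have h2 : (2 : F) ≠ 0 := by
      intro h
      have h3 : ((2 : ℕ) : F) = 0 := by exact_mod_cast h
      have h4 := (CharP.cast_eq_zero_iff F r 2).1 h3
      exact hpr ((Nat.prime_dvd_prime_iff_eq (Fact.out : r.Prime) Nat.prime_two).1 h4).symm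
    obtain ⟨hI, hII⟩ := invol_case h2 hm a b hab x hord hnot
    constructor
    · intro h
      exact absurd (core_eq_bot hZ A hinn 2 x hI hII) h
    · rintro ⟨h, -⟩
      exact absurd h (not_field_class_two hm a b hab x hord)
  · have hcl := field_class_of_odd hm a b hab x (Fact.out : p.Prime) hp2 hord hnot
    obtain ⟨a', b', ψ, σ, hab', hσ, ha', hb', hφ⟩ := hcl
    obtain ⟨h1, h2, h3⟩ := field_case (r := r) hm a' b' hab' σ hσ ha' hb' (tr ψ x) hφ hpr hp2
      (by rw [orderOf_tr]; exact hord)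
    have hII : HII p x := HII_of_tr ψ p x h3
    have hne : fixS x ≠ ⊥ := fixS_ne_bot_of_tr ψ x h1
    constructor
    · intro h
      refine ⟨⟨a', b', ψ, σ, hab', hσ, ha', hb', hφ⟩, ?_⟩
      by_contra hc
      apply h
      have hdvd : p ∣ Nat.card ↥(fixS x) := by
        by_contra hnd
        exact hc (((Fact.out : p.Prime).coprime_iff_not_dvd).2 hnd)
      exact core_eq_bot hZ A hinn p x (HI_of_tr ψ p x (h2 (by rw [card_fixS_tr]; exact hdvd))) hII
    · rintro ⟨-, hc⟩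
      exact core_ne_bot hZ A hinn p x hne hc

end Cfsg.Agent.S2733
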