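import Cfsg.Statements.S2788
import Cfsg.Agent.Lib.Helper85.Qn.Exist
import Cfsg.Agent.Lib.Helper85.Qn.Mod2
import Cfsg.Agent.Lib.Helper85.Nat.SYL
import Cfsg.Agent.Lib.Helper85.Nat.Transport

set_option autoImplicit false
open Cfsg

namespace Cfsg.Agent.S2788

/-- Let H act faithfully by conjugation on the elementary abelian p-subgroup V of a finite group with H ≅ SL₂(F), F a field with p^n elements, S a Sylow p-subgroup of H, and A ≤ S a subgroup of order at least 3 acting quadratically on V ([V, A, A] = 1). Then |V/C_V(a)| ≥ p^n for every nonidentity a ∈ A. -/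
theorem result {G : Type*} [Group G] [Finite G] {p : ℕ} [Fact p.Prime] (V H : Subgroup G) (hV : Cfsg.IsElementaryAbelian p V) (hHV : H ≤ Subgroup.normalizer (V : Set G)) (hf : H ⊓ Subgroup.centralizer (V : Set G) = ⊥) {F : Type*} [Field F] [Fintype F] (n : ℕ) (hF : Fintype.card F = p ^ n) (hiso : Nonempty (↥H ≃* Matrix.SpecialLinearGroup (Fin 2) F)) (S : Sylow p ↥H) (T : Subgroup G) (hT : T = ((S : Subgroup ↥H).map H.subtype)) (A : Subgroup G) (hA : A ≤ T) (hA3 : 3 ≤ Nat.card A) (hquad : ⁅⁅V, A⁆, A⁆ = ⊥) : ∀ a ∈ A, a ≠ 1 → p ^ n ≤ ((V ⊓ Subgroup.centralizer ({a} : Set G))).relIndex V := by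
  intro a haA ha1
  have hch : CharP F p := Cfsg.Agent.Lib.Helper85.NatSL2.charP_of_card F p n hF
  have hVp : IsPGroup p V := by
    intro v
    refine ⟨1, ?_⟩
    rw [pow_one]
    exact Subtype.ext (hV.2 v v.2)
  have haT : a ∈ T := hA haA
  rw [hT, Subgroup.mem_map] at haT
  obtain ⟨a', ha'S, ha'⟩ := haT
  have haH : a ∈ H := by rw [← ha']; exact a'.2
  -- nontrivial elements of `H` do not centralize `V`
  have hnc : ∀ x ∈ H, x ≠ 1 → ¬ V ≤ Subgroup.centralizer {x} := by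
    intro x hxH hx1 hle
    apply hx1
    have : x ∈ H ⊓ Subgroup.centralizer (V : Set G) := by
      refine ⟨hxH, ?_⟩
      apply Subgroup.mem_centralizer_iff.mpr
      intro v hv
      have := Subgroup.mem_centralizer_singleton_iff.mp (hle hv)
      exact this
    rw [hf] at this
    exact Subgroup.mem_bot.mp this
  rcases Nat.lt_or_ge n 2 with hn | hn
  · calc p ^ n ≤ p ^ 1 := Nat.pow_le_pow_right (Fact.out : p.Prime).pos (by omega)
      _ = p := pow_one p
      _ ≤ _ := Cfsg.Agent.Lib.Helper85.Qn.prime_le_relIndex V hVp a (hnc a haH ha1)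
  obtain ⟨e₀⟩ := hiso
  obtain ⟨g, hg⟩ := Cfsg.Agent.Lib.Helper85.NatSL2.exists_conj_upper p
    (S.mapSurjective (f := e₀.toMonoidHom) e₀.surjective)
  let e : ↥H ≃* Matrix.SpecialLinearGroup (Fin 2) F := e₀.trans (MulAut.conj g)
  have he : ∀ y : ↥H, e y = g * e₀ y * g⁻¹ := fun y => rfl
  have hSe : ∀ y : ↥H, y ∈ S → e y ∈ Cfsg.upperUnipotentSL2 F := by
    intro y hy
    rw [he, ← hg]
    have hm : ∀ z, z ∈ S.mapSurjective (f := e₀.toMonoidHom) e₀.surjective ↔
        z ∈ (S : Subgroup ↥H).map e₀.toMonoidHom := by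
      intro z
      rw [← Sylow.coe_mapSurjective (f := e₀.toMonoidHom) e₀.surjective S]
      exact Iff.rfl
    rw [hm, Subgroup.mem_map]
    exact ⟨y, hy, rfl⟩
  obtain ⟨s, hs⟩ := Cfsg.Agent.Lib.Helper85.SL2.mem_upper_iff.1 (hSe a' ha'S)
  have hs0 : s ≠ 0 := by
    rintro rfl
    apply ha1
    rw [Cfsg.Agent.Lib.Helper85.SL2.up_zero, MulEquiv.map_eq_one_iff] at hs
    rw [← ha', hs]; rfl
  obtain ⟨m, y₁, hy₁, hodd, hm1, hcop, hprim, e0, he0, hcyc⟩ :=
    Cfsg.Agent.Lib.Helper85.Qn.exists_good (F := F) hF hn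
  obtain ⟨g₁, hg₁⟩ := Cfsg.Agent.Lib.Helper85.Qn.exists_conj_order y₁ m hy₁ hodd hm1 s hs0
  set h' : ↥H := e.symm g₁ with hh'
  set y' : ↥H := (a' * (h' * a' * h'⁻¹)) ^ 2 with hy'
  have hey : e y' = (Cfsg.Agent.Lib.Helper85.SL2.up s *
      (g₁ * Cfsg.Agent.Lib.Helper85.SL2.up s * g₁⁻¹)) ^ 2 := by
    rw [hy', map_pow, map_mul, map_mul, map_mul, map_inv, hs, hh', MulEquiv.apply_symm_apply]
  have hord' : orderOf y' = m := by
    rw [← hg₁, ← hey, MulEquiv.orderOf_eq]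
  have hord : orderOf (y' : G) = m := by
    rw [Subgroup.orderOf_coe, hord']
  have hyN : (y' : G) ∈ Subgroup.normalizer (V : Set G) := hHV y'.2
  have hy0ne : (y' : G) ^ e0 ≠ 1 := by
    intro h
    exact he0 (hord ▸ orderOf_dvd_of_pow_eq_one h)
  have h1 := Cfsg.Agent.Lib.Helper85.Qn.pow_le_relIndex V hVp (y' : G) ((y' : G) ^ e0) hyN
    (Subgroup.pow_mem _ (Subgroup.mem_zpowers _) _)
    (by
      intro j hj
      have hmj : ¬ m ∣ j := by
        intro hd
        exact hj ((orderOf_dvd_iff_pow_eq_one).mp (hord ▸ hd))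
      obtain ⟨c, hc⟩ := hcyc j hmj
      refine ⟨c, ?_⟩
      rw [← pow_mul, pow_eq_pow_iff_modEq, hord]
      exact hc)
    (hnc _ (Subgroup.pow_mem _ y'.2 _) hy0ne) (2 * n) (hord ▸ hcop) (hord ▸ hprim)
  have h2 := Cfsg.Agent.Lib.Helper85.Qn.relIndex_le_sq V a (h' : G) ((y' : G) ^ e0) (hHV h'.2)
    (by
      apply Subgroup.pow_mem
      have : (y' : G) = (a * ((h' : G) * a * (h' : G)⁻¹)) ^ 2 := by
        rw [hy', ← ha']; rfl
      rw [this]
      apply Subgroup.pow_mem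
      exact Subgroup.mul_mem _ (Subgroup.subset_closure (by simp))
        (Subgroup.subset_closure (by simp)))
  have h3 : (p ^ n) ^ 2 ≤ ((V ⊓ Subgroup.centralizer ({a} : Set G)).relIndex V) ^ 2 := by
    rw [← pow_mul, mul_comm n 2]
    exact h1.trans h2
  exact (Nat.pow_le_pow_iff_left (by norm_num)).mp h3

end Cfsg.Agent.S2788
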