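import Cfsg.Statements.S2792
import Cfsg.Agent.Lib.Helper39.Wielandt

set_option autoImplicit false
open Cfsg

namespace Cfsg.Agent.S2792

open Cfsg.Agent.Lib.Helper39
open scoped commutatorElement

/-- Let S be a Sylow p-subgroup of the finite group G and W a subgroup of S weakly closed in S with respect to G. If S ∩ G' ≠ S ∩ (N_G(W))', then there are x ∈ S, z ∈ W and a maximal subgroup W₀ of W such that the iterated commutator [x, z; p−1] (with [x, z] = x⁻¹z⁻¹xz and [x, z; i+1] = [[x, z; i], z]) lies in W₀ but not in the Frattini subgroup of W₀; in particular [x, z; p−1] ≠ 1. -/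
theorem result {G : Type*} [Group G] [Finite G] {p : ℕ} [Fact p.Prime] (S : Sylow p G) (W : Subgroup G) (hW : Cfsg.IsWeaklyClosed W (S : Subgroup G)) (h : (S : Subgroup G) ⊓ commutator G ≠ (S : Subgroup G) ⊓ ⁅Subgroup.normalizer (W : Set G), Subgroup.normalizer (W : Set G)⁆) : ∃ x ∈ (S : Subgroup G), ∃ z ∈ W, ∃ W₀ : Subgroup ↥W, IsCoatom W₀ ∧ (fun y : G => y⁻¹ * z⁻¹ * y * z)^[p - 1] x ∈ W₀.map W.subtype ∧ (fun y : G => y⁻¹ * z⁻¹ * y * z)^[p - 1] x ∉ ((frattini ↥W₀).map W₀.subtype).map W.subtype := by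
  obtain ⟨hWS, hwc⟩ := hW
  -- elements conjugating `W` into `S` normalize `W`
  have hnorm : ∀ g : G, (∀ x ∈ W, g * x * g⁻¹ ∈ (S : Subgroup G)) →
      g ∈ Subgroup.normalizer (W : Set G) := by
    intro g hg
    have heq := hwc g (by
      rintro _ ⟨x, hx, rfl⟩
      exact hg x hx)
    rw [Subgroup.mem_normalizer_iff]
    intro x
    constructor
    · intro hx
      rw [← heq]
      exact ⟨x, hx, rfl⟩
    · intro hx
      rw [← heq] at hx
      obtain ⟨y, hy, e⟩ := hx
      have : y = x := (MulAut.conj g).injective e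
      rwa [← this]
  have hSN : (S : Subgroup G) ≤ Subgroup.normalizer (W : Set G) := by
    intro s hs
    apply hnorm
    intro x hx
    exact (S : Subgroup G).mul_mem ((S : Subgroup G).mul_mem hs (hWS hx))
      ((S : Subgroup G).inv_mem hs)
  have hWn : (W.subgroupOf (S : Subgroup G)).Normal := by
    constructor
    intro n hn g
    rw [Subgroup.mem_subgroupOf] at hn ⊢
    exact (Subgroup.mem_normalizer_iff.1 (hSN g.2) _).1 hn
  by_cases hwit : Wit p (⊤ : Subgroup ↥(S : Subgroup G)) (W.subgroupOf (S : Subgroup G))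
  · have h2 := hwit.map (S : Subgroup G).subtype (Subgroup.subtype_injective _)
    rw [Subgroup.map_subgroupOf_eq_of_le hWS] at h2
    obtain ⟨y, ⟨y', -, rfl⟩, z, hz, K, W₀, h1, h2, h3, h4, h5, h6⟩ := h2
    refine ⟨_, y'.2, z, hz, W₀.subgroupOf W, ?_, ?_, ?_⟩
    · exact isCoatom_of_index_eq_prime (p := p) h4
    · rw [Subgroup.map_subgroupOf_eq_of_le h2]
      exact h5
    · rintro ⟨_, ⟨v, hv, rfl⟩, e⟩
      apply h6
      have hco : IsCoatom ((K.subgroupOf W).subgroupOf (W₀.subgroupOf W)) := by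
        apply isCoatom_of_index_eq_prime (p := p)
        show (K.subgroupOf W).relIndex (W₀.subgroupOf W) = p
        rw [Subgroup.relIndex_subgroupOf h2, h3]
      have hv' := frattini_le_coatom hco hv
      have hv'' : (((v : ↥(W₀.subgroupOf W)) : ↥W) : G) ∈ K := hv'
      have e' : (((v : ↥(W₀.subgroupOf W)) : ↥W) : G)
          = (dl z)^[p - 1] ((S : Subgroup G).subtype y') := e
      rw [← e']
      exact hv''
  · exfalso
    apply h
    apply group_transfer_core S _ hSN
    intro Q g hg
    by_cases hQ : W.subgroupOf (S : Subgroup G) ≤ Q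
    · left
      have hgN : g ∈ Subgroup.normalizer (W : Set G) := by
        apply hnorm
        intro x hx
        exact hg ⟨x, hWS hx⟩ (hQ hx)
      intro r _
      have e : (r : G)⁻¹ * (g * (r : G) * g⁻¹) = ⁅(r : G)⁻¹, g⁆ := by
        rw [commutatorElement_def]; group
      rw [e]
      exact Subgroup.commutator_mem_commutator (hSN ((S : Subgroup G).inv_mem r.2)) hgN
    · right
      refine ⟨fun htop => hQ (htop ▸ le_top), ?_⟩
      intro A _ _ ϕ hA x hK
      exact wielandt_bad S.2 _ Q hwit hQ ϕ hA x hK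

end Cfsg.Agent.S2792
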