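import Cfsg.Statements.S2807
import Cfsg.Agent.Lib.Helper39.GroupTransferCore

set_option autoImplicit false
open Cfsg

namespace Cfsg.Agent.S2807

open Cfsg.Agent.Lib.Helper39
open scoped commutatorElement

/-- Let S be a Sylow p-subgroup of the finite group G. If S ∩ G' ≠ S ∩ (N_G(S))' (derived subgroups), then the wreath product Z_p ≀ Z_p — realised as a Sylow p-subgroup of the symmetric group of degree p² — is a homomorphic image of S. -/
theorem result {G : Type*} [Group G] [Finite G] {p : ℕ} [Fact p.Prime] (S : Sylow p G) (h : (S : Subgroup G) ⊓ commutator G ≠ (S : Subgroup G) ⊓ ⁅Subgroup.normalizer ((S : Subgroup G) : Set G), Subgroup.normalizer ((S : Subgroup G) : Set G)⁆) : ∃ (P : Sylow p (Equiv.Perm (Fin (p ^ 2)))) (f : ↥(S : Subgroup G) →* ↥(P : Subgroup (Equiv.Perm (Fin (p ^ 2))))), Function.Surjective f := by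
  by_contra hno
  apply h
  apply group_transfer_core S _ Subgroup.le_normalizer
  intro Q g hg
  by_cases hQ : Q = ⊤
  · left
    subst hQ
    have hgN : g ∈ Subgroup.normalizer ((S : Subgroup G) : Set G) := by
      have hle : (S : Subgroup G).map (MulAut.conj g).toMonoidHom ≤ (S : Subgroup G) := by
        rintro _ ⟨x, hx, rfl⟩
        exact hg ⟨x, hx⟩ (Subgroup.mem_top _)
      have heq : (S : Subgroup G).map (MulAut.conj g).toMonoidHom = (S : Subgroup G) := by
        apply Subgroup.eq_of_le_of_card_ge hle
        rw [Subgroup.card_map_of_injective (MulAut.conj g).injective]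
      rw [Subgroup.mem_normalizer_iff]
      intro x
      constructor
      · intro hx
        exact hg ⟨x, hx⟩ (Subgroup.mem_top _)
      · intro hx
        rw [← heq] at hx
        obtain ⟨y, hy, e⟩ := hx
        have : y = x := (MulAut.conj g).injective e
        rwa [← this]
    intro r _
    have e : (r : G)⁻¹ * (g * (r : G) * g⁻¹) = ⁅(r : G)⁻¹, g⁆ := by
      rw [commutatorElement_def]; group
    rw [e]
    exact Subgroup.commutator_mem_commutator
      (Subgroup.le_normalizer ((S : Subgroup G).inv_mem r.2)) hgN
  · right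
    refine ⟨hQ, ?_⟩
    intro A _ _ ϕ hA x hK
    exact yoshida_bad S.2 hno hQ ϕ hA x hK

end Cfsg.Agent.S2807
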