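import Cfsg.Statements.S2898
import Cfsg.Agent.Lib.Helper37.Parabolic
import Cfsg.Agent.Lib.Helper92.LargeES
import Cfsg.Agent.Lib.Helper54.StronglyEmbedded
import Cfsg.Agent.Lib.Helper54.Cores
import Cfsg.Agent.Lib.Helper30.Coprime

set_option autoImplicit false
open Cfsg

namespace Cfsg.Agent.S2898

/-- Let G be a finite group of even order with parabolic characteristic 2. If the centre of G ⧸ O(G) is trivial, then O(G) = 1. -/
theorem result {G : Type*} [Group G] [Finite G] (h2 : 2 ∣ Nat.card G) (hG : Cfsg.IsOfParabolicCharacteristic 2 G) [hN : (Cfsg.oddCore G).Normal] (hZ : Subgroup.center (G ⧸ Cfsg.oddCore G) = ⊥) : Cfsg.oddCore G = ⊥ := by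
  classical
  haveI : Fact (Nat.Prime 2) := ⟨Nat.prime_two⟩
  set O := Cfsg.oddCore G with hO
  have hOodd : (Nat.card O).Coprime 2 := Cfsg.Agent.Lib.Helper54.card_pPrimeCore_coprime 2
  obtain ⟨S⟩ : Nonempty (Sylow 2 G) := inferInstance
  have hS1 : (S : Subgroup G) ≠ ⊥ := by
    intro h
    have h1 := S.not_dvd_index
    rw [h, Subgroup.index_bot] at h1
    exact h1 h2
  have hinv : ∀ z ∈ (S : Subgroup G), orderOf z = 2 → (∀ s ∈ (S : Subgroup G), s * z = z * s) →
      ∀ x ∈ O, z * x * z⁻¹ = x⁻¹ := by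
    intro z hzS hz2 hzc
    have hz1 : z ≠ 1 := by
      rintro rfl
      simp at hz2
    have hch := Cfsg.Agent.Lib.Helper37.charP_centralizer_of_parabolicChar hG S hzS hz1 hzc
    have hcore := hch.pPrimeCore_eq_bot
    apply Cfsg.Agent.Lib.Helper92.inverts_of_fixedPointFree (K := O)
      (by rw [← sq, ← hz2, pow_orderOf_eq_one]) (fun k hk => hN.conj_mem k hk z)
    intro k hk hfix
    have hkC : k ∈ Subgroup.centralizer ({z} : Set G) := by
      rw [Subgroup.mem_centralizer_singleton_iff]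
      calc k * z = (z * k * z⁻¹) * z := by rw [hfix]
        _ = z * k := by group
    have hodd : (Nat.card (O.subgroupOf (Subgroup.centralizer ({z} : Set G)))).Coprime 2 :=
      Nat.Coprime.coprime_dvd_left
        (Subgroup.card_comap_dvd_of_injective O _ (Subgroup.subtype_injective _)) hOodd
    have hle := Cfsg.Agent.Lib.Helper54.le_pPrimeCore_of_normal
      (O.subgroupOf (Subgroup.centralizer ({z} : Set G))) hodd
    rw [hcore] at hle
    have h3 : (⟨k, hkC⟩ : Subgroup.centralizer ({z} : Set G)) ∈ (⊥ : Subgroup _) :=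
      hle (Subgroup.mem_subgroupOf.mpr hk)
    rw [Subgroup.mem_bot] at h3
    exact congrArg Subtype.val h3
  set N := Subgroup.centralizer (O : Set G) with hNdef
  have hNn : N.Normal := inferInstance
  by_cases h2N : 2 ∣ Nat.card N
  · obtain ⟨u, huN, hu2⟩ := Cfsg.Agent.Lib.Helper54.exists_mem_orderOf_eq_of_dvd_card N h2N
    obtain ⟨h, -, hh⟩ := Cfsg.Agent.Lib.Helper54.exists_conj_mem_sylow (H := ⊤) S le_top (Subgroup.zpowers u)
      (Cfsg.Agent.Lib.Helper54.isPGroup_zpowers_of_orderOf_eq hu2) le_top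
    have hR : (S : Subgroup G) ⊓ N ≠ ⊥ := by
      intro hbot
      have h1 : h * u * h⁻¹ ∈ (S : Subgroup G) ⊓ N :=
        ⟨hh u (Subgroup.mem_zpowers u), hNn.conj_mem u huN h⟩
      rw [hbot, Subgroup.mem_bot] at h1
      have h4 : u = 1 := by
        have := congrArg (fun w => h⁻¹ * w * h) h1
        simpa [mul_assoc] using this
      rw [h4] at hu2
      simp at hu2
    have hnorm : (S : Subgroup G) ≤ Subgroup.normalizer (((S : Subgroup G) ⊓ N : Subgroup G) : Set G) :=
      Cfsg.Agent.Lib.Helper30.le_normalizer_inf Subgroup.le_normalizer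
        (by rw [Subgroup.normalizer_eq_top]; exact le_top)
    obtain ⟨z, hzR, hz2, hzc⟩ := Cfsg.Agent.Lib.Helper37.exists_orderOf_eq_mem_center S.2 inf_le_left hnorm hR
    rw [eq_bot_iff]
    intro x hx
    have h1 := hinv z hzR.1 hz2 hzc x hx
    have h3 : x * z = z * x := Subgroup.mem_centralizer_iff.mp hzR.2 x hx
    have h4 : x = x⁻¹ := by
      rw [← h1, ← h3]; group
    have h5 : x ^ 2 = 1 := by
      rw [sq]
      nth_rewrite 1 [h4]
      simp
    have h6 : orderOf x ∣ 2 := orderOf_dvd_of_pow_eq_one h5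
    have h7 : orderOf x ∣ Nat.card O := by
      have := orderOf_dvd_natCard (⟨x, hx⟩ : O)
      rwa [Subgroup.orderOf_mk] at this
    have h8 : orderOf x = 1 := Nat.eq_one_of_dvd_coprimes hOodd h7 h6
    rw [Subgroup.mem_bot]
    exact orderOf_eq_one_iff.mp h8
  · exfalso
    have hNO : N ≤ O := Cfsg.Agent.Lib.Helper54.le_pPrimeCore_of_normal N
      ((Nat.coprime_comm.mp ((Nat.Prime.coprime_iff_not_dvd Nat.prime_two).mpr h2N)))
    obtain ⟨z, hzS, hz2, hzc⟩ := Cfsg.Agent.Lib.Helper37.exists_orderOf_eq_mem_center S.2 le_rfl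
      Subgroup.le_normalizer hS1
    have hI := hinv z hzS hz2 hzc
    have hzz : z⁻¹ = z := by
      have : z * z = 1 := by rw [← sq, ← hz2, pow_orderOf_eq_one]
      exact inv_eq_of_mul_eq_one_left this
    have hcen : ((z : G) : G ⧸ O) ∈ Subgroup.center (G ⧸ O) := by
      rw [Subgroup.mem_center_iff]
      intro q
      obtain ⟨g, rfl⟩ := QuotientGroup.mk_surjective q
      rw [← QuotientGroup.mk_mul, ← QuotientGroup.mk_mul, QuotientGroup.eq]
      apply hNO
      rw [Subgroup.mem_centralizer_iff]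
      intro x hx
      have h1 : g * x * g⁻¹ ∈ O := hN.conj_mem x hx g
      have h3 := hI _ h1
      have h4 : z * x⁻¹ * z⁻¹ = x := by
        have := hI _ (O.inv_mem hx)
        simpa using this
      -- (g z)⁻¹ (z g) = z⁻¹ g⁻¹ z g
      have h5 : (g⁻¹ * z * g) * x * (g⁻¹ * z * g)⁻¹ = x⁻¹ := by
        calc (g⁻¹ * z * g) * x * (g⁻¹ * z * g)⁻¹ = g⁻¹ * (z * (g * x * g⁻¹) * z⁻¹) * g := by group
          _ = g⁻¹ * (g * x * g⁻¹)⁻¹ * g := by rw [h3]
          _ = x⁻¹ := by group
      have h6 : ((g * z)⁻¹ * (z * g)) * x * ((g * z)⁻¹ * (z * g))⁻¹ = x := by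
        calc ((g * z)⁻¹ * (z * g)) * x * ((g * z)⁻¹ * (z * g))⁻¹
            = z⁻¹ * ((g⁻¹ * z * g) * x * (g⁻¹ * z * g)⁻¹) * z⁻¹⁻¹ := by group
          _ = z * x⁻¹ * z⁻¹ := by rw [h5, hzz, hzz]
          _ = x := h4
      calc x * ((g * z)⁻¹ * (z * g))
          = (((g * z)⁻¹ * (z * g)) * x * ((g * z)⁻¹ * (z * g))⁻¹) * ((g * z)⁻¹ * (z * g)) := by rw [h6]
        _ = ((g * z)⁻¹ * (z * g)) * x := by group
    rw [hZ, Subgroup.mem_bot, QuotientGroup.eq_one_iff] at hcen
    have h7 : orderOf z ∣ Nat.card O := by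
      have := orderOf_dvd_natCard (⟨z, hcen⟩ : O)
      rwa [Subgroup.orderOf_mk] at this
    rw [hz2] at h7
    have := Nat.eq_one_of_dvd_coprimes hOodd h7 dvd_rfl
    omega

end Cfsg.Agent.S2898
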