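import Cfsg.Statements.S2905
import Cfsg.Agent.Lib.Helper53.SubnSyl
import Cfsg.Agent.Lib.Helper12.Subnormal

set_option autoImplicit false
open Cfsg

namespace Cfsg.Agent.S2905

open Cfsg.Agent.Lib.Helper53 Cfsg.Agent.Lib.Helper12

section
variable {P : Type*} [Group P] [Finite P] {p : ℕ} [Fact p.Prime]

omit [Fact p.Prime] in
theorem le_M (hP : Cfsg.IsPMinimal p P) (S : Sylow p P) {M : Subgroup P} (hM : IsCoatom M)
    (hSM : (S : Subgroup P) ≤ M) {H : Subgroup P} (hSH : (S : Subgroup P) ≤ H) (hH : H ≠ ⊤) :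
    H ≤ M := by
  obtain ⟨_, M', _, huniq⟩ := hP S
  rcases IsCoatomic.eq_top_or_exists_le_coatom H with h1 | ⟨M'', hM'', hXM''⟩
  · exact absurd h1 hH
  · have e1 := huniq M ⟨hM, hSM⟩
    have e2 := huniq M'' ⟨hM'', hSH.trans hXM''⟩
    rw [e1, ← e2]
    exact hXM''

theorem normal_case (hP : Cfsg.IsPMinimal p P) (S : Sylow p P) {M : Subgroup P} (hM : IsCoatom M)
    (hSM : (S : Subgroup P) ≤ M) {N : Subgroup P} (hN : N.Normal) (hNM : N ≤ M) :
    N ⊓ (S : Subgroup P) ≤ Cfsg.pCore p P := by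
  have hNn : (⊤ : Subgroup P) ≤ Subgroup.normalizer (N : Set P) := by
    rw [Subgroup.normalizer_eq_top_iff.2 hN]
  have hT : IsSyl p ((S : Subgroup P) ⊓ N) N := (isSyl_top_of_sylow S).inf_normal le_top hNn
  have hfr := frattini_sup hT le_top hNn
  have hSn : (S : Subgroup P) ≤ Subgroup.normalizer (((S : Subgroup P) ⊓ N : Subgroup P) : Set P) :=
    le_normalizer_inf Subgroup.le_normalizer (le_top.trans hNn)
  by_cases htop : Subgroup.normalizer (((S : Subgroup P) ⊓ N : Subgroup P) : Set P) = ⊤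
  · have h1 : ((S : Subgroup P) ⊓ N).Normal := Subgroup.normalizer_eq_top_iff.1 htop
    rw [inf_comm]
    exact le_pCore h1 hT.isPGroup
  · have h2 := le_M hP S hM hSM hSn htop
    exfalso
    apply hM.1
    rw [eq_top_iff, ← hfr]
    exact sup_le hNM (inf_le_right.trans h2)

omit [Fact p.Prime] in
theorem closure_le_M (hP : Cfsg.IsPMinimal p P) (S : Sylow p P) {M : Subgroup P} (hM : IsCoatom M)
    (hSM : (S : Subgroup P) ≤ M) {N : Subgroup P} (hN : N.IsSubnormal) (hNM : N ≤ M) :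
    Subgroup.normalClosure (N : Set P) ≤ M := by
  -- the join of the S-conjugates
  obtain ⟨X, hX⟩ : ∃ X : Subgroup P,
      X = ⨆ s : (S : Subgroup P), N.map (MulAut.conj (s : P)).toMonoidHom := ⟨_, rfl⟩
  have hXsn : X.IsSubnormal := by
    rw [hX, iSup]
    apply isSubnormal_sSup
    rintro U ⟨s, rfl⟩
    exact hN.map (MulAut.conj (s : P)).surjective
  have hXM : X ≤ M := by
    rw [hX]
    apply iSup_le
    intro s
    exact cj_le_of_le_of_mem hNM (hSM s.2)
  have hNX : N ≤ X := by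
    rw [hX]
    calc N = N.map (MulAut.conj ((1 : (S : Subgroup P)) : P)).toMonoidHom := (cj_one N).symm
      _ ≤ _ := le_iSup (fun s : (S : Subgroup P) => N.map (MulAut.conj (s : P)).toMonoidHom) 1
  have hSX : ∀ s ∈ (S : Subgroup P), X.map (MulAut.conj s).toMonoidHom = X := by
    intro s hs
    apply cj_eq_of_le
    rw [hX, Subgroup.map_iSup]
    apply iSup_le
    intro s'
    rw [cj_cj]
    exact le_iSup (fun s : (S : Subgroup P) => N.map (MulAut.conj (s : P)).toMonoidHom)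
      (⟨s, hs⟩ * s')
  obtain ⟨K, hK⟩ : ∃ K : Subgroup P, K = Subgroup.normalClosure (X : Set P) := ⟨_, rfl⟩
  have hKn : K.Normal := hK ▸ Subgroup.normalClosure_normal
  have hXK : X ≤ K := hK ▸ Subgroup.subset_normalClosure
  suffices hKM : K ≤ M from
    (Subgroup.normalClosure_mono (by exact_mod_cast hNX)).trans (hK ▸ hKM)
  by_contra hKM
  have hKS : K ⊔ (S : Subgroup P) = ⊤ := by
    by_contra hne
    exact hKM (le_sup_left.trans (le_M hP S hM hSM le_sup_right hne))
  obtain ⟨L, hL⟩ : ∃ L : Subgroup P,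
      L = ⨆ k : K, X.map (MulAut.conj (k : P)).toMonoidHom := ⟨_, rfl⟩
  have hXL : X ≤ L := by
    rw [hL]
    calc X = X.map (MulAut.conj ((1 : K) : P)).toMonoidHom := (cj_one X).symm
      _ ≤ _ := le_iSup (fun k : K => X.map (MulAut.conj (k : P)).toMonoidHom) 1
  have hLK : L ≤ K := by
    rw [hL]
    apply iSup_le
    intro k
    exact cj_le_of_le_of_mem hXK k.2
  have hLn1 : K ≤ Subgroup.normalizer (L : Set P) := by
    intro g hg
    rw [← cj_eq_self_iff]
    apply cj_eq_of_le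
    rw [hL, Subgroup.map_iSup]
    apply iSup_le
    intro k
    rw [cj_cj]
    have h1 : g * (k : P) = ((⟨g * k, K.mul_mem hg k.2⟩ : K) : P) := rfl
    rw [h1]
    exact le_iSup (fun k : K => X.map (MulAut.conj (k : P)).toMonoidHom) ⟨g * k, K.mul_mem hg k.2⟩
  have hLn2 : (S : Subgroup P) ≤ Subgroup.normalizer (L : Set P) := by
    intro g hg
    rw [← cj_eq_self_iff]
    apply cj_eq_of_le
    rw [hL, Subgroup.map_iSup]
    apply iSup_le
    intro k
    rw [cj_cj]
    have h1 : g * (k : P) = (g * k * g⁻¹) * g := by group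
    rw [h1, ← cj_cj, hSX g hg]
    exact le_iSup (fun k : K => X.map (MulAut.conj (k : P)).toMonoidHom)
      ⟨g * k * g⁻¹, hKn.conj_mem _ k.2 g⟩
  have hLnorm : L.Normal := by
    rw [← Subgroup.normalizer_eq_top_iff, eq_top_iff, ← hKS]
    exact sup_le hLn1 hLn2
  have hKL : K ≤ L := hK ▸ Subgroup.normalClosure_le_normal (by exact_mod_cast hXL)
  have hXne : X.subgroupOf K ≠ ⊤ := by
    intro h
    rw [Subgroup.subgroupOf_eq_top] at h
    exact hKM (h.trans hXM)
  obtain ⟨R, hRn, hXR, hRtop⟩ := (hXsn.subgroupOf (K := K)).exists_normal_and_le_and_lt_top_of_ne hXne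
  have hLR : L ≤ R.map K.subtype := by
    rw [hL]
    apply iSup_le
    intro k
    rintro _ ⟨x, hx, rfl⟩
    have hxR : (⟨x, hXK hx⟩ : K) ∈ R := hXR (by simpa [Subgroup.mem_subgroupOf] using hx)
    exact ⟨k * ⟨x, hXK hx⟩ * k⁻¹, hRn.conj_mem _ hxR k, by simp⟩
  apply hRtop.ne
  rw [eq_top_iff]
  intro y _
  obtain ⟨z, hz, hzy⟩ := hLR (hKL y.2)
  have : z = y := Subtype.ext hzy
  rwa [← this]

theorem exists_sylow_norm (S : Sylow p P) {Q : Subgroup P} (hQn : Q.Normal)
    (hQW : ∀ A : Subgroup P, A ≤ Cfsg.pResidual p P → IsPGroup p A → A ≤ Q)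
    {t : ℕ} [ht : Fact t.Prime] (htp : t ≠ p) :
    ∃ T : Subgroup P, IsSyl t T ⊤ ∧
      (S : Subgroup P) ≤ Subgroup.normalizer ((Q ⊔ T : Subgroup P) : Set P) := by
  obtain ⟨W, hW⟩ : ∃ W : Subgroup P, W = Cfsg.pResidual p P := ⟨_, rfl⟩
  rw [← hW] at hQW
  have hWn : W.Normal := hW ▸ pResidual_normal p P
  have hWn' : (⊤ : Subgroup P) ≤ Subgroup.normalizer (W : Set P) := by
    rw [Subgroup.normalizer_eq_top_iff.2 hWn]
  have hQn' : (⊤ : Subgroup P) ≤ Subgroup.normalizer (Q : Set P) := by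
    rw [Subgroup.normalizer_eq_top_iff.2 hQn]
  have hpow : ∀ x : P, ∃ n : ℕ, x ^ (p ^ n) ∈ W := by
    intro x
    obtain ⟨n, hn⟩ := exists_pow_coprime (p := p) x
    exact ⟨n, hW ▸ mem_pResidual hn⟩
  obtain ⟨T0, hT0⟩ := exists_isSyl t (⊤ : Subgroup P)
  have hT0W : T0 ≤ W := by
    intro x hx
    rw [hW]
    apply mem_pResidual
    obtain ⟨k, hk⟩ := (IsPGroup.iff_orderOf.1 hT0.isPGroup) ⟨x, hx⟩
    rw [Subgroup.orderOf_mk] at hk
    rw [hk]
    exact Nat.Coprime.pow_left k ((Nat.coprime_primes ht.out (Fact.out : p.Prime)).2 htp)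
  have hT0' : IsSyl t T0 W := hT0.of_le hT0W le_top
  have hfr := frattini_sup hT0' le_top hWn'
  obtain ⟨K, hK⟩ : ∃ K : Subgroup P, K = Subgroup.normalizer (T0 : Set P) := ⟨_, rfl⟩
  rw [← hK, top_inf_eq] at hfr
  obtain ⟨S1, hS1⟩ := exists_isSyl p K
  have ha : (W ⊓ K) ⊔ S1 = K :=
    sup_isSyl_eq inf_le_right (le_normalizer_inf (le_top.trans hWn') Subgroup.le_normalizer)
      (fun x hx => by
        obtain ⟨n, hn⟩ := hpow x
        exact ⟨n, hn, K.pow_mem hx _⟩) hS1
  have hb : W ⊔ S1 = ⊤ := by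
    rw [eq_top_iff, ← hfr]
    apply sup_le le_sup_left
    rw [← ha]
    exact sup_le (inf_le_left.trans le_sup_left) le_sup_right
  obtain ⟨S2, hS2, hS12⟩ := exists_isSyl_ge (le_top : S1 ≤ ⊤) hS1.isPGroup
  have hd : S2 ≤ Q ⊔ S1 := by
    intro x hx
    have hx' : x ∈ W ⊔ S1 := by rw [hb]; trivial
    obtain ⟨w, hw, s, hs, rfl⟩ :=
      (mem_sup_of_le_normalizer' ((le_top : S1 ≤ ⊤).trans hWn')).1 hx'
    have hwS : w ∈ S2 := by
      have := S2.mul_mem hx (S2.inv_mem (hS12 hs))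
      simpa using this
    have hwQ : w ∈ Q := hQW (S2 ⊓ W) inf_le_right (hS2.isPGroup.to_le inf_le_left) ⟨hwS, hw⟩
    exact Subgroup.mul_mem_sup hwQ hs
  have he : S2 ≤ Subgroup.normalizer ((Q ⊔ T0 : Subgroup P) : Set P) := by
    refine hd.trans (sup_le (le_sup_left.trans Subgroup.le_normalizer) ?_)
    exact le_normalizer_sup (le_top.trans hQn') (hK ▸ hS1.le)
  obtain ⟨g, _, hg⟩ := hS2.exists_conj (isSyl_top_of_sylow S)
  refine ⟨T0.map (MulAut.conj g).toMonoidHom, hT0.cj_mem (Subgroup.mem_top g), ?_⟩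
  have h1 : Q ⊔ T0.map (MulAut.conj g).toMonoidHom = (Q ⊔ T0).map (MulAut.conj g).toMonoidHom := by
    rw [cj_sup, cj_eq_self_iff.2 (hQn' (Subgroup.mem_top g))]
  rw [h1, normalizer_cj, hg]
  exact cj_mono g he

theorem two_primes (hP : Cfsg.IsPMinimal p P) (S : Sylow p P) {M : Subgroup P} (hM : IsCoatom M)
    (hSM : (S : Subgroup P) ≤ M)
    (hT : ∀ T : Sylow p ↥(Cfsg.pResidual p P), (T : Subgroup ↥(Cfsg.pResidual p P)).Normal) :
    (Nat.card P).primeFactors.card ≤ 2 := by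
  have hWn : (Cfsg.pResidual p P).Normal := pResidual_normal p P
  have hWn' : (⊤ : Subgroup P) ≤ Subgroup.normalizer (Cfsg.pResidual p P : Set P) := by
    rw [Subgroup.normalizer_eq_top_iff.2 hWn]
  obtain ⟨Q, hQdef⟩ : ∃ Q : Subgroup P, Q = (S : Subgroup P) ⊓ Cfsg.pResidual p P := ⟨_, rfl⟩
  have hQ : IsSyl p Q (Cfsg.pResidual p P) :=
    hQdef ▸ (isSyl_top_of_sylow S).inf_normal le_top hWn'
  have hQ1 : Cfsg.pResidual p P ≤ Subgroup.normalizer (Q : Set P) := by
    have := hT hQ.toSylow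
    rw [hQ.coe_toSylow] at this
    exact (Subgroup.normal_subgroupOf_iff_le_normalizer hQ.le).1 this
  have hQW : ∀ A : Subgroup P, A ≤ Cfsg.pResidual p P → IsPGroup p A → A ≤ Q :=
    fun A hA hp => hQ.le_of_le_normalizer hA hp (hA.trans hQ1)
  have hQn : Q.Normal := by
    rw [← Subgroup.normalizer_eq_top_iff, eq_top_iff]
    intro g _
    rw [← cj_eq_self_iff]
    apply cj_eq_of_le
    apply hQW _ _ (isPGroup_cj hQ.isPGroup g)
    calc Q.map (MulAut.conj g).toMonoidHom
        ≤ (Cfsg.pResidual p P).map (MulAut.conj g).toMonoidHom := cj_mono g hQ.le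
      _ = Cfsg.pResidual p P := cj_eq_self_iff.2 (hWn' (Subgroup.mem_top g))
  have hQn' : (⊤ : Subgroup P) ≤ Subgroup.normalizer (Q : Set P) := by
    rw [Subgroup.normalizer_eq_top_iff.2 hQn]
  by_cases hex : ∃ (t : ℕ) (T : Subgroup P), t.Prime ∧ IsPGroup t T ∧
      (S : Subgroup P) ≤ Subgroup.normalizer ((Q ⊔ T : Subgroup P) : Set P) ∧
      (S : Subgroup P) ⊔ (Q ⊔ T) = ⊤
  · obtain ⟨t, T, ht, hTt, hSn, htop⟩ := hex
    have hsub : (Nat.card P).primeFactors ⊆ {p, t} := by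
      intro r hr
      have hrp : r.Prime := Nat.prime_of_mem_primeFactors hr
      have hrd : r ∣ Nat.card P := Nat.dvd_of_mem_primeFactors hr
      haveI := Fact.mk hrp
      obtain ⟨x, hx⟩ := exists_prime_orderOf_dvd_card' r hrd
      have hx1 : x ∈ (S : Subgroup P) ⊔ (Q ⊔ T) := by rw [htop]; trivial
      obtain ⟨a, ha⟩ := exists_pow_mem_of_mem_sup hSn S.2 hx1
      rw [sup_comm] at ha
      obtain ⟨b, hb⟩ := exists_pow_mem_of_mem_sup ((le_top : T ≤ ⊤).trans hQn') hTt ha
      obtain ⟨c, hc⟩ := hQ.isPGroup ⟨_, hb⟩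
      have hc' : ((x ^ p ^ a) ^ t ^ b) ^ p ^ c = 1 := by simpa using congrArg Subtype.val hc
      rw [← pow_mul, ← pow_mul] at hc'
      have hdvd := orderOf_dvd_of_pow_eq_one hc'
      rw [hx] at hdvd
      simp only [Finset.mem_insert, Finset.mem_singleton]
      rcases (Nat.Prime.dvd_mul hrp).1 hdvd with h | h
      · left; exact (Nat.prime_dvd_prime_iff_eq hrp (Fact.out : p.Prime)).1 (hrp.dvd_of_dvd_pow h)
      · rcases (Nat.Prime.dvd_mul hrp).1 h with h | h
        · right; exact (Nat.prime_dvd_prime_iff_eq hrp ht).1 (hrp.dvd_of_dvd_pow h)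
        · left; exact (Nat.prime_dvd_prime_iff_eq hrp (Fact.out : p.Prime)).1 (hrp.dvd_of_dvd_pow h)
    exact (Finset.card_le_card hsub).trans Finset.card_le_two
  · exfalso
    apply hM.1
    rw [← Subgroup.index_eq_one, Nat.eq_one_iff_not_exists_prime_dvd]
    intro r hr hrd
    by_cases hrp : r = p
    · subst hrp
      exact S.not_dvd_index (hrd.trans (Subgroup.index_dvd_of_le hSM))
    · haveI := Fact.mk hr
      obtain ⟨T, hTs, hSn⟩ := exists_sylow_norm S hQn hQW hrp
      have hne : (S : Subgroup P) ⊔ (Q ⊔ T) ≠ ⊤ := fun h =>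
        hex ⟨r, T, hr, hTs.isPGroup, hSn, h⟩
      have hle := le_M hP S hM hSM le_sup_left hne
      have hTM : T ≤ M := (le_sup_right.trans le_sup_right).trans hle
      have h1 := (isSyl_iff_relIndex.1 hTs).2.2
      rw [Subgroup.relIndex_top_right] at h1
      exact h1 (hrd.trans (Subgroup.index_dvd_of_le hTM))

end


/-- Let P be a finite p-minimal group (a Sylow p-subgroup S is not normal and lies in a unique maximal subgroup M of P) and let F be the normal core of M. Then: every subnormal subgroup N of P contained in M satisfies N ∩ S ≤ O_p(P); if O^p(P) has a normal Sylow p-subgroup then the order of P has at most two prime divisors; every normal subgroup N of P either contains O^p(P) or is contained in F; and O^p(P)F ⧸ F is a minimal normal subgroup of P ⧸ F. -/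
theorem result {P : Type*} [Group P] [Finite P] {p : ℕ} [Fact p.Prime] (hP : Cfsg.IsPMinimal p P) (S : Sylow p P) (M : Subgroup P) (hM : IsCoatom M) (hSM : (S : Subgroup P) ≤ M) [hF : M.normalCore.Normal] : (∀ N : Subgroup P, N.IsSubnormal → N ≤ M → N ⊓ (S : Subgroup P) ≤ Cfsg.pCore p P) ∧ ((∀ T : Sylow p ↥(Cfsg.pResidual p P), (T : Subgroup ↥(Cfsg.pResidual p P)).Normal) → (Nat.card P).primeFactors.card ≤ 2) ∧ (∀ N : Subgroup P, N.Normal → Cfsg.pResidual p P ≤ N ∨ N ≤ M.normalCore) ∧ (∀ N : Subgroup P, N.Normal → M.normalCore ≤ N → N ≤ Cfsg.pResidual p P ⊔ M.normalCore → N = M.normalCore ∨ N = Cfsg.pResidual p P ⊔ M.normalCore) ∧ M.normalCore < Cfsg.pResidual p P ⊔ M.normalCore := by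
  have hWn : (Cfsg.pResidual p P).Normal := pResidual_normal p P
  have h3 : ∀ N : Subgroup P, N.Normal → Cfsg.pResidual p P ≤ N ∨ N ≤ M.normalCore := by
    intro N hN
    by_cases htop : (S : Subgroup P) ⊔ N = ⊤
    · left
      apply pResidual_le_of_sup_eq_top _ S.2 htop
      rw [Subgroup.normalizer_eq_top_iff.2 hN]
      exact le_top
    · right
      have := le_M hP S hM hSM le_sup_left htop
      exact (Subgroup.normal_le_normalCore).2 (le_sup_right.trans this)
  have h5 : ¬ Cfsg.pResidual p P ≤ M.normalCore := by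
    intro h
    apply hM.1
    rw [eq_top_iff, ← pResidual_sup_sylow S]
    exact sup_le (h.trans (Subgroup.normalCore_le M)) hSM
  refine ⟨?_, two_primes hP S hM hSM, h3, ?_, ?_⟩
  · intro N hN hNM
    have hK := closure_le_M hP S hM hSM hN hNM
    refine le_trans ?_ (normal_case hP S hM hSM Subgroup.normalClosure_normal hK)
    exact inf_le_inf_right _ Subgroup.subset_normalClosure
  · intro N hN h1 h2
    rcases h3 N hN with h | h
    · right
      exact le_antisymm h2 (sup_le h h1)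
    · left
      exact le_antisymm h h1
  · refine lt_of_le_of_ne le_sup_right ?_
    intro h
    apply h5
    rw [h]
    exact le_sup_left

end Cfsg.Agent.S2905
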