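import Cfsg.Statements.S2906
-- import your own Cfsg.Agent.* helpers here
import Cfsg.Agent.Lib.Helper28.PMinimal

set_option autoImplicit false
open Cfsg Cfsg.Agent.Lib.Helper28
open Cfsg.Agent.Lib.Helper53 (IsSyl)
open scoped commutatorElement

namespace Cfsg.Agent.S2906

/-- Let P be a finite p-minimal group with O_p(P) = 1, S a Sylow p-subgroup of P and K a component of P. Then O^p(P) = F*(P) = E(P) is generated by the S-conjugates of K, and the subgroup K·N_S(K) is again p-minimal. -/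
theorem result {P : Type*} [Group P] [Finite P] {p : ℕ} [Fact p.Prime] (hP : Cfsg.IsPMinimal p P) (hOp : Cfsg.pCore p P = ⊥) (S : Sylow p P) (K : Subgroup P) (hK : Cfsg.IsComponent K) : Cfsg.pResidual p P = Cfsg.generalizedFittingSubgroup P ∧ Cfsg.generalizedFittingSubgroup P = Cfsg.layer P ∧ Cfsg.layer P = ⨆ s : ↥(S : Subgroup P), K.map (MulAut.conj (s : P)).toMonoidHom ∧ Cfsg.IsPMinimal p ↥(K ⊔ ((S : Subgroup P) ⊓ Subgroup.normalizer (K : Set P))) := by
  obtain ⟨M, hM⟩ := exists_pMinData hP S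
  set E₁ : Subgroup P := ⨆ s : ↥(S : Subgroup P), K.map (MulAut.conj (s : P)).toMonoidHom with hE₁
  have hLn : (Cfsg.layer P).Normal := layer_normal
  have hLS : Cfsg.layer P ⊔ (S : Subgroup P) = ⊤ :=
    hM.sup_eq_top_of_component_le hOp hK hLn (le_layer hK)
  have hSE₁ : (S : Subgroup P) ≤ Subgroup.normalizer ((E₁ : Subgroup P) : Set P) :=
    le_normalizer_iSup_conj _ _
  have hKE₁ : K ≤ E₁ := le_iSup_conj _ _
  have hE₁L : E₁ ≤ Cfsg.layer P := iSup_le fun s => le_layer (isComponent_conj hK _)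
  have hE₁n : E₁.Normal := by
    rw [← Subgroup.normalizer_eq_top_iff, eq_top_iff, ← hLS]
    refine sup_le ?_ hSE₁
    intro x hx
    exact mem_normalizer_iSup fun s => layer_le_normalizer_component (isComponent_conj hK _) hx
  have hE₁S : E₁ ⊔ (S : Subgroup P) = ⊤ := hM.sup_eq_top_of_component_le hOp hK hE₁n hKE₁
  have hRE₁ : Cfsg.pResidual p P ≤ E₁ :=
    Cfsg.Agent.Lib.Helper53.pResidual_le_of_sup_eq_top hSE₁ S.2 (by rw [sup_comm]; exact hE₁S)
  have hRn : (Cfsg.pResidual p P).Normal := Cfsg.Agent.Lib.Helper53.pResidual_normal p P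
  have hLR : Cfsg.layer P ≤ Cfsg.pResidual p P := by
    apply perfect_le_of_isSolvable_quotient layer_perfect
    have h1 : IsPGroup p (P ⧸ Cfsg.pResidual p P) :=
      Cfsg.Agent.Lib.Helper53.isPGroup_quotient_pResidual p
    have := h1.isNilpotent
    infer_instance
  have hR : Cfsg.pResidual p P = Cfsg.layer P := le_antisymm (hRE₁.trans hE₁L) hLR
  have hE : Cfsg.layer P = E₁ := le_antisymm (hLR.trans hRE₁) hE₁L
  have hF : Cfsg.fittingSubgroup P ≤ Cfsg.layer P := by
    rw [← hR]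
    refine (Cfsg.Agent.Lib.Helper1.normal_nilpotent_le_iSup_pCore fitting_normal
      fitting_isNilpotent).trans (iSup_le fun q => ?_)
    by_cases hq : (q : ℕ) = p
    · rw [hq, hOp]; exact bot_le
    · intro x hx
      apply Cfsg.Agent.Lib.Helper53.mem_pResidual
      obtain ⟨k, hk⟩ := (Cfsg.Agent.Lib.Helper53.pCore_isPGroup (q : ℕ) P) ⟨x, hx⟩
      have hk' : x ^ (q : ℕ) ^ k = 1 := congrArg Subtype.val hk
      refine Nat.Coprime.coprime_dvd_left (orderOf_dvd_of_pow_eq_one hk') ?_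
      exact Nat.Coprime.pow_left k ((Nat.coprime_primes q.2 (Fact.out : p.Prime)).mpr hq)
  have hG : Cfsg.generalizedFittingSubgroup P = Cfsg.layer P := by
    unfold Cfsg.generalizedFittingSubgroup
    exact sup_eq_left.mpr hF
  refine ⟨hR.trans hG.symm, hG, hE, ?_⟩
  -- the last claim
  set T : Subgroup P := (S : Subgroup P) ⊓ Subgroup.normalizer (K : Set P) with hT
  have hTn : T ≤ Subgroup.normalizer (K : Set P) := inf_le_right
  have hTS : T ≤ (S : Subgroup P) := inf_le_left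
  have hSK : IsSyl p ((S : Subgroup P) ⊓ K) K := isSyl_inf_subnormal S hK.1
  have hSKT : (S : Subgroup P) ⊓ K ≤ T := le_inf inf_le_left (inf_le_right.trans Subgroup.le_normalizer)
  have hTK : T ⊓ K = (S : Subgroup P) ⊓ K :=
    le_antisymm (inf_le_inf_right _ hTS) (le_inf hSKT inf_le_right)
  have hdec : ∀ Y : Subgroup P, Y ≤ K ⊔ T → T ≤ Y → Y ≤ T ⊔ (Y ⊓ K) := by
    intro Y hY hTY y hy
    have h1 : y ∈ T ⊔ K := by rw [sup_comm]; exact hY hy
    obtain ⟨t, ht, k, hk, rfl⟩ := exists_mul_of_mem_sup hTn h1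
    have h2 : k ∈ Y := by
      have := Y.mul_mem (Y.inv_mem (hTY ht)) hy
      simpa using this
    exact Subgroup.mul_mem_sup ht ⟨h2, hk⟩
  have hsyl : IsSyl p T (K ⊔ T) := by
    refine ⟨le_sup_right, S.2.to_le hTS, fun A hA hAp hTA => le_antisymm ?_ hTA⟩
    have h1 : A ⊓ K = (S : Subgroup P) ⊓ K :=
      hSK.eq_of_le inf_le_right (hAp.to_le inf_le_left) (le_inf (hSKT.trans hTA) inf_le_right)
    refine (hdec A hA hTA).trans ?_
    rw [h1]
    exact sup_le le_rfl hSKT
  apply isPMinimal_of_isSyl (M₀ := M) hsyl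
  · intro hle
    have h1 : K ≤ Subgroup.normalizer ((((S : Subgroup P) ⊓ K : Subgroup P)) : Set P) := by
      rw [← hTK]
      exact (le_inf (le_sup_left.trans hle) Subgroup.le_normalizer).trans
        Subgroup.inf_normalizer_le_normalizer_inf
    have h2 : (((S : Subgroup P) ⊓ K).subgroupOf K).Normal :=
      (Subgroup.normal_subgroupOf_iff_le_normalizer inf_le_right).2 h1
    have h3 : ((S : Subgroup P) ⊓ K).IsSubnormal :=
      Subgroup.IsSubnormal.step _ K inf_le_right hK.1 h2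
    have h4 : (S : Subgroup P) ⊓ K = ⊥ := by
      rw [eq_bot_iff, ← hOp]
      exact subnormal_le_pCore h3 (S.2.to_le inf_le_left)
    rw [h4] at hSK
    exact (coprime_iff_not_dvd _).mp (coprime_card_of_isSyl_bot hSK) (hM.dvd_card_component hK)
  · intro hle
    apply hM.ne_top
    rw [eq_top_iff, ← hE₁S]
    refine sup_le (iSup_le fun s => ?_) hM.le
    exact Cfsg.Agent.Lib.Helper53.cj_le_of_le_of_mem (le_sup_left.trans hle) (hM.le s.2)
  · intro Y hYX hTY hne
    set Y₀ : Subgroup P := Y ⊓ K with hY₀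
    set D : Subgroup P := ⨆ s : ↥(S : Subgroup P), Y₀.map (MulAut.conj (s : P)).toMonoidHom with hD
    have hY₀D : Y₀ ≤ D := le_iSup_conj _ _
    have hSD : (S : Subgroup P) ≤ Subgroup.normalizer ((D : Subgroup P) : Set P) :=
      le_normalizer_iSup_conj _ _
    by_cases hDS : D ⊔ (S : Subgroup P) = ⊤
    · exfalso
      have h1 : Cfsg.pResidual p P ≤ D :=
        Cfsg.Agent.Lib.Helper53.pResidual_le_of_sup_eq_top hSD S.2 (by rw [sup_comm]; exact hDS)
      have h2 : K ≤ D := (le_layer hK).trans (hLR.trans h1)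
      set C : Subgroup P := Subgroup.centralizer (K : Set P) with hC
      have h3 : D ≤ Y₀ ⊔ C := by
        refine iSup_le fun s => ?_
        by_cases hs : (s : P) ∈ Subgroup.normalizer (K : Set P)
        · refine le_trans ?_ le_sup_left
          have hsT : (s : P) ∈ T := ⟨s.2, hs⟩
          rw [hY₀, Cfsg.Agent.Lib.Helper53.cj_inf]
          refine inf_le_inf ?_ ?_
          · exact Cfsg.Agent.Lib.Helper53.cj_le_of_le_of_mem le_rfl (hTY hsT)
          · exact (Cfsg.Agent.Lib.Helper53.cj_eq_self_iff.2 hs).le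
        · refine le_trans ?_ le_sup_right
          have hne' : K.map (MulAut.conj (s : P)).toMonoidHom ≠ K := fun he =>
            hs (Cfsg.Agent.Lib.Helper53.cj_eq_self_iff.1 he)
          have h4 := IsComponent.commutator_eq_bot_of_ne (isComponent_conj hK (s : P)) hK hne'
          exact (Subgroup.map_mono inf_le_right).trans
            (Subgroup.commutator_eq_bot_iff_le_centralizer.mp h4)
      have hY₀n : Y₀ ≤ Subgroup.normalizer ((C : Subgroup P) : Set P) :=
        (inf_le_right.trans Subgroup.le_normalizer).trans (normalizer_le_normalizer_centralizer K)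
      have h5 : ∀ k ∈ K, ∃ y ∈ Y₀, ∃ c ∈ C, y * c = k := fun k hk =>
        exists_mul_of_mem_sup hY₀n (h3 (h2 hk))
      have h6 : ⁅K, K⁆ ≤ Y₀ := by
        rw [Subgroup.commutator_le]
        intro k₁ hk₁ k₂ hk₂
        obtain ⟨y₁, hy₁, c₁, hc₁, rfl⟩ := h5 k₁ hk₁
        obtain ⟨y₂, hy₂, c₂, hc₂, rfl⟩ := h5 k₂ hk₂
        have e1 : (y₂ * c₂) * c₁ = c₁ * (y₂ * c₂) := Subgroup.mem_centralizer_iff.mp hc₁ _ hk₂
        have e2 : y₁ * c₂ = c₂ * y₁ := Subgroup.mem_centralizer_iff.mp hc₂ _ hy₁.2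
        have e3 : ⁅y₁ * c₁, y₂ * c₂⁆ = ⁅y₁, y₂⁆ := by
          rw [commutatorElement_def, commutatorElement_def]
          have e4 : y₁ * c₁ * (y₂ * c₂) * (y₁ * c₁)⁻¹ = y₁ * (y₂ * c₂) * y₁⁻¹ := by
            rw [mul_assoc y₁ c₁, ← e1]; group
          rw [e4]
          have e5 : c₂ * y₁⁻¹ = y₁⁻¹ * c₂ := by
            rw [eq_inv_mul_iff_mul_eq, ← mul_assoc, e2]; group
          calc y₁ * (y₂ * c₂) * y₁⁻¹ * (y₂ * c₂)⁻¹ = y₁ * y₂ * (c₂ * y₁⁻¹) * c₂⁻¹ * y₂⁻¹ := by group
            _ = y₁ * y₂ * y₁⁻¹ * y₂⁻¹ := by rw [e5]; group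
        rw [e3]
        exact Subgroup.commutator_mem_commutator hy₁ hy₂ |> fun h => (Subgroup.commutator_le_self Y₀) h
      rw [isPerfect_of_isComponent hK] at h6
      apply hne
      exact le_antisymm hYX (sup_le (h6.trans inf_le_left) hTY)
    · have h1 := hM.max _ le_sup_right hDS
      refine ((hdec Y hYX hTY).trans ?_).trans h1
      exact sup_le (hTS.trans le_sup_right) (hY₀D.trans le_sup_left)

end Cfsg.Agent.S2906
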