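import Cfsg.Statements.S2907
import Mathlib
import Cfsg.Agent.Lib.Helper54.PGroupAux

set_option autoImplicit false
open Cfsg

namespace Cfsg.Agent.S2907

/-- Let X be a finite semi-extraspecial p-group and x an element of X outside the centre. Then the index of C_X(x) in X equals the order of Z(X), and the commutators [x, y], y ∈ X, form exactly the centre Z(X). -/
theorem result {X : Type*} [Group X] [Finite X] {p : ℕ} [Fact p.Prime] (hX : Cfsg.IsSemiExtraspecial p X) (x : X) (hx : x ∉ Subgroup.center X) : (Subgroup.centralizer ({x} : Set X)).index = Nat.card ↥(Subgroup.center X) ∧ {z : X | ∃ y : X, z = x * y * x⁻¹ * y⁻¹} = (Subgroup.center X : Set X) := by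
  obtain ⟨⟨hpX, hfr, hcomm⟩, hsemi⟩ := hX
  have hc : ∀ a b : X, a * b * a⁻¹ * b⁻¹ ∈ Subgroup.center X := by
    intro a b
    rw [← hcomm]
    exact Subgroup.commutator_mem_commutator (Subgroup.mem_top a) (Subgroup.mem_top b)
  let f : X →* Subgroup.center X := MonoidHom.mk' (fun y => ⟨x * y * x⁻¹ * y⁻¹, hc x y⟩) (by
    intro a b
    apply Subtype.ext
    have h := (Subgroup.mem_center_iff.mp (hc x b)) a
    show x * (a * b) * x⁻¹ * (a * b)⁻¹ = (x * a * x⁻¹ * a⁻¹) * (x * b * x⁻¹ * b⁻¹)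
    calc x * (a * b) * x⁻¹ * (a * b)⁻¹ = x * a * x⁻¹ * a⁻¹ * (a * (x * b * x⁻¹ * b⁻¹)) * a⁻¹ := by group
      _ = x * a * x⁻¹ * a⁻¹ * ((x * b * x⁻¹ * b⁻¹) * a) * a⁻¹ := by rw [h]
      _ = (x * a * x⁻¹ * a⁻¹) * (x * b * x⁻¹ * b⁻¹) := by group)
  have hfy : ∀ y, ((f y : Subgroup.center X) : X) = x * y * x⁻¹ * y⁻¹ := fun y => rfl
  have hrange : f.range = ⊤ := by
    by_contra hne
    obtain ⟨Y', hY', hle⟩ := (eq_top_or_exists_le_coatom f.range).resolve_left hne
    set Y : Subgroup X := Y'.map (Subgroup.center X).subtype with hY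
    have hYZ : Y ≤ Subgroup.center X := Subgroup.map_subtype_le _
    have hYsub : Y.subgroupOf (Subgroup.center X) = Y' := by
      rw [hY, Subgroup.subgroupOf, Subgroup.comap_map_eq_self_of_injective (Subgroup.subtype_injective _)]
    obtain ⟨hYn, hext⟩ := hsemi Y hYZ (by rw [hYsub]; exact hY')
    have hcardc : Nat.card (Subgroup.center (X ⧸ Y)) = p := hext.2
    have hidx : Y'.index = p :=
      Cfsg.Agent.Lib.Helper54.index_eq_of_isCoatom_of_isPGroup (hpX.to_subgroup _) hY'
    have hcardZ : Nat.card ((Subgroup.center X).map (QuotientGroup.mk' Y)) = p := by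
      rw [← Subgroup.relIndex_ker, QuotientGroup.ker_mk', Subgroup.relIndex, hYsub, hidx]
    have hZle : (Subgroup.center X).map (QuotientGroup.mk' Y) ≤ Subgroup.center (X ⧸ Y) := by
      rintro _ ⟨w, hw, rfl⟩
      rw [Subgroup.mem_center_iff]
      intro q
      obtain ⟨y, rfl⟩ := QuotientGroup.mk'_surjective Y q
      rw [← map_mul, ← map_mul, (Subgroup.mem_center_iff.mp hw) y]
    have hZeq : (Subgroup.center X).map (QuotientGroup.mk' Y) = Subgroup.center (X ⧸ Y) :=
      Subgroup.eq_of_le_of_card_ge hZle (by rw [hcardZ, hcardc])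
    have hxc : QuotientGroup.mk' Y x ∈ Subgroup.center (X ⧸ Y) := by
      rw [Subgroup.mem_center_iff]
      intro q
      obtain ⟨y, rfl⟩ := QuotientGroup.mk'_surjective Y q
      rw [← map_mul, ← map_mul]
      show ((y * x : X) : X ⧸ Y) = ((x * y : X) : X ⧸ Y)
      rw [QuotientGroup.eq]
      have h1 : x * y * x⁻¹ * y⁻¹ ∈ Y := ⟨f y, hle ⟨y, rfl⟩, rfl⟩
      have h2 := (Subgroup.mem_center_iff.mp (hc x y)) (y * x)⁻¹
      have h3 : (y * x)⁻¹ * (x * y) = (y * x)⁻¹ * (x * y * x⁻¹ * y⁻¹) * (y * x) := by group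
      rw [h3, h2]
      have h4 : x * y * x⁻¹ * y⁻¹ * (y * x)⁻¹ * (y * x) = x * y * x⁻¹ * y⁻¹ := by group
      rw [h4]; exact h1
    rw [← hZeq] at hxc
    obtain ⟨w, hw, hwx⟩ := hxc
    have h5 : w⁻¹ * x ∈ Y := by
      rw [← QuotientGroup.eq]; exact hwx
    apply hx
    have h6 := Subgroup.mul_mem _ hw (hYZ h5)
    simpa using h6
  constructor
  · have hker : f.ker = Subgroup.centralizer ({x} : Set X) := by
      ext y
      rw [MonoidHom.mem_ker, Subgroup.mem_centralizer_singleton_iff, Subtype.ext_iff, hfy]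
      simp only [Subgroup.coe_one]
      rw [mul_inv_eq_one, mul_inv_eq_iff_eq_mul]
      exact eq_comm
    rw [← hker, Subgroup.index_ker, hrange, Subgroup.card_top]
  · ext z
    constructor
    · rintro ⟨y, rfl⟩
      exact hc x y
    · intro hz
      have : (⟨z, hz⟩ : Subgroup.center X) ∈ f.range := by rw [hrange]; trivial
      obtain ⟨y, hy⟩ := this
      exact ⟨y, by rw [← hfy, hy]⟩

end Cfsg.Agent.S2907
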