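import Cfsg.Statements.S2908
import Mathlib
import Cfsg.Agent.Lib.Helper54.Comm
import Cfsg.Agent.S0026
import Cfsg.Agent.S0027
open scoped commutatorElement

set_option autoImplicit false
open Cfsg

namespace Cfsg.Agent.S2908

/-- Let P be a p-subgroup of a finite group, normalized by a p-subgroup A and by a subgroup B of order prime to p that commutes elementwise with A. If [P, B] ≤ [P, A], then B centralizes P. -/
theorem result {G : Type*} [Group G] [Finite G] {p : ℕ} [Fact p.Prime] (P A B : Subgroup G) (hP : IsPGroup p ↥P) (hA : IsPGroup p ↥A) (hB : ¬ p ∣ Nat.card ↥B) (hnA : A ≤ Subgroup.normalizer (P : Set G)) (hnB : B ≤ Subgroup.normalizer (P : Set G)) (hAB : ⁅A, B⁆ = ⊥) (hcomm : ⁅P, B⁆ ≤ ⁅P, A⁆) : ⁅P, B⁆ = ⊥ := by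
  have hpp : p.Prime := Fact.out
  have hcop : (Nat.card B).Coprime (Nat.card P) := by
    obtain ⟨n, hn⟩ := hP.exists_card_eq
    rw [hn]
    exact Nat.Coprime.pow_right n ((Nat.Prime.coprime_iff_not_dvd hpp).mpr hB).symm
  have hsolP : Group.IsSolvable P := by
    have : Group.IsNilpotent P := hP.isNilpotent
    infer_instance
  have h27 := Cfsg.Agent.S0027.result B P hnB hcop (Or.inr hsolP)
  have h26 := Cfsg.Agent.S0026.result B P hnB hcop (Or.inr hsolP)
  -- elementwise facts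
  have hAP : ∀ a ∈ A, ∀ x ∈ P, a * x * a⁻¹ ∈ P := fun a ha x hx =>
    (Subgroup.mem_normalizer_iff.mp (hnA ha) x).mp hx
  have hBP : ∀ b ∈ B, ∀ x ∈ P, b * x * b⁻¹ ∈ P := fun b hb x hx =>
    (Subgroup.mem_normalizer_iff.mp (hnB hb) x).mp hx
  have hABc : ∀ a ∈ A, ∀ b ∈ B, a * b = b * a := by
    intro a ha b hb
    have h1 : ⁅a, b⁆ ∈ ⁅A, B⁆ := Subgroup.commutator_mem_commutator ha hb
    rw [hAB, Subgroup.mem_bot] at h1
    exact commutatorElement_eq_one_iff_mul_comm.mp h1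
  set Q : Subgroup G := ⁅P, B⁆ with hQ
  set W : Subgroup G := P ⊔ A with hW
  set C : Subgroup G := P ⊓ Subgroup.centralizer (B : Set G) with hC
  have hQP : Q ≤ P := by
    rw [hQ, Subgroup.commutator_le]
    intro x hx b hb
    have h1 := hBP b hb x⁻¹ (P.inv_mem hx)
    have h2 : ⁅x, b⁆ = x * (b * x⁻¹ * b⁻¹) := by rw [commutatorElement_def]; group
    rw [h2]; exact P.mul_mem hx h1
  have hPW : P ≤ W := le_sup_left
  have hAW : A ≤ W := le_sup_right
  have hWp : IsPGroup p W := hP.to_sup_of_normal_left' hA hnA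
  -- conjugation stability of Q
  have hQconjP : ∀ y ∈ P, ∀ x ∈ Q, y * x * y⁻¹ ∈ Q := fun y hy x hx =>
    Cfsg.Agent.Lib.Helper54.conj_mem_commutator_left hy hx
  have hQconjA : ∀ a ∈ A, ∀ x ∈ Q, a * x * a⁻¹ ∈ Q := by
    intro a ha x hx
    apply Cfsg.Agent.Lib.Helper54.conj_mem_commutator_of_conj_mem (hAP a ha) _ hx
    intro b hb
    rw [hABc a ha b hb]
    simpa using hb
  have hQconjB : ∀ b ∈ B, ∀ x ∈ Q, b * x * b⁻¹ ∈ Q := by
    intro b hb x hx
    apply Cfsg.Agent.Lib.Helper54.conj_mem_commutator_of_conj_mem (hBP b hb) _ hx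
    intro b' hb'
    exact B.mul_mem (B.mul_mem hb hb') (B.inv_mem hb)
  have hWconjB : ∀ b ∈ B, ∀ w ∈ W, b * w * b⁻¹ ∈ W := by
    intro b hb w hw
    have h1 : W.map (MulAut.conj b).toMonoidHom ≤ W := by
      rw [hW, Subgroup.map_sup]
      apply sup_le
      · rintro _ ⟨x, hx, rfl⟩; exact hPW (hBP b hb x hx)
      · rintro _ ⟨a, ha, rfl⟩
        apply hAW
        show b * a * b⁻¹ ∈ A
        rw [← hABc a ha b hb]; simpa using ha
    exact h1 ⟨w, hw, rfl⟩
  set Qt : Subgroup G := ⁅Q, W⁆ with hQt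
  have hQtconjB : ∀ b ∈ B, ∀ x ∈ Qt, b * x * b⁻¹ ∈ Qt := fun b hb x hx =>
    Cfsg.Agent.Lib.Helper54.conj_mem_commutator_of_conj_mem (hQconjB b hb) (hWconjB b hb) hx
  -- W normalizes Q
  have hWQ : W ≤ Subgroup.normalizer (Q : Set G) := by
    rw [hW]
    apply sup_le
    · intro y hy
      rw [Subgroup.mem_normalizer_iff]
      intro x
      refine ⟨hQconjP y hy x, fun h => ?_⟩
      have := hQconjP y⁻¹ (P.inv_mem hy) _ h
      simpa [mul_assoc] using this
    · intro y hy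
      rw [Subgroup.mem_normalizer_iff]
      intro x
      refine ⟨hQconjA y hy x, fun h => ?_⟩
      have := hQconjA y⁻¹ (A.inv_mem hy) _ h
      simpa [mul_assoc] using this
  have hQtconjW : ∀ w ∈ W, ∀ x ∈ Qt, w * x * w⁻¹ ∈ Qt := by
    intro w hw x hx
    apply Cfsg.Agent.Lib.Helper54.conj_mem_commutator_of_conj_mem _ _ hx
    · intro q hq
      exact (Subgroup.mem_normalizer_iff.mp (hWQ hw) q).mp hq
    · intro w' hw'
      exact W.mul_mem (W.mul_mem hw hw') (W.inv_mem hw)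
  have hCW : C ≤ W := inf_le_left.trans hPW
  have hCQt : C ≤ Subgroup.normalizer (Qt : Set G) := by
    intro y hy
    rw [Subgroup.mem_normalizer_iff]
    intro x
    refine ⟨hQtconjW y (hCW hy) x, fun h => ?_⟩
    have := hQtconjW y⁻¹ (W.inv_mem (hCW hy)) _ h
    simpa [mul_assoc] using this
  -- [P, A] ≤ Qt ⊔ C
  have hPA : ⁅P, A⁆ ≤ Qt ⊔ C := by
    rw [Subgroup.commutator_le]
    intro x hx a ha
    have hx' : x ∈ Q ⊔ C := by rw [h26]; exact hx
    have hCQ : C ≤ Subgroup.normalizer (Q : Set G) := hCW.trans hWQ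
    have hx'' : x ∈ ((Q ⊔ C : Subgroup G) : Set G) := hx'
    rw [Subgroup.coe_mul_of_right_le_normalizer_left Q C hCQ] at hx''
    obtain ⟨q, hq, c, hc, rfl⟩ := hx''
    have hc' : ⁅c, a⁆ ∈ C := by
      have h1 : a * c⁻¹ * a⁻¹ ∈ C := by
        refine ⟨hAP a ha _ (P.inv_mem hc.1), ?_⟩
        show a * c⁻¹ * a⁻¹ ∈ Subgroup.centralizer (B : Set G)
        rw [Subgroup.mem_centralizer_iff]
        intro b hb
        have h2 := (Subgroup.mem_centralizer_iff.mp hc.2) b hb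
        have h3 := hABc a ha b hb
        have h4 : b * c⁻¹ = c⁻¹ * b := by
          calc b * c⁻¹ = c⁻¹ * (c * b) * c⁻¹ := by group
            _ = c⁻¹ * (b * c) * c⁻¹ := by rw [h2]
            _ = c⁻¹ * b := by group
        have h5 : b * a⁻¹ = a⁻¹ * b := by
          calc b * a⁻¹ = a⁻¹ * (a * b) * a⁻¹ := by group
            _ = a⁻¹ * (b * a) * a⁻¹ := by rw [h3]
            _ = a⁻¹ * b := by group
        calc b * (a * c⁻¹ * a⁻¹) = (b * a) * c⁻¹ * a⁻¹ := by group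
          _ = (a * b) * c⁻¹ * a⁻¹ := by rw [h3]
          _ = a * (b * c⁻¹) * a⁻¹ := by group
          _ = a * (c⁻¹ * b) * a⁻¹ := by rw [h4]
          _ = a * c⁻¹ * (b * a⁻¹) := by group
          _ = a * c⁻¹ * (a⁻¹ * b) := by rw [h5]
          _ = a * c⁻¹ * a⁻¹ * b := by group
      have h2 : ⁅c, a⁆ = c * (a * c⁻¹ * a⁻¹) := by rw [commutatorElement_def]; group
      rw [h2]; exact C.mul_mem hc h1
    have h1 : ⁅q * c, a⁆ = ⁅q, ⁅c, a⁆⁆ * ⁅c, a⁆ * ⁅q, a⁆ := by
      simp only [commutatorElement_def]; group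
    rw [h1]
    apply Subgroup.mul_mem
    · apply Subgroup.mul_mem
      · exact (le_sup_left : Qt ≤ Qt ⊔ C) (Subgroup.commutator_mem_commutator hq (hCW hc'))
      · exact (le_sup_right : C ≤ Qt ⊔ C) hc'
    · exact (le_sup_left : Qt ≤ Qt ⊔ C) (Subgroup.commutator_mem_commutator hq (hAW ha))
  -- [Q, B] ≤ Qt
  have hQB : ⁅Q, B⁆ ≤ Qt := by
    rw [Subgroup.commutator_le]
    intro g hg b hb
    have hg' : g ∈ ((Qt ⊔ C : Subgroup G) : Set G) := hPA (hcomm hg)
    rw [Subgroup.coe_mul_of_right_le_normalizer_left Qt C hCQt] at hg'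
    obtain ⟨t, ht, c, hc, rfl⟩ := hg'
    have h2 := (Subgroup.mem_centralizer_iff.mp hc.2) b hb
    have h3 : ⁅t * c, b⁆ = t * (b * t⁻¹ * b⁻¹) := by
      rw [commutatorElement_def]
      calc t * c * b * (t * c)⁻¹ * b⁻¹ = t * (c * b) * c⁻¹ * t⁻¹ * b⁻¹ := by group
        _ = t * (b * c) * c⁻¹ * t⁻¹ * b⁻¹ := by rw [h2]
        _ = t * (b * t⁻¹ * b⁻¹) := by group
    rw [h3]
    exact Qt.mul_mem ht (hQtconjB b hb _ (Qt.inv_mem ht))
  rw [h27] at hQB
  exact Cfsg.Agent.Lib.Helper54.eq_bot_of_commutator_eq_self W Q hWp (hQP.trans hPW) hQB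

end Cfsg.Agent.S2908
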