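import Cfsg.Statements.S3734
import Mathlib
import Cfsg.Agent.Lib.Helper1.Coprime2
import Cfsg.Agent.Lib.Helper1.Coprime3
import Cfsg.Agent.Lib.Helper1.PQLemma
import Cfsg.Agent.Lib.Helper1.PGroup
import Cfsg.Agent.Lib.Helper5.Conj
import Cfsg.Agent.Lib.Helper65.ChiefCyclic

set_option autoImplicit false
open Cfsg

namespace Cfsg.Agent.S3734

open Cfsg.Agent.Lib.Helper1 Cfsg.Agent.Lib.Helper65
open scoped commutatorElement

/-- the family of subgroups with cyclic quotient -/
def fam {X : Type*} [Group X] (A : Subgroup X) : Set (Subgroup X) :=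
  {B : Subgroup X | B ≤ A ∧ ∃ a ∈ A, B ⊔ Subgroup.zpowers a = A}

theorem le_normalizer_biSup {X : Type*} [Group X] (A : Subgroup X) (S : Set (Subgroup X))
    (K : Subgroup X → Subgroup X) (h : ∀ B ∈ S, A ≤ Subgroup.normalizer (K B : Set X)) :
    A ≤ Subgroup.normalizer ((⨆ B ∈ S, K B : Subgroup X) : Set X) := by
  intro a ha
  rw [Subgroup.mem_normalizer_iff_map_conj_eq, Subgroup.map_iSup]
  congr 1
  funext B
  rw [Subgroup.map_iSup]
  congr 1
  funext hB
  exact Subgroup.mem_normalizer_iff_map_conj_eq.mp (h B hB ha)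

theorem le_normalizer_inf_centralizer {X : Type*} [Group X] (A G B : Subgroup X)
    (hAab : ∀ a ∈ A, ∀ b ∈ A, a * b = b * a) (hAG : A ≤ Subgroup.normalizer (G : Set X)) (hB : B ≤ A) :
    A ≤ Subgroup.normalizer ((G ⊓ Subgroup.centralizer (B : Set X) : Subgroup X) : Set X) := by
  rw [Subgroup.le_normalizer_iff]
  rintro a ha x ⟨hx1, hx2⟩
  refine ⟨(Subgroup.le_normalizer_iff.mp hAG) a ha x hx1, ?_⟩
  show _ ∈ Subgroup.centralizer (B : Set X)
  rw [Subgroup.mem_centralizer_iff]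
  intro b hb
  have h1 := Subgroup.mem_centralizer_iff.mp hx2 b hb
  have h2 := hAab a ha b (hB hb)
  calc b * (a * x * a⁻¹) = (b * a) * x * a⁻¹ := by group
    _ = a * (b * x) * a⁻¹ := by rw [← h2]; group
    _ = a * x * (b * a⁻¹) := by rw [h1]; group
    _ = a * x * (a⁻¹ * (a * b) * a⁻¹) := by group
    _ = a * x * a⁻¹ * b := by rw [h2]; group

theorem pgroup_gen {X : Type*} [Group X] [Finite X] {p : ℕ} [Fact p.Prime] (A Q : Subgroup X)
    (hAab : ∀ a ∈ A, ∀ b ∈ A, a * b = b * a)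
    (hAQ : A ≤ Subgroup.normalizer (Q : Set X)) (hQ : IsPGroup p Q)
    (hcop : (Nat.card A).Coprime (Nat.card Q)) :
    Q ≤ ⨆ B ∈ fam A, Q ⊓ Subgroup.centralizer (B : Set X) := by
  set H := ⨆ B ∈ fam A, Q ⊓ Subgroup.centralizer (B : Set X) with hH
  have hHQ : H ≤ Q := iSup₂_le fun B _ => inf_le_left
  have hAH : A ≤ Subgroup.normalizer (H : Set X) :=
    le_normalizer_biSup A (fam A) _ fun B hB => le_normalizer_inf_centralizer A Q B hAab hAQ hB.1
  by_contra hcon
  have hlt : H < Q := lt_of_le_of_ne hHQ (fun h => hcon h.ge)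
  obtain ⟨R, ⟨hHR, hRQ, hAR⟩, hmax⟩ := (Set.toFinite
    {R : Subgroup X | H ≤ R ∧ R < Q ∧ A ≤ Subgroup.normalizer (R : Set X)}).exists_maximal
      ⟨H, le_rfl, hlt, hAH⟩
  have hmax' : ∀ U : Subgroup X, R ≤ U → U ≤ Q → A ≤ Subgroup.normalizer (U : Set X) →
      U = R ∨ U = Q := by
    intro U hRU hUQ hAU
    by_cases h : U = Q
    · exact Or.inr h
    · left
      exact le_antisymm (hmax ⟨hHR.trans hRU, lt_of_le_of_ne hUQ h, hAU⟩ hRU) hRU
  have hQR : Q ≤ Subgroup.normalizer (R : Set X) := by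
    obtain ⟨x, hxQ, hxR, hxN⟩ := Cfsg.Agent.Lib.Helper5.exists_normalizing_not_mem hQ hRQ
    have h1 : A ≤ Subgroup.normalizer ((Q ⊓ Subgroup.normalizer (R : Set X) : Subgroup X) : Set X) := by
      rw [Subgroup.le_normalizer_iff]
      rintro a ha y ⟨hy1, hy2⟩
      refine ⟨(Subgroup.le_normalizer_iff.mp hAQ) a ha y hy1, ?_⟩
      exact Subgroup.mul_mem _ (Subgroup.mul_mem _ (hAR ha) hy2) (Subgroup.inv_mem _ (hAR ha))
    rcases hmax' _ (le_inf hRQ.le Subgroup.le_normalizer) inf_le_left h1 with h | h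
    · exact absurd (h ▸ (⟨hxQ, hxN⟩ : x ∈ Q ⊓ Subgroup.normalizer (R : Set X))) hxR
    · exact h ▸ inf_le_right
  have hab : ⁅Q, Q⁆ ≤ R := by
    have hne : R.subgroupOf Q ≠ ⊤ := by
      intro h
      rw [Subgroup.subgroupOf_eq_top] at h
      exact absurd h (not_le_of_gt hRQ)
    obtain h' | ⟨M, hM, hRM⟩ := eq_top_or_exists_le_coatom (R.subgroupOf Q)
    · exact absurd h' hne
    have h1 : commutator Q ≤ M := pgroup_commutator_le_coatom hQ hM
    have h2 : ⁅Q, Q⁆ ≤ M.map Q.subtype := by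
      rw [← Subgroup.map_subtype_commutator]
      exact Subgroup.map_mono h1
    have h3 : R ≤ M.map Q.subtype := by
      rw [← Subgroup.map_subgroupOf_eq_of_le hRQ.le]
      exact Subgroup.map_mono hRM
    have h4 : M.map Q.subtype ≠ Q := by
      intro h
      apply hM.1
      apply Subgroup.map_injective Q.subtype_injective
      rw [h, ← MonoidHom.range_eq_map, Subgroup.range_subtype]
    have hn : A ≤ Subgroup.normalizer ((⁅Q, Q⁆ : Subgroup X) : Set X) :=
      (le_inf hAQ hAQ).trans (inf_normalizer_le_normalizer_commutator Q Q)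
    have h5 : A ≤ Subgroup.normalizer ((R ⊔ ⁅Q, Q⁆ : Subgroup X) : Set X) := by
      intro a ha
      rw [Subgroup.mem_normalizer_iff_map_conj_eq, Subgroup.map_sup,
        Subgroup.mem_normalizer_iff_map_conj_eq.mp (hAR ha),
        Subgroup.mem_normalizer_iff_map_conj_eq.mp (hn ha)]
    rcases hmax' (R ⊔ ⁅Q, Q⁆) le_sup_left
      (sup_le hRQ.le (Subgroup.commutator_le_self Q)) h5 with h | h
    · rw [← h]; exact le_sup_right
    · exfalso
      apply h4
      exact le_antisymm (Subgroup.map_subtype_le _) (h.ge.trans (sup_le h3 h2))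
  obtain ⟨B, hBA, hBcyc, hBtriv⟩ := exists_cyclic_quotient_of_chief A Q R hAab hAQ hAR hRQ hQR hab hmax'
  have hcopB : (Nat.card B).Coprime (Nat.card Q) :=
    Nat.Coprime.of_dvd_left (Subgroup.card_dvd_of_le hBA) hcop
  have hsolv : Group.IsSolvable B ∨ Group.IsSolvable Q := by
    right
    have := hQ.isNilpotent
    infer_instance
  apply not_le_of_gt hRQ
  intro x hx
  obtain ⟨c, hc, hcR⟩ := coprime_fixed_points_quotient B Q hcopB hsolv R hRQ.le hQR (hBA.trans hAR) x hx
    (fun b hb => hBtriv b hb x hx)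
  have h1 : c ∈ R := by
    apply hHR
    rw [hH]
    exact Subgroup.mem_iSup_of_mem B (Subgroup.mem_iSup_of_mem ⟨hBA, hBcyc⟩ hc)
  have h2 : x = c * (x⁻¹ * c)⁻¹ := by group
  rw [h2]
  exact R.mul_mem h1 (R.inv_mem hcR)

/-- Let A and G be subgroups of a finite group with A abelian, A normalizing G and the orders of A and G coprime. Then G is generated by the fixed-point subgroups C_G(B) of those subgroups B of A for which A/B is cyclic (that is, A = ⟨B, a⟩ for some a), and [G, A] is generated by the commutator subgroups [C_G(B), A] over the same subgroups B. -/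
theorem result {X : Type*} [Group X] [Finite X] (A G : Subgroup X) (hAab : IsMulCommutative A) (hAG : A ≤ Subgroup.normalizer (G : Set X)) (hcop : (Nat.card A).Coprime (Nat.card G)) : (⨆ B ∈ {B : Subgroup X | B ≤ A ∧ ∃ a ∈ A, B ⊔ Subgroup.zpowers a = A}, G ⊓ Subgroup.centralizer (B : Set X)) = G ∧ (⨆ B ∈ {B : Subgroup X | B ≤ A ∧ ∃ a ∈ A, B ⊔ Subgroup.zpowers a = A}, ⁅G ⊓ Subgroup.centralizer (B : Set X), A⁆) = ⁅G, A⁆ := by
  have hab : ∀ a ∈ A, ∀ b ∈ A, a * b = b * a := by
    intro a ha b hb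
    exact congrArg Subtype.val (hAab.is_comm.comm ⟨a, ha⟩ ⟨b, hb⟩)
  have hsolvA : Group.IsSolvable A := by
    letI : CommGroup A := { (inferInstance : Group A) with mul_comm := hAab.is_comm.comm }
    infer_instance
  change (⨆ B ∈ fam A, G ⊓ Subgroup.centralizer (B : Set X)) = G ∧
    (⨆ B ∈ fam A, ⁅G ⊓ Subgroup.centralizer (B : Set X), A⁆) = ⁅G, A⁆
  have hgen : (⨆ B ∈ fam A, G ⊓ Subgroup.centralizer (B : Set X)) = G := by
    set H := ⨆ B ∈ fam A, G ⊓ Subgroup.centralizer (B : Set X) with hH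
    have hHG : H ≤ G := iSup₂_le fun B _ => inf_le_left
    apply le_antisymm hHG
    rw [← Subgroup.relIndex_eq_one, Nat.eq_one_iff_not_exists_prime_dvd]
    intro p hp hdvd
    haveI : Fact p.Prime := ⟨hp⟩
    obtain ⟨Q, hQ, hAQ⟩ := coprime_exists_invariant_sylow A G hAG hcop (Or.inl hsolvA) p
    have h1 : Q ≤ H := by
      refine (pgroup_gen A Q hab hAQ hQ.2.1
        (Nat.Coprime.of_dvd_right (Subgroup.card_dvd_of_le hQ.1) hcop)).trans ?_
      exact iSup₂_mono fun B _ => inf_le_inf_right _ hQ.1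
    exact hQ.2.2 (hdvd.trans (Subgroup.relIndex_dvd_of_le_left G h1))
  refine ⟨hgen, ?_⟩
  set L := ⨆ B ∈ fam A, ⁅G ⊓ Subgroup.centralizer (B : Set X), A⁆ with hL
  apply le_antisymm
  · exact iSup₂_le fun B _ => Subgroup.commutator_mono inf_le_left le_rfl
  set C := G ⊓ Subgroup.centralizer (A : Set X) with hC
  have hAL : A ≤ Subgroup.normalizer (L : Set X) :=
    le_normalizer_biSup A (fam A) _ fun B hB =>
      (le_inf (le_normalizer_inf_centralizer A G B hab hAG hB.1) Subgroup.le_normalizer).trans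
        (inf_normalizer_le_normalizer_commutator _ _)
  have hCL : C ≤ Subgroup.normalizer (L : Set X) :=
    le_normalizer_biSup C (fam A) _ fun B hB => by
      refine (le_inf ?_ ?_).trans (inf_normalizer_le_normalizer_commutator _ _)
      · refine le_trans ?_ Subgroup.le_normalizer
        exact inf_le_inf_left _ (Subgroup.centralizer_le hB.1)
      · exact inf_le_right.trans (Subgroup.centralizer_le_normalizer _)
  have hG : G ≤ C ⊔ L := by
    rw [← hgen]
    refine iSup₂_le fun B hB => ?_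
    have h1 := coprime_commutator_sup_centralizer A (G ⊓ Subgroup.centralizer (B : Set X))
      (le_normalizer_inf_centralizer A G B hab hAG hB.1)
      (Nat.Coprime.of_dvd_right (Subgroup.card_dvd_of_le inf_le_left) hcop) (Or.inl hsolvA)
    rw [← h1]
    refine sup_le ?_ ?_
    · refine le_trans ?_ le_sup_right
      exact le_iSup₂_of_le B hB le_rfl
    · refine le_trans ?_ le_sup_left
      exact inf_le_inf_right _ inf_le_left
  rw [Subgroup.commutator_le]
  intro g hg a ha
  obtain ⟨c, hc, l, hl, rfl⟩ := (mem_sup_of_le_normalizer hCL).mp (hG hg)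
  have hca := Subgroup.mem_centralizer_iff.mp hc.2 a ha
  have h1 : ⁅c * l, a⁆ = c * (l * (a * l⁻¹ * a⁻¹)) * c⁻¹ := by
    rw [commutatorElement_def]
    calc c * l * a * (c * l)⁻¹ * a⁻¹ = c * l * a * l⁻¹ * (c⁻¹ * a⁻¹) := by group
      _ = c * l * a * l⁻¹ * (a * c)⁻¹ := by group
      _ = c * l * a * l⁻¹ * (c * a)⁻¹ := by rw [hca]
      _ = _ := by group
  rw [h1]
  exact (Subgroup.le_normalizer_iff.mp hCL) c hc _
    (L.mul_mem hl ((Subgroup.le_normalizer_iff.mp hAL) a ha _ (L.inv_mem hl)))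

end Cfsg.Agent.S3734
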