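import Cfsg.Statements.S2909
import Mathlib
import Cfsg.Agent.S3734
import Cfsg.Agent.Lib.Helper11.AxB
import Cfsg.Agent.Lib.Helper1.Coprime2
import Cfsg.Agent.Lib.Helper1.PQLemma

set_option autoImplicit false
open Cfsg

namespace Cfsg.Agent.S2909

open Cfsg.Agent.Lib.Helper1
open scoped commutatorElement

/-- dual of the Thompson A x B lemma -/
theorem dual_AxB {G : Type*} [Group G] [Finite G] {p : ℕ} [Fact p.Prime] (E : Subgroup G)
    (hE : IsPGroup p E) (T : Subgroup G) (hT : IsPGroup p T) (X : Subgroup G)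
    (hX : (Nat.card X).Coprime p) (hXT : X ≤ Subgroup.centralizer (T : Set G))
    (hTE : T ≤ Subgroup.normalizer (E : Set G)) (hXE : X ≤ Subgroup.normalizer (E : Set G))
    (h : ⁅E, X⁆ ≤ ⁅E, T⁆) : X ≤ Subgroup.centralizer (E : Set G) := by
  by_contra hcon
  set W := ⁅E, X⁆ with hW
  have hW1 : W ≠ ⊥ := by
    intro h0
    apply hcon
    rw [hW, Subgroup.commutator_comm] at h0
    exact Subgroup.commutator_eq_bot_iff_le_centralizer.mp h0
  have hWE : W ≤ E := commutator_le_left_of_le_normalizer hXE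
  obtain ⟨n, hn⟩ := hE.exists_card_eq
  have hcop : (Nat.card X).Coprime (Nat.card E) := by rw [hn]; exact hX.pow_right n
  have hsolv : Group.IsSolvable X ∨ Group.IsSolvable E := by
    right
    have := hE.isNilpotent
    infer_instance
  set S := T ⊔ E with hS
  have hSp : IsPGroup p S := hT.to_sup_of_normal_right' hE hTE
  have hTX : T ≤ Subgroup.normalizer (X : Set G) :=
    (Subgroup.le_centralizer_iff.mp hXT).trans (Subgroup.centralizer_le_normalizer _)
  have hXTn : X ≤ Subgroup.normalizer (T : Set G) := hXT.trans (Subgroup.centralizer_le_normalizer _)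
  have hnW := sup_le_normalizer_commutator E X
  have hSW : S ≤ Subgroup.normalizer (W : Set G) :=
    sup_le ((le_inf hTE hTX).trans (inf_normalizer_le_normalizer_commutator E X))
      (le_sup_left.trans hnW)
  have hXW : X ≤ Subgroup.normalizer (W : Set G) := le_sup_right.trans hnW
  set M := ⁅W, S⁆ with hM
  have hMW : M < W := Cfsg.Agent.Lib.Helper11.commutator_lt_of_isPGroup W S (hE.to_le hWE) hSp hSW hW1
  have hXS : X ≤ Subgroup.normalizer (S : Set G) := by
    intro x hx
    rw [Subgroup.mem_normalizer_iff_map_conj_eq, hS, Subgroup.map_sup,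
      Subgroup.mem_normalizer_iff_map_conj_eq.mp (hXTn hx),
      Subgroup.mem_normalizer_iff_map_conj_eq.mp (hXE hx)]
  have hXM : X ≤ Subgroup.normalizer (M : Set G) :=
    (le_inf hXW hXS).trans (inf_normalizer_le_normalizer_commutator W S)
  have hSM : S ≤ Subgroup.normalizer (M : Set G) := le_sup_right.trans (sup_le_normalizer_commutator W S)
  have hEM : E ≤ Subgroup.normalizer (M : Set G) := le_sup_right.trans hSM
  set C := E ⊓ Subgroup.centralizer (X : Set G) with hC
  have hCM : C ≤ Subgroup.normalizer (M : Set G) := inf_le_left.trans hEM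
  have h1 : ⁅E, T⁆ ≤ C ⊔ M := by
    rw [Subgroup.commutator_le]
    intro e he t ht
    obtain ⟨w, hw, c, hc, rfl⟩ := coprime_exists_commutator_mul_centralizer X E hXE hcop hsolv e he
    have hk : ⁅c, t⁆ ∈ C := by
      have h2 : t * c⁻¹ * t⁻¹ ∈ C := by
        refine ⟨(Subgroup.le_normalizer_iff.mp hTE) t ht _ (E.inv_mem hc.1), ?_⟩
        show _ ∈ Subgroup.centralizer (X : Set G)
        rw [Subgroup.mem_centralizer_iff]
        intro x hx
        have e1 := Subgroup.mem_centralizer_iff.mp (hXT hx) t ht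
        have e2 := Subgroup.mem_centralizer_iff.mp (Subgroup.inv_mem _ hc.2) x hx
        have e3 : x * t⁻¹ = t⁻¹ * x := by
          have : t⁻¹ * (t * x) * t⁻¹ = t⁻¹ * (x * t) * t⁻¹ := by rw [e1]
          simpa [mul_assoc] using this
        calc x * (t * c⁻¹ * t⁻¹) = (x * t) * c⁻¹ * t⁻¹ := by group
          _ = t * (x * c⁻¹) * t⁻¹ := by rw [← e1]; group
          _ = t * c⁻¹ * (x * t⁻¹) := by rw [e2]; group
          _ = t * c⁻¹ * t⁻¹ * x := by rw [e3]; group
      have h3 : ⁅c, t⁆ = c * (t * c⁻¹ * t⁻¹) := by rw [commutatorElement_def]; group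
      rw [h3]
      exact C.mul_mem hc h2
    have h4 : ⁅w * c, t⁆ = ⁅w, ⁅c, t⁆⁆ * ⁅c, t⁆ * ⁅w, t⁆ := by
      simp only [commutatorElement_def]; group
    rw [h4]
    refine Subgroup.mul_mem _ (Subgroup.mul_mem _ ?_ ?_) ?_
    · exact Subgroup.mem_sup_right
        (Subgroup.commutator_mem_commutator hw (Subgroup.mem_sup_right hk.1))
    · exact Subgroup.mem_sup_left hk
    · exact Subgroup.mem_sup_right
        (Subgroup.commutator_mem_commutator hw (Subgroup.mem_sup_left ht))
  have h2 : ⁅W, X⁆ ≤ M := by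
    rw [Subgroup.commutator_le]
    intro w hw x hx
    obtain ⟨c, hc, m, hm, rfl⟩ := (mem_sup_of_le_normalizer hCM).mp (h1 (h hw))
    have e1 := Subgroup.mem_centralizer_iff.mp hc.2 x hx
    have e2 : c⁻¹ * x⁻¹ = x⁻¹ * c⁻¹ := by
      rw [← mul_inv_rev, ← mul_inv_rev, e1]
    have h3 : ⁅c * m, x⁆ = c * (m * (x * m⁻¹ * x⁻¹)) * c⁻¹ := by
      rw [commutatorElement_def]
      calc c * m * x * (c * m)⁻¹ * x⁻¹ = c * m * x * m⁻¹ * (c⁻¹ * x⁻¹) := by group
        _ = c * m * x * m⁻¹ * (x⁻¹ * c⁻¹) := by rw [e2]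
        _ = _ := by group
    rw [h3]
    exact (Subgroup.le_normalizer_iff.mp hCM) c hc _
      (M.mul_mem hm ((Subgroup.le_normalizer_iff.mp hXM) x hx _ (M.inv_mem hm)))
  have h3 : ⁅W, X⁆ = W := coprime_commutator_commutator X E hXE hcop hsolv
  rw [h3] at h2
  exact absurd h2 (not_le_of_gt hMW)

/-- Let p be a prime, E a normal p-subgroup of the finite group G, and U a non-cyclic elementary abelian p-subgroup of G such that either C_E(U) = C_E(u) for every nontrivial u ∈ U, or [E, U] = [E, ⟨u⟩] for every nontrivial u ∈ U. If R is a subgroup of order prime to p normalized by U, then [R, U] centralizes E. -/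
theorem result {G : Type*} [Group G] [Finite G] {p : ℕ} [Fact p.Prime] (E : Subgroup G) [E.Normal] (hE : IsPGroup p ↥E) (U : Subgroup G) (hU : Cfsg.IsElementaryAbelian p U) (hnc : ¬ IsCyclic ↥U) (hcond : (∀ u ∈ U, u ≠ 1 → E ⊓ Subgroup.centralizer (U : Set G) = E ⊓ Subgroup.centralizer ({u} : Set G)) ∨ (∀ u ∈ U, u ≠ 1 → ⁅E, U⁆ = ⁅E, Subgroup.zpowers u⁆)) (R : Subgroup G) (hR : ¬ p ∣ Nat.card ↥R) (hRU : U ≤ Subgroup.normalizer (R : Set G)) : ⁅R, U⁆ ≤ Subgroup.centralizer (E : Set G) := by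
  have hp : p.Prime := Fact.out
  have hUab : ∀ a ∈ U, ∀ b ∈ U, a * b = b * a := by
    intro a ha b hb
    exact congrArg Subtype.val (hU.1.is_comm.comm ⟨a, ha⟩ ⟨b, hb⟩)
  have hUp : IsPGroup p U := by
    intro x
    refine ⟨1, ?_⟩
    apply Subtype.ext
    simpa using hU.2 x.1 x.2
  obtain ⟨k, hk⟩ := hUp.exists_card_eq
  have hRp : (Nat.card R).Coprime p := ((Nat.Prime.coprime_iff_not_dvd hp).mpr hR).symm
  have hcop : (Nat.card U).Coprime (Nat.card R) := by
    rw [hk]; exact (hRp.pow_right k).symm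
  have hgen := (Cfsg.Agent.S3734.result U R hU.1 hRU hcop).2
  rw [← hgen]
  refine iSup₂_le ?_
  rintro B ⟨hBU, a, ha, hBa⟩
  have hBne : B ≠ ⊥ := by
    intro h
    apply hnc
    rw [h, bot_sup_eq] at hBa
    rw [← hBa]
    infer_instance
  obtain ⟨u, huB, hu1⟩ : ∃ u ∈ B, u ≠ 1 := by
    obtain ⟨x, hx⟩ := Subgroup.ne_bot_iff_exists_ne_one.mp hBne
    exact ⟨x.1, x.2, fun h => hx (Subtype.ext h)⟩
  have huU : u ∈ U := hBU huB
  set Y := R ⊓ Subgroup.centralizer (B : Set G) with hY
  have hUY : U ≤ Subgroup.normalizer (Y : Set G) :=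
    Cfsg.Agent.S3734.le_normalizer_inf_centralizer U R B hUab hRU hBU
  set X := ⁅Y, U⁆ with hX
  have hXY : X ≤ Y := commutator_le_left_of_le_normalizer hUY
  have hXp : (Nat.card X).Coprime p :=
    Nat.Coprime.of_dvd_left (Subgroup.card_dvd_of_le (hXY.trans inf_le_left)) hRp
  set T := Subgroup.zpowers u with hT
  have hTU : T ≤ U := by rw [hT, Subgroup.zpowers_le]; exact huU
  have hTp : IsPGroup p T := hUp.to_le hTU
  have hYu : ∀ y ∈ Y, u * y = y * u := fun y hy => Subgroup.mem_centralizer_iff.mp hy.2 u huB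
  have hCT : Subgroup.centralizer (T : Set G) = Subgroup.centralizer ({u} : Set G) := by
    rw [hT, Subgroup.zpowers_eq_closure, Subgroup.centralizer_closure]
  have hYT : Y ≤ Subgroup.centralizer (T : Set G) := by
    rw [hCT]
    intro y hy
    rw [Subgroup.mem_centralizer_singleton_iff]
    exact (hYu y hy).symm
  have hnE : ∀ H : Subgroup G, H ≤ Subgroup.normalizer (E : Set G) := by
    intro H
    rw [Subgroup.normalizer_eq_top]
    exact le_top
  rcases hcond with hc | hc
  · apply Cfsg.Agent.Lib.Helper11.thompson_AxB T X hTp hXp (hXY.trans hYT) E hE (hnE T) (hnE X)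
    have hF : E ⊓ Subgroup.centralizer (T : Set G) = E ⊓ Subgroup.centralizer (U : Set G) := by
      rw [hc u huU hu1, hCT]
    rw [hF]
    set F := E ⊓ Subgroup.centralizer (U : Set G) with hFdef
    rw [hX, Subgroup.commutator_le]
    intro y hy v hv
    have hvF : v ∈ Subgroup.centralizer (F : Set G) := by
      rw [Subgroup.mem_centralizer_iff]
      intro f hf
      exact (Subgroup.mem_centralizer_iff.mp hf.2 v hv).symm
    have hyF : ∀ f ∈ F, y⁻¹ * f * y ∈ F := by
      intro f hf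
      rw [hc u huU hu1] at hf ⊢
      refine ⟨by simpa using ‹E.Normal›.conj_mem f hf.1 y⁻¹, ?_⟩
      show _ ∈ Subgroup.centralizer ({u} : Set G)
      rw [Subgroup.mem_centralizer_singleton_iff]
      have e1 := Subgroup.mem_centralizer_singleton_iff.mp hf.2
      have e2 := hYu y hy
      have e3 : u * y⁻¹ = y⁻¹ * u := by
        have : y⁻¹ * (u * y) * y⁻¹ = y⁻¹ * (y * u) * y⁻¹ := by rw [e2]
        simpa [mul_assoc] using this.symm
      calc y⁻¹ * f * y * u = y⁻¹ * f * (u * y) := by rw [e2]; group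
        _ = y⁻¹ * (f * u) * y := by group
        _ = (y⁻¹ * u) * f * y := by rw [e1]; group
        _ = u * (y⁻¹ * f * y) := by rw [← e3]; group
    have h1 : y * v * y⁻¹ ∈ Subgroup.centralizer (F : Set G) := by
      rw [Subgroup.mem_centralizer_iff]
      intro f hf
      have e1 := Subgroup.mem_centralizer_iff.mp hvF _ (hyF f hf)
      calc f * (y * v * y⁻¹) = y * ((y⁻¹ * f * y) * v) * y⁻¹ := by group
        _ = y * (v * (y⁻¹ * f * y)) * y⁻¹ := by rw [e1]
        _ = y * v * y⁻¹ * f := by group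
    have h2 : ⁅y, v⁆ = y * v * y⁻¹ * v⁻¹ := commutatorElement_def y v
    rw [h2]
    exact Subgroup.mul_mem _ h1 (Subgroup.inv_mem _ hvF)
  · apply dual_AxB E hE T hTp X hXp (hXY.trans hYT) (hnE T) (hnE X)
    rw [← hc u huU hu1]
    set E1 := ⁅E, U⁆ with hE1
    have hYE1 : Y ≤ Subgroup.normalizer (E1 : Set G) := by
      rw [hc u huU hu1]
      exact (le_inf (hnE Y) (hYT.trans (Subgroup.centralizer_le_normalizer _))).trans
        (inf_normalizer_le_normalizer_commutator E T)
    have hUE1 : U ≤ Subgroup.normalizer (E1 : Set G) := le_sup_right.trans (sup_le_normalizer_commutator E U)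
    let K : Subgroup G :=
      { carrier := {g | g ∈ Subgroup.normalizer (E1 : Set G) ∧ ∀ e ∈ E, ⁅e, g⁆ ∈ E1}
        mul_mem' := by
          rintro g h ⟨hg1, hg2⟩ ⟨hh1, hh2⟩
          refine ⟨Subgroup.mul_mem _ hg1 hh1, fun e he => ?_⟩
          have e1 : ⁅e, g * h⁆ = ⁅e, g⁆ * (g * ⁅e, h⁆ * g⁻¹) := by
            simp only [commutatorElement_def]; group
          rw [e1]
          exact E1.mul_mem (hg2 e he) ((Subgroup.mem_normalizer_iff.mp hg1 _).mp (hh2 e he))
        one_mem' := ⟨Subgroup.one_mem _, fun e _ => by simp [E1.one_mem]⟩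
        inv_mem' := by
          rintro g ⟨hg1, hg2⟩
          refine ⟨Subgroup.inv_mem _ hg1, fun e he => ?_⟩
          have e1 : ⁅e, g⁻¹⁆ = g⁻¹ * (⁅e, g⁆)⁻¹ * g⁻¹⁻¹ := by
            simp only [commutatorElement_def]; group
          rw [e1]
          exact (Subgroup.mem_normalizer_iff.mp (Subgroup.inv_mem _ hg1) _).mp (E1.inv_mem (hg2 e he)) }
    have hUK : U ≤ K := fun v hv => ⟨hUE1 hv, fun e he => Subgroup.commutator_mem_commutator he hv⟩
    have hXK : X ≤ K := by
      rw [hX, Subgroup.commutator_le]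
      intro y hy v hv
      have h1 : y * v * y⁻¹ ∈ K := by
        refine ⟨Subgroup.mul_mem _ (Subgroup.mul_mem _ (hYE1 hy) (hUE1 hv))
          (Subgroup.inv_mem _ (hYE1 hy)), fun e he => ?_⟩
        have e1 : ⁅e, y * v * y⁻¹⁆ = y * ⁅y⁻¹ * e * y, v⁆ * y⁻¹ := by
          simp only [commutatorElement_def]; group
        rw [e1]
        apply (Subgroup.mem_normalizer_iff.mp (hYE1 hy) _).mp
        exact Subgroup.commutator_mem_commutator (by simpa using ‹E.Normal›.conj_mem e he y⁻¹) hv
      have h2 : ⁅y, v⁆ = y * v * y⁻¹ * v⁻¹ := commutatorElement_def y v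
      rw [h2]
      exact K.mul_mem h1 (K.inv_mem (hUK hv))
    rw [Subgroup.commutator_le]
    intro e he x hx
    exact (hXK hx).2 e he

end Cfsg.Agent.S2909
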