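import Cfsg.Statements.S2910
import Mathlib
import Cfsg.Agent.S0071
import Cfsg.Agent.S0120

set_option autoImplicit false
open Cfsg

namespace Cfsg.Agent.S2910

/-- Let p be an odd prime dividing the order of the finite group G and P a Sylow p-subgroup of G. If Ω₁(P) (generated by the elements of order dividing p) is contained in the centre of G, then G has a normal p-complement. In particular, if G is quasisimple then Ω₁(P) is not central in G. -/
theorem result {G : Type*} [Group G] [Finite G] {p : ℕ} [Fact p.Prime] (hp : p ≠ 2) (hdiv : p ∣ Nat.card G) (P : Sylow p G) (hZ : Cfsg.omegaOne p (P : Subgroup G) ≤ Subgroup.center G) : Cfsg.HasNormalPComplement p G ∧ ¬ Cfsg.IsQuasisimple G := by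
  have hpp : p.Prime := Fact.out
  have hcompl : ∃ N : Subgroup G, N.Normal ∧ N.IsComplement' (P : Subgroup G) := by
    rw [Cfsg.Agent.S0071.result P]
    intro Q hQP g hg hgp
    have hQp : IsPGroup p Q := P.2.to_le hQP
    set a : MulAut Q := Q.normalizerMonoidHom ⟨g, hg⟩ with ha
    have hord : Nat.Coprime (orderOf a) p := by
      have h1 : orderOf a ∣ orderOf (⟨g, hg⟩ : Subgroup.normalizer (Q : Set G)) := orderOf_map_dvd _ _
      rw [Subgroup.orderOf_mk] at h1
      exact Nat.Coprime.coprime_dvd_left h1 hgp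
    have hfix : ∀ x : Q, x ^ p = 1 → a x = x := by
      intro x hx
      have h1 : (x : G) ∈ Cfsg.omegaOne p (P : Subgroup G) := by
        apply Subgroup.subset_closure
        refine ⟨hQP x.2, ?_⟩
        have := congrArg Subtype.val hx
        simpa using this
      have h2 := (Subgroup.mem_center_iff.mp (hZ h1)) g
      apply Subtype.ext
      show g * (x : G) * g⁻¹ = x
      rw [h2]; group
    have h1 := Cfsg.Agent.S0120.result hp hQp a hord hfix
    rw [Subgroup.mem_centralizer_iff]
    intro x hx
    have h2 : a ⟨x, hx⟩ = ⟨x, hx⟩ := by rw [h1]; rfl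
    have h3 : g * x * g⁻¹ = x := congrArg Subtype.val h2
    calc x * g = (g * x * g⁻¹) * g := by rw [h3]
      _ = g * x := by group
  refine ⟨⟨P, hcompl⟩, ?_⟩
  rintro ⟨hperf, -⟩
  obtain ⟨N, hN, hNP⟩ := hcompl
  have hcard : Nat.card N * Nat.card (P : Subgroup G) = Nat.card G := hNP.card_mul_card
  have hidx : N.index = Nat.card (P : Subgroup G) := by
    have h1 := N.card_mul_index
    rw [← hcard] at h1
    exact Nat.eq_of_mul_eq_mul_left Nat.card_pos h1
  have hQp : IsPGroup p (G ⧸ N) := by
    obtain ⟨n, hn⟩ := P.2.exists_card_eq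
    apply IsPGroup.of_card (n := n)
    rw [← hn, ← hidx]; rfl
  have hnil : Group.IsNilpotent (G ⧸ N) := hQp.isNilpotent
  have hnontriv : Nontrivial (G ⧸ N) := by
    rw [← Finite.one_lt_card_iff_nontrivial]
    have h1 : Nat.card (G ⧸ N) = Nat.card (P : Subgroup G) := hidx
    rw [h1]
    have h2 : p ∣ Nat.card (P : Subgroup G) := P.dvd_card_of_dvd_card hdiv
    exact lt_of_lt_of_le hpp.one_lt (Nat.le_of_dvd Nat.card_pos h2)
  exact Group.IsPerfect.not_isNilpotent (G := G ⧸ N) hnil

end Cfsg.Agent.S2910
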