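import Cfsg.Statements.S2912
-- import your own Cfsg.Agent.* helpers here
import Cfsg.Agent.Lib.Helper67.ExtraMod
import Cfsg.Agent.Lib.Helper67.SylowAux

set_option autoImplicit false
open Cfsg

namespace Cfsg.Agent.S2912

open Cfsg.Agent.Lib.Helper67
open scoped IsMulCommutative

/-- the norm map of an automorphism of an abelian group -/
def normHom {U : Type*} [CommGroup U] (τ : MulAut U) (p : ℕ) : U →* U where
  toFun u := ∏ k ∈ Finset.range p, (τ ^ k) u
  map_one' := by simp
  map_mul' a b := by simp [Finset.prod_mul_distrib]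

theorem normHom_apply {U : Type*} [CommGroup U] (τ : MulAut U) (p : ℕ) (u : U) :
    normHom τ p u = ∏ k ∈ Finset.range p, (τ ^ k) u := rfl

theorem normHom_comm {U : Type*} [CommGroup U] (τ s : MulAut U) (p : ℕ) (h : s * τ = τ * s) (u : U) :
    normHom τ p (s u) = s (normHom τ p u) := by
  rw [normHom_apply, normHom_apply, map_prod]
  apply Finset.prod_congr rfl
  intro k _
  have h1 : τ ^ k * s = s * τ ^ k := ((show Commute s τ from h).pow_right k).eq.symm
  exact DFunLike.congr_fun h1 u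

theorem normHom_fix {U : Type*} [CommGroup U] (τ : MulAut U) (p : ℕ) (hτ : τ ^ p = 1) (u : U) :
    τ (normHom τ p u) = normHom τ p u := by
  rw [normHom_apply, map_prod]
  have h1 : ∀ k, τ ((τ ^ k) u) = (τ ^ (k + 1)) u := by
    intro k
    rw [pow_succ']
    rfl
  simp_rw [h1]
  have h2 := Finset.prod_range_succ' (fun k => (τ ^ k) u) p
  have h3 := Finset.prod_range_succ (fun k => (τ ^ k) u) p
  rw [h2] at h3
  simp only [hτ, pow_zero] at h3
  exact mul_right_cancel h3

theorem normHom_of_fixed {U : Type*} [CommGroup U] (τ : MulAut U) (p : ℕ) (u : U) (hu : τ u = u) :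
    normHom τ p u = u ^ p := by
  rw [normHom_apply]
  have h1 : ∀ k, (τ ^ k) u = u := by
    intro k
    induction k with
    | zero => rfl
    | succ k ih =>
      rw [pow_succ]
      show (τ ^ k) (τ u) = u
      rw [hu, ih]
  simp [h1]

/-- Let p and r be distinct primes, let E be an extraspecial subgroup of order p^(2w+1) of a finite group, and let A be an elementary abelian r-subgroup normalized by E on which E acts faithfully (C_E(A) = 1). If n ≥ 1 is least with p dividing rⁿ − 1 (the smallest dimension of a faithful representation of a group of order p over the field with r elements), then the order of A is at least r^(n·p^w). -/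
theorem result {G : Type*} [Group G] [Finite G] {p r : ℕ} [Fact p.Prime] [hr : Fact r.Prime] (hpr : p ≠ r) (E A : Subgroup G) (w : ℕ) (hE : Cfsg.IsExtraspecial p ↥E) (hEcard : Nat.card ↥E = p ^ (2 * w + 1)) (hA : Cfsg.IsElementaryAbelian r A) (hnorm : E ≤ Subgroup.normalizer (A : Set G)) (hfaith : E ⊓ Subgroup.centralizer (A : Set G) = ⊥) (n : ℕ) (hn : 1 ≤ n) (hdiv : p ∣ r ^ n - 1) (hmin : ∀ k : ℕ, 1 ≤ k → p ∣ r ^ k - 1 → n ≤ k) : r ^ (n * p ^ w) ≤ Nat.card ↥A := by
  classical
  haveI := hA.1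
  have hp : p.Prime := Fact.out
  obtain ⟨Z, hZ⟩ : ∃ Z, Z = E ⊓ Subgroup.centralizer (E : Set G) := ⟨_, rfl⟩
  have hED : ED p Z E := hZ ▸ ⟨es_card_Z hE, es_comm_mem hE, es_cent, rfl⟩
  have hidx : Z.relIndex E = p ^ (2 * w) := by
    have h1 := card_mul_relIndex hED.le
    rw [hED.card, hEcard, pow_succ, mul_comm] at h1
    exact Nat.eq_of_mul_eq_mul_right hp.pos h1
  obtain ⟨z, hz, hz1⟩ : ∃ z ∈ Z, z ≠ 1 := by
    by_contra hcon
    push Not at hcon
    have h1 : Z = ⊥ := by
      rw [eq_bot_iff]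
      intro z hz
      exact hcon z hz
    have h2 := hED.card
    rw [h1, Subgroup.card_bot] at h2
    exact hp.one_lt.ne h2
  obtain ⟨σ, hσ⟩ : ∃ σ : Subgroup.normalizer (A : Set G) →* MulAut A,
      ∀ (g : Subgroup.normalizer (A : Set G)) (u : A), ((σ g u : A) : G) = g * u * (g : G)⁻¹ :=
    ⟨A.normalizerMonoidHom, fun _ _ => rfl⟩
  have hzE : z ∈ E := hED.le hz
  obtain ⟨τ, hτ⟩ : ∃ τ, τ = σ ⟨z, hnorm hzE⟩ := ⟨_, rfl⟩
  have hτa : ∀ u : A, ((τ u : A) : G) = z * u * z⁻¹ := by
    intro u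
    rw [hτ, hσ]
  have hτp : τ ^ p = 1 := by
    rw [hτ, ← map_pow]
    have : (⟨z, hnorm hzE⟩ : Subgroup.normalizer (A : Set G)) ^ p = 1 :=
      Subtype.ext (hED.pow_eq_one hz)
    rw [this, map_one]
  have htors : ∀ u : A, u ^ p = 1 → u = 1 := by
    intro u hu
    have d1 := orderOf_dvd_of_pow_eq_one hu
    have d2 : orderOf u ∣ r := orderOf_dvd_of_pow_eq_one (Subtype.ext (hA.2 u u.2))
    exact orderOf_eq_one_iff.1
      (Nat.eq_one_of_dvd_coprimes ((Nat.coprime_primes hp hr.out).2 hpr) d1 d2)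
  obtain ⟨B, hB⟩ : ∃ B, B = (normHom τ p).ker.map A.subtype := ⟨_, rfl⟩
  have hBA : B ≤ A := by
    rw [hB]
    rintro _ ⟨a, _, rfl⟩
    exact a.2
  have hmemB : ∀ a : A, normHom τ p a = 1 → (a : G) ∈ B := fun a ha => hB ▸ ⟨a, ha, rfl⟩
  have hBmem : ∀ b ∈ B, ∃ a : A, normHom τ p a = 1 ∧ (a : G) = b := by
    intro b hb
    rw [hB] at hb
    obtain ⟨a, ha, rfl⟩ := hb
    exact ⟨a, ha, rfl⟩
  have hconj : ∀ g ∈ E, ∀ b ∈ B, g * b * g⁻¹ ∈ B := by
    intro g hg b hb
    obtain ⟨a, ha, rfl⟩ := hBmem b hb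
    have h1 : σ ⟨g, hnorm hg⟩ * τ = τ * σ ⟨g, hnorm hg⟩ := by
      rw [hτ, ← map_mul, ← map_mul]
      congr 1
      exact Subtype.ext (hED.cent z hz g hg)
    have h2 := hmemB (σ ⟨g, hnorm hg⟩ a) (by rw [normHom_comm τ _ p h1, ha, map_one])
    rwa [hσ] at h2
  have hfz : ∀ b ∈ B, z * b = b * z → b = 1 := by
    intro b hb hzb
    obtain ⟨a, ha, rfl⟩ := hBmem b hb
    have h1 : τ a = a := Subtype.ext (by rw [hτa]; exact mul_inv_eq_iff_eq_mul.2 hzb)
    rw [normHom_of_fixed τ p a h1] at ha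
    rw [htors a ha]
    rfl
  have hMD : MD r Z E B := by
    refine ⟨?_, ?_, ?_, ?_, ?_⟩
    · intro a ha b hb
      exact congrArg Subtype.val (mul_comm (⟨a, hBA ha⟩ : A) ⟨b, hBA hb⟩)
    · intro b
      exact ⟨1, Subtype.ext (by rw [pow_one]; exact hA.2 b (hBA b.2))⟩
    · intro g hg
      rw [Subgroup.mem_normalizer_iff]
      intro b
      refine ⟨hconj g hg b, fun h => ?_⟩
      have h1 := hconj g⁻¹ (E.inv_mem hg) _ h
      simpa [mul_assoc] using h1
    · intro hbot
      have hinj : ∀ a : A, normHom τ p a = 1 → a = 1 := by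
        intro a ha
        have h1 := hmemB a ha
        rw [hbot, Subgroup.mem_bot] at h1
        exact Subtype.ext h1
      have hfix : ∀ a : A, τ a = a := by
        intro a
        have h1 : normHom τ p (τ a * a⁻¹) = 1 := by
          rw [map_mul, map_inv, normHom_comm τ τ p rfl, normHom_fix τ p hτp, mul_inv_cancel]
        exact mul_inv_eq_one.1 (hinj _ h1)
      have h2 : z ∈ E ⊓ Subgroup.centralizer (A : Set G) := by
        refine Subgroup.mem_inf.2 ⟨hzE, ?_⟩
        rw [Subgroup.mem_centralizer_iff]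
        intro a ha
        have h3 := congrArg Subtype.val (hfix ⟨a, ha⟩)
        rw [hτa] at h3
        exact (mul_inv_eq_iff_eq_mul.1 h3).symm
      rw [hfaith, Subgroup.mem_bot] at h2
      exact hz1 h2
    · intro t ht ht1 b hb htb
      obtain ⟨j, hj⟩ := hED.exists_pow ht ht1 hz
      apply hfz b hb
      rw [← hj]
      exact ((show Commute t b from htb).pow_left j).eq
  have h1 := extra_bound hpr n hmin w E B hED hidx hMD
  exact h1.trans (Subgroup.card_le_of_le hBA)

end Cfsg.Agent.S2912
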