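import Cfsg.Statements.S2925
import Cfsg.Agent.Lib.Helper28.Components
import Cfsg.Agent.Lib.Helper37.ParabolicSub

set_option autoImplicit false
open Cfsg

namespace Cfsg.Agent.S2925

/-- Let K be a component of the finite group X and T a Sylow 2-subgroup of X. If some abelian normal subgroup Y of T does not normalize K, then K ⧸ Z(K) has abelian Sylow 2-subgroups. -/
theorem result {X : Type*} [Group X] [Finite X] (K : Subgroup X) (hK : Cfsg.IsComponent K) (T : Sylow 2 X) (Y : Subgroup X) (hYT : Y ≤ (T : Subgroup X)) (hYn : (Y.subgroupOf (T : Subgroup X)).Normal) (hYab : IsMulCommutative ↥Y) (hnot : ¬ Y ≤ Subgroup.normalizer (K : Set X)) (P : Sylow 2 (↥K ⧸ Subgroup.center ↥K)) : IsMulCommutative ↥(P : Subgroup (↥K ⧸ Subgroup.center ↥K)) := by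
  classical
  obtain ⟨y, hyY, hyN⟩ := SetLike.not_le_iff_exists.mp hnot
  set Ky : Subgroup X := K.map (MulAut.conj y).toMonoidHom with hKy
  have hKyc : Cfsg.IsComponent Ky := Cfsg.Agent.Lib.Helper28.isComponent_map_equiv (MulAut.conj y) hK
  have hne : K ≠ Ky := by
    intro h
    apply hyN
    rw [Subgroup.mem_normalizer_iff]
    intro k
    constructor
    · intro hk
      rw [h]
      exact ⟨k, hk, rfl⟩
    · intro hk
      rw [h] at hk
      obtain ⟨k', hk', hkk⟩ := hk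
      have h2 : y * k' * y⁻¹ = y * k * y⁻¹ := hkk
      have : k' = k := by
        have := congrArg (fun z => y⁻¹ * z * y) h2
        simpa [mul_assoc] using this
      rw [← this]; exact hk'
  have hcomm : ⁅K, Ky⁆ = ⊥ := Cfsg.Agent.Lib.Helper28.IsComponent.commutator_eq_bot_of_ne hK hKyc hne
  have hcent : K ≤ Subgroup.centralizer (Ky : Set X) := Subgroup.commutator_eq_bot_iff_le_centralizer.mp hcomm
  -- elements of `K` commute with elements of `Ky`
  have hc : ∀ k ∈ K, ∀ l ∈ Ky, l * k = k * l := fun k hk l hl => Subgroup.mem_centralizer_iff.mp (hcent hk) l hl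
  have hconj : ∀ k ∈ K, y * k * y⁻¹ ∈ Ky := fun k hk => ⟨k, hk, rfl⟩
  have hYmem : ∀ t ∈ (T : Subgroup X), t * (y * t⁻¹ * y⁻¹) ∈ Y := by
    intro t ht
    have h1 : (⟨t, ht⟩ : (T : Subgroup X)) * ⟨y, hYT hyY⟩ * (⟨t, ht⟩ : (T : Subgroup X))⁻¹ ∈ Y.subgroupOf (T : Subgroup X) :=
      hYn.conj_mem _ (Subgroup.mem_subgroupOf.mpr hyY) _
    have h2 : t * y * t⁻¹ ∈ Y := Subgroup.mem_subgroupOf.mp h1
    have : t * (y * t⁻¹ * y⁻¹) = (t * y * t⁻¹) * y⁻¹ := by group
    rw [this]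
    exact Y.mul_mem h2 (Y.inv_mem hyY)
  have key : ∀ s t : K, (s : X) ∈ (T : Subgroup X) → (t : X) ∈ (T : Subgroup X) →
      ((s : K) : K ⧸ Subgroup.center K) * ((t : K) : K ⧸ Subgroup.center K)
        = ((t : K) : K ⧸ Subgroup.center K) * ((s : K) : K ⧸ Subgroup.center K) := by
    intro s t hs ht
    rw [← QuotientGroup.mk_mul, ← QuotientGroup.mk_mul, QuotientGroup.eq]
    have h1 := setLike_mul_comm (hYmem s hs) (hYmem t ht)
    set s' := y * (s : X)⁻¹ * y⁻¹ with hs'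
    set t' := y * (t : X)⁻¹ * y⁻¹ with ht'
    have hs'K : s' ∈ Ky := hconj _ (K.inv_mem s.2)
    have ht'K : t' ∈ Ky := hconj _ (K.inv_mem t.2)
    have h2 : ((s : X) * t)⁻¹ * (t * s) = (s' * t') * (t' * s')⁻¹ := by
      have e1 : (s : X) * s' * (t * t') = (s * t) * (s' * t') := by
        calc (s : X) * s' * (t * t') = s * (s' * t) * t' := by group
          _ = s * (t * s') * t' := by rw [hc t t.2 s' hs'K]
          _ = _ := by group
      have e2 : (t : X) * t' * (s * s') = (t * s) * (t' * s') := by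
        calc (t : X) * t' * (s * s') = t * (t' * s) * s' := by group
          _ = t * (s * t') * s' := by rw [hc s s.2 t' ht'K]
          _ = _ := by group
      rw [e1, e2] at h1
      calc ((s : X) * t)⁻¹ * (t * s) = ((s : X) * t)⁻¹ * ((t * s) * (t' * s')) * (t' * s')⁻¹ := by group
        _ = ((s : X) * t)⁻¹ * ((s * t) * (s' * t')) * (t' * s')⁻¹ := by rw [h1]
        _ = _ := by group
    have h3 : ((s : X) * t)⁻¹ * (t * s) ∈ Ky := by
      rw [h2]
      exact Ky.mul_mem (Ky.mul_mem hs'K ht'K) (Ky.inv_mem (Ky.mul_mem ht'K hs'K))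
    rw [Subgroup.mem_center_iff]
    intro k
    apply Subtype.ext
    have := hc k k.2 _ h3
    simpa using this.symm
  obtain ⟨P₀, hP₀⟩ := Cfsg.Agent.Lib.Helper37.exists_sylow_subgroupOf_subnormal T hK.1
  obtain ⟨Q, hQ⟩ := Sylow.mapSurjective_surjective (QuotientGroup.mk'_surjective (Subgroup.center K)) 2 P
  obtain ⟨g, hg⟩ := MulAction.exists_smul_eq K P₀ Q
  have hmem : ∀ a ∈ (P : Subgroup (K ⧸ Subgroup.center K)), ∃ s : K, (s : X) ∈ (T : Subgroup X) ∧
      a = (g : K ⧸ Subgroup.center K) * (s : K ⧸ Subgroup.center K) * (g : K ⧸ Subgroup.center K)⁻¹ := by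
    intro a ha
    rw [← hQ, Sylow.coe_mapSurjective] at ha
    obtain ⟨q, hq, rfl⟩ := ha
    rw [SetLike.mem_coe, ← hg] at hq
    have hq2 : q ∈ ((g • P₀ : Sylow 2 K) : Subgroup K) := hq
    rw [Sylow.coe_subgroup_smul, Subgroup.mem_smul_pointwise_iff_exists] at hq2
    replace hq := hq2
    obtain ⟨s, hs, rfl⟩ := hq
    rw [hP₀] at hs
    exact ⟨s, Subgroup.mem_subgroupOf.mp hs, rfl⟩
  refine ⟨⟨fun a b => Subtype.ext ?_⟩⟩
  obtain ⟨s, hs, ha⟩ := hmem a a.2
  obtain ⟨t, ht, hb⟩ := hmem b b.2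
  change (a : K ⧸ Subgroup.center K) * b = b * a
  rw [ha, hb]
  have := key s t hs ht
  calc _ = (g : K ⧸ Subgroup.center K) * ((s : K ⧸ Subgroup.center K) * t) * (g : K ⧸ Subgroup.center K)⁻¹ := by group
    _ = (g : K ⧸ Subgroup.center K) * ((t : K ⧸ Subgroup.center K) * s) * (g : K ⧸ Subgroup.center K)⁻¹ := by rw [this]
    _ = _ := by group

end Cfsg.Agent.S2925
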