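import Cfsg.Statements.S2939
import Cfsg.Agent.Lib.Helper55.FusCtl

set_option autoImplicit false
open Cfsg

namespace Cfsg.Agent.S2939

open Cfsg.Agent.Lib.Helper55

/-- Let p be a prime dividing the order of the finite group G and 𝓕 a family of subgroups of G closed under conjugation, with conjugates taken as X^g = g⁻¹Xg. Then 𝓕 controls Sylow p-intersections in G (any two distinct Sylow p-subgroups S and T with S ∩ T ≠ 1 are joined by a chain S = S₀, S₁, …, Sₙ = T of Sylow p-subgroups where, for each i, some member Xᵢ of 𝓕 meets both S_{i-1} and Sᵢ in Sylow p-subgroups of Xᵢ, satisfies S ∩ T ≤ Sᵢ ∩ Xᵢ, and contains an element xᵢ with Sᵢ^{xᵢ} = S_{i-1}) if and only if 𝓕 strongly controls p-fusion in G (whenever A is a subset of a Sylow p-subgroup S, A contains an element other than 1, and A^g ⊆ S, the element g factorises as g = y₁⋯yₙy with y ∈ N_G(S) and each yᵢ in a member Yᵢ of 𝓕 that meets S in a Sylow p-subgroup of Yᵢ, with A^{y₁⋯yᵢ} ⊆ S ∩ Yᵢ for each i). -/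
theorem result {G : Type*} [Group G] [Finite G] {p : ℕ} [Fact p.Prime] (hdiv : p ∣ Nat.card G) (𝓕 : Set (Subgroup G)) (h𝓕 : Cfsg.IsNormalSet 𝓕) : Cfsg.ControlsSylowIntersections p 𝓕 ↔ Cfsg.FamilyStronglyControlsFusion p 𝓕 := by
  rw [controls_iff, strongly_iff]
  constructor
  · intro hc S A g hA hne hg
    change conjRight g A ⊆ ((S : Subgroup G) : Set G) at hg
    change A ⊆ ((S : Subgroup G) : Set G) at hA
    rw [conjRight_subset_iff] at hg
    by_cases hST : S = sylConjR g⁻¹ S
    · refine ⟨1, g, ?_, by simp, Relation.ReflTransGen.refl⟩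
      have h1 : subgroupConjRight g⁻¹ (S : Subgroup G) = S := by
        conv_rhs => rw [hST]
        rfl
      simpa using Subgroup.inv_mem _ (mem_normalizer_of_conjR_eq h1)
    · have hint : (S : Subgroup G) ⊓ (sylConjR g⁻¹ S : Sylow p G) ≠ ⊥ := by
        obtain ⟨a, ha, ha1⟩ := hne
        intro hbot
        have : a ∈ (S : Subgroup G) ⊓ (sylConjR g⁻¹ S : Sylow p G) := ⟨hA ha, hg ha⟩
        rw [hbot, Subgroup.mem_bot] at this
        exact ha1 this
      have hch := hc S _ hST hint
      have hAD : A ⊆ (((S : Subgroup G) ⊓ (sylConjR g⁻¹ S : Sylow p G) : Subgroup G) : Set G) :=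
        fun a ha => ⟨hA ha, hg ha⟩
      generalize (S : Subgroup G) ⊓ (sylConjR g⁻¹ S : Sylow p G) = D at hch hAD
      have key : ∀ R : Sylow p G, CtlChain p 𝓕 D S R →
          ∃ u, FusChain p 𝓕 (S : Subgroup G) A 1 u ∧
            subgroupConjRight u (R : Subgroup G) = S := by
        intro R hR
        induction hR with
        | refl => exact ⟨1, Relation.ReflTransGen.refl, by simp⟩
        | @tail R R' _ hbc ih =>
          obtain ⟨u, hu, hRu⟩ := ih
          obtain ⟨⟨X, x⟩, h1, h2, h3, h4, h5⟩ := hbc
          simp only at h1 h2 h3 h4 h5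
          have hS' : subgroupConjRight (x * u) (R' : Subgroup G) = S := by
            rw [← conjR_conjR, h4, hRu]
          refine ⟨x * u, hu.tail ⟨(subgroupConjRight u X, u⁻¹ * x * u), ?_, ?_, ?_, ?_⟩, hS'⟩
          · have := conjR_mem_sylowMembers h𝓕 h1 u
            rwa [hRu] at this
          · exact conjR_mem_conjR h3
          · simp [mul_assoc]
          · simp only
            rw [Set.subset_inter_iff, conjRight_subset_iff, conjRight_subset_iff]
            constructor
            · rw [← hS', conjR_inv_conjR]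
              exact fun a ha => (h5 (hAD ha)).1
            · have : subgroupConjRight u X = subgroupConjRight (x * u) X := by
                rw [← conjR_conjR, conjR_eq_self_of_mem h3]
              rw [this, conjR_inv_conjR]
              exact fun a ha => (h5 (hAD ha)).2
      obtain ⟨u, hu, hTu⟩ := key _ hch
      refine ⟨u, u⁻¹ * g, ?_, by simp, hu⟩
      rw [coe_sylConjR, conjR_conjR] at hTu
      simpa using Subgroup.inv_mem _ (mem_normalizer_of_conjR_eq hTu)
  · intro hf S T hne hint
    obtain ⟨g', hg'⟩ := exists_sylConjR_eq S T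
    have hT : (T : Subgroup G) = subgroupConjRight g' (S : Subgroup G) := by rw [hg']; rfl
    obtain ⟨u, y₀, hy₀, hgu, hu⟩ := hf S (((S : Subgroup G) ⊓ T : Subgroup G) : Set G) g'⁻¹
      (fun a ha => ha.1)
      (by
        obtain ⟨⟨a, ha⟩, ha1⟩ := Subgroup.ne_bot_iff_exists_ne_one.1 hint
        exact ⟨a, ha, fun h => ha1 (Subtype.ext h)⟩)
      (by
        change conjRight _ _ ⊆ ((S : Subgroup G) : Set G)
        rw [conjRight_subset_iff, inv_inv, ← hT]
        exact fun a ha => ha.2)
    generalize hD : (S : Subgroup G) ⊓ T = D at hu ⊢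
    have key : ∀ u, FusChain p 𝓕 (S : Subgroup G) (D : Set G) 1 u →
        CtlChain p 𝓕 D S (sylConjR u⁻¹ S) := by
      intro u hu
      induction hu with
      | refl =>
        have : sylConjR (1 : G)⁻¹ S = S := by
          apply Sylow.ext
          simp
        rw [this]
        exact CtlChain.refl S
      | @tail u u' _ hbc ih =>
        obtain ⟨⟨Y, y⟩, h1, h2, h3, h4⟩ := hbc
        simp only at h1 h2 h3 h4
        have hY : subgroupConjRight u⁻¹ Y = subgroupConjRight u'⁻¹ Y := by
          rw [h3, mul_inv_rev, ← conjR_conjR, conjR_eq_self_of_mem (Y.inv_mem h2)]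
        refine ih.tail ⟨(subgroupConjRight u⁻¹ Y, u * y * u⁻¹), ?_, ?_, ?_, ?_, ?_⟩
        · exact conjR_mem_sylowMembers h𝓕 h1 u⁻¹
        · simp only
          rw [hY]
          exact conjR_mem_sylowMembers h𝓕 h1 u'⁻¹
        · have := conjR_mem_conjR (g := u⁻¹) h2
          simpa using this
        · simp only [coe_sylConjR]
          rw [conjR_conjR, h3]
          congr 1
          group
        · simp only [coe_sylConjR]
          rw [hY]
          rw [Set.subset_inter_iff, conjRight_subset_iff, conjRight_subset_iff] at h4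
          exact le_inf h4.1 h4.2
    have := key u hu
    have hfin : sylConjR u⁻¹ S = T := by
      apply Sylow.ext
      rw [coe_sylConjR, hT]
      have hu' : u⁻¹ = y₀ * g' := by
        have : u = g'⁻¹ * y₀⁻¹ := by rw [hgu]; group
        rw [this]; group
      rw [hu', ← conjR_conjR, conjR_eq_of_mem_normalizer hy₀]
    rwa [hfin] at this

end Cfsg.Agent.S2939
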