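import Cfsg.Statements.S2940
import Cfsg.Agent.Lib.Helper55.Basic

set_option autoImplicit false
open Cfsg

namespace Cfsg.Agent.S2940

open Cfsg.Agent.Lib.Helper55

/-- Let S be a Sylow p-subgroup of the finite group G and G₁, G₂ subgroups containing S with G = G₁G₂. Then for every g ∈ G there is a Sylow p-subgroup U of G with S ∩ S^g ≤ U ≤ G₁ ∩ G₂^g (conjugates taken as X^g = g⁻¹Xg). -/
theorem result {G : Type*} [Group G] [Finite G] {p : ℕ} [Fact p.Prime] (S : Sylow p G) (G₁ G₂ : Subgroup G) (h1 : (S : Subgroup G) ≤ G₁) (h2 : (S : Subgroup G) ≤ G₂) (hfact : ∀ g : G, ∃ g₁ ∈ G₁, ∃ g₂ ∈ G₂, g = g₁ * g₂) (g : G) : ∃ U : Sylow p G, (S : Subgroup G) ⊓ Cfsg.subgroupConjRight g (S : Subgroup G) ≤ (U : Subgroup G) ∧ (U : Subgroup G) ≤ G₁ ⊓ Cfsg.subgroupConjRight g G₂ := by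
  obtain ⟨a, ha, b, hb, hab⟩ := hfact g⁻¹
  obtain ⟨S', hS'⟩ := exists_sylow_conj S a
  have hg : g = b⁻¹ * a⁻¹ := by
    rw [← inv_inv g, hab]; simp
  have hS'le : (S' : Subgroup G) ≤ G₁ ⊓ Cfsg.subgroupConjRight g G₂ := by
    rw [hS']
    intro x hx
    rw [mem_map_conj] at hx
    refine ⟨?_, ?_⟩
    · have := G₁.mul_mem (G₁.mul_mem ha (h1 hx)) (G₁.inv_mem ha)
      simpa [mul_assoc] using this
    · show x ∈ G₂.map (MulAut.conj g⁻¹).toMonoidHom
      rw [mem_map_conj]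
      have := G₂.mul_mem (G₂.mul_mem (G₂.inv_mem hb) (h2 hx)) hb
      rw [hg]
      simpa [mul_assoc] using this
  have hD : IsPGroup p ↥((S : Subgroup G) ⊓ Cfsg.subgroupConjRight g (S : Subgroup G)) :=
    S.2.to_le inf_le_left
  refine exists_sylow_between S' hS'le hD ?_
  refine inf_le_inf h1 ?_
  exact Subgroup.map_mono h2

end Cfsg.Agent.S2940
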