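import Cfsg.Statements.S2955
import Cfsg.Agent.Lib.Helper55.SylCtl

set_option autoImplicit false
open Cfsg

namespace Cfsg.Agent.S2955

open Cfsg.Agent.Lib.Helper55

/-- Let p be a prime dividing the order of the finite group G and 𝓕 a conjugation-closed family of subgroups that controls Sylow p-intersections in G. Suppose the Sylow p-subgroups of G are chain-connected: any two of them are joined by a chain of Sylow p-subgroups, consecutive ones distinct with nontrivial intersection, all containing the intersection of the two ends (equivalently, the graph on the Sylow p-subgroups whose edges are the distinct pairs meeting nontrivially is connected). Then for every Sylow p-subgroup S, G is generated by N_G(S) together with the members of 𝓕 that meet S in a Sylow p-subgroup of themselves. -/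
theorem result {G : Type*} [Group G] [Finite G] (p : ℕ) [Fact p.Prime] (hdiv : p ∣ Nat.card G)
    (𝓕 : Set (Subgroup G)) (h𝓕 : Cfsg.IsNormalSet 𝓕) (hc : Cfsg.ControlsSylowIntersections p 𝓕)
    (hconn : Cfsg.IsSylowChainConnected p G) (S : Sylow p G) :
    (⨆ X ∈ Cfsg.sylowMembers p 𝓕 (S : Subgroup G), X) ⊔ Subgroup.normalizer ((S : Subgroup G) : Set G) = ⊤ := by
  set H : Subgroup G := (⨆ X ∈ Cfsg.sylowMembers p 𝓕 (S : Subgroup G), X) ⊔
    Subgroup.normalizer ((S : Subgroup G) : Set G) with hH
  have hXH : ∀ X ∈ Cfsg.sylowMembers p 𝓕 (S : Subgroup G), X ≤ H := fun X hX =>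
    (le_iSup₂ (f := fun (X : Subgroup G) (_ : X ∈ Cfsg.sylowMembers p 𝓕 (S : Subgroup G)) => X)
      X hX).trans le_sup_left
  have hNH : Subgroup.normalizer ((S : Subgroup G) : Set G) ≤ H := le_sup_right
  let Good : Sylow p G → Prop := fun R => ∃ h ∈ H, (R : Subgroup G) = subgroupConjRight h S
  have hstep : ∀ (D : Subgroup G) (R R' : Sylow p G) (w : Subgroup G × G),
      CtlStep p 𝓕 D R R' w → Good R → Good R' := by
    rintro D R R' ⟨X, x⟩ ⟨h1, -, h3, h4, -⟩ ⟨h, hh, hR⟩
    simp only at h1 h3 h4
    have h5 := conjR_mem_sylowMembers h𝓕 h1 h⁻¹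
    rw [hR, conjR_inv_conjR] at h5
    have h6 : h * x * h⁻¹ ∈ H := by
      apply hXH _ h5
      have := conjR_mem_conjR (g := h⁻¹) h3
      simpa using this
    have hx : x ∈ H := by
      have := H.mul_mem (H.mul_mem (H.inv_mem hh) h6) hh
      simpa [mul_assoc] using this
    refine ⟨h * x⁻¹, H.mul_mem hh (H.inv_mem hx), ?_⟩
    rw [← conjR_conjR, ← hR, ← h4, conjR_inv_conjR]
  have hchain : ∀ (D : Subgroup G) (R R' : Sylow p G), CtlChain p 𝓕 D R R' → Good R → Good R' := by
    intro D R R' hch hR
    induction hch with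
    | refl => exact hR
    | tail _ hbc ih =>
      obtain ⟨w, hw⟩ := hbc
      exact hstep D _ _ w hw ih
  rw [controls_iff] at hc
  rw [eq_top_iff]
  intro g _
  obtain ⟨n, c, h0, hl, -, hcc⟩ := hconn S (sylConjR g S)
  have hgood : Good (sylConjR g S) := by
    rw [← hl]
    apply fin_chain_induction Good c
    · rw [h0]
      exact ⟨1, H.one_mem, by simp⟩
    · intro i hi
      exact hchain _ _ _ (hc _ _ (hcc i).1 (hcc i).2) hi
  obtain ⟨h, hh, hR⟩ := hgood
  rw [coe_sylConjR] at hR
  have h7 : subgroupConjRight (g * h⁻¹) (S : Subgroup G) = S := by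
    rw [← conjR_conjR, hR, conjR_inv_conjR]
  have h8 := hNH (mem_normalizer_of_conjR_eq h7)
  have := H.mul_mem h8 hh
  simpa [mul_assoc] using this

end Cfsg.Agent.S2955
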