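import Cfsg.Statements.S2957
import Cfsg.Agent.S2940
import Cfsg.Agent.Lib.Helper55.RelCtl2

set_option autoImplicit false
open Cfsg

namespace Cfsg.Agent.S2957

open Cfsg.Agent.Lib.Helper55

/-- Let p be a prime dividing the order of the finite group G, f an equivariant assignment of a set of subgroups f(P) of P to every p-subgroup P, each normalized by N_G(P), and S a Sylow p-subgroup. If G = G₁G₂ for subgroups G₁, G₂ both containing S and both regular for f (in each Gᵢ, the family of normalizers in Gᵢ of the members of f(P), P a Sylow p-subgroup of Gᵢ, controls Sylow p-intersections), then G itself is regular for f. -/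
theorem result {G : Type*} [Group G] [Finite G] (p : ℕ) [Fact p.Prime] (hdiv : p ∣ Nat.card G)
    (f : Subgroup G → Set (Subgroup G)) (hf : Cfsg.IsNormalizerFunctor p f) (S : Sylow p G)
    (G₁ G₂ : Subgroup G) (h₁ : (S : Subgroup G) ≤ G₁) (h₂ : (S : Subgroup G) ≤ G₂)
    (hprod : ∀ g : G, ∃ g₁ ∈ G₁, ∃ g₂ ∈ G₂, g = g₁ * g₂)
    (hr₁ : Cfsg.IsFunctorRegular p f G₁) (hr₂ : Cfsg.IsFunctorRegular p f G₂) :
    Cfsg.IsFunctorRegular p f ⊤ := by
  rw [regular_iff] at hr₁ hr₂ ⊢
  have hSt := sylIn_top_coe S
  have hnorm := functorFamily_top_normal (p := p) hf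
  have claim : ∀ g : G, (S : Subgroup G) ⊓ subgroupConjRight g (S : Subgroup G) ≠ ⊥ →
      RelChain p ⊤ (functorFamily p f ⊤) ((S : Subgroup G) ⊓ subgroupConjRight g (S : Subgroup G))
        (S : Subgroup G) (subgroupConjRight g (S : Subgroup G)) := by
    intro g hne
    obtain ⟨U, hU1, hU2⟩ := Cfsg.Agent.S2940.result S G₁ G₂ h₁ h₂ hprod g
    have hUt := sylIn_top_coe U
    have part1 : RelChain p ⊤ (functorFamily p f ⊤)
        ((S : Subgroup G) ⊓ subgroupConjRight g (S : Subgroup G)) (S : Subgroup G) U := by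
      by_cases hSU : (S : Subgroup G) = U
      · rw [← hSU]; exact RelChain.refl _
      · have hle : (S : Subgroup G) ⊓ subgroupConjRight g (S : Subgroup G) ≤ (S : Subgroup G) ⊓ U :=
          le_inf inf_le_left hU1
        have := hr₁ S U (hSt.of_le h₁ le_top) (hUt.of_le (hU2.trans inf_le_left) le_top) hSU
          (fun h => hne (le_bot_iff.1 (h ▸ hle)))
        exact (relChain_enlarge hf hSt h₁ this).mono subset_rfl hle
    have part2 : RelChain p ⊤ (functorFamily p f ⊤)
        ((S : Subgroup G) ⊓ subgroupConjRight g (S : Subgroup G)) U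
        (subgroupConjRight g (S : Subgroup G)) := by
      by_cases hSU : subgroupConjRight g⁻¹ (U : Subgroup G) = S
      · rw [← hSU, conjR_conjR_inv]; exact RelChain.refl _
      · have hle : (S : Subgroup G) ⊓ subgroupConjRight g (S : Subgroup G) ≤
            subgroupConjRight g (subgroupConjRight g⁻¹ (U : Subgroup G) ⊓ S) := by
          rw [conjR_inf, conjR_conjR_inv]
          exact le_inf hU1 inf_le_right
        have hU' : SylIn p ⊤ (subgroupConjRight g⁻¹ (U : Subgroup G)) := by
          simpa using hUt.conjR g⁻¹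
        have hU'2 : subgroupConjRight g⁻¹ (U : Subgroup G) ≤ G₂ := by
          rw [conjR_le_iff, inv_inv]
          exact hU2.trans inf_le_right
        have := hr₂ _ S (hU'.of_le hU'2 le_top) (hSt.of_le h₂ le_top) hSU
          (fun h => hne (by
            rw [h] at hle
            have h0 : subgroupConjRight g (⊥ : Subgroup G) = ⊥ := conjR_eq_bot_iff.2 rfl
            rw [h0] at hle
            exact le_bot_iff.1 hle))
        have h3 := relChain_conj hnorm (relChain_enlarge hf hSt h₂ this) g
        rw [conjR_conjR_inv] at h3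
        exact h3.mono subset_rfl hle
    exact part1.trans part2
  intro S' T' hS' hT' hne hint
  obtain ⟨a, -, ha⟩ := hS'.exists_conj hSt
  obtain ⟨b, -, hb⟩ := hT'.exists_conj hSt
  have hT'' : subgroupConjRight a (subgroupConjRight (b * a⁻¹) (S : Subgroup G)) = T' := by
    rw [conjR_conjR, ← hb]
    congr 1
    group
  have hD : subgroupConjRight a ((S : Subgroup G) ⊓ subgroupConjRight (b * a⁻¹) (S : Subgroup G)) =
      S' ⊓ T' := by
    rw [conjR_inf, ha, hT'']
  have := relChain_conj hnorm (claim (b * a⁻¹) (by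
    intro h
    rw [h] at hD
    exact hint (hD ▸ conjR_eq_bot_iff.2 rfl))) a
  rwa [hD, ha, hT''] at this

end Cfsg.Agent.S2957
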