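import Cfsg.Statements.S2958

set_option autoImplicit false
open Cfsg

namespace Cfsg.Agent.S2958

/-- Let X, A, B be subgroups of a group G such that G is generated by the conjugates of X and every conjugate of X is contained in A or in B. Then A = G or B = G. -/
theorem result {G : Type*} [Group G] (X A B : Subgroup G) (hgen : (⨆ g : G, X.map (MulAut.conj g).toMonoidHom) = ⊤) (hcover : ∀ g : G, X.map (MulAut.conj g).toMonoidHom ≤ A ∨ X.map (MulAut.conj g).toMonoidHom ≤ B) : A = ⊤ ∨ B = ⊤ := by
  classical
  by_cases hA : ∀ g : G, X.map (MulAut.conj g).toMonoidHom ≤ A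
  · left
    rw [eq_top_iff, ← hgen]
    exact iSup_le hA
  right
  push Not at hA
  obtain ⟨g₀, hg₀⟩ := hA
  -- N = the A-core of B
  let N : Subgroup G :=
    { carrier := {x | ∀ a ∈ A, a * x * a⁻¹ ∈ B}
      mul_mem' := by
        intro x y hx hy a ha
        have := B.mul_mem (hx a ha) (hy a ha)
        simpa [mul_assoc] using this
      one_mem' := by
        intro a _
        simp
      inv_mem' := by
        intro x hx a ha
        have := B.inv_mem (hx a ha)
        simpa [mul_assoc] using this }
  have hmemN : ∀ x, x ∈ N ↔ ∀ a ∈ A, a * x * a⁻¹ ∈ B := fun x => Iff.rfl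
  have hNB : N ≤ B := by
    intro x hx
    have := hx 1 A.one_mem
    simpa using this
  -- conjugates not in A lie in N
  have key : ∀ g : G, ¬ X.map (MulAut.conj g).toMonoidHom ≤ A → X.map (MulAut.conj g).toMonoidHom ≤ N := by
    intro g hg y hy a ha
    have h1 : ¬ X.map (MulAut.conj (a * g)).toMonoidHom ≤ A := by
      intro hle
      apply hg
      intro z hz
      obtain ⟨x, hx, rfl⟩ := Subgroup.mem_map.1 hz
      have h2 : (MulAut.conj (a * g)).toMonoidHom x ∈ A := hle (Subgroup.mem_map_of_mem _ hx)
      have h3 := A.mul_mem (A.mul_mem (A.inv_mem ha) h2) ha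
      simpa [mul_assoc] using h3
    have h2 := (hcover (a * g)).resolve_left h1
    obtain ⟨x, hx, rfl⟩ := Subgroup.mem_map.1 hy
    have h3 : (MulAut.conj (a * g)).toMonoidHom x ∈ B := h2 (Subgroup.mem_map_of_mem _ hx)
    simpa [mul_assoc] using h3
  have hAN : A ⊔ N = ⊤ := by
    rw [eq_top_iff, ← hgen]
    refine iSup_le fun g => ?_
    by_cases h : X.map (MulAut.conj g).toMonoidHom ≤ A
    · exact h.trans le_sup_left
    · exact (key g h).trans le_sup_right
  -- N is normal
  have hnormal : N.Normal := by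
    rw [← Subgroup.normalizer_eq_top_iff, eq_top_iff, ← hAN]
    refine sup_le ?_ Subgroup.le_normalizer
    rw [Subgroup.le_normalizer_iff]
    intro a ha x hx b hb
    have := hx (b * a) (A.mul_mem hb ha)
    simpa [mul_assoc] using this
  have hall : ∀ g : G, X.map (MulAut.conj g).toMonoidHom ≤ N := by
    intro g y hy
    obtain ⟨x, hx, rfl⟩ := Subgroup.mem_map.1 hy
    have h1 : (MulAut.conj g₀).toMonoidHom x ∈ N := key g₀ hg₀ (Subgroup.mem_map_of_mem _ hx)
    have h2 := hnormal.conj_mem _ h1 (g * g₀⁻¹)
    simpa [mul_assoc] using h2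
  rw [eq_top_iff]
  refine le_trans ?_ hNB
  rw [← hgen]
  exact iSup_le hall

end Cfsg.Agent.S2958
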