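import Cfsg.Statements.S2959
import Cfsg.Agent.Lib.Helper55.CharP

set_option autoImplicit false
open Cfsg

namespace Cfsg.Agent.S2959

open Cfsg.Agent.Lib.Helper55

/-- Let G be a finite group of characteristic p, that is C_G(O_p(G)) ≤ O_p(G), with p prime, and let L be a subgroup of G normalized by O_p(G). Then L has characteristic p: C_L(O_p(L)) ≤ O_p(L). -/
theorem result {G : Type*} [Group G] [Finite G] {p : ℕ} [Fact p.Prime] (hG : Subgroup.centralizer (Cfsg.pCore p G : Set G) ≤ Cfsg.pCore p G) (L : Subgroup G) (hL : Cfsg.pCore p G ≤ Subgroup.normalizer (L : Set G)) : Subgroup.centralizer (Cfsg.pCore p ↥L : Set ↥L) ≤ Cfsg.pCore p ↥L := by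
  haveI hnL : (Cfsg.pCore p ↥L).Normal := pCore_normal' p ↥L
  haveI hnG : (Cfsg.pCore p G).Normal := pCore_normal' p G
  apply le_pCore inferInstance
  apply isPGroup_of_forall_coprime_eq_one
  intro c hc hcop
  have hRL : (Cfsg.pCore p G).subgroupOf L ≤ Cfsg.pCore p ↥L :=
    le_pCore inferInstance ((pCore_isPGroup p G).comap_subtype)
  have hcop' : (orderOf (c : G)).Coprime p := by
    rwa [Subgroup.orderOf_coe]
  have : (c : G) = 1 := by
    refine eq_one_of_quadratic (pCore_isPGroup p G) hG hcop' ?_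
    intro r hr
    have hrL : r⁻¹ * (c : G) * r ∈ L := by
      have := (Subgroup.le_normalizer_iff.1 hL) r⁻¹ (inv_mem hr) c c.2
      simpa using this
    have hzR : (c : G)⁻¹ * (r⁻¹ * c * r) ∈ Cfsg.pCore p G := by
      have h1 : (c : G)⁻¹ * r⁻¹ * ((c : G)⁻¹)⁻¹ ∈ Cfsg.pCore p G := hnG.conj_mem _ (inv_mem hr) _
      have := mul_mem h1 hr
      simpa [mul_assoc] using this
    refine ⟨hzR, ?_⟩
    have hzL : (c : G)⁻¹ * (r⁻¹ * c * r) ∈ L := mul_mem (inv_mem c.2) hrL
    have hz : (⟨(c : G)⁻¹ * (r⁻¹ * c * r), hzL⟩ : ↥L) ∈ Cfsg.pCore p ↥L :=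
      hRL (Subgroup.mem_subgroupOf.2 hzR)
    have := (Subgroup.mem_centralizer_iff.1 hc) _ hz
    have h2 := congrArg Subtype.val this
    exact h2.symm
  exact Subtype.ext this

end Cfsg.Agent.S2959
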