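import Cfsg.Statements.S2960
import Cfsg.Agent.Lib.Helper55.CharP

set_option autoImplicit false
open Cfsg

namespace Cfsg.Agent.S2960

open Cfsg.Agent.Lib.Helper55

/-- Let G be a finite group of characteristic p (C_G(O_p(G)) ≤ O_p(G)), p prime, T a Sylow p-subgroup of G and Q a normal subgroup of T with C_T(Q) ≤ Q. Then C_G(Q) ≤ Q. -/
theorem result {G : Type*} [Group G] [Finite G] {p : ℕ} [Fact p.Prime] (hG : Subgroup.centralizer (Cfsg.pCore p G : Set G) ≤ Cfsg.pCore p G) (T : Sylow p G) (Q : Subgroup G) (hQT : Q ≤ (T : Subgroup G)) (hQn : (T : Subgroup G) ≤ Subgroup.normalizer (Q : Set G)) (hC : (T : Subgroup G) ⊓ Subgroup.centralizer (Q : Set G) ≤ Q) : Subgroup.centralizer (Q : Set G) ≤ Q := by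
  have hnG : (Cfsg.pCore p G).Normal := pCore_normal' p G
  have hRT : Cfsg.pCore p G ≤ (T : Subgroup G) := (pCore_isPGroup p G).le_sylow_of_normal T
  -- T normalizes C(Q)
  have hTC : ∀ t ∈ (T : Subgroup G), ∀ c ∈ Subgroup.centralizer (Q : Set G),
      t * c * t⁻¹ ∈ Subgroup.centralizer (Q : Set G) := by
    intro t ht c hc
    rw [Subgroup.mem_centralizer_iff] at hc ⊢
    intro q hq
    have hq' : t⁻¹ * q * t ∈ Q := by
      have := (Subgroup.le_normalizer_iff.1 hQn) t⁻¹ (inv_mem ht) q hq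
      simpa using this
    have := hc _ hq'
    calc q * (t * c * t⁻¹) = t * ((t⁻¹ * q * t) * c) * t⁻¹ := by group
      _ = t * (c * (t⁻¹ * q * t)) * t⁻¹ := by rw [this]
      _ = t * c * t⁻¹ * q := by group
  have hp : IsPGroup p ↥(Subgroup.centralizer (Q : Set G)) := by
    apply isPGroup_of_forall_coprime_eq_one
    intro c hc hcop
    refine eq_one_of_quadratic (pCore_isPGroup p G) hG hcop ?_
    intro r hr
    have hzR : c⁻¹ * (r⁻¹ * c * r) ∈ Cfsg.pCore p G := by
      have h1 : c⁻¹ * r⁻¹ * (c⁻¹)⁻¹ ∈ Cfsg.pCore p G := hnG.conj_mem _ (inv_mem hr) _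
      have := mul_mem h1 hr
      simpa [mul_assoc] using this
    refine ⟨hzR, ?_⟩
    have hzC : c⁻¹ * (r⁻¹ * c * r) ∈ Subgroup.centralizer (Q : Set G) := by
      have := hTC r⁻¹ (inv_mem (hRT hr)) c hc
      exact mul_mem (inv_mem hc) (by simpa using this)
    have hzQ : c⁻¹ * (r⁻¹ * c * r) ∈ Q := hC ⟨hRT hzR, hzC⟩
    exact ((Subgroup.mem_centralizer_iff.1 hc) _ hzQ).symm
  have hsup : IsPGroup p ↥(Subgroup.centralizer (Q : Set G) ⊔ (T : Subgroup G)) :=
    hp.to_sup_of_normal_left' T.2 (Subgroup.le_normalizer_iff.2 hTC)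
  have heq := T.3 hsup le_sup_right
  have hle : Subgroup.centralizer (Q : Set G) ≤ (T : Subgroup G) := by
    rw [← heq]; exact le_sup_left
  exact fun x hx => hC ⟨hle hx, hx⟩

end Cfsg.Agent.S2960
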