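import Cfsg.Statements.S2961
import Cfsg.Agent.Lib.Helper55.CharP
import Cfsg.Agent.S2960

set_option autoImplicit false
open Cfsg

namespace Cfsg.Agent.S2961

open Cfsg.Agent.Lib.Helper55

/-- Let G be a finite group of characteristic p (C_G(O_p(G)) ≤ O_p(G)), p prime, T a Sylow p-subgroup of G and Q a normal subgroup of T with C_T(Q) ≤ Q. Then every subgroup L of G containing Q has characteristic p: C_L(O_p(L)) ≤ O_p(L). -/
theorem result {G : Type*} [Group G] [Finite G] {p : ℕ} [Fact p.Prime] (hG : Subgroup.centralizer (Cfsg.pCore p G : Set G) ≤ Cfsg.pCore p G) (T : Sylow p G) (Q : Subgroup G) (hQT : Q ≤ (T : Subgroup G)) (hQn : (T : Subgroup G) ≤ Subgroup.normalizer (Q : Set G)) (hC : (T : Subgroup G) ⊓ Subgroup.centralizer (Q : Set G) ≤ Q) (L : Subgroup G) (hQL : Q ≤ L) : Subgroup.centralizer (Cfsg.pCore p ↥L : Set ↥L) ≤ Cfsg.pCore p ↥L := by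
  have hCQ : Subgroup.centralizer (Q : Set G) ≤ Q := Cfsg.Agent.S2960.result hG T Q hQT hQn hC
  have hnG : (Cfsg.pCore p G).Normal := pCore_normal' p G
  have hnL : (Cfsg.pCore p ↥L).Normal := pCore_normal' p ↥L
  have hRT : Cfsg.pCore p G ≤ (T : Subgroup G) := (pCore_isPGroup p G).le_sylow_of_normal T
  have hRL : (Cfsg.pCore p G).subgroupOf L ≤ Cfsg.pCore p ↥L :=
    le_pCore inferInstance ((pCore_isPGroup p G).comap_subtype)
  have hQp : IsPGroup p ↥Q := T.2.to_le hQT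
  let N : Subgroup ↥L :=
    { carrier := {n | ∀ r ∈ Cfsg.pCore p G, r⁻¹ * (n : G) * r ∈ L}
      mul_mem' := by
        intro a b ha hb r hr
        have := L.mul_mem (ha r hr) (hb r hr)
        simpa [mul_assoc] using this
      one_mem' := by
        intro r _
        simp
      inv_mem' := by
        intro a ha r hr
        have := L.inv_mem (ha r hr)
        simpa [mul_assoc] using this }
  have hNmem : ∀ n : ↥L, n ∈ N ↔ ∀ r ∈ Cfsg.pCore p G, r⁻¹ * (n : G) * r ∈ L := fun _ => Iff.rfl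
  have hNn : N.Normal := by
    constructor
    intro n hn l r hr
    have hr' : (l : G)⁻¹ * r * l ∈ Cfsg.pCore p G := by
      have := hnG.conj_mem r hr (l : G)⁻¹
      simpa using this
    have h1 := hn _ hr'
    have h2 := L.mul_mem (L.mul_mem l.2 h1) (L.inv_mem l.2)
    have h3 : r⁻¹ * ((l * n * l⁻¹ : ↥L) : G) * r
        = (l : G) * (((l : G)⁻¹ * r * l)⁻¹ * (n : G) * ((l : G)⁻¹ * r * l)) * (l : G)⁻¹ := by
      simp only [Subgroup.coe_mul, Subgroup.coe_inv]
      group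
    rw [h3]; exact h2
  have hQN : ∀ q : ↥L, (q : G) ∈ Q → q ∈ N := by
    intro q hq r hr
    have := (Subgroup.le_normalizer_iff.1 hQn) r⁻¹ (inv_mem (hRT hr)) q hq
    exact hQL (by simpa using this)
  -- C_N(U) is a p-group
  have hCN : N ⊓ Subgroup.centralizer (Cfsg.pCore p ↥L : Set ↥L) ≤ Cfsg.pCore p ↥L := by
    apply le_pCore inferInstance
    apply isPGroup_of_forall_coprime_eq_one
    intro c hc hcop
    have hcop' : (orderOf (c : G)).Coprime p := by
      rwa [Subgroup.orderOf_coe]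
    have : (c : G) = 1 := by
      refine eq_one_of_quadratic (pCore_isPGroup p G) hG hcop' ?_
      intro r hr
      have hrL : r⁻¹ * (c : G) * r ∈ L := hc.1 r hr
      have hzR : (c : G)⁻¹ * (r⁻¹ * c * r) ∈ Cfsg.pCore p G := by
        have h1 : (c : G)⁻¹ * r⁻¹ * ((c : G)⁻¹)⁻¹ ∈ Cfsg.pCore p G := hnG.conj_mem _ (inv_mem hr) _
        have := mul_mem h1 hr
        simpa [mul_assoc] using this
      refine ⟨hzR, ?_⟩
      have hzL : (c : G)⁻¹ * (r⁻¹ * c * r) ∈ L := mul_mem (inv_mem c.2) hrL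
      have hz : (⟨(c : G)⁻¹ * (r⁻¹ * c * r), hzL⟩ : ↥L) ∈ Cfsg.pCore p ↥L :=
        hRL (Subgroup.mem_subgroupOf.2 hzR)
      have := (Subgroup.mem_centralizer_iff.1 hc.2) _ hz
      have h2 := congrArg Subtype.val this
      exact h2.symm
    exact Subtype.ext this
  apply le_pCore inferInstance
  apply isPGroup_of_forall_coprime_eq_one
  intro d hd hcop
  have hcop' : (orderOf (d : G)).Coprime p := by
    rwa [Subgroup.orderOf_coe]
  have hDn : (Subgroup.centralizer (Cfsg.pCore p ↥L : Set ↥L)).Normal := inferInstance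
  have hdQ : (d : G) ∈ Subgroup.centralizer (Q : Set G) := by
    rw [Subgroup.mem_centralizer_iff]
    intro q hq
    let q' : ↥L := ⟨q, hQL hq⟩
    have hq'N : q' ∈ N := hQN q' hq
    have hzN : d⁻¹ * (q'⁻¹ * d * q') ∈ N := by
      have h1 : d⁻¹ * q'⁻¹ * (d⁻¹)⁻¹ ∈ N := hNn.conj_mem _ (inv_mem hq'N) _
      have := mul_mem h1 hq'N
      simpa [mul_assoc] using this
    have hzD : d⁻¹ * (q'⁻¹ * d * q') ∈ Subgroup.centralizer (Cfsg.pCore p ↥L : Set ↥L) := by
      have h1 : q'⁻¹ * d * (q'⁻¹)⁻¹ ∈ Subgroup.centralizer (Cfsg.pCore p ↥L : Set ↥L) :=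
        hDn.conj_mem _ hd _
      exact mul_mem (inv_mem hd) (by simpa using h1)
    have hzU : d⁻¹ * (q'⁻¹ * d * q') ∈ Cfsg.pCore p ↥L := hCN ⟨hzN, hzD⟩
    have hcomm : Commute d (d⁻¹ * (q'⁻¹ * d * q')) := ((Subgroup.mem_centralizer_iff.1 hd) _ hzU).symm
    obtain ⟨k, hk⟩ := (pCore_isPGroup p ↥L) ⟨_, hzU⟩
    have hk' : (d⁻¹ * (q'⁻¹ * d * q')) ^ (p ^ k) = 1 := by
      simpa using congrArg Subtype.val hk
    have h1 := eq_one_of_conj_eq_mul (q := q') (z := d⁻¹ * (q'⁻¹ * d * q')) hcop (by group) hcomm hk'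
    have h2 : q'⁻¹ * d * q' = d := by
      have h3 : d * (d⁻¹ * (q'⁻¹ * d * q')) = d * 1 := by rw [h1]
      simpa using h3
    have h4 : q' * d = d * q' := by
      calc q' * d = q' * (q'⁻¹ * d * q') := by rw [h2]
        _ = d * q' := by group
    exact congrArg Subtype.val h4
  obtain ⟨k, hk⟩ := hQp ⟨(d : G), hCQ hdQ⟩
  have hk' : (d : G) ^ (p ^ k) = 1 := by simpa using congrArg Subtype.val hk
  exact Subtype.ext (eq_one_of_pow_of_coprime hk' (pow_orderOf_eq_one (d : G)) hcop')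

end Cfsg.Agent.S2961
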