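import Cfsg.Statements.S2963
import Mathlib.GroupTheory.Perm.Sign
import Mathlib.Order.Atoms.Finite
import Mathlib.GroupTheory.GroupAction.Basic
import Mathlib.Algebra.Group.Action.Pointwise.Set.Basic

set_option autoImplicit false
open Cfsg

namespace Cfsg.Agent.S2963

open scoped Pointwise

/-- Let n be odd. If the symmetric group of degree n is a minimal parabolic group for the prime 2, that is, a Sylow 2-subgroup is not normal and lies in exactly one maximal subgroup, then n = 2^m + 1 for some natural number m. -/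
theorem result (n : ℕ) (hn : Odd n) (h : Cfsg.IsPMinimal 2 (Equiv.Perm (Fin n))) : ∃ m : ℕ, n = 2 ^ m + 1 := by
  classical
  let S : Sylow 2 (Equiv.Perm (Fin n)) := default
  obtain ⟨hnn, M, ⟨hMco, hSM⟩, huniq⟩ := h S
  have hfix : (MulAction.fixedPoints ↥(S : Subgroup (Equiv.Perm (Fin n))) (Fin n)).Nonempty := by
    apply S.2.nonempty_fixed_point_of_prime_not_dvd_card
    rw [Nat.card_eq_fintype_card, Fintype.card_fin]
    intro h2
    exact (Nat.not_even_iff_odd.2 hn) (even_iff_two_dvd.2 h2)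
  obtain ⟨x, hx⟩ := hfix
  have hx' : ∀ s ∈ (S : Subgroup (Equiv.Perm (Fin n))), s x = x := fun s hs => hx ⟨s, hs⟩
  by_cases hex : ∃ y, y ≠ x
  swap
  · exfalso
    push Not at hex
    have hsub : Subsingleton (Fin n) := ⟨fun a b => by rw [hex a, hex b]⟩
    apply hnn
    have : (S : Subgroup (Equiv.Perm (Fin n))) = ⊥ := Subsingleton.elim _ _
    rw [this]
    infer_instance
  obtain ⟨y, hyx⟩ := hex
  let Δ : Set (Fin n) := MulAction.orbit ↥(S : Subgroup (Equiv.Perm (Fin n))) y
  have hxΔ : x ∉ Δ := by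
    rintro ⟨s, hs⟩
    apply hyx
    have h1 : (s : Equiv.Perm (Fin n)) y = x := hs
    have h2 : (s : Equiv.Perm (Fin n)) x = x := hx' s s.2
    exact (s : Equiv.Perm (Fin n)).injective (h1.trans h2.symm)
  have hyΔ : y ∈ Δ := MulAction.mem_orbit_self y
  obtain ⟨m, hm⟩ := S.2.card_orbit y
  by_cases hall : ∀ w, w ∈ Δ ∨ w = x
  · refine ⟨m, ?_⟩
    have h1 : (Set.univ : Set (Fin n)) = insert x Δ := by
      ext w
      simp only [Set.mem_univ, Set.mem_insert_iff, true_iff]
      exact (hall w).symm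
    have h2 : Nat.card (Set.univ : Set (Fin n)) = n := by
      rw [Nat.card_univ, Nat.card_eq_fintype_card, Fintype.card_fin]
    rw [← h2, h1, ← hm]
    rw [Nat.card_coe_set_eq, Nat.card_coe_set_eq, Set.ncard_insert_of_notMem hxΔ]
  exfalso
  push Not at hall
  obtain ⟨w, hwΔ, hwx⟩ := hall
  let A : Subgroup (Equiv.Perm (Fin n)) := MulAction.stabilizer (Equiv.Perm (Fin n)) x
  let B : Subgroup (Equiv.Perm (Fin n)) := MulAction.stabilizer (Equiv.Perm (Fin n)) Δ
  have hBmem : ∀ σ : Equiv.Perm (Fin n), σ ∈ B ↔ ∀ a, σ a ∈ Δ ↔ a ∈ Δ := by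
    intro σ
    exact MulAction.mem_stabilizer_set
  have hSA : (S : Subgroup (Equiv.Perm (Fin n))) ≤ A := fun s hs => hx' s hs
  have hSB : (S : Subgroup (Equiv.Perm (Fin n))) ≤ B := by
    intro s hs
    rw [hBmem]
    intro a
    constructor
    · intro h1
      have h2 := MulAction.mem_orbit_of_mem_orbit (⟨s, hs⟩⁻¹ : ↥(S : Subgroup (Equiv.Perm (Fin n)))) h1
      have h3 : (⟨s, hs⟩⁻¹ : ↥(S : Subgroup (Equiv.Perm (Fin n)))) • (s a) = a := by
        show s⁻¹ (s a) = a
        simp
      rwa [h3] at h2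
    · intro h1
      exact MulAction.mem_orbit_of_mem_orbit (⟨s, hs⟩ : ↥(S : Subgroup (Equiv.Perm (Fin n)))) h1
  have hle : ∀ C : Subgroup (Equiv.Perm (Fin n)), (S : Subgroup (Equiv.Perm (Fin n))) ≤ C → C ≠ ⊤ → C ≤ M := by
    intro C hSC hC
    obtain ⟨M', hM', hCM'⟩ := (eq_top_or_exists_le_coatom C).resolve_left hC
    have := huniq M' ⟨hM', hSC.trans hCM'⟩
    rw [← this]; exact hCM'
  have hA : A ≠ ⊤ := by
    intro htop
    have : Equiv.swap x y ∈ A := by rw [htop]; trivial
    have h1 : Equiv.swap x y x = x := this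
    rw [Equiv.swap_apply_left] at h1
    exact hyx h1
  have hB : B ≠ ⊤ := by
    intro htop
    have : Equiv.swap x y ∈ B := by rw [htop]; trivial
    have h1 := ((hBmem _).1 this y).2 hyΔ
    rw [Equiv.swap_apply_right] at h1
    exact hxΔ h1
  have hAB : A ⊔ B ≤ M := sup_le (hle A hSA hA) (hle B hSB hB)
  apply hMco.1
  rw [eq_top_iff]
  refine le_trans ?_ hAB
  rw [← Equiv.Perm.closure_isSwap, Subgroup.closure_le]
  have hAswap : ∀ a b, a ≠ x → b ≠ x → Equiv.swap a b ∈ A ⊔ B := by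
    intro a b ha hb
    apply Subgroup.mem_sup_left
    show Equiv.swap a b x = x
    exact Equiv.swap_apply_of_ne_of_ne ha.symm hb.symm
  have hxw : Equiv.swap x w ∈ A ⊔ B := by
    apply Subgroup.mem_sup_right
    rw [hBmem]
    intro a
    by_cases hax : a = x
    · subst hax
      rw [Equiv.swap_apply_left]
      exact ⟨fun h => absurd h hwΔ, fun h => absurd h hxΔ⟩
    by_cases haw : a = w
    · subst haw
      rw [Equiv.swap_apply_right]
      exact ⟨fun h => absurd h hxΔ, fun h => absurd h hwΔ⟩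
    rw [Equiv.swap_apply_of_ne_of_ne hax haw]
  have hxb : ∀ b, b ≠ x → Equiv.swap x b ∈ A ⊔ B := by
    intro b hb
    by_cases hbw : b = w
    · rw [hbw]; exact hxw
    have h1 := Equiv.swap_mul_swap_mul_swap (x := x) (y := w) (z := b) hwx.symm hb.symm
    rw [Equiv.swap_comm x b, ← h1]
    have h2 := hAswap w b hwx hb
    exact Subgroup.mul_mem _ (Subgroup.mul_mem _ h2 hxw) h2
  rintro σ ⟨a, b, hab, rfl⟩
  by_cases hax : a = x
  · subst hax
    exact hxb b hab.symm
  by_cases hbx : b = x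
  · subst hbx
    rw [Equiv.swap_comm]
    exact hxb a hax
  exact hAswap a b hax hbx

end Cfsg.Agent.S2963
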