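import Cfsg.Statements.S2998
-- import your own Cfsg.Agent.* helpers here
import Mathlib
import Cfsg.Agent.Lib.Helper56.Basic

set_option autoImplicit false
open Cfsg

namespace Cfsg.Agent.S2998

open Cfsg.Agent.Lib.Helper56

theorem cent_le_norm_zpowers {G : Type*} [Group G] (y : G) :
    Subgroup.centralizer ({y} : Set G) ≤ Subgroup.normalizer ((Subgroup.zpowers y : Subgroup G) : Set G) := by
  intro c hc
  rw [Subgroup.mem_centralizer_singleton_iff] at hc
  rw [Subgroup.mem_normalizer_iff]
  intro z
  have hcy : Commute c y := hc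
  constructor
  · rintro ⟨k, rfl⟩
    have : c * y ^ k * c⁻¹ = y ^ k := by
      rw [(hcy.zpow_right k).eq]; group
    simp only [this]
    exact ⟨k, rfl⟩
  · rintro ⟨k, hk⟩
    have : z = y ^ k := by
      have h2 : c⁻¹ * y ^ k * c = y ^ k := by
        rw [mul_assoc, ← (hcy.zpow_right k).eq]; group
      have h3 : z = c⁻¹ * (c * z * c⁻¹) * c := by group
      simp only at hk
      rw [h3, ← hk, h2]
    rw [this]; exact ⟨k, rfl⟩

/-- Let G be a finite group, p a prime, P a Sylow p-subgroup of G and x ∈ P an element such that N_G(R) ≤ C_G(x) for every nontrivial subgroup R of P. Then P ≤ C_G(x); every G-conjugate of x lying in P equals x (so g ∈ C_G(x) whenever g x g⁻¹ ∈ P); and for every normal subgroup N of G, the image of x in G ⧸ N has the same property with respect to the image of P: the normalizer of every nontrivial subgroup of the image of P centralizes the image of x. -/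
theorem result {G : Type*} [Group G] [Finite G] {p : ℕ} [Fact p.Prime] (P : Sylow p G) (x : G) (hxP : x ∈ (P : Subgroup G)) (hlc : ∀ R : Subgroup G, R ≤ (P : Subgroup G) → R ≠ ⊥ → Subgroup.normalizer (R : Set G) ≤ Subgroup.centralizer ({x} : Set G)) : (P : Subgroup G) ≤ Subgroup.centralizer ({x} : Set G) ∧ (∀ g : G, g * x * g⁻¹ ∈ (P : Subgroup G) → g * x * g⁻¹ = x) ∧ ∀ (N : Subgroup G) [N.Normal], ∀ R : Subgroup (G ⧸ N), R ≤ (P : Subgroup G).map (QuotientGroup.mk' N) → R ≠ ⊥ → Subgroup.normalizer (R : Set (G ⧸ N)) ≤ Subgroup.centralizer ({(QuotientGroup.mk x : G ⧸ N)} : Set (G ⧸ N)) := by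
  have h1 : (P : Subgroup G) ≤ Subgroup.centralizer ({x} : Set G) := by
    by_cases hP : (P : Subgroup G) = ⊥
    · rw [hP]; exact bot_le
    · exact Subgroup.le_normalizer.trans (hlc P le_rfl hP)
  refine ⟨h1, ?_, ?_⟩
  · intro g hg
    by_cases hx1 : x = 1
    · simp [hx1]
    have hPne : (P : Subgroup G) ≠ ⊥ := by
      intro h
      rw [h] at hxP
      exact hx1 (by simpa using hxP)
    set y := g * x * g⁻¹ with hy
    have hy1 : y ≠ 1 := by
      intro h
      apply hx1
      rw [hy] at h
      simpa using h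
    have hR : Subgroup.zpowers y ≤ (P : Subgroup G) := by
      rw [Subgroup.zpowers_le]; exact hg
    have hRne : Subgroup.zpowers y ≠ ⊥ := by
      rw [Ne, Subgroup.zpowers_eq_bot]; exact hy1
    have hCy : Subgroup.centralizer ({y} : Set G) ≤ Subgroup.centralizer ({x} : Set G) :=
      (cent_le_norm_zpowers y).trans (hlc _ hR hRne)
    have hmap : (Subgroup.centralizer ({x} : Set G)).map (MulAut.conj g).toMonoidHom ≤
        Subgroup.centralizer ({x} : Set G) := by
      rintro _ ⟨c, hc, rfl⟩
      apply hCy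
      rw [SetLike.mem_coe, Subgroup.mem_centralizer_singleton_iff] at hc
      rw [Subgroup.mem_centralizer_singleton_iff, hy]
      simp only [MulEquiv.coe_toMonoidHom, MulAut.conj_apply]
      calc g * c * g⁻¹ * (g * x * g⁻¹) = g * (c * x) * g⁻¹ := by group
        _ = g * (x * c) * g⁻¹ := by rw [hc]
        _ = _ := by group
    have hgN := mem_normalizer_of_map_le _ g hmap
    rw [Subgroup.mem_normalizer_iff_map_conj_eq] at hgN
    have hyC : y ∈ Subgroup.centralizer ((P : Subgroup G) : Set G) := by
      rw [Subgroup.mem_centralizer_iff]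
      intro u hu
      have hu' : u ∈ (Subgroup.centralizer ({x} : Set G)).map (MulAut.conj g).toMonoidHom := by
        have := h1 hu
        rw [← hgN] at this
        exact this
      obtain ⟨c, hc, rfl⟩ := hu'
      rw [SetLike.mem_coe, Subgroup.mem_centralizer_singleton_iff] at hc
      simp only [MulEquiv.coe_toMonoidHom, MulAut.conj_apply, hy]
      calc g * c * g⁻¹ * (g * x * g⁻¹) = g * (c * x) * g⁻¹ := by group
        _ = g * (x * c) * g⁻¹ := by rw [hc]
        _ = _ := by group
    have hxC : x ∈ Subgroup.centralizer ((P : Subgroup G) : Set G) := by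
      rw [Subgroup.mem_centralizer_iff]
      intro u hu
      have := h1 hu
      rw [Subgroup.mem_centralizer_singleton_iff] at this
      exact this
    obtain ⟨n, hn, hn'⟩ := P.conj_eq_normalizer_conj_of_mem_centralizer x g⁻¹ hxC (by simpa [hy] using hyC)
    have hnC := hlc P le_rfl hPne hn
    rw [Subgroup.mem_centralizer_singleton_iff] at hnC
    rw [inv_inv] at hn'
    rw [hy, hn', mul_assoc, ← hnC]; group
  · intro N _ R hR hRne gb hgb
    obtain ⟨g, rfl⟩ := QuotientGroup.mk'_surjective N gb
    set L : Subgroup G := R.comap (QuotientGroup.mk' N) with hL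
    set R₀ : Subgroup G := (P : Subgroup G) ⊓ L with hR₀
    have hNL : N ≤ L := by
      intro n hn
      rw [hL, Subgroup.mem_comap]
      have : (QuotientGroup.mk' N) n = 1 := by simpa using hn
      rw [this]; exact R.one_mem
    have hLle : L ≤ (P : Subgroup G) ⊔ N := by
      intro l hl
      rw [hL, Subgroup.mem_comap] at hl
      obtain ⟨u, hu, hul⟩ := hR hl
      have : u⁻¹ * l ∈ N := by
        rw [← QuotientGroup.eq]; exact hul
      have h2 : l = u * (u⁻¹ * l) := by group
      rw [h2]
      exact Subgroup.mul_mem _ ((le_sup_left : (P : Subgroup G) ≤ _) hu) ((le_sup_right : N ≤ _) this)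
    have hidx : ¬ p ∣ R₀.relIndex L := by
      rw [hR₀, Subgroup.inf_relIndex_right]
      exact not_dvd_relIndex_of_le_sup P N L hNL hLle
    have hR₀p : IsPGroup p R₀ := P.2.to_le inf_le_left
    have hR₀ne : R₀ ≠ ⊥ := by
      intro hbot
      apply hRne
      rw [eq_bot_iff]
      intro r hr
      obtain ⟨u, hu, hur⟩ := hR hr
      have huL : u ∈ L := by rw [hL, Subgroup.mem_comap, hur]; exact hr
      have : u ∈ R₀ := ⟨hu, huL⟩
      rw [hbot] at this
      have hu1 : u = 1 := by simpa using this
      rw [← hur, hu1]; simp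
    have hgL : ∀ l ∈ L, g * l * g⁻¹ ∈ L := by
      intro l hl
      rw [hL, Subgroup.mem_comap] at hl ⊢
      have := (Subgroup.mem_normalizer_iff.mp hgb _).mp hl
      simpa using this
    have hQL : R₀.map (MulAut.conj g).toMonoidHom ≤ L := by
      rintro _ ⟨r, hr, rfl⟩
      exact hgL r hr.2
    have hQp : IsPGroup p (R₀.map (MulAut.conj g).toMonoidHom) := hR₀p.map _
    obtain ⟨l, hl, hle⟩ := exists_conj_le_of_relSylow L R₀ _ hR₀p hidx hQL hQp
    have hlg : l * g ∈ Subgroup.normalizer (R₀ : Set G) := by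
      apply mem_normalizer_of_map_le
      rintro _ ⟨r, hr, rfl⟩
      have : l * (g * r * g⁻¹) * l⁻¹ ∈ R₀ := hle ⟨g * r * g⁻¹, ⟨r, hr, rfl⟩, rfl⟩
      simp only [MulEquiv.coe_toMonoidHom, MulAut.conj_apply]
      have e : l * g * r * (l * g)⁻¹ = l * (g * r * g⁻¹) * l⁻¹ := by group
      rw [e]; exact this
    have hlgC := hlc R₀ inf_le_left hR₀ne hlg
    rw [Subgroup.mem_centralizer_singleton_iff] at hlgC
    rw [hL, Subgroup.mem_comap] at hl
    obtain ⟨u, hu, hul⟩ := hR hl
    have huC := h1 hu
    rw [Subgroup.mem_centralizer_singleton_iff] at huC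
    rw [Subgroup.mem_centralizer_singleton_iff]
    have e1 : Commute ((QuotientGroup.mk' N) l) ((QuotientGroup.mk' N) x) := by
      rw [← hul]
      exact (show Commute u x from huC).map (QuotientGroup.mk' N)
    have e2 : Commute ((QuotientGroup.mk' N) (l * g)) ((QuotientGroup.mk' N) x) :=
      (show Commute (l * g) x from hlgC).map (QuotientGroup.mk' N)
    have e3 : (QuotientGroup.mk' N) g = ((QuotientGroup.mk' N) l)⁻¹ * (QuotientGroup.mk' N) (l * g) := by
      rw [map_mul]; group
    have e4 : Commute ((QuotientGroup.mk' N) g) ((QuotientGroup.mk' N) x) := by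
      rw [e3]; exact e1.inv_left.mul_left e2
    exact e4

end Cfsg.Agent.S2998
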