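import Cfsg.Statements.S3003
-- import your own Cfsg.Agent.* helpers here
import Cfsg.Agent.S1324
import Cfsg.Agent.Lib.Helper56.Cores
import Cfsg.Agent.Lib.Helper3.PGroup

set_option autoImplicit false
open Cfsg

namespace Cfsg.Agent.S3003

open Cfsg.Agent.Lib.Helper56

theorem key {G : Type*} [Group G] [Finite G] {p : ℕ} [Fact p.Prime] (Q : Subgroup G)
    (hQp : IsPGroup p ↥Q) (hlarge : Cfsg.IsLarge Q) (G₁ : Subgroup G) (hQG : Q ≤ G₁)
    (R : Subgroup G) (hR : (Nat.card ↥R).Coprime p)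
    (hGR : G₁ ≤ Subgroup.normalizer (R : Set G)) (x : G) (hx1 : x ≠ 1) (g : G) (hg : g ∈ G₁)
    (hz : g * x * g⁻¹ ∈ Q ⊓ Subgroup.centralizer (Q : Set G)) (r : G) (hr : r ∈ R)
    (hrx : r * x = x * r) : r = 1 := by
  have hQR : Q ⊓ R = ⊥ := inf_eq_bot_of_isPGroup_of_coprime Q R hQp hR
  set z := g * x * g⁻¹ with hzdef
  set r' := g * r * g⁻¹ with hr'def
  have hr'R : r' ∈ R := (Subgroup.mem_normalizer_iff.mp (hGR hg) r).mp hr
  have hz1 : z ≠ 1 := by
    intro h
    apply hx1
    have : x = g⁻¹ * z * g := by rw [hzdef]; group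
    rw [this, h]; group
  have hcomm : r' * z = z * r' := by
    rw [hr'def, hzdef]
    calc g * r * g⁻¹ * (g * x * g⁻¹) = g * (r * x) * g⁻¹ := by group
      _ = g * (x * r) * g⁻¹ := by rw [hrx]
      _ = g * x * g⁻¹ * (g * r * g⁻¹) := by group
  have hzle : Subgroup.zpowers z ≤ Subgroup.centralizer (Q : Set G) := Subgroup.zpowers_le.mpr hz.2
  have hzne : Subgroup.zpowers z ≠ ⊥ := by
    rw [Ne, Subgroup.zpowers_eq_bot]; exact hz1
  have hN := hlarge.2 _ hzle hzne
  have hr'N : r' ∈ Subgroup.normalizer (Q : Set G) := by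
    apply hN
    apply Subgroup.centralizer_le_normalizer
    rw [Subgroup.mem_centralizer_iff]
    intro y hy
    obtain ⟨k, rfl⟩ := Subgroup.mem_zpowers_iff.mp hy
    exact ((Commute.zpow_right (show Commute r' z from hcomm) k).eq).symm
  have hr'C : r' ∈ Subgroup.centralizer (Q : Set G) := by
    rw [Subgroup.mem_centralizer_iff]
    intro q hq
    have h1 : r' * q * r'⁻¹ * q⁻¹ ∈ Q :=
      mul_mem ((Subgroup.mem_normalizer_iff.mp hr'N q).mp hq) (inv_mem hq)
    have h2 : r' * q * r'⁻¹ * q⁻¹ ∈ R := by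
      have := (Subgroup.mem_normalizer_iff.mp (hGR (hQG hq)) r'⁻¹).mp (inv_mem hr'R)
      have h3 := mul_mem hr'R this
      convert h3 using 1
      group
    have h3 : r' * q * r'⁻¹ * q⁻¹ ∈ Q ⊓ R := ⟨h1, h2⟩
    rw [hQR, Subgroup.mem_bot] at h3
    have : r' * q = q * r' := by
      have h4 : r' * q = (r' * q * r'⁻¹ * q⁻¹) * (q * r') := by group
      rw [h4, h3, one_mul]
    exact this.symm
  have h5 : r' ∈ Q ⊓ R := ⟨hlarge.1 hr'C, hr'R⟩
  rw [hQR, Subgroup.mem_bot] at h5
  have : r = g⁻¹ * r' * g := by rw [hr'def]; group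
  rw [this, h5]; group

/-- Let G be a finite group, p a prime and Q a large p-subgroup of G: C_G(Q) ≤ Q and N_G(U) ≤ N_G(Q) for every nontrivial subgroup U of C_G(Q). Let Q ≤ G₁ ≤ G, let R be a subgroup of order prime to p normalized by G₁, and let U ≤ G₁ be a p-subgroup. If U contains a nontrivial element which is G₁-conjugate to an element of Z(Q), then C_R(U) = 1. In particular, if U is elementary abelian of order at least p² and every maximal subgroup of U contains a nontrivial element G₁-conjugate into Z(Q), then R = 1. -/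
theorem result {G : Type*} [Group G] [Finite G] {p : ℕ} [Fact p.Prime] (Q : Subgroup G) (hQp : IsPGroup p ↥Q) (hlarge : Cfsg.IsLarge Q) (G₁ : Subgroup G) (hQG : Q ≤ G₁) (R : Subgroup G) (hR : (Nat.card ↥R).Coprime p) (hGR : G₁ ≤ Subgroup.normalizer (R : Set G)) (U : Subgroup G) (hUG : U ≤ G₁) (hUp : IsPGroup p ↥U) : ((∃ x ∈ U, x ≠ 1 ∧ ∃ g ∈ G₁, g * x * g⁻¹ ∈ Q ⊓ Subgroup.centralizer (Q : Set G)) → R ⊓ Subgroup.centralizer (U : Set G) = ⊥) ∧ (Cfsg.IsElementaryAbelian p U → p ^ 2 ≤ Nat.card ↥U → (∀ U₀ : Subgroup G, U₀ ≤ U → IsCoatom (U₀.subgroupOf U) → ∃ x ∈ U₀, x ≠ 1 ∧ ∃ g ∈ G₁, g * x * g⁻¹ ∈ Q ⊓ Subgroup.centralizer (Q : Set G)) → R = ⊥) := by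
  have hp : p.Prime := Fact.out
  refine ⟨?_, ?_⟩
  · rintro ⟨x, hxU, hx1, g, hg, hz⟩
    rw [eq_bot_iff]
    intro r hr
    rw [Subgroup.mem_bot]
    exact key Q hQp hlarge G₁ hQG R hR hGR x hx1 g hg hz r hr.1
      ((Subgroup.mem_centralizer_iff.mp hr.2 x hxU).symm)
  · intro hUe hU2 hcoat
    have hnd : ¬ p ∣ Nat.card ↥R := by
      rw [← hp.coprime_iff_not_dvd]; exact hR.symm
    have hgen := Cfsg.Agent.S1324.result p U R hUe hU2 hnd (hUG.trans hGR)
    rw [hgen, eq_bot_iff, iSup_le_iff]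
    rintro ⟨B, hBU, hBidx⟩
    -- find a coatom below `B`
    have hex : ∃ U₀ : Subgroup G, U₀ ≤ U ∧ U₀ ≤ B ∧ IsCoatom (U₀.subgroupOf U) := by
      have hsub : ∀ M' : Subgroup U, (M'.map U.subtype).subgroupOf U = M' := fun M' =>
        Subgroup.comap_map_eq_self_of_injective U.subtype_injective M'
      rcases eq_top_or_exists_le_coatom (B.subgroupOf U) with htop | ⟨M', hM', hle⟩
      · have hUB : U ≤ B := Subgroup.subgroupOf_eq_top.mp htop
        have hne : (⊥ : Subgroup U) ≠ ⊤ := by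
          intro h
          have h1 : Nat.card U = 1 := by
            rw [← Subgroup.card_top (G := U), ← h, Subgroup.card_bot]
          rw [h1] at hU2
          have := Nat.one_lt_pow (n := 2) (by norm_num) hp.one_lt
          omega
        rcases eq_top_or_exists_le_coatom (⊥ : Subgroup U) with h | ⟨M', hM', -⟩
        · exact absurd h hne
        · exact ⟨M'.map U.subtype, Subgroup.map_subtype_le M',
            (Subgroup.map_subtype_le M').trans hUB, by rw [hsub]; exact hM'⟩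
      · refine ⟨B, hBU, le_rfl, ?_⟩
        have hidx := Cfsg.Agent.Lib.Helper3.coatom_index hUp hM'
        have h1 : M'.index ∣ (B.subgroupOf U).index := Subgroup.index_dvd_of_le hle
        have h2 : (B.subgroupOf U).index ≤ p := hBidx
        have h3 : (B.subgroupOf U).index = p := by
          rw [hidx] at h1
          exact le_antisymm h2 (Nat.le_of_dvd (Nat.pos_of_ne_zero Subgroup.index_ne_zero_of_finite) h1)
        have h4 : B.subgroupOf U = M' := by
          apply Subgroup.eq_of_le_of_card_ge hle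
          have e1 := (B.subgroupOf U).card_mul_index
          have e2 := M'.card_mul_index
          rw [h3] at e1
          rw [hidx, ← e1] at e2
          exact (Nat.eq_of_mul_eq_mul_right hp.pos e2).le
        rw [h4]; exact hM'
    obtain ⟨U₀, hU₀U, hU₀B, hU₀c⟩ := hex
    obtain ⟨x, hx, hx1, g, hg, hz⟩ := hcoat U₀ hU₀U hU₀c
    intro r hr
    rw [Subgroup.mem_bot]
    exact key Q hQp hlarge G₁ hQG R hR hGR x hx1 g hg hz r hr.1
      ((Subgroup.mem_centralizer_iff.mp hr.2 x (hU₀B hx)).symm)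

end Cfsg.Agent.S3003
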