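import Cfsg.Statements.S3006
-- import your own Cfsg.Agent.* helpers here
import Mathlib
import Cfsg.Agent.Lib.Helper56.CentrallyLarge2

set_option autoImplicit false
open scoped Pointwise
open Cfsg

namespace Cfsg.Agent.S3006

open Cfsg.Agent.Lib.Helper56

/-- Let P be a finite p-group, Q a centrally large subgroup of P (|Q|·|Z(Q)| maximal among subgroups of P) and A an abelian subgroup of P of largest order. Then QA = AQ is a centrally large subgroup of P, C_{QA}(Q ∩ A) = Z(Q)·A, and the subgroup generated by all centrally large subgroups of P contains C_P(Z(J(P))), where J(P) is generated by the abelian subgroups of largest order. -/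
theorem result {p : ℕ} [Fact p.Prime] (P : Type*) [Group P] [Finite P] (hP : IsPGroup p P) (Q A : Subgroup P) (hQ : Cfsg.IsCentrallyLarge Q) (hA : A ∈ Cfsg.maxAbelianSubgroups P) : ((Q ⊔ A : Subgroup P) : Set P) = (Q : Set P) * (A : Set P) ∧ Cfsg.IsCentrallyLarge (Q ⊔ A) ∧ (Q ⊔ A) ⊓ Subgroup.centralizer ((Q ⊓ A : Subgroup P) : Set P) = (Q ⊓ Subgroup.centralizer (Q : Set P)) ⊔ A ∧ (((Q ⊓ Subgroup.centralizer (Q : Set P)) ⊔ A : Subgroup P) : Set P) = ((Q ⊓ Subgroup.centralizer (Q : Set P)) : Set P) * (A : Set P) ∧ Subgroup.centralizer ((Cfsg.thompsonSubgroupA P ⊓ Subgroup.centralizer (Cfsg.thompsonSubgroupA P : Set P) : Subgroup P) : Set P) ≤ Cfsg.centrallyLargeJoin P := by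
  obtain ⟨hCL, hmul, hstar⟩ := cl_sup_maxAb hQ hA
  have hCA := maxAb_centralizer_eq hA
  have hCstar := maxAb_centralizer_eq hstar
  set Z := Q ⊓ Subgroup.centralizer (Q : Set P) with hZ
  -- (a)
  have ha : Z ⊔ A ≤ (Q ⊔ A) ⊓ Subgroup.centralizer ((Q ⊓ A : Subgroup P) : Set P) := by
    apply le_inf
    · exact sup_le (inf_le_left.trans le_sup_left) le_sup_right
    · apply sup_le
      · exact inf_le_right.trans (centralizer_anti inf_le_left)
      · calc A = Subgroup.centralizer (A : Set P) := hCA.symm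
          _ ≤ _ := centralizer_anti inf_le_right
  -- (b)
  have hb : (((Q ⊔ A) ⊓ Subgroup.centralizer ((Q ⊓ A : Subgroup P) : Set P) : Subgroup P) : Set P) ⊆
      (Z : Set P) * (A : Set P) := by
    rintro x ⟨hxT, hxC⟩
    have hxT' : x ∈ (Q : Set P) * (A : Set P) := by rw [← hmul]; exact hxT
    obtain ⟨q, hq, a, ha', rfl⟩ := hxT'
    have haC : a ∈ Subgroup.centralizer ((Q ⊓ A : Subgroup P) : Set P) := by
      have : A ≤ Subgroup.centralizer ((Q ⊓ A : Subgroup P) : Set P) := by
        calc A = Subgroup.centralizer (A : Set P) := hCA.symm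
          _ ≤ _ := centralizer_anti inf_le_right
      exact this ha'
    have hqC : q ∈ Subgroup.centralizer ((Q ⊓ A : Subgroup P) : Set P) := by
      have : q = (q * a) * a⁻¹ := by group
      rw [this]
      exact Subgroup.mul_mem _ hxC (Subgroup.inv_mem _ haC)
    have hqZ : q ∈ Subgroup.centralizer (Z : Set P) := by
      have : Q ≤ Subgroup.centralizer (Z : Set P) := by
        rw [Subgroup.le_centralizer_iff]; exact inf_le_right
      exact this hq
    have hqs : q ∈ (Q ⊓ A) ⊔ Z := by
      rw [← hCstar, centralizer_sup]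
      exact ⟨hqC, hqZ⟩
    have hnorm : Q ⊓ A ≤ Subgroup.normalizer (Z : Set P) := by
      refine le_trans ?_ (Subgroup.centralizer_le_normalizer (Z : Set P))
      rw [Subgroup.le_centralizer_iff]
      exact inf_le_right.trans (centralizer_anti inf_le_left)
    have hqs' : q ∈ ((Q ⊓ A : Subgroup P) : Set P) * (Z : Set P) := by
      rw [← Subgroup.coe_mul_of_left_le_normalizer_right _ _ hnorm]; exact hqs
    obtain ⟨b, hb, z, hz, rfl⟩ := hqs'
    have hbz : b * z = z * b := by
      have : z ∈ Subgroup.centralizer (Q : Set P) := hz.2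
      exact (Subgroup.mem_centralizer_iff.mp this) b hb.1
    refine ⟨z, hz, b * a, A.mul_mem hb.2 ha', ?_⟩
    simp only
    rw [hbz]; group
  -- (c)
  have hc : (Z : Set P) * (A : Set P) ⊆ ((Z ⊔ A : Subgroup P) : Set P) := by
    rintro _ ⟨z, hz, a, ha', rfl⟩
    exact Subgroup.mul_mem _ ((le_sup_left : Z ≤ Z ⊔ A) hz) ((le_sup_right : A ≤ Z ⊔ A) ha')
  refine ⟨hmul, hCL, ?_, ?_, ?_⟩
  · apply le_antisymm _ ha
    intro x hx
    exact hc (hb hx)
  · apply Set.Subset.antisymm _ hc
    intro x hx
    exact hb (ha hx)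
  · apply centralizer_ZJ_le cl_join
    apply sSup_le
    intro B hB
    exact maxAb_le_cl_join hB

end Cfsg.Agent.S3006
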