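import Cfsg.Statements.S3009
import Cfsg.Agent.Lib.Helper85.Nat.Main

set_option autoImplicit false
open Cfsg

namespace Cfsg.Agent.S3009

/-- Let p be a prime and let G and V be subgroups of a finite group with V elementary abelian and normalized by G, and G isomorphic to SL₂(F) for a finite field F with pⁿ elements. Suppose G acts irreducibly and nontrivially on V by conjugation (no G-invariant subgroups of V other than 1 and V, and [V, G] ≠ 1), and let S be a Sylow p-subgroup of G and V₀ = C_V(S). If [V, S, S] = 1 or |V| ≤ |V₀|², then G acts on V as SL₂(F) on its natural two-dimensional module; in particular |V| = |F|². -/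
theorem result {X : Type*} [Group X] [Finite X] {p : ℕ} [Fact p.Prime] (G V : Subgroup X) (hV : Cfsg.IsElementaryAbelian p V) (hGV : G ≤ Subgroup.normalizer (V : Set X)) (F : Type) [Field F] [Fintype F] (n : ℕ) (hF : Fintype.card F = p ^ n) (hG : Nonempty (↥G ≃* Matrix.SpecialLinearGroup (Fin 2) F)) (hirr : ∀ U : Subgroup X, U ≤ V → G ≤ Subgroup.normalizer (U : Set X) → U = ⊥ ∨ U = V) (hnt : ⁅V, G⁆ ≠ ⊥) (S : Sylow p ↥G) (hyp : ⁅⁅V, (S : Subgroup ↥G).map G.subtype⁆, (S : Subgroup ↥G).map G.subtype⁆ = ⊥ ∨ Nat.card ↥V ≤ Nat.card ↥(V ⊓ Subgroup.centralizer (((S : Subgroup ↥G).map G.subtype : Subgroup X) : Set X)) ^ 2) : Cfsg.ActsAsSL2OnSection F ⊤ G V ⊥ := by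
  have hch : CharP F p := Cfsg.Agent.Lib.Helper85.NatSL2.charP_of_card F p n hF
  obtain ⟨e₀⟩ := hG
  obtain ⟨g, hg⟩ := Cfsg.Agent.Lib.Helper85.NatSL2.exists_conj_upper p
    (S.mapSurjective (f := e₀.toMonoidHom) e₀.surjective)
  let e : ↥G ≃* Matrix.SpecialLinearGroup (Fin 2) F := e₀.trans (MulAut.conj g)
  have he : ∀ y : ↥G, e y = g * e₀ y * g⁻¹ := fun y => rfl
  have hSe : ∀ y : ↥G, y ∈ S ↔ e y ∈ Cfsg.upperUnipotentSL2 F := by
    intro y
    rw [he, ← hg]
    have hm : ∀ z, z ∈ S.mapSurjective (f := e₀.toMonoidHom) e₀.surjective ↔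
        z ∈ (S : Subgroup ↥G).map e₀.toMonoidHom := by
      intro z
      rw [← Sylow.coe_mapSurjective (f := e₀.toMonoidHom) e₀.surjective S]
      exact Iff.rfl
    rw [hm, Subgroup.mem_map]
    constructor
    · intro h; exact ⟨y, h, rfl⟩
    · rintro ⟨z, hz, hzy⟩
      have : z = y := e₀.injective hzy
      rw [← this]; exact hz
  refine Cfsg.Agent.Lib.Helper85.NatSL2.transport G V hV hGV F e hirr hnt
    ((S : Subgroup ↥G).map G.subtype) ?_ hyp
    (fun M _ _ h1 h2 h3 => Cfsg.Agent.Lib.Helper85.NatSL2.natural_of_quad h1 h2 h3)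
    (fun M _ _ _ h0 h1 h2 h3 => Cfsg.Agent.Lib.Helper85.NatSL2.quad_of_card p h0 h1 h2 h3)
  intro x
  rw [Subgroup.mem_map]
  constructor
  · rintro ⟨y, hy, rfl⟩
    obtain ⟨t, ht⟩ := Cfsg.Agent.Lib.Helper85.SL2.mem_upper_iff.1 ((hSe y).1 hy)
    exact ⟨t, by rw [← ht, MulEquiv.symm_apply_apply]; rfl⟩
  · rintro ⟨t, rfl⟩
    refine ⟨e.symm (Cfsg.Agent.Lib.Helper85.SL2.up t), ?_, rfl⟩
    show _ ∈ S
    rw [hSe, MulEquiv.apply_symm_apply]
    exact Cfsg.Agent.Lib.Helper85.SL2.mem_upper_iff.2 ⟨t, rfl⟩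

end Cfsg.Agent.S3009
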