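import Cfsg.Statements.S3012
-- import your own Cfsg.Agent.* helpers here
import Mathlib

set_option autoImplicit false
open Cfsg

namespace Cfsg.Agent.S3012

/-- Let G be a finite group, V a nontrivial elementary abelian 2-subgroup of G satisfying the Sidki pair condition (every odd-order element inverted by an element of V commutes with a nontrivial element of V), and K a normal subgroup of G with V ∩ K = 1. Then the image of V in G/K satisfies the Sidki pair condition in G/K. -/
theorem result {G : Type*} [Group G] [Finite G] (V K : Subgroup G) [K.Normal] (hV : Cfsg.IsElementaryAbelian 2 V) (hV1 : V ≠ ⊥) (hS : Cfsg.IsSidkiPair V) (hVK : V ⊓ K = ⊥) : Cfsg.IsSidkiPair (V.map (QuotientGroup.mk' K)) := by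
  intro hb vb hvb hodd hinv
  obtain ⟨v, hvV, rfl⟩ := hvb
  obtain ⟨h, rfl⟩ := QuotientGroup.mk'_surjective K hb
  have hv2 : v ^ 2 = 1 := hV.2 v hvV
  have hvinv : v⁻¹ = v := by
    rw [inv_eq_iff_mul_eq_one, ← sq]; exact hv2
  set y : G := h * (v * h⁻¹ * v⁻¹) with hy
  have hyinv : v * y * v⁻¹ = y⁻¹ := by
    rw [hy, hvinv]
    have : v * v = 1 := by rw [← sq]; exact hv2
    simp only [mul_inv_rev, inv_inv, hvinv]
    calc v * (h * (v * h⁻¹ * v)) * v = v * h * v * h⁻¹ * (v * v) := by group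
      _ = v * h * v * h⁻¹ := by rw [this, mul_one]
      _ = v * (h * v) * h⁻¹ := by group
  have hyim : (QuotientGroup.mk' K) y = ((QuotientGroup.mk' K) h) ^ 2 := by
    rw [hy, map_mul, map_mul, map_mul, map_inv, map_inv]
    have h1 : (QuotientGroup.mk' K) v * ((QuotientGroup.mk' K) h)⁻¹ * ((QuotientGroup.mk' K) v)⁻¹ = (QuotientGroup.mk' K) h := by
      have := congrArg (fun z => z⁻¹) hinv
      simp only [mul_inv_rev, inv_inv] at this
      rw [← mul_assoc] at this
      exact this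
    rw [h1, sq]
  obtain ⟨a, m, hm, hN⟩ := Nat.exists_eq_two_pow_mul_odd (orderOf_pos y).ne'
  have hcop : (2 * 2 ^ a).Coprime (orderOf ((QuotientGroup.mk' K) h)) := by
    rw [← pow_succ']
    exact Nat.Coprime.pow_left _ (Nat.coprime_two_left.mpr hodd)
  obtain ⟨k, hk⟩ := exists_pow_eq_self_of_coprime hcop
  set y' : G := (y ^ (2 ^ a)) ^ k with hy'
  have hy'im : (QuotientGroup.mk' K) y' = (QuotientGroup.mk' K) h := by
    rw [hy', map_pow, map_pow, hyim, ← pow_mul ((QuotientGroup.mk' K) h) 2, hk]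
  have hy'm : y' ^ m = 1 := by
    rw [hy', ← pow_mul, ← pow_mul, show 2 ^ a * (k * m) = (2 ^ a * m) * k by ring, ← hN, pow_mul, pow_orderOf_eq_one, one_pow]
  have hy'odd : Odd (orderOf y') := Odd.of_dvd_nat hm (orderOf_dvd_of_pow_eq_one hy'm)
  have hy'inv : v * y' * v⁻¹ = y'⁻¹ := by
    rw [hy', ← pow_mul, ← conj_pow, hyinv, inv_pow]
  obtain ⟨w, hwV, hw1, hwc⟩ := hS y' v hvV hy'odd hy'inv
  refine ⟨(QuotientGroup.mk' K) w, ⟨w, hwV, rfl⟩, ?_, ?_⟩
  · intro hw
    apply hw1
    have : w ∈ V ⊓ K := ⟨hwV, by simpa using hw⟩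
    rw [hVK] at this
    simpa using this
  · rw [← hy'im, ← map_mul, ← map_mul, hwc]

end Cfsg.Agent.S3012
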