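import Cfsg.Statements.S3013
-- import your own Cfsg.Agent.* helpers here
import Mathlib

set_option autoImplicit false
open Cfsg

namespace Cfsg.Agent.S3013

/-- Let G be a finite group and V a nontrivial elementary abelian 2-subgroup of G satisfying the Sidki pair condition. Let v ∈ V and let x be an element of odd order inverted by v, and put C = C_G(v) ∩ C_G(x), the centralizer of the dihedral subgroup generated by v and x. Then C ∩ V is nontrivial and satisfies the Sidki pair condition inside C: every odd-order element of C inverted by an element of C ∩ V commutes with a nontrivial element of C ∩ V. -/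
theorem result {G : Type*} [Group G] [Finite G] (V : Subgroup G) (hV : Cfsg.IsElementaryAbelian 2 V) (hV1 : V ≠ ⊥) (hS : Cfsg.IsSidkiPair V) (v x : G) (hv : v ∈ V) (hx : Odd (orderOf x)) (hinv : v * x * v⁻¹ = x⁻¹) (C : Subgroup G) (hC : C = Subgroup.centralizer ({v} : Set G) ⊓ Subgroup.centralizer ({x} : Set G)) : C ⊓ V ≠ ⊥ ∧ Cfsg.IsSidkiPair ((C ⊓ V).subgroupOf C) := by
  have hVcomm : ∀ a ∈ V, ∀ b ∈ V, a * b = b * a := by
    intro a ha b hb
    have := hV.1.is_comm.comm ⟨a, ha⟩ ⟨b, hb⟩
    exact congrArg Subtype.val this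
  have hmemC : ∀ c : G, c ∈ C ↔ (c * v = v * c ∧ c * x = x * c) := by
    intro c
    rw [hC, Subgroup.mem_inf, Subgroup.mem_centralizer_singleton_iff, Subgroup.mem_centralizer_singleton_iff]
  constructor
  · obtain ⟨w, hwV, hw1, hwc⟩ := hS x v hv hx hinv
    intro hbot
    apply hw1
    have : w ∈ C ⊓ V := ⟨(hmemC w).2 ⟨hVcomm w hwV v hv, hwc⟩, hwV⟩
    rw [hbot] at this
    simpa using this
  · intro h u hu hodd hinvh
    rw [Subgroup.mem_subgroupOf] at hu
    have huV : (u : G) ∈ V := hu.2
    have huC := (hmemC u).1 u.2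
    have hhC := (hmemC h).1 h.2
    have hodd' : Odd (orderOf (h : G)) := by rwa [Subgroup.orderOf_coe]
    have hinvh' : (u : G) * h * (u : G)⁻¹ = (h : G)⁻¹ := by
      have := congrArg Subtype.val hinvh
      simpa using this
    have hcomm : Commute (h : G) x := hhC.2
    have hoddy : Odd (orderOf ((h : G) * x)) :=
      Odd.of_dvd_nat (hodd'.mul hx) hcomm.orderOf_mul_dvd_mul_orderOf
    have hinvy : ((u : G) * v) * ((h : G) * x) * ((u : G) * v)⁻¹ = ((h : G) * x)⁻¹ := by
      have e1 : v * (h : G) * v⁻¹ = h := by rw [← hhC.1]; group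
      have e2 : (u : G) * x * (u : G)⁻¹ = x := by rw [huC.2]; group
      have e3 : (u : G) * x⁻¹ * (u : G)⁻¹ = x⁻¹ := by
        rw [← conj_inv, e2]
      calc ((u : G) * v) * ((h : G) * x) * ((u : G) * v)⁻¹
          = (u : G) * ((v * (h : G) * v⁻¹) * (v * x * v⁻¹)) * (u : G)⁻¹ := by group
        _ = (u : G) * ((h : G) * x⁻¹) * (u : G)⁻¹ := by rw [e1, hinv]
        _ = ((u : G) * h * (u : G)⁻¹) * ((u : G) * x⁻¹ * (u : G)⁻¹) := by group
        _ = (h : G)⁻¹ * x⁻¹ := by rw [hinvh', e3]
        _ = ((h : G) * x)⁻¹ := by rw [hcomm.eq, mul_inv_rev]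
    obtain ⟨w, hwV, hw1, hwc⟩ := hS _ _ (V.mul_mem huV hv) hoddy hinvy
    have hwv : Commute w v := hVcomm w hwV v hv
    have hw1' : Commute w ((h : G) * x) := hwc
    have hw2 : Commute w ((h : G) * x⁻¹) := by
      have e1 : v * (h : G) * v⁻¹ = h := by rw [← hhC.1]; group
      have : v * ((h : G) * x) * v⁻¹ = (h : G) * x⁻¹ := by
        calc v * ((h : G) * x) * v⁻¹ = (v * (h : G) * v⁻¹) * (v * x * v⁻¹) := by group
          _ = _ := by rw [e1, hinv]
      rw [← this]
      exact (hwv.mul_right hw1').mul_right hwv.inv_right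
    have hw3 : Commute w ((h : G) ^ 2) := by
      have : (h : G) ^ 2 = ((h : G) * x) * ((h : G) * x⁻¹) := by
        rw [sq]
        calc (h : G) * h = (h : G) * (x * h) * x⁻¹ := by rw [← hcomm.eq]; group
          _ = _ := by group
      rw [this]
      exact hw1'.mul_right hw2
    have hwh : Commute w (h : G) := by
      obtain ⟨k, hk⟩ := exists_pow_eq_self_of_coprime (Nat.coprime_two_left.mpr hodd')
      rw [← hk]
      exact hw3.pow_right k
    have hwx : Commute w x := by
      have : x = (h : G)⁻¹ * ((h : G) * x) := by group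
      rw [this]
      exact hwh.inv_right.mul_right hw1'
    have hwC : w ∈ C := (hmemC w).2 ⟨hwv, hwx⟩
    refine ⟨⟨w, hwC⟩, ?_, ?_, ?_⟩
    · rw [Subgroup.mem_subgroupOf]; exact ⟨hwC, hwV⟩
    · intro h1; apply hw1; exact congrArg Subtype.val h1
    · apply Subtype.ext; exact hwh

end Cfsg.Agent.S3013
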