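import Cfsg.Statements.S3014
-- import your own Cfsg.Agent.* helpers here
import Mathlib
import Cfsg.Agent.Lib.Helper56.TransferFusion
import Cfsg.Agent.Lib.Helper56.Cent

set_option autoImplicit false
open Cfsg

namespace Cfsg.Agent.S3014

open Cfsg.Agent.Lib.Helper56

theorem isCyclic_quotient_of_isCoatom {M : Type*} [Group M] (H : Subgroup M) [H.Normal]
    (h : IsCoatom H) : IsCyclic (M ⧸ H) := by
  obtain ⟨x, -, hx⟩ := SetLike.exists_of_lt (lt_top_iff_ne_top.mpr h.1)
  have htop : H ⊔ Subgroup.zpowers x = ⊤ := by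
    apply h.2
    apply lt_of_le_of_ne le_sup_left
    intro he
    apply hx
    rw [he]
    exact (le_sup_right : Subgroup.zpowers x ≤ _) (Subgroup.mem_zpowers x)
  refine ⟨⟨QuotientGroup.mk' H x, ?_⟩⟩
  intro y
  have h1 : (H ⊔ Subgroup.zpowers x).map (QuotientGroup.mk' H) = ⊤ := by
    rw [htop, ← MonoidHom.range_eq_map, MonoidHom.range_eq_top]
    exact QuotientGroup.mk'_surjective H
  rw [Subgroup.map_sup, MonoidHom.map_zpowers] at h1
  have h2 : H.map (QuotientGroup.mk' H) = ⊥ := by
    rw [Subgroup.map_eq_bot_iff, QuotientGroup.ker_mk']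
  rw [h2, bot_sup_eq] at h1
  have : y ∈ Subgroup.zpowers ((QuotientGroup.mk' H) x) := by rw [h1]; trivial
  exact this

/-- Let G be a finite group and H ≤ M ≤ G subgroups such that for every g ∈ G the subgroup generated by H and g H g⁻¹ meets M exactly in H. If H is a maximal subgroup of M and M is a maximal subgroup of G, then the normal closure of H in G meets M exactly in H. -/
theorem result {G : Type*} [Group G] [Finite G] (H M : Subgroup G) (hHM : H ≤ M) (hcl : ∀ g : G, (H ⊔ H.map (MulAut.conj g).toMonoidHom) ⊓ M = H) (hmaxH : IsCoatom (H.subgroupOf M)) (hmaxM : IsCoatom M) : Subgroup.normalClosure (H : Set G) ⊓ M = H := by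
  have hMN : M ≤ Subgroup.normalizer (H : Set G) := by
    intro m hm
    apply mem_normalizer_of_map_le
    have h1 : H.map (MulAut.conj m).toMonoidHom ≤ M := by
      rintro _ ⟨x, hx, rfl⟩
      exact M.mul_mem (M.mul_mem hm (hHM hx)) (M.inv_mem hm)
    have h2 := hcl m
    rw [inf_eq_left.mpr (sup_le hHM h1)] at h2
    exact le_sup_right.trans h2.le
  apply le_antisymm _ (le_inf Subgroup.le_normalClosure hHM)
  by_cases hN : Subgroup.normalizer (H : Set G) = ⊤
  · have : H.Normal := Subgroup.normalizer_eq_top_iff.mp hN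
    rw [Subgroup.normalClosure_eq_self]
    exact inf_le_left
  have hNM : Subgroup.normalizer (H : Set G) = M := by
    by_contra hne
    exact hN (hmaxM.2 _ (lt_of_le_of_ne hMN (Ne.symm hne)))
  have hnot : ∀ g : G, g ∉ M → ¬ H.map (MulAut.conj g).toMonoidHom ≤ M := by
    intro g hg hle
    apply hg
    rw [← hNM]
    apply mem_normalizer_of_map_le
    have h2 := hcl g
    rw [inf_eq_left.mpr (sup_le hHM hle)] at h2
    exact le_sup_right.trans h2.le
  by_cases hA : ∃ g : G, g ∉ M ∧ ¬ (M ⊓ M.map (MulAut.conj g).toMonoidHom ≤ H)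
  · obtain ⟨g, hg, hnle⟩ := hA
    obtain ⟨d, ⟨hdM, hdMg⟩, hdH⟩ := SetLike.not_le_iff_exists.mp hnle
    set K := H ⊔ H.map (MulAut.conj g).toMonoidHom with hK
    have hd1 : d ∈ Subgroup.normalizer (H : Set G) := hMN hdM
    have hd2 : d ∈ Subgroup.normalizer ((H.map (MulAut.conj g).toMonoidHom : Subgroup G) : Set G) := by
      have : M.map (MulAut.conj g).toMonoidHom ≤
          Subgroup.normalizer ((H.map (MulAut.conj g).toMonoidHom : Subgroup G) : Set G) := by
        calc M.map (MulAut.conj g).toMonoidHom ≤ (Subgroup.normalizer (H : Set G)).map (MulAut.conj g).toMonoidHom :=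
              Subgroup.map_mono hMN
          _ ≤ _ := Subgroup.le_normalizer_map _
      exact this hdMg
    have hdK : d ∈ Subgroup.normalizer (K : Set G) := by
      rw [Subgroup.mem_normalizer_iff_map_conj_eq, hK]
      have e1 := Subgroup.mem_normalizer_iff_map_conj_eq.mp hd1
      have e2 := Subgroup.mem_normalizer_iff_map_conj_eq.mp hd2
      rw [Subgroup.map_sup, e1, e2]
    have hHd : H ⊔ Subgroup.zpowers d = M := by
      have hle : H ⊔ Subgroup.zpowers d ≤ M := sup_le hHM (Subgroup.zpowers_le.mpr hdM)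
      have h1 : (H ⊔ Subgroup.zpowers d).subgroupOf M = ⊤ := by
        apply hmaxH.2
        apply lt_of_le_of_ne (Subgroup.comap_mono le_sup_left)
        intro (he : H.subgroupOf M = (H ⊔ Subgroup.zpowers d).subgroupOf M)
        apply hdH
        have : (⟨d, hdM⟩ : M) ∈ (H ⊔ Subgroup.zpowers d).subgroupOf M := by
          rw [Subgroup.mem_subgroupOf]
          exact (le_sup_right : Subgroup.zpowers d ≤ _) (Subgroup.mem_zpowers d)
        rw [← he, Subgroup.mem_subgroupOf] at this
        exact this
      rw [Subgroup.subgroupOf_eq_top] at h1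
      exact le_antisymm hle h1
    have hMK : M ≤ Subgroup.normalizer (K : Set G) := by
      rw [← hHd]
      exact sup_le (le_sup_left.trans Subgroup.le_normalizer) (Subgroup.zpowers_le.mpr hdK)
    have htop : Subgroup.normalizer (K : Set G) = ⊤ := by
      apply hmaxM.2
      apply lt_of_le_of_ne hMK
      intro he
      apply hnot g hg
      rw [he]
      exact le_sup_right.trans Subgroup.le_normalizer
    have hKn : K.Normal := Subgroup.normalizer_eq_top_iff.mp htop
    have : Subgroup.normalClosure (H : Set G) ≤ K := Subgroup.normalClosure_le_normal (SetLike.coe_subset_coe.mpr le_sup_left)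
    calc Subgroup.normalClosure (H : Set G) ⊓ M ≤ K ⊓ M := inf_le_inf_right _ this
      _ = H := hcl g
  · push Not at hA
    haveI hn : (H.subgroupOf M).Normal := (Subgroup.normal_subgroupOf_iff_le_normalizer hHM).mpr hMN
    haveI := isCyclic_quotient_of_isCoatom (H.subgroupOf M) hmaxH
    letI : CommGroup (M ⧸ H.subgroupOf M) := IsCyclic.commGroup
    obtain ⟨N, hNn, hNM', -⟩ := exists_normal_of_fusion M (QuotientGroup.mk' (H.subgroupOf M)) (by
      intro g hg y hy h
      have hg' : g⁻¹ ∉ M := fun h' => hg (by simpa using M.inv_mem h')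
      have h1 : g⁻¹ * y * g ∈ M ⊓ M.map (MulAut.conj g⁻¹).toMonoidHom :=
        ⟨h, ⟨y, hy, by simp⟩⟩
      have h2 := hA g⁻¹ hg' h1
      rw [← MonoidHom.mem_ker, QuotientGroup.ker_mk', Subgroup.mem_subgroupOf]
      exact h2)
    rw [QuotientGroup.ker_mk'] at hNM'
    have hHN : H ≤ N := by
      intro x hx
      have : (⟨x, hHM hx⟩ : M) ∈ N.subgroupOf M := by
        rw [hNM', Subgroup.mem_subgroupOf]; exact hx
      rw [Subgroup.mem_subgroupOf] at this
      exact this
    have hcl' : Subgroup.normalClosure (H : Set G) ≤ N := Subgroup.normalClosure_le_normal hHN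
    rintro x ⟨hx1, hx2⟩
    have : (⟨x, hx2⟩ : M) ∈ N.subgroupOf M := by
      rw [Subgroup.mem_subgroupOf]; exact hcl' hx1
    rw [hNM', Subgroup.mem_subgroupOf] at this
    exact this

end Cfsg.Agent.S3014
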