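import Cfsg.Statements.S3015
-- import your own Cfsg.Agent.* helpers here
import Mathlib
import Cfsg.Agent.Lib.Helper56.TransferFusion
import Cfsg.Agent.Lib.Helper56.Cent

set_option autoImplicit false
open Cfsg

namespace Cfsg.Agent.S3015

open Cfsg.Agent.Lib.Helper56

theorem eq_or_eq_of_prime_relIndex {G : Type*} [Group G] {H M L : Subgroup G}
    (hp : (H.relIndex M).Prime) (h1 : H ≤ L) (h2 : L ≤ M) : L = H ∨ L = M := by
  have h := Subgroup.relIndex_mul_relIndex H L M h1 h2
  have hd : H.relIndex L ∣ H.relIndex M := ⟨_, h.symm⟩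
  rcases (Nat.dvd_prime hp).mp hd with h3 | h3
  · left
    exact le_antisymm (Subgroup.relIndex_eq_one.mp h3) h1
  · right
    rw [h3] at h
    have h4 : L.relIndex M = 1 := by
      have hpos : 0 < H.relIndex M := hp.pos
      exact Nat.eq_of_mul_eq_mul_left hpos (by rw [h, mul_one])
    exact le_antisymm h2 (Subgroup.relIndex_eq_one.mp h4)

theorem normal_of_normalizer_gt {G : Type*} [Group G] {M X K : Subgroup G} (hM : IsCoatom M)
    (h1 : M ≤ Subgroup.normalizer (X : Set G)) (h2 : K ≤ Subgroup.normalizer (X : Set G))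
    (h3 : ¬ K ≤ M) : X.Normal := by
  rw [← Subgroup.normalizer_eq_top_iff]
  apply hM.2
  apply lt_of_le_of_ne h1
  intro he
  apply h3
  rw [he]; exact h2

theorem sup_le_normalizer_sup {G : Type*} [Group G] {A B L : Subgroup G}
    (hA : L ≤ Subgroup.normalizer (A : Set G)) (hB : L ≤ Subgroup.normalizer (B : Set G)) :
    L ≤ Subgroup.normalizer ((A ⊔ B : Subgroup G) : Set G) := by
  intro d hd
  rw [Subgroup.mem_normalizer_iff_map_conj_eq]
  have e1 := Subgroup.mem_normalizer_iff_map_conj_eq.mp (hA hd)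
  have e2 := Subgroup.mem_normalizer_iff_map_conj_eq.mp (hB hd)
  rw [Subgroup.map_sup, e1, e2]

/-- Let G be a finite non-abelian simple group, M a maximal subgroup of G and H a normal subgroup of M of prime index in M. Then G is generated by H together with one of its conjugates. -/
theorem result {G : Type*} [Group G] [Finite G] [IsSimpleGroup G] (hG : ¬ IsMulCommutative G) (M H : Subgroup G) (hmaxM : IsCoatom M) (hHM : H ≤ M) (hHn : (H.subgroupOf M).Normal) (hidx : (H.relIndex M).Prime) : ∃ g : G, H ⊔ H.map (MulAut.conj g).toMonoidHom = ⊤ := by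
  classical
  have hMN : M ≤ Subgroup.normalizer (H : Set G) :=
    (Subgroup.normal_subgroupOf_iff_le_normalizer hHM).mp hHn
  have hHneM : H ≠ M := by
    intro h
    rw [h, Subgroup.relIndex_self] at hidx
    exact Nat.not_prime_one hidx
  have hMbot : M ≠ ⊥ := by
    intro h
    apply hHneM
    rw [h] at hHM ⊢
    exact le_bot_iff.mp hHM
  have hNM : Subgroup.normalizer (M : Set G) = M := by
    by_contra hne
    have htop := hmaxM.2 _ (lt_of_le_of_ne Subgroup.le_normalizer (Ne.symm hne))
    have hn : M.Normal := Subgroup.normalizer_eq_top_iff.mp htop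
    rcases hn.eq_bot_or_eq_top with h | h
    · exact hMbot h
    · exact hmaxM.1 h
  -- conjugates
  have hidxc : ∀ c : G, ((H.map (MulAut.conj c).toMonoidHom).relIndex (M.map (MulAut.conj c).toMonoidHom)).Prime := by
    intro c
    rw [Subgroup.relIndex_map_map_of_injective _ _ (MulAut.conj c).injective]
    exact hidx
  have hMNc : ∀ c : G, M.map (MulAut.conj c).toMonoidHom ≤
      Subgroup.normalizer ((H.map (MulAut.conj c).toMonoidHom : Subgroup G) : Set G) := by
    intro c
    exact (Subgroup.map_mono hMN).trans (Subgroup.le_normalizer_map _)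
  have hMc : ∀ c : G, c ∉ M → M.map (MulAut.conj c).toMonoidHom ≠ M := by
    intro c hc h
    apply hc
    rw [← hNM, Subgroup.mem_normalizer_iff_map_conj_eq]
    exact h
  -- the fusion element from the transfer
  have hfus : ∃ g : G, g ∉ M ∧ ∃ y ∈ M, g⁻¹ * y * g ∈ M ∧ g⁻¹ * y * g ∉ H := by
    by_contra hcon
    push Not at hcon
    haveI : Fact (Nat.card (M ⧸ H.subgroupOf M)).Prime := ⟨hidx⟩
    haveI : IsCyclic (M ⧸ H.subgroupOf M) := isCyclic_of_prime_card rfl
    letI : CommGroup (M ⧸ H.subgroupOf M) := IsCyclic.commGroup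
    obtain ⟨N, hNn, hNM', hcomm⟩ := exists_normal_of_fusion M (QuotientGroup.mk' (H.subgroupOf M)) (by
      intro g hg y hy h
      rw [← MonoidHom.mem_ker, QuotientGroup.ker_mk', Subgroup.mem_subgroupOf]
      exact hcon g hg y hy h)
    rw [QuotientGroup.ker_mk'] at hNM'
    rcases hNn.eq_bot_or_eq_top with h | h
    · apply hG
      rw [h, le_bot_iff, commutator_eq_bot_iff_center_eq_top] at hcomm
      exact ⟨⟨fun a b => by
        have : a ∈ Subgroup.center G := by rw [hcomm]; trivial
        exact (Subgroup.mem_center_iff.mp this b).symm⟩⟩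
    · rw [h] at hNM'
      apply hHneM
      apply le_antisymm hHM
      rw [← Subgroup.subgroupOf_eq_top, ← hNM']
      simp
  obtain ⟨g, hg, y, hy, hdM, hdH⟩ := hfus
  set d := g⁻¹ * y * g with hd
  have hg' : g⁻¹ ∉ M := fun h' => hg (by simpa using M.inv_mem h')
  set H₁ := H.map (MulAut.conj g⁻¹).toMonoidHom with hH₁
  set M₁ := M.map (MulAut.conj g⁻¹).toMonoidHom with hM₁
  have hdM₁ : d ∈ M₁ := ⟨y, hy, by simp [hd]⟩
  have hH₁M₁ : H₁ ≤ M₁ := Subgroup.map_mono hHM
  have hHd : H ⊔ Subgroup.zpowers d = M := by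
    rcases eq_or_eq_of_prime_relIndex hidx (le_sup_left : H ≤ H ⊔ Subgroup.zpowers d)
      (sup_le hHM (Subgroup.zpowers_le.mpr hdM)) with h | h
    · exfalso
      apply hdH
      rw [← h]
      exact (le_sup_right : Subgroup.zpowers d ≤ _) (Subgroup.mem_zpowers d)
    · exact h
  by_cases hcase : H₁ ≤ M
  · -- bad pair
    have hM₁M : M₁ ≠ M := hMc g⁻¹ hg'
    have hinf : M ⊓ M₁ = H₁ := by
      rcases eq_or_eq_of_prime_relIndex (hidxc g⁻¹) (le_inf hcase hH₁M₁ : H₁ ≤ M ⊓ M₁) inf_le_right with h | h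
      · exact h
      · exfalso
        apply hM₁M
        have hle : M₁ ≤ M := by
          have : M ⊓ M₁ = M₁ := h
          exact inf_eq_right.mp this
        exact Subgroup.eq_of_le_of_card_ge hle (card_map_conj M g⁻¹).ge
    have hdH₁ : d ∈ H₁ := by rw [← hinf]; exact ⟨hdM, hdM₁⟩
    have hH₁H : ¬ H₁ ≤ H := fun h => hdH (h hdH₁)
    have hsup : H ⊔ H₁ = M := by
      rcases eq_or_eq_of_prime_relIndex hidx (le_sup_left : H ≤ H ⊔ H₁) (sup_le hHM hcase) with h | h
      · exfalso
        apply hH₁H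
        rw [← h]; exact le_sup_right
      · exact h
    have hne : H₁ ≠ M₁ := by
      intro h
      have := hidxc g⁻¹
      rw [← hH₁, ← hM₁, h, Subgroup.relIndex_self] at this
      exact Nat.not_prime_one this
    obtain ⟨m', hm'M₁, hm'H₁⟩ := SetLike.exists_of_lt (lt_of_le_of_ne hH₁M₁ hne)
    have hm'M : m' ∉ M := by
      intro h
      apply hm'H₁
      rw [← hinf]; exact ⟨h, hm'M₁⟩
    refine ⟨m', ?_⟩
    set H₂ := H.map (MulAut.conj m').toMonoidHom with hH₂
    set M₂ := M.map (MulAut.conj m').toMonoidHom with hM₂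
    have hH₁fix : H₁.map (MulAut.conj m').toMonoidHom = H₁ :=
      map_conj_eq_of_mem_normalizer (hMNc g⁻¹ hm'M₁)
    have hH₁M₂ : H₁ ≤ M₂ := by
      rw [← hH₁fix]; exact Subgroup.map_mono hcase
    have hn1 : H₁ ≤ Subgroup.normalizer ((H ⊔ H₂ : Subgroup G) : Set G) :=
      sup_le_normalizer_sup (hcase.trans hMN) (hH₁M₂.trans (hMNc m'))
    have hn2 : M ≤ Subgroup.normalizer ((H ⊔ H₂ : Subgroup G) : Set G) := by
      rw [← hsup]
      exact sup_le (le_sup_left.trans Subgroup.le_normalizer) hn1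
    have hsup2 : H₂ ⊔ H₁ = M₂ := by
      rw [hM₂, ← hsup, Subgroup.map_sup, hH₁fix]
    have hn3 : M₂ ≤ Subgroup.normalizer ((H ⊔ H₂ : Subgroup G) : Set G) := by
      rw [← hsup2]
      exact sup_le (le_sup_right.trans Subgroup.le_normalizer) hn1
    have hM₂M : ¬ M₂ ≤ M := by
      intro hle
      exact hMc m' hm'M (Subgroup.eq_of_le_of_card_ge hle (card_map_conj M m').ge)
    have hXn := normal_of_normalizer_gt hmaxM hn2 hn3 hM₂M
    rcases hXn.eq_bot_or_eq_top with h | h
    · exfalso
      apply hH₁H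
      have hHbot : H = ⊥ := by
        rw [eq_bot_iff, ← h]; exact le_sup_left
      rw [hH₁, hHbot, Subgroup.map_bot]
    · exact h
  · refine ⟨g⁻¹, ?_⟩
    have hn1 : Subgroup.zpowers d ≤ Subgroup.normalizer ((H ⊔ H₁ : Subgroup G) : Set G) :=
      sup_le_normalizer_sup (Subgroup.zpowers_le.mpr (hMN hdM)) (Subgroup.zpowers_le.mpr (hMNc g⁻¹ hdM₁))
    have hn2 : M ≤ Subgroup.normalizer ((H ⊔ H₁ : Subgroup G) : Set G) := by
      rw [← hHd]
      exact sup_le (le_sup_left.trans Subgroup.le_normalizer) hn1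
    have hXn := normal_of_normalizer_gt hmaxM hn2 (le_sup_right.trans Subgroup.le_normalizer) hcase
    rcases hXn.eq_bot_or_eq_top with h | h
    · exfalso
      apply hcase
      have : H₁ = ⊥ := by
        rw [eq_bot_iff, ← h]; exact le_sup_right
      rw [this]; exact bot_le
    · exact h

end Cfsg.Agent.S3015
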