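import Cfsg.Statements.S3020
-- import your own Cfsg.Agent.* helpers here
import Mathlib
import Cfsg.Agent.Lib.Helper56.Cores

set_option autoImplicit false
open Cfsg

namespace Cfsg.Agent.S3020

open Cfsg.Agent.Lib.Helper56

theorem not_dvd_index_of_normalizer_le {G : Type*} [Group G] [Finite G] {p : ℕ} [Fact p.Prime]
    (H : Subgroup G) (hH : IsPGroup p H) (hN : Subgroup.normalizer (H : Set G) ≤ H) :
    ¬ p ∣ H.index := by
  obtain ⟨n, hn⟩ := hH.exists_card_eq
  have h1 := Sylow.card_quotient_normalizer_modEq_card_quotient hn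
  have h2 : Nat.card (Subgroup.normalizer (H : Set G) ⧸
      Subgroup.comap ((Subgroup.normalizer (H : Set G)).subtype) H) = 1 := by
    have : Subgroup.comap ((Subgroup.normalizer (H : Set G)).subtype) H = ⊤ := by
      rw [eq_top_iff]
      intro x _
      exact hN x.2
    rw [this]
    exact Subgroup.index_top
  rw [h2] at h1
  intro hdvd
  have h3 : Nat.card (G ⧸ H) ≡ 0 [MOD p] := (Nat.modEq_zero_iff_dvd).mpr hdvd
  have h4 := h1.trans h3
  have h5 : p ∣ 1 := (Nat.modEq_zero_iff_dvd).mp h4
  exact (Fact.out : p.Prime).one_lt.ne' (Nat.dvd_one.mp h5)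

/-- Let G be a finite group, p a prime and H an abelian p-subgroup of G that is extremely closed (for every g, the subgroup generated by H and g H g⁻¹ meets N_G(H) exactly in H). Then for every g ∈ G, the subgroup T generated by H and g H g⁻¹ is the product of H with O_{p'}(T), and H meets O_{p'}(T) trivially; that is, O_{p'}(T) is a normal p-complement of H in T. -/
theorem result {G : Type*} [Group G] [Finite G] {p : ℕ} [Fact p.Prime] (H : Subgroup G) (hHp : IsPGroup p H) (hHab : IsMulCommutative H) (hcl : Cfsg.IsExtremelyClosed H) (g : G) (T : Subgroup G) (hT : T = H ⊔ H.map (MulAut.conj g).toMonoidHom) : H ⊔ (Cfsg.pPrimeCore p ↥T).map T.subtype = T ∧ H ⊓ (Cfsg.pPrimeCore p ↥T).map T.subtype = ⊥ := by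
  have hHT : H ≤ T := by rw [hT]; exact le_sup_left
  have hTN : T ⊓ Subgroup.normalizer (H : Set G) = H := by rw [hT]; exact hcl g
  have hN' : Subgroup.normalizer ((H.subgroupOf T : Subgroup T) : Set T) = H.subgroupOf T := by
    rw [← Subgroup.subgroupOf_normalizer_eq hHT]
    ext x
    rw [Subgroup.mem_subgroupOf, Subgroup.mem_subgroupOf]
    constructor
    · intro hx
      rw [← hTN]; exact ⟨x.2, hx⟩
    · intro hx
      exact Subgroup.le_normalizer hx
  have hp' : IsPGroup p (H.subgroupOf T) := hHp.comap_subtype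
  have hidx := not_dvd_index_of_normalizer_le (H.subgroupOf T) hp' hN'.le
  let P : Sylow p T := hp'.toSylow hidx
  have hPcoe : (P : Subgroup T) = H.subgroupOf T := rfl
  have hcomm : ∀ a ∈ H, ∀ b ∈ H, a * b = b * a := by
    intro a ha b hb
    exact congrArg Subtype.val (hHab.is_comm.comm ⟨a, ha⟩ ⟨b, hb⟩)
  have hNC : Subgroup.normalizer ((P : Subgroup T) : Set T) ≤ Subgroup.centralizer ((P : Subgroup T) : Set T) := by
    rw [hPcoe, hN']
    intro x hx
    rw [Subgroup.mem_centralizer_iff]
    intro y hy
    apply Subtype.ext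
    exact hcomm _ hy _ hx
  have hcompl := MonoidHom.ker_transferSylow_isComplement' P hNC
  have hnd := MonoidHom.not_dvd_card_ker_transferSylow P hNC
  set K := (MonoidHom.transferSylow P hNC).ker with hK
  have hKle : K ≤ Cfsg.pPrimeCore p T :=
    le_pPrimeCore K ((Nat.Prime.coprime_iff_not_dvd Fact.out).mpr hnd).symm
  have hmapH : (H.subgroupOf T).map T.subtype = H := by
    rw [Subgroup.subgroupOf_map_subtype, inf_eq_left.mpr hHT]
  constructor
  · apply le_antisymm
    · apply sup_le hHT
      exact Subgroup.map_subtype_le _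
    · have h1 : K ⊔ (P : Subgroup T) = ⊤ := hcompl.sup_eq_top
      have h2 : (K ⊔ (P : Subgroup T)).map T.subtype = T := by
        rw [h1, ← MonoidHom.range_eq_map, Subgroup.range_subtype]
      rw [Subgroup.map_sup, hPcoe, hmapH] at h2
      calc T = K.map T.subtype ⊔ H := h2.symm
        _ ≤ (Cfsg.pPrimeCore p T).map T.subtype ⊔ H := sup_le_sup_right (Subgroup.map_mono hKle) _
        _ = _ := sup_comm _ _
  · apply inf_eq_bot_of_isPGroup_of_coprime _ _ hHp
    rw [Subgroup.card_map_of_injective T.subtype_injective]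
    exact pPrimeCore_coprime p

end Cfsg.Agent.S3020
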