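import Cfsg.Statements.S3021
-- import your own Cfsg.Agent.* helpers here
import Mathlib

set_option autoImplicit false
open Cfsg

namespace Cfsg.Agent.S3021

theorem mem_normalizer_of_map_le {G : Type*} [Group G] [Finite G] (H : Subgroup G) (g : G)
    (h : H.map (MulAut.conj g).toMonoidHom ≤ H) : g ∈ Subgroup.normalizer (H : Set G) := by
  rw [Subgroup.mem_normalizer_iff_map_conj_eq]
  apply Subgroup.eq_of_le_of_card_ge h
  have : Nat.card (H.map (MulAut.conj g).toMonoidHom) = Nat.card H :=
    Subgroup.card_map_of_injective (MulAut.conj g).injective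
  exact this.ge

theorem weak {G : Type*} [Group G] [Finite G] (H : Subgroup G) (hcl : Cfsg.IsExtremelyClosed H) (g : G)
    (h : H.map (MulAut.conj g).toMonoidHom ≤ Subgroup.normalizer (H : Set G)) :
    g ∈ Subgroup.normalizer (H : Set G) := by
  apply mem_normalizer_of_map_le
  have h1 := hcl g
  have h2 : H ⊔ H.map (MulAut.conj g).toMonoidHom ≤ Subgroup.normalizer (H : Set G) :=
    sup_le Subgroup.le_normalizer h
  rw [inf_eq_left.mpr h2] at h1
  exact le_sup_right.trans h1.le

theorem le_norm {G : Type*} [Group G] [Finite G] {p : ℕ} [Fact p.Prime] (H : Subgroup G)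
    (hcl : Cfsg.IsExtremelyClosed H) (Q : Subgroup G) (hQ : IsPGroup p Q) (hHQ : H ≤ Q) :
    Q ≤ Subgroup.normalizer (H : Set G) := by
  haveI : Group.IsNilpotent Q := hQ.isNilpotent
  have hnc : NormalizerCondition Q := normalizerCondition_of_isNilpotent
  rw [← Subgroup.normal_subgroupOf_iff_le_normalizer hHQ, ← Subgroup.normalizer_eq_top_iff]
  by_contra hne
  have hlt := hnc _ (lt_top_iff_ne_top.mpr hne)
  obtain ⟨g, hg, hg'⟩ := SetLike.exists_of_lt hlt
  apply hg'
  rw [← Subgroup.subgroupOf_normalizer_eq hHQ, Subgroup.mem_subgroupOf]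
  apply weak H hcl
  rintro _ ⟨x, hx, rfl⟩
  have hx' : (⟨x, hHQ hx⟩ : Q) ∈ Subgroup.normalizer ((H.subgroupOf Q : Subgroup Q) : Set Q) :=
    Subgroup.le_normalizer (by rw [Subgroup.mem_subgroupOf]; exact hx)
  have := (Subgroup.mem_normalizer_iff.mp hg _).mp hx'
  rw [← Subgroup.subgroupOf_normalizer_eq hHQ, Subgroup.mem_subgroupOf] at this
  simpa using this

/-- Let G be a finite group, p a prime and H a p-subgroup of G that is extremely closed (for every g, the subgroup generated by H and g H g⁻¹ meets N_G(H) exactly in H). Then every p-subgroup Q of G containing H has N_G(Q) ≤ N_G(H); in particular every Sylow p-subgroup P of G containing H normalizes H, and H is strongly closed in P with respect to G. -/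
theorem result {G : Type*} [Group G] [Finite G] {p : ℕ} [Fact p.Prime] (H : Subgroup G) (hHp : IsPGroup p H) (hcl : Cfsg.IsExtremelyClosed H) : (∀ Q : Subgroup G, IsPGroup p Q → H ≤ Q → Subgroup.normalizer (Q : Set G) ≤ Subgroup.normalizer (H : Set G)) ∧ ∀ P : Sylow p G, H ≤ (P : Subgroup G) → (P : Subgroup G) ≤ Subgroup.normalizer (H : Set G) ∧ Cfsg.IsStronglyClosed H (P : Subgroup G) := by
  refine ⟨?_, ?_⟩
  · intro Q hQ hHQ g hg
    apply weak H hcl
    rintro _ ⟨x, hx, rfl⟩
    apply le_norm H hcl Q hQ hHQ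
    exact (Subgroup.mem_normalizer_iff.mp hg _).mp (hHQ hx)
  · intro P hHP
    have hPN := le_norm H hcl P P.2 hHP
    refine ⟨hPN, hHP, ?_⟩
    intro x hx g hgx
    have h1 := hcl g
    rw [← h1]
    refine ⟨?_, hPN hgx⟩
    apply (le_sup_right : H.map (MulAut.conj g).toMonoidHom ≤ _)
    exact ⟨x, hx, rfl⟩

end Cfsg.Agent.S3021
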