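import Cfsg.Statements.S3025
-- import your own Cfsg.Agent.* helpers here
import Cfsg.Agent.S0016

set_option autoImplicit false
open Cfsg

namespace Cfsg.Agent.S3025

theorem ker_conjNormal {F : Type*} [Group F] (N : Subgroup F) [N.Normal] :
    (MulAut.conjNormal : F →* MulAut N).ker = Subgroup.centralizer (N : Set F) := by
  ext g
  rw [MonoidHom.mem_ker, Subgroup.mem_centralizer_iff]
  constructor
  · intro h n hn
    have h1 := congrArg (fun a : MulAut N => ((a ⟨n, hn⟩ : N) : F)) h
    simp only [MulAut.conjNormal_apply, MulAut.one_apply] at h1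
    calc n * g = (g * n * g⁻¹) * g := by rw [h1]
      _ = g * n := by group
  · intro h
    ext n
    rw [MulAut.conjNormal_apply, MulAut.one_apply, ← h n n.2]
    group

/-- Let F be a finite group and H a nontrivial subgroup of F that is contained in every nontrivial subgroup of F which H normalizes. Then F has a nontrivial normal subgroup N contained in every nontrivial normal subgroup of F (a unique minimal normal subgroup), N is simple, and one of the following holds: C_F(N) = 1; or H = N has prime order p, C_F(N) is cyclic of order a power of p, and F/C_F(N) is cyclic of order dividing p − 1; or H = N has order 2, N is central in F, and F is a generalized quaternion group. -/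
theorem result {F : Type*} [Group F] [Finite F] (H : Subgroup F) (hH : H ≠ ⊥)
    (hmin : ∀ R : Subgroup F, R ≠ ⊥ → H ≤ Subgroup.normalizer (R : Set F) → H ≤ R) :
    ∃ N : Subgroup F, N.Normal ∧ N ≠ ⊥ ∧ (∀ M : Subgroup F, M.Normal → M ≠ ⊥ → N ≤ M) ∧ IsSimpleGroup ↥N ∧
      (Subgroup.centralizer (N : Set F) = ⊥ ∨
       (H = N ∧ (Nat.card N).Prime ∧ IsCyclic ↥(Subgroup.centralizer (N : Set F)) ∧
          (∃ k : ℕ, 1 ≤ k ∧ Nat.card ↥(Subgroup.centralizer (N : Set F)) = Nat.card N ^ k) ∧
          (∃ g : F, Subgroup.centralizer (N : Set F) ⊔ Subgroup.zpowers g = ⊤) ∧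
          (Subgroup.centralizer (N : Set F)).index ∣ Nat.card N - 1) ∨
       (H = N ∧ Nat.card N = 2 ∧ Subgroup.centralizer (N : Set F) = ⊤ ∧
          ∃ k : ℕ, 1 ≤ k ∧ Nonempty (F ≃* QuaternionGroup (2 ^ k)))) := by
  classical
  -- the unique minimal normal subgroup
  set N : Subgroup F := ⨅ M : {M : Subgroup F // M.Normal ∧ M ≠ ⊥}, (M : Subgroup F) with hN
  have hNn : N.Normal := Subgroup.normal_iInf_normal (fun M => M.2.1)
  have hHle : ∀ M : Subgroup F, M.Normal → M ≠ ⊥ → H ≤ M := by
    intro M hM hM1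
    exact hmin M hM1 (by rw [Subgroup.normalizer_eq_top_iff.mpr hM]; exact le_top)
  have hHN : H ≤ N := le_iInf (fun M => hHle M M.2.1 M.2.2)
  have hN1 : N ≠ ⊥ := by
    intro h
    apply hH
    rw [eq_bot_iff, ← h]; exact hHN
  have hNle : ∀ M : Subgroup F, M.Normal → M ≠ ⊥ → N ≤ M := fun M hM hM1 =>
    iInf_le (fun M : {M : Subgroup F // M.Normal ∧ M ≠ ⊥} => (M : Subgroup F)) ⟨M, hM, hM1⟩
  -- any nontrivial subgroup of `N` normalized by `N` equals `N`
  have hkey : ∀ T : Subgroup F, T ≤ N → T ≠ ⊥ → N ≤ Subgroup.normalizer (T : Set F) → T = N := by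
    intro T hTN hT1 hNT
    apply le_antisymm hTN
    have hHc : H ≤ T.normalCore := by
      intro a ha
      show ∀ b : F, b * a * b⁻¹ ∈ T
      intro b
      -- `H ≤ b⁻¹ T b`
      have hT' : T.map (MulAut.conj b⁻¹).toMonoidHom ≠ ⊥ := by
        intro h
        apply hT1
        exact (Subgroup.map_eq_bot_iff_of_injective T (MulAut.conj b⁻¹).injective).mp h
      have hnorm : H ≤ Subgroup.normalizer ((T.map (MulAut.conj b⁻¹).toMonoidHom : Subgroup F) : Set F) := by
        intro x hx
        have hx' : b * x * b⁻¹ ∈ N := hNn.conj_mem x (hHN hx) b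
        have h2 := hNT hx'
        rw [Subgroup.mem_normalizer_iff_map_conj_eq] at h2 ⊢
        rw [Subgroup.map_map]
        conv_rhs => rw [← h2]
        rw [Subgroup.map_map]
        congr 1
        ext y
        simp [mul_assoc]
      obtain ⟨t, ht, hta⟩ := hmin _ hT' hnorm ha
      have : b * a * b⁻¹ = t := by
        rw [← hta]; simp [mul_assoc]
      rw [this]; exact ht
    have hc1 : T.normalCore ≠ ⊥ := by
      intro h
      apply hH
      rw [eq_bot_iff, ← h]; exact hHc
    exact (hNle _ inferInstance hc1).trans (Subgroup.normalCore_le T)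
  have hsimple : IsSimpleGroup ↥N := by
    have : Nontrivial ↥N := (Subgroup.nontrivial_iff_ne_bot N).mpr hN1
    refine ⟨fun T' hT' => ?_⟩
    by_cases h1 : T' = ⊥
    · exact Or.inl h1
    · right
      have hsub : (T'.map N.subtype).subgroupOf N = T' :=
        Subgroup.comap_map_eq_self_of_injective N.subtype_injective T'
      have h2 := hkey (T'.map N.subtype) (Subgroup.map_subtype_le T')
        (by
          intro h
          exact h1 ((Subgroup.map_eq_bot_iff_of_injective T' N.subtype_injective).mp h))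
        (by
          rw [← Subgroup.normal_subgroupOf_iff_le_normalizer (Subgroup.map_subtype_le T'), hsub]
          exact hT')
      rw [← hsub, h2]
      exact Subgroup.subgroupOf_self N
  refine ⟨N, hNn, hN1, hNle, hsimple, ?_⟩
  set C := Subgroup.centralizer (N : Set F) with hC
  have hCn : C.Normal := inferInstance
  by_cases hC1 : C = ⊥
  · exact Or.inl hC1
  right
  have hNC : N ≤ C := hNle C hCn hC1
  -- subgroups of `C` contain `N`
  have hHC : ∀ R : Subgroup F, R ≤ C → R ≠ ⊥ → H ≤ R := by
    intro R hR hR1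
    apply hmin R hR1
    intro x hx
    apply Subgroup.centralizer_le_normalizer
    rw [Subgroup.mem_centralizer_iff]
    intro r hr
    exact (Subgroup.mem_centralizer_iff.mp (hR hr) x (hHN hx)).symm
  have hHeq : H = N :=
    hkey H hHN hH (by
      intro x hx
      apply Subgroup.centralizer_le_normalizer
      rw [Subgroup.mem_centralizer_iff]
      intro r hr
      exact (Subgroup.mem_centralizer_iff.mp (hNC hx) r (hHN hr)))
  have hNR : ∀ R : Subgroup F, R ≤ C → R ≠ ⊥ → N ≤ R := fun R hR hR1 => hHeq ▸ hHC R hR hR1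
  -- `N` has prime order
  obtain ⟨p, hp, hpd⟩ := Nat.exists_prime_and_dvd (n := Nat.card N)
    (by
      intro h
      exact hN1 (Subgroup.card_eq_one.mp h))
  have : Fact p.Prime := ⟨hp⟩
  obtain ⟨x, hx⟩ := exists_prime_orderOf_dvd_card' p hpd
  have hx1 : (x : F) ≠ 1 := by
    intro h
    have : x = 1 := Subtype.ext h
    rw [this, orderOf_one] at hx
    exact hp.one_lt.ne hx
  have hzN : Subgroup.zpowers (x : F) = N := by
    apply le_antisymm (Subgroup.zpowers_le.mpr x.2)
    apply hNR _ ((Subgroup.zpowers_le.mpr x.2).trans hNC)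
    rw [Ne, Subgroup.zpowers_eq_bot]; exact hx1
  have hcN : Nat.card N = p := by
    rw [← hzN, Nat.card_zpowers, Subgroup.orderOf_coe, hx]
  -- `C` is a `p`-group
  have hCcard : ∃ k : ℕ, Nat.card C = p ^ k := by
    refine ⟨_, Nat.eq_prime_pow_of_unique_prime_dvd Nat.card_pos.ne' ?_⟩
    intro q hq hqd
    have : Fact q.Prime := ⟨hq⟩
    obtain ⟨y, hy⟩ := exists_prime_orderOf_dvd_card' q hqd
    have hy1 : (y : F) ≠ 1 := by
      intro h
      have : y = 1 := Subtype.ext h
      rw [this, orderOf_one] at hy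
      exact hq.one_lt.ne hy
    have h1 : N ≤ Subgroup.zpowers (y : F) := by
      apply hNR _ (Subgroup.zpowers_le.mpr y.2)
      rw [Ne, Subgroup.zpowers_eq_bot]; exact hy1
    have h2 := Subgroup.card_dvd_of_le h1
    rw [hcN, Nat.card_zpowers, Subgroup.orderOf_coe, hy] at h2
    exact ((Nat.prime_dvd_prime_iff_eq hp hq).mp h2).symm
  obtain ⟨k, hk⟩ := hCcard
  have hk1 : 1 ≤ k := by
    rcases Nat.eq_zero_or_pos k with rfl | h
    · rw [pow_zero] at hk
      exact absurd (Subgroup.card_eq_one.mp hk) hC1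
    · exact h
  have hCp : IsPGroup p C := IsPGroup.of_card hk
  have huniq : ∀ A B : Subgroup C, Nat.card A = p → Nat.card B = p → A = B := by
    have haux : ∀ A : Subgroup C, Nat.card A = p → A.map C.subtype = N := by
      intro A hA
      symm
      apply Subgroup.eq_of_le_of_card_ge
      · apply hNR _ (Subgroup.map_subtype_le A)
        intro h
        have h1 := (Subgroup.map_eq_bot_iff_of_injective A C.subtype_injective).mp h
        rw [h1, Subgroup.card_bot] at hA
        exact hp.one_lt.ne hA
      · rw [Subgroup.card_map_of_injective C.subtype_injective, hA, hcN]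
    intro A B hA hB
    apply Subgroup.map_injective C.subtype_injective
    rw [haux A hA, haux B hB]
  -- the quotient `F / C`
  have hker : (MulAut.conjNormal : F →* MulAut N).ker = C := ker_conjNormal N
  have hNcyc : IsCyclic N := isCyclic_of_prime_card hcN
  have hidx : C.index ∣ Nat.card N - 1 := by
    rw [← hker, Subgroup.index_ker, hcN, ← Nat.totient_prime hp, ← hcN, ← IsCyclic.card_mulAut N]
    exact Subgroup.card_subgroup_dvd_card _
  have hAutCyc : IsCyclic (MulAut N) := by
    have : Fact (Nat.card N).Prime := ⟨hcN ▸ hp⟩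
    exact isCyclic_of_injective (IsCyclic.mulAutMulEquiv N).toMonoidHom
      (IsCyclic.mulAutMulEquiv N).injective
  have hgen : ∃ g : F, C ⊔ Subgroup.zpowers g = ⊤ := by
    have : IsCyclic (MulAut.conjNormal : F →* MulAut N).range := Subgroup.isCyclic _
    obtain ⟨⟨_, g, rfl⟩, hg⟩ := IsCyclic.exists_generator (α := (MulAut.conjNormal : F →* MulAut N).range)
    refine ⟨g, ?_⟩
    rw [eq_top_iff]
    intro y _
    obtain ⟨n, hn⟩ := Subgroup.mem_zpowers_iff.mp (hg ⟨MulAut.conjNormal y, y, rfl⟩)
    have hn' : (MulAut.conjNormal g : MulAut N) ^ n = MulAut.conjNormal y := by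
      have := congrArg Subtype.val hn
      simpa using this
    have h1 : y * (g ^ n)⁻¹ ∈ C := by
      rw [← hker, MonoidHom.mem_ker, map_mul, map_inv, map_zpow, hn', mul_inv_cancel]
    have h2 : y = (y * (g ^ n)⁻¹) * g ^ n := by group
    rw [h2]
    exact mul_mem ((le_sup_left : C ≤ C ⊔ Subgroup.zpowers g) h1)
      ((le_sup_right : Subgroup.zpowers g ≤ C ⊔ Subgroup.zpowers g)
        (Subgroup.zpow_mem_zpowers g n))
  have hcycCase : IsCyclic C → (H = N ∧ (Nat.card N).Prime ∧ IsCyclic ↥C ∧
          (∃ k : ℕ, 1 ≤ k ∧ Nat.card ↥C = Nat.card N ^ k) ∧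
          (∃ g : F, C ⊔ Subgroup.zpowers g = ⊤) ∧ C.index ∣ Nat.card N - 1) := fun hc =>
    ⟨hHeq, hcN ▸ hp, hc, ⟨k, hk1, by rw [hk, hcN]⟩, hgen, hidx⟩
  rcases Cfsg.Agent.S0016.result p hCp huniq with hc | ⟨hp2, n, ⟨e⟩⟩
  · exact Or.inl (hcycCase hc)
  · rcases Nat.eq_zero_or_pos n with rfl | hn
    · left
      apply hcycCase
      have := QuaternionGroup.quaternionGroup_one_isCyclic
      rw [pow_zero] at e
      exact isCyclic_of_injective e.toMonoidHom e.injective
    · right
      have hCtop : C = ⊤ := by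
        rw [hcN, hp2] at hidx
        exact Subgroup.index_eq_one.mp (Nat.dvd_one.mp hidx)
      refine ⟨hHeq, by rw [hcN, hp2], hCtop, n, hn, ?_⟩
      have e2 : F ≃* C := by
        rw [hCtop]
        exact Subgroup.topEquiv.symm
      exact ⟨e2.trans e⟩

end Cfsg.Agent.S3025
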