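import Cfsg.Statements.S3027
-- import your own Cfsg.Agent.* helpers here
import Mathlib
import Cfsg.Agent.Lib.Helper56.Cent

set_option autoImplicit false
open Cfsg

namespace Cfsg.Agent.S3027

open Cfsg.Agent.Lib.Helper56
open scoped commutatorElement

/-- subgroups of `H`, normalized by `H`, supplementing `D` -/
def supp {G : Type*} [Group G] (D H : Subgroup G) : Set (Subgroup G) :=
  {N | N ≤ H ∧ H ≤ Subgroup.normalizer (N : Set G) ∧ N ⊔ D = ⊤}

theorem sup_eq_top_iff_map {G : Type*} [Group G] (D : Subgroup G) [D.Normal] (N : Subgroup G) :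
    N ⊔ D = ⊤ ↔ N.map (QuotientGroup.mk' D) = ⊤ := by
  constructor
  · intro h
    have h1 : (N ⊔ D).map (QuotientGroup.mk' D) = ⊤ := by
      rw [h, ← MonoidHom.range_eq_map, MonoidHom.range_eq_top]
      exact QuotientGroup.mk'_surjective D
    have h2 : D.map (QuotientGroup.mk' D) = ⊥ := by
      rw [Subgroup.map_eq_bot_iff, QuotientGroup.ker_mk']
    rwa [Subgroup.map_sup, h2, sup_bot_eq] at h1
  · intro h
    have h1 := Subgroup.comap_map_eq (QuotientGroup.mk' D) N
    rw [h, QuotientGroup.ker_mk', Subgroup.comap_top] at h1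
    exact h1.symm

theorem supp_inf {G : Type*} [Group G] (D : Subgroup G) [D.Normal]
    (hperf : ⁅(⊤ : Subgroup G), (⊤ : Subgroup G)⁆ ⊔ D = ⊤) (H N₁ N₂ : Subgroup G)
    (h₁ : N₁ ∈ supp D H) (h₂ : N₂ ∈ supp D H) : N₁ ⊓ N₂ ∈ supp D H := by
  obtain ⟨a1, b1, c1⟩ := h₁
  obtain ⟨a2, b2, c2⟩ := h₂
  refine ⟨inf_le_left.trans a1, ?_, ?_⟩
  · exact (le_inf b1 b2).trans Subgroup.inf_normalizer_le_normalizer_inf
  · have hle : ⁅N₁, N₂⁆ ≤ N₁ ⊓ N₂ := by
      rw [Subgroup.commutator_le]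
      intro g₁ hg₁ g₂ hg₂
      rw [commutatorElement_def]
      constructor
      · have : g₂ * g₁⁻¹ * g₂⁻¹ ∈ N₁ :=
          (Subgroup.mem_normalizer_iff.mp (b1 (a2 hg₂)) _).mp (N₁.inv_mem hg₁)
        have e : g₁ * g₂ * g₁⁻¹ * g₂⁻¹ = g₁ * (g₂ * g₁⁻¹ * g₂⁻¹) := by group
        rw [e]; exact N₁.mul_mem hg₁ this
      · have : g₁ * g₂ * g₁⁻¹ ∈ N₂ :=
          (Subgroup.mem_normalizer_iff.mp (b2 (a1 hg₁)) _).mp hg₂
        exact N₂.mul_mem this (N₂.inv_mem hg₂)
    have hc : ⁅N₁, N₂⁆ ⊔ D = ⊤ := by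
      rw [sup_eq_top_iff_map] at c1 c2 hperf ⊢
      rw [Subgroup.map_commutator, c1, c2]
      rw [Subgroup.map_commutator] at hperf
      have ht : (⊤ : Subgroup G).map (QuotientGroup.mk' D) = ⊤ := by
        rw [← MonoidHom.range_eq_map, MonoidHom.range_eq_top]
        exact QuotientGroup.mk'_surjective D
      rwa [ht] at hperf
    rw [eq_top_iff, ← hc]
    exact sup_le_sup_right hle D

theorem exists_least {G : Type*} [Group G] [Finite G] (D : Subgroup G) [D.Normal]
    (hperf : ⁅(⊤ : Subgroup G), (⊤ : Subgroup G)⁆ ⊔ D = ⊤) (H : Subgroup G) (hH : H ⊔ D = ⊤) :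
    ∃ B, IsLeast (supp D H) B := by
  classical
  obtain ⟨B, hB, hmin⟩ := Set.exists_min_image (supp D H) (fun N => Nat.card N) (Set.toFinite _)
    ⟨H, le_rfl, Subgroup.le_normalizer, hH⟩
  refine ⟨B, hB, ?_⟩
  intro N hN
  have h1 := supp_inf D hperf H B N hB hN
  have h2 := hmin _ h1
  have h3 : B ⊓ N = B := Subgroup.eq_of_le_of_card_ge inf_le_left h2
  exact inf_eq_left.mp h3

theorem least_step {G : Type*} [Group G] [Finite G] (D : Subgroup G) [D.Normal]
    (hperf : ⁅(⊤ : Subgroup G), (⊤ : Subgroup G)⁆ ⊔ D = ⊤) (K H N₀ : Subgroup G)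
    (hN₀ : IsLeast (supp D K) N₀) (hH : H ∈ supp D K) : IsLeast (supp D H) N₀ := by
  obtain ⟨hHK, hKH, hHD⟩ := hH
  obtain ⟨B, hB, hBmin⟩ := exists_least D hperf H hHD
  have hN₀H : N₀ ≤ H := hN₀.2 ⟨hHK, hKH, hHD⟩
  refine ⟨⟨hN₀H, hHK.trans hN₀.1.2.1, hN₀.1.2.2⟩, ?_⟩
  intro N hN
  refine le_trans ?_ (hBmin hN)
  apply hN₀.2
  refine ⟨hB.1.trans hHK, ?_, hB.2.2⟩
  intro k hk
  apply mem_normalizer_of_map_le
  -- the conjugate under k⁻¹ lies in the family
  have hconj : ∀ c ∈ K, B.map (MulAut.conj c).toMonoidHom ∈ supp D H := by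
    intro c hc
    have hHc : H.map (MulAut.conj c).toMonoidHom = H := map_conj_eq_of_mem_normalizer (hKH hc)
    refine ⟨?_, ?_, ?_⟩
    · rw [← hHc]; exact Subgroup.map_mono hB.1
    · calc H = H.map (MulAut.conj c).toMonoidHom := hHc.symm
        _ ≤ (Subgroup.normalizer (B : Set G)).map (MulAut.conj c).toMonoidHom := Subgroup.map_mono hB.2.1
        _ ≤ _ := Subgroup.le_normalizer_map _
    · have hDc : D.map (MulAut.conj c).toMonoidHom = D :=
        map_conj_eq_of_mem_normalizer (by rw [Subgroup.normalizer_eq_top]; trivial)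
      have : (B ⊔ D).map (MulAut.conj c).toMonoidHom = ⊤ := by
        rw [hB.2.2, ← MonoidHom.range_eq_map, MonoidHom.range_eq_top]
        exact (MulAut.conj c).surjective
      rwa [Subgroup.map_sup, hDc] at this
  have h1 := hBmin (hconj k hk)
  have h2 : B = B.map (MulAut.conj k).toMonoidHom :=
    Subgroup.eq_of_le_of_card_ge h1 (card_map_conj B k).le
  exact h2.symm.le

/-- Let G be a finite group and D a normal subgroup of G such that G/D is perfect (that is, G = G′D). Then among the subnormal subgroups B of G with BD = G there is a least one, and it is normal in G. -/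
theorem result {G : Type*} [Group G] [Finite G] (D : Subgroup G) [D.Normal] (hperf : ⁅(⊤ : Subgroup G), (⊤ : Subgroup G)⁆ ⊔ D = ⊤) :
    ∃ B : Subgroup G, B.Normal ∧ B ⊔ D = ⊤ ∧ ∀ B' : Subgroup G, B'.IsSubnormal → B' ⊔ D = ⊤ → B ≤ B' := by
  obtain ⟨B, hB⟩ := exists_least D hperf ⊤ (by simp)
  refine ⟨B, ?_, hB.1.2.2, ?_⟩
  · rw [← Subgroup.normalizer_eq_top_iff, eq_top_iff]; exact hB.1.2.1
  · intro B' hsn
    have key : B' ⊔ D = ⊤ → IsLeast (supp D B') B := by
      induction hsn with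
      | top => intro _; exact hB
      | step H K h_le hSubn hN ih =>
        intro hHD
        have hKD : K ⊔ D = ⊤ := by
          rw [eq_top_iff, ← hHD]; exact sup_le_sup_right h_le D
        exact least_step D hperf K H B (ih hKD)
          ⟨h_le, (Subgroup.normal_subgroupOf_iff_le_normalizer h_le).mp hN, hHD⟩
    intro h
    exact (key h).1.1

end Cfsg.Agent.S3027
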