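import Cfsg.Statements.S3031
-- import your own Cfsg.Agent.* helpers here
import Cfsg.Agent.Lib.Helper56.HSub2
import Cfsg.Agent.Lib.Helper56.Cent
import Cfsg.Agent.S0081
import Cfsg.Agent.Lib.Helper58.NormalComplement

set_option autoImplicit false
open Cfsg

namespace Cfsg.Agent.S3031

open Cfsg.Agent.Lib.Helper56 Cfsg.Agent.Lib.Helper40

/-- The standing hypothesis, in strongly closed form. -/
structure Hyp {G : Type*} [Group G] {p : ℕ} (P : Sylow p G) (d : ℕ) : Prop where
  hd : 1 ≤ d
  hlt : p ^ d < Nat.card (P : Subgroup G)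
  hG : (Nat.card G).Coprime (p - 1)
  hn : ∀ E : Subgroup G, E ≤ (P : Subgroup G) →
    (Nat.card E = p ^ d ∨ (p ^ d = 2 ∧ Nat.card E = 4)) →
    (P : Subgroup G) ≤ Subgroup.normalizer (E : Set G)
  hsc : ∀ E : Subgroup G, E ≤ (P : Subgroup G) →
    (Nat.card E = p ^ d ∨ (p ^ d = 2 ∧ Nat.card E = 4)) →
    ∀ x ∈ E, ∀ g : G, g * x * g⁻¹ ∈ (P : Subgroup G) → g * x * g⁻¹ ∈ E

theorem big_centralizes {G : Type*} [Group G] [Finite G] {p : ℕ} [Fact p.Prime] (P : Sylow p G)
    (d : ℕ) (H : Hyp P d) (D : Subgroup G) (hDP : D ≤ (P : Subgroup G)) (hcard : p ^ d < Nat.card D)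
    (y : G) (hy : y ∈ Subgroup.normalizer (D : Set G)) (hy1 : (orderOf y).Coprime p) :
    y ∈ Subgroup.centralizer (D : Set G) := by
  have hp : p.Prime := Fact.out
  have hord : ∀ g : G, (orderOf g).Coprime (p - 1) := fun g =>
    Nat.Coprime.coprime_dvd_left (orderOf_dvd_natCard g) H.hG
  have hnorm : ∀ E : Subgroup G, E ≤ D → (Nat.card E = p ^ d ∨ (p ^ d = 2 ∧ Nat.card E = 4)) →
      y ∈ Subgroup.normalizer (E : Set G) := by
    intro E hED hc
    apply mem_normalizer_of_map_le
    rintro _ ⟨e, he, rfl⟩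
    exact H.hsc E (hED.trans hDP) hc e he y
      (hDP ((Subgroup.mem_normalizer_iff.mp hy e).mp (hED he)))
  apply mem_centralizer_of_normalizes_card D (P.2.to_le hDP) d H.hd hcard y hy hy1
  · intro E hED hc
    exact hnorm E hED (Or.inl hc)
  · intro D₀ E M hED hMD hD₀ hcD₀ hcE hcM hcEM u hu
    have hEMD : E ⊔ M ≤ D := sup_le hED hMD
    apply conj_mul_inv_mem_of_relIndex_prime D₀ (E ⊔ M)
      ((hEMD.trans hDP).trans (H.hn D₀ ((hD₀.trans hEMD).trans hDP) (Or.inl hcD₀))) _ y _
      (hnorm D₀ (hD₀.trans hEMD) (Or.inl hcD₀)) (hord y) u hu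
    · have h1 := relIndex_mul_card_of_le hD₀
      rw [hcD₀, hcEM, pow_succ, mul_comm] at h1
      exact Nat.eq_of_mul_eq_mul_left (pow_pos hp.pos d) h1
    · have h1 : Subgroup.zpowers y ≤ Subgroup.normalizer (E : Set G) :=
        Subgroup.zpowers_le.mpr (hnorm E hED (Or.inl hcE))
      have h2 : Subgroup.zpowers y ≤ Subgroup.normalizer (M : Set G) :=
        Subgroup.zpowers_le.mpr (hnorm M hMD (Or.inl hcM))
      exact Cfsg.Agent.Lib.Helper2.le_normalizer_sup h1 h2 (Subgroup.mem_zpowers y)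
  · intro Q hQD hQc hc
    apply mem_centralizer_of_isCyclic Q hQc y (hnorm Q hQD hc)
    rcases hc with hc | ⟨h2, hc⟩
    · rw [hc, Nat.totient_prime_pow hp H.hd]
      exact Nat.Coprime.mul_right (Nat.Coprime.pow_right _ hy1) (hord y)
    · have hp2 : p = 2 := by
        have : p ∣ 2 := h2 ▸ dvd_pow_self p (by have := H.hd; omega)
        exact (Nat.prime_dvd_prime_iff_eq hp Nat.prime_two).mp this
      rw [hc, show (4 : ℕ) = 2 ^ 2 by norm_num, Nat.totient_prime_pow Nat.prime_two (by norm_num)]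
      rw [hp2] at hy1
      simpa using hy1

theorem key_step {G : Type*} [Group G] [Finite G] {p : ℕ} [Fact p.Prime] (P : Sylow p G)
    (d : ℕ) (H : Hyp P d) (M : Subgroup G) (hMP : M ≤ (P : Subgroup G))
    (hMn : (P : Subgroup G) ≤ Subgroup.normalizer (M : Set G))
    (hMidx : M.relIndex (P : Subgroup G) = p) (D : Subgroup G) (hDP : D ≤ (P : Subgroup G))
    (htame : ¬ p ∣ ((P : Subgroup G) ⊓ Subgroup.normalizer (D : Set G)).relIndex
      (Subgroup.normalizer (D : Set G)))
    (x : G) (hx : x ∈ Subgroup.normalizer (D : Set G)) (u : G) (hu : u ∈ D) :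
    u⁻¹ * (x⁻¹ * u * x) ∈ M := by
  have hp : p.Prime := Fact.out
  have hord : ∀ g : G, (orderOf g).Coprime (p - 1) := fun g =>
    Nat.Coprime.coprime_dvd_left (orderOf_dvd_natCard g) H.hG
  obtain ⟨n, hn⟩ := P.2.exists_card_eq
  have hdn : d < n := by
    have := H.hlt
    rw [hn] at this
    exact (Nat.pow_lt_pow_iff_right hp.one_lt).mp this
  have hcM : p ^ d ∣ Nat.card M := by
    have h1 := relIndex_mul_card_of_le hMP
    rw [hMidx, hn] at h1
    obtain ⟨m, rfl⟩ : ∃ m, n = m + 1 := ⟨n - 1, by omega⟩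
    rw [pow_succ, mul_comm] at h1
    have h2 : Nat.card M = p ^ m := Nat.eq_of_mul_eq_mul_right hp.pos h1
    rw [h2]
    exact pow_dvd_pow p (by omega)
  have hDp : IsPGroup p D := P.2.to_le hDP
  by_cases hcard : Nat.card D ≤ p ^ d
  · have hinv : ∀ g ∈ Subgroup.normalizer (D : Set G), ∀ v ∈ D ⊓ M, g * v * g⁻¹ ∈ D ⊓ M := by
      intro g hg v hv
      have hgv : g * v * g⁻¹ ∈ D := (Subgroup.mem_normalizer_iff.mp hg v).mp hv.1
      refine ⟨hgv, ?_⟩
      have hzD : Subgroup.zpowers v ≤ D := Subgroup.zpowers_le.mpr hv.1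
      obtain ⟨j, hj⟩ := (hDp.to_le hzD).exists_card_eq
      have hjd : j ≤ d := by
        have h1 := (Subgroup.card_le_of_le hzD).trans hcard
        rw [hj] at h1
        exact (Nat.pow_le_pow_iff_right hp.one_lt).mp h1
      obtain ⟨E, hzE, hEM, hcE⟩ := exists_between_card (Subgroup.zpowers_le.mpr hv.2) hj hjd hcM
      exact hEM (H.hsc E (hEM.trans hMP) (Or.inl hcE) v (hzE (Subgroup.mem_zpowers v)) g (hDP hgv))
    have hx0 : x ∈ Subgroup.normalizer ((D ⊓ M : Subgroup G) : Set G) := by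
      apply mem_normalizer_of_map_le
      rintro _ ⟨v, hv, rfl⟩
      exact hinv x hx v hv
    by_cases hDM : D ≤ M
    · have h1 := hinv x⁻¹ (inv_mem hx) u ⟨hu, hDM hu⟩
      rw [inv_inv] at h1
      exact mul_mem (inv_mem (hDM hu)) h1.2
    · have hidx : (D ⊓ M).relIndex D = p := by
        rw [Subgroup.inf_relIndex_left]
        have h1 : M.relIndex D ≤ p := by
          rw [← hMidx]
          apply Subgroup.relIndex_le_of_le_right hDP
          rw [hMidx]; exact hp.ne_zero
        have h2 : M.relIndex D ≠ 1 := fun h => hDM (Subgroup.relIndex_eq_one.mp h)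
        obtain ⟨k, hk⟩ := hDp.exists_card_eq
        have h3 : M.relIndex D ∣ p ^ k := hk ▸ Subgroup.relIndex_dvd_card M D
        obtain ⟨i, -, hi⟩ := (Nat.dvd_prime_pow hp).mp h3
        rw [hi] at h1 h2 ⊢
        have hi1 : i ≤ 1 := by
          have : p ^ i ≤ p ^ 1 := by simpa using h1
          exact (Nat.pow_le_pow_iff_right hp.one_lt).mp this
        interval_cases i
        · simp at h2
        · simp
      have hnD : D ≤ Subgroup.normalizer ((D ⊓ M : Subgroup G) : Set G) :=
        Cfsg.Agent.Lib.Helper2.le_normalizer_inf Subgroup.le_normalizer (hDP.trans hMn)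
      exact (inv_mul_conj_mem_of_relIndex_prime (D ⊓ M) D hnD hidx x hx hx0 (hord x) u hu).2
  · have hcard' : p ^ d < Nat.card D := not_le.mp hcard
    obtain ⟨c, hc, r, hr, hxcr⟩ := exists_mul_of_relSylow (p := p) (Subgroup.normalizer (D : Set G))
      (Subgroup.centralizer (D : Set G)) ((P : Subgroup G) ⊓ Subgroup.normalizer (D : Set G))
      (Subgroup.centralizer_le_normalizer _) inf_le_right (normalizer_le_normalizer_centralizer D)
      htame (fun y hy hy1 => big_centralizes P d H D hDP hcard' y hy hy1) x⁻¹ (inv_mem hx)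
    have hru : r * u * r⁻¹ ∈ D := (Subgroup.mem_normalizer_iff.mp hr.2 u).mp hu
    have hcomm := Subgroup.mem_centralizer_iff.mp hc _ hru
    have hx' : x = r⁻¹ * c⁻¹ := by
      rw [← inv_inv x, hxcr]; group
    have e1 : x⁻¹ * u * x = r * u * r⁻¹ := by
      rw [hxcr, hx']
      calc c * r * u * (r⁻¹ * c⁻¹) = c * (r * u * r⁻¹) * c⁻¹ := by group
        _ = (r * u * r⁻¹) * c * c⁻¹ := by rw [hcomm]
        _ = r * u * r⁻¹ := by group
    rw [e1]
    have := inv_mul_conj_mem_of_relIndex_prime M (P : Subgroup G) hMn hMidx r⁻¹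
      (Subgroup.le_normalizer (inv_mem hr.1)) (hMn (inv_mem hr.1)) (hord _) u (hDP hu)
    rwa [inv_inv] at this

theorem fusion_mem {G : Type*} [Group G] [Finite G] {p : ℕ} [Fact p.Prime] (P : Sylow p G)
    (d : ℕ) (H : Hyp P d) (M : Subgroup G) (hMP : M ≤ (P : Subgroup G))
    (hMn : (P : Subgroup G) ≤ Subgroup.normalizer (M : Set G))
    (hMidx : M.relIndex (P : Subgroup G) = p) (A : Set G) (g : G)
    (h : Dec (adom P) (AStep P) A g) : ∀ a ∈ A, a⁻¹ * (g⁻¹ * a * g) ∈ M := by
  induction h with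
  | nil A => intro a _; simp
  | @cons A Q x g hs hA _ ih =>
    intro a ha
    have h1 := key_step P d H M hMP hMn hMidx (adom P Q) inf_le_left hs.2.1 x hs.1 a (hA ha)
    have h2 := ih (x⁻¹ * a * x) ⟨a, ha, rfl⟩
    have := mul_mem h1 h2
    convert this using 1
    group

theorem main {G : Type*} [Group G] [Finite G] {p : ℕ} [Fact p.Prime] (P : Sylow p G)
    (d : ℕ) (H : Hyp P d) : Cfsg.HasNormalPComplement p G := by
  have hp : p.Prime := Fact.out
  set N := (P : Subgroup G).transferFocal.ker with hN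
  have hfoc : N ⊓ (P : Subgroup G) = (P : Subgroup G).focalSubgroup :=
    Subgroup.ker_transferFocal_inf_eq_focalSubgroup P
  have hle : N ⊓ (P : Subgroup G) ≤ (frattini P).map (P : Subgroup G).subtype := by
    rw [hfoc]
    intro z hz
    have hzP : z ∈ (P : Subgroup G) := Subgroup.focalSubgroup_le _ hz
    refine ⟨⟨z, hzP⟩, ?_, rfl⟩
    rw [SetLike.mem_coe, Cfsg.Agent.Lib.Helper3.mem_frattini_iff]
    intro M' hM'
    have hM'n : M'.Normal := Cfsg.Agent.Lib.Helper3.coatom_normal P.2 hM'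
    have hidx := Cfsg.Agent.Lib.Helper3.coatom_index P.2 hM'
    set M := M'.map (P : Subgroup G).subtype with hM
    have hMP : M ≤ (P : Subgroup G) := Subgroup.map_subtype_le M'
    have hsub : M.subgroupOf (P : Subgroup G) = M' :=
      Subgroup.comap_map_eq_self_of_injective (P : Subgroup G).subtype_injective M'
    have hMn : (P : Subgroup G) ≤ Subgroup.normalizer (M : Set G) := by
      rw [← Subgroup.normal_subgroupOf_iff_le_normalizer hMP, hsub]
      exact hM'n
    have hMidx : M.relIndex (P : Subgroup G) = p := by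
      rw [Subgroup.relIndex, hsub, hidx]
    have hfM : (P : Subgroup G).focalSubgroup ≤ M := by
      rw [Subgroup.focalSubgroup_def, Subgroup.closure_le]
      rintro w ⟨hw, x, hx, u, rfl⟩
      have hxu : u * x⁻¹ * u⁻¹ ∈ (P : Subgroup G) := by
        have := mul_mem (inv_mem hx) hw
        rw [commutatorElement_def] at this
        convert this using 1
        group
      have hdec := alperin_dec P {x⁻¹} u⁻¹
        (by
          rintro _ rfl
          exact inv_mem hx)
        (by
          rintro _ ⟨_, rfl, rfl⟩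
          show u⁻¹⁻¹ * x⁻¹ * u⁻¹ ∈ (P : Subgroup G)
          rw [inv_inv]
          exact hxu)
      have := fusion_mem P d H M hMP hMn hMidx _ _ hdec x⁻¹ rfl
      rw [SetLike.mem_coe, commutatorElement_def]
      convert this using 1
      group
    have hzM := hfM hz
    rw [← hsub, Subgroup.mem_subgroupOf]
    exact hzM
  have hNc : Cfsg.HasNormalPComplement p N := Cfsg.Agent.S0081.result P N hle
  have hq : IsPGroup p (G ⧸ N) := by
    have e := Subgroup.transferFocal.quotientKerMulEquivQuotientFocalSubroupOf P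
    exact (P.2.to_quotient _).of_equiv e.symm
  obtain ⟨k, hk⟩ := hq.exists_card_eq
  exact Cfsg.Agent.Lib.Helper58.hasNormalPComplement_of_normal_index_pow N k hk hNc

/-- Let G be a finite group, p the smallest prime dividing |G| and P a Sylow p-subgroup. Suppose that P is cyclic, or that P has a subgroup D with 1 < |D| < |P| such that every subgroup E of P of order |D|, and also every subgroup E of P of order 4 when |D| = 2, satisfies g E g⁻¹ ∩ N_G(E) ≤ E for all g ∈ G (E is strongly closed in its normalizer with respect to G). Then G has a normal p-complement. -/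
theorem result {G : Type*} [Group G] [Finite G] {p : ℕ} [Fact p.Prime] (hdiv : p ∣ Nat.card G)
    (hmin : ∀ q : ℕ, q.Prime → q ∣ Nat.card G → p ≤ q) (P : Sylow p G)
    (h : IsCyclic ↥(P : Subgroup G) ∨ ∃ D : Subgroup G, D ≤ (P : Subgroup G) ∧ 1 < Nat.card D ∧ Nat.card D < Nat.card (P : Subgroup G) ∧
      ∀ E : Subgroup G, E ≤ (P : Subgroup G) → (Nat.card E = Nat.card D ∨ (Nat.card D = 2 ∧ Nat.card E = 4)) →
        ∀ g : G, E.map (MulAut.conj g).toMonoidHom ⊓ Subgroup.normalizer (E : Set G) ≤ E) :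
    Cfsg.HasNormalPComplement p G := by
  have hp : p.Prime := Fact.out
  have hmf : (Nat.card G).minFac = p := by
    apply le_antisymm (Nat.minFac_le_of_dvd hp.two_le hdiv)
    apply hmin _ (Nat.minFac_prime _) (Nat.minFac_dvd _)
    intro h1
    rw [h1] at hdiv
    exact hp.one_lt.ne' (Nat.dvd_one.mp hdiv)
  rcases h with hcyc | ⟨D, hDP, hD1, hDlt, hD⟩
  · exact ⟨P, _, inferInstance, IsCyclic.isComplement' hmf hcyc⟩
  · obtain ⟨d, hd⟩ := (P.2.to_le hDP).exists_card_eq
    have hH : ∀ E : Subgroup G, E ≤ (P : Subgroup G) →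
        (Nat.card E = p ^ d ∨ (p ^ d = 2 ∧ Nat.card E = 4)) → IsH E := by
      intro E hE hc
      exact hD E hE (by rwa [hd])
    apply main P d
    refine ⟨?_, hd ▸ hDlt, ?_, ?_, ?_⟩
    · rcases Nat.eq_zero_or_pos d with rfl | h
      · rw [hd] at hD1; simp at hD1
      · exact h
    · rw [Nat.coprime_iff_gcd_eq_one]
      by_contra hne
      obtain ⟨q, hq, hqd⟩ := Nat.exists_prime_and_dvd hne
      have h1 := hmin q hq (hqd.trans (Nat.gcd_dvd_left _ _))
      have h2 := Nat.le_of_dvd (by have := hp.two_le; omega) (hqd.trans (Nat.gcd_dvd_right _ _))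
      have := hp.two_le
      omega
    · intro E hE hc
      exact (hH E hE hc).le_normalizer hE P.2
    · intro E hE hc x hx g hg
      exact (hH E hE hc).conj_mem ((hH E hE hc).le_normalizer hE P.2) hx g hg

end Cfsg.Agent.S3031
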