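import Cfsg.Statements.S3032
-- import your own Cfsg.Agent.* helpers here
import Cfsg.Agent.S3031
import Cfsg.Agent.Lib.Helper76.SuperChain2
import Cfsg.Agent.Lib.Helper67.SylowAux
import Cfsg.Agent.Lib.Helper40.PComp

set_option autoImplicit false
open Cfsg

namespace Cfsg.Agent.S3032

open Subgroup Cfsg.Agent.Lib.Helper56 Cfsg.Agent.Lib.Helper76 Cfsg.Agent.Lib.Helper42

theorem isH_subgroup {G : Type*} [Group G] [Finite G] (E : Subgroup G) (F' : Subgroup E)
    (hF : IsH (F'.map E.subtype)) :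
    ∀ g : E, F'.map (MulAut.conj g).toMonoidHom ⊓ normalizer (F' : Set E) ≤ F' := by
  intro g x hx
  obtain ⟨hx1, hx2⟩ := mem_inf.mp hx
  have h1 : (x : G) ∈ (F'.map E.subtype).map (MulAut.conj (g : G)).toMonoidHom := by
    obtain ⟨e, he, rfl⟩ := hx1
    exact ⟨(e : G), ⟨e, he, rfl⟩, rfl⟩
  have h2 : (x : G) ∈ normalizer ((F'.map E.subtype : Subgroup G) : Set G) := by
    apply mem_normalizer_of_map_le
    rintro _ ⟨_, ⟨w, hw, rfl⟩, rfl⟩
    exact ⟨x * w * x⁻¹, (mem_normalizer_iff.mp hx2 w).mp hw, rfl⟩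
  have h3 := hF (g : G) (mem_inf.mpr ⟨h1, h2⟩)
  exact (mem_map_iff_mem E.subtype_injective).mp h3

/-- The hypothesis of the statement. -/
def Hyp {G : Type*} [Group G] (E : Subgroup G) : Prop :=
  ∀ (p : ℕ), p.Prime → ∀ P : Subgroup G, P ≤ E → IsPGroup p P → ¬ p ∣ P.relIndex E → ¬ IsCyclic ↥P →
    ∃ D : Subgroup G, D ≤ P ∧ 1 < Nat.card D ∧ Nat.card D < Nat.card P ∧
      ∀ F : Subgroup G, F ≤ P → (Nat.card F = Nat.card D ∨ (Nat.card D = 2 ∧ Nat.card F = 4)) → IsH F

theorem step {G : Type*} [Group G] [Finite G] (E : Subgroup G) [hEn : E.Normal] (hE : E ≠ ⊥)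
    (hGE : Cfsg.IsSupersolvable (G ⧸ E)) (h : Hyp E) :
    ∃ (K : Subgroup G) (_ : K.Normal), Nat.card K < Nat.card E ∧ Cfsg.IsSupersolvable (G ⧸ K) ∧
      Hyp K := by
  have hcard1 : Nat.card E ≠ 1 := fun h1 => hE (card_eq_one.mp h1)
  set p := (Nat.card E).minFac with hpdef
  have hp : p.Prime := Nat.minFac_prime hcard1
  have : Fact p.Prime := ⟨hp⟩
  obtain ⟨P'⟩ : Nonempty (Sylow p E) := inferInstance
  set P := (P' : Subgroup E).map E.subtype with hPdef
  have hPE : P ≤ E := map_subtype_le _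
  have hPp : IsPGroup p P := P'.2.map _
  have hsub : P.subgroupOf E = P' := comap_map_eq_self_of_injective E.subtype_injective _
  have hPidx : ¬ p ∣ P.relIndex E := by rw [relIndex, hsub]; exact P'.not_dvd_index
  let eP : (P' : Subgroup E) ≃* P :=
    (P' : Subgroup E).equivMapOfInjective E.subtype E.subtype_injective
  -- Step A
  have hNPC : Cfsg.HasNormalPComplement p E := by
    apply Cfsg.Agent.S3031.result (Nat.minFac_dvd _)
      (fun q hq hqd => Nat.minFac_le_of_dvd hq.two_le hqd) P'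
    by_cases hc : IsCyclic (P' : Subgroup E)
    · exact Or.inl hc
    · right
      have hc' : ¬ IsCyclic P := fun h1 => hc (isCyclic_of_injective eP.toMonoidHom eP.injective)
      obtain ⟨D, hDP, hD1, hD2, hD⟩ := h p hp P hPE hPp hPidx hc'
      have hcardsub : ∀ S : Subgroup G, S ≤ E → Nat.card (S.subgroupOf E) = Nat.card S :=
        fun S hS => Nat.card_congr (subgroupOfEquivOfLe hS).toEquiv
      have hcardP : Nat.card (P' : Subgroup E) = Nat.card P := Nat.card_congr eP.toEquiv
      refine ⟨D.subgroupOf E, ?_, ?_, ?_, ?_⟩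
      · rw [← hsub]; exact comap_mono hDP
      · rw [hcardsub D (hDP.trans hPE)]; exact hD1
      · rw [hcardsub D (hDP.trans hPE), hcardP]; exact hD2
      · intro F' hF' hc
        rw [hcardsub D (hDP.trans hPE)] at hc
        have hFP : F'.map E.subtype ≤ P := map_mono hF'
        have hcF : Nat.card (F'.map E.subtype) = Nat.card F' :=
          card_map_of_injective E.subtype_injective
        exact isH_subgroup E F' (hD _ hFP (by rw [hcF]; exact hc))
  -- Step B
  obtain ⟨K₀, hK₀n, hK₀c, hK₀q, hK₀m⟩ :=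
    Cfsg.Agent.Lib.Helper40.HasNormalPComplement.exists_normal hNPC
  set K := K₀.map E.subtype with hKdef
  have hKE : K ≤ E := map_subtype_le _
  have hKmem : ∀ x : G, x ∈ K ↔ x ∈ E ∧ (orderOf x).Coprime p := by
    intro x
    constructor
    · rintro ⟨y, hy, rfl⟩
      refine ⟨y.2, ?_⟩
      have := (hK₀m y).mp hy
      rwa [← Subgroup.orderOf_coe] at this
    · rintro ⟨hx, ho⟩
      exact ⟨⟨x, hx⟩, (hK₀m _).mpr (by rwa [Subgroup.orderOf_mk]), rfl⟩
  have hKn : K.Normal := by
    constructor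
    intro x hx g
    obtain ⟨hxE, hxo⟩ := (hKmem x).mp hx
    exact (hKmem _).mpr ⟨hEn.conj_mem x hxE g, by
      rw [Cfsg.Agent.Lib.Helper40.orderOf_conj]; exact hxo⟩
  have hKc : (Nat.card K).Coprime p := by
    rw [hKdef, card_map_of_injective E.subtype_injective]; exact hK₀c
  have hEKP := exists_mul_of_relSylow (p := p) E K P hKE hPE
    (by rw [normalizer_eq_top_iff.mpr hKn]; exact le_top) hPidx
    (fun y hy ho => (hKmem y).mpr ⟨hy, ho⟩)
  set π := QuotientGroup.mk' K with hπ
  have hsurj : Function.Surjective π := QuotientGroup.mk'_surjective K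
  have hπK : ∀ k ∈ K, π k = 1 := fun k hk => (QuotientGroup.eq_one_iff k).mpr hk
  have hcardmap : ∀ S : Subgroup G, S ≤ P → Nat.card (S.map π) = Nat.card S := by
    intro S hS
    obtain ⟨k, hk⟩ := (hPp.to_le hS).exists_card_eq
    have hbot : K ⊓ S = ⊥ := (disjoint_of_coprime_natCard (by rw [hk]; exact Nat.Coprime.pow_right k hKc)).eq_bot
    rw [← relIndex_ker, hπ, QuotientGroup.ker_mk', ← inf_relIndex_right, hbot, relIndex_bot_left]
  set Q := E.map π with hQdef
  have hQP : Q = P.map π := by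
    apply le_antisymm
    · rintro _ ⟨x, hx, rfl⟩
      obtain ⟨c, hc, r, hr, rfl⟩ := hEKP x hx
      exact ⟨r, hr, by rw [map_mul, hπK c hc, one_mul]⟩
    · exact map_mono hPE
  have hQn : Q.Normal := hEn.map π hsurj
  have hQp : IsPGroup p Q := hQP ▸ hPp.map π
  have hquot : Cfsg.IsSupersolvable ((G ⧸ K) ⧸ Q) := by
    apply ss_of_surjective (QuotientGroup.map E Q π (le_comap_map π E)) _ hGE
    intro x
    obtain ⟨y, rfl⟩ := QuotientGroup.mk_surjective x
    obtain ⟨g, rfl⟩ := QuotientGroup.mk_surjective y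
    exact ⟨(g : G ⧸ E), rfl⟩
  have hGK : Cfsg.IsSupersolvable (G ⧸ K) := by
    by_cases hc : IsCyclic P
    · have : IsCyclic Q := by
        rw [hQP]
        exact isCyclic_of_surjective (π.subgroupMap P) (π.subgroupMap_surjective P)
      exact ss_of_cyclic_normal Q hquot
    · obtain ⟨D, hDP, hD1, hD2, hD⟩ := h p hp P hPE hPp hPidx hc
      obtain ⟨d, hd⟩ := (hPp.to_le hDP).exists_card_eq
      have hd1 : 1 ≤ d := by
        rcases Nat.eq_zero_or_pos d with rfl | h1
        · rw [hd] at hD1; simp at hD1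
        · exact h1
      have hTH : TH p Q (resid p (G ⧸ K)) := by
        apply TH_of_normal_card Q hQn hQp d hd1
          (by rw [hQP, hcardmap P le_rfl, ← hd]; exact hD2)
        intro Fb hFb hcFb
        set F := Fb.comap π ⊓ P with hFdef
        have hFP : F ≤ P := inf_le_right
        have hFmap : F.map π = Fb := by
          apply le_antisymm
          · rintro _ ⟨x, hx, rfl⟩
            exact (mem_inf.mp hx).1
          · intro xb hxb
            have hxQ := hFb hxb
            rw [hQP] at hxQ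
            obtain ⟨s, hs, rfl⟩ := hxQ
            exact ⟨s, mem_inf.mpr ⟨hxb, hs⟩, rfl⟩
        have hcF : Nat.card F = Nat.card Fb := by rw [← hFmap, hcardmap F hFP]
        have hH : IsH F := hD F hFP (by rw [hcF, hd]; exact hcFb)
        have hPN := hH.le_normalizer hFP hPp
        constructor
        intro xb hxb gb
        obtain ⟨g, rfl⟩ := hsurj gb
        rw [← hFmap] at hxb
        obtain ⟨x, hx, rfl⟩ := hxb
        have hz : g * x * g⁻¹ ∈ E := hEn.conj_mem x (hPE (hFP hx)) g
        have hzp : IsPGroup p (zpowers (g * x * g⁻¹)) := by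
          obtain ⟨j, hj⟩ := (hPp.to_le (zpowers_le.mpr (hFP hx))).exists_card_eq
          apply IsPGroup.of_card (n := j)
          rw [Nat.card_zpowers, Cfsg.Agent.Lib.Helper40.orderOf_conj, ← Nat.card_zpowers, hj]
        obtain ⟨m, hm, hle⟩ := Cfsg.Agent.Lib.Helper67.exists_cj_of_relIndex hPp hPE
          (zpowers_le.mpr hz) hPidx hzp
        obtain ⟨s, hs, hsz⟩ := hle (mem_zpowers _)
        have hsz' : m * s * m⁻¹ = g * x * g⁻¹ := hsz
        obtain ⟨c, hc, r, hr, rfl⟩ := hEKP m hm
        have hs' : r * s * r⁻¹ ∈ P := mul_mem (mul_mem hr hs) (inv_mem hr)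
        have e1 : (c⁻¹ * g) * x * (c⁻¹ * g)⁻¹ = r * s * r⁻¹ := by
          calc (c⁻¹ * g) * x * (c⁻¹ * g)⁻¹ = c⁻¹ * (g * x * g⁻¹) * c := by group
            _ = c⁻¹ * (c * r * s * (c * r)⁻¹) * c := by rw [hsz']
            _ = r * s * r⁻¹ := by group
        have h2 := hH.conj_mem hPN hx (c⁻¹ * g) (e1 ▸ hs')
        rw [← hFmap]
        refine ⟨_, h2, ?_⟩
        simp only [map_mul, map_inv, hπK c hc, inv_one, one_mul]
      exact hTH.isSupersolvable hquot
  refine ⟨K, hKn, ?_, hGK, ?_⟩
  · refine lt_of_le_of_ne (card_le_of_le hKE) ?_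
    intro heq
    have h1 : p ∣ Nat.card K := heq ▸ Nat.minFac_dvd _
    exact (Nat.Prime.coprime_iff_not_dvd hp).mp hKc.symm h1
  · intro r hr Pr hPrK hPrp hPridx hPrc
    apply h r hr Pr (hPrK.trans hKE) hPrp _ hPrc
    rw [← relIndex_mul_relIndex Pr K E hPrK hKE]
    intro hdvd
    rcases (hr.dvd_mul).mp hdvd with h1 | h2
    · exact hPridx h1
    · obtain ⟨n, hn⟩ := hPp.exists_card_eq
      have h3 : K.relIndex E = p ^ n := by
        have := relIndex_ker (K := E) π
        rw [hπ, QuotientGroup.ker_mk'] at this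
        rw [this, ← hπ, ← hQdef, hQP, hcardmap P le_rfl, hn]
      rw [h3] at h2
      have hrp : r = p := (Nat.prime_dvd_prime_iff_eq hr hp).mp (hr.dvd_of_dvd_pow h2)
      subst hrp
      apply hPrc
      obtain ⟨j, hj⟩ := hPrp.exists_card_eq
      have hj0 : j = 0 := by
        by_contra hne
        have h4 : p ∣ Nat.card K := (hj ▸ dvd_pow_self p hne : p ∣ Nat.card Pr).trans
          (card_dvd_of_le hPrK)
        exact (Nat.Prime.coprime_iff_not_dvd hp).mp hKc.symm h4
      rw [hj0, pow_zero] at hj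
      have : Subsingleton Pr := (Nat.card_eq_one_iff_unique.mp hj).1
      exact isCyclic_of_subsingleton

theorem main {G : Type*} [Group G] [Finite G] (n : ℕ) : ∀ (E : Subgroup G) [E.Normal],
    Nat.card E = n → Cfsg.IsSupersolvable (G ⧸ E) → Hyp E → Cfsg.IsSupersolvable G := by
  induction n using Nat.strong_induction_on with
  | _ n ih =>
  intro E _ hn hGE h
  by_cases hE : E = ⊥
  · have : IsCyclic E := by
      have : Subsingleton E := by rw [hE]; infer_instance
      exact isCyclic_of_subsingleton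
    exact ss_of_cyclic_normal E hGE
  · obtain ⟨K, hKn, hlt, hGK, hK⟩ := step E hE hGE h
    exact ih (Nat.card K) (hn ▸ hlt) K rfl hGK hK

/-- Let G be a finite group and E a normal subgroup with G/E supersolvable. Suppose that for every prime p and every non-cyclic Sylow p-subgroup P of E there is a subgroup D of P with 1 < |D| < |P| such that every subgroup F of P of order |D|, and also every subgroup F of P of order 4 when |D| = 2, satisfies g F g⁻¹ ∩ N_G(F) ≤ F for all g ∈ G. Then G is supersolvable. -/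
theorem result {G : Type*} [Group G] [Finite G] (E : Subgroup G) [E.Normal] (hGE : Cfsg.IsSupersolvable (G ⧸ E))
    (h : ∀ (p : ℕ), p.Prime → ∀ P : Subgroup G, P ≤ E → IsPGroup p P → ¬ p ∣ P.relIndex E → ¬ IsCyclic ↥P →
      ∃ D : Subgroup G, D ≤ P ∧ 1 < Nat.card D ∧ Nat.card D < Nat.card P ∧
        ∀ F : Subgroup G, F ≤ P → (Nat.card F = Nat.card D ∨ (Nat.card D = 2 ∧ Nat.card F = 4)) →
          ∀ g : G, F.map (MulAut.conj g).toMonoidHom ⊓ Subgroup.normalizer (F : Set G) ≤ F) :
    Cfsg.IsSupersolvable G := by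
  exact main _ E rfl hGE h

end Cfsg.Agent.S3032
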