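import Cfsg.Statements.S3044
-- import your own Cfsg.Agent.* helpers here
import Cfsg.Agent.Lib.Helper28.Isolated4

set_option autoImplicit false
open Cfsg Cfsg.Agent.Lib.Helper28

namespace Cfsg.Agent.S3044

/-- Let G be a finite group, p a prime, S a Sylow p-subgroup of G and P a p-minimal subgroup of G containing S (S is not normal in P and lies in exactly one maximal subgroup of P). Let L be the subgroup generated by N_G(S) and all p-minimal subgroups of G containing S other than P, and suppose P is isolated: O_p(L) is not contained in O_p(P). Put Y for the normal closure of O^p(P) in G. Then G = YL; P is again isolated in the subgroup YS (the subgroup L₀ generated by N_{YS}(S) and the p-minimal subgroups of YS containing S other than P has O_p(L₀) not contained in O_p(P)); and either Y = O^p(P), or p divides |Y/O_p(Y)|, Y/O_p(Y) is generated by its components (a central product of quasisimple groups), and S permutes these components transitively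 by conjugation. -/
theorem result {G : Type*} [Group G] [Finite G] {p : ℕ} [Fact p.Prime] (S : Sylow p G) (P : Subgroup G) (hSP : (S : Subgroup G) ≤ P) (hPmin : Cfsg.IsPMinimal p ↥P)
    (L Y : Subgroup G)
    (hL : L = Subgroup.normalizer ((S : Subgroup G) : Set G) ⊔ ⨆ P' : {P' : Subgroup G // (S : Subgroup G) ≤ P' ∧ Cfsg.IsPMinimal p ↥P' ∧ P' ≠ P}, (P' : Subgroup G))
    (hiso : ¬ (Cfsg.pCore p ↥L).map L.subtype ≤ (Cfsg.pCore p ↥P).map P.subtype)
    (hY : Y = Subgroup.normalClosure (((Cfsg.pResidual p ↥P).map P.subtype : Subgroup G) : Set G)) :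
    Y ⊔ L = ⊤ ∧
    ¬ (Cfsg.pCore p ↥((Subgroup.normalizer ((S : Subgroup G) : Set G) ⊓ (Y ⊔ (S : Subgroup G))) ⊔
          ⨆ P' : {P' : Subgroup G // (S : Subgroup G) ≤ P' ∧ P' ≤ Y ⊔ (S : Subgroup G) ∧ Cfsg.IsPMinimal p ↥P' ∧ P' ≠ P}, (P' : Subgroup G))).map
        (Subgroup.subtype _) ≤ (Cfsg.pCore p ↥P).map P.subtype ∧
    ((Cfsg.pResidual p ↥P).map P.subtype = Y ∨
     ∃ _ : (Cfsg.pCore p ↥Y).Normal,
       p ∣ Nat.card (↥Y ⧸ Cfsg.pCore p ↥Y) ∧ Cfsg.layer (↥Y ⧸ Cfsg.pCore p ↥Y) = ⊤ ∧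
       ∀ K₁ K₂ : Subgroup (↥Y ⧸ Cfsg.pCore p ↥Y), Cfsg.IsComponent K₁ → Cfsg.IsComponent K₂ →
         ∃ s ∈ (S : Subgroup G), ((K₂.comap (QuotientGroup.mk' (Cfsg.pCore p ↥Y))).map Y.subtype) = (((K₁.comap (QuotientGroup.mk' (Cfsg.pCore p ↥Y))).map Y.subtype)).map (MulAut.conj s).toMonoidHom) := by
  subst hY
  have hD : IsoData p S P L :=
    { hSP := hSP
      hNL := by rw [hL]; exact le_sup_left
      hL := fun P' h1 h2 h3 => by
        rw [hL]
        exact le_sup_of_le_right (le_iSup (fun P' : {P' : Subgroup G // (S : Subgroup G) ≤ P' ∧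
          Cfsg.IsPMinimal p ↥P' ∧ P' ≠ P} => (P' : Subgroup G)) ⟨P', h1, h2, h3⟩)
      hiso := hiso }
  have hOn : (Cfsg.pCore p G).Normal := Cfsg.Agent.Lib.Helper53.pCore_normal p G
  have hH := hD.hat
  unfold Cfsg.pResidualOf at hH
  set Y := Subgroup.normalClosure (((Cfsg.pResidual p ↥P).map P.subtype : Subgroup G) : Set G) with hY
  have hYn : Y.Normal := Subgroup.normalClosure_normal
  refine ⟨hD.sup_eq_top, ?_, ?_⟩
  · set L₀ := (Subgroup.normalizer ((S : Subgroup G) : Set G) ⊓ (Y ⊔ (S : Subgroup G))) ⊔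
          ⨆ P' : {P' : Subgroup G // (S : Subgroup G) ≤ P' ∧ P' ≤ Y ⊔ (S : Subgroup G) ∧ Cfsg.IsPMinimal p ↥P' ∧ P' ≠ P}, (P' : Subgroup G) with hL₀
    intro hle
    have h1 : L₀ ≤ L :=
      sup_le (inf_le_left.trans hD.hNL) (iSup_le fun P' => hD.hL P'.1 P'.2.1 P'.2.2.2.1 P'.2.2.2.2)
    have h2 : (S : Subgroup G) ≤ L₀ := le_sup_of_le_left (le_inf Subgroup.le_normalizer le_sup_right)
    have h3 : Cfsg.pCoreOf p L ≤ Cfsg.pCoreOf p L₀ :=
      Cfsg.Agent.Lib.Helper53.le_pCoreOf (hD.hRS.trans h2) (h1.trans hD.hLR)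
        (Cfsg.Agent.Lib.Helper53.pCoreOf_isPGroup p L)
    exact hiso (h3.trans hle)
  · by_cases hp : ⁅Y.map (QuotientGroup.mk' (Cfsg.pCore p G)), Y.map (QuotientGroup.mk' (Cfsg.pCore p G))⁆ = Y.map (QuotientGroup.mk' (Cfsg.pCore p G))
    · right
      have hpn : (Cfsg.pCore p ↥Y).Normal := Cfsg.Agent.Lib.Helper53.pCore_normal p _
      refine ⟨hpn, ?_, ?_, ?_⟩
      · rw [Nat.card_congr (hatEquiv (p := p) Y hYn).toEquiv]
        exact hH.dvd_card hp
      · exact layer_eq_top_of Y hYn (hH.perfect_eq_sSup hp)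
      · intro K₁ K₂ hK₁ hK₂
        obtain ⟨s', ⟨s, hs, rfl⟩, he⟩ := hH.transitive hp (isComponent_hatK Y hYn hK₁)
          (hatK_le Y hYn K₁) (isComponent_hatK Y hYn hK₂) (hatK_le Y hYn K₂)
        refine ⟨s, hs, ?_⟩
        rw [lift_eq Y hYn K₂, lift_eq Y hYn K₁, he]
        exact comap_conj_inf Y hYn _ s
    · left
      exact hD.eq_of_map_eq (hH.nonperfect hp).2.2

end Cfsg.Agent.S3044
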