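import Cfsg.Statements.S3050
import Cfsg.Agent.Lib.Helper85.Hig.Fin

set_option autoImplicit false
open Cfsg

namespace Cfsg.Agent.S3050

/-- Let G be a finite group with a normal 2-subgroup Q such that G/Q is isomorphic to SL(2, 2ⁿ) with n ≥ 2, and suppose some element of G of order 3 fixes no nonidentity element of Q under conjugation. Then Q is elementary abelian and is the direct product of normal subgroups of G on each of which G acts as SL(2, 2ⁿ) acts on its natural two-dimensional module (a Galois twist of the natural action allowed). -/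
theorem result {G : Type*} [Group G] [Finite G]
    (Q : Subgroup G) [Q.Normal] (hQ : IsPGroup 2 ↥Q) (n : ℕ) (hn : 2 ≤ n)
    (K : Type*) [Field K] [Fintype K] (hK : Fintype.card K = 2 ^ n)
    (e : G ⧸ Q ≃* Matrix.SpecialLinearGroup (Fin 2) K)
    (x : G) (hx : orderOf x = 3) (hfpf : ∀ q ∈ Q, x * q * x⁻¹ = q → q = 1) :
    Cfsg.IsElementaryAbelian 2 Q ∧
      ∃ (k : ℕ) (V : Fin k → Subgroup G), (∀ i, V i ≤ Q ∧ (V i).Normal ∧
        Cfsg.ActsAsSL2OnSection K ⊤ ⊤ (V i) ⊥) ∧ iSupIndep V ∧ ⨆ i, V i = Q := by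
  have hch : CharP K 2 := Cfsg.Agent.Lib.Helper85.NatSL2.charP_of_card K 2 n hK
  have hK2 : ∃ s : K, s ≠ 0 ∧ s ≠ 1 := by
    by_contra hcon
    push Not at hcon
    have hle : Fintype.card K ≤ 2 := by
      classical
      have : (Finset.univ : Finset K) ⊆ {0, 1} := by
        intro s _
        by_cases hs : s = 0
        · simp [hs]
        · simp [hcon s hs]
      calc Fintype.card K = (Finset.univ : Finset K).card := rfl
        _ ≤ ({0, 1} : Finset K).card := Finset.card_le_card this
        _ ≤ 2 := Finset.card_le_two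
    rw [hK] at hle
    have : 2 ^ 2 ≤ 2 ^ n := Nat.pow_le_pow_right (by norm_num) hn
    omega
  let π₀ : G →* Matrix.SpecialLinearGroup (Fin 2) K := e.toMonoidHom.comp (QuotientGroup.mk' Q)
  have hπ₀ : Function.Surjective π₀ := e.surjective.comp (QuotientGroup.mk'_surjective Q)
  have hker₀ : ∀ g, π₀ g = 1 ↔ g ∈ Q := by
    intro g
    show e (QuotientGroup.mk g) = 1 ↔ _
    rw [MulEquiv.map_eq_one_iff, QuotientGroup.eq_one_iff]
  have hxQ : x ∉ Q := by
    intro h
    have := hfpf x h (by group)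
    rw [this, orderOf_one] at hx
    omega
  have hord : orderOf (π₀ x) = 3 := by
    have : Fact (Nat.Prime 3) := ⟨by norm_num⟩
    refine orderOf_eq_prime ?_ ?_
    · rw [← map_pow, ← hx, pow_orderOf_eq_one, map_one]
    · intro h; exact hxQ ((hker₀ x).1 h)
  obtain ⟨c, hc⟩ := Cfsg.Agent.Lib.Helper85.NatSL2.exists_conj_order_three (π₀ x) hord
  let π : G →* Matrix.SpecialLinearGroup (Fin 2) K := (MulAut.conj c).toMonoidHom.comp π₀
  have hπ : Function.Surjective π := (MulAut.conj c).surjective.comp hπ₀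
  have hker : π.ker = Q := by
    ext g
    rw [MonoidHom.mem_ker]
    show MulAut.conj c (π₀ g) = 1 ↔ _
    rw [MulEquiv.map_eq_one_iff, hker₀]
  exact Cfsg.Agent.Lib.Helper85.NatSL2.higman_main Q hQ hK2 π hπ hker x hc hfpf

end Cfsg.Agent.S3050
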