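import Cfsg.Statements.S3053
import Cfsg.Agent.Lib.Helper5.ESp3

set_option autoImplicit false
open Cfsg

namespace Cfsg.Agent.S3053

open Cfsg.Agent.Lib.Helper5

/-- Let p be an odd prime and G a finite group with a Sylow p-subgroup P that is extraspecial of order p³ and exponent p². Then the centre of P is strongly closed in P with respect to G: a G-conjugate of an element of Z(P) that lies in P already lies in Z(P). In particular a nontrivial central element of P is conjugate in G to no noncentral element of P. -/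
theorem result {G : Type*} [Group G] [Finite G]
    {p : ℕ} [Fact p.Prime] (hp : p ≠ 2) (P : Sylow p G) (hE : Cfsg.IsExtraspecial p ↥P)
    (hcard : Nat.card P = p ^ 3) (hexp : Monoid.exponent ↥P = p ^ 2) :
    Cfsg.IsStronglyClosed ((Subgroup.center ↥P).map (P : Subgroup G).subtype) (P : Subgroup G) := by
  obtain ⟨E, hEmem, hEcard⟩ := es_exists_E hp hE hcard hexp
  have hZmem : ∀ x : G, x ∈ (Subgroup.center ↥P).map (P : Subgroup G).subtype ↔
      ∃ hx : x ∈ (P : Subgroup G), (⟨x, hx⟩ : ↥P) ∈ Subgroup.center ↥P := by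
    intro x
    constructor
    · rintro ⟨q, hq, rfl⟩
      exact ⟨q.2, hq⟩
    · rintro ⟨hx, h⟩
      exact ⟨⟨x, hx⟩, h, rfl⟩
  have hEGmem : ∀ x : G, x ∈ E.map (P : Subgroup G).subtype ↔
      ∃ hx : x ∈ (P : Subgroup G), (⟨x, hx⟩ : ↥P) ∈ E := by
    intro x
    constructor
    · rintro ⟨q, hq, rfl⟩
      exact ⟨q.2, hq⟩
    · rintro ⟨hx, h⟩
      exact ⟨⟨x, hx⟩, h, rfl⟩
  have hZE : Subgroup.center ↥P ≤ E := by
    intro x hx
    rw [hEmem]
    exact es_center_pow hE hx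
  refine ⟨Subgroup.map_subtype_le _, fun z hz g hy => ?_⟩
  refine es_core hp P (E.map (P : Subgroup G).subtype) _ (Subgroup.map_subtype_le _)
    (Subgroup.map_mono hZE) ?_ ?_ ?_ ?_ ?_ ?_ ?_ ?_ ?_ ?_ ?_ z hz g hy
  · intro x hx hxp
    rw [hEGmem]
    refine ⟨hx, (hEmem _).mpr ?_⟩
    ext; simpa using hxp
  · intro x hx
    obtain ⟨hxP, hxE⟩ := (hEGmem x).mp hx
    have := (hEmem _).mp hxE
    simpa using congrArg Subtype.val this
  · intro x hx y hy
    obtain ⟨hxP, hxE⟩ := (hEGmem x).mp hx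
    obtain ⟨hyP, hyE⟩ := (hEGmem y).mp hy
    exact congrArg Subtype.val (es_E_comm hEcard _ hxE _ hyE)
  · intro z hz b hb
    obtain ⟨hzP, hzZ⟩ := (hZmem z).mp hz
    exact congrArg Subtype.val (Subgroup.mem_center_iff.mp hzZ ⟨b, hb⟩)
  · intro y hy hyZ b hb hby
    obtain ⟨hyP, hyE⟩ := (hEGmem y).mp hy
    rw [hEGmem]
    refine ⟨hb, es_centralizer hcard hEcard hyE (fun h => hyZ ((hZmem y).mpr ⟨hyP, h⟩)) ?_⟩
    ext; exact hby
  · intro y hy hyZ ζ hζ
    obtain ⟨hζP, hζZ⟩ := (hZmem ζ).mp hζ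
    obtain ⟨b, hb⟩ := es_comm_surj hE (y := ⟨y, hy⟩) (fun h => hyZ ((hZmem y).mpr ⟨hy, h⟩)) hζZ
    exact ⟨b, b.2, by simpa using congrArg Subtype.val hb⟩
  · intro K hKE hZK y hy hyZ
    have hKP : K ≤ (P : Subgroup G) := hKE.trans (Subgroup.map_subtype_le _)
    have h1 : E ≤ K.subgroupOf (P : Subgroup G) := by
      refine es_E_gen hE hEcard _ ?_ ?_ (y := ⟨y, hKP hy⟩) ?_ ?_
      · intro x hx
        obtain ⟨_, h⟩ := (hEGmem x).mp (hKE (Subgroup.mem_subgroupOf.mp hx))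
        exact h
      · intro x hx
        exact Subgroup.mem_subgroupOf.mpr (hZK ((hZmem x).mpr ⟨x.2, hx⟩))
      · exact Subgroup.mem_subgroupOf.mpr hy
      · exact fun h => hyZ ((hZmem y).mpr ⟨_, h⟩)
    intro x hx
    obtain ⟨hxP, hxE⟩ := (hEGmem x).mp hx
    exact Subgroup.mem_subgroupOf.mp (h1 hxE)
  · intro s hs t ht hs1
    obtain ⟨hsP, hsZ⟩ := (hZmem s).mp hs
    obtain ⟨htP, htZ⟩ := (hZmem t).mp ht
    have := es_center_zpowers hE hsZ htZ (fun h => hs1 (congrArg Subtype.val h))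
    obtain ⟨i, hi⟩ := Subgroup.mem_zpowers_iff.mp this
    exact Subgroup.mem_zpowers_iff.mpr ⟨i, by simpa using congrArg Subtype.val hi⟩
  · intro x hx y hy
    simpa using congrArg Subtype.val (es_mul_pow hp hE (⟨x, hx⟩ : ↥P) ⟨y, hy⟩)
  · intro x hx
    rw [hZmem]
    exact ⟨pow_mem hx p, es_pow_mem_center hE (⟨x, hx⟩ : ↥P)⟩
  · by_contra hcon
    push Not at hcon
    have hpp : p.Prime := Fact.out
    have h1 : Monoid.exponent ↥P ∣ p := by
      apply Monoid.exponent_dvd_of_forall_pow_eq_one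
      intro x
      ext
      simpa using hcon x x.2
    rw [hexp] at h1
    have := Nat.le_of_dvd hpp.pos h1
    nlinarith [hpp.two_le]

end Cfsg.Agent.S3053
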