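import Cfsg.Statements.S3060
import Cfsg.Agent.Lib.Helper57.DStar2
import Cfsg.Agent.Lib.Helper57.PCore
-- import your own Cfsg.Agent.* helpers here

set_option autoImplicit false
open Cfsg

namespace Cfsg.Agent.S3060

open Cfsg.Agent.Lib.Helper57
open scoped commutatorElement


/-- The D*-Theorem. For a finite p-group S let D*(S) be the subgroup generated by the abelian subgroups A of S such that every x ∈ S with ⟨A, x⟩ of nilpotency class at most two centralizes A. Let p be an odd prime and H a finite p-stable group with Sylow p-subgroup S. Here H is p-stable in the following sense: the largest normal p-subgroup O_p(H) contains its centralizer in H, and for every normal p-subgroup P of H, every element acting quadratically on P has image in O_p(H/C_H(P)). Then D*(S) is a normal subgroup of H. -/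
theorem result {G : Type*} [Group G] [Finite G] {p : ℕ} [Fact p.Prime] (hp : p ≠ 2)
    (hc : Subgroup.centralizer (Cfsg.pCore p G : Set G) ≤ Cfsg.pCore p G)
    (hst : ∀ (P : Subgroup G) [P.Normal], IsPGroup p P → Cfsg.IsPStableOn p P) (S : Sylow p G) :
    (Cfsg.dStarOf (S : Subgroup G)).Normal := by
  classical
  have hSnil : Group.IsNilpotent ↥(S : Subgroup G) := S.isPGroup'.isNilpotent
  set P := Cfsg.pCore p G with hP
  have hPp : IsPGroup p P := isPGroup_pCore p G
  have hPnil : Group.IsNilpotent ↥P := hPp.isNilpotent
  have hPS : P ≤ S := pCore_le_sylow S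
  set D := Cfsg.dStarOf (S : Subgroup G) with hD
  have hDfam : Fam (S : Subgroup G) D := fam_dStarOf _
  have hDc : IsMulCommutative D := hDfam.2.1
  have hDS : D ≤ S := hDfam.1
  have hSD : (S : Subgroup G) ≤ Subgroup.normalizer (D : Set G) :=
    Subgroup.le_normalizer.trans (normalizer_le_normalizer_dStarOf _)
  -- Step 1: D ≤ P
  have hDP : D ≤ P := by
    intro d hd
    have hquad : ⁅⁅P, Subgroup.zpowers d⁆, Subgroup.zpowers d⁆ = ⊥ := by
      have hz : Subgroup.zpowers d ≤ D := Subgroup.zpowers_le.2 hd
      have h1 : ⁅P, Subgroup.zpowers d⁆ ≤ D := by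
        rw [Subgroup.commutator_le]
        intro x hx y hy
        rw [commutatorElement_def]
        exact D.mul_mem ((Subgroup.le_normalizer_iff.1 hSD) x (hPS hx) y (hz hy)) (D.inv_mem (hz hy))
      rw [eq_bot_iff]
      refine (Subgroup.commutator_mono h1 hz).trans ?_
      rw [le_bot_iff, Subgroup.commutator_eq_bot_iff_le_centralizer]
      exact Subgroup.le_centralizer D
    have h2 := hst P hPp d hquad
    have hCp : IsPGroup p (Subgroup.centralizer (P : Set G)) := hPp.to_le hc
    exact comap_pCore_le hCp (Subgroup.mem_comap.2 h2)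
  -- Step 2: the normal closure W of D is abelian
  set E := Cfsg.dStarOf P with hE
  have hEfam : Fam P E := fam_dStarOf _
  have hEc : IsMulCommutative E := hEfam.2.1
  have hEn : E.Normal := by
    rw [← Subgroup.normalizer_eq_top_iff, eq_top_iff]
    refine le_trans ?_ (normalizer_le_normalizer_dStarOf P)
    rw [Subgroup.normalizer_eq_top]
  have hDE : D ≤ E := (hDfam.mono hPS hDP).le_dStarOf
  set W := Subgroup.normalClosure (D : Set G) with hW
  have hWn : W.Normal := Subgroup.normalClosure_normal
  have hWE : W ≤ E := Subgroup.normalClosure_le_normal hDE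
  have hDW : D ≤ W := Subgroup.le_normalClosure
  have hWc : IsMulCommutative W :=
    IsMulCommutative.of_setLike_mul_comm fun a ha b hb => setLike_mul_comm (hWE ha) (hWE hb)
  have hWP : W ≤ P := hWE.trans hEfam.1
  have hWp : IsPGroup p W := hPp.to_le hWP
  -- Step 3: W belongs to the family of S
  have hWfam : Fam (S : Subgroup G) W := by
    refine ⟨hWP.trans hPS, hWc, ?_⟩
    intro x hxS hcl
    have hquad : ⁅⁅W, Subgroup.zpowers x⁆, Subgroup.zpowers x⁆ = ⊥ := by
      rw [eq_bot_iff, ← hcl]
      exact Subgroup.commutator_mono (Subgroup.commutator_mono le_sup_left le_sup_right) le_sup_right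
    have h2 := hst W hWp x hquad
    set C := Subgroup.centralizer (W : Set G) with hC
    set K := (Cfsg.pCore p (G ⧸ C)).comap (QuotientGroup.mk' C) with hK
    have hxK : x ∈ K := Subgroup.mem_comap.2 h2
    set R := (S : Subgroup G) ⊓ K with hR
    have hxR : x ∈ R := Subgroup.mem_inf.2 ⟨hxS, hxK⟩
    have hfr : Subgroup.normalizer (R : Set G) ⊔ K = ⊤ := normalizer_inf_sup_eq_top S K
    have hKRC : K ≤ R ⊔ C := comap_pCore_le_inf_sup S C
    have htop : Subgroup.normalizer (R : Set G) ⊔ C = ⊤ := by
      rw [eq_top_iff, ← hfr]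
      refine sup_le le_sup_left (hKRC.trans (sup_le ?_ le_sup_right))
      exact Subgroup.le_normalizer.trans le_sup_left
    have hWcen : W ≤ Subgroup.centralizer {x} := by
      rw [hW, Subgroup.normalClosure, Subgroup.closure_le]
      intro y hy
      obtain ⟨d, hd, hconj⟩ := Group.mem_conjugatesOfSet_iff.1 hy
      obtain ⟨h, rfl⟩ := isConj_iff.1 hconj
      have hh : h ∈ Subgroup.normalizer (R : Set G) ⊔ C := by rw [htop]; exact Subgroup.mem_top h
      obtain ⟨n, hn, c, hcC, rfl⟩ := Subgroup.mem_sup_of_normal_right.1 hh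
      have hcd : c * d * c⁻¹ = d := by
        have := (Subgroup.mem_centralizer_iff.1 hcC) d (hDW hd)
        rw [← this, mul_assoc, mul_inv_cancel, mul_one]
      have hy' : n * c * d * (n * c)⁻¹ = n * d * n⁻¹ := by
        have : n * c * d * (n * c)⁻¹ = n * (c * d * c⁻¹) * n⁻¹ := by group
        rw [this, hcd]
      rw [SetLike.mem_coe, hy', Subgroup.mem_centralizer_singleton_iff]
      set x' := n⁻¹ * x * n with hx'
      have hx'R : x' ∈ R := by
        have := (Subgroup.mem_normalizer_iff.1 (Subgroup.inv_mem _ hn) x).1 hxR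
        simpa [hx'] using this
      have hcl' : ⁅⁅D ⊔ Subgroup.zpowers x', D ⊔ Subgroup.zpowers x'⁆, D ⊔ Subgroup.zpowers x'⁆ = ⊥ := by
        have hmap : D ⊔ Subgroup.zpowers x' ≤
            (W ⊔ Subgroup.zpowers x).map (MulAut.conj n⁻¹).toMonoidHom := by
          refine sup_le ?_ ?_
          · intro e he
            rw [mem_map_conj]
            apply Subgroup.mem_sup_left
            have := hWn.conj_mem e (hDW he) n
            simpa using this
          · rw [Subgroup.zpowers_le, mem_map_conj]
            apply Subgroup.mem_sup_right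
            have : n⁻¹⁻¹ * x' * n⁻¹ = x := by rw [hx']; group
            rw [this]; exact Subgroup.mem_zpowers x
        rw [eq_bot_iff]
        refine (Subgroup.commutator_mono (Subgroup.commutator_mono hmap hmap) hmap).trans ?_
        rw [← Subgroup.map_commutator, ← Subgroup.map_commutator, hcl, Subgroup.map_bot]
      have hcomm := hDfam.2.2 x' (Subgroup.mem_inf.1 hx'R).1 hcl' d hd
      have e1 : n * d * n⁻¹ * x = n * (d * x') * n⁻¹ := by rw [hx']; group
      have e2 : x * (n * d * n⁻¹) = n * (x' * d) * n⁻¹ := by rw [hx']; group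
      rw [e1, e2, hcomm]
    intro a ha
    exact Subgroup.mem_centralizer_singleton_iff.1 (hWcen ha)
  have hWD : W = D := le_antisymm hWfam.le_dStarOf hDW
  rw [← hWD]
  exact hWn

end Cfsg.Agent.S3060
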