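import Cfsg.Statements.S3062
import Cfsg.Agent.Lib.Helper57.DStar2
-- import your own Cfsg.Agent.* helpers here

set_option autoImplicit false
open Cfsg

namespace Cfsg.Agent.S3062

open Cfsg.Agent.Lib.Helper57


/-- Let S be a finite p-group, J(S) the subgroup generated by the abelian subgroups of S of largest order and Z(J(S)) its centre. Then Z(S) ≤ D*(S) ≤ Z(J(S)), and every maximal normal abelian subgroup of S contains D*(S). -/
theorem result {S : Type*} [Group S] [Finite S] {p : ℕ} [Fact p.Prime]
    (hS : IsPGroup p S) :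
    Subgroup.center S ≤ Cfsg.dStar S ∧
    Cfsg.dStar S ≤ Cfsg.thompsonSubgroupA S ⊓ Subgroup.centralizer (Cfsg.thompsonSubgroupA S : Set S) ∧
    ∀ A : Subgroup S, A.Normal → IsMulCommutative A →
      (∀ B : Subgroup S, B.Normal → IsMulCommutative B → A ≤ B → B = A) → Cfsg.dStar S ≤ A := by
  have := hS.isNilpotent
  refine ⟨?_, ?_, ?_⟩
  · apply le_sSup
    refine ⟨inferInstance, fun x _ a ha => ?_⟩
    exact ((Subgroup.mem_center_iff.1 ha) x).symm
  · obtain ⟨B₀, hB₀⟩ := exists_maxAbelian (G := S)
    refine le_inf ((dStar_le_maxAbelian B₀ hB₀).trans (le_sSup hB₀)) ?_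
    rw [Subgroup.le_centralizer_iff]
    apply sSup_le
    intro B hB
    have := hB.1
    exact (Subgroup.le_centralizer B).trans
      (Subgroup.centralizer_le (by exact_mod_cast dStar_le_maxAbelian B hB))
  · intro A hAn hAc hmax
    exact dStar_le_of_maximal A hmax

end Cfsg.Agent.S3062
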