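import Cfsg.Statements.S3063
import Cfsg.Agent.Lib.Helper57.DStar2
-- import your own Cfsg.Agent.* helpers here

set_option autoImplicit false
open Cfsg

namespace Cfsg.Agent.S3063

open Cfsg.Agent.Lib.Helper57


/-- A weak replacement Theorem for metabelian p-groups: let S be a finite p-group whose derived subgroup is abelian and A an abelian subgroup of S of largest possible order. Then the normal closure of A in S contains an abelian subgroup B of the same order as A that is normal in S. -/
theorem result {S : Type*} [Group S] [Finite S] {p : ℕ} [Fact p.Prime]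
    (hS : IsPGroup p S) (hmeta : IsMulCommutative ↥(commutator S))
    (A : Subgroup S) (hA : A ∈ Cfsg.maxAbelianSubgroups S) :
    ∃ B ∈ Cfsg.maxAbelianSubgroups S, B.Normal ∧ B ≤ Subgroup.normalClosure (A : Set S) := by
  classical
  have := hS.isNilpotent
  set N := commutator S with hN
  have hNn : N.Normal := inferInstance
  -- choose B in the normal closure with B ⊓ N of largest order
  have hfin : ({B : Subgroup S | B ∈ Cfsg.maxAbelianSubgroups S ∧
      B ≤ Subgroup.normalClosure (A : Set S)}).Finite := Set.toFinite _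
  have hne : ({B : Subgroup S | B ∈ Cfsg.maxAbelianSubgroups S ∧
      B ≤ Subgroup.normalClosure (A : Set S)}).Nonempty := ⟨A, hA, Subgroup.le_normalClosure⟩
  obtain ⟨B, ⟨hB, hBA⟩, hmax⟩ :=
    Set.exists_max_image _ (fun M : Subgroup S => Nat.card ↥(M ⊓ N)) hfin hne
  have hncl : Subgroup.normalClosure (B : Set S) ≤ Subgroup.normalClosure (A : Set S) :=
    Subgroup.normalClosure_le_normal hBA
  have hNB : N ≤ Subgroup.normalizer (B : Set S) := by
    by_contra hcon
    obtain ⟨Bs, hBs, hlt, -, hcl⟩ := thompson_replacement hB hcon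
    have h1 := hmax Bs ⟨hBs, hcl.trans hncl⟩
    have h2 := card_lt_of_lt hlt
    omega
  have hBn : B ≤ Subgroup.normalizer (B : Set S) := Subgroup.le_normalizer
  have hconj : ∀ g : S, ∀ b ∈ B, g * b * g⁻¹ ∈ Subgroup.normalizer (B : Set S) := by
    intro g b hb
    have : g * b * g⁻¹ = (g * b * g⁻¹ * b⁻¹) * b := by group
    rw [this]
    refine Subgroup.mul_mem _ (hNB ?_) (hBn hb)
    exact Subgroup.commutator_mem_commutator (Subgroup.mem_top g) (Subgroup.mem_top b)
  refine ⟨B, hB, ?_, hBA⟩
  rw [← Subgroup.normalizer_eq_top_iff, eq_top_iff]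
  intro g _
  have h2 : ∀ b ∈ B, g⁻¹ * b * g ∈ Subgroup.normalizer (B : Set S) := by
    intro b hb
    have := hconj g⁻¹ b hb
    rwa [inv_inv] at this
  have h3 : ∀ b ∈ B, b⁻¹ * (g * b * g⁻¹) ∈ N := by
    intro b _
    have : b⁻¹ * (g * b * g⁻¹) = b⁻¹ * g * b⁻¹⁻¹ * g⁻¹ := by group
    rw [this]
    exact Subgroup.commutator_mem_commutator (Subgroup.mem_top b⁻¹) (Subgroup.mem_top g)
  obtain ⟨Bs, hBs, hle, hinf, himp⟩ := replacement_conj hB g (hconj g) h2 h3
  apply himp
  have hBsA : Bs ≤ Subgroup.normalClosure (A : Set S) := by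
    refine hle.trans (sup_le hBA ?_)
    intro y hy
    rw [mem_map_conj] at hy
    have : y = g * (g⁻¹ * y * g) * g⁻¹ := by group
    rw [this]
    exact Subgroup.normalClosure_normal.conj_mem _ (hBA hy) g
  have h1 := hmax Bs ⟨hBs, hBsA⟩
  have heq : B ⊓ N = Bs ⊓ N := Subgroup.eq_of_le_of_card_ge hinf h1
  rw [← heq]
  exact inf_le_left

end Cfsg.Agent.S3063
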