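import Cfsg.Statements.S3064
import Cfsg.Agent.S0035
import Cfsg.Agent.Lib.Helper80.PSolv
import Cfsg.Agent.Lib.Helper11.SylowAux

set_option autoImplicit false
open Cfsg

namespace Cfsg.Agent.S3064

open Cfsg.Agent.Lib.Helper11
open scoped Pointwise

universe u

/-- `x` is its only conjugate in every `p`-subgroup containing it -/
def WC (p : ℕ) {G : Type*} [Group G] (x : G) : Prop :=
  ∀ R : Subgroup G, IsPGroup p R → x ∈ R → ∀ g : G, g * x * g⁻¹ ∈ R → g * x * g⁻¹ = x

/-- `x` centralizes the `p'`-subgroups it normalizes -/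
def HB (p : ℕ) {G : Type*} [Group G] (x : G) : Prop :=
  ∀ H : Subgroup G, (Nat.card H).Coprime p → (∀ h ∈ H, x * h * x⁻¹ ∈ H) → ∀ h ∈ H, x * h = h * x

theorem isPGroup_zpowers {p : ℕ} [hp : Fact p.Prime] {G : Type*} [Group G] {y : G} {k : ℕ}
    (h : y ^ p ^ k = 1) : IsPGroup p (Subgroup.zpowers y) := by
  obtain ⟨j, -, hj⟩ := (Nat.dvd_prime_pow hp.out).1 (orderOf_dvd_of_pow_eq_one h)
  exact IsPGroup.of_card (n := j) (by rw [Nat.card_zpowers, hj])

theorem conj_pow_eq {G : Type*} [Group G] (g x : G) (n : ℕ) (h : x ^ n = 1) :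
    (g * x * g⁻¹) ^ n = 1 := by
  rw [conj_pow, h]; group

theorem wc_of_sylow {p : ℕ} [Fact p.Prime] {G : Type*} [Group G] [Finite G] (S : Sylow p G) (x : G)
    (hU : ∀ g : G, g⁻¹ * x * g ∈ S → g⁻¹ * x * g = x) : WC p x := by
  intro R hR hxR g hg
  obtain ⟨k, -, hk⟩ := exists_conj_le_sylow_of_le ⊤ S le_top R hR le_top
  have h1 : k * x * k⁻¹ ∈ (S : Subgroup G) := hk (conj_mem_conj_smul hxR)
  have h2 : k * (g * x * g⁻¹) * k⁻¹ ∈ (S : Subgroup G) := hk (conj_mem_conj_smul hg)
  have e1 : k * x * k⁻¹ = x := by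
    have := hU k⁻¹ (by rw [inv_inv]; exact h1)
    rwa [inv_inv] at this
  have e2 : k * (g * x * g⁻¹) * k⁻¹ = x := by
    have e : k * (g * x * g⁻¹) * k⁻¹ = ((k * g)⁻¹)⁻¹ * x * (k * g)⁻¹ := by group
    rw [e] at h2 ⊢
    exact hU _ h2
  have : k * (g * x * g⁻¹) * k⁻¹ = k * x * k⁻¹ := by rw [e1, e2]
  simpa using this

theorem eq_of_commute {p : ℕ} [Fact p.Prime] {G : Type*} [Group G] {x : G} {k : ℕ}
    (hxp : x ^ p ^ k = 1) (hWC : WC p x) (g : G) (hc : (g * x * g⁻¹) * x = x * (g * x * g⁻¹)) :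
    g * x * g⁻¹ = x := by
  have h1 : IsPGroup p (Subgroup.zpowers x) := isPGroup_zpowers hxp
  have h2 : IsPGroup p (Subgroup.zpowers (g * x * g⁻¹)) :=
    isPGroup_zpowers (conj_pow_eq g x _ hxp)
  have h3 : Subgroup.zpowers x ≤ Subgroup.normalizer (Subgroup.zpowers (g * x * g⁻¹) : Set G) := by
    refine le_trans ?_ (Subgroup.centralizer_le_normalizer _)
    rw [Subgroup.zpowers_le, Subgroup.mem_centralizer_iff]
    intro w hw
    obtain ⟨j, rfl⟩ := Subgroup.mem_zpowers_iff.1 hw
    exact ((show Commute (g * x * g⁻¹) x from hc).zpow_left j).eq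
  have h4 := h1.to_sup_of_normal_right' h2 h3
  exact hWC _ h4 (Subgroup.mem_sup_left (Subgroup.mem_zpowers x)) g
    (Subgroup.mem_sup_right (Subgroup.mem_zpowers _))

theorem wc_sub {p : ℕ} {G : Type*} [Group G] {x : G} (hWC : WC p x) (Y : Subgroup G) (hx : x ∈ Y) :
    WC p (⟨x, hx⟩ : Y) := by
  intro R hR hxR g hg
  apply Subtype.ext
  exact hWC (R.map Y.subtype) (hR.map _) ⟨_, hxR, rfl⟩ g ⟨_, hg, rfl⟩

theorem hb_sub {p : ℕ} {G : Type*} [Group G] {x : G} (hHB : HB p x) (Y : Subgroup G) (hx : x ∈ Y) :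
    HB p (⟨x, hx⟩ : Y) := by
  intro H hH hn h hh
  apply Subtype.ext
  refine hHB (H.map Y.subtype) ?_ ?_ h ⟨_, hh, rfl⟩
  · rw [← Nat.card_congr (H.equivMapOfInjective _ Y.subtype_injective).toEquiv]
    exact hH
  · rintro _ ⟨a, ha, rfl⟩
    exact ⟨_, hn a ha, rfl⟩

theorem wc_quot {p : ℕ} [Fact p.Prime] {G : Type*} [Group G] [Finite G] (D : Subgroup G)
    [hD : D.Normal] {x : G} {k : ℕ} (hxp : x ^ p ^ k = 1) (hWC : WC p x)
    (hDx : ∀ d ∈ D, d * x = x * d) : WC p (QuotientGroup.mk' D x) := by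
  obtain ⟨S, hS⟩ := (isPGroup_zpowers (p := p) hxp).exists_le_sylow
  have hxS : x ∈ (S : Subgroup G) := hS (Subgroup.mem_zpowers x)
  have key : ∀ a : G, a * x * a⁻¹ ∈ (S : Subgroup G) ⊔ D → a * x * a⁻¹ = x := by
    intro a ha
    obtain ⟨c, hc, hcS⟩ := exists_conj_le_sylow_of_le ((S : Subgroup G) ⊔ D) S le_sup_left
      (Subgroup.zpowers (a * x * a⁻¹)) (isPGroup_zpowers (conj_pow_eq a x _ hxp))
      (by rw [Subgroup.zpowers_le]; exact ha)
    have h1 : c * (a * x * a⁻¹) * c⁻¹ ∈ (S : Subgroup G) :=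
      hcS (conj_mem_conj_smul (Subgroup.mem_zpowers _))
    have e1 : c * (a * x * a⁻¹) * c⁻¹ = x := by
      have e : c * (a * x * a⁻¹) * c⁻¹ = (c * a) * x * (c * a)⁻¹ := by group
      rw [e] at h1 ⊢
      exact hWC _ S.2 hxS _ h1
    have hc' : c ∈ (((S : Subgroup G) ⊔ D : Subgroup G) : Set G) := hc
    rw [Subgroup.mul_normal] at hc'
    obtain ⟨s, hs, d, hd, rfl⟩ := Set.mem_mul.1 hc'
    have e2 : s * d * x * (s * d)⁻¹ = x := by
      have e : s * d * x * (s * d)⁻¹ = s * x * s⁻¹ := by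
        rw [mul_assoc s d x, hDx d hd]; group
      rw [e]
      exact hWC _ S.2 hxS s (Subgroup.mul_mem _ (Subgroup.mul_mem _ hs hxS) (Subgroup.inv_mem _ hs))
    have : s * d * (a * x * a⁻¹) * (s * d)⁻¹ = s * d * x * (s * d)⁻¹ := by rw [e1, e2]
    simpa using this
  have hsurj := QuotientGroup.mk'_surjective D
  have hmem : ∀ a : G, QuotientGroup.mk' D a ∈ (S : Subgroup G).map (QuotientGroup.mk' D) →
      a ∈ (S : Subgroup G) ⊔ D := by
    rintro a ⟨s, hs, hsa⟩
    have h1 : s⁻¹ * a ∈ D := QuotientGroup.eq.1 hsa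
    have : a = s * (s⁻¹ * a) := by group
    rw [this]
    exact Subgroup.mul_mem _ (Subgroup.mem_sup_left hs) (Subgroup.mem_sup_right h1)
  intro R hR hxR g' hg
  obtain ⟨g, rfl⟩ := hsurj g'
  obtain ⟨c', -, hc⟩ := exists_conj_le_sylow_of_le ⊤ (S.mapSurjective hsurj) le_top R hR le_top
  obtain ⟨c, rfl⟩ := hsurj c'
  have h1 := hc (conj_mem_conj_smul hxR)
  have h2 := hc (conj_mem_conj_smul hg)
  rw [Sylow.coe_mapSurjective] at h1 h2
  rw [← map_inv, ← map_mul, ← map_mul] at h1
  rw [← map_inv, ← map_inv, ← map_mul, ← map_mul, ← map_mul, ← map_mul] at h2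
  have e1 := key c (hmem _ h1)
  have e2 : c * (g * x * g⁻¹) * c⁻¹ = x := by
    have e : c * (g * x * g⁻¹) * c⁻¹ = (c * g) * x * (c * g)⁻¹ := by group
    rw [e]
    apply key
    rw [← e]
    exact hmem _ h2
  have e3 : g * x * g⁻¹ = x := by
    have : c * (g * x * g⁻¹) * c⁻¹ = c * x * c⁻¹ := by rw [e1, e2]
    simpa using this
  rw [← map_inv, ← map_mul, ← map_mul, e3]

theorem hb_quot {p : ℕ} [Fact p.Prime] {G : Type*} [Group G] [Finite G] (D : Subgroup G)
    [hD : D.Normal] {x : G} (hHB : HB p x) (hDx : ∀ d ∈ D, d * x = x * d)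
    (hcase : (Nat.card D).Coprime p ∨ (IsPGroup p D ∧ D ≤ Subgroup.center G)) :
    HB p (QuotientGroup.mk' D x) := by
  intro H' hH' hn
  have hsurj := QuotientGroup.mk'_surjective D
  set H := H'.comap (QuotientGroup.mk' D) with hH
  have hDH : D ≤ H := by
    intro d hd
    show QuotientGroup.mk' D d ∈ H'
    have h1 : QuotientGroup.mk' D d = 1 := (QuotientGroup.eq_one_iff d).2 hd
    rw [h1]
    exact H'.one_mem
  have hxH : ∀ h ∈ H, x * h * x⁻¹ ∈ H := by
    intro h hh
    show QuotientGroup.mk' D (x * h * x⁻¹) ∈ H'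
    rw [map_mul, map_mul, map_inv]
    exact hn _ hh
  have hrel : D.relIndex H = Nat.card H' := by
    have h1 : D = (⊥ : Subgroup (G ⧸ D)).comap (QuotientGroup.mk' D) := by
      rw [MonoidHom.comap_bot, QuotientGroup.ker_mk']
    conv_lhs => rw [h1]
    rw [Subgroup.relIndex_comap, hH, Subgroup.map_comap_eq_self_of_surjective hsurj,
      Subgroup.relIndex_bot_left]
  have hall : ∀ h ∈ H, x * h = h * x := by
    rcases hcase with hc | ⟨hp, hc⟩
    · apply hHB H _ hxH
      rw [← Subgroup.relIndex_bot_left, ← Subgroup.relIndex_mul_relIndex ⊥ D H bot_le hDH,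
        Subgroup.relIndex_bot_left, hrel]
      exact Nat.Coprime.mul_left hc hH'
    · have hZc : D.subgroupOf H ≤ Subgroup.center H := by
        intro z hz
        rw [Subgroup.mem_center_iff]
        intro h
        exact Subtype.ext (Subgroup.mem_center_iff.1 (hc (Subgroup.mem_subgroupOf.1 hz)) h.1)
      have hidx : (D.subgroupOf H).index = Nat.card H' := hrel
      obtain ⟨A, hA1, hA2, hA3⟩ := Cfsg.Agent.Lib.Helper80.central_pgroup_complement (p := p)
        (D.subgroupOf H) hZc hp.comap_subtype (by rw [hidx]; exact hH')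
      have hA0 : ∀ a ∈ A.map H.subtype, x * a = a * x := by
        apply hHB
        · rw [← Nat.card_congr (A.equivMapOfInjective _ H.subtype_injective).toEquiv, hA2, hidx]
          exact hH'
        · rintro _ ⟨a, ha, rfl⟩
          refine ⟨⟨x * a.1 * x⁻¹, hxH a.1 a.2⟩, ?_, rfl⟩
          rw [SetLike.mem_coe, hA1] at ha ⊢
          apply Subtype.ext
          have := congrArg Subtype.val ha
          simp only [Subgroup.coe_pow, Subgroup.coe_one] at this ⊢
          exact conj_pow_eq x a.1 _ this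
      intro h hh
      obtain ⟨z, hz, a, ha, hza⟩ := hA3 ⟨h, hh⟩
      have e : h = z.1 * a.1 := congrArg Subtype.val hza
      have e1 := hDx z.1 (Subgroup.mem_subgroupOf.1 hz)
      have e2 := hA0 a.1 ⟨a, ha, rfl⟩
      rw [e]
      calc x * (z.1 * a.1) = (x * z.1) * a.1 := by group
        _ = z.1 * (x * a.1) := by rw [← e1]; group
        _ = z.1 * a.1 * x := by rw [e2]; group
  intro h' hh'
  obtain ⟨h, rfl⟩ := hsurj h'
  rw [← map_mul, ← map_mul, hall h hh']

theorem main (p : ℕ) [hp : Fact p.Prime] : ∀ (n : ℕ) (G : Type u) [Group G] [Finite G],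
    Nat.card G = n → ∀ (x : G) (k : ℕ), x ^ p ^ k = 1 → WC p x → HB p x →
    ∀ g : G, g * x * g⁻¹ = x := by
  intro n
  induction n using Nat.strong_induction_on with
  | _ n ih =>
  intro G _ _ hn x k hxp hWC hHB
  by_contra hcon
  push Not at hcon
  obtain ⟨g₀, hg₀⟩ := hcon
  -- proper subgroups
  have hA : ∀ Y : Subgroup G, Y ≠ ⊤ → x ∈ Y → ∀ g : G, g * x * g⁻¹ ∈ Y → g * x * g⁻¹ = x := by
    intro Y hY hxY g hg
    have hlt : Nat.card Y < n := by
      rw [← hn]
      by_contra hge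
      push Not at hge
      exact hY (Subgroup.eq_top_of_le_card Y hge)
    have h1 := ih _ hlt Y rfl ⟨x, hxY⟩ k (Subtype.ext (by simpa using hxp)) (wc_sub hWC Y hxY)
      (hb_sub hHB Y hxY) ⟨_, hg⟩
    have h2 : (g * x * g⁻¹) * x * (g * x * g⁻¹)⁻¹ = x := congrArg Subtype.val h1
    apply eq_of_commute hxp hWC
    calc (g * x * g⁻¹) * x = ((g * x * g⁻¹) * x * (g * x * g⁻¹)⁻¹) * (g * x * g⁻¹) := by group
      _ = x * (g * x * g⁻¹) := by rw [h2]
  -- quotients
  have hQ : ∀ D : Subgroup G, D.Normal → D ≠ ⊥ → (∀ d ∈ D, d * x = x * d) →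
      ((Nat.card D).Coprime p ∨ (IsPGroup p D ∧ D ≤ Subgroup.center G)) → False := by
    intro D hDn hD hDx hcase
    have hlt : Nat.card (G ⧸ D) < n := by
      rw [← hn, ← D.card_mul_index]
      have h1 : 1 < Nat.card D := by
        rw [Finite.one_lt_card_iff_nontrivial]
        exact (Subgroup.nontrivial_iff_ne_bot D).2 hD
      have h2 : 0 < D.index := Nat.pos_of_ne_zero D.index_ne_zero_of_finite
      show D.index < _
      nlinarith
    have h1 := ih _ hlt (G ⧸ D) rfl (QuotientGroup.mk' D x) k (by rw [← map_pow, hxp, map_one])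
      (wc_quot D hxp hWC hDx) (hb_quot D hHB hDx hcase) (QuotientGroup.mk' D g₀)
    rw [← map_inv, ← map_mul, ← map_mul] at h1
    have h2 : x⁻¹ * (g₀ * x * g₀⁻¹) ∈ D := QuotientGroup.eq.1 h1.symm
    apply hg₀
    apply eq_of_commute hxp hWC
    have h3 := hDx _ h2
    calc g₀ * x * g₀⁻¹ * x = x * ((x⁻¹ * (g₀ * x * g₀⁻¹)) * x) := by group
      _ = x * (x * (x⁻¹ * (g₀ * x * g₀⁻¹))) := by rw [h3]
      _ = x * (g₀ * x * g₀⁻¹) := by group
  set C := Subgroup.centralizer ({x} : Set G) with hC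
  have hmemC : ∀ c : G, c ∈ C ↔ c * x = x * c := by
    intro c
    rw [hC, Subgroup.mem_centralizer_singleton_iff]
  have hxC : x ∈ C := (hmemC x).2 rfl
  have hx1 : x ≠ 1 := by
    rintro rfl
    apply hg₀; group
  have hfrob : Cfsg.IsFrobeniusComplement C := by
    refine ⟨fun h => hx1 (by simpa [h] using hxC), ?_, ?_⟩
    · intro h
      have : g₀ ∈ C := h ▸ Subgroup.mem_top g₀
      rw [hmemC] at this
      apply hg₀
      rw [this]; group
    · intro g hg
      by_contra hD
      set D := C ⊓ (MulAut.conj g • C) with hDdef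
      have hgx : g * x * g⁻¹ ≠ x := by
        intro h
        apply hg
        rw [hmemC]
        calc g * x = (g * x * g⁻¹) * g := by group
          _ = x * g := by rw [h]
      have hDx : ∀ d ∈ D, d * x = x * d := fun d hd => (hmemC d).1 hd.1
      have hDy : ∀ d ∈ D, d * (g * x * g⁻¹) = (g * x * g⁻¹) * d := by
        intro d hd
        have h1 := (hmemC _).1 (mem_conj_smul_iff.1 hd.2)
        calc d * (g * x * g⁻¹) = g * ((g⁻¹ * d * g) * x) * g⁻¹ := by group
          _ = g * (x * (g⁻¹ * d * g)) * g⁻¹ := by rw [h1]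
          _ = (g * x * g⁻¹) * d := by group
      have hcent : ∀ w : G, (∀ d ∈ D, d * w = w * d) → w ∈ Subgroup.normalizer (D : Set G) := by
        intro w hw
        apply Subgroup.centralizer_le_normalizer
        rw [Subgroup.mem_centralizer_iff]
        exact hw
      have hDn : D.Normal := by
        rw [← Subgroup.normalizer_eq_top_iff]
        by_contra hne
        exact hgx (hA _ hne (hcent x hDx) g (hcent _ hDy))
      by_cases hpD : p ∣ Nat.card D
      · obtain ⟨u, hu⟩ := exists_prime_orderOf_dvd_card' p hpD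
        have hu' : orderOf (u : G) = p := by rw [Subgroup.orderOf_coe]; exact hu
        have hucent : Subgroup.centralizer ({(u : G)} : Set G) = ⊤ := by
          by_contra hne
          apply hgx
          apply hA _ hne
          · rw [Subgroup.mem_centralizer_singleton_iff]
            exact (hDx u u.2).symm
          · rw [Subgroup.mem_centralizer_singleton_iff]
            exact (hDy u u.2).symm
        have hucenter : (u : G) ∈ Subgroup.center G := by
          rw [Subgroup.mem_center_iff]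
          intro w
          have : w ∈ Subgroup.centralizer ({(u : G)} : Set G) := hucent ▸ Subgroup.mem_top w
          rw [Subgroup.mem_centralizer_singleton_iff] at this
          exact this
        have hzc : Subgroup.zpowers (u : G) ≤ Subgroup.center G := by
          rw [Subgroup.zpowers_le]; exact hucenter
        refine hQ (Subgroup.zpowers (u : G)) ?_ ?_ ?_ (Or.inr ⟨?_, hzc⟩)
        · constructor
          intro a ha w
          have := Subgroup.mem_center_iff.1 (hzc ha) w
          rw [this, mul_inv_cancel_right]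
          exact ha
        · intro h
          rw [Subgroup.zpowers_eq_bot] at h
          rw [h, orderOf_one] at hu'
          exact hp.out.one_lt.ne hu'
        · intro d hd
          exact (Subgroup.mem_center_iff.1 (hzc hd) x).symm
        · exact IsPGroup.of_card (n := 1) (by rw [Nat.card_zpowers, hu', pow_one])
      · exact hQ D hDn hD hDx (Or.inl ((Nat.Prime.coprime_iff_not_dvd hp.out).2 hpD).symm)
  obtain ⟨N, -, hNn, hNc⟩ := Cfsg.Agent.S0035.result C hfrob
  obtain ⟨S, hS⟩ := (isPGroup_zpowers (p := p) hxp).exists_le_sylow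
  have hxS : x ∈ (S : Subgroup G) := hS (Subgroup.mem_zpowers x)
  have hSC : (S : Subgroup G) ≤ C := by
    intro s hs
    rw [hmemC]
    have := hWC _ S.2 hxS s (Subgroup.mul_mem _ (Subgroup.mul_mem _ hs hxS) (Subgroup.inv_mem _ hs))
    calc s * x = (s * x * s⁻¹) * s := by group
      _ = x * s := by rw [this]
  have hNcop : (Nat.card N).Coprime p := by
    rw [← hNc.index_eq_card, Nat.coprime_comm, Nat.Prime.coprime_iff_not_dvd hp.out]
    intro hd
    exact S.not_dvd_index (hd.trans (Subgroup.index_dvd_of_le hSC))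
  have hNx := hHB N hNcop (fun h hh => hNn.conj_mem h hh x)
  have hNC : N ≤ C := fun h hh => (hmemC h).2 (hNx h hh).symm
  have hNbot : N = ⊥ := by
    rw [eq_bot_iff, ← hNc.disjoint.eq_bot]
    exact le_inf le_rfl hNC
  have hCtop : C = ⊤ := by
    have := hNc.sup_eq_top
    rwa [hNbot, bot_sup_eq] at this
  exact hfrob.2.1 hCtop

/-- Let S be a Sylow p-subgroup of the finite group G and x an element of S such that (i) x is the only G-conjugate of x lying in S, and (ii) x centralizes every subgroup of order prime to p that it normalizes. Then x lies in the centre of G. -/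
theorem result {G : Type*} [Group G] [Finite G] {p : ℕ} [Fact p.Prime]
    (S : Sylow p G) (x : G) (hx : x ∈ S)
    (hU : ∀ g : G, g⁻¹ * x * g ∈ S → g⁻¹ * x * g = x)
    (hb : ∀ H : Subgroup G, (Nat.card H).Coprime p → (∀ h ∈ H, x * h * x⁻¹ ∈ H) → ∀ h ∈ H, x * h = h * x) :
    x ∈ Subgroup.center G := by
  obtain ⟨k, hk⟩ := S.2 ⟨x, hx⟩
  have hxp : x ^ p ^ k = 1 := by simpa using congrArg Subtype.val hk
  have := main p _ G rfl x k hxp (wc_of_sylow S x hU) hb
  rw [Subgroup.mem_center_iff]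
  intro g
  calc g * x = (g * x * g⁻¹) * g := by group
    _ = x * g := by rw [this g]

end Cfsg.Agent.S3064
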