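import Cfsg.Statements.S3073
import Cfsg.Agent.S1988
import Cfsg.Agent.S1978
import Cfsg.Agent.S0072
import Cfsg.Agent.Lib.Helper39.KInfMap
import Cfsg.Agent.Lib.Helper62.NPCApi

set_option autoImplicit false
universe u
open Cfsg

namespace Cfsg.Agent.S3073

open Cfsg.Agent.Lib.Helper39 Cfsg.Agent.Lib.Helper62 Cfsg.Agent.Lib.Helper77

theorem transport_eq {G S : Type u} [Group G] [Group S] (P : Subgroup G) (e : ↥P ≃* S) :
    ((Cfsg.kInfLower S).comap (e : ↥P →* S)).map P.subtype
      = Cfsg.inducedFunctor Cfsg.kInfLower P := by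
  unfold Cfsg.inducedFunctor
  congr 1
  rw [← map_kInfLower e]
  exact Subgroup.comap_map_eq_self_of_injective e.injective _

/-- For an odd prime p, every finite p-group S has a characteristic subgroup K with C_S(K) ≤ K such that, whenever S is (isomorphic to) a Sylow p-subgroup of a finite group G, G has a normal p-complement if and only if N_G(K)/C_G(K) is a p-group, i.e. every element of N_G(K) of order prime to p centralizes K (K transported into G along the isomorphism). -/
theorem result (p : ℕ) [Fact p.Prime] (hp : p ≠ 2)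
    (S : Type u) [Group S] [Finite S] (hS : IsPGroup p S) :
    ∃ K : Subgroup S, K.Characteristic ∧ Subgroup.centralizer (K : Set S) ≤ K ∧
      ∀ (G : Type u) [Group G] [Finite G] (P : Sylow p G) (e : ↥(P : Subgroup G) ≃* S),
        Cfsg.HasNormalPComplement p G ↔
          ∀ g ∈ Subgroup.normalizer (((K.comap (e : ↥(P : Subgroup G) →* S)).map (P : Subgroup G).subtype : Subgroup G) : Set G),
            (orderOf g).Coprime p →
              g ∈ Subgroup.centralizer (((K.comap (e : ↥(P : Subgroup G) →* S)).map (P : Subgroup G).subtype : Subgroup G) : Set G) := by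
  refine ⟨Cfsg.kInfLower S, ?_, (Cfsg.Agent.S1978.result hS).1, ?_⟩
  · rw [Subgroup.characteristic_iff_map_eq]
    intro φ
    exact map_kInfLower φ
  · intro G _ _ P e
    rw [transport_eq]
    constructor
    · intro h g hg hco
      rw [Cfsg.Agent.S0072.hasNPC_iff] at h
      obtain ⟨M, hMn, hMc, k, hk⟩ := h
      have hgM : g ∈ M := NPC.mem_of_coprime hk hco
      have hKP : Cfsg.inducedFunctor Cfsg.kInfLower (P : Subgroup G) ≤ P :=
        Subgroup.map_subtype_le _
      rw [Subgroup.mem_centralizer_iff]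
      intro x hx
      have hx' : x ∈ Cfsg.inducedFunctor Cfsg.kInfLower (P : Subgroup G) := hx
      have h1 : g * x * g⁻¹ ∈ Cfsg.inducedFunctor Cfsg.kInfLower (P : Subgroup G) :=
        (Subgroup.mem_normalizer_iff.1 hg x).1 hx'
      have h2 : g * x * g⁻¹ * x⁻¹ ∈ (P : Subgroup G) :=
        hKP (mul_mem h1 (inv_mem hx'))
      have h3 : g * x * g⁻¹ * x⁻¹ ∈ M := by
        have : g * x * g⁻¹ * x⁻¹ = g * (x * g⁻¹ * x⁻¹) := by group
        rw [this]
        exact mul_mem hgM (hMn.conj_mem _ (inv_mem hgM) x)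
      have hone : g * x * g⁻¹ * x⁻¹ = 1 := by
        obtain ⟨n, hn⟩ := (IsPGroup.iff_orderOf.1 P.isPGroup') ⟨_, h2⟩
        have hn' : orderOf (g * x * g⁻¹ * x⁻¹) = p ^ n := by
          rw [← hn]; exact (Subgroup.orderOf_mk _ h2).symm
        have hd : orderOf (g * x * g⁻¹ * x⁻¹) ∣ Nat.card M := by
          have := orderOf_dvd_natCard (⟨_, h3⟩ : M)
          rwa [Subgroup.orderOf_mk] at this
        have hc : (orderOf (g * x * g⁻¹ * x⁻¹)).Coprime (orderOf (g * x * g⁻¹ * x⁻¹)) := by
          have h4 : (orderOf (g * x * g⁻¹ * x⁻¹)).Coprime p := Nat.Coprime.coprime_dvd_left hd hMc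
          have h5 : (orderOf (g * x * g⁻¹ * x⁻¹)).Coprime (p ^ n) := Nat.Coprime.pow_right n h4
          rwa [← hn'] at h5
        have h6 : orderOf (g * x * g⁻¹ * x⁻¹) = 1 := (Nat.coprime_self _).1 hc
        exact orderOf_eq_one_iff.1 h6
      have : g * x = x * g := by
        have h7 : g * x * g⁻¹ = x := by
          have := mul_inv_eq_one.1 hone
          exact this
        calc g * x = g * x * g⁻¹ * g := by group
          _ = x * g := by rw [h7]
      exact this.symm
    · intro h
      exact Cfsg.Agent.S1988.result hp P (Or.inr h)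

end Cfsg.Agent.S3073
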