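import Cfsg.Statements.S3075
import Mathlib
import Cfsg.Agent.Lib.Helper57.Replacement
-- import your own Cfsg.Agent.* helpers here

set_option autoImplicit false
open Cfsg

namespace Cfsg.Agent.S3075

open Cfsg.Agent.Lib.Helper57

/-- An element `n` with `n ^ p ∈ A` normalizing a subgroup `Y ≤ A` of order `p` centralizes it. -/
theorem centralizes_of_card_prime {N : Type*} [Group N] {p : ℕ} [Fact p.Prime]
    (A : Subgroup N) [IsMulCommutative A] (hApow : ∀ a ∈ A, a ^ p = 1) (n : N) (hnp : n ^ p ∈ A)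
    (Y : Subgroup N) (hYA : Y ≤ A) (hY : Nat.card Y = p) (hnY : ∀ y ∈ Y, n * y * n⁻¹ ∈ Y) :
    ∀ y ∈ Y, n * y * n⁻¹ = y := by
  intro y hy
  by_cases hy1 : y = 1
  · subst hy1; simp
  have hy1' : (⟨y, hy⟩ : Y) ≠ 1 := fun h => hy1 (congrArg Subtype.val h)
  obtain ⟨k, hk⟩ := mem_powers_of_prime_card hY (g := ⟨y, hy⟩) (g' := ⟨n * y * n⁻¹, hnY y hy⟩) hy1'
  have hk' : y ^ k = n * y * n⁻¹ := by
    have := congrArg Subtype.val hk
    simpa using this
  have hiter : ∀ j : ℕ, n ^ j * y * (n ^ j)⁻¹ = y ^ (k ^ j) := by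
    intro j
    induction j with
    | zero => simp
    | succ j ih =>
      have : n ^ (j + 1) * y * (n ^ (j + 1))⁻¹ = n * (n ^ j * y * (n ^ j)⁻¹) * n⁻¹ := by
        rw [pow_succ']; group
      rw [this, ih, ← conj_pow, ← hk', ← pow_mul, pow_succ']
  have hord : orderOf y = p := orderOf_eq_prime (hApow y (hYA hy)) hy1
  have h1 : y ^ (k ^ p) = y ^ 1 := by
    rw [← hiter p, pow_one, setLike_mul_comm hnp (hYA hy), mul_assoc, mul_inv_cancel, mul_one]
  rw [pow_eq_pow_iff_modEq, hord] at h1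
  have h2 : k ^ p ≡ k [MOD p] := by
    rw [← ZMod.natCast_eq_natCast_iff]
    push_cast
    exact ZMod.pow_card _
  have h3 : k ≡ 1 [MOD p] := h2.symm.trans h1
  have h4 : y ^ k = y ^ 1 := by
    rw [pow_eq_pow_iff_modEq, hord]; exact h3
  rw [← hk', h4, pow_one]

theorem split_of {N Q : Type*} [Group N] [Finite N] [Group Q] {p : ℕ} [Fact p.Prime] (hp : p ≠ 2)
    (A : Subgroup N) [hAn : A.Normal] (hAcomm : IsMulCommutative A) (hAcard : Nat.card A = p ^ 2)
    (hApow : ∀ a ∈ A, a ^ p = 1) (hAself : Subgroup.centralizer (A : Set N) = A)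
    (π : N →* Q) (hπ : Function.Surjective π) (hker : ∀ x, π x = 1 ↔ x ∈ A)
    (z u : Q) (hz : ∀ q, z * q = q * z) (hz2 : z * z = 1) (hz1 : z ≠ 1) (hu1 : u ≠ 1)
    (hup : u ^ p = 1) :
    ∃ U : Subgroup N, A ⊓ U = ⊥ ∧ A ⊔ U = ⊤ := by
  classical
  have hpp : p.Prime := Fact.out
  obtain ⟨t, ht⟩ := hπ z
  obtain ⟨n, hn⟩ := hπ u
  have htA : t ∉ A := fun h => hz1 (by rw [← ht]; exact (hker t).2 h)
  have ht2 : t * t ∈ A := by rw [← hker, map_mul, ht, hz2]
  have hcomm : ∀ g : N, g * t * g⁻¹ * t⁻¹ ∈ A := by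
    intro g
    rw [← hker]
    simp only [map_mul, map_inv, ht]
    rw [← hz (π g), mul_assoc z, mul_inv_cancel, mul_one, mul_inv_cancel]
  have hnA : n ∉ A := fun h => hu1 (by rw [← hn]; exact (hker n).2 h)
  have hnp : n ^ p ∈ A := by rw [← hker, map_pow, hn, hup]
  have hτA : ∀ a ∈ A, t * a * t⁻¹ ∈ A := fun a ha => hAn.conj_mem a ha t
  have hττ : ∀ a ∈ A, t * (t * a * t⁻¹) * t⁻¹ = a := by
    intro a ha
    have : t * (t * a * t⁻¹) * t⁻¹ = (t * t) * a * (t * t)⁻¹ := by group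
    rw [this, setLike_mul_comm ht2 ha, mul_assoc, mul_inv_cancel, mul_one]
  have hinv : ∀ g : N, ∀ a ∈ A, t * (g * a * g⁻¹) * t⁻¹ = g * (t * a * t⁻¹) * g⁻¹ := by
    intro g a ha
    set b := g⁻¹ * t * g⁻¹⁻¹ * t⁻¹ with hb
    have hbA : b ∈ A := hcomm g⁻¹
    have h1 : t * (g * a * g⁻¹) * t⁻¹ = g * (b * (t * a * t⁻¹) * b⁻¹) * g⁻¹ := by
      rw [hb]; group
    rw [h1, setLike_mul_comm hbA (hτA a ha), mul_assoc (t * a * t⁻¹), mul_inv_cancel, mul_one]
  obtain ⟨m, hm⟩ : ∃ m, 2 * m = p + 1 := by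
    rcases hpp.eq_two_or_odd' with h | ⟨k, hk⟩
    · exact absurd h hp
    · exact ⟨k + 1, by omega⟩
  have hsqrt : ∀ a ∈ A, (a * a) ^ m = a := by
    intro a ha
    rw [← pow_two, ← pow_mul, hm, pow_succ, hApow a ha, one_mul]
  set C : Subgroup N := A ⊓ Subgroup.centralizer {t} with hC
  have hCmem : ∀ a, a ∈ C ↔ a ∈ A ∧ t * a * t⁻¹ = a := by
    intro a
    rw [hC, Subgroup.mem_inf, Subgroup.mem_centralizer_singleton_iff]
    constructor
    · rintro ⟨h1, h2⟩
      exact ⟨h1, by rw [← h2, mul_assoc, mul_inv_cancel, mul_one]⟩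
    · rintro ⟨h1, h2⟩
      refine ⟨h1, ?_⟩
      nth_rewrite 1 [← h2]
      group
  let D : Subgroup N :=
    { carrier := {a | a ∈ A ∧ t * a * t⁻¹ = a⁻¹}
      one_mem' := ⟨A.one_mem, by simp⟩
      mul_mem' := by
        rintro a b ⟨ha, ha'⟩ ⟨hb, hb'⟩
        refine ⟨A.mul_mem ha hb, ?_⟩
        have : t * (a * b) * t⁻¹ = (t * a * t⁻¹) * (t * b * t⁻¹) := by group
        rw [this, ha', hb', mul_inv_rev]
        exact setLike_mul_comm (A.inv_mem ha) (A.inv_mem hb)
      inv_mem' := by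
        rintro a ⟨ha, ha'⟩
        refine ⟨A.inv_mem ha, ?_⟩
        have : t * a⁻¹ * t⁻¹ = (t * a * t⁻¹)⁻¹ := by group
        rw [this, ha'] }
  have hDmem : ∀ a, a ∈ D ↔ a ∈ A ∧ t * a * t⁻¹ = a⁻¹ := fun a => Iff.rfl
  have hCA : C ≤ A := inf_le_left
  have hDA : D ≤ A := fun a ha => ha.1
  have hCD : C ⊓ D = ⊥ := by
    rw [eq_bot_iff]
    intro a ha
    obtain ⟨h1, h2⟩ := Subgroup.mem_inf.1 ha
    have h3 := ((hCmem a).1 h1).2
    have h4 := ((hDmem a).1 h2).2
    have h5 : a * a = 1 := by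
      have : a = a⁻¹ := h3.symm.trans h4
      nth_rewrite 1 [this]
      exact inv_mul_cancel a
    have h6 := hsqrt a (hCA h1)
    rw [h5, one_pow] at h6
    rw [Subgroup.mem_bot]; exact h6.symm
  have hCDsup : C ⊔ D = A := by
    apply le_antisymm (sup_le hCA hDA)
    intro a ha
    have hx : a * (t * a * t⁻¹) ∈ C := by
      rw [hCmem]
      refine ⟨A.mul_mem ha (hτA a ha), ?_⟩
      have : t * (a * (t * a * t⁻¹)) * t⁻¹ = (t * a * t⁻¹) * (t * (t * a * t⁻¹) * t⁻¹) := by group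
      rw [this, hττ a ha]
      exact setLike_mul_comm (hτA a ha) ha
    have hy : a * (t * a * t⁻¹)⁻¹ ∈ D := by
      rw [hDmem]
      refine ⟨A.mul_mem ha (A.inv_mem (hτA a ha)), ?_⟩
      have : t * (a * (t * a * t⁻¹)⁻¹) * t⁻¹ = (t * a * t⁻¹) * (t * (t * a * t⁻¹) * t⁻¹)⁻¹ := by group
      rw [this, hττ a ha, mul_inv_rev, inv_inv]
    have hxy : (a * (t * a * t⁻¹)) * (a * (t * a * t⁻¹)⁻¹) = a * a := by
      rw [mul_assoc, ← mul_assoc (t * a * t⁻¹), setLike_mul_comm (hτA a ha) ha, mul_assoc a,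
        mul_inv_cancel, mul_one]
    rw [← hsqrt a ha, ← hxy]
    exact Subgroup.pow_mem _ (Subgroup.mul_mem_sup hx hy) m
  by_cases hCbot : C = ⊥
  · -- t inverts A
    have hDeq : D = A := by rw [← hCDsup, hCbot, bot_sup_eq]
    have hinvA : ∀ a ∈ A, t * a * t⁻¹ = a⁻¹ := by
      intro a ha
      rw [← hDeq] at ha
      exact ha.2
    refine ⟨Subgroup.centralizer {t}, hCbot, ?_⟩
    rw [eq_top_iff]
    intro g _
    set a₀ := g * t * g⁻¹ * t⁻¹ with ha₀
    have ha₀A : a₀ ∈ A := hcomm g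
    set a := a₀ ^ m with ha
    have haA : a ∈ A := A.pow_mem ha₀A m
    have haa : a * a = a₀ := by
      rw [ha, ← pow_add, ← two_mul, hm, pow_succ, hApow a₀ ha₀A, one_mul]
    have h1 : a * t * a⁻¹ = a₀ * t := by
      have h2 := hinvA a⁻¹ (A.inv_mem haA)
      rw [inv_inv] at h2
      have : a * t * a⁻¹ = a * (t * a⁻¹ * t⁻¹) * t := by group
      rw [this, h2, haa]
    have h3 : a⁻¹ * g ∈ Subgroup.centralizer {t} := by
      rw [Subgroup.mem_centralizer_singleton_iff]
      have h4 : g * t * g⁻¹ = a * t * a⁻¹ := by rw [h1, ha₀]; group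
      have h5 : a⁻¹ * g * t = a⁻¹ * (g * t * g⁻¹) * g := by group
      rw [h5, h4]; group
    have : g = a * (a⁻¹ * g) := by group
    rw [this]
    exact Subgroup.mul_mem_sup haA h3
  · exfalso
    have hCdvd : Nat.card C ∣ p ^ 2 := hAcard ▸ Subgroup.card_dvd_of_le hCA
    obtain ⟨i, hi, hCi⟩ := (Nat.dvd_prime_pow hpp).1 hCdvd
    have hi0 : i ≠ 0 := by
      intro h0
      rw [h0, pow_zero] at hCi
      exact hCbot (Subgroup.card_eq_one.1 hCi)
    have hi2 : i ≠ 2 := by
      intro h2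
      rw [h2] at hCi
      have hCeq : C = A := Subgroup.eq_of_le_of_card_ge hCA (by rw [hCi, hAcard])
      apply htA
      rw [← hAself, Subgroup.mem_centralizer_iff]
      intro a ha
      have ha' : a ∈ C := by rw [hCeq]; exact ha
      exact Subgroup.mem_centralizer_singleton_iff.1 (Subgroup.mem_inf.1 ha').2
    have hi1 : i = 1 := by omega
    rw [hi1, pow_one] at hCi
    have hcardCD := card_sup_mul_card_inf' (H := C) (K := D) (by
      rw [Subgroup.le_normalizer_iff]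
      intro c hc d hd
      rw [setLike_mul_comm (hCA hc) (hDA hd), mul_assoc, mul_inv_cancel, mul_one]
      exact hd)
    rw [hCDsup, hCD, hAcard, hCi, Subgroup.card_bot, mul_one, pow_two] at hcardCD
    have hDi : Nat.card D = p := (Nat.eq_of_mul_eq_mul_left hpp.pos hcardCD).symm
    have hnC : ∀ y ∈ C, n * y * n⁻¹ ∈ C := by
      intro y hy
      obtain ⟨h1, h2⟩ := (hCmem y).1 hy
      rw [hCmem]
      exact ⟨hAn.conj_mem y h1 n, by rw [hinv n y h1, h2]⟩
    have hnD : ∀ y ∈ D, n * y * n⁻¹ ∈ D := by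
      intro y hy
      obtain ⟨h1, h2⟩ := (hDmem y).1 hy
      rw [hDmem]
      refine ⟨hAn.conj_mem y h1 n, ?_⟩
      rw [hinv n y h1, h2]; group
    have hcC := centralizes_of_card_prime A hApow n hnp C hCA hCi hnC
    have hcD := centralizes_of_card_prime A hApow n hnp D hDA hDi hnD
    apply hnA
    rw [← hAself]
    have hle : A ≤ Subgroup.centralizer {n} := by
      rw [← hCDsup]
      refine sup_le ?_ ?_
      · intro y hy
        rw [Subgroup.mem_centralizer_singleton_iff]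
        nth_rewrite 1 [← hcC y hy]
        group
      · intro y hy
        rw [Subgroup.mem_centralizer_singleton_iff]
        nth_rewrite 1 [← hcD y hy]
        group
    rw [Subgroup.mem_centralizer_iff]
    intro a ha
    exact Subgroup.mem_centralizer_singleton_iff.1 (hle ha)


/-- Let p be an odd prime and N a finite group with a normal elementary abelian subgroup A of order p² that is its own centralizer in N, such that N/A is isomorphic to SL₂(p) (over any field F with p elements). Then N splits over A: some subgroup U of N satisfies A ∩ U = 1 and AU = N. -/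
theorem result {N : Type*} [Group N] [Finite N] {p : ℕ} [Fact p.Prime] (hp : p ≠ 2)
    (A : Subgroup N) [A.Normal] (hAcomm : IsMulCommutative A) (hAcard : Nat.card A = p ^ 2) (hAexp : Monoid.exponent ↥A = p)
    (hAself : Subgroup.centralizer (A : Set N) = A)
    {F : Type*} [Field F] [Fintype F] (hF : Fintype.card F = p) (e : N ⧸ A ≃* Matrix.SpecialLinearGroup (Fin 2) F) :
    ∃ U : Subgroup N, A ⊓ U = ⊥ ∧ A ⊔ U = ⊤ := by
  classical
  have hpp : p.Prime := Fact.out
  have hApow : ∀ a ∈ A, a ^ p = 1 := by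
    intro a ha
    have := Monoid.pow_exponent_eq_one (⟨a, ha⟩ : A)
    rw [hAexp] at this
    simpa using congrArg Subtype.val this
  have h2F : (2 : F) ≠ 0 := by
    intro h2
    have h1 : addOrderOf (1 : F) ∣ 2 := by
      apply addOrderOf_dvd_of_nsmul_eq_zero
      simpa using h2
    have h3 : addOrderOf (1 : F) ∣ p := by
      rw [← hF, ← Nat.card_eq_fintype_card]
      exact addOrderOf_dvd_natCard 1
    have h4 : addOrderOf (1 : F) ∣ Nat.gcd 2 p := Nat.dvd_gcd h1 h3
    rw [(Nat.coprime_primes Nat.prime_two hpp).2 (Ne.symm hp)] at h4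
    have h5 : addOrderOf (1 : F) = 1 := Nat.dvd_one.1 h4
    rw [AddMonoid.addOrderOf_eq_one_iff] at h5
    exact one_ne_zero h5
  have hpF : (p : F) = 0 := by
    rw [← hF]; exact FiniteField.cast_card_eq_zero F
  let z : Matrix.SpecialLinearGroup (Fin 2) F := ⟨-1, by simp [Matrix.det_neg]⟩
  let u : Matrix.SpecialLinearGroup (Fin 2) F := ⟨!![1, 1; 0, 1], by simp [Matrix.det_fin_two_of]⟩
  have hz : ∀ q, z * q = q * z := by
    intro q
    apply Subtype.ext
    show (-1 : Matrix (Fin 2) (Fin 2) F) * q.1 = q.1 * (-1)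
    simp
  have hz2 : z * z = 1 := by
    apply Subtype.ext
    show (-1 : Matrix (Fin 2) (Fin 2) F) * (-1) = 1
    simp
  have hz1 : z ≠ 1 := by
    intro h
    have h1 : (-1 : Matrix (Fin 2) (Fin 2) F) 0 0 = (1 : Matrix (Fin 2) (Fin 2) F) 0 0 :=
      congrFun (congrFun (congrArg Subtype.val h) 0) 0
    simp only [Matrix.neg_apply, Matrix.one_apply_eq] at h1
    apply h2F
    have : (2 : F) = 1 - (-1) := by ring
    rw [this, h1]; ring
  have hu1 : u ≠ 1 := by
    intro h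
    have h1 : (!![1, 1; 0, 1] : Matrix (Fin 2) (Fin 2) F) 0 1 = (1 : Matrix (Fin 2) (Fin 2) F) 0 1 :=
      congrFun (congrFun (congrArg Subtype.val h) 0) 1
    simp at h1
  have hupow : ∀ k : ℕ, ((u ^ k : Matrix.SpecialLinearGroup (Fin 2) F) : Matrix (Fin 2) (Fin 2) F)
      = !![1, (k : F); 0, 1] := by
    intro k
    induction k with
    | zero =>
      simp [Matrix.one_fin_two]
    | succ k ih =>
      rw [pow_succ, Matrix.SpecialLinearGroup.coe_mul, ih]
      show !![1, (k : F); 0, 1] * !![1, 1; 0, 1] = _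
      rw [Matrix.mul_fin_two]
      simp [add_comm]
  have hup : u ^ p = 1 := by
    apply Subtype.ext
    rw [hupow p, hpF]
    simp [Matrix.one_fin_two]
  refine split_of hp A hAcomm hAcard hApow hAself (e.toMonoidHom.comp (QuotientGroup.mk' A)) ?_ ?_
    z u hz hz2 hz1 hu1 hup
  · exact e.surjective.comp (QuotientGroup.mk'_surjective A)
  · intro x
    simp only [MonoidHom.comp_apply, MulEquiv.coe_toMonoidHom, QuotientGroup.mk'_apply]
    rw [MulEquiv.map_eq_one_iff, QuotientGroup.eq_one_iff]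

end Cfsg.Agent.S3075
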