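import Cfsg.Statements.S3078
import Cfsg.Agent.Lib.Helper57.Repl3
-- import your own Cfsg.Agent.* helpers here

set_option autoImplicit false
open Cfsg

namespace Cfsg.Agent.S3078


open Cfsg.Agent.Lib.Helper57.Repl2 in
theorem omegaOne_eq_tor {G : Type*} [Group G] (p : ℕ) (A : Subgroup G)
    (hA : ∀ x ∈ A, ∀ y ∈ A, x * y = y * x) : Cfsg.omegaOne p A = tor A hA p := by
  unfold Cfsg.omegaOne
  exact Subgroup.closure_eq (tor A hA p)

/-- A replacement Theorem for abelian subgroups of p-groups, p odd. Let G be a finite p-group with p odd, A an abelian subgroup of G, and B a subgroup of nilpotency class at most 2 with [B, B] ≤ A, such that A normalizes B but B does not normalize A. Then there is an abelian subgroup A* of G of the same order as A with A ∩ B strictly contained in A* ∩ B, A* contained in N_G(A) and in the normal closure of A, the exponent of A* dividing the exponent of A, and with the subgroup generated by the elements of order dividing p in A of order at most that of the corresponding subgroup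 of A* (the rank of A is at most the rank of A*). -/
theorem result {G : Type*} [Group G] [Finite G] {p : ℕ} [Fact p.Prime] (hp : p ≠ 2) (hG : IsPGroup p G) (A B : Subgroup G) (hA : IsMulCommutative A) (hB2 : ⁅⁅B, B⁆, B⁆ = ⊥) (hBA : ⁅B, B⁆ ≤ A) (hAB : A ≤ Subgroup.normalizer (B : Set G)) (hBnA : ¬ B ≤ Subgroup.normalizer (A : Set G)) : ∃ Astar : Subgroup G, IsMulCommutative Astar ∧ Nat.card Astar = Nat.card A ∧ A ⊓ B < Astar ⊓ B ∧ Astar ≤ Subgroup.normalizer (A : Set G) ∧ Astar ≤ Subgroup.normalClosure (A : Set G) ∧ Monoid.exponent Astar ∣ Monoid.exponent A ∧ Nat.card (Cfsg.omegaOne p A) ≤ Nat.card (Cfsg.omegaOne p Astar) := by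
  classical
  have hAc : ∀ x ∈ A, ∀ y ∈ A, x * y = y * x := fun x hx y hy => by
    have := hA.is_comm.comm ⟨x, hx⟩ ⟨y, hy⟩
    exact congrArg Subtype.val this
  have hpg : IsPGroup p ↥(A ⊔ B) := hG.to_subgroup _
  obtain ⟨X, hX, h1, h2, h3, _, h5, h6, h7⟩ :=
    Cfsg.Agent.Lib.Helper57.Repl2.replacement hp hpg hAc hBA hAB hBnA
  have hpodd : Odd p := (Fact.out : p.Prime).odd_of_ne_two hp
  refine ⟨X, ⟨⟨fun x y => Subtype.ext (hX x x.2 y y.2)⟩⟩, h1, h2, h3, h5, ?_, ?_⟩
  · have hdvd : Monoid.exponent A ∣ Nat.card A := Group.exponent_dvd_nat_card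
    obtain ⟨k, hk⟩ := (hG.to_subgroup A).exists_card_eq
    rw [hk] at hdvd
    obtain ⟨j, _, hj⟩ := (Nat.dvd_prime_pow (Fact.out : p.Prime)).mp hdvd
    have hodd : Odd (Monoid.exponent A) := by rw [hj]; exact hpodd.pow
    apply Monoid.exponent_dvd_of_forall_pow_eq_one
    intro x
    apply Subtype.ext
    have := h6 _ hodd (fun a ha => by
      have := Monoid.pow_exponent_eq_one (⟨a, ha⟩ : A)
      exact congrArg Subtype.val this) x x.2
    simpa using this
  · rw [omegaOne_eq_tor p A hAc, omegaOne_eq_tor p X hX]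
    exact h7 p hpodd

end Cfsg.Agent.S3078
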