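import Cfsg.Statements.S3116
import Mathlib.FieldTheory.Finite.Basic
import Mathlib.Tactic
-- import your own Cfsg.Agent.* helpers here

set_option autoImplicit false
open Cfsg

namespace Cfsg.Agent.S3116

theorem aut_two_group {X : Type*} [Group X] (x y : X) (n : ℕ)
    (hx : orderOf x = 2 ^ n)
    (hcover : ∀ g : X, g ∈ Subgroup.zpowers x ∨ ∃ k : ℕ, g = y * x ^ k)
    (hy : y ∉ Subgroup.zpowers x)
    (hord : ∀ g : X, g ∉ Subgroup.zpowers x → orderOf g ≠ 2 ^ n) :
    IsPGroup 2 (MulAut X) := by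
  intro α
  have hfin : IsOfFinOrder x := by
    rw [← orderOf_pos_iff, hx]; positivity
  have hpow : ∀ g : X, g ∈ Subgroup.zpowers x → ∃ k : ℕ, g = x ^ k := by
    intro g hg
    rw [← hfin.mem_powers_iff_mem_zpowers] at hg
    obtain ⟨k, hk⟩ := hg
    exact ⟨k, hk.symm⟩
  have hαx : α x ∈ Subgroup.zpowers x := by
    by_contra h
    apply hord _ h
    rw [← hx]
    exact orderOf_injective α.toMonoidHom α.injective x
  obtain ⟨i, hi⟩ := hpow _ hαx
  have hiter : ∀ k : ℕ, (α ^ k) x = x ^ (i ^ k) := by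
    intro k
    induction k with
    | zero => simp
    | succ k ih =>
      rw [pow_succ', MulAut.mul_apply, ih, map_pow, hi, ← pow_mul, pow_succ']
  have hcop : Nat.Coprime i (2 ^ n) := by
    have h1 : orderOf (x ^ i) = 2 ^ n := by
      rw [← hi, ← hx]
      exact orderOf_injective α.toMonoidHom α.injective x
    rcases Nat.eq_zero_or_pos i with h0 | h0
    · subst h0
      simp at h1
      rw [← h1]; simp
    · rw [orderOf_pow' x h0.ne', hx] at h1
      have h2 : (2 ^ n).gcd i = 1 := by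
        have hpos : 0 < 2 ^ n := by positivity
        rcases (Nat.div_eq_self.1 h1) with h | h
        · omega
        · exact h
      exact (Nat.coprime_comm.1 h2)
  -- a 2-power K with i ^ K ≡ 1
  have hK : i ^ (2 ^ n) ≡ 1 [MOD 2 ^ n] := by
    rcases Nat.eq_zero_or_pos n with h0 | h0
    · subst h0
      simp [Nat.modEq_one]
    · obtain ⟨m, rfl⟩ : ∃ m, n = m + 1 := ⟨n - 1, by omega⟩
      have h1 := Nat.ModEq.pow_totient hcop
      rw [Nat.totient_prime_pow_succ Nat.prime_two] at h1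
      have h2 : i ^ (2 ^ (m + 1)) = (i ^ (2 ^ m * (2 - 1))) ^ 2 := by
        rw [← pow_mul]; congr 1; ring
      rw [h2]
      simpa using h1.pow 2
  set β := α ^ (2 ^ n) with hβ
  have hβx : β x = x := by
    rw [hβ, hiter]
    have : x ^ (i ^ 2 ^ n) = x ^ 1 := by
      rw [pow_eq_pow_iff_modEq, hx]; exact hK
    simpa using this
  have hβy : β y ∉ Subgroup.zpowers x := by
    intro h
    obtain ⟨k, hk⟩ := hpow _ h
    apply hy
    have : β y = β (x ^ k) := by rw [map_pow, hβx, hk]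
    rw [β.injective this]
    exact Subgroup.pow_mem _ (Subgroup.mem_zpowers x) k
  obtain ⟨j, hj⟩ := (hcover (β y)).resolve_left hβy
  have hiterx : ∀ k : ℕ, (β ^ k) x = x := by
    intro k
    induction k with
    | zero => simp
    | succ k ih => rw [pow_succ', MulAut.mul_apply, ih, hβx]
  have hitery : ∀ k : ℕ, (β ^ k) y = y * x ^ (j * k) := by
    intro k
    induction k with
    | zero => simp
    | succ k ih =>
      rw [pow_succ', MulAut.mul_apply, ih, map_mul, map_pow, hβx, hj, mul_assoc, ← pow_add]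
      congr 2; ring
  refine ⟨n + n, ?_⟩
  have hγ : α ^ 2 ^ (n + n) = β ^ (2 ^ n) := by
    rw [hβ, ← pow_mul, pow_add]
  rw [hγ]
  have hγx := hiterx (2 ^ n)
  have hγy : (β ^ (2 ^ n)) y = y := by
    rw [hitery, pow_mul, pow_right_comm, ← hx, pow_orderOf_eq_one]; simp
  ext g
  rcases hcover g with hg | ⟨k, rfl⟩
  · obtain ⟨k, rfl⟩ := hpow _ hg
    rw [map_pow, hγx]; rfl
  · rw [map_mul, map_pow, hγx, hγy]; rfl

theorem dihedral_case (m : ℕ) (hm : 4 ≤ m) (h2 : IsPGroup 2 (DihedralGroup m)) :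
    IsPGroup 2 (MulAut (DihedralGroup m)) := by
  have : NeZero m := ⟨by omega⟩
  obtain ⟨k, hk⟩ := h2 (DihedralGroup.r 1)
  have h1 : m ∣ 2 ^ k := by
    have := orderOf_dvd_of_pow_eq_one hk
    rwa [DihedralGroup.orderOf_r_one] at this
  obtain ⟨n, -, hn⟩ := (Nat.dvd_prime_pow Nat.prime_two).1 h1
  have hmem : ∀ i : ZMod m, DihedralGroup.r i ∈ Subgroup.zpowers (DihedralGroup.r (1 : ZMod m)) := by
    intro i
    refine ⟨(i.val : ℤ), ?_⟩
    simp [DihedralGroup.r_one_zpow]
  have hnmem : ∀ i : ZMod m, DihedralGroup.sr i ∉ Subgroup.zpowers (DihedralGroup.r (1 : ZMod m)) := by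
    rintro i ⟨k, hk⟩
    simp [DihedralGroup.r_one_zpow] at hk
  refine aut_two_group (DihedralGroup.r 1) (DihedralGroup.sr 0) n ?_ ?_ (hnmem 0) ?_
  · rw [DihedralGroup.orderOf_r_one, hn]
  · intro g
    cases g with
    | r i => exact Or.inl (hmem i)
    | sr i =>
      refine Or.inr ⟨i.val, ?_⟩
      simp [DihedralGroup.r_one_pow]
  · intro g hg
    cases g with
    | r i => exact absurd (hmem i) hg
    | sr i =>
      rw [DihedralGroup.orderOf_sr, ← hn]
      omega

theorem quasi_case {X : Type*} [Group X] [Finite X] (h : Cfsg.IsQuasiDihedral X) :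
    IsPGroup 2 (MulAut X) := by
  obtain ⟨n, hn, hcard, x, y, hx, hy, hxy⟩ := h
  have h8 : 8 ≤ 2 ^ n := by
    calc 8 = 2 ^ 3 := by norm_num
      _ ≤ 2 ^ n := Nat.pow_le_pow_right (by norm_num) hn
  have hhalf : 2 ^ n = 2 * 2 ^ (n - 1) := by
    obtain ⟨m, rfl⟩ : ∃ m, n = m + 1 := ⟨n - 1, by omega⟩
    simp [pow_succ, mul_comm]
  have hynot : y ∉ Subgroup.zpowers x := by
    intro hmem
    obtain ⟨k, hk⟩ := hmem
    have hcomm : y * x * y⁻¹ = x := by
      rw [← hk]; group
    rw [hcomm] at hxy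
    have h1 : x ^ 1 = x ^ (2 ^ (n - 1) - 1) := by simpa using hxy
    rw [pow_eq_pow_iff_modEq, hx] at h1
    have h2 := Nat.ModEq.eq_of_lt_of_lt h1 (by omega) (by omega)
    omega
  have hidx : (Subgroup.zpowers x).index = 2 := by
    have h1 := (Subgroup.zpowers x).card_mul_index
    rw [Nat.card_zpowers, hx, hcard, pow_succ] at h1
    exact Nat.eq_of_mul_eq_mul_left (by positivity) h1
  have hfin : IsOfFinOrder x := isOfFinOrder_of_finite x
  have hcover : ∀ g : X, g ∈ Subgroup.zpowers x ∨ ∃ k : ℕ, g = y * x ^ k := by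
    intro g
    by_cases hg : g ∈ Subgroup.zpowers x
    · exact Or.inl hg
    · right
      have h1 : y⁻¹ * g ∈ Subgroup.zpowers x := by
        rw [Subgroup.mul_mem_iff_of_index_two hidx, inv_mem_iff]
        exact ⟨fun h => absurd h hynot, fun h => absurd h hg⟩
      rw [← hfin.mem_powers_iff_mem_zpowers] at h1
      obtain ⟨k, hk⟩ := h1
      refine ⟨k, ?_⟩
      change x ^ k = y⁻¹ * g at hk
      rw [hk]; group
  refine aut_two_group x y n hx hcover hynot ?_
  intro g hg
  obtain ⟨k, rfl⟩ := (hcover g).resolve_left hg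
  have hyy : y * y = 1 := by
    have := pow_orderOf_eq_one y
    rwa [hy, sq] at this
  have hconj : y * x ^ k * y⁻¹ = x ^ ((2 ^ (n - 1) - 1) * k) := by
    rw [pow_mul, ← hxy, conj_pow]
  have hsq : (y * x ^ k) * (y * x ^ k) = x ^ (2 ^ (n - 1) * k) := by
    have : (y * x ^ k) * (y * x ^ k) = (y * x ^ k * y⁻¹) * (y * y) * x ^ k := by group
    rw [this, hconj, hyy, mul_one, ← pow_add]
    congr 1
    have : 1 ≤ 2 ^ (n - 1) := Nat.one_le_two_pow
    obtain ⟨c, hc⟩ : ∃ c, 2 ^ (n - 1) = c + 1 := ⟨2 ^ (n - 1) - 1, by omega⟩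
    rw [hc]; simp; ring
  have h4 : (y * x ^ k) ^ 4 = 1 := by
    have : (y * x ^ k) ^ 4 = ((y * x ^ k) * (y * x ^ k)) * ((y * x ^ k) * (y * x ^ k)) := by
      simp only [pow_succ, pow_zero, one_mul, mul_assoc]
    rw [this, hsq, ← pow_add, ← two_mul, ← mul_assoc, ← hhalf, pow_mul, ← hx, pow_orderOf_eq_one,
      one_pow]
  have h5 : orderOf (y * x ^ k) ≤ 4 := Nat.le_of_dvd (by norm_num) (orderOf_dvd_of_pow_eq_one h4)
  omega


/-- The automorphism group of a dihedral 2-group of order at least 8, or of a quasi-dihedral (semidihedral) 2-group of order at least 16, is a 2-group. -/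
theorem result {X : Type*} [Group X] [Finite X] (h2 : IsPGroup 2 X)
    (h : (∃ n : ℕ, 4 ≤ n ∧ Nonempty (X ≃* DihedralGroup n)) ∨ Cfsg.IsQuasiDihedral X) : IsPGroup 2 (MulAut X) := by
  rcases h with ⟨n, hn, ⟨e⟩⟩ | h
  · have h1 : IsPGroup 2 (DihedralGroup n) := h2.of_equiv e
    exact (dihedral_case n hn h1).of_equiv (MulAut.congr e).symm
  · exact quasi_case h

end Cfsg.Agent.S3116
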