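import Cfsg.Statements.S3155
-- import your own Cfsg.Agent.* helpers here
import Mathlib

set_option autoImplicit false
open Cfsg

namespace Cfsg.Agent.S3155

/-- Let B be the direct product of three cyclic groups of order 4. Then the automorphism of B inverting every element is not the square of any automorphism of B. -/
theorem result {B : Type*} [CommGroup B] [Finite B] (hB : Nonempty (B ≃* Multiplicative (ZMod 4 × ZMod 4 × ZMod 4)))
    (τ : B ≃* B) : τ.trans τ ≠ MulEquiv.inv B := by
  intro hτ
  haveI : Fact (1 < 4) := ⟨by norm_num⟩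
  obtain ⟨e⟩ := hB
  let σ : Multiplicative (ZMod 4 × ZMod 4 × ZMod 4) →* Multiplicative (ZMod 4 × ZMod 4 × ZMod 4) :=
    (e.toMonoidHom.comp τ.toMonoidHom).comp e.symm.toMonoidHom
  let f : (ZMod 4 × ZMod 4 × ZMod 4) →+ (ZMod 4 × ZMod 4 × ZMod 4) := AddMonoidHom.toMultiplicative.symm σ
  let F : (ZMod 4 × ZMod 4 × ZMod 4) →ₗ[ZMod 4] (ZMod 4 × ZMod 4 × ZMod 4) := f.toZModLinearMap 4
  have hFF : F * F = (-1 : ZMod 4) • (1 : (ZMod 4 × ZMod 4 × ZMod 4) →ₗ[ZMod 4] (ZMod 4 × ZMod 4 × ZMod 4)) := by
    apply LinearMap.ext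
    intro v
    have h1 : ∀ b : B, τ (τ b) = b⁻¹ := fun b => by
      have := congrArg (fun g : B ≃* B => g b) hτ
      simpa using this
    have h2 : F (F v) = -v := by
      show Multiplicative.toAdd (e (τ (e.symm (Multiplicative.ofAdd (Multiplicative.toAdd
        (e (τ (e.symm (Multiplicative.ofAdd v))))))))) = -v
      simp [h1]
    simpa using h2
  have hdet := congrArg LinearMap.det hFF
  rw [map_mul, LinearMap.det_smul, map_one] at hdet
  have hrank : Module.finrank (ZMod 4) (ZMod 4 × ZMod 4 × ZMod 4) = 3 := by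
    rw [Module.finrank_prod, Module.finrank_prod, Module.finrank_self]
  rw [hrank] at hdet
  revert hdet
  generalize LinearMap.det F = d
  revert d
  decide

end Cfsg.Agent.S3155
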