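import Cfsg.Statements.S3174
import Cfsg.Agent.Lib.Helper27.T14.FRAT
import Cfsg.Agent.Lib.Helper27.T14.ORD
import Cfsg.Agent.Lib.Helper27.T14.UCS
import Cfsg.Agent.Lib.Helper27.T14.DER
import Cfsg.Agent.Lib.Helper27.T14.CTX
import Cfsg.Agent.Lib.Helper27.T14.ZW
import Cfsg.Agent.Lib.Helper27.T14.DIH

set_option autoImplicit false
open Cfsg

namespace Cfsg.Agent.S3174

open Cfsg.Agent.Lib.Helper27.T14 in
/-- Let T be a finite 2-group of order at least 2^14 in which the fourth term of the upper central series has order 16. Let W be the centralizer in T of the third term Z₃(T), and suppose the Frattini subgroup of W has order at most 8 and lies in every subgroup of W of index at most 16. Then T has order exactly 2^14; the derived subgroup of W and the Frattini subgroup of W both equal Z₃(T), which is elementary abelian of order 8; the centre of W has order 8; W is normal in T with quotient dihedral of order 8; and W modulo its derived subgroup is elementary abelian of order 2^8. -/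
theorem result {T : Type*} [Group T] [Finite T]
    (hT : IsPGroup 2 T) (ha : 2 ^ 14 ≤ Nat.card T) (hb : Nat.card ↥(Subgroup.upperCentralSeries T 4) = 16)
    (W : Subgroup T) (hW : W = Subgroup.centralizer ((Subgroup.upperCentralSeries T 3 : Subgroup T) : Set T))
    (hc : Nat.card ↥(frattini ↥W) ≤ 8) (hd : ∀ U : Subgroup ↥W, U.index ≤ 16 → frattini ↥W ≤ U) :
    Nat.card T = 2 ^ 14 ∧
      (commutator ↥W).map W.subtype = Subgroup.upperCentralSeries T 3 ∧
      (frattini ↥W).map W.subtype = Subgroup.upperCentralSeries T 3 ∧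
      Nat.card ↥(Subgroup.center ↥W) = 8 ∧
      Nat.card ↥(Subgroup.upperCentralSeries T 3) = 8 ∧ (∀ z ∈ Subgroup.upperCentralSeries T 3, z ^ 2 = 1) ∧
      (∃ (_ : W.Normal), Nonempty (T ⧸ W ≃* DihedralGroup 4)) ∧
      Nat.card (↥W ⧸ commutator ↥W) = 2 ^ 8 ∧ (∀ x : ↥W ⧸ commutator ↥W, x ^ 2 = 1) := by
  have h : Hyp T W := MKH hT ha hb W hW hc hd
  obtain ⟨o1, o2, o3, o4⟩ := ORD h
  obtain ⟨u1, u2, u3⟩ := UCS hT ha hb
  obtain ⟨d1, d2⟩ := DER h
  have c := CTX h
  have hfr := FRAT W (hT.to_subgroup W)
  have hcm : (commutator ↥W).map W.subtype = Subgroup.upperCentralSeries T 3 := by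
    rw [commutator_def, Subgroup.map_commutator, ← MonoidHom.range_eq_map, Subgroup.range_subtype]
    exact d1
  have hcen : (Subgroup.center ↥W).map W.subtype = Subgroup.upperCentralSeries T 3 := by
    ext x
    constructor
    · rintro ⟨⟨w, hw⟩, hwc, rfl⟩
      apply ZW c w hw
      intro v hv
      have := Subgroup.mem_center_iff.1 hwc ⟨v, hv⟩
      exact (congrArg Subtype.val this).symm
    · intro hx
      refine ⟨⟨x, c.le3W hx⟩, ?_, rfl⟩
      rw [SetLike.mem_coe, Subgroup.mem_center_iff]
      intro g
      exact Subtype.ext (c.cen3 g g.2 x hx)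
  have hcardmap : ∀ S : Subgroup ↥W, Nat.card (S.map W.subtype) = Nat.card S := fun S =>
    (Nat.card_congr (S.equivMapOfInjective W.subtype W.subtype_injective).toEquiv).symm
  have hcc : Nat.card (commutator ↥W) = 8 := by rw [← hcardmap, hcm, u3]
  refine ⟨o1, hcm, by rw [hfr, o2], by rw [← hcardmap, hcen, u3], u3,
    fun z hz => by rw [pow_two]; exact d2 z hz, DIH h, ?_, ?_⟩
  · have := Subgroup.card_eq_card_quotient_mul_card_subgroup (commutator ↥W)
    rw [hcc, o4] at this
    omega
  · intro x
    induction x using QuotientGroup.induction_on with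
    | H w =>
      rw [← QuotientGroup.mk_pow, QuotientGroup.eq_one_iff]
      have h1 : ((w : T)) ^ 2 ∈ Subgroup.upperCentralSeries T 3 := c.sqW w w.2
      rw [← hcm] at h1
      obtain ⟨y, hy, hyw⟩ := h1
      have : y = w ^ 2 := Subtype.ext (by simpa using hyw)
      rw [← this]
      exact hy

end Cfsg.Agent.S3174
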