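import Cfsg.Statements.S3175
import Cfsg.Agent.Lib.Helper27.T14.ODD
import Cfsg.Agent.Lib.Helper27.T14.FRAT
import Cfsg.Agent.Lib.Helper27.T14.BRG
import Cfsg.Agent.Lib.Helper27.T14.NPC

set_option autoImplicit false
open Cfsg

namespace Cfsg.Agent.S3175

open Cfsg.Agent.Lib.Helper27.T14 in
theorem result {G : Type*} [Group G] [Finite G]
    (T : Sylow 2 G) (ha : 2 ^ 14 ≤ Nat.card ↥(T : Subgroup G))
    (hb : Nat.card ↥(Subgroup.upperCentralSeries ↥(T : Subgroup G) 4) = 16)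
    (W : Subgroup ↥(T : Subgroup G))
    (hW : W = Subgroup.centralizer ((Subgroup.upperCentralSeries ↥(T : Subgroup G) 3 : Subgroup ↥(T : Subgroup G)) : Set ↥(T : Subgroup G)))
    (hc : Nat.card ↥(frattini ↥W) ≤ 8)
    (hd : ∀ U : Subgroup ↥W, U.index ≤ 16 → frattini ↥W ≤ U) :
    Cfsg.HasNormalPComplement 2 ↥(Subgroup.normalizer ((T : Subgroup G) : Set G)) ∧
      Cfsg.IsWeaklyClosed (W.map (T : Subgroup G).subtype) (T : Subgroup G) := by
  have H : Hyp ↥(T : Subgroup G) W := MKH T.isPGroup' ha hb W hW hc hd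
  obtain ⟨-, hF, hidx, -⟩ := ORD H
  refine ⟨NPC T fun φ hφ => ODD H φ hφ, ?_, ?_⟩
  · rintro _ ⟨x, -, rfl⟩
    exact x.2
  · intro g hg
    have hcent : ∀ s : ↥(T : Subgroup G), (∀ z ∈ sq W, s * z = z * s) ↔ s ∈ W := by
      intro s
      rw [hF]
      conv_rhs => rw [hW, Subgroup.mem_centralizer_iff]
      constructor
      · intro h z hz
        exact (h z hz).symm
      · intro h z hz
        exact (h z hz).symm
    obtain ⟨b1, b2, b3⟩ := BRG (T : Subgroup G) W hidx.le H.hd hcent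
    refine WC (T : Subgroup G) _ ?_ b1 b2 b3 g hg
    rintro _ ⟨x, -, rfl⟩
    exact x.2

end Cfsg.Agent.S3175
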