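import Cfsg.Statements.S3178
-- import your own Cfsg.Agent.* helpers here
import Mathlib
import Cfsg.Agent.S0111
import Cfsg.Agent.Lib.Helper58.SylowConj
import Cfsg.Agent.Lib.Helper58.NormalComplement

set_option autoImplicit false
open Cfsg

namespace Cfsg.Agent.S3178

/-- Groups with a modular Sylow 2-subgroup have a normal 2-complement. Let S, of order 2^(n+1) with n ≥ 3, be a Sylow 2-subgroup of a finite group G, and suppose S contains an element a of order 2^n and an involution b with b a b⁻¹ = a^(2^(n-1) + 1); so S is the non-abelian 2-group with a cyclic subgroup of index 2 that is neither dihedral, semidihedral nor generalized quaternion. Then G has a normal 2-complement. -/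
theorem result {G : Type*} [Group G] [Finite G]
    (S : Sylow 2 G) (n : ℕ) (hn : 3 ≤ n) (hS : Nat.card ↥(S : Subgroup G) = 2 ^ (n + 1))
    (a b : G) (ha : a ∈ (S : Subgroup G)) (hb : b ∈ (S : Subgroup G))
    (hao : orderOf a = 2 ^ n) (hbo : orderOf b = 2) (hrel : b * a * b⁻¹ = a ^ (2 ^ (n - 1) + 1)) :
    Cfsg.HasNormalPComplement 2 G := by
  obtain ⟨m, rfl⟩ : ∃ m, n = m + 3 := ⟨n - 3, by omega⟩
  have e1 : 2 ^ (m + 3) = 8 * 2 ^ m := by ring
  have e2 : 2 ^ (m + 3 - 1) + 1 = 4 * 2 ^ m + 1 := by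
    have : m + 3 - 1 = m + 2 := by omega
    rw [this]; ring
  have e3 : 2 ^ (m + 3 + 1) = 16 * 2 ^ m := by ring
  rw [e2] at hrel
  rw [e1] at hao
  have hS' := hS
  rw [e3] at hS'
  generalize hN : 2 ^ m = N at hrel hao hS' e1
  have hNpos : 0 < N := by rw [← hN]; positivity
  have ha8 : a ^ (8 * N) = 1 := by rw [← hao]; exact pow_orderOf_eq_one a
  have hz1 : a ^ (4 * N) ≠ 1 := by
    intro h
    have h1 := orderOf_dvd_of_pow_eq_one h
    rw [hao] at h1
    have := Nat.le_of_dvd (by omega) h1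
    omega
  have hz2 : a ^ (4 * N) * a ^ (4 * N) = 1 := by
    rw [← pow_add]
    have : 4 * N + 4 * N = 8 * N := by ring
    rw [this, ha8]
  have hzo : orderOf (a ^ (4 * N)) = 2 := orderOf_eq_prime (by rw [pow_two]; exact hz2) hz1
  have hb2 : b * b = 1 := by rw [← pow_two, ← hbo]; exact pow_orderOf_eq_one b
  have hbinv : b⁻¹ = b := inv_eq_of_mul_eq_one_left hb2
  have hconj : ∀ k : ℕ, b * a ^ k * b⁻¹ = a ^ ((4 * N + 1) * k) := by
    intro k
    rw [← conj_pow, hrel, ← pow_mul]
  have hconj_even : ∀ k : ℕ, b * a ^ (2 * k) * b⁻¹ = a ^ (2 * k) := by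
    intro k
    rw [hconj]
    have : (4 * N + 1) * (2 * k) = 8 * N * k + 2 * k := by ring
    rw [this, pow_add, pow_mul, ha8, one_pow, one_mul]
  have hQS : Subgroup.zpowers a ≤ (S : Subgroup G) := by rw [Subgroup.zpowers_le]; exact ha
  have hQcard : Nat.card (Subgroup.zpowers a) = 8 * N := by rw [Nat.card_zpowers, hao]
  have hQi : (Subgroup.zpowers a).relIndex (S : Subgroup G) = 2 := by
    have h1 := Subgroup.relIndex_mul_relIndex ⊥ (Subgroup.zpowers a) (S : Subgroup G) bot_le hQS
    rw [Subgroup.relIndex_bot_left, Subgroup.relIndex_bot_left, hQcard, hS'] at h1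
    have h2 : (Subgroup.zpowers a).relIndex (S : Subgroup G) * (8 * N) = 2 * (8 * N) := by
      rw [mul_comm, h1]; ring
    exact Nat.eq_of_mul_eq_mul_right (by omega) h2
  have hcQ : ∀ x ∈ Subgroup.zpowers a, ∀ k : ℕ, Commute x (a ^ k) := by
    rintro _ ⟨j, rfl⟩ k
    exact ((Commute.refl a).zpow_left j).pow_right k
  have hbQ : b ∉ Subgroup.zpowers a := by
    intro h
    have h1 : Commute b (a ^ 1) := hcQ b h 1
    rw [pow_one] at h1
    have h2 : b * a * b⁻¹ = a := by rw [h1.eq]; group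
    rw [hrel, pow_succ] at h2
    exact hz1 (by simpa using h2)
  have hmul : ∀ x ∈ (S : Subgroup G), ∀ y ∈ (S : Subgroup G),
      (x * y ∈ Subgroup.zpowers a ↔ (x ∈ Subgroup.zpowers a ↔ y ∈ Subgroup.zpowers a)) :=
    fun x hx y hy => Subgroup.mul_mem_iff_of_index_two
      (H := (Subgroup.zpowers a).subgroupOf (S : Subgroup G)) hQi (a := ⟨x, hx⟩) (b := ⟨y, hy⟩)
  have huniq : ∀ x ∈ Subgroup.zpowers a, orderOf x = 2 → x = a ^ (4 * N) := by
    intro x hx hxo
    obtain ⟨k, hkx⟩ := mem_powers_iff_mem_zpowers.mpr hx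
    have hkx' : a ^ k = x := hkx
    subst hkx'
    have h1 : (a ^ k) ^ 2 = 1 := by rw [← hxo]; exact pow_orderOf_eq_one _
    rw [← pow_mul] at h1
    have h2 : 8 * N ∣ k * 2 := by rw [← hao]; exact orderOf_dvd_of_pow_eq_one h1
    obtain ⟨c, hc⟩ := h2
    have hk : k = 4 * N * c := by
      have : k * 2 = (4 * N * c) * 2 := by rw [hc]; ring
      exact Nat.eq_of_mul_eq_mul_right (by norm_num) this
    have hx1 : a ^ k ≠ 1 := by
      intro h
      rw [h, orderOf_one] at hxo
      omega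
    rw [hk, pow_mul] at hx1 ⊢
    rcases Nat.even_or_odd' c with ⟨d, rfl | rfl⟩
    · exfalso
      apply hx1
      rw [pow_mul, pow_two, hz2, one_pow]
    · rw [pow_succ (a ^ (4 * N)), pow_mul (a ^ (4 * N)), pow_two, hz2, one_pow, one_mul]
  have h4 : 4 * N = 2 * (2 * N) := by ring
  have hcb : Commute b (a ^ (4 * N)) := by
    have h := hconj_even (2 * N)
    rw [← h4] at h
    show b * a ^ (4 * N) = a ^ (4 * N) * b
    calc b * a ^ (4 * N) = (b * a ^ (4 * N) * b⁻¹) * b := by group
      _ = a ^ (4 * N) * b := by rw [h]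
  have hzS : ∀ s ∈ (S : Subgroup G), Commute s (a ^ (4 * N)) := by
    intro s hs
    by_cases hsQ : s ∈ Subgroup.zpowers a
    · exact hcQ s hsQ _
    · have h1 : s * b ∈ Subgroup.zpowers a := (hmul s hs b hb).mpr (by simp [hsQ, hbQ])
      have h2 : s = (s * b) * b⁻¹ := by group
      rw [h2]
      exact (hcQ _ h1 _).mul_left hcb.inv_left
  have hordconj : ∀ (g x : G), orderOf (g * x * g⁻¹) = orderOf x := fun g x =>
    orderOf_injective (MulAut.conj g).toMonoidHom (MulAut.conj g).injective x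
  rcases Cfsg.Agent.S0111.result S (Subgroup.zpowers a) hQS hQi b hbo hb hbQ with
    ⟨M, hMn, hMi, hbM⟩ | ⟨g, hg⟩
  · -- a normal subgroup of index two with cyclic Sylow 2-subgroup
    have ht : ∃ t ∈ M, orderOf t = 2 ^ (m + 3) := by
      by_cases haM : a ∈ M
      · exact ⟨a, haM, by rw [hao, e1]⟩
      · refine ⟨a * b, (Subgroup.mul_mem_iff_of_index_two hMi).mpr (by simp [haM, hbM]), ?_⟩
        have h1 : (a * b) ^ 2 = a ^ (4 * N + 2) := by
          calc (a * b) ^ 2 = a * (b * a * b⁻¹) * (b * b) := by rw [pow_two]; group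
            _ = a * a ^ (4 * N + 1) := by rw [hrel, hb2, mul_one]
            _ = a ^ (4 * N + 2) := by rw [← pow_succ']
        have h2 : (a * b) ^ (4 * N) = a ^ (4 * N) := by
          rw [h4, pow_mul, h1, ← pow_mul]
          have : (4 * N + 2) * (2 * N) = 8 * N * N + 2 * (2 * N) := by ring
          rw [this, pow_add, pow_mul, ha8, one_pow, one_mul]
        have e4 : 2 ^ (m + 2) = 4 * N := by rw [← hN]; ring
        apply orderOf_eq_prime_pow (p := 2) (n := m + 2)
        · rw [e4, h2]; exact hz1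
        · rw [pow_succ, e4, pow_mul, h2, pow_two, hz2]
    obtain ⟨t, htM, hto⟩ := ht
    have hG : (Nat.card G).factorization 2 = m + 3 + 1 := by
      have h := S.card_eq_multiplicity
      rw [hS] at h
      exact (Nat.pow_right_injective (le_refl 2) h).symm
    have hMG : Nat.card M * 2 = Nat.card G := by rw [← hMi]; exact M.card_mul_index
    have hMf : (Nat.card M).factorization 2 = m + 3 := by
      have h : (Nat.card M * 2).factorization 2 = (Nat.card G).factorization 2 := by rw [hMG]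
      rw [Nat.factorization_mul Nat.card_pos.ne' (by norm_num), Finsupp.add_apply,
        Nat.Prime.factorization_self Nat.prime_two, hG] at h
      omega
    have hHcard : Nat.card (Subgroup.zpowers (⟨t, htM⟩ : M)) = 2 ^ (Nat.card M).factorization 2 := by
      rw [Nat.card_zpowers, hMf, ← hto, ← Subgroup.orderOf_coe]
    have hPc : IsCyclic (Sylow.ofCard (Subgroup.zpowers (⟨t, htM⟩ : M)) hHcard) := by
      show IsCyclic (Subgroup.zpowers (⟨t, htM⟩ : M))
      infer_instance
    have hmin : (Nat.card M).minFac = 2 := by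
      rw [Nat.minFac_eq_two_iff]
      have : 2 ^ (m + 3) ∣ Nat.card M := by
        rw [← hMf]; exact Nat.ordProj_dvd _ _
      exact (dvd_pow_self 2 (by omega)).trans this
    have hcomp := IsCyclic.isComplement' hmin hPc
    exact Cfsg.Agent.Lib.Helper58.hasNormalPComplement_of_normal_index_pow M 1 (by simpa using hMi)
      ⟨_, _, inferInstance, hcomp⟩
  · exfalso
    have hgz : g * b * g⁻¹ = a ^ (4 * N) := huniq _ hg (by rw [hordconj, hbo])
    have hwb : b * a ^ (2 * N) * b⁻¹ = a ^ (2 * N) := hconj_even N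
    have hww : a ^ (2 * N) * a ^ (2 * N) = a ^ (4 * N) := by
      rw [← pow_add]; congr 1; ring
    have hwS : a ^ (2 * N) ∈ (S : Subgroup G) := Subgroup.pow_mem _ ha _
    have hwc : a ^ (2 * N) ∈ Subgroup.centralizer ({b} : Set G) := by
      rw [Subgroup.mem_centralizer_singleton_iff]
      calc a ^ (2 * N) * b = (b * a ^ (2 * N) * b⁻¹) * b := by rw [hwb]
        _ = b * a ^ (2 * N) := by group
    have hA'p : IsPGroup 2 (((S : Subgroup G) ⊓ Subgroup.centralizer ({b} : Set G)).map
        (MulAut.conj g).toMonoidHom) := (S.2.to_le inf_le_left).map _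
    have hA'z : ((S : Subgroup G) ⊓ Subgroup.centralizer ({b} : Set G)).map
        (MulAut.conj g).toMonoidHom ≤ Subgroup.centralizer ({a ^ (4 * N)} : Set G) := by
      rintro _ ⟨x, hx0, rfl⟩
      have hx := (Subgroup.mem_inf.mp hx0).2
      rw [Subgroup.mem_centralizer_singleton_iff] at hx ⊢
      rw [← hgz]
      show g * x * g⁻¹ * (g * b * g⁻¹) = g * b * g⁻¹ * (g * x * g⁻¹)
      calc g * x * g⁻¹ * (g * b * g⁻¹) = g * (x * b) * g⁻¹ := by group
        _ = g * (b * x) * g⁻¹ := by rw [hx]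
        _ = g * b * g⁻¹ * (g * x * g⁻¹) := by group
    have hSz : (S : Subgroup G) ≤ Subgroup.centralizer ({a ^ (4 * N)} : Set G) := by
      intro s hs
      rw [Subgroup.mem_centralizer_singleton_iff]
      exact (hzS s hs).eq
    obtain ⟨c, hc, hcA⟩ := Cfsg.Agent.Lib.Helper58.exists_conj_le_sylow S _ hSz _ hA'p hA'z
    have hx : c * (g * a ^ (2 * N) * g⁻¹) * c⁻¹ ∈ (S : Subgroup G) := hcA _ ⟨_, ⟨hwS, hwc⟩, rfl⟩
    have hxx : c * (g * a ^ (2 * N) * g⁻¹) * c⁻¹ * (c * (g * a ^ (2 * N) * g⁻¹) * c⁻¹)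
        = c * (g * a ^ (4 * N) * g⁻¹) * c⁻¹ := by
      rw [← hww]; group
    have hxxQ := (hmul _ hx _ hx).mpr Iff.rfl
    rw [hxx] at hxxQ
    have h1 : c * (g * a ^ (4 * N) * g⁻¹) * c⁻¹ = a ^ (4 * N) :=
      huniq _ hxxQ (by rw [hordconj, hordconj, hzo])
    have h2 : c * (g * b * g⁻¹) * c⁻¹ = a ^ (4 * N) := by
      rw [hgz]
      rw [Subgroup.mem_centralizer_singleton_iff] at hc
      rw [hc]; group
    have h3 : a ^ (4 * N) = b := by
      have h := h1.trans h2.symm
      have h' := mul_left_cancel (mul_right_cancel h)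
      exact mul_left_cancel (mul_right_cancel h')
    apply hbQ
    rw [← h3]
    exact Subgroup.pow_mem _ (Subgroup.mem_zpowers a) _

end Cfsg.Agent.S3178
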