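import Cfsg.Statements.S3179
import Cfsg.Agent.S1163
import Cfsg.Agent.Lib.Helper48.SylTorus
import Cfsg.Agent.Lib.Helper46.SL2Spectrum
import Cfsg.Agent.Lib.Helper65.SU3Sylow
import Cfsg.Agent.Lib.Helper6.SLCard

set_option autoImplicit false
open Cfsg

namespace Cfsg.Agent.S3179

open Cfsg.Agent.Lib

theorem card_GL52 : Nat.card (GL (Fin 5) (ZMod 2)) = 9999360 := by
  rw [Matrix.card_GL_field]
  simp [Fin.prod_univ_succ]

theorem mz3_cube : ∀ z : Multiplicative (ZMod 3), z ^ 3 = 1 := by decide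

theorem fact3 : (9999360 : ℕ).factorization 3 = 2 := by
  have h : (9999360 : ℕ) = 3 ^ 2 * 1111040 := by norm_num
  rw [h, Nat.factorization_mul (by norm_num) (by norm_num), Nat.Prime.factorization_pow Nat.prime_three]
  have h2 : (1111040 : ℕ).factorization 3 = 0 := Nat.factorization_eq_zero_of_not_dvd (by norm_num)
  simp [h2]

/-- the exponent of `GL_5(2)` is not divisible by 9 -/
theorem pow_GL52 (g : GL (Fin 5) (ZMod 2)) : g ^ 3333120 = 1 := by
  have : Fact (Nat.Prime 3) := ⟨Nat.prime_three⟩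
  obtain ⟨θ, hθ⟩ := Helper48.exists_injective_homocyclic (F := ZMod 2) 5 2 2 3 (by norm_num)
    (by norm_num) (by rw [Nat.card_zmod]; norm_num)
  obtain ⟨g0, hg0⟩ : ∃ g0, g0 = g ^ 1111040 := ⟨_, rfl⟩
  have h9 : g0 ^ 3 ^ 2 = 1 := by
    rw [hg0, ← pow_mul]
    have := pow_card_eq_one' (G := GL (Fin 5) (ZMod 2)) (x := g)
    rw [card_GL52] at this
    exact this
  have hp : IsPGroup 3 (Subgroup.zpowers g0) := by
    obtain ⟨k, _, hk⟩ := (Nat.dvd_prime_pow Nat.prime_three).1 (orderOf_dvd_of_pow_eq_one h9)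
    exact IsPGroup.of_card (n := k) (by rw [Nat.card_zpowers, hk])
  obtain ⟨P, hP⟩ := hp.exists_le_sylow
  obtain ⟨e⟩ := Helper48.sylow_mulEquiv_of_injective 3 θ hθ (by
    rw [card_GL52, fact3, Nat.card_pi]
    simp) P
  have h3 : (⟨g0, hP (Subgroup.mem_zpowers g0)⟩ : P) ^ 3 = 1 := by
    apply e.injective
    rw [map_pow, map_one]
    funext i
    exact mz3_cube _
  have h4 : g0 ^ 3 = 1 := congrArg Subtype.val h3
  rw [hg0, ← pow_mul] at h4
  exact h4

theorem le_of_two_pow_dvd {k M : ℕ} (b : ℕ) (h : 2 ^ k ∣ M) (hM : ¬ 2 ^ (b + 1) ∣ M) : k ≤ b := by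
  by_contra hcon
  exact hM ((pow_dvd_pow 2 (by omega)).trans h)

theorem arith1 (r N : ℕ) (hr : 0 < r) (hodd : Odd r)
    (h : Nat.gcd 2 r * (r * N) = ((r + 1) ^ 2 - (r + 1) ^ 0) * ((r + 1) ^ 2 - (r + 1) ^ 1)) :
    N = (r + 1) * (r * (r + 2)) := by
  have h1 : Nat.gcd 2 r = 1 := Nat.coprime_two_left.2 hodd
  have h2 : (r + 1) ^ 2 - (r + 1) ^ 0 = r * (r + 2) := Nat.sub_eq_of_eq_add (by ring)
  have h3 : (r + 1) ^ 2 - (r + 1) ^ 1 = (r + 1) * r := Nat.sub_eq_of_eq_add (by ring)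
  rw [h1, h2, h3, one_mul] at h
  have h4 : r * N = r * ((r + 1) * (r * (r + 2))) := by rw [h]; ring
  exact Nat.eq_of_mul_eq_mul_left hr h4

/-- Let X be a section of the general linear group GL(5, 2), that is, a quotient of a subgroup of it. If X is isomorphic to PSL(2, 2^n) for some n ≥ 2, to a Suzuki group over the field with 2^(2m+1) elements for some m ≥ 1, or to PSU(3, 2^n) for some n ≥ 2, then X is isomorphic to PSL(2, 4). -/
theorem result {H : Subgroup (GL (Fin 5) (ZMod 2))}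
    {K : Subgroup ↥H} [K.Normal]
    (hX : (∃ (n : ℕ) (F : Type) (_ : Field F) (_ : Fintype F), 2 ≤ n ∧ Fintype.card F = 2 ^ n ∧
        Nonempty (↥H ⧸ K ≃* Matrix.ProjectiveSpecialLinearGroup (Fin 2) F)) ∨
      (∃ (m : ℕ) (F : Type) (_ : Field F) (_ : Fintype F), 1 ≤ m ∧ Fintype.card F = 2 ^ (2 * m + 1) ∧
        Nonempty (↥H ⧸ K ≃* ↥(Cfsg.Lie.Sz F (2 ^ (m + 1))))) ∨
      (∃ (n : ℕ) (F : Type) (_ : Field F) (_ : Fintype F), 2 ≤ n ∧ Fintype.card F = 4 ^ n ∧
        Nonempty (↥H ⧸ K ≃* Cfsg.PSU 3 F (2 ^ n)))) :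
    ∃ (F : Type) (_ : Field F) (_ : Fintype F), Fintype.card F = 4 ∧
      Nonempty (↥H ⧸ K ≃* Matrix.ProjectiveSpecialLinearGroup (Fin 2) F) := by
  classical
  have hN : Nat.card (↥H ⧸ K) ∣ 9999360 := by
    rw [← card_GL52]
    exact (Subgroup.card_quotient_dvd_card K).trans (Subgroup.card_subgroup_dvd_card H)
  have hexp : ∀ y : ↥H ⧸ K, y ^ 3333120 = 1 := by
    intro y
    induction y using QuotientGroup.induction_on with
    | H h =>
      rw [← QuotientGroup.mk_pow]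
      have : h ^ 3333120 = 1 := Subtype.ext (by rw [Subgroup.coe_pow]; exact pow_GL52 h.1)
      rw [this]; rfl
  rcases hX with ⟨n, F, _, _, hn, hF, ⟨e⟩⟩ | ⟨m, F, _, _, hm, hF, ⟨e⟩⟩ | ⟨n, F, _, _, hn, hF, ⟨e⟩⟩
  · have hc := Helper6.card_PSL_field (F := F) 2 (by norm_num)
    rw [← Nat.card_congr e.toEquiv, hF] at hc
    obtain ⟨r, hr⟩ : ∃ r, 2 ^ n = r + 1 := ⟨2 ^ n - 1, by have := Nat.one_le_two_pow (n := n); omega⟩
    have hr0 : 0 < r := by
      have : 2 ^ 2 ≤ 2 ^ n := Nat.pow_le_pow_right (by norm_num) hn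
      omega
    have hodd : Odd r := by
      have h1 : Even (r + 1) := by
        rw [← hr]; exact (Nat.even_pow.2 ⟨even_two, by omega⟩)
      by_contra h2
      rw [Nat.not_odd_iff_even] at h2
      exact (Nat.even_add_one.1 h1) h2
    rw [hr, Nat.add_sub_cancel, Fin.prod_univ_two] at hc
    have hcard := arith1 r _ hr0 hodd hc
    rw [← hr] at hcard
    have hn10 : n ≤ 10 := le_of_two_pow_dvd 10 ((Dvd.intro _ hcard.symm).trans hN) (by norm_num)
    obtain rfl : r = 2 ^ n - 1 := by omega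
    rw [hcard] at hN
    interval_cases n
    · exact ⟨F, _, _, by simpa using hF, ⟨e⟩⟩
    · exfalso
      have h2 : (2 : F) = 0 := by
        have h := FiniteField.cast_card_eq_zero F
        rw [hF] at h
        have h' : (2 : F) ^ 3 = 0 := by exact_mod_cast h
        exact pow_eq_zero_iff (n := 3) (by norm_num) |>.1 h'
      have : CharP F 2 := CharTwo.of_one_ne_zero_of_two_eq_zero one_ne_zero h2
      have : Fact (Nat.Prime 2) := ⟨Nat.prime_two⟩
      obtain ⟨x, hx⟩ := Helper46.exists_orderOf_card_add_one (F := F) 2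
      rw [hF] at hx
      have h3 := hexp (e.symm (QuotientGroup.mk x))
      rw [← map_pow, EmbeddingLike.map_eq_one_iff, ← QuotientGroup.mk_pow,
        QuotientGroup.eq_one_iff] at h3
      have h4 := Helper6.card_center_SL_field (F := F) 2 (by norm_num)
      rw [hF] at h4
      have h4' : Nat.gcd 2 (2 ^ 3 - 1) = 1 := by norm_num
      rw [h4'] at h4
      have h5 : x ^ 3333120 = 1 := by
        have := (Subgroup.card_eq_one.1 h4)
        rw [this] at h3
        exact h3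
      have h6 := orderOf_dvd_of_pow_eq_one h5
      rw [hx] at h6
      norm_num at h6
    all_goals (exfalso; norm_num at hN)
  · exfalso
    have hc := (Cfsg.Agent.S1163.result hm hF).1
    rw [← Nat.card_congr e.toEquiv] at hc
    have hm2 : 2 * (2 * m + 1) ≤ 10 := by
      apply le_of_two_pow_dvd 10 _ (show ¬ 2 ^ (10 + 1) ∣ 9999360 by norm_num)
      refine Dvd.dvd.trans ?_ hN
      rw [hc, mul_comm 2 (2 * m + 1), pow_mul, mul_assoc]
      exact Dvd.intro _ rfl
    rw [hc] at hN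
    have hm' : m ≤ 2 := by omega
    interval_cases m <;> norm_num at hN
  · exfalso
    have hK : Fintype.card F = (2 ^ n) ^ 2 := by
      rw [hF, ← pow_mul, mul_comm, pow_mul]; norm_num
    have h1 := Helper65.SU3E.card_SU3 hK
    have h2 := Helper50.Herm.card_center_SU hK 3 (by norm_num)
    have h3 := Subgroup.card_eq_card_quotient_mul_card_subgroup
      (Subgroup.center ↥(Cfsg.SU 3 F (2 ^ n)))
    rw [h1, h2] at h3
    have h4 : Nat.card (↥H ⧸ K) = Nat.card (↥(Cfsg.SU 3 F (2 ^ n)) ⧸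
      Subgroup.center ↥(Cfsg.SU 3 F (2 ^ n))) := Nat.card_congr e.toEquiv
    rw [← h4] at h3
    have hn3 : 3 * n ≤ 10 := by
      apply le_of_two_pow_dvd 10 _ (show ¬ 2 ^ (10 + 1) ∣ 9999360 * 3 by norm_num)
      have h5 : Nat.card (↥H ⧸ K) * Nat.gcd 3 (2 ^ n + 1) ∣ 9999360 * 3 :=
        Nat.mul_dvd_mul hN (Nat.gcd_dvd_left _ _)
      refine Dvd.dvd.trans ?_ h5
      rw [← h3, mul_comm 3 n, pow_mul]
      exact Dvd.intro _ rfl
    have hn' : n ≤ 3 := by omega
    generalize Nat.card (↥H ⧸ K) = N at h3 hN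
    interval_cases n
    · have hg : Nat.gcd 3 (2 ^ 2 + 1) = 1 := by norm_num
      rw [hg] at h3
      have h6 : N = 62400 := by omega
      rw [h6] at hN
      norm_num at hN
    · have hg : Nat.gcd 3 (2 ^ 3 + 1) = 3 := by norm_num
      rw [hg] at h3
      have h6 : N = 5515776 := by omega
      rw [h6] at hN
      norm_num at hN

end Cfsg.Agent.S3179
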