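import Cfsg.Statements.S3180
-- import your own Cfsg.Agent.* helpers here
import Mathlib

set_option autoImplicit false
open Cfsg

namespace Cfsg.Agent.S3180

/-- Let P be a Sylow p-subgroup of a finite group J and P₁ a subgroup of P that is weakly closed in P with respect to J. If J acts on a set and two points, each fixed by every element of P₁, lie in one J-orbit, then they lie in one orbit of the normalizer of P₁ in J. -/
theorem result {J : Type*} [Group J] [Finite J]
    {p : ℕ} [Fact p.Prime] (P : Sylow p J) (P₁ : Subgroup J) (hW : Cfsg.IsWeaklyClosed P₁ (P : Subgroup J))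
    {Ω : Type*} [MulAction J Ω] (x y : Ω) (hx : ∀ g ∈ P₁, g • x = x) (hy : ∀ g ∈ P₁, g • y = y)
    (hc : ∃ g : J, g • x = y) :
    ∃ g ∈ Subgroup.normalizer (P₁ : Set J), g • x = y := by
  obtain ⟨hle, hwc⟩ := hW
  obtain ⟨g, hg⟩ := hc
  have h1 : P₁ ≤ MulAction.stabilizer J y := fun a ha => hy a ha
  have hp1 : IsPGroup p P₁ := P.2.to_le hle
  have hA : IsPGroup p (P₁.subgroupOf (MulAction.stabilizer J y)) :=
    hp1.comap_of_injective _ (Subgroup.subtype_injective _)
  have hp2 : IsPGroup p (P₁.map (MulAut.conj g).toMonoidHom) := hp1.map _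
  have hB : IsPGroup p ((P₁.map (MulAut.conj g).toMonoidHom).subgroupOf (MulAction.stabilizer J y)) :=
    hp2.comap_of_injective _ (Subgroup.subtype_injective _)
  obtain ⟨Q, hQ⟩ := hA.exists_le_sylow
  obtain ⟨Q', hQ'⟩ := hB.exists_le_sylow
  obtain ⟨h, hh⟩ := MulAction.exists_smul_eq (MulAction.stabilizer J y) Q' Q
  have hQp : IsPGroup p ((Q : Subgroup (MulAction.stabilizer J y)).map (MulAction.stabilizer J y).subtype) :=
    Q.2.map _
  obtain ⟨R, hR⟩ := hQp.exists_le_sylow
  obtain ⟨k, hk⟩ := MulAction.exists_smul_eq J R P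
  -- every element of Q conjugated by k lies in P
  have key : ∀ a : J, ∀ ha : a ∈ MulAction.stabilizer J y, (⟨a, ha⟩ : MulAction.stabilizer J y) ∈ Q →
      k * a * k⁻¹ ∈ (P : Subgroup J) := by
    intro a ha haQ
    have : a ∈ (R : Subgroup J) := hR ⟨⟨a, ha⟩, haQ, rfl⟩
    rw [← hk]
    rw [Sylow.coe_subgroup_smul]
    exact ⟨a, this, rfl⟩
  have e1 : P₁.map (MulAut.conj k).toMonoidHom = P₁ := by
    apply hwc
    rintro _ ⟨a, ha, rfl⟩
    exact key a (h1 ha) (hQ (show (⟨a, h1 ha⟩ : MulAction.stabilizer J y) ∈ P₁.subgroupOf _ from ha))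
  have hstab : ∀ a ∈ P₁, g * a * g⁻¹ ∈ MulAction.stabilizer J y := by
    intro a ha
    rw [MulAction.mem_stabilizer_iff, ← hg, mul_smul, mul_smul, inv_smul_smul, hx a ha]
  have e2 : P₁.map (MulAut.conj (k * (h * g))).toMonoidHom = P₁ := by
    apply hwc
    rintro _ ⟨a, ha, rfl⟩
    have m1 : (⟨g * a * g⁻¹, hstab a ha⟩ : MulAction.stabilizer J y) ∈ Q' :=
      hQ' (show (⟨g * a * g⁻¹, hstab a ha⟩ : MulAction.stabilizer J y) ∈
        (P₁.map (MulAut.conj g).toMonoidHom).subgroupOf _ from ⟨a, ha, rfl⟩)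
    have m2 : h * (⟨g * a * g⁻¹, hstab a ha⟩ : MulAction.stabilizer J y) * h⁻¹ ∈ Q := by
      rw [← hh]
      have : h * (⟨g * a * g⁻¹, hstab a ha⟩ : MulAction.stabilizer J y) * h⁻¹ ∈
          ((h • Q' : Sylow p (MulAction.stabilizer J y)) : Subgroup (MulAction.stabilizer J y)) := by
        rw [Sylow.coe_subgroup_smul]
        exact ⟨_, m1, rfl⟩
      exact this
    have := key _ (h * (⟨g * a * g⁻¹, hstab a ha⟩ : MulAction.stabilizer J y) * h⁻¹).2 m2
    simpa [mul_assoc] using this
  refine ⟨h * g, ?_, ?_⟩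
  · have e3 : P₁.map (MulAut.conj ((h : J) * g)).toMonoidHom = P₁ := by
      have : (P₁.map (MulAut.conj ((h : J) * g)).toMonoidHom).map (MulAut.conj k).toMonoidHom
          = P₁.map (MulAut.conj k).toMonoidHom := by
        rw [e1, Subgroup.map_map, ← e2]
        congr 1
        ext a
        simp [mul_assoc]
      exact Subgroup.map_injective (MulAut.conj k).injective this
    rw [Subgroup.mem_normalizer_iff]
    intro a
    constructor
    · intro ha
      rw [← e3]
      exact ⟨a, ha, rfl⟩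
    · intro ha
      rw [← e3] at ha
      obtain ⟨b, hb, hb'⟩ := ha
      have : b = a := by
        have hb'' : ((h : J) * g) * b * ((h : J) * g)⁻¹ = ((h : J) * g) * a * ((h : J) * g)⁻¹ := hb'
        exact mul_left_cancel (mul_right_cancel hb'')
      exact this ▸ hb
  · rw [mul_smul, hg]
    exact h.2

end Cfsg.Agent.S3180
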