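import Cfsg.Statements.S3183
-- import your own Cfsg.Agent.* helpers here
import Mathlib
import Cfsg.Agent.Lib.Helper58.SylowConj

set_option autoImplicit false
open Cfsg

namespace Cfsg.Agent.S3183

open Cfsg.Agent.Lib.Helper58 in
theorem key {G : Type*} [Group G] [Finite G]
    (hCI : ∀ S T : Sylow 2 G, S ≠ T → ∃ U : Sylow 2 G,
      (S : Subgroup G) ⊓ (T : Subgroup G) ≤ (Subgroup.center ↥(U : Subgroup G)).map (U : Subgroup G).subtype)
    (S : Sylow 2 G) : ∀ (D : Subgroup G) (T : Sylow 2 G), T ≠ S → (S : Subgroup G) ⊓ T = D →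
      ∀ x ∈ D, ∀ s ∈ (S : Subgroup G), s * x = x * s := by
  intro D
  induction D using WellFoundedGT.induction with
  | ind D ih =>
    intro T hTS hD x hx s hs
    obtain ⟨U, hU⟩ := hCI S T hTS.symm
    rw [hD] at hU
    have hUD : ∀ d ∈ D, ∀ u ∈ (U : Subgroup G), u * d = d * u :=
      fun d hd => ((mem_map_center_iff _ _).mp (hU hd)).2
    have hUN : (U : Subgroup G) ≤ Subgroup.normalizer (D : Set G) := by
      rw [Subgroup.le_normalizer_iff]
      intro u hu d hd
      rw [hUD d hd u hu]; simpa using hd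
    have hDS : D < S := by
      refine lt_of_le_of_ne (hD ▸ inf_le_left) ?_
      intro h
      apply hTS
      have hle : (S : Subgroup G) ≤ T := by
        rw [← h, ← hD]; exact inf_le_right
      exact Sylow.ext (S.is_maximal' T.2 hle)
    obtain ⟨s₀, hs₀S, hs₀D, hs₀N⟩ := exists_normalizing_not_mem S D S.2 hDS
    obtain ⟨n, hnN, hn⟩ := exists_conj_le_sylow U _ hUN
      ((S : Subgroup G) ⊓ Subgroup.normalizer (D : Set G)) (S.2.to_le inf_le_left) inf_le_right
    have hS₁mem : ∀ g, g ∈ ((n⁻¹ • U : Sylow 2 G) : Subgroup G) ↔ n * g * n⁻¹ ∈ (U : Subgroup G) := by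
      intro g
      rw [Sylow.coe_subgroup_smul, Subgroup.mem_pointwise_smul_iff_inv_smul_mem]
      simp
    have hS₁D : ∀ d ∈ D, ∀ u ∈ ((n⁻¹ • U : Sylow 2 G) : Subgroup G), u * d = d * u := by
      intro d hd u hu
      have h1 : n * d * n⁻¹ ∈ D := (Subgroup.mem_normalizer_iff.mp hnN d).mp hd
      have h2 := hUD _ h1 _ ((hS₁mem u).mp hu)
      have h3 : n * (u * d) * n⁻¹ = n * (d * u) * n⁻¹ := by
        calc n * (u * d) * n⁻¹ = (n * u * n⁻¹) * (n * d * n⁻¹) := by group
          _ = (n * d * n⁻¹) * (n * u * n⁻¹) := h2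
          _ = n * (d * u) * n⁻¹ := by group
      exact mul_left_cancel (mul_right_cancel h3)
    by_cases hS₁S : (n⁻¹ • U : Sylow 2 G) = S
    · exact hS₁D x hx s (hS₁S ▸ hs)
    · have hle : D ≤ (S : Subgroup G) ⊓ ((n⁻¹ • U : Sylow 2 G) : Subgroup G) := by
        intro d hd
        refine ⟨hDS.le hd, ?_⟩
        exact (hS₁mem d).mpr (hn d ⟨hDS.le hd, Subgroup.le_normalizer hd⟩)
      have hlt : D < (S : Subgroup G) ⊓ ((n⁻¹ • U : Sylow 2 G) : Subgroup G) := by
        refine lt_of_le_of_ne hle ?_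
        intro h
        apply hs₀D
        rw [h]
        exact ⟨hs₀S, (hS₁mem s₀).mpr (hn s₀ ⟨hs₀S, hs₀N⟩)⟩
      exact ih _ hlt _ hS₁S rfl x (hlt.le hx) s hs

/-- Let G be a finite group in which the intersection of any two distinct Sylow 2-subgroups is contained in the centre of some Sylow 2-subgroup, and let S be a Sylow 2-subgroup. Then for every x in S the centralizer of x in S is a Sylow 2-subgroup of the centralizer of x in G (no 2-subgroup centralizing x is larger), and for every other Sylow 2-subgroup T the intersection S ∩ T lies in both the centre of S and the centre of T. -/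
theorem result {G : Type*} [Group G] [Finite G]
    (hCI : ∀ S T : Sylow 2 G, S ≠ T → ∃ U : Sylow 2 G,
      (S : Subgroup G) ⊓ (T : Subgroup G) ≤ (Subgroup.center ↥(U : Subgroup G)).map (U : Subgroup G).subtype)
    (S : Sylow 2 G) :
    (∀ x ∈ (S : Subgroup G), ∀ P : Subgroup G, IsPGroup 2 ↥P → P ≤ Subgroup.centralizer ({x} : Set G) →
        Nat.card ↥P ≤ Nat.card ↥((S : Subgroup G) ⊓ Subgroup.centralizer ({x} : Set G))) ∧
    (∀ T : Sylow 2 G, T ≠ S →
        (S : Subgroup G) ⊓ (T : Subgroup G) ≤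
          (Subgroup.center ↥(S : Subgroup G)).map (S : Subgroup G).subtype ⊓
            (Subgroup.center ↥(T : Subgroup G)).map (T : Subgroup G).subtype) := by
  constructor
  · intro x hx P hP hPx
    have hxp : IsPGroup 2 (Subgroup.zpowers x) := S.2.to_le (by simpa using hx)
    have hcomm : ∀ g ∈ P, g * x = x * g := fun g hg =>
      (Subgroup.mem_centralizer_singleton_iff.mp (hPx hg))
    have hnorm : P ≤ Subgroup.normalizer ((Subgroup.zpowers x : Subgroup G) : Set G) := by
      rw [Subgroup.le_normalizer_iff]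
      rintro g hg _ ⟨k, rfl⟩
      have : g * x ^ k * g⁻¹ = x ^ k := by
        have hc : Commute g x := hcomm g hg
        rw [(hc.zpow_right k).eq]; group
      show g * x ^ k * g⁻¹ ∈ _
      rw [this]
      exact ⟨k, rfl⟩
    have hsup : IsPGroup 2 (P ⊔ Subgroup.zpowers x : Subgroup G) := hP.to_sup_of_normal_right' hxp hnorm
    obtain ⟨T, hT⟩ := hsup.exists_le_sylow
    have hPT : P ≤ T := le_sup_left.trans hT
    have hxT : x ∈ (T : Subgroup G) := hT (Subgroup.mem_sup_right (Subgroup.mem_zpowers x))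
    by_cases hTS : T = S
    · apply Nat.card_le_card_of_injective (Subgroup.inclusion (le_inf (hTS ▸ hPT) hPx))
      exact Subgroup.inclusion_injective _
    · have hcen := key hCI S _ T hTS rfl x ⟨hx, hxT⟩
      have hSle : (S : Subgroup G) ≤ (S : Subgroup G) ⊓ Subgroup.centralizer ({x} : Set G) := by
        intro s hs
        exact ⟨hs, Subgroup.mem_centralizer_singleton_iff.mpr (hcen s hs)⟩
      calc Nat.card P ≤ Nat.card (T : Subgroup G) :=
            Nat.card_le_card_of_injective (Subgroup.inclusion hPT) (Subgroup.inclusion_injective _)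
        _ = Nat.card (S : Subgroup G) := by
            rw [Sylow.card_eq_multiplicity, Sylow.card_eq_multiplicity]
        _ ≤ _ := Nat.card_le_card_of_injective (Subgroup.inclusion hSle) (Subgroup.inclusion_injective _)
  · intro T hTS x hx
    refine ⟨?_, ?_⟩
    · exact (Cfsg.Agent.Lib.Helper58.mem_map_center_iff _ _).mpr ⟨hx.1, key hCI S _ T hTS rfl x hx⟩
    · exact (Cfsg.Agent.Lib.Helper58.mem_map_center_iff _ _).mpr
        ⟨hx.2, key hCI T _ S hTS.symm rfl x ⟨hx.2, hx.1⟩⟩

end Cfsg.Agent.S3183
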