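import Cfsg.Statements.S3184
-- import your own Cfsg.Agent.* helpers here
import Cfsg.Agent.S0215
import Cfsg.Agent.Lib.Helper42.CIIsolated

set_option autoImplicit false
open Cfsg

namespace Cfsg.Agent.S3184

/-- The statement, conditional on the conclusion of the Z*-theorem for `G`. -/
theorem result_of {G : Type*} [Group G] [Finite G]
    (hZ : ∀ (P : Sylow 2 G) (u : G), orderOf u = 2 → u ∈ P →
      (∀ g : G, g * u * g⁻¹ ∈ P → g * u * g⁻¹ = u) →
      ∃ N : Subgroup G, N.Normal ∧ Odd (Nat.card N) ∧ ∀ g : G, (u * g * u⁻¹ * g⁻¹) ∈ N)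
    (hCI : ∀ S T : Sylow 2 G, S ≠ T → ∃ U : Sylow 2 G,
      (S : Subgroup G) ⊓ (T : Subgroup G) ≤ (Subgroup.center ↥(U : Subgroup G)).map (U : Subgroup G).subtype)
    (S : Sylow 2 G) (C : Subgroup ↥(S : Subgroup G)) (hCc : IsCyclic ↥C) (hCh : C.Characteristic)
    (c : ↥(S : Subgroup G)) (hc : c ∈ C) (hc2 : orderOf c = 2) :
    ∀ g : G, (QuotientGroup.mk (s := Cfsg.oddCore G) (g * (c : G) * g⁻¹)) =
      QuotientGroup.mk (s := Cfsg.oddCore G) (c : G) := by
  intro g
  have hc2' : orderOf (c : G) = 2 := by rw [Subgroup.orderOf_coe, hc2]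
  obtain ⟨N, hN, hodd, hcomm⟩ := hZ S c hc2' c.2
    (fun g hg => Lib.Helper42.isolated_of_sylow_inter_central hCI S C hCc hCh c hc hc2 g hg)
  have hle : N ≤ Cfsg.oddCore G :=
    le_sSup ⟨hN, Nat.coprime_two_right.2 hodd⟩
  rw [QuotientGroup.eq]
  apply hle
  have h1 := N.inv_mem (hcomm g)
  have hinv : (c : G)⁻¹ = c := by
    have : (c : G) ^ 2 = 1 := by
      have h := pow_orderOf_eq_one (c : G)
      rwa [hc2'] at h
    rw [inv_eq_iff_mul_eq_one, ← sq, this]
  have h2 : (g * (c : G) * g⁻¹)⁻¹ * (c : G) = ((c : G) * g * (c : G)⁻¹ * g⁻¹)⁻¹ := by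
    rw [hinv]
    simp only [mul_inv_rev, inv_inv, hinv, mul_assoc]
  rw [h2]
  exact h1

/-- Let G be a finite group in which the intersection of any two distinct Sylow 2-subgroups is contained in the centre of some Sylow 2-subgroup, and let S be a Sylow 2-subgroup. If C is a nontrivial cyclic characteristic subgroup of S, then the involution of C is central modulo the largest normal subgroup of odd order of G: each of its conjugates has the same image in G/O(G). -/
theorem result {G : Type*} [Group G] [Finite G]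
    (hCI : ∀ S T : Sylow 2 G, S ≠ T → ∃ U : Sylow 2 G,
      (S : Subgroup G) ⊓ (T : Subgroup G) ≤ (Subgroup.center ↥(U : Subgroup G)).map (U : Subgroup G).subtype)
    (S : Sylow 2 G) (C : Subgroup ↥(S : Subgroup G)) (hC : C ≠ ⊥) (hCc : IsCyclic ↥C) (hCh : C.Characteristic)
    (c : ↥(S : Subgroup G)) (hc : c ∈ C) (hc2 : orderOf c = 2) :
    ∀ g : G, (QuotientGroup.mk (s := Cfsg.oddCore G) (g * (c : G) * g⁻¹)) =
      QuotientGroup.mk (s := Cfsg.oddCore G) (c : G) := by
  exact result_of (fun P u hu huP hiso => Cfsg.Agent.S0215.result P u hu huP hiso)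
    hCI S C hCc hCh c hc hc2

end Cfsg.Agent.S3184
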