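import Cfsg.Statements.S3190
-- import your own Cfsg.Agent.* helpers here
import Mathlib
import Cfsg.Agent.Lib.Helper58.PGroup

set_option autoImplicit false
open Cfsg

namespace Cfsg.Agent.S3190

/-- Let p be an odd prime and, inside a finite group, let P be a p-subgroup normalized by a Klein four-group T. Let R be a subgroup of P, normal in P and normalized by T, such that P is the product of R with the centralizer of T in P. If T centralizes the centre of P, then T centralizes the centre of R. -/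
theorem result {X : Type*} [Group X] [Finite X]
    {p : ℕ} (hp : p.Prime) (hodd : Odd p) (P T R : Subgroup X) (hP : IsPGroup p ↥P) (hT : IsKleinFour ↥T)
    (hTP : T ≤ Subgroup.normalizer (P : Set X)) (hRP : R ≤ P) (hRn : (R.subgroupOf P).Normal)
    (hTR : T ≤ Subgroup.normalizer (R : Set X)) (hfac : R ⊔ (P ⊓ Subgroup.centralizer (T : Set X)) = P)
    (hZ : T ≤ Subgroup.centralizer (((Subgroup.center ↥P).map P.subtype : Subgroup X) : Set X)) :
    T ≤ Subgroup.centralizer (((Subgroup.center ↥R).map R.subtype : Subgroup X) : Set X) := by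
  have : Fact p.Prime := ⟨hp⟩
  intro t ht
  have ht2 : t * t = 1 := by
    have h := Monoid.pow_exponent_eq_one (⟨t, ht⟩ : T)
    rw [hT.exponent_two] at h
    have := congrArg Subtype.val h
    simpa [pow_two] using this
  have htinv : t⁻¹ = t := inv_eq_of_mul_eq_one_left ht2
  -- conjugation stability of the centre of R
  have hcenconj : ∀ g : X, (∀ r ∈ R, g * r * g⁻¹ ∈ R) → (∀ r ∈ R, g⁻¹ * r * g ∈ R) →
      ∀ z : X, (∀ r ∈ R, r * z = z * r) → ∀ r ∈ R, r * (g * z * g⁻¹) = (g * z * g⁻¹) * r := by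
    intro g _ h2 z hz r hr
    have := hz _ (h2 r hr)
    calc r * (g * z * g⁻¹) = g * ((g⁻¹ * r * g) * z) * g⁻¹ := by group
      _ = g * (z * (g⁻¹ * r * g)) * g⁻¹ := by rw [this]
      _ = (g * z * g⁻¹) * r := by group
  have hPR : ∀ g ∈ P, ∀ r ∈ R, g * r * g⁻¹ ∈ R := by
    intro g hg r hr
    exact hRn.conj_mem ⟨r, hRP hr⟩ hr ⟨g, hg⟩
  have hTR' : ∀ g ∈ T, ∀ r ∈ R, g * r * g⁻¹ ∈ R := Subgroup.le_normalizer_iff.mp hTR
  let W' : Subgroup X :=
    { carrier := {w | w ∈ R ∧ (∀ r ∈ R, r * w = w * r) ∧ t * w * t⁻¹ = w⁻¹}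
      one_mem' := ⟨R.one_mem, by simp, by simp⟩
      mul_mem' := by
        rintro a b ⟨ha, hac, hat⟩ ⟨hb, hbc, hbt⟩
        refine ⟨R.mul_mem ha hb, ?_, ?_⟩
        · intro r hr
          rw [← mul_assoc, hac r hr, mul_assoc, hbc r hr, mul_assoc]
        · calc t * (a * b) * t⁻¹ = (t * a * t⁻¹) * (t * b * t⁻¹) := by group
            _ = a⁻¹ * b⁻¹ := by rw [hat, hbt]
            _ = (b * a)⁻¹ := by group
            _ = (a * b)⁻¹ := by rw [hac b hb]
      inv_mem' := by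
        rintro a ⟨ha, hac, hat⟩
        refine ⟨R.inv_mem ha, ?_, ?_⟩
        · intro r hr
          have := hac r hr
          calc r * a⁻¹ = a⁻¹ * (a * r) * a⁻¹ := by group
            _ = a⁻¹ * (r * a) * a⁻¹ := by rw [this]
            _ = a⁻¹ * r := by group
        · calc t * a⁻¹ * t⁻¹ = (t * a * t⁻¹)⁻¹ := by group
            _ = (a⁻¹)⁻¹ := by rw [hat] }
  have hW'mem : ∀ w, w ∈ W' ↔ (w ∈ R ∧ (∀ r ∈ R, r * w = w * r) ∧ t * w * t⁻¹ = w⁻¹) := fun w => Iff.rfl
  have hW'P : W' ≤ P := fun w hw => hRP hw.1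
  have hnorm : P ≤ Subgroup.normalizer (W' : Set X) := by
    rw [← hfac]
    apply sup_le
    · rw [Subgroup.le_normalizer_iff]
      intro r hr w hw
      have : r * w * r⁻¹ = w := by rw [hw.2.1 r hr]; group
      rw [this]; exact hw
    · rw [Subgroup.le_normalizer_iff]
      rintro c ⟨hcP, hcT⟩ w ⟨hwR, hwc, hwt⟩
      have hct : t * c = c * t := (Subgroup.mem_centralizer_iff.mp hcT) t ht
      refine ⟨hPR c hcP w hwR, ?_, ?_⟩
      · apply hcenconj c (hPR c hcP) _ w hwc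
        intro r hr
        have := hPR c⁻¹ (P.inv_mem hcP) r hr
        simpa using this
      · have hct' : c⁻¹ * t⁻¹ = t⁻¹ * c⁻¹ := by
          rw [← mul_inv_rev, ← mul_inv_rev, hct]
        calc t * (c * w * c⁻¹) * t⁻¹ = (t * c) * w * (c⁻¹ * t⁻¹) := by group
          _ = (c * t) * w * (t⁻¹ * c⁻¹) := by rw [hct, hct']
          _ = c * (t * w * t⁻¹) * c⁻¹ := by group
          _ = c * w⁻¹ * c⁻¹ := by rw [hwt]
          _ = (c * w * c⁻¹)⁻¹ := by group
  have hWn : (W'.subgroupOf P).Normal := (Subgroup.normal_subgroupOf_iff_le_normalizer hW'P).mpr hnorm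
  have hWbot : W'.subgroupOf P = ⊥ := by
    by_contra hne
    apply Cfsg.Agent.Lib.Helper58.normal_inf_center_ne_bot hP (W'.subgroupOf P) hne
    rw [eq_bot_iff]
    rintro z ⟨hzW, hzZ⟩
    rw [Subgroup.mem_bot]
    have hzW' : (z : X) ∈ W' := hzW
    have h1 : t * (z : X) * t⁻¹ = (z : X)⁻¹ := hzW'.2.2
    have h2 : (z : X) * t = t * (z : X) :=
      (Subgroup.mem_centralizer_iff.mp (hZ ht)) (z : X) ⟨z, hzZ, rfl⟩
    have h3 : (z : X) = (z : X)⁻¹ := by
      rw [← h1, ← h2]; group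
    have h4 : z ^ 2 = 1 := by
      apply Subtype.ext
      have : (z : X) * (z : X) = 1 := by
        nth_rewrite 1 [h3]; group
      simpa [pow_two] using this
    obtain ⟨k, hk⟩ := hP z
    have h5 := pow_gcd_eq_one.mpr ⟨h4, hk⟩
    have h6 : Nat.gcd 2 (p ^ k) = 1 := Nat.Coprime.pow_right k (Nat.coprime_two_left.mpr hodd)
    rwa [h6, pow_one] at h5
  have hW'bot : ∀ w ∈ W', w = 1 := by
    intro w hw
    have : (⟨w, hW'P hw⟩ : P) ∈ W'.subgroupOf P := hw
    rw [hWbot, Subgroup.mem_bot] at this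
    exact congrArg Subtype.val this
  rw [Subgroup.mem_centralizer_iff]
  rintro _ ⟨z, hz, rfl⟩
  have hzc : ∀ r ∈ R, r * (z : X) = (z : X) * r := by
    intro r hr
    have := (Subgroup.mem_center_iff.mp hz) ⟨r, hr⟩
    exact congrArg Subtype.val this
  have hconjR : t * (z : X) * t⁻¹ ∈ R := hTR' t ht z z.2
  have hconjc : ∀ r ∈ R, r * (t * (z : X) * t⁻¹) = (t * (z : X) * t⁻¹) * r := by
    apply hcenconj t (hTR' t ht) _ z hzc
    intro r hr
    have := hTR' t⁻¹ (T.inv_mem ht) r hr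
    simpa using this
  have hw : (z : X)⁻¹ * (t * (z : X) * t⁻¹) ∈ W' := by
    refine ⟨R.mul_mem (R.inv_mem z.2) hconjR, ?_, ?_⟩
    · intro r hr
      have h1 : r * (z : X)⁻¹ = (z : X)⁻¹ * r := by
        have := hzc r hr
        calc r * (z : X)⁻¹ = (z : X)⁻¹ * ((z : X) * r) * (z : X)⁻¹ := by group
          _ = (z : X)⁻¹ * (r * (z : X)) * (z : X)⁻¹ := by rw [this]
          _ = (z : X)⁻¹ * r := by group
      rw [← mul_assoc, h1, mul_assoc, hconjc r hr, ← mul_assoc]
    · have e1 : ((z : X)⁻¹ * (t * (z : X) * t⁻¹))⁻¹ = t * (z : X)⁻¹ * t⁻¹ * (z : X) := by group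
      rw [e1]
      calc t * ((z : X)⁻¹ * (t * (z : X) * t⁻¹)) * t⁻¹
          = t * (z : X)⁻¹ * t * (z : X) * (t⁻¹ * t⁻¹) := by group
        _ = t * (z : X)⁻¹ * t⁻¹ * (z : X) := by rw [htinv, ht2, mul_one]
  have hfin := hW'bot _ hw
  have hfin2 : t * (z : X) * t⁻¹ = (z : X) := by
    calc t * (z : X) * t⁻¹ = (z : X) * ((z : X)⁻¹ * (t * (z : X) * t⁻¹)) := by group
      _ = (z : X) := by rw [hfin, mul_one]
  show (z : X) * t = t * (z : X)
  calc (z : X) * t = (t * (z : X) * t⁻¹) * t := by rw [hfin2]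
    _ = t * (z : X) := by group

end Cfsg.Agent.S3190
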