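import Cfsg.Statements.S3196
-- import your own Cfsg.Agent.* helpers here

set_option autoImplicit false
open Cfsg

namespace Cfsg.Agent.S3196

section aux
variable {G : Type*} [Group G]

theorem zp_eq {p : ℕ} (hp : p.Prime) {x h : G} (hx : orderOf x = p) (hh : h ∈ Subgroup.zpowers x)
    (h1 : h ≠ 1) : Subgroup.zpowers h = Subgroup.zpowers x := by
  have : Fact p.Prime := ⟨hp⟩
  have hle : Subgroup.zpowers h ≤ Subgroup.zpowers x := by
    rw [Subgroup.zpowers_le]; exact hh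
  have hcx : Nat.card (Subgroup.zpowers x) = p := by rw [Nat.card_zpowers, hx]
  have : Finite (Subgroup.zpowers x) := Nat.finite_of_card_ne_zero (by rw [hcx]; exact hp.ne_zero)
  have hhp : h ^ p = 1 := by
    obtain ⟨k, rfl⟩ := Subgroup.mem_zpowers_iff.1 hh
    rw [← zpow_natCast, ← zpow_mul, mul_comm, zpow_mul, zpow_natCast, ← hx, pow_orderOf_eq_one, one_zpow]
  have hoh : orderOf h = p := orderOf_eq_prime hhp h1
  apply Subgroup.eq_of_le_of_card_ge hle
  rw [Nat.card_zpowers, Nat.card_zpowers, hx, hoh]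

/-- the subgroup of all `x^a * y^b` for commuting `x`, `y` -/
def lineSub (x y : G) (h : Commute x y) : Subgroup G where
  carrier := {g | ∃ a b : ℤ, g = x ^ a * y ^ b}
  one_mem' := ⟨0, 0, by simp⟩
  mul_mem' := by
    rintro _ _ ⟨a, b, rfl⟩ ⟨c, d, rfl⟩
    refine ⟨a + c, b + d, ?_⟩
    have h1 : Commute (y ^ b) (x ^ c) := (h.zpow_zpow c b).symm
    rw [zpow_add, zpow_add, mul_assoc, mul_assoc, ← mul_assoc (y ^ b), h1.eq, mul_assoc]
  inv_mem' := by
    rintro _ ⟨a, b, rfl⟩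
    refine ⟨-a, -b, ?_⟩
    have h1 : Commute (x ^ a) (y ^ b) := h.zpow_zpow a b
    rw [mul_inv_rev, zpow_neg, zpow_neg, (h1.inv_inv).eq]

theorem sup_le_lineSub (x y : G) (h : Commute x y) :
    Subgroup.zpowers x ⊔ Subgroup.zpowers y ≤ lineSub x y h := by
  apply sup_le
  · rw [Subgroup.zpowers_le]; exact ⟨1, 0, by simp⟩
  · rw [Subgroup.zpowers_le]; exact ⟨0, 1, by simp⟩

end aux

section main
variable {G : Type*} [Group G] {p : ℕ} (K : Set (Subgroup G))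

/-- `g` generates a member of `K` -/
def PP (g : G) : Prop := g ≠ 1 ∧ Subgroup.zpowers g ∈ K

variable {K}

theorem PP.order (hK : ∀ X ∈ K, Nat.card ↥X = p) {g : G} (h : PP K g) : orderOf g = p := by
  rw [← Nat.card_zpowers]; exact hK _ h.2

theorem PP.conj (hKc : ∀ X ∈ K, ∀ g : G, X.map (MulAut.conj g).toMonoidHom ∈ K) {g : G}
    (h : PP K g) (a : G) : PP K (a * g * a⁻¹) := by
  refine ⟨?_, ?_⟩
  · intro h1
    apply h.1
    have : a * g * a⁻¹ = a * 1 * a⁻¹ := by rw [h1]; group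
    simpa using this
  · have := hKc _ h.2 a
    rw [MonoidHom.map_zpowers] at this
    simpa using this

theorem commute_zp {x y : G} (h : Commute x y) :
    ∀ a ∈ Subgroup.zpowers x, ∀ b ∈ Subgroup.zpowers y, a * b = b * a := by
  intro a ha b hb
  obtain ⟨i, rfl⟩ := Subgroup.mem_zpowers_iff.1 ha
  obtain ⟨j, rfl⟩ := Subgroup.mem_zpowers_iff.1 hb
  exact (h.zpow_zpow i j).eq

theorem zp_ne {x y : G} (hy : y ∉ Subgroup.zpowers x) : Subgroup.zpowers x ≠ Subgroup.zpowers y := by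
  intro h
  apply hy
  rw [h]
  exact Subgroup.mem_zpowers y

/-- (A) every nontrivial element of a line is a `K`-element -/
theorem PP.line (hp : p.Prime) (hK : ∀ X ∈ K, Nat.card ↥X = p)
    (ha : ∀ X ∈ K, ∀ Y ∈ K, X ≠ Y → (∀ x ∈ X, ∀ y ∈ Y, x * y = y * x) →
      ∀ Z : Subgroup G, Z ≤ X ⊔ Y → Nat.card ↥Z = p → Z ∈ K)
    {x y : G} (hx : PP K x) (hy : PP K y) (hc : Commute x y) (hn : y ∉ Subgroup.zpowers x)
    (a b : ℤ) (h1 : x ^ a * y ^ b ≠ 1) : PP K (x ^ a * y ^ b) := by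
  have : Fact p.Prime := ⟨hp⟩
  refine ⟨h1, ha _ hx.2 _ hy.2 (zp_ne hn) (commute_zp hc) _ ?_ ?_⟩
  · rw [Subgroup.zpowers_le]
    exact Subgroup.mul_mem _ (Subgroup.mem_sup_left (Subgroup.zpow_mem _ (Subgroup.mem_zpowers x) a))
      (Subgroup.mem_sup_right (Subgroup.zpow_mem _ (Subgroup.mem_zpowers y) b))
  · rw [Nat.card_zpowers]
    apply orderOf_eq_prime _ h1
    rw [(hc.zpow_zpow a b).mul_pow]
    have e1 : (x ^ a) ^ p = 1 := by
      rw [← zpow_natCast, ← zpow_mul, mul_comm, zpow_mul, zpow_natCast, ← hx.order hK,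
        pow_orderOf_eq_one, one_zpow]
    have e2 : (y ^ b) ^ p = 1 := by
      rw [← zpow_natCast, ← zpow_mul, mul_comm, zpow_mul, zpow_natCast, ← hy.order hK,
        pow_orderOf_eq_one, one_zpow]
    rw [e1, e2, one_mul]

/-- Lemma L -/
theorem PP.lemL (hp : p.Prime) (hK : ∀ X ∈ K, Nat.card ↥X = p)
    (ha : ∀ X ∈ K, ∀ Y ∈ K, X ≠ Y → (∀ x ∈ X, ∀ y ∈ Y, x * y = y * x) →
      ∀ Z : Subgroup G, Z ≤ X ⊔ Y → Nat.card ↥Z = p → Z ∈ K)
    (hb : ∀ X ∈ K, ∀ Y ∈ K, X ≠ Y → (∀ x ∈ X, ∀ y ∈ Y, x * y = y * x) →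
      ∀ W ∈ K, (X ⊔ Y) ⊓ Subgroup.centralizer (W : Set G) ≠ ⊥)
    {x y w : G} (hx : PP K x) (hy : PP K y) (hc : Commute x y) (hn : y ∉ Subgroup.zpowers x)
    (hw : PP K w) (hwy : ¬ Commute w y) :
    ∃ j : ℤ, Commute w (x * y ^ j) ∧ PP K (x * y ^ j) := by
  have h0 := hb _ hx.2 _ hy.2 (zp_ne hn) (commute_zp hc) _ hw.2
  obtain ⟨⟨g, hg⟩, hg1'⟩ := Subgroup.ne_bot_iff_exists_ne_one.1 h0
  have hg1 : g ≠ 1 := fun e => hg1' (Subtype.ext e)
  obtain ⟨hg3, hg2⟩ := Subgroup.mem_inf.1 hg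
  obtain ⟨a, b, rfl⟩ := sup_le_lineSub x y hc hg3
  have hcw : Commute w (x ^ a * y ^ b) := by
    have := Subgroup.mem_centralizer_iff.1 hg2 w (Subgroup.mem_zpowers w)
    exact this
  by_cases hxa : x ^ a = 1
  · exfalso
    rw [hxa, one_mul] at hcw hg1
    have hz := zp_eq hp (hy.order hK) (Subgroup.zpow_mem _ (Subgroup.mem_zpowers y) b) hg1
    have hy' : y ∈ Subgroup.zpowers (y ^ b) := by rw [hz]; exact Subgroup.mem_zpowers y
    obtain ⟨m, hm⟩ := Subgroup.mem_zpowers_iff.1 hy'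
    apply hwy
    rw [← hm]
    exact hcw.zpow_right m
  · have hz := zp_eq hp (hx.order hK) (Subgroup.zpow_mem _ (Subgroup.mem_zpowers x) a) hxa
    have hx' : x ∈ Subgroup.zpowers (x ^ a) := by rw [hz]; exact Subgroup.mem_zpowers x
    obtain ⟨m, hm⟩ := Subgroup.mem_zpowers_iff.1 hx'
    have e : (x ^ a * y ^ b) ^ m = x * y ^ (b * m) := by
      rw [(hc.zpow_zpow a b).mul_zpow, hm, zpow_mul]
    refine ⟨b * m, ?_, ?_⟩
    · rw [← e]; exact hcw.zpow_right m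
    · have := PP.line hp hK ha hx hy hc hn 1 (b * m) ?_
      · simpa using this
      · rw [zpow_one]
        intro h1
        apply hn
        have hx2 : x = (y ^ (b * m))⁻¹ := eq_inv_of_mul_eq_one_left h1
        have hx3 : x ∈ Subgroup.zpowers y := by
          rw [hx2]
          exact Subgroup.inv_mem _ (Subgroup.zpow_mem _ (Subgroup.mem_zpowers y) _)
        rw [zp_eq hp (hy.order hK) hx3 hx.1]
        exact Subgroup.mem_zpowers y

theorem exists_gen (hp : p.Prime) (hK : ∀ X ∈ K, Nat.card ↥X = p) {X : Subgroup G} (hX : X ∈ K) :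
    ∃ x, PP K x ∧ Subgroup.zpowers x = X := by
  have hc := hK X hX
  have hfin : Finite X := Nat.finite_of_card_ne_zero (by rw [hc]; exact hp.ne_zero)
  have hne : X ≠ ⊥ := by
    intro h
    rw [h, Subgroup.card_bot] at hc
    exact hp.one_lt.ne hc
  obtain ⟨⟨x, hx⟩, hx1'⟩ := Subgroup.ne_bot_iff_exists_ne_one.1 hne
  have hx1 : x ≠ 1 := fun e => hx1' (Subtype.ext e)
  have hle : Subgroup.zpowers x ≤ X := by rw [Subgroup.zpowers_le]; exact hx
  have hd : orderOf x ∣ p := by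
    rw [← hc, ← Nat.card_zpowers]
    exact Subgroup.card_dvd_of_le hle
  have ho : orderOf x = p := by
    rcases (Nat.dvd_prime hp).1 hd with h | h
    · exact absurd (orderOf_eq_one_iff.1 h) hx1
    · exact h
  have he : Subgroup.zpowers x = X := by
    apply Subgroup.eq_of_le_of_card_ge hle
    rw [Nat.card_zpowers, ho, hc]
  exact ⟨x, ⟨hx1, he ▸ hX⟩, he⟩

theorem not_mem_of (hp : p.Prime) (hK : ∀ X ∈ K, Nat.card ↥X = p) {x y u : G} (hx : PP K x)
    (hy : PP K y) (hyu : Commute y u) (hxu : ¬ Commute x u) : y ∉ Subgroup.zpowers x := by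
  intro h
  have hz := zp_eq hp (hx.order hK) h hy.1
  have hx' : x ∈ Subgroup.zpowers y := by rw [hz]; exact Subgroup.mem_zpowers x
  obtain ⟨m, hm⟩ := Subgroup.mem_zpowers_iff.1 hx'
  apply hxu
  rw [← hm]
  exact hyu.zpow_left m

theorem config (hp : p.Prime) (hK : ∀ X ∈ K, Nat.card ↥X = p)
    (hKc : ∀ X ∈ K, ∀ g : G, X.map (MulAut.conj g).toMonoidHom ∈ K)
    (ha : ∀ X ∈ K, ∀ Y ∈ K, X ≠ Y → (∀ x ∈ X, ∀ y ∈ Y, x * y = y * x) →
      ∀ Z : Subgroup G, Z ≤ X ⊔ Y → Nat.card ↥Z = p → Z ∈ K)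
    (hb : ∀ X ∈ K, ∀ Y ∈ K, X ≠ Y → (∀ x ∈ X, ∀ y ∈ Y, x * y = y * x) →
      ∀ W ∈ K, (X ⊔ Y) ⊓ Subgroup.centralizer (W : Set G) ≠ ⊥)
    {x u y₁ y₂ : G} (hx : PP K x) (hu : PP K u) (hy₁ : PP K y₁) (hy₂ : PP K y₂)
    (hxu : ¬ Commute x u) (hyy : ¬ Commute y₁ y₂) (h11 : Commute x y₁) (h12 : Commute x y₂)
    (h21 : Commute u y₁) (h22 : Commute u y₂) :
    PP K (x⁻¹ * u⁻¹ * x * u) ∧ Commute (x⁻¹ * u⁻¹ * x * u) x ∧ Commute (x⁻¹ * u⁻¹ * x * u) u := by
  have hux : ¬ Commute u x := fun h => hxu h.symm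
  have hn1 : y₁ ∉ Subgroup.zpowers x := not_mem_of hp hK hx hy₁ h21.symm hxu
  have hn2 : y₂ ∉ Subgroup.zpowers u := not_mem_of hp hK hu hy₂ h12.symm hux
  have hw : PP K (x * y₁) := by
    have := PP.line hp hK ha hx hy₁ h11 hn1 1 1 ?_
    · simpa using this
    · rw [zpow_one, zpow_one]
      intro h1
      apply hn1
      rw [eq_inv_of_mul_eq_one_right h1]
      exact Subgroup.inv_mem _ (Subgroup.mem_zpowers x)
  have hwy : ¬ Commute (x * y₁) y₂ := by
    intro h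
    apply hyy
    have : y₁ = x⁻¹ * (x * y₁) := by group
    rw [this]
    exact (h12.inv_left).mul_left h
  obtain ⟨b, hb1, -⟩ := PP.lemL hp hK ha hb hu hy₂ h22 hn2 hw hwy
  set y₃ := y₂ ^ b with hy₃
  have h13 : Commute x y₃ := h12.zpow_right b
  have h23 : Commute u y₃ := h22.zpow_right b
  have key : x⁻¹ * u⁻¹ * x * u = y₃ * y₁ * y₃⁻¹ * y₁⁻¹ := by
    have e1 : x * y₁ * (u * y₃) = x * u * (y₁ * y₃) := by
      rw [mul_assoc, ← mul_assoc y₁, ← h21.eq, mul_assoc, mul_assoc]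
    have e2 : u * y₃ * (x * y₁) = u * x * (y₃ * y₁) := by
      rw [mul_assoc, ← mul_assoc y₃, ← h13.eq, mul_assoc, mul_assoc]
    have e3 : x * u * (y₁ * y₃) = u * x * (y₃ * y₁) := by rw [← e1, ← e2]; exact hb1.eq
    have e4 : (u * x)⁻¹ * (x * u) = (y₃ * y₁) * (y₁ * y₃)⁻¹ := by
      rw [inv_mul_eq_iff_eq_mul, ← mul_assoc, ← e3, mul_assoc, mul_inv_cancel, mul_one]
    calc x⁻¹ * u⁻¹ * x * u = (u * x)⁻¹ * (x * u) := by group
      _ = (y₃ * y₁) * (y₁ * y₃)⁻¹ := e4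
      _ = y₃ * y₁ * y₃⁻¹ * y₁⁻¹ := by group
  have hcx : Commute (x⁻¹ * u⁻¹ * x * u) x := by
    rw [key]
    exact (((h13.symm.mul_left h11.symm).mul_left h13.symm.inv_left).mul_left h11.symm.inv_left)
  have hcu : Commute (x⁻¹ * u⁻¹ * x * u) u := by
    rw [key]
    exact (((h23.symm.mul_left h21.symm).mul_left h23.symm.inv_left).mul_left h21.symm.inv_left)
  refine ⟨?_, hcx, hcu⟩
  set c := x⁻¹ * u⁻¹ * x * u with hc
  have hc1 : c ≠ 1 := by
    intro h
    apply hxu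
    have : x * u = u * x * c := by rw [hc]; group
    rw [h, mul_one] at this
    exact this
  have hx2 : PP K (u⁻¹ * x * u) := by
    have := hx.conj hKc u⁻¹
    simpa using this
  have hxc : u⁻¹ * x * u = x * c := by rw [hc]; group
  have hcomm : Commute x (u⁻¹ * x * u) := by
    rw [hxc]; exact (Commute.refl x).mul_right hcx.symm
  have hn3 : u⁻¹ * x * u ∉ Subgroup.zpowers x := by
    intro h
    have hcz : c ∈ Subgroup.zpowers x := by
      have : c = x⁻¹ * (u⁻¹ * x * u) := by rw [hc]; group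
      rw [this]
      exact Subgroup.mul_mem _ (Subgroup.inv_mem _ (Subgroup.mem_zpowers x)) h
    have hz := zp_eq hp (hx.order hK) hcz hc1
    have hx' : x ∈ Subgroup.zpowers c := by rw [hz]; exact Subgroup.mem_zpowers x
    obtain ⟨m, hm⟩ := Subgroup.mem_zpowers_iff.1 hx'
    apply hxu
    rw [← hm]
    exact hcu.zpow_left m
  have hce : c = x ^ (-1 : ℤ) * (u⁻¹ * x * u) ^ (1 : ℤ) := by
    rw [hc]; group
  rw [hce]
  apply PP.line hp hK ha hx hx2 hcomm hn3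
  rw [← hce]; exact hc1

theorem rad_of_config (hp : p.Prime) (hK : ∀ X ∈ K, Nat.card ↥X = p)
    (ha : ∀ X ∈ K, ∀ Y ∈ K, X ≠ Y → (∀ x ∈ X, ∀ y ∈ Y, x * y = y * x) →
      ∀ Z : Subgroup G, Z ≤ X ⊔ Y → Nat.card ↥Z = p → Z ∈ K)
    (hb : ∀ X ∈ K, ∀ Y ∈ K, X ≠ Y → (∀ x ∈ X, ∀ y ∈ Y, x * y = y * x) →
      ∀ W ∈ K, (X ⊔ Y) ⊓ Subgroup.centralizer (W : Set G) ≠ ⊥)
    {x' u' c : G} (hj2 : PP K x') (hl2 : PP K u') (hxu' : ¬ Commute x' u')
    (hcdef : c = x'⁻¹ * u'⁻¹ * x' * u') (hc : PP K c) (hcx : Commute c x') (hcu : Commute c u')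
    (s : G) (hs : PP K s) : Commute s c := by
  by_contra hsc
  have hux' : ¬ Commute u' x' := fun h => hxu' h.symm
  have hm1 : c ∉ Subgroup.zpowers x' := not_mem_of hp hK hj2 hc hcu hxu'
  have hm2 : c ∉ Subgroup.zpowers u' := not_mem_of hp hK hl2 hc hcx hux'
  obtain ⟨i, hi1, -⟩ := PP.lemL hp hK ha hb hj2 hc hcx.symm hm1 hs hsc
  obtain ⟨k, hk1, -⟩ := PP.lemL hp hK ha hb hl2 hc hcu.symm hm2 hs hsc
  apply hsc
  have hAx : Commute (c ^ i) x' := hcx.zpow_left i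
  have hAu : Commute (c ^ i) u' := hcu.zpow_left i
  have hBx : Commute (c ^ k) x' := hcx.zpow_left k
  have hBu : Commute (c ^ k) u' := hcu.zpow_left k
  have e1 : (x' * c ^ i) * (u' * c ^ k) = x' * u' * (c ^ i * c ^ k) := by
    rw [mul_assoc, ← mul_assoc (c ^ i), hAu.eq, mul_assoc, mul_assoc]
  have e2 : (u' * c ^ k) * (x' * c ^ i) = u' * x' * (c ^ i * c ^ k) := by
    rw [mul_assoc, ← mul_assoc (c ^ k), hBx.eq, mul_assoc, mul_assoc,
      ((Commute.refl c).zpow_zpow k i).eq]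
  have e3 : c = ((u' * c ^ k) * (x' * c ^ i))⁻¹ * ((x' * c ^ i) * (u' * c ^ k)) := by
    rw [e1, e2]
    have hcc : Commute (c ^ i * c ^ k) c :=
      ((Commute.refl c).zpow_left i).mul_left ((Commute.refl c).zpow_left k)
    have h4 : (u' * x' * (c ^ i * c ^ k))⁻¹ * (x' * u' * (c ^ i * c ^ k))
        = (c ^ i * c ^ k)⁻¹ * (x'⁻¹ * u'⁻¹ * x' * u') * (c ^ i * c ^ k) := by
      group
    rw [h4, ← hcdef, mul_assoc, ← hcc.eq, ← mul_assoc, inv_mul_cancel, one_mul]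
  rw [e3]
  exact ((hk1.mul_right hi1).inv_right).mul_right (hi1.mul_right hk1)

theorem exists_rad (hp : p.Prime) (hK : ∀ X ∈ K, Nat.card ↥X = p)
    (hKc : ∀ X ∈ K, ∀ g : G, X.map (MulAut.conj g).toMonoidHom ∈ K)
    (hex : ∃ X ∈ K, ∃ Y ∈ K, X ≠ Y ∧ ∀ x ∈ X, ∀ y ∈ Y, x * y = y * x)
    (ha : ∀ X ∈ K, ∀ Y ∈ K, X ≠ Y → (∀ x ∈ X, ∀ y ∈ Y, x * y = y * x) →
      ∀ Z : Subgroup G, Z ≤ X ⊔ Y → Nat.card ↥Z = p → Z ∈ K)
    (hb : ∀ X ∈ K, ∀ Y ∈ K, X ≠ Y → (∀ x ∈ X, ∀ y ∈ Y, x * y = y * x) →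
      ∀ W ∈ K, (X ⊔ Y) ⊓ Subgroup.centralizer (W : Set G) ≠ ⊥) :
    ∃ c, PP K c ∧ ∀ t, PP K t → Commute c t := by
  by_contra hno
  push Not at hno
  obtain ⟨X, hX, Y, hY, hXY, hcXY⟩ := hex
  obtain ⟨x, hx, rfl⟩ := exists_gen hp hK hX
  obtain ⟨y, hy, rfl⟩ := exists_gen hp hK hY
  have hxy : Commute x y := hcXY x (Subgroup.mem_zpowers x) y (Subgroup.mem_zpowers y)
  have hn : y ∉ Subgroup.zpowers x := by
    intro h
    exact hXY (zp_eq hp (hx.order hK) h hy.1).symm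
  obtain ⟨u, hu, hxu⟩ := hno x hx
  have hux : ¬ Commute u x := fun h => hxu h.symm
  -- a point commuting with both x and u
  obtain ⟨y₁, hy₁, h11, h21⟩ : ∃ y₁, PP K y₁ ∧ Commute x y₁ ∧ Commute u y₁ := by
    by_cases huy : Commute u y
    · exact ⟨y, hy, hxy, huy⟩
    · obtain ⟨j, hj1, hj2⟩ := PP.lemL hp hK ha hb hx hy hxy hn hu huy
      exact ⟨_, hj2, (Commute.refl x).mul_right (hxy.zpow_right j), hj1⟩
  obtain ⟨t, ht, hy₁t⟩ := hno y₁ hy₁
  have hty₁ : ¬ Commute t y₁ := fun h => hy₁t h.symm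
  have hn1 : y₁ ∉ Subgroup.zpowers x := not_mem_of hp hK hx hy₁ h21.symm hxu
  have hn2 : y₁ ∉ Subgroup.zpowers u := not_mem_of hp hK hu hy₁ h11.symm hux
  obtain ⟨j, hj1, hj2⟩ := PP.lemL hp hK ha hb hx hy₁ h11 hn1 ht hty₁
  obtain ⟨l, hl1, hl2⟩ := PP.lemL hp hK ha hb hu hy₁ h21 hn2 ht hty₁
  have hA : Commute (x * y₁ ^ j) y₁ := h11.mul_left ((Commute.refl y₁).zpow_left j)
  have hB : Commute (u * y₁ ^ l) y₁ := h21.mul_left ((Commute.refl y₁).zpow_left l)
  have hxu' : ¬ Commute (x * y₁ ^ j) (u * y₁ ^ l) := by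
    intro h
    apply hxu
    have e1 : x = (x * y₁ ^ j) * (y₁ ^ j)⁻¹ := by group
    have e2 : u = (u * y₁ ^ l) * (y₁ ^ l)⁻¹ := by group
    rw [e1, e2]
    apply Commute.mul_left
    · exact h.mul_right (hA.zpow_right l).inv_right
    · apply Commute.mul_right
      · exact (hB.zpow_right j).symm.inv_left
      · exact (((Commute.refl y₁).zpow_zpow j l).inv_inv)
  obtain ⟨hc, hcx, hcu⟩ := config hp hK hKc ha hb hj2 hl2 hy₁ ht hxu' hy₁t hA hj1.symm hB hl1.symm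
  obtain ⟨s, hs, hcs⟩ := hno _ hc
  exact hcs (rad_of_config hp hK ha hb hj2 hl2 hxu' rfl hc hcx hcu s hs).symm

end main

/-- Let p be a prime and K a set of subgroups of order p of a finite group G, closed under conjugation, such that at least two distinct members of K commute elementwise, and whenever two distinct members X, Y of K commute: every subgroup of order p of the group XY they generate belongs to K, and every member W of K has centralizer meeting XY nontrivially. Then some member V of K commutes elementwise with every member of K and lies in O_p(G); in particular G is not simple. -/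
theorem result {G : Type*} [Group G] [Finite G]
    {p : ℕ} (hp : p.Prime) (K : Set (Subgroup G)) (hK : ∀ X ∈ K, Nat.card ↥X = p)
    (hKc : ∀ X ∈ K, ∀ g : G, X.map (MulAut.conj g).toMonoidHom ∈ K)
    (hex : ∃ X ∈ K, ∃ Y ∈ K, X ≠ Y ∧ ∀ x ∈ X, ∀ y ∈ Y, x * y = y * x)
    (ha : ∀ X ∈ K, ∀ Y ∈ K, X ≠ Y → (∀ x ∈ X, ∀ y ∈ Y, x * y = y * x) →
      ∀ Z : Subgroup G, Z ≤ X ⊔ Y → Nat.card ↥Z = p → Z ∈ K)
    (hb : ∀ X ∈ K, ∀ Y ∈ K, X ≠ Y → (∀ x ∈ X, ∀ y ∈ Y, x * y = y * x) →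
      ∀ W ∈ K, (X ⊔ Y) ⊓ Subgroup.centralizer (W : Set G) ≠ ⊥) :
    (∃ V ∈ K, (∀ W ∈ K, ∀ v ∈ V, ∀ w ∈ W, v * w = w * v) ∧ V ≤ Cfsg.pCore p G) ∧ ¬ IsSimpleGroup G := by
  obtain ⟨c, hc, hrad⟩ := exists_rad hp hK hKc hex ha hb
  have hN1 : ∀ n ∈ Subgroup.normalClosure ({c} : Set G), ∀ t, PP K t → Commute n t := by
    intro n hn
    induction hn using Subgroup.closure_induction with
    | mem x hx =>
      intro t ht
      obtain ⟨a, ha', hax⟩ := Group.mem_conjugatesOfSet_iff.1 hx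
      rw [Set.mem_singleton_iff] at ha'
      subst ha'
      obtain ⟨g, rfl⟩ := isConj_iff.1 hax
      have h1 : Commute a (g⁻¹ * t * g) := by
        have := ht.conj hKc g⁻¹
        rw [inv_inv] at this
        exact hrad _ this
      have h2 : g * a * g⁻¹ * t = g * (a * (g⁻¹ * t * g)) * g⁻¹ := by group
      have h3 : t * (g * a * g⁻¹) = g * ((g⁻¹ * t * g) * a) * g⁻¹ := by group
      show g * a * g⁻¹ * t = t * (g * a * g⁻¹)
      rw [h2, h3, h1.eq]
    | one => intro t _; exact Commute.one_left t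
    | mul x y _ _ hx hy => intro t ht; exact (hx t ht).mul_left (hy t ht)
    | inv x _ hx => intro t ht; exact (hx t ht).inv_left
  have hgen : ∀ x ∈ Group.conjugatesOfSet ({c} : Set G), PP K x := by
    intro x hx
    obtain ⟨a, ha', hax⟩ := Group.mem_conjugatesOfSet_iff.1 hx
    rw [Set.mem_singleton_iff] at ha'
    subst ha'
    obtain ⟨g, rfl⟩ := isConj_iff.1 hax
    exact hc.conj hKc g
  have hN2 : ∀ n ∈ Subgroup.normalClosure ({c} : Set G),
      ∀ m ∈ Subgroup.normalClosure ({c} : Set G), Commute n m := by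
    intro n hn m hm
    induction hm using Subgroup.closure_induction with
    | mem x hx => exact hN1 n hn x (hgen x hx)
    | one => exact Commute.one_right n
    | mul x y _ _ hx hy => exact hx.mul_right hy
    | inv x _ hx => exact hx.inv_right
  have hN3 : ∀ n ∈ Subgroup.normalClosure ({c} : Set G), n ^ p = 1 := by
    intro n hn
    induction hn using Subgroup.closure_induction with
    | mem x hx => rw [← (hgen x hx).order hK]; exact pow_orderOf_eq_one x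
    | one => exact one_pow p
    | mul x y hx' hy' hx hy => rw [(hN2 x hx' y hy').mul_pow, hx, hy, one_mul]
    | inv x _ hx => rw [inv_pow, hx, inv_one]
  have hcN : c ∈ Subgroup.normalClosure ({c} : Set G) :=
    Subgroup.subset_normalClosure (Set.mem_singleton c)
  have hNp : IsPGroup p (Subgroup.normalClosure ({c} : Set G)) := by
    intro g
    refine ⟨1, ?_⟩
    apply Subtype.ext
    rw [pow_one]
    exact hN3 g.1 g.2
  refine ⟨⟨Subgroup.zpowers c, hc.2, ?_, ?_⟩, ?_⟩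
  · intro W hW v hv w hw
    obtain ⟨w₀, hw₀, rfl⟩ := exists_gen hp hK hW
    exact commute_zp (hrad w₀ hw₀) v hv w hw
  · have h1 : Subgroup.zpowers c ≤ Subgroup.normalClosure ({c} : Set G) := by
      rw [Subgroup.zpowers_le]; exact hcN
    exact h1.trans (le_sSup ⟨Subgroup.normalClosure_normal, hNp⟩)
  · intro hs
    rcases (Subgroup.normalClosure_normal (s := ({c} : Set G))).eq_bot_or_eq_top with h | h
    · rw [h, Subgroup.mem_bot] at hcN
      exact hc.1 hcN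
    · have hall : ∀ a b : G, a * b = b * a := by
        intro a b
        exact (hN2 a (by rw [h]; exact Subgroup.mem_top a) b (by rw [h]; exact Subgroup.mem_top b)).eq
      obtain ⟨X, hX, Y, hY, hXY, -⟩ := hex
      have htop : ∀ Z ∈ K, Z = ⊤ := by
        intro Z hZ
        have hZn : Z.Normal := ⟨fun n hn g => by rw [hall g n, mul_assoc, mul_inv_cancel, mul_one]; exact hn⟩
        rcases hZn.eq_bot_or_eq_top with h' | h'
        · have := hK Z hZ
          rw [h', Subgroup.card_bot] at this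
          exact absurd this hp.one_lt.ne
        · exact h'
      exact hXY ((htop X hX).trans (htop Y hY).symm)

end Cfsg.Agent.S3196
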