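import Cfsg.Statements.S3200
import Cfsg.Agent.S0143
import Cfsg.Agent.Lib.Lead.Hall
import Cfsg.Agent.Lib.Helper74.MaxSolvable

set_option autoImplicit false
open Cfsg

namespace Cfsg.Agent.S3200

universe u

/-- existence of an abelian subgroup of odd order and `2`-power index -/
def Q (H : Type u) [Group H] : Prop :=
  ∃ C : Subgroup H, IsMulCommutative ↥C ∧ Odd (Nat.card C) ∧ ∃ k : ℕ, C.index = 2 ^ k

theorem Q_of_complement {H : Type u} [Group H] [Finite H] (S : Sylow 2 H) (C : Subgroup H)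
    (hC : IsMulCommutative ↥C) (hSC : Subgroup.IsComplement' (S : Subgroup H) C) : Q H := by
  have h1 := hSC.card_mul_card
  have h2 := (S : Subgroup H).card_mul_index
  have h3 := C.card_mul_index
  have hSpos : 0 < Nat.card (S : Subgroup H) := Nat.card_pos
  have hCpos : 0 < Nat.card C := Nat.card_pos
  have h4 : Nat.card C = (S : Subgroup H).index := by
    apply Nat.eq_of_mul_eq_mul_left hSpos
    rw [h1, h2]
  have h5 : C.index = Nat.card (S : Subgroup H) := by
    apply Nat.eq_of_mul_eq_mul_left hCpos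
    rw [h3, ← h1, mul_comm]
  refine ⟨C, hC, ?_, ?_⟩
  · rw [h4, ← Nat.not_even_iff_odd, even_iff_two_dvd]
    exact S.not_dvd_index
  · obtain ⟨k, hk⟩ := S.2.exists_card_eq
    exact ⟨k, by rw [h5, hk]⟩

theorem complement_of_Q {H : Type u} [Group H] [Finite H] (h : Q H) :
    ∃ (P : Sylow 2 H) (D : Subgroup H), IsMulCommutative ↥D ∧
      Subgroup.IsComplement' (P : Subgroup H) D := by
  obtain ⟨C, hC, hodd, k, hk⟩ := h
  obtain ⟨P⟩ : Nonempty (Sylow 2 H) := inferInstance
  refine ⟨P, C, hC, ?_⟩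
  obtain ⟨a, ha⟩ := P.2.exists_card_eq
  have h2 := (P : Subgroup H).card_mul_index
  have h3 := C.card_mul_index
  have hPodd : Odd (P : Subgroup H).index := by
    rw [← Nat.not_even_iff_odd, even_iff_two_dvd]
    exact P.not_dvd_index
  have hcop1 : Nat.Coprime (2 ^ a) (Nat.card C) :=
    Nat.Coprime.pow_left a (Nat.coprime_two_left.mpr hodd)
  have hcop2 : Nat.Coprime (2 ^ k) (P : Subgroup H).index :=
    Nat.Coprime.pow_left k (Nat.coprime_two_left.mpr hPodd)
  have hd1 : 2 ^ a ∣ 2 ^ k := by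
    apply hcop1.dvd_of_dvd_mul_left
    rw [← hk, h3, ← h2, ha]
    exact Dvd.intro _ rfl
  have hd2 : 2 ^ k ∣ 2 ^ a := by
    apply hcop2.dvd_of_dvd_mul_right
    rw [← ha, h2, ← h3, hk]
    exact Dvd.intro_left _ rfl
  have hak : 2 ^ a = 2 ^ k := Nat.dvd_antisymm hd1 hd2
  apply Subgroup.isComplement'_of_coprime
  · rw [ha, hak, ← hk, mul_comm, h3]
  · rw [ha]; exact hcop1

theorem Q_normal {H : Type u} [Group H] [Finite H] (h : Q H) (N : Subgroup H) [N.Normal] :
    Q ↥N := by
  obtain ⟨C, hC, hodd, k, hk⟩ := h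
  refine ⟨C.subgroupOf N, ?_, ?_, ?_⟩
  · refine ⟨⟨?_⟩⟩
    rintro ⟨⟨a, haN⟩, ha⟩ ⟨⟨b, hbN⟩, hb⟩
    apply Subtype.ext
    apply Subtype.ext
    have := hC.is_comm.comm ⟨a, ha⟩ ⟨b, hb⟩
    exact congrArg (fun x : ↥C => (x : H)) this
  · have h1 : Nat.card (C.subgroupOf N) ∣ Nat.card C := by
      rw [← Subgroup.inf_subgroupOf_right,
        Nat.card_congr (Subgroup.subgroupOfEquivOfLe (inf_le_right : C ⊓ N ≤ N)).toEquiv]
      exact Subgroup.card_dvd_of_le inf_le_left
    exact Odd.of_dvd_nat hodd h1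
  · have h1 : C.relIndex N ∣ 2 ^ k := by
      rw [← hk]
      exact Dvd.intro _ (Cfsg.Agent.Lib.Helper74.relIndex_mul_index_sup_of_normal C N)
    obtain ⟨j, -, hj⟩ := (Nat.dvd_prime_pow Nat.prime_two).mp h1
    exact ⟨j, hj⟩

theorem Q_quotient {H : Type u} [Group H] [Finite H] (h : Q H) (N : Subgroup H) [N.Normal] :
    Q (H ⧸ N) := by
  obtain ⟨C, hC, hodd, k, hk⟩ := h
  refine ⟨C.map (QuotientGroup.mk' N), ?_, ?_, ?_⟩
  · refine ⟨⟨?_⟩⟩
    rintro ⟨_, a, ha, rfl⟩ ⟨_, b, hb, rfl⟩
    apply Subtype.ext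
    have := hC.is_comm.comm ⟨a, ha⟩ ⟨b, hb⟩
    have h2 : a * b = b * a := congrArg (fun x : ↥C => (x : H)) this
    change (QuotientGroup.mk' N) a * (QuotientGroup.mk' N) b =
      (QuotientGroup.mk' N) b * (QuotientGroup.mk' N) a
    rw [← map_mul, ← map_mul, h2]
  · exact Odd.of_dvd_nat hodd (Subgroup.card_map_dvd C (QuotientGroup.mk' N))
  · have h1 : (C.map (QuotientGroup.mk' N)).index ∣ 2 ^ k := by
      rw [← hk]
      exact Subgroup.index_map_dvd C (QuotientGroup.mk'_surjective N)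
    obtain ⟨j, -, hj⟩ := (Nat.dvd_prime_pow Nat.prime_two).mp h1
    exact ⟨j, hj⟩

theorem solvable_aux : ∀ (n : ℕ) (H : Type u) [Group H] [Finite H], Nat.card H = n → Q H →
    Group.IsSolvable H := by
  intro n
  induction n using Nat.strong_induction_on with
  | _ n ih =>
  intro H _ _ hn hQ
  by_cases hsimple : IsSimpleGroup H
  · obtain ⟨C, hC, hodd, k, hk⟩ := hQ
    by_cases hCbot : C = ⊥
    · -- a 2-group
      have hp : IsPGroup 2 H := by
        apply IsPGroup.of_card (n := k)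
        rw [← hk, hCbot, Subgroup.index_bot]
      have : Group.IsNilpotent H := hp.isNilpotent
      infer_instance
    · obtain ⟨g, hgC, hg1⟩ : ∃ g : H, g ∈ C ∧ g ≠ 1 := by
        by_contra hcon
        push Not at hcon
        exact hCbot ((Subgroup.eq_bot_iff_forall C).mpr hcon)
      have hle : C ≤ Subgroup.centralizer ({g} : Set H) := by
        intro c hc
        rw [Subgroup.mem_centralizer_singleton_iff]
        have := hC.is_comm.comm ⟨c, hc⟩ ⟨g, hgC⟩
        exact congrArg (fun x : ↥C => (x : H)) this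
      have h1 : (Subgroup.centralizer ({g} : Set H)).index ∣ 2 ^ k := by
        rw [← hk]
        exact Subgroup.index_dvd_of_le hle
      obtain ⟨j, -, hj⟩ := (Nat.dvd_prime_pow Nat.prime_two).mp h1
      have hprime := Cfsg.Agent.S0143.result 2 j Nat.prime_two g hg1 hj
      have : Fact (Nat.card H).Prime := ⟨hprime⟩
      have hcyc : IsCyclic H := isCyclic_of_prime_card rfl
      exact Group.isSolvable_of_comm (fun a b => hcyc.isMulCommutative.is_comm.comm a b)
  · by_cases hnt : Nontrivial H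
    · -- a proper nontrivial normal subgroup
      have : ∃ N : Subgroup H, N.Normal ∧ N ≠ ⊥ ∧ N ≠ ⊤ := by
        by_contra hcon
        push Not at hcon
        apply hsimple
        exact ⟨fun N hN => by
          by_cases hb : N = ⊥
          · exact Or.inl hb
          · exact Or.inr (hcon N hN hb)⟩
      obtain ⟨N, hN, hNb, hNt⟩ := this
      have hNcard : Nat.card N < n := by
        rw [← hn]
        have h1 := N.card_mul_index
        have h2 : N.index ≠ 1 := fun h => hNt (Subgroup.index_eq_one.mp h)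
        have h3 : 0 < N.index := Nat.pos_of_ne_zero Subgroup.index_ne_zero_of_finite
        have h4 : 0 < Nat.card N := Nat.card_pos
        have h5 : 2 ≤ N.index := by omega
        nlinarith
      have hQcard : Nat.card (H ⧸ N) < n := by
        rw [← hn]
        have h1 := N.card_mul_index
        have h2 : Nat.card N ≠ 1 := fun h => hNb (Subgroup.card_eq_one.mp h)
        have h3 : 0 < N.index := Nat.pos_of_ne_zero Subgroup.index_ne_zero_of_finite
        have h4 : 0 < Nat.card N := Nat.card_pos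
        have h5 : Nat.card (H ⧸ N) = N.index := rfl
        rw [h5]
        have h6 : 2 ≤ Nat.card N := by omega
        nlinarith
      have s1 := ih _ hNcard ↥N rfl (Q_normal hQ N)
      have s2 := ih _ hQcard (H ⧸ N) rfl (Q_quotient hQ N)
      exact (Group.isSolvable_iff_subgroup_quotient N).mpr ⟨s1, s2⟩
    · have : Subsingleton H := not_nontrivial_iff_subsingleton.mp hnt
      infer_instance

theorem Q_subgroup {H : Type u} [Group H] [Finite H] (h : Q H) (L : Subgroup H) : Q ↥L := by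
  have hsol : Group.IsSolvable H := solvable_aux _ H rfl h
  obtain ⟨C, hC, hodd, k, hk⟩ := h
  obtain ⟨j, m, hm, hjm⟩ := Nat.exists_eq_two_pow_mul_odd (n := Nat.card L) Nat.card_pos.ne'
  have hcop : Nat.Coprime m (2 ^ j) := (Nat.Coprime.pow_left j (Nat.coprime_two_left.mpr hm)).symm
  obtain ⟨D, hD⟩ := Cfsg.Agent.Lib.Lead.hall_exists (G := ↥L) m (2 ^ j)
    (by rw [hjm, mul_comm]) hcop
  have hDidx : D.index = 2 ^ j := by
    have h1 := D.card_mul_index
    rw [hD, hjm, mul_comm] at h1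
    exact Nat.eq_of_mul_eq_mul_right (Nat.pos_of_ne_zero (fun h0 => by simp [h0] at hm)) h1
  refine ⟨D, ?_, by rw [hD]; exact hm, j, hDidx⟩
  -- `D` lies in a conjugate of `C`
  have hD1 : Nat.card (D.map L.subtype) = m := by
    rw [Subgroup.card_map_of_injective L.subtype_injective, hD]
  obtain ⟨H₁, hH₁, hle⟩ := Cfsg.Agent.Lib.Lead.hall_dom (G := H) (Nat.card C) (2 ^ k)
    (by rw [← hk, C.card_mul_index])
    ((Nat.Coprime.pow_left k (Nat.coprime_two_left.mpr hodd)).symm) (D.map L.subtype)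
    (by rw [hD1]; exact (Nat.Coprime.pow_left k (Nat.coprime_two_left.mpr hm)).symm)
  obtain ⟨g, hg⟩ := Cfsg.Agent.Lib.Lead.hall_conj (G := H) (Nat.card C) (2 ^ k)
    (by rw [← hk, C.card_mul_index])
    ((Nat.Coprime.pow_left k (Nat.coprime_two_left.mpr hodd)).symm) C H₁ rfl hH₁
  refine ⟨⟨?_⟩⟩
  rintro ⟨a, ha⟩ ⟨b, hb⟩
  apply Subtype.ext
  apply Subtype.ext
  have ha1 : (a : H) ∈ H₁ := hle ⟨a, ha, rfl⟩
  have hb1 : (b : H) ∈ H₁ := hle ⟨b, hb, rfl⟩
  rw [← hg, Cfsg.Agent.Lib.Lead.mem_conj_smul] at ha1 hb1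
  have := hC.is_comm.comm ⟨_, ha1⟩ ⟨_, hb1⟩
  have h2 : (g⁻¹ * (a : H) * g) * (g⁻¹ * (b : H) * g) = (g⁻¹ * (b : H) * g) * (g⁻¹ * (a : H) * g) :=
    congrArg (fun x : ↥C => (x : H)) this
  change (a : H) * (b : H) = (b : H) * (a : H)
  have h3 : g⁻¹ * ((a : H) * b) * g = g⁻¹ * ((b : H) * a) * g := by
    calc g⁻¹ * ((a : H) * b) * g = (g⁻¹ * (a : H) * g) * (g⁻¹ * (b : H) * g) := by group
      _ = (g⁻¹ * (b : H) * g) * (g⁻¹ * (a : H) * g) := h2
      _ = _ := by group
  exact mul_left_cancel (mul_right_cancel h3)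

/-- Let H be a finite group in which a Sylow 2-subgroup has an abelian complement (an abelian subgroup meeting it trivially whose product with it is all of H). Then H is solvable, and every subgroup and every quotient group of H again has a Sylow 2-subgroup with an abelian complement. -/
theorem result {H : Type*} [Group H] [Finite H]
    (S : Sylow 2 H) (C : Subgroup H) (hC : IsMulCommutative ↥C) (hSC : Subgroup.IsComplement' (S : Subgroup H) C) :
    Group.IsSolvable H ∧
    (∀ L : Subgroup H, ∃ (P : Sylow 2 ↥L) (D : Subgroup ↥L), IsMulCommutative ↥D ∧ Subgroup.IsComplement' (P : Subgroup ↥L) D) ∧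
    (∀ (N : Subgroup H) [N.Normal], ∃ (P : Sylow 2 (H ⧸ N)) (D : Subgroup (H ⧸ N)),
      IsMulCommutative ↥D ∧ Subgroup.IsComplement' (P : Subgroup (H ⧸ N)) D) := by
  have hQ : Q H := Q_of_complement S C hC hSC
  exact ⟨solvable_aux _ H rfl hQ, fun L => complement_of_Q (Q_subgroup hQ L),
    fun N _ => complement_of_Q (Q_quotient hQ N)⟩

end Cfsg.Agent.S3200
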