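import Cfsg.Statements.S3201
import Cfsg.Agent.Lib.Helper59.QuatLift
import Cfsg.Agent.Lib.Helper59.QuatHom
import Cfsg.Agent.Lib.Helper3.PGroup

set_option autoImplicit false
open Cfsg

namespace Cfsg.Agent.S3201

open Cfsg.Agent.Lib.Helper59

theorem core {S : Type*} [Group S] [Finite S] (hS : IsPGroup 2 S) {ι : Type*} (i0 : ι)
    (N : ι → Subgroup S) (hNZ : ∀ i, N i ≤ Subgroup.center S)
    (hsq : ∀ i, ∀ z ∈ Subgroup.center S, z * z ∈ N i)
    (hmul : ∀ i, ∀ z ∈ Subgroup.center S, ∀ z' ∈ Subgroup.center S,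
      z ∉ N i → z' ∉ N i → z * z' ∈ N i)
    (hne : ∀ i, ∃ z ∈ Subgroup.center S, z ∉ N i)
    (hint : ∀ x, (∀ i, x ∈ N i) → x = 1)
    (hq : ∀ i, ∃ (_ : (N i).Normal), ¬ IsMulCommutative (S ⧸ N i) ∧
      ∃! x : S ⧸ N i, orderOf x = 2) :
    ∃ E Q : Subgroup S, Cfsg.IsInternalDirectProduct E Q ⊤ ∧ Cfsg.IsElementaryAbelian 2 E ∧
      ¬ IsMulCommutative ↥Q ∧ ∃! x : ↥Q, orderOf x = 2 := by
  have : Fact (Nat.Prime 2) := ⟨Nat.prime_two⟩
  have ord2 : ∀ i, ∀ (_ : (N i).Normal), ∀ s : S, s * s ∈ N i → s ∉ N i →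
      orderOf (s : S ⧸ N i) = 2 := by
    intro i _ s hs hsN
    apply orderOf_eq_prime
    · rw [pow_two, ← QuotientGroup.mk_mul]
      exact (QuotientGroup.eq_one_iff _).mpr hs
    · intro h
      exact hsN ((QuotientGroup.eq_one_iff _).mp h)
  have B1 : ∀ i, ∀ s : S, s * s ∈ N i → s ∈ Subgroup.center S := by
    intro i s hs
    obtain ⟨hn, -, u, hu, huniq⟩ := hq i
    obtain ⟨z0, hz0, hz0N⟩ := hne i
    by_cases hsN : s ∈ N i
    · exact hNZ i hsN
    have h1 := ord2 i hn s hs hsN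
    have h2 := ord2 i hn z0 (hsq i z0 hz0) hz0N
    have h3 : (s : S ⧸ N i) = z0 := (huniq _ h1).trans (huniq _ h2).symm
    have h4 : z0⁻¹ * s ∈ N i := QuotientGroup.eq.mp h3.symm
    have : s = z0 * (z0⁻¹ * s) := by group
    rw [this]
    exact Subgroup.mul_mem _ hz0 (hNZ i h4)
  have M1 : ∀ z ∈ Subgroup.center S, z * z = 1 := fun z hz => hint _ (fun i => hsq i z hz)
  have M2 : ∀ z ∈ Subgroup.center S, ∀ z' ∈ Subgroup.center S, (∀ i, z ∉ N i) →
      (∀ i, z' ∉ N i) → z = z' := by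
    intro z hz z' hz' h h'
    have h1 := hint (z * z') (fun i => hmul i z hz z' hz' (h i) (h' i))
    have h2 := M1 z' hz'
    exact mul_right_cancel (h1.trans h2.symm)
  have M3 : ∀ s, s ∉ Subgroup.center S → ∀ i, s * s ∉ N i := fun s hs i h => hs (B1 i s h)
  obtain ⟨hn, hna, u, hu, huniq⟩ := hq i0
  obtain ⟨k, a, b, ha, hb, hbb, hba, hform⟩ := quat_quotient_lift hS (N i0) hna
    (fun x y hx hy => (huniq x hx).trans (huniq y hy).symm)
  have hane : (a : S ⧸ N i0)⁻¹ ≠ a := by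
    intro h
    have h1 : (a : S ⧸ N i0) ^ 2 = 1 := by
      rw [pow_two]
      nth_rewrite 1 [← h]
      simp
    have h2 := orderOf_dvd_of_pow_eq_one h1
    rw [ha] at h2
    have h3 := Nat.le_of_dvd (by norm_num) h2
    have : 0 < 2 ^ k := by positivity
    omega
  -- elements not commuting with `a` modulo `N i0` are not central
  have hnc : ∀ c : S, (c : S ⧸ N i0) * a * (c : S ⧸ N i0)⁻¹ = (a : S ⧸ N i0)⁻¹ →
      c ∉ Subgroup.center S := by
    intro c hc hcZ
    apply hane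
    rw [← hc]
    have : c * a = a * c := (Subgroup.mem_center_iff.mp hcZ a).symm
    rw [← QuotientGroup.mk_mul, this, QuotientGroup.mk_mul]
    group
  set w : S := a ^ (2 * 2 ^ k) with hw
  have hwZ : w ∈ Subgroup.center S := by
    apply B1 i0
    rw [← QuotientGroup.eq_one_iff, hw, ← pow_add, QuotientGroup.mk_pow]
    have : 2 * 2 ^ k + 2 * 2 ^ k = 4 * 2 ^ k := by ring
    rw [this, ← ha, pow_orderOf_eq_one]
  have hw' : w = a ^ (2 ^ k) * a ^ (2 ^ k) := by
    rw [hw, ← pow_add]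
    congr 1
    ring
  have hwN0 : w ∉ N i0 := by
    intro h
    rw [← QuotientGroup.eq_one_iff, hw, QuotientGroup.mk_pow] at h
    have h2 := orderOf_dvd_of_pow_eq_one h
    rw [ha] at h2
    have h3 := Nat.le_of_dvd (by positivity) h2
    have : 0 < 2 ^ k := by positivity
    omega
  have hwgood : ∀ i, w ∉ N i := by
    rw [hw']
    apply M3
    intro h
    apply hwN0
    rw [hw']
    exact hsq i0 _ h
  -- any c with c̄² = w̄ and c noncentral has c*c = w
  have key : ∀ c : S, c ∉ Subgroup.center S → (c : S ⧸ N i0) * c = (w : S ⧸ N i0) → c * c = w := by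
    intro c hc hcw
    apply M2 _ _ _ hwZ (M3 c hc) hwgood
    rw [← QuotientGroup.mk_mul] at hcw
    have h4 : w⁻¹ * (c * c) ∈ N i0 := QuotientGroup.eq.mp hcw.symm
    have : c * c = w * (w⁻¹ * (c * c)) := by group
    rw [this]
    exact Subgroup.mul_mem _ hwZ (hNZ i0 h4)
  have hbb' : b * b = w := by
    apply key b (hnc b hba)
    rw [hbb, hw, QuotientGroup.mk_pow]
  have hba2 : (b : S ⧸ N i0) * a = (a : S ⧸ N i0)⁻¹ * b := by
    rw [← hba]; group
  have hcc : (b * a) * (b * a) = w := by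
    apply key (b * a)
    · apply hnc
      rw [QuotientGroup.mk_mul]
      calc (b : S ⧸ N i0) * a * a * ((b : S ⧸ N i0) * a)⁻¹ = (b : S ⧸ N i0) * a * (b : S ⧸ N i0)⁻¹ := by group
        _ = _ := hba
    · rw [QuotientGroup.mk_mul]
      calc (b : S ⧸ N i0) * a * ((b : S ⧸ N i0) * a) = ((b : S ⧸ N i0) * a) * (b : S ⧸ N i0) * a := by group
        _ = (a : S ⧸ N i0)⁻¹ * ((b : S ⧸ N i0) * b) * a := by rw [hba2]; group
        _ = (a : S ⧸ N i0)⁻¹ * (a : S ⧸ N i0) ^ (2 * 2 ^ k) * a := by rw [hbb]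
        _ = (a : S ⧸ N i0) ^ (2 * 2 ^ k) := by
            rw [mul_assoc, ← pow_succ, pow_succ', inv_mul_cancel_left]
        _ = _ := by rw [hw, QuotientGroup.mk_pow]
  have hconj : b * a * b⁻¹ = a⁻¹ := by
    have h1 : (b * a) * (b * a) = b * b := hcc.trans hbb'.symm
    have h2 : a * b * a = b := by
      have : b * (a * b * a) = b * b := by rw [← h1]; group
      exact mul_left_cancel this
    calc b * a * b⁻¹ = a⁻¹ * (a * b * a) * b⁻¹ := by group
      _ = a⁻¹ := by rw [h2]; group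
  have hoa : orderOf a = 4 * 2 ^ k := by
    apply Nat.dvd_antisymm
    · apply orderOf_dvd_of_pow_eq_one
      have : 4 * 2 ^ k = 2 * 2 ^ k + 2 * 2 ^ k := by ring
      rw [this, pow_add]
      exact M1 w hwZ
    · rw [← ha]
      exact orderOf_map_dvd (QuotientGroup.mk' (N i0)) a
  have hbna : b ∉ Subgroup.zpowers a := by
    rintro ⟨i, hi⟩
    apply hb
    refine ⟨i, ?_⟩
    simp only at hi ⊢
    rw [← hi, QuotientGroup.mk_zpow]
  obtain ⟨F, hFinj, hFa, hFxa⟩ := exists_quaternion_hom (2 * 2 ^ k) a b (by rw [hoa]; ring) hbb' hconj hbna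
  have hQform : ∀ x ∈ F.range, ∃ i : ℤ, x = a ^ i ∨ x = b * a ^ i := by
    rintro x ⟨y, rfl⟩
    rcases y with j | j
    · obtain ⟨i, rfl⟩ := ZMod.intCast_surjective j
      exact ⟨i, Or.inl (hFa i)⟩
    · obtain ⟨i, rfl⟩ := ZMod.intCast_surjective j
      exact ⟨i, Or.inr (hFxa i)⟩
  have haQ : a ∈ F.range := ⟨QuaternionGroup.a ((1 : ℤ) : ZMod _), by rw [hFa]; simp⟩
  have hbQ : b ∈ F.range := ⟨QuaternionGroup.xa ((0 : ℤ) : ZMod _), by rw [hFxa]; simp⟩
  have hinf : N i0 ⊓ F.range = ⊥ := by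
    rw [eq_bot_iff]
    rintro x ⟨hxN, hxQ⟩
    obtain ⟨i, rfl | rfl⟩ := hQform x hxQ
    · have h1 : (a : S ⧸ N i0) ^ i = 1 := by
        rw [← QuotientGroup.mk_zpow]; exact (QuotientGroup.eq_one_iff _).mpr hxN
      have h2 := orderOf_dvd_iff_zpow_eq_one.mpr h1
      rw [ha, ← hoa] at h2
      exact orderOf_dvd_iff_zpow_eq_one.mp h2
    · exfalso
      apply hb
      have h1 : (b : S ⧸ N i0) * (a : S ⧸ N i0) ^ i = 1 := by
        rw [← QuotientGroup.mk_zpow, ← QuotientGroup.mk_mul]; exact (QuotientGroup.eq_one_iff _).mpr hxN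
      refine ⟨-i, ?_⟩
      simp only
      rw [zpow_neg]
      exact (eq_inv_of_mul_eq_one_left h1).symm
  refine ⟨N i0, F.range, ⟨le_top, le_top, ?_, hinf, ?_⟩, ⟨?_, ?_⟩, ?_, ?_⟩
  · intro x hx y _
    exact (Subgroup.mem_center_iff.mp (hNZ i0 hx) y).symm
  · rw [eq_top_iff]
    intro x _
    obtain ⟨i, n, hnN, rfl | rfl⟩ := hform x
    · exact Subgroup.mul_mem _ (Subgroup.mem_sup_right (Subgroup.zpow_mem _ haQ i))
        (Subgroup.mem_sup_left hnN)
    · exact Subgroup.mul_mem _ (Subgroup.mem_sup_right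
        (Subgroup.mul_mem _ (Subgroup.zpow_mem _ haQ i) hbQ)) (Subgroup.mem_sup_left hnN)
  · refine ⟨⟨fun x y => ?_⟩⟩
    apply Subtype.ext
    exact (Subgroup.mem_center_iff.mp (hNZ i0 x.2) y.1).symm
  · intro x hx
    rw [pow_two]
    exact M1 x (hNZ i0 hx)
  · intro hcomm
    have h1 : (⟨b, hbQ⟩ : F.range) * ⟨a, haQ⟩ = ⟨a, haQ⟩ * ⟨b, hbQ⟩ := hcomm.is_comm.comm _ _
    have h2 : b * a = a * b := congrArg Subtype.val h1
    apply hane
    rw [← hba, ← QuotientGroup.mk_mul, h2, QuotientGroup.mk_mul]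
    group
  · have hwQ : w ∈ F.range := Subgroup.pow_mem _ haQ _
    have hinjQ : Function.Injective ((QuotientGroup.mk' (N i0)).comp F.range.subtype) := by
      rw [injective_iff_map_eq_one]
      intro x hx
      have h1 : (x : S) ∈ N i0 := (QuotientGroup.eq_one_iff _).mp hx
      have h2 : (x : S) ∈ N i0 ⊓ F.range := ⟨h1, x.2⟩
      rw [hinf] at h2
      exact Subtype.ext h2
    refine ⟨⟨w, hwQ⟩, ?_, ?_⟩
    · simp only
      rw [Subgroup.orderOf_mk]
      apply orderOf_eq_prime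
      · rw [pow_two]; exact M1 w hwZ
      · intro h
        apply hwN0
        rw [h]; exact Subgroup.one_mem _
    · intro y hy
      have h1 : orderOf (((QuotientGroup.mk' (N i0)).comp F.range.subtype) y) = 2 := by
        rw [orderOf_injective _ hinjQ, hy]
      have h2 : orderOf (((QuotientGroup.mk' (N i0)).comp F.range.subtype) ⟨w, hwQ⟩) = 2 :=
        ord2 i0 hn w (by rw [M1 w hwZ]; exact Subgroup.one_mem _) hwN0
      exact hinjQ ((huniq _ h1).trans (huniq _ h2).symm)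

/-- Let S be a finite 2-group whose centre Z(S) has n ≥ 2 distinct maximal subgroups C₁, …, Cₙ with trivial intersection such that each quotient S/Cᵢ is a non-abelian group with exactly one involution (a generalized quaternion group). Then S is the internal direct product of an elementary abelian subgroup and a non-abelian subgroup with exactly one involution. -/
theorem result {S : Type*} [Group S] [Finite S]
    (hS : IsPGroup 2 S) (n : ℕ) (hn : 2 ≤ n) (C : Fin n → Subgroup ↥(Subgroup.center S))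
    (hCmax : ∀ i, IsCoatom (C i)) (hCinj : Function.Injective C) (hCint : ⨅ i, C i = ⊥)
    (hCq : ∀ i, ∃ (_ : ((C i).map (Subgroup.center S).subtype).Normal),
      ¬ IsMulCommutative (S ⧸ (C i).map (Subgroup.center S).subtype) ∧
      ∃! x : S ⧸ (C i).map (Subgroup.center S).subtype, orderOf x = 2) :
    ∃ E Q : Subgroup S, Cfsg.IsInternalDirectProduct E Q ⊤ ∧ Cfsg.IsElementaryAbelian 2 E ∧
      ¬ IsMulCommutative ↥Q ∧ ∃! x : ↥Q, orderOf x = 2 := by
  have : Fact (Nat.Prime 2) := ⟨Nat.prime_two⟩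
  have hidx : ∀ i, (C i).index = 2 := fun i =>
    Cfsg.Agent.Lib.Helper3.coatom_index (hS.to_subgroup _) (hCmax i)
  have hmem : ∀ i, ∀ z (hz : z ∈ Subgroup.center S),
      z ∈ (C i).map (Subgroup.center S).subtype ↔ (⟨z, hz⟩ : Subgroup.center S) ∈ C i := by
    intro i z hz
    constructor
    · rintro ⟨y, hy, rfl⟩
      exact hy
    · intro h
      exact ⟨_, h, rfl⟩
  apply core hS (⟨0, by omega⟩ : Fin n) (fun i => (C i).map (Subgroup.center S).subtype)
  · intro i
    exact Subgroup.map_subtype_le _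
  · intro i z hz
    rw [hmem i _ (Subgroup.mul_mem _ hz hz)]
    exact Subgroup.mul_self_mem_of_index_two (hidx i) ⟨z, hz⟩
  · intro i z hz z' hz' h h'
    rw [hmem i _ hz] at h
    rw [hmem i _ hz'] at h'
    rw [hmem i _ (Subgroup.mul_mem _ hz hz')]
    exact (Subgroup.mul_mem_iff_of_index_two (hidx i) (a := ⟨z, hz⟩) (b := ⟨z', hz'⟩)).mpr
      ⟨fun x => absurd x h, fun x => absurd x h'⟩
  · intro i
    obtain ⟨z, -, hz⟩ := SetLike.exists_of_lt (hCmax i).lt_top
    exact ⟨z.1, z.2, fun h => hz ((hmem i z.1 z.2).mp h)⟩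
  · intro x hx
    have hxZ : x ∈ Subgroup.center S := Subgroup.map_subtype_le _ (hx ⟨0, by omega⟩)
    have : (⟨x, hxZ⟩ : Subgroup.center S) ∈ ⨅ i, C i := by
      rw [Subgroup.mem_iInf]
      intro i
      exact (hmem i x hxZ).mp (hx i)
    rw [hCint] at this
    exact congrArg Subtype.val (Subgroup.mem_bot.mp this)
  · exact hCq

end Cfsg.Agent.S3201
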