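import Cfsg.Statements.S3202
-- import your own Cfsg.Agent.* helpers here
import Cfsg.Agent.Lib.Helper59.QuatLift

set_option autoImplicit false
open Cfsg

namespace Cfsg.Agent.S3202

open Cfsg.Agent.Lib.Helper59
open scoped commutatorElement

theorem comm_central_left {S : Type*} [Group S] (u n y : S) (hn : n ∈ Subgroup.center S) :
    ⁅u * n, y⁆ = ⁅u, y⁆ := by
  rw [commutatorElement_def, commutatorElement_def]
  have h := Subgroup.mem_center_iff.mp hn
  calc u * n * y * (u * n)⁻¹ * y⁻¹ = u * (n * y) * n⁻¹ * u⁻¹ * y⁻¹ := by group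
    _ = u * (y * n) * n⁻¹ * u⁻¹ * y⁻¹ := by rw [h y]
    _ = u * y * u⁻¹ * y⁻¹ := by group

theorem comm_central_right {S : Type*} [Group S] (u n y : S) (hn : n ∈ Subgroup.center S) :
    ⁅y, u * n⁆ = ⁅y, u⁆ := by
  rw [← commutatorElement_inv, comm_central_left u n y hn, commutatorElement_inv]

/-- all commutators lie in a cyclic group -/
theorem commutator_mem {S : Type*} [Group S] (a b d : S) (hd : d ∈ Subgroup.center S)
    (hb : b * a * b⁻¹ = a⁻¹ * d)
    (hform : ∀ x : S, ∃ i : ℤ, ∃ n ∈ Subgroup.center S, x = a ^ i * n ∨ x = a ^ i * b * n)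
    (x y : S) : ⁅x, y⁆ ∈ Subgroup.zpowers (a ^ (-2 : ℤ) * d) := by
  have hdc : ∀ g : S, Commute g d := fun g => Subgroup.mem_center_iff.mp hd g
  have hK : ∀ j : ℤ, b * a ^ j * b⁻¹ = a ^ (-j) * d ^ j := by
    intro j
    rw [← conj_zpow, hb, (hdc a⁻¹).mul_zpow, inv_zpow, zpow_neg]
  have hc : ∀ j : ℤ, (a ^ (-2 : ℤ) * d) ^ j = a ^ (-2 * j) * d ^ j := by
    intro j
    rw [(hdc _).mul_zpow, ← zpow_mul]
  have h10 : ∀ i j : ℤ, ⁅a ^ i * b, a ^ j⁆ ∈ Subgroup.zpowers (a ^ (-2 : ℤ) * d) := by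
    intro i j
    refine ⟨j, ?_⟩
    simp only
    rw [hc, commutatorElement_def]
    have hdj : ∀ g : S, Commute g (d ^ j) := fun g => (hdc g).zpow_right j
    calc a ^ (-2 * j) * d ^ j = a ^ i * a ^ (-j) * ((a ^ i)⁻¹ * (a ^ j)⁻¹) * d ^ j := by
          congr 1
          rw [← zpow_neg, ← zpow_neg, ← zpow_add, ← zpow_add, ← zpow_add]; congr 1; ring
      _ = a ^ i * a ^ (-j) * (((a ^ i)⁻¹ * (a ^ j)⁻¹) * d ^ j) := by group
      _ = a ^ i * a ^ (-j) * (d ^ j * ((a ^ i)⁻¹ * (a ^ j)⁻¹)) := by rw [(hdj _).eq]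
      _ = a ^ i * (a ^ (-j) * d ^ j) * (a ^ i)⁻¹ * (a ^ j)⁻¹ := by group
      _ = a ^ i * (b * a ^ j * b⁻¹) * (a ^ i)⁻¹ * (a ^ j)⁻¹ := by rw [hK]
      _ = a ^ i * b * a ^ j * (a ^ i * b)⁻¹ * (a ^ j)⁻¹ := by group
  have h11 : ∀ i j : ℤ, ⁅a ^ i * b, a ^ j * b⁆ ∈ Subgroup.zpowers (a ^ (-2 : ℤ) * d) := by
    intro i j
    refine ⟨j - i, ?_⟩
    simp only
    rw [hc, commutatorElement_def]
    have hdj : ∀ g : S, Commute g (d ^ (j - i)) := fun g => (hdc g).zpow_right _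
    calc a ^ (-2 * (j - i)) * d ^ (j - i) = a ^ i * a ^ (-(j - i)) * (a ^ j)⁻¹ * d ^ (j - i) := by
          congr 1
          rw [← zpow_neg, ← zpow_add, ← zpow_add]; congr 1; ring
      _ = a ^ i * a ^ (-(j - i)) * ((a ^ j)⁻¹ * d ^ (j - i)) := by group
      _ = a ^ i * a ^ (-(j - i)) * (d ^ (j - i) * (a ^ j)⁻¹) := by rw [(hdj _).eq]
      _ = a ^ i * (a ^ (-(j - i)) * d ^ (j - i)) * (a ^ j)⁻¹ := by group
      _ = a ^ i * (b * a ^ (j - i) * b⁻¹) * (a ^ j)⁻¹ := by rw [hK]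
      _ = a ^ i * b * (a ^ j * b) * (a ^ i * b)⁻¹ * (a ^ j * b)⁻¹ := by
          rw [zpow_sub]; group
  obtain ⟨i, n, hn, hx⟩ := hform x
  obtain ⟨j, m, hm, hy⟩ := hform y
  rcases hx with rfl | rfl <;> rcases hy with rfl | rfl <;>
    rw [comm_central_left _ _ _ hn, comm_central_right _ _ _ hm]
  · have : Commute (a ^ i) (a ^ j) := (Commute.refl a).zpow_zpow i j
    rw [commutatorElement_eq_one_iff_commute.mpr this]
    exact Subgroup.one_mem _
  · rw [← commutatorElement_inv]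
    exact Subgroup.inv_mem _ (h10 j i)
  · exact h10 i j
  · exact h11 i j

/-- Let S be a finite 2-group of 2-rank exactly 2 and D a maximal subgroup of the centre of S such that S/D is a non-abelian group with exactly one involution (a generalized quaternion group). Then S has a nontrivial cyclic characteristic subgroup. -/
theorem result {S : Type*} [Group S]
    [Finite S] (hS : IsPGroup 2 S) (hr2 : Cfsg.PRankLE 2 2 S) (hr1 : ¬ Cfsg.PRankLE 2 1 S)
    (D : Subgroup ↥(Subgroup.center S)) (hD : IsCoatom D)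
    (hq : ∃ (_ : (D.map (Subgroup.center S).subtype).Normal),
      ¬ IsMulCommutative (S ⧸ D.map (Subgroup.center S).subtype) ∧
      ∃! x : S ⧸ D.map (Subgroup.center S).subtype, orderOf x = 2) :
    ∃ C : Subgroup S, C ≠ ⊥ ∧ IsCyclic ↥C ∧ C.Characteristic := by
  obtain ⟨hN, hna, x0, hx0, hx0u⟩ := hq
  have hNc : D.map (Subgroup.center S).subtype ≤ Subgroup.center S := Subgroup.map_subtype_le _
  generalize D.map (Subgroup.center S).subtype = N at hN hna x0 hx0 hx0u hNc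
  have huniq : ∀ x y : S ⧸ N, orderOf x = 2 → orderOf y = 2 → x = y :=
    fun x y hx hy => (hx0u x hx).trans (hx0u y hy).symm
  obtain ⟨k, a, b, ha, hb, hbb, hba, hform⟩ := quat_quotient_lift hS N hna huniq
  have hd : a * (b * a * b⁻¹) ∈ N := by
    rw [← QuotientGroup.eq_one_iff]
    simp only [QuotientGroup.mk_mul, QuotientGroup.mk_inv]
    rw [hba]; group
  have hrel : b * a * b⁻¹ = a⁻¹ * (a * (b * a * b⁻¹)) := by group
  have hform' : ∀ x : S, ∃ i : ℤ, ∃ n ∈ Subgroup.center S, x = a ^ i * n ∨ x = a ^ i * b * n := by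
    intro x
    obtain ⟨i, n, hn, h⟩ := hform x
    exact ⟨i, n, hNc hn, h⟩
  have hle : commutator S ≤ Subgroup.zpowers (a ^ (-2 : ℤ) * (a * (b * a * b⁻¹))) := by
    rw [commutator_def, Subgroup.commutator_le]
    intro x _ y _
    exact commutator_mem a b _ (hNc hd) hrel hform' x y
  refine ⟨commutator S, ?_, Subgroup.isCyclic_of_le hle, ?_⟩
  · intro h
    rw [commutator_eq_bot_iff] at h
    apply hna
    refine ⟨⟨fun x y => ?_⟩⟩
    obtain ⟨x, rfl⟩ := QuotientGroup.mk_surjective x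
    obtain ⟨y, rfl⟩ := QuotientGroup.mk_surjective y
    rw [← QuotientGroup.mk_mul, ← QuotientGroup.mk_mul, mul_comm' x y]
  · rw [commutator_def]; infer_instance

end Cfsg.Agent.S3202
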