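import Cfsg.Statements.S3208
import Mathlib
-- import your own Cfsg.Agent.* helpers here

set_option autoImplicit false
open Cfsg

namespace Cfsg.Agent.S3208

theorem normalizer_le_centralizer {G : Type*} [Group G] [Finite G]
    (j : G) (hj : orderOf j = 2) (T : Subgroup G) (hjT : j ∈ T)
    (hchar : ((Subgroup.zpowers j).subgroupOf T).Characteristic) :
    Subgroup.normalizer (T : Set G) ≤ Subgroup.centralizer ({j} : Set G) := by
  intro n hn
  have h1 := (Subgroup.characteristic_iff_le_comap.mp hchar) (T.normalizerMonoidHom ⟨n, hn⟩)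
  have h2 : (⟨j, hjT⟩ : T) ∈ (Subgroup.zpowers j).subgroupOf T := by
    rw [Subgroup.mem_subgroupOf]
    exact Subgroup.mem_zpowers j
  have h3 := h1 h2
  rw [Subgroup.mem_comap, Subgroup.mem_subgroupOf] at h3
  have h4 : n * j * n⁻¹ ∈ Subgroup.zpowers j := h3
  rw [Subgroup.mem_centralizer_singleton_iff]
  obtain ⟨k, hk⟩ := (mem_powers_iff_mem_zpowers (x := j) (y := n * j * n⁻¹)).mpr h4
  have hk' : j ^ (k % 2) = n * j * n⁻¹ := by
    rw [← hj, pow_mod_orderOf]; exact hk
  have hj1 : j ≠ 1 := by
    intro h; rw [h, orderOf_one] at hj; omega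
  rcases Nat.mod_two_eq_zero_or_one k with h0 | h0
  · rw [h0, pow_zero] at hk'
    exfalso
    apply hj1
    have : n * j * n⁻¹ = 1 := hk'.symm
    have h5 : j = n⁻¹ * (n * j * n⁻¹) * n := by group
    rw [h5, this]; group
  · rw [h0, pow_one] at hk'
    calc n * j = (n * j * n⁻¹) * n := by group
      _ = j * n := by rw [← hk']

/-- Let j be an involution of a finite group G, H a subgroup of G, and T a Sylow 2-subgroup of H ∩ C_G(j) containing j such that ⟨j⟩ is a characteristic subgroup of T. Then T is a Sylow 2-subgroup of H. -/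
theorem result {G : Type*} [Group G] [Finite G]
    (j : G) (hj : orderOf j = 2) (H T : Subgroup G) (hT : T ≤ H ⊓ Subgroup.centralizer ({j} : Set G)) (h2 : IsPGroup 2 ↥T)
    (hSyl : ¬ 2 ∣ T.relIndex (H ⊓ Subgroup.centralizer ({j} : Set G))) (hjT : j ∈ T)
    (hchar : ((Subgroup.zpowers j).subgroupOf T).Characteristic) :
    ¬ 2 ∣ T.relIndex H := by
  intro hdvd
  have : Fact (Nat.Prime 2) := ⟨Nat.prime_two⟩
  have hTH : T ≤ H := hT.trans inf_le_left
  obtain ⟨n, hn⟩ := IsPGroup.iff_card.mp h2
  have hT'card : Nat.card (T.subgroupOf H) = 2 ^ n := by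
    rw [← hn]; exact Nat.card_congr (Subgroup.subgroupOfEquivOfLe hTH).toEquiv
  have hmod := Sylow.card_quotient_normalizer_modEq_card_quotient hT'card
  have hNC := normalizer_le_centralizer j hj T hjT hchar
  apply hSyl
  -- the normalizer of T in H
  set N : Subgroup G := (Subgroup.normalizer ((T.subgroupOf H : Subgroup H) : Set H)).map H.subtype with hN
  have hTN : T ≤ N := by
    intro t ht
    exact ⟨⟨t, hTH ht⟩, Subgroup.le_normalizer (H := T.subgroupOf H) (by simpa [Subgroup.mem_subgroupOf] using ht), rfl⟩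
  have hNH : N ≤ H := Subgroup.map_subtype_le _
  have hNn : N ≤ Subgroup.normalizer (T : Set G) := by
    rintro _ ⟨x, hx, rfl⟩
    rw [SetLike.mem_coe, Subgroup.mem_normalizer_iff] at hx
    rw [Subgroup.mem_normalizer_iff]
    intro t
    constructor
    · intro ht
      have := (hx ⟨t, hTH ht⟩).mp (by simpa [Subgroup.mem_subgroupOf] using ht)
      simpa [Subgroup.mem_subgroupOf] using this
    · intro ht
      have htH : t ∈ H := by
        have h1 : (x : G) * t * (x : G)⁻¹ ∈ H := hTH ht
        have h2 : t = (x : G)⁻¹ * ((x : G) * t * (x : G)⁻¹) * (x : G) := by group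
        rw [h2]
        exact H.mul_mem (H.mul_mem (H.inv_mem x.2) h1) x.2
      have := (hx ⟨t, htH⟩).mpr (by simpa [Subgroup.mem_subgroupOf] using ht)
      simpa [Subgroup.mem_subgroupOf] using this
  have hNle : N ≤ H ⊓ Subgroup.centralizer ({j} : Set G) := le_inf hNH (hNn.trans hNC)
  have h3 : T.relIndex N ∣ T.relIndex (H ⊓ Subgroup.centralizer ({j} : Set G)) :=
    ⟨_, (Subgroup.relIndex_mul_relIndex T N _ hTN hNle).symm⟩
  refine dvd_trans ?_ h3
  have h4 : T.relIndex N = Nat.card (Subgroup.normalizer ((T.subgroupOf H : Subgroup H) : Set H) ⧸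
      (T.subgroupOf H).comap (Subgroup.normalizer ((T.subgroupOf H : Subgroup H) : Set H)).subtype) := by
    have h5 : T = (T.subgroupOf H).map H.subtype := by
      rw [Subgroup.subgroupOf_map_subtype, inf_eq_left.mpr hTH]
    conv_lhs => rw [h5, hN]
    rw [Subgroup.relIndex_map_map_of_injective _ _ H.subtype_injective]
    rfl
  rw [h4]
  have h6 : Nat.card (H ⧸ T.subgroupOf H) = T.relIndex H := rfl
  rw [h6] at hmod
  exact (Nat.modEq_zero_iff_dvd.mp (hmod.trans (Nat.modEq_zero_iff_dvd.mpr hdvd)))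

end Cfsg.Agent.S3208
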