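import Cfsg.Statements.S3209
-- import your own Cfsg.Agent.* helpers here
import Cfsg.Agent.Lib.Helper59.SL2

set_option autoImplicit false
open Cfsg

namespace Cfsg.Agent.S3209

open Cfsg.Agent.Lib.Helper59

theorem mem_sup_of_commute {G : Type*} [Group G] (L₁ L₂ : Subgroup G)
    (hc : ∀ x ∈ L₁, ∀ y ∈ L₂, x * y = y * x) (y : G) (hy : y ∈ L₁ ⊔ L₂) :
    ∃ a ∈ L₁, ∃ b ∈ L₂, y = a * b := by
  have h := MonoidHom.noncommCoprod_range L₁.subtype L₂.subtype (fun m n => hc m m.2 n n.2)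
  rw [Subgroup.range_subtype, Subgroup.range_subtype] at h
  rw [← h] at hy
  obtain ⟨⟨a, b⟩, rfl⟩ := hy
  exact ⟨a, a.2, b, b.2, rfl⟩

theorem sl2_facts {G : Type*} [Group G] {F : Type*} [Field F] [Fintype F] (hF : Odd (Fintype.card F))
    (L : Subgroup G) (e : ↥L ≃* Matrix.SpecialLinearGroup (Fin 2) F) (j : G) (hj1 : j ≠ 1)
    (hjj : j * j = 1) (hjL : j ∈ L) :
    (∀ a ∈ L, a * a = 1 → a = 1 ∨ a = j) ∧
    ∃ x ∈ L, x * x = j ∧ ∀ a ∈ L, a * a = j → ∃ h ∈ L, h * x * h⁻¹ = a := by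
  have h2 := two_ne_zero_of_odd_card hF
  have hej : e ⟨j, hjL⟩ = zSL := by
    have h1 : e ⟨j, hjL⟩ * e ⟨j, hjL⟩ = 1 := by
      rw [← map_mul]
      have : (⟨j, hjL⟩ : L) * ⟨j, hjL⟩ = 1 := Subtype.ext hjj
      rw [this, map_one]
    rcases sl2_mul_self_eq_one h2 _ h1 with h | h
    · exfalso
      apply hj1
      have : (⟨j, hjL⟩ : L) = 1 := by
        apply e.injective; rw [h, map_one]
      exact congrArg Subtype.val this
    · exact h
  constructor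
  · intro a ha haa
    have h1 : e ⟨a, ha⟩ * e ⟨a, ha⟩ = 1 := by
      rw [← map_mul]
      have : (⟨a, ha⟩ : L) * ⟨a, ha⟩ = 1 := Subtype.ext haa
      rw [this, map_one]
    rcases sl2_mul_self_eq_one h2 _ h1 with h | h
    · left
      have : (⟨a, ha⟩ : L) = 1 := by
        apply e.injective; rw [h, map_one]
      exact congrArg Subtype.val this
    · right
      have : (⟨a, ha⟩ : L) = ⟨j, hjL⟩ := by
        apply e.injective; rw [h, hej]
      exact congrArg Subtype.val this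
  · refine ⟨(e.symm wSL : L), (e.symm wSL).2, ?_, ?_⟩
    · have : e.symm wSL * e.symm wSL = ⟨j, hjL⟩ := by
        rw [← map_mul, wSL_mul_self, ← hej, e.symm_apply_apply]
      exact congrArg Subtype.val this
    · intro a ha haa
      have h1 : e ⟨a, ha⟩ * e ⟨a, ha⟩ = zSL := by
        rw [← map_mul, ← hej]
        congr 1
        exact Subtype.ext haa
      obtain ⟨P, hP⟩ := sl2_conj_wSL hF _ h1
      refine ⟨(e.symm P : L), (e.symm P).2, ?_⟩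
      have : e.symm P * e.symm wSL * (e.symm P)⁻¹ = ⟨a, ha⟩ := by
        rw [← map_inv, ← map_mul, ← map_mul, hP, e.symm_apply_apply]
      exact congrArg Subtype.val this

/-- Let L₁ ≅ SL₂(q₁) and L₂ ≅ SL₂(q₂), q₁ and q₂ odd, be elementwise-commuting subgroups of a finite group meeting in ⟨j⟩ for an involution j. Then L₁L₂ has exactly two conjugacy classes of involutions: the central involution j, and one further class (there is an involution x ≠ j in L₁L₂, and every involution of L₁L₂ other than j is conjugate to x by an element of L₁L₂). -/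
theorem result {G : Type*} [Group G] [Finite G]
    {F₁ : Type*} [Field F₁] [Fintype F₁] {F₂ : Type*} [Field F₂] [Fintype F₂]
    (hF₁ : Odd (Fintype.card F₁)) (hF₂ : Odd (Fintype.card F₂)) (L₁ L₂ : Subgroup G)
    (e₁ : ↥L₁ ≃* Matrix.SpecialLinearGroup (Fin 2) F₁) (e₂ : ↥L₂ ≃* Matrix.SpecialLinearGroup (Fin 2) F₂)
    (hc : ∀ x ∈ L₁, ∀ y ∈ L₂, x * y = y * x) (j : G) (hj : orderOf j = 2) (hm : L₁ ⊓ L₂ = Subgroup.zpowers j) :
    ∃ x ∈ L₁ ⊔ L₂, orderOf x = 2 ∧ x ≠ j ∧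
      ∀ y ∈ L₁ ⊔ L₂, orderOf y = 2 → y = j ∨ ∃ g ∈ L₁ ⊔ L₂, g * x * g⁻¹ = y := by
  have hj1 : j ≠ 1 := by
    intro h; rw [h, orderOf_one] at hj; omega
  have hjj : j * j = 1 := by rw [← pow_two, ← hj, pow_orderOf_eq_one]
  have hjL : j ∈ L₁ ⊓ L₂ := hm ▸ Subgroup.mem_zpowers j
  obtain ⟨i₁, x₁, hx₁, hxx₁, c₁⟩ := sl2_facts hF₁ L₁ e₁ j hj1 hjj hjL.1
  obtain ⟨i₂, x₂, hx₂, hxx₂, c₂⟩ := sl2_facts hF₂ L₂ e₂ j hj1 hjj hjL.2
  have hmem : ∀ u, u ∈ L₁ → u ∈ L₂ → u * u = 1 := by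
    intro u h1 h2
    have : u ∈ Subgroup.zpowers j := hm ▸ (⟨h1, h2⟩ : u ∈ L₁ ⊓ L₂)
    obtain ⟨k, rfl⟩ := this
    rw [← zpow_add, ← two_mul, zpow_mul, zpow_ofNat, pow_two, hjj, one_zpow]
  have hL₁ : L₁ ≤ L₁ ⊔ L₂ := le_sup_left
  have hL₂ : L₂ ≤ L₁ ⊔ L₂ := le_sup_right
  have hx₁L₂ : x₁ ∉ L₂ := by
    intro h
    have := hmem x₁ hx₁ h
    rw [hxx₁] at this
    exact hj1 this
  have hsq : (x₁ * x₂) * (x₁ * x₂) = 1 := by
    calc (x₁ * x₂) * (x₁ * x₂) = x₁ * (x₂ * x₁) * x₂ := by group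
      _ = x₁ * (x₁ * x₂) * x₂ := by rw [hc x₁ hx₁ x₂ hx₂]
      _ = (x₁ * x₁) * (x₂ * x₂) := by group
      _ = 1 := by rw [hxx₁, hxx₂, hjj]
  refine ⟨x₁ * x₂, Subgroup.mul_mem _ (hL₁ hx₁) (hL₂ hx₂), ?_, ?_, ?_⟩
  · apply orderOf_eq_prime
    · rw [pow_two]; exact hsq
    · intro h
      apply hx₁L₂
      have : x₁ = x₂⁻¹ := eq_inv_of_mul_eq_one_left h
      rw [this]; exact L₂.inv_mem hx₂
  · intro h
    apply hx₁L₂
    have : x₁ = j * x₂⁻¹ := by rw [← h]; group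
    rw [this]; exact L₂.mul_mem hjL.2 (L₂.inv_mem hx₂)
  · intro y hy hy2
    obtain ⟨a, ha, b, hb, rfl⟩ := mem_sup_of_commute L₁ L₂ hc y hy
    have hab1 : a * b ≠ 1 := by
      intro h; rw [h, orderOf_one] at hy2; omega
    have habsq : (a * a) * (b * b) = 1 := by
      have h1 : (a * b) * (a * b) = 1 := by rw [← pow_two, ← hy2, pow_orderOf_eq_one]
      calc (a * a) * (b * b) = a * (a * b) * b := by group
        _ = a * (b * a) * b := by rw [hc a ha b hb]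
        _ = (a * b) * (a * b) := by group
        _ = 1 := h1
    have haa : a * a = (b * b)⁻¹ := eq_inv_of_mul_eq_one_left habsq
    have haaL₂ : a * a ∈ L₂ := by rw [haa]; exact L₂.inv_mem (L₂.mul_mem hb hb)
    have haaL₁ : a * a ∈ L₁ := L₁.mul_mem ha ha
    rcases i₁ (a * a) haaL₁ (hmem _ haaL₁ haaL₂) with h | h
    · -- a * a = 1
      left
      have hbb : b * b = 1 := by rw [h, one_mul] at habsq; exact habsq
      rcases i₁ a ha h with rfl | rfl <;> rcases i₂ b hb hbb with rfl | rfl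
      · simp at hab1
      · simp
      · simp
      · exact absurd hjj hab1
    · right
      have hbb : b * b = j := by
        rw [h] at habsq
        calc b * b = (j * j) * (b * b) := by rw [hjj, one_mul]
          _ = j * (j * (b * b)) := by group
          _ = j := by rw [habsq, mul_one]
      obtain ⟨h₁, hh₁, hc₁⟩ := c₁ a ha h
      obtain ⟨h₂, hh₂, hc₂⟩ := c₂ b hb hbb
      refine ⟨h₁ * h₂, Subgroup.mul_mem _ (hL₁ hh₁) (hL₂ hh₂), ?_⟩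
      rw [← hc₁, ← hc₂]
      have e1 : h₂ * x₁ = x₁ * h₂ := (hc x₁ hx₁ h₂ hh₂).symm
      have e2 : h₂⁻¹ * h₁⁻¹ = h₁⁻¹ * h₂⁻¹ := (hc _ (L₁.inv_mem hh₁) _ (L₂.inv_mem hh₂)).symm
      have e3 : (h₂ * x₂) * h₁⁻¹ = h₁⁻¹ * (h₂ * x₂) := (hc _ (L₁.inv_mem hh₁) _ (L₂.mul_mem hh₂ hx₂)).symm
      calc h₁ * h₂ * (x₁ * x₂) * (h₁ * h₂)⁻¹ = h₁ * (h₂ * x₁) * x₂ * (h₂⁻¹ * h₁⁻¹) := by group
        _ = h₁ * (x₁ * h₂) * x₂ * (h₁⁻¹ * h₂⁻¹) := by rw [e1, e2]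
        _ = h₁ * x₁ * ((h₂ * x₂) * h₁⁻¹) * h₂⁻¹ := by group
        _ = h₁ * x₁ * (h₁⁻¹ * (h₂ * x₂)) * h₂⁻¹ := by rw [e3]
        _ = h₁ * x₁ * h₁⁻¹ * (h₂ * x₂ * h₂⁻¹) := by group

end Cfsg.Agent.S3209
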