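import Cfsg.Statements.S3210
import Cfsg.Agent.Lib.Helper57.SLCent2

set_option autoImplicit false
open Cfsg
open Cfsg.Agent.Lib.Helper57.SLC

namespace Cfsg.Agent.S3210

/-- Let G be a finite group with subgroups L₁ ≅ SL₂(q₁) and L₂ ≅ SL₂(q₂), q₁ and q₂ odd prime powers, which commute elementwise and meet in ⟨j⟩ for an involution j, and suppose L₁L₂ has index 2 in C_G(j). Then every element n of C_G(j) outside L₁L₂ either normalizes both L₁ and L₂, or conjugates L₁ onto L₂; in the second case q₁ = q₂ and there is an element n′ of C_G(j) outside L₁L₂ conjugating L₁ onto L₂ with n′² ∈ ⟨j⟩. -/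
theorem result {G : Type*} [Group G] [Finite G]
    {F₁ : Type*} [Field F₁] [Fintype F₁] {F₂ : Type*} [Field F₂] [Fintype F₂]
    (hF₁ : Odd (Fintype.card F₁)) (hF₂ : Odd (Fintype.card F₂)) (L₁ L₂ : Subgroup G)
    (e₁ : ↥L₁ ≃* Matrix.SpecialLinearGroup (Fin 2) F₁) (e₂ : ↥L₂ ≃* Matrix.SpecialLinearGroup (Fin 2) F₂)
    (hc : ∀ x ∈ L₁, ∀ y ∈ L₂, x * y = y * x) (j : G) (hj : orderOf j = 2) (hm : L₁ ⊓ L₂ = Subgroup.zpowers j)
    (hle : L₁ ⊔ L₂ ≤ Subgroup.centralizer ({j} : Set G)) (hi : (L₁ ⊔ L₂).relIndex (Subgroup.centralizer ({j} : Set G)) = 2) (n : G) (hn : n ∈ Subgroup.centralizer ({j} : Set G)) (hn' : n ∉ L₁ ⊔ L₂) :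
    (L₁.map (MulAut.conj n).toMonoidHom = L₁ ∧ L₂.map (MulAut.conj n).toMonoidHom = L₂) ∨
      (L₁.map (MulAut.conj n).toMonoidHom = L₂ ∧ Fintype.card F₁ = Fintype.card F₂ ∧
        ∃ n' ∈ Subgroup.centralizer ({j} : Set G), n' ∉ L₁ ⊔ L₂ ∧ L₁.map (MulAut.conj n').toMonoidHom = L₂ ∧ n' ^ 2 ∈ Subgroup.zpowers j) := by
  classical
  obtain ⟨C, hC⟩ : ∃ C, C = Subgroup.centralizer ({j} : Set G) := ⟨_, rfl⟩
  obtain ⟨X, hX⟩ : ∃ X, X = L₁ ⊔ L₂ := ⟨_, rfl⟩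
  rw [← hC] at hle hi hn ⊢
  rw [← hX] at hle hi hn' ⊢
  have hjj : j * j = 1 := by
    have := pow_orderOf_eq_one j
    rwa [hj, pow_two] at this
  have hjm : j ∈ L₁ ⊓ L₂ := by rw [hm]; exact Subgroup.mem_zpowers j
  have hzp : ∀ x, x ∈ Subgroup.zpowers j → x = 1 ∨ x = j := by
    intro x hx
    obtain ⟨k, rfl⟩ := Subgroup.mem_zpowers_iff.1 hx
    rcases Int.even_or_odd' k with ⟨m, rfl | rfl⟩
    · left
      rw [zpow_mul, zpow_two, hjj, one_zpow]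
    · right
      rw [zpow_add, zpow_mul, zpow_two, hjj, one_zpow, one_mul, zpow_one]
  have hL1X : L₁ ≤ X := hX ▸ le_sup_left
  have hL2X : L₂ ≤ X := hX ▸ le_sup_right
  -- elements of X
  have hXel : ∀ x ∈ X, ∃ a ∈ L₁, ∃ b ∈ L₂, x = a * b := by
    intro x hx
    rw [hX, Subgroup.sup_eq_closure] at hx
    induction hx using Subgroup.closure_induction with
    | mem x hx =>
      rcases hx with hx | hx
      · exact ⟨x, hx, 1, L₂.one_mem, (mul_one x).symm⟩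
      · exact ⟨1, L₁.one_mem, x, hx, (one_mul x).symm⟩
    | one => exact ⟨1, L₁.one_mem, 1, L₂.one_mem, (mul_one 1).symm⟩
    | mul x y _ _ hx hy =>
      obtain ⟨a, ha, b, hb, rfl⟩ := hx
      obtain ⟨a', ha', b', hb', rfl⟩ := hy
      refine ⟨a * a', L₁.mul_mem ha ha', b * b', L₂.mul_mem hb hb', ?_⟩
      calc a * b * (a' * b') = a * (b * a') * b' := by group
        _ = a * (a' * b) * b' := by rw [hc a' ha' b hb]
        _ = a * a' * (b * b') := by group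
    | inv x _ hx =>
      obtain ⟨a, ha, b, hb, rfl⟩ := hx
      refine ⟨a⁻¹, L₁.inv_mem ha, b⁻¹, L₂.inv_mem hb, ?_⟩
      rw [mul_inv_rev]
      exact (hc _ (L₁.inv_mem ha) _ (L₂.inv_mem hb)).symm
  -- normality
  have hnorm : (X.subgroupOf C).Normal := Subgroup.normal_of_index_eq_two hi
  have hconj : ∀ g ∈ C, ∀ x ∈ X, g * x * g⁻¹ ∈ X := by
    intro g hg x hx
    have := hnorm.conj_mem ⟨x, hle hx⟩ (Subgroup.mem_subgroupOf.2 hx) ⟨g, hg⟩
    exact Subgroup.mem_subgroupOf.1 this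
  have hnn : n * n ∈ X := by
    have := Subgroup.mul_self_mem_of_index_two hi ⟨n, hn⟩
    exact Subgroup.mem_subgroupOf.1 this
  have hninv : n⁻¹ ∈ C := C.inv_mem hn
  have hnj : n * j * n⁻¹ = j := by
    rw [hC, Subgroup.mem_centralizer_singleton_iff] at hn
    rw [hn]; group
  -- the conjugates
  obtain ⟨K, hK⟩ : ∃ K, K = L₁.map (MulAut.conj n).toMonoidHom := ⟨_, rfl⟩
  obtain ⟨K', hK'⟩ : ∃ K', K' = L₂.map (MulAut.conj n).toMonoidHom := ⟨_, rfl⟩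
  have memK : ∀ y, y ∈ K ↔ ∃ x ∈ L₁, n * x * n⁻¹ = y := by
    intro y; rw [hK, Subgroup.mem_map]; rfl
  have memK' : ∀ y, y ∈ K' ↔ ∃ x ∈ L₂, n * x * n⁻¹ = y := by
    intro y; rw [hK', Subgroup.mem_map]; rfl
  have hk : ∀ x ∈ K, ∀ y ∈ K', x * y = y * x := by
    intro x hx y hy
    obtain ⟨a, ha, rfl⟩ := (memK x).1 hx
    obtain ⟨b, hb, rfl⟩ := (memK' y).1 hy
    calc n * a * n⁻¹ * (n * b * n⁻¹) = n * (a * b) * n⁻¹ := by group
      _ = n * (b * a) * n⁻¹ := by rw [hc a ha b hb]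
      _ = n * b * n⁻¹ * (n * a * n⁻¹) := by group
  have hKK : ∀ x, x ∈ K → x ∈ K' → x = 1 ∨ x = j := by
    intro x hx hx'
    obtain ⟨a, ha, rfl⟩ := (memK x).1 hx
    obtain ⟨b, hb, hab⟩ := (memK' _).1 hx'
    have : b = a := by
      have := congrArg (fun t => n⁻¹ * t * n) hab
      simpa [mul_assoc] using this
    subst this
    have h1 : b ∈ Subgroup.zpowers j := by rw [← hm]; exact ⟨ha, hb⟩
    rcases hzp b h1 with h | h
    · left; rw [h]; group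
    · right; rw [h]; exact hnj
  have hXK : ∀ x ∈ X, ∃ k ∈ K, ∃ k' ∈ K', x = k * k' := by
    intro x hx
    have h1 := hconj n⁻¹ hninv x hx
    obtain ⟨a, ha, b, hb, hab⟩ := hXel _ h1
    refine ⟨n * a * n⁻¹, (memK _).2 ⟨a, ha, rfl⟩, n * b * n⁻¹, (memK' _).2 ⟨b, hb, rfl⟩, ?_⟩
    calc x = n * (n⁻¹ * x * n⁻¹⁻¹) * n⁻¹ := by group
      _ = n * (a * b) * n⁻¹ := by rw [hab]
      _ = n * a * n⁻¹ * (n * b * n⁻¹) := by group
  have hKX : ∀ k ∈ K, k ∈ X := by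
    intro k hk
    obtain ⟨a, ha, rfl⟩ := (memK k).1 hk
    exact hconj n hn a (hL1X ha)
  have hK'X : ∀ k ∈ K', k ∈ X := by
    intro k hk
    obtain ⟨a, ha, rfl⟩ := (memK' k).1 hk
    exact hconj n hn a (hL2X ha)
  have hXel' : ∀ x ∈ X, ∃ a ∈ L₂, ∃ b ∈ L₁, x = a * b := by
    intro x hx
    obtain ⟨a, ha, b, hb, rfl⟩ := hXel x hx
    exact ⟨b, hb, a, ha, hc a ha b hb⟩
  -- the embeddings
  obtain ⟨φ₁, hφ₁⟩ : ∃ φ : Matrix.SpecialLinearGroup (Fin 2) F₁ →* G,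
      φ = L₁.subtype.comp e₁.symm.toMonoidHom := ⟨_, rfl⟩
  obtain ⟨φ₂, hφ₂⟩ : ∃ φ : Matrix.SpecialLinearGroup (Fin 2) F₂ →* G,
      φ = L₂.subtype.comp e₂.symm.toMonoidHom := ⟨_, rfl⟩
  have inj₁ : Function.Injective φ₁ := by
    rw [hφ₁]; exact L₁.subtype_injective.comp e₁.symm.injective
  have inj₂ : Function.Injective φ₂ := by
    rw [hφ₂]; exact L₂.subtype_injective.comp e₂.symm.injective
  have hr₁ : ∀ y, y ∈ L₁ ↔ ∃ x, φ₁ x = y := by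
    intro y
    constructor
    · intro hy
      exact ⟨e₁ ⟨y, hy⟩, by rw [hφ₁]; simp⟩
    · rintro ⟨x, rfl⟩
      rw [hφ₁]; exact (e₁.symm x).2
  have hr₂ : ∀ y, y ∈ L₂ ↔ ∃ x, φ₂ x = y := by
    intro y
    constructor
    · intro hy
      exact ⟨e₂ ⟨y, hy⟩, by rw [hφ₂]; simp⟩
    · rintro ⟨x, rfl⟩
      rw [hφ₂]; exact (e₂.symm x).2
  have D1 : L₁ ≤ K ∨ L₁ ≤ K' :=
    le_or_le L₁ L₂ K K' j hjj hjm.1 hc hk hKK (fun b hb => hXK b (hL1X hb))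
      (fun b hb => hXK b (hL2X hb)) (fun k hk => hXel k (hKX k hk))
      (fun k hk => hXel k (hK'X k hk)) (t_odd hF₂ L₂ φ₂ inj₂ hr₂)
      (t_cen hF₂ L₂ φ₂ inj₂ hr₂ j hj hjm.2) (t_ind hF₁ L₁ φ₁ inj₁ hr₁)
  have D2 : L₂ ≤ K ∨ L₂ ≤ K' :=
    le_or_le L₂ L₁ K K' j hjj hjm.2 (fun x hx y hy => (hc y hy x hx).symm) hk hKK
      (fun b hb => hXK b (hL2X hb))
      (fun b hb => hXK b (hL1X hb)) (fun k hk => hXel' k (hKX k hk))
      (fun k hk => hXel' k (hK'X k hk)) (t_odd hF₁ L₁ φ₁ inj₁ hr₁)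
      (t_cen hF₁ L₁ φ₁ inj₁ hr₁ j hj hjm.1) (t_ind hF₂ L₂ φ₂ inj₂ hr₂)
  -- cardinalities
  have cK : Nat.card K = Nat.card L₁ := by
    rw [hK]; exact Subgroup.card_map_of_injective (MulAut.conj n).injective
  have cK' : Nat.card K' = Nat.card L₂ := by
    rw [hK']; exact Subgroup.card_map_of_injective (MulAut.conj n).injective
  have c1 : Nat.card L₁ = Fintype.card F₁ * (Fintype.card F₁ ^ 2 - 1) := by
    rw [Nat.card_congr e₁.toEquiv, Cfsg.Agent.Lib.Helper7.card_SL2]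
  have c2 : Nat.card L₂ = Fintype.card F₂ * (Fintype.card F₂ ^ 2 - 1) := by
    rw [Nat.card_congr e₂.toEquiv, Cfsg.Agent.Lib.Helper7.card_SL2]
  have q1 : 1 < Fintype.card F₁ := Fintype.one_lt_card
  have q2 : 1 < Fintype.card F₂ := Fintype.one_lt_card
  have big : ∀ q : ℕ, 1 < q → 2 < q * (q ^ 2 - 1) := by
    intro q hq
    have h1 : 2 ^ 2 ≤ q ^ 2 := Nat.pow_le_pow_left hq 2
    have h2 : 3 ≤ q ^ 2 - 1 := by omega
    calc 2 < 2 * 3 := by norm_num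
      _ ≤ q * (q ^ 2 - 1) := Nat.mul_le_mul hq h2
  have cz : Nat.card (Subgroup.zpowers j) = 2 := by rw [Nat.card_zpowers, hj]
  have no12 : ¬ L₁ ≤ L₂ := by
    intro h
    have : L₁ = Subgroup.zpowers j := by rw [← hm]; exact (inf_eq_left.2 h).symm
    have h3 := big _ q1
    rw [← c1, this, cz] at h3
    omega
  have no21 : ¬ L₂ ≤ L₁ := by
    intro h
    have : L₂ = Subgroup.zpowers j := by rw [← hm]; exact (inf_eq_right.2 h).symm
    have h3 := big _ q2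
    rw [← c2, this, cz] at h3
    omega
  rw [← hK, ← hK']
  rcases D1 with d1 | d1
  · left
    have e1 : L₁ = K := Subgroup.eq_of_le_of_card_ge d1 cK.le
    rcases D2 with d2 | d2
    · exact absurd (e1 ▸ d2) no21
    · exact ⟨e1.symm, (Subgroup.eq_of_le_of_card_ge d2 cK'.le).symm⟩
  · right
    rcases D2 with d2 | d2
    swap
    · have e2 : L₂ = K' := Subgroup.eq_of_le_of_card_ge d2 cK'.le
      exact absurd (e2 ▸ d1) no12
    have le1 : Nat.card L₁ ≤ Nat.card L₂ := cK' ▸ Subgroup.card_le_of_le d1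
    have le2 : Nat.card L₂ ≤ Nat.card L₁ := cK ▸ Subgroup.card_le_of_le d2
    have ceq : Nat.card L₁ = Nat.card L₂ := le_antisymm le1 le2
    have eK : K = L₂ := (Subgroup.eq_of_le_of_card_ge d2 (by rw [cK, ceq])).symm
    refine ⟨eK, f_inj q1 q2 (by rw [← c1, ← c2, ceq]), ?_⟩
    obtain ⟨a, ha, b, hb, hab⟩ := hXel _ hnn
    have memL2 : ∀ x ∈ L₁, n * x * n⁻¹ ∈ L₂ := by
      intro x hx
      rw [← eK]; exact (memK _).2 ⟨x, hx, rfl⟩
    have hmap : L₁.map (MulAut.conj (n * a⁻¹)).toMonoidHom = L₂ := by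
      rw [← eK, hK]
      ext y
      simp only [Subgroup.mem_map]
      constructor
      · rintro ⟨x, hx, rfl⟩
        refine ⟨a⁻¹ * x * a, L₁.mul_mem (L₁.mul_mem (L₁.inv_mem ha) hx) ha, ?_⟩
        show n * (a⁻¹ * x * a) * n⁻¹ = (n * a⁻¹) * x * (n * a⁻¹)⁻¹
        group
      · rintro ⟨x, hx, rfl⟩
        refine ⟨a * x * a⁻¹, L₁.mul_mem (L₁.mul_mem ha hx) (L₁.inv_mem ha), ?_⟩
        show (n * a⁻¹) * (a * x * a⁻¹) * (n * a⁻¹)⁻¹ = n * x * n⁻¹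
        group
    refine ⟨n * a⁻¹, C.mul_mem hn (C.inv_mem (hle (hL1X ha))), ?_, hmap, ?_⟩
    · intro h
      apply hn'
      have := X.mul_mem h (hL1X ha)
      simpa using this
    · have s2 : (n * a⁻¹) ^ 2 ∈ L₂ := by
        have : (n * a⁻¹) ^ 2 = (n * a⁻¹ * n⁻¹) * b := by
          calc (n * a⁻¹) ^ 2 = n * a⁻¹ * n⁻¹ * (n * n) * a⁻¹ := by rw [pow_two]; group
            _ = n * a⁻¹ * n⁻¹ * (a * b) * a⁻¹ := by rw [hab]
            _ = n * a⁻¹ * n⁻¹ * (b * a) * a⁻¹ := by rw [hc a ha b hb]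
            _ = (n * a⁻¹ * n⁻¹) * b := by group
        rw [this]
        exact L₂.mul_mem (memL2 _ (L₁.inv_mem ha)) hb
      have s1 : (n * a⁻¹) ^ 2 ∈ L₁ := by
        have h1 := s2
        rw [← hmap, Subgroup.mem_map] at h1
        obtain ⟨x, hx, hxe⟩ := h1
        have hxe' : (n * a⁻¹) * x * (n * a⁻¹)⁻¹ = (n * a⁻¹) ^ 2 := hxe
        have : x = (n * a⁻¹) ^ 2 := by
          calc x = (n * a⁻¹)⁻¹ * ((n * a⁻¹) * x * (n * a⁻¹)⁻¹) * (n * a⁻¹) := by group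
            _ = (n * a⁻¹)⁻¹ * (n * a⁻¹) ^ 2 * (n * a⁻¹) := by rw [hxe']
            _ = (n * a⁻¹) ^ 2 := by rw [pow_two]; group
        rw [← this]; exact hx
      rw [← hm]
      exact ⟨s1, s2⟩

end Cfsg.Agent.S3210
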