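import Cfsg.Statements.S3211
-- import your own Cfsg.Agent.* helpers here
import Cfsg.Agent.S3209
import Cfsg.Agent.Lib.Helper74.FWIso
import Cfsg.Agent.Lib.Helper74.FWMain
import Cfsg.Agent.Lib.Helper74.FWSL2

set_option autoImplicit false
open Cfsg

namespace Cfsg.Agent.S3211

/-- Let G be a finite group with subgroups L₁ ≅ SL₂(q₁) and L₂ ≅ SL₂(q₂), q₁ and q₂ odd prime powers, which commute elementwise and meet in ⟨j⟩ for an involution j, and suppose L₁L₂ has index 2 in C_G(j). If some n ∈ C_G(j) with n² = j interchanges L₁ and L₂ under conjugation (so that C_G(j) = L₁L₂⟨n⟩), then G = C_G(j)O(G). -/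
theorem result {G : Type*} [Group G] [Finite G]
    {F₁ : Type*} [Field F₁] [Fintype F₁] {F₂ : Type*} [Field F₂] [Fintype F₂]
    (hF₁ : Odd (Fintype.card F₁)) (hF₂ : Odd (Fintype.card F₂)) (L₁ L₂ : Subgroup G)
    (e₁ : ↥L₁ ≃* Matrix.SpecialLinearGroup (Fin 2) F₁) (e₂ : ↥L₂ ≃* Matrix.SpecialLinearGroup (Fin 2) F₂)
    (hc : ∀ x ∈ L₁, ∀ y ∈ L₂, x * y = y * x) (j : G) (hj : orderOf j = 2) (hm : L₁ ⊓ L₂ = Subgroup.zpowers j)
    (hle : L₁ ⊔ L₂ ≤ Subgroup.centralizer ({j} : Set G)) (hi : (L₁ ⊔ L₂).relIndex (Subgroup.centralizer ({j} : Set G)) = 2) (n : G) (hn : n ∈ Subgroup.centralizer ({j} : Set G))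
    (hn2 : n ^ 2 = j) (hswap : L₁.map (MulAut.conj n).toMonoidHom = L₂) :
    Subgroup.centralizer ({j} : Set G) ⊔ Cfsg.oddCore G = ⊤ := by
  have hj1 : j ≠ 1 := by
    intro h; rw [h, orderOf_one] at hj; omega
  have hjj : j * j = 1 := by rw [← pow_two, ← hj, pow_orderOf_eq_one]
  have hjinv : j⁻¹ = j := inv_eq_of_mul_eq_one_left hjj
  have hjL : j ∈ L₁ ⊓ L₂ := hm ▸ Subgroup.mem_zpowers j
  obtain ⟨i₁, x₁, hx₁, hxx₁, c₁⟩ := Cfsg.Agent.S3209.sl2_facts hF₁ L₁ e₁ j hj1 hjj hjL.1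
  obtain ⟨i₂, x₂, hx₂, hxx₂, c₂⟩ := Cfsg.Agent.S3209.sl2_facts hF₂ L₂ e₂ j hj1 hjj hjL.2
  have hmem : ∀ u, u ∈ L₁ → u ∈ L₂ → u * u = 1 := by
    intro u h1 h2
    have : u ∈ Subgroup.zpowers j := hm ▸ (⟨h1, h2⟩ : u ∈ L₁ ⊓ L₂)
    obtain ⟨k, rfl⟩ := this
    rw [← zpow_add, ← two_mul, zpow_mul, zpow_ofNat, pow_two, hjj, one_zpow]
  have hmeet : ∀ u, u ∈ L₁ → u ∈ L₂ → u = 1 ∨ u = j := fun u h1 h2 => i₁ u h1 (hmem u h1 h2)
  have hnn : n * n = j := by rw [← pow_two]; exact hn2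
  have hnj : n * j = j * n := Subgroup.mem_centralizer_singleton_iff.1 hn
  have hφ₁ : ∀ a ∈ L₁, n * a * n⁻¹ ∈ L₂ := by
    intro a ha
    rw [← hswap]
    exact ⟨a, ha, by simp [MulAut.conj_apply]⟩
  have hφ₂ : ∀ b ∈ L₂, n * b * n⁻¹ ∈ L₁ := by
    intro b hb
    rw [← hswap] at hb
    obtain ⟨a, ha, rfl⟩ := hb
    have h1 : n * ((MulAut.conj n).toMonoidHom a) * n⁻¹ = (n * n) * a * (n * n)⁻¹ := by
      simp [MulAut.conj_apply, mul_assoc]
    rw [h1, hnn]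
    have h2 : j * a = a * j := (hc a ha j hjL.2).symm
    rw [h2, mul_assoc, mul_inv_cancel, mul_one]
    exact ha
  have hnL : n ∉ L₁ ⊔ L₂ := by
    intro h
    obtain ⟨l₁, hl₁, l₂, hl₂, rfl⟩ := Cfsg.Agent.S3209.mem_sup_of_commute L₁ L₂ hc n h
    -- then `L₂ ≤ L₁`
    have hx₂' : x₂ ∈ L₁ := by
      have hb := hx₂
      rw [← hswap] at hb
      obtain ⟨a, ha, hab⟩ := hb
      have h1 : x₂ = l₁ * a * l₁⁻¹ := by
        rw [← hab]
        have e1 : l₂ * a = a * l₂ := (hc a ha l₂ hl₂).symm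
        have : (MulAut.conj (l₁ * l₂)).toMonoidHom a = l₁ * (l₂ * a) * l₂⁻¹ * l₁⁻¹ := by
          simp [MulAut.conj_apply, mul_assoc]
        rw [this, e1]; group
      rw [h1]
      exact L₁.mul_mem (L₁.mul_mem hl₁ ha) (L₁.inv_mem hl₁)
    have := hmem x₂ hx₂' hx₂
    rw [hxx₂] at this
    exact hj1 this
  have hinvC : ∀ t, t * t = 1 → t * j = j * t → ∃ a ∈ L₁, ∃ b ∈ L₂, t = a * b := by
    intro t htt htj
    by_cases htL : t ∈ L₁ ⊔ L₂
    · exact Cfsg.Agent.S3209.mem_sup_of_commute L₁ L₂ hc t htL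
    · exfalso
      have htC : t ∈ Subgroup.centralizer ({j} : Set G) :=
        Subgroup.mem_centralizer_singleton_iff.2 htj
      have hidx : ((L₁ ⊔ L₂).subgroupOf (Subgroup.centralizer ({j} : Set G))).index = 2 := hi
      have h1 := Subgroup.mul_mem_iff_of_index_two hidx
        (a := (⟨t, htC⟩ : ↥(Subgroup.centralizer ({j} : Set G))))
        (b := (⟨n, hn⟩ : ↥(Subgroup.centralizer ({j} : Set G)))⁻¹)
      have h2 : t * n⁻¹ ∈ L₁ ⊔ L₂ := by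
        have h3 : (⟨t, htC⟩ : ↥(Subgroup.centralizer ({j} : Set G))) *
            (⟨n, hn⟩ : ↥(Subgroup.centralizer ({j} : Set G)))⁻¹ ∈
            (L₁ ⊔ L₂).subgroupOf (Subgroup.centralizer ({j} : Set G)) := by
          rw [h1, Subgroup.inv_mem_iff, Subgroup.mem_subgroupOf, Subgroup.mem_subgroupOf]
          exact ⟨fun h => absurd h htL, fun h => absurd h hnL⟩
        exact Subgroup.mem_subgroupOf.1 h3
      obtain ⟨l₁, hl₁, l₂, hl₂, hl⟩ := Cfsg.Agent.S3209.mem_sup_of_commute L₁ L₂ hc _ h2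
      have ht : t = l₁ * l₂ * n := by rw [← hl]; group
      obtain ⟨u, hu⟩ : ∃ u, u = l₁ * (n * l₂ * n⁻¹) := ⟨_, rfl⟩
      obtain ⟨u', hu'⟩ : ∃ u', u' = l₂ * (n * l₁ * n⁻¹) := ⟨_, rfl⟩
      have huL : u ∈ L₁ := by rw [hu]; exact L₁.mul_mem hl₁ (hφ₂ l₂ hl₂)
      have hu'L : u' ∈ L₂ := by rw [hu']; exact L₂.mul_mem hl₂ (hφ₁ l₁ hl₁)
      have hprod : u * u' * j = 1 := by
        have e1 : u' * (n * l₂ * n⁻¹) = (n * l₂ * n⁻¹) * u' := (hc _ (hφ₂ l₂ hl₂) _ hu'L).symm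
        calc u * u' * j = l₁ * ((n * l₂ * n⁻¹) * u') * j := by rw [hu]; group
          _ = l₁ * (u' * (n * l₂ * n⁻¹)) * (n * n) := by rw [e1, hnn]
          _ = (l₁ * l₂ * n) * (l₁ * l₂ * n) := by rw [hu']; group
          _ = 1 := by rw [← ht]; exact htt
      have huL₂ : u ∈ L₂ := by
        have : u = (u' * j)⁻¹ := by
          apply eq_inv_of_mul_eq_one_left
          rw [← mul_assoc]; exact hprod
        rw [this]; exact L₂.inv_mem (L₂.mul_mem hu'L hjL.2)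
      have hucase := hmeet u huL huL₂
      have hun : n * u * n⁻¹ = u := by
        rcases hucase with h | h
        · rw [h]; group
        · rw [h, hnj]; group
      have hul : l₂ * u * l₂⁻¹ = u := by
        rw [← hc u huL l₂ hl₂]; group
      have hun' : n * u * n⁻¹ = (n * l₁ * n⁻¹) * l₂ := by
        have e1 : j * l₂ = l₂ * j := hc j hjL.1 l₂ hl₂
        calc n * u * n⁻¹ = (n * l₁ * n⁻¹) * ((n * n) * l₂ * (n * n)⁻¹) := by rw [hu]; group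
          _ = (n * l₁ * n⁻¹) * l₂ := by rw [hnn, e1]; group
      have huu' : u' = u := by
        calc u' = l₂ * ((n * l₁ * n⁻¹) * l₂) * l₂⁻¹ := by rw [hu']; group
          _ = l₂ * u * l₂⁻¹ := by rw [← hun', hun]
          _ = u := hul
      rw [huu', hmem u huL huL₂, one_mul] at hprod
      exact hj1 hprod
  have hconj : ∀ (L : Subgroup G) (x : G), (∀ a ∈ L, a * a = j → ∃ h ∈ L, h * x * h⁻¹ = a) →
      ∀ a ∈ L, ∀ b ∈ L, a * a = j → b * b = j → ∃ h ∈ L, h * a * h⁻¹ = b := by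
    intro L x hx a ha b hb haa hbb
    obtain ⟨p, hp, hpa⟩ := hx a ha haa
    obtain ⟨q, hq, hqb⟩ := hx b hb hbb
    refine ⟨q * p⁻¹, L.mul_mem hq (L.inv_mem hp), ?_⟩
    rw [← hpa, ← hqb]; group
  have K : Cfsg.Agent.Lib.Helper74.FW.Cfg L₁ L₂ j :=
    { hc := hc
      j1 := hj1
      jj := hjj
      jL₁ := hjL.1
      jL₂ := hjL.2
      meet := hmeet
      inv₁ := i₁
      inv₂ := i₂
      conj₁ := hconj L₁ x₁ c₁
      conj₂ := hconj L₂ x₂ c₂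
      anti₁ := Cfsg.Agent.Lib.Helper74.FW.sl2_anti_sub hF₁ L₁ e₁ j hj1 hjj hjL.1
      anti₂ := Cfsg.Agent.Lib.Helper74.FW.sl2_anti_sub hF₂ L₂ e₂ j hj1 hjj hjL.2
      invC := hinvC }
  exact Cfsg.Agent.Lib.Helper74.FW.zstar_of_isolated j hj (fun g hg => K.isolated g hg)

end Cfsg.Agent.S3211
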