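import Cfsg.Statements.S3213
import Cfsg.Agent.Lib.Helper65.Sp43

set_option autoImplicit false
open Cfsg

namespace Cfsg.Agent.S3213

open Cfsg.Agent.Lib.Helper65

/-- Let F be the field with 3 elements and K the field with 5 elements. For every injective homomorphism φ from SL₂(K) into the symplectic group Sp₄(F) (4 × 4 matrices g with g J gᵀ = J for the standard alternating matrix J) and every element x of order 3 of SL₂(K), the vectors of F⁴ fixed by φ(x) form a 2-dimensional subspace that is totally isotropic for the alternating form defined by J. -/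
theorem result {F : Type*} [Field F] [Fintype F] (hF : Fintype.card F = 3)
    {K : Type*} [Field K] [Fintype K] (hK : Fintype.card K = 5)
    (φ : Matrix.SpecialLinearGroup (Fin 2) K →* ↥(Matrix.symplecticGroup (Fin 2) F)) (hφ : Function.Injective φ)
    (x : Matrix.SpecialLinearGroup (Fin 2) K) (hx : orderOf x = 3) :
    Module.finrank F ↥(LinearMap.ker (Matrix.toLin' ((φ x : Matrix (Fin 2 ⊕ Fin 2) (Fin 2 ⊕ Fin 2) F)) - LinearMap.id)) = 2 ∧
      ∀ v w : Fin 2 ⊕ Fin 2 → F, (φ x : Matrix (Fin 2 ⊕ Fin 2) (Fin 2 ⊕ Fin 2) F).mulVec v = v →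
        (φ x : Matrix (Fin 2 ⊕ Fin 2) (Fin 2 ⊕ Fin 2) F).mulVec w = w →
          dotProduct v ((Matrix.J (Fin 2) F).mulVec w) = 0 := by
  classical
  obtain ⟨x', y, hx', hy5, hy1, hz1, hcomm⟩ := Sp43.sl2_data hK x hx
  -- the representation
  let ρ : Matrix.SpecialLinearGroup (Fin 2) K →* ((Fin 2 ⊕ Fin 2 → F) →ₗ[F] (Fin 2 ⊕ Fin 2 → F)) :=
    { toFun := fun g => Matrix.toLin' ((φ g : Matrix (Fin 2 ⊕ Fin 2) (Fin 2 ⊕ Fin 2) F))
      map_one' := by
        rw [map_one]
        exact Matrix.toLin'_one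
      map_mul' := fun a b => by
        rw [map_mul]
        exact Matrix.toLin'_mul _ _ }
  have hρ : Function.Injective ρ := by
    intro a b hab
    apply hφ
    apply Subtype.ext
    exact Matrix.toLin'.injective hab
  have hV : Module.finrank F (Fin 2 ⊕ Fin 2 → F) = 4 := by
    rw [Module.finrank_fintype_fun_eq_card]
    rfl
  have hx3 : x ^ 3 = 1 := hx ▸ pow_orderOf_eq_one x
  have hx1 : x ≠ 1 := by
    intro h
    rw [h, orderOf_one] at hx
    omega
  have hnofix := Sp43.nofix hF hV (ρ y) (ρ ((x * x') ^ 2))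
    (by rw [← map_pow, hy5, map_one]) (fun h => hy1 (hρ (h.trans (map_one ρ).symm)))
    (fun h => hz1 (hρ (h.trans (map_one ρ).symm))) (hcomm.map ρ)
  have hJ : (φ x : Matrix (Fin 2 ⊕ Fin 2) (Fin 2 ⊕ Fin 2) F).transpose * Matrix.J (Fin 2) F *
      (φ x : Matrix (Fin 2 ⊕ Fin 2) (Fin 2 ⊕ Fin 2) F) = Matrix.J (Fin 2) F :=
    SymplecticGroup.mem_iff'.mp (φ x).2
  have hcore := Sp43.core hF hV (ρ x) (ρ x') (by rw [← map_pow, hx3, map_one])
    (by rw [← map_pow, hx', map_one]) (fun h => hx1 (hρ (h.trans (map_one ρ).symm)))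
    (by
      intro v hv
      apply hnofix v
      rw [map_pow, map_mul]
      exact hv)
    (Matrix.toLinearMap₂' F (Matrix.J (Fin 2) F))
    (by
      intro v w
      rw [Matrix.toLinearMap₂'_apply', Matrix.toLinearMap₂'_apply']
      show dotProduct ((φ x : Matrix (Fin 2 ⊕ Fin 2) (Fin 2 ⊕ Fin 2) F).mulVec v)
        ((Matrix.J (Fin 2) F).mulVec ((φ x : Matrix (Fin 2 ⊕ Fin 2) (Fin 2 ⊕ Fin 2) F).mulVec w)) = _
      conv_rhs => rw [← hJ]
      rw [Matrix.mul_assoc, ← Matrix.mulVec_mulVec, ← Matrix.mulVec_mulVec,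
        Matrix.dotProduct_mulVec v, Matrix.vecMul_transpose])
    (by
      intro v
      rw [Matrix.toLinearMap₂'_apply']
      simp [Matrix.J, dotProduct, Matrix.mulVec, Fintype.sum_sum_type, Fin.sum_univ_two,
        Matrix.fromBlocks, Matrix.one_apply]
      ring)
  refine ⟨hcore.1, ?_⟩
  intro v w hv hw
  have := hcore.2 v w hv hw
  rwa [Matrix.toLinearMap₂'_apply'] at this

end Cfsg.Agent.S3213
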