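import Cfsg.Statements.S3224
import Cfsg.Agent.Lib.Helper59.TausskyClassify
import Cfsg.Agent.Lib.Helper59.TwoGroupRecog
import Cfsg.Agent.Lib.Helper59.MaxClassIndex
import Cfsg.Agent.S0112

set_option autoImplicit false
open Cfsg

namespace Cfsg.Agent.S3224

open Cfsg.Agent.Lib.Helper59

/-- A finite 2-group containing an involution whose centralizer has order 4 is dihedral, quasi-dihedral (semidihedral), or of order 4. -/
theorem result {S : Type*} [Group S] [Finite S] (hS : IsPGroup 2 S)
    (x : S) (hx : orderOf x = 2) (hC : Nat.card ↥(Subgroup.centralizer ({x} : Set S)) = 4) :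
    (∃ n : ℕ, Nonempty (S ≃* DihedralGroup n)) ∨ Cfsg.IsQuasiDihedral S ∨ Nat.card S = 4 := by
  have : Fact (Nat.Prime 2) := ⟨Nat.prime_two⟩
  by_cases hna : ∃ u v : S, u * v ≠ v * u
  swap
  · push Not at hna
    right; right
    have : Subgroup.centralizer ({x} : Set S) = ⊤ := by
      rw [eq_top_iff]
      intro g _
      rw [Subgroup.mem_centralizer_singleton_iff]
      exact hna g x
    rw [this, Subgroup.card_top] at hC
    exact hC
  obtain ⟨n0, hn0⟩ := hS.exists_card_eq
  have hA2 : Nat.card ↥(Subgroup.centralizer ({x} : Set S)) = 2 ^ 2 := by rw [hC]; norm_num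
  have hAc : IsMulCommutative ↥(Subgroup.centralizer ({x} : Set S)) :=
    IsPGroup.isMulCommutative_of_card_eq_prime_sq hA2
  have hxA : x ∈ Subgroup.centralizer ({x} : Set S) := by
    rw [Subgroup.mem_centralizer_singleton_iff]
  have hCA : Subgroup.centralizer ((Subgroup.centralizer ({x} : Set S) : Subgroup S) : Set S) =
      Subgroup.centralizer ({x} : Set S) := by
    apply le_antisymm
    · apply Subgroup.centralizer_le
      intro y hy
      rw [Set.mem_singleton_iff] at hy
      rw [hy]
      exact hxA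
    · intro g hg
      rw [Subgroup.mem_centralizer_iff]
      intro h hh
      have := hAc.is_comm.comm ⟨h, hh⟩ ⟨g, hg⟩
      exact congrArg Subtype.val this
  have hclass := Cfsg.Agent.S0112.result n0 hn0 _ hA2 hCA
  have hn2 : 2 ≤ n0 := by
    have : 2 ^ 2 ∣ 2 ^ n0 := by
      rw [← hA2, ← hn0]; exact Subgroup.card_subgroup_dvd_card _
    exact (Nat.pow_dvd_pow_iff_le_right (by norm_num)).mp this
  have hidx : (commutator S).index = 4 := by
    rw [index_commutator_of_maxClass n0 S hn2 hn0 hclass]
    norm_num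
  obtain ⟨n, a, b, hn3, hn, ha, hb, hcase⟩ := taussky_classify hS hidx hna
  obtain ⟨k, rfl⟩ : ∃ k, n = k + 3 := ⟨n - 3, by omega⟩
  rcases hcase with ⟨hbb, hba⟩ | ⟨hbb, hba⟩ | ⟨h4, hbb, hba⟩
  · left
    refine ⟨_, dihedral_recog (2 ^ (k + 2)) (by positivity) a b ha (by rw [← pow_two, hbb]) hba hb ?_⟩
    rw [hn]; ring
  · exfalso
    have hidxa : (Subgroup.zpowers a).index = 2 := by
      have := (Subgroup.zpowers a).card_mul_index
      rw [Nat.card_zpowers, ha, hn] at this
      have e : 2 ^ (k + 3) = 2 ^ (k + 3 - 1) * 2 := by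
        rw [← pow_succ]; congr 1
      rw [e] at this
      exact Nat.eq_of_mul_eq_mul_left (by positivity) this
    have hconj : ∀ i : ℤ, b * a ^ i * b⁻¹ = (a ^ i)⁻¹ := by
      intro i
      rw [← conj_zpow, hba, inv_zpow]
    have hxx : x * x = 1 := by rw [← pow_two, ← hx, pow_orderOf_eq_one]
    have hxa : x ∈ Subgroup.zpowers a := by
      by_contra hxa
      have h1 : x * b⁻¹ ∈ Subgroup.zpowers a := (Subgroup.mul_mem_iff_of_index_two hidxa).mpr
        ⟨fun h => absurd h hxa, fun h => absurd (by simpa using Subgroup.inv_mem _ h) hb⟩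
      obtain ⟨i, hi⟩ := h1
      simp only at hi
      have h2 : x = a ^ i * b := by rw [hi]; group
      have h3 : x * x = b ^ 2 := by
        rw [h2]
        calc a ^ i * b * (a ^ i * b) = a ^ i * (b * a ^ i * b⁻¹) * (b * b) := by group
          _ = b ^ 2 := by rw [hconj, mul_inv_cancel, one_mul, pow_two]
      rw [hxx, hbb] at h3
      have h4 := orderOf_dvd_of_pow_eq_one h3.symm
      rw [ha] at h4
      have h5 : k + 3 - 1 ≤ k + 3 - 2 := (Nat.pow_dvd_pow_iff_le_right (by norm_num)).mp h4
      omega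
    obtain ⟨i, hi⟩ := hxa
    simp only at hi
    have hle : Subgroup.zpowers a ≤ Subgroup.centralizer ({x} : Set S) := by
      rw [Subgroup.zpowers_le, Subgroup.mem_centralizer_singleton_iff, ← hi]
      exact ((Commute.refl a).zpow_right i).eq
    have hbC : b ∈ Subgroup.centralizer ({x} : Set S) := by
      rw [Subgroup.mem_centralizer_singleton_iff]
      have h1 : b * x * b⁻¹ = x⁻¹ := by rw [← hi, hconj]
      have h2 : x⁻¹ = x := inv_eq_of_mul_eq_one_left hxx
      rw [h2] at h1
      calc b * x = b * x * b⁻¹ * b := by group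
        _ = x * b := by rw [h1]
    have heq : Subgroup.zpowers a = Subgroup.centralizer ({x} : Set S) := by
      apply Subgroup.eq_of_le_of_card_ge hle
      rw [hC, Nat.card_zpowers, ha]
      have : 2 ^ 2 ≤ 2 ^ (k + 3 - 1) := Nat.pow_le_pow_right (by norm_num) (by omega)
      omega
    exact hb (heq ▸ hbC)
  · right; left
    refine ⟨k + 2, by omega, hn, a, b, ha, ?_, hba⟩
    apply orderOf_eq_prime hbb
    rintro rfl
    exact hb (Subgroup.one_mem _)

end Cfsg.Agent.S3224
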