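import Cfsg.Statements.S3225
-- import your own Cfsg.Agent.* helpers here
import Mathlib

set_option autoImplicit false
open Cfsg

namespace Cfsg.Agent.S3225

/-- Let G be a finite group of even order with no subgroup of index 2, S a Sylow 2-subgroup of G and M a subgroup of index 2 in S such that, for some n ≥ 1, every element of S outside M has order greater than 2^(n−1). Then every element of S of order 2ⁿ is conjugate in G to an element of M. -/
theorem result {G : Type*} [Group G] [Finite G] (hev : Even (Nat.card G))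
    (hG : ∀ H : Subgroup G, H.index ≠ 2) (S : Sylow 2 G) (M : Subgroup G) (hMS : M ≤ (S : Subgroup G)) (hM : M.relIndex (S : Subgroup G) = 2)
    (n : ℕ) (hn : 1 ≤ n) (hord : ∀ y ∈ (S : Subgroup G), y ∉ M → 2 ^ (n - 1) < orderOf y)
    (x : G) (hx : x ∈ (S : Subgroup G)) (hxn : orderOf x = 2 ^ n) :
    ∃ g : G, g * x * g⁻¹ ∈ M := by
  classical
  by_contra hcon
  push Not at hcon
  have : Fact (Nat.Prime 2) := ⟨Nat.prime_two⟩
  have hM' : (M.subgroupOf (S : Subgroup G)).index = 2 := hM
  let ϕ : (S : Subgroup G) →* ℤˣ :=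
    { toFun := fun s => if s ∈ M.subgroupOf (S : Subgroup G) then 1 else -1
      map_one' := by simp
      map_mul' := fun a b => by
        by_cases ha : a ∈ M.subgroupOf (S : Subgroup G) <;>
        by_cases hb : b ∈ M.subgroupOf (S : Subgroup G) <;>
        simp [Subgroup.mul_mem_iff_of_index_two hM', ha, hb] }
  have hϕ : ∀ s : (S : Subgroup G), ϕ s = if (s : G) ∈ M then 1 else -1 := by
    intro s
    rfl
  have : Fintype (Quotient (MulAction.orbitRel (Subgroup.zpowers x) (G ⧸ (S : Subgroup G)))) :=
    Fintype.ofFinite _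
  have key : MonoidHom.transfer ϕ x = -1 := by
    rw [MonoidHom.transfer_eq_prod_quotient_orbitRel_zpowers_quot]
    have h0 : ∀ (k : ℕ) (g : G) (hmem : g⁻¹ * x ^ k * g ∈ (S : Subgroup G)), k ∣ 2 ^ n →
        ϕ ⟨g⁻¹ * x ^ k * g, hmem⟩ = (-1) ^ k := by
      intro k g hmem hdvd
      obtain ⟨i, hi, rfl⟩ := (Nat.dvd_prime_pow Nat.prime_two).mp hdvd
      rw [hϕ]
      rcases Nat.eq_zero_or_pos i with rfl | hipos
      · have h2 := hcon g⁻¹
        rw [inv_inv] at h2
        simp [h2]
      · have h3 : g⁻¹ * x ^ 2 ^ i * g ∈ M := by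
          by_contra hnot
          have h4 := hord _ hmem hnot
          have h5 : (g⁻¹ * x ^ 2 ^ i * g) ^ (2 ^ (n - 1)) = 1 := by
            have h6 := conj_pow (a := g⁻¹) (b := x ^ 2 ^ i) (i := 2 ^ (n - 1))
            rw [inv_inv] at h6
            rw [h6, ← pow_mul, ← pow_add]
            have h7 : i + (n - 1) = n + (i - 1) := by omega
            rw [h7, pow_add, pow_mul, ← hxn, pow_orderOf_eq_one, one_pow]
            group
          have h8 := orderOf_le_of_pow_eq_one (by positivity) h5
          omega
        rw [if_pos h3]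
        have : Even (2 ^ i) := (Nat.even_pow).mpr ⟨even_two, by omega⟩
        rw [this.neg_one_pow]
    have h1 : ∀ q : Quotient (MulAction.orbitRel (Subgroup.zpowers x) (G ⧸ (S : Subgroup G))),
        ϕ ⟨q.out.out⁻¹ * x ^ Function.minimalPeriod (x • ·) q.out * q.out.out,
            QuotientGroup.out_conj_pow_minimalPeriod_mem (S : Subgroup G) x q.out⟩ =
          (-1) ^ (Function.minimalPeriod (x • ·) q.out) := by
      intro q
      apply h0
      rw [← MulAction.pow_smul_eq_iff_minimalPeriod_dvd, ← hxn, pow_orderOf_eq_one, one_smul]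
    rw [Finset.prod_congr rfl (fun q _ => h1 q), Finset.prod_pow_eq_pow_sum,
      ← Subgroup.index_eq_sum_minimalPeriod]
    have hodd : Odd (S : Subgroup G).index := by
      rw [← Nat.not_even_iff_odd, even_iff_two_dvd]
      exact S.not_dvd_index
    exact hodd.neg_one_pow
  apply hG (MonoidHom.transfer ϕ).ker
  rw [Subgroup.index_ker]
  have : (MonoidHom.transfer ϕ).range = ⊤ := by
    rw [eq_top_iff]
    intro u _
    rcases Int.units_eq_one_or u with rfl | rfl
    · exact Subgroup.one_mem _
    · exact ⟨x, key⟩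
  rw [this, Subgroup.card_top]
  simp

end Cfsg.Agent.S3225
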