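import Cfsg.Statements.S3246
import Cfsg.Agent.Lib.Helper37.OddInvariant
import Cfsg.Agent.Lib.Helper37.PConstr
import Cfsg.Agent.Lib.Helper3.OmegaCentralizer
import Cfsg.Agent.S0058

set_option autoImplicit false
open Cfsg

namespace Cfsg.Agent.S3246

open scoped commutatorElement
open Cfsg.Agent.Lib Cfsg.Agent.Lib.Helper37

theorem eq_one_or_eq_of_mem_zpowers {G : Type*} [Group G] {z w : G} (hz : z ^ 2 = 1)
    (hw : w ∈ Subgroup.zpowers z) : w = 1 ∨ w = z := by
  obtain ⟨k, rfl⟩ := Subgroup.mem_zpowers_iff.1 hw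
  rcases Int.even_or_odd' k with ⟨m, rfl | rfl⟩
  · left
    rw [zpow_mul, zpow_ofNat, hz, one_zpow]
  · right
    rw [zpow_add, zpow_mul, zpow_ofNat, hz, one_zpow, one_mul, zpow_one]

/-- Let G be a finite group whose Sylow 2-subgroup S has a self-centralizing normal subgroup of rank at least 3. Suppose that either every maximal 2-local subgroup of G is 2-constrained with no nontrivial normal subgroup of odd order, or the centralizer of every involution of G is 2-constrained with no nontrivial normal subgroup of odd order. Then S normalizes no nontrivial subgroup of G of odd order and every 2-local subgroup of G is 2-constrained. -/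
theorem result {G : Type*} [Group G] [Finite G]
    (S : Sylow 2 G) (A : Subgroup G) (hA : Cfsg.IsSCN (S : Subgroup G) A) (hA3 : ¬ Cfsg.PRankLE 2 2 ↥A)
    (h : (∀ M : Subgroup G, Cfsg.IsMaximalTwoLocal M → Cfsg.IsPConstrained 2 ↥M ∧ Cfsg.oddCore ↥M = ⊥) ∨
      (∀ t : G, orderOf t = 2 → Cfsg.IsPConstrained 2 ↥(Subgroup.centralizer ({t} : Set G)) ∧
        Cfsg.oddCore ↥(Subgroup.centralizer ({t} : Set G)) = ⊥)) :
    (∀ X : Subgroup G, Odd (Nat.card ↥X) → (S : Subgroup G) ≤ Subgroup.normalizer (X : Set G) → X = ⊥) ∧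
      (∀ T : Subgroup G, IsPGroup 2 ↥T → T ≠ ⊥ → Cfsg.IsPConstrained 2 ↥(Subgroup.normalizer (T : Set G))) := by
  have : Fact (Nat.Prime 2) := ⟨Nat.prime_two⟩
  -- all 2-locals have characteristic 2
  have hloc : ∀ T : Subgroup G, IsPGroup 2 ↥T → T ≠ ⊥ →
      CharP 2 ↥(Subgroup.normalizer (T : Set G)) := by
    intro T hT hT1
    rcases h with h | h
    · let 𝒮 : Set (Subgroup G) := {M | Cfsg.IsTwoLocal M ∧ Subgroup.normalizer (T : Set G) ≤ M}
      have hne : 𝒮.Nonempty := ⟨_, ⟨T, hT, hT1, rfl⟩, le_rfl⟩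
      obtain ⟨M, hM⟩ := (Set.toFinite 𝒮).exists_maximal hne
      obtain ⟨⟨hM1, hM3⟩, hmax⟩ := hM
      have hMmax : Cfsg.IsMaximalTwoLocal M :=
        ⟨hM1, fun N hN hle => le_antisymm (hmax ⟨hN, hM3.trans hle⟩ hle) hle⟩
      obtain ⟨hc, ho⟩ := h M hMmax
      exact charP_normalizer_of_le_charP (charP_of_isPConstrained hc ho) hT
        (Subgroup.le_normalizer.trans hM3) hM3
    · obtain ⟨z, hzT, hzo⟩ := exists_orderOf_eq_of_isPGroup hT hT1
      obtain ⟨hc, ho⟩ := h z hzo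
      exact charP_normalizer_of_mem hT hzT (charP_of_isPConstrained hc ho)
  have hinv : ∀ t : G, orderOf t = 2 → CharP 2 ↥(Subgroup.centralizer ({t} : Set G)) := by
    intro t ht
    apply charP_centralizer_of_normalizer_zpowers
    apply hloc
    · apply IsPGroup.of_card (n := 1)
      rw [Nat.card_zpowers, ht, pow_one]
    · intro hb
      rw [Subgroup.zpowers_eq_bot] at hb
      rw [hb, orderOf_one] at ht
      omega
  refine ⟨?_, fun T hT hT1 => (hloc T hT hT1).isPConstrained⟩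
  intro X hX hSX
  obtain ⟨hAS, hSA, hCA⟩ := hA
  have hAcomm : ∀ a ∈ A, ∀ b ∈ A, a * b = b * a := by
    intro a ha b hb
    have hb' : b ∈ (S : Subgroup G) ⊓ Subgroup.centralizer (A : Set G) := by rw [hCA]; exact hb
    exact (Subgroup.mem_centralizer_iff.1 hb'.2) a ha
  set Ω := Cfsg.omegaOne 2 (A ⊓ Subgroup.centralizer (A : Set G)) with hΩ
  have hΩA : Ω ≤ A := fun x hx => ((mem_omegaOne_center_iff 2 A x).1 hx).1
  have hΩ2 : ∀ x ∈ Ω, x ^ 2 = 1 := fun x hx => ((mem_omegaOne_center_iff 2 A x).1 hx).2.2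
  have hΩS : Ω ≤ (S : Subgroup G) := hΩA.trans hAS
  have hSΩ : (S : Subgroup G) ≤ Subgroup.normalizer (Ω : Set G) :=
    hSA.trans (normalizer_le_normalizer_omegaOne_center 2 A)
  have hΩcard : 4 < Nat.card ↥Ω := by
    unfold Cfsg.PRankLE at hA3
    push Not at hA3
    obtain ⟨A', _, hA'2, hA'c⟩ := hA3
    have h1 : A'.map A.subtype ≤ Ω := by
      rintro _ ⟨x, hx, rfl⟩
      refine (mem_omegaOne_center_iff 2 A _).2 ⟨x.2, fun s hs => hAcomm s hs _ x.2, ?_⟩
      have := congrArg Subtype.val (hA'2 x hx)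
      simpa using this
    have h2 := Subgroup.card_le_of_le h1
    rw [Subgroup.card_map_of_injective (Subgroup.subtype_injective _)] at h2
    omega
  have hΩne : Ω ≠ ⊥ := by
    intro hb
    rw [hb, Subgroup.card_bot] at hΩcard
    omega
  obtain ⟨z, hzΩ, hzo, hzc⟩ := exists_orderOf_eq_mem_center S.2 hΩS hSΩ hΩne
  have hz2 : z ^ 2 = 1 := hΩ2 z hzΩ
  have hz1 : z ≠ 1 := by
    intro hb
    rw [hb, orderOf_one] at hzo
    omega
  set Z₁ := Subgroup.zpowers z with hZ₁
  have hZ₁S : Z₁ ≤ (S : Subgroup G) := by rw [hZ₁, Subgroup.zpowers_le]; exact hΩS hzΩ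
  have hSZ₁ : (S : Subgroup G) ≤ Subgroup.normalizer (Z₁ : Set G) := by
    intro s hs
    apply centralizer_singleton_le_normalizer_zpowers z
    rw [Subgroup.mem_centralizer_singleton_iff]
    exact hzc s hs
  have hn1 : (Z₁.subgroupOf (S : Subgroup G)).Normal :=
    (Subgroup.normal_subgroupOf_iff_le_normalizer hZ₁S).2 hSZ₁
  have hn2 : (Ω.subgroupOf (S : Subgroup G)).Normal :=
    (Subgroup.normal_subgroupOf_iff_le_normalizer hΩS).2 hSΩ
  have hne : ¬ Ω.subgroupOf (S : Subgroup G) ≤ Z₁.subgroupOf (S : Subgroup G) := by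
    intro hle
    have h1 : Ω ≤ Z₁ := fun x hx => hle (show (⟨x, hΩS hx⟩ : ↥(S : Subgroup G)) ∈
      Ω.subgroupOf (S : Subgroup G) from hx)
    have h2 := Subgroup.card_le_of_le h1
    rw [hZ₁, Nat.card_zpowers, hzo] at h2
    omega
  obtain ⟨e', he'Ω, he'Z, _, he'c⟩ := Helper3.central_step S.2 (Z₁.subgroupOf (S : Subgroup G))
    (Ω.subgroupOf (S : Subgroup G)) hne
  set E₁ := Helper52.chainStabRel Ω (S : Subgroup G) Z₁ (hΩS.trans hSZ₁) with hE₁
  have hE₁Ω : E₁ ≤ Ω := fun x hx => hx.1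
  have hzE : z ∈ E₁ := by
    refine ⟨hzΩ, fun a ha => ?_⟩
    rw [← hzc a ha]
    simp
  have heE : (e' : G) ∈ E₁ := by
    refine ⟨he'Ω, fun a ha => ?_⟩
    have := he'c ⟨a, ha⟩
    rw [Subgroup.mem_subgroupOf, commutatorElement_def] at this
    exact this
  have hcommE : IsMulCommutative ↥E₁ :=
    ⟨⟨fun x y => Subtype.ext (hAcomm x (hΩA (hE₁Ω x.2)) y (hΩA (hE₁Ω y.2)))⟩⟩
  have hncyc : ¬ IsCyclic ↥E₁ := by
    intro hcyc
    obtain ⟨g, hg⟩ := hcyc.exists_generator
    have hg2 : g ^ 2 = 1 := Subtype.ext (by simpa using hΩ2 g (hE₁Ω g.2))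
    have h1 := eq_one_or_eq_of_mem_zpowers hg2 (hg ⟨z, hzE⟩)
    have h2 := eq_one_or_eq_of_mem_zpowers hg2 (hg ⟨e', heE⟩)
    have hz' : (⟨z, hzE⟩ : ↥E₁) = g := by
      rcases h1 with h1 | h1
      · exact absurd (congrArg Subtype.val h1) hz1
      · exact h1
    apply he'Z
    rw [Subgroup.mem_subgroupOf]
    rcases h2 with h2 | h2
    · have : (e' : G) = 1 := congrArg Subtype.val h2
      rw [this]; exact Z₁.one_mem
    · have : (e' : G) = z := by
        have := congrArg Subtype.val (h2.trans hz'.symm)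
        exact this
      rw [this]; exact Subgroup.mem_zpowers z
  have hcop : (Nat.card ↥E₁).Coprime (Nat.card ↥X) := by
    obtain ⟨n, hn⟩ := IsPGroup.iff_card.1 (S.2.to_le (hE₁Ω.trans hΩS))
    rw [hn]
    exact Nat.Coprime.pow_left n (Nat.coprime_two_left.2 hX)
  have hgen := Cfsg.Agent.S0058.result E₁ X hncyc ((hE₁Ω.trans hΩS).trans hSX) hcop
  rw [eq_bot_iff, ← hgen]
  apply iSup₂_le
  rintro a ⟨haE, ha1⟩
  have ha2 : a ^ 2 = 1 := hΩ2 a (hE₁Ω haE)
  have hao : orderOf a = 2 := orderOf_eq_prime ha2 ha1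
  refine (inf_centralizer_eq_bot_of_card_le S hX hSX (hinv a hao) ?_).le
  apply card_le_two_mul_of_forall
  intro s hs t ht hsC htC
  refine ⟨(S : Subgroup G).mul_mem ((S : Subgroup G).inv_mem hs) ht,
    Subgroup.mem_centralizer_singleton_iff.2 ?_⟩
  have key : ∀ r ∈ (S : Subgroup G),
      r ∉ (S : Subgroup G) ⊓ Subgroup.centralizer ({a} : Set G) → a * r * a⁻¹ = z * r := by
    intro r hr hrC
    rcases eq_one_or_eq_of_mem_zpowers hz2 (haE.2 r hr) with h1 | h1
    · exfalso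
      apply hrC
      refine ⟨hr, Subgroup.mem_centralizer_singleton_iff.2 ?_⟩
      have := congrArg (fun w => w * r * a) h1
      simpa [mul_assoc] using this.symm
    · have := congrArg (fun w => w * r) h1
      simpa [mul_assoc] using this
  have h1 := key s hs hsC
  have h2 := key t ht htC
  have h3 : a * (s⁻¹ * t) * a⁻¹ = s⁻¹ * t := by
    calc a * (s⁻¹ * t) * a⁻¹ = (a * s * a⁻¹)⁻¹ * (a * t * a⁻¹) := by group
      _ = (z * s)⁻¹ * (z * t) := by rw [h1, h2]
      _ = s⁻¹ * t := by group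
  have := congrArg (fun w => w * a) h3
  simpa [mul_assoc] using this.symm

end Cfsg.Agent.S3246
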