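import Cfsg.Statements.S3299
-- import your own Cfsg.Agent.* helpers here
import Cfsg.Agent.Lib.Helper92.Singular
import Cfsg.Agent.Lib.Helper92.ESTransfer

set_option autoImplicit false
open Cfsg

namespace Cfsg.Agent.S3299

open Cfsg.Agent.Lib.Helper92

section aux
variable {G : Type*} [Group G]

/-- an abelian subgroup of index at most two forces order at most eight -/
theorem card_le_eight {E : Subgroup G} {z : G} (h : ESData E z) (R : Subgroup G) (hRE : R ≤ E)
    {q : G} (hq : q ∈ E) (hind : ∀ a ∈ E, a ∈ R ∨ q⁻¹ * a ∈ R)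
    (hab : ∀ a ∈ R, ∀ b ∈ R, Commute a b) : Nat.card E ≤ 8 := by
  classical
  have hcen : ∀ r ∈ R, Commute q r → r = 1 ∨ r = z := by
    intro r hr hqr
    apply h.cent
    intro a ha
    rcases hind a ha with h1 | h1
    · exact hab a h1 r hr
    · have h2 := hab _ h1 r hr
      have h3 := hqr.mul_left h2
      have e : q * (q⁻¹ * a) = a := by group
      rwa [e] at h3
  have hex : ∃ r₁ : G, ∀ r ∈ R, r = 1 ∨ r = z ∨ r = r₁ ∨ r = r₁ * z := by
    by_cases hall : ∀ r ∈ R, Commute q r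
    · refine ⟨1, fun r hr => ?_⟩
      rcases hcen r hr (hall r hr) with h1 | h1
      · exact Or.inl h1
      · exact Or.inr (Or.inl h1)
    · push Not at hall
      obtain ⟨r₁, hr₁, hne⟩ := hall
      refine ⟨r₁, fun r hr => ?_⟩
      by_cases hc : Commute q r
      · rcases hcen r hr hc with h1 | h1
        · exact Or.inl h1
        · exact Or.inr (Or.inl h1)
      · have e1 : q * r₁ * q⁻¹ = z * r₁ := by
          rcases h.conj_cases hq (hRE hr₁) with h1 | h1
          · exact absurd (commute_of_conj_eq h1) hne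
          · exact h1
        have e2 : q * r * q⁻¹ = z * r := by
          rcases h.conj_cases hq (hRE hr) with h1 | h1
          · exact absurd (commute_of_conj_eq h1) hc
          · exact h1
        have e3 : q * (r₁⁻¹ * r) * q⁻¹ = r₁⁻¹ * r := by
          calc q * (r₁⁻¹ * r) * q⁻¹ = (q * r₁ * q⁻¹)⁻¹ * (q * r * q⁻¹) := by group
            _ = (z * r₁)⁻¹ * (z * r) := by rw [e1, e2]
            _ = r₁⁻¹ * r := by group
        rcases hcen _ (R.mul_mem (R.inv_mem hr₁) hr) (commute_of_conj_eq e3) with h1 | h1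
        · right; right; left
          exact (inv_mul_eq_one.1 h1).symm
        · right; right; right
          rw [← h1]; group
  obtain ⟨r₁, hr₁⟩ := hex
  have hsub : (E : Set G) ⊆
      (([1, z, r₁, r₁ * z, q, q * z, q * r₁, q * (r₁ * z)] : List G).toFinset : Set G) := by
    intro a ha
    simp only [List.coe_toFinset, List.mem_cons, List.not_mem_nil, or_false, Set.mem_ofPred_eq]
    rcases hind a ha with h1 | h1
    · rcases hr₁ a h1 with h2 | h2 | h2 | h2 <;> simp [h2]
    · have e : a = q * (q⁻¹ * a) := by group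
      rcases hr₁ _ h1 with h2 | h2 | h2 | h2 <;> rw [e, h2] <;> simp
  calc Nat.card E = (E : Set G).ncard := Nat.card_coe_set_eq _
    _ ≤ (([1, z, r₁, r₁ * z, q, q * z, q * r₁, q * (r₁ * z)] : List G).toFinset : Set G).ncard :=
        Set.ncard_le_ncard hsub (Finset.finite_toSet _)
    _ = ([1, z, r₁, r₁ * z, q, q * z, q * r₁, q * (r₁ * z)] : List G).toFinset.card :=
        Set.ncard_coe_finset _
    _ ≤ ([1, z, r₁, r₁ * z, q, q * z, q * r₁, q * (r₁ * z)] : List G).length :=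
        List.toFinset_card_le _
    _ = 8 := rfl

/-- in a big extraspecial group, subgroups of index two contain a commutator equal to `z` -/
theorem exists_comm_eq {E : Subgroup G} {z : G} (h : ESData E z) (hcard : 8 < Nat.card E)
    (R : Subgroup G) (hRE : R ≤ E) {q : G} (hq : q ∈ E) (hind : ∀ a ∈ E, a ∈ R ∨ q⁻¹ * a ∈ R) :
    ∃ a ∈ R, ∃ b ∈ R, a * b * a⁻¹ * b⁻¹ = z := by
  by_contra hcon
  push Not at hcon
  have hab : ∀ a ∈ R, ∀ b ∈ R, Commute a b := by
    intro a ha b hb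
    rcases h.comm a (hRE ha) b (hRE hb) with h1 | h1
    · show a * b = b * a
      calc a * b = (a * b * a⁻¹ * b⁻¹) * (b * a) := by group
        _ = b * a := by rw [h1, one_mul]
    · exact absurd h1 (hcon a ha b hb)
  exact absurd (card_le_eight h R hRE hq hind hab) (by omega)

end aux

/-- Let G be a finite group with no nontrivial 2-group quotient (O^2(G) = G), z an involution of G with H = C_G(z), and suppose E = O_2(H) is extraspecial with C_G(E) ≤ E and of order 2^(2n+1) with n ≥ 2. Then E is contained in every normal subgroup of H of index 2. -/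
theorem result {G : Type*} [Group G] [Finite G] (hres : Cfsg.pResidual 2 G = ⊤) (z : G) (hz : orderOf z = 2)
    (E : Subgroup G) (hE : E = (Cfsg.pCore 2 ↥(Subgroup.centralizer ({z} : Set G))).map (Subgroup.centralizer ({z} : Set G)).subtype)
    (hext : Cfsg.IsExtraspecial 2 ↥E) (hcent : Subgroup.centralizer (E : Set G) ≤ E) (n : ℕ) (hn : 2 ≤ n) (hcard : Nat.card ↥E = 2 ^ (2 * n + 1))
    (K : Subgroup G) (hKH : K ≤ Subgroup.centralizer ({z} : Set G))
    (hKn : ∀ h ∈ Subgroup.centralizer ({z} : Set G), K.map (MulAut.conj h).toMonoidHom = K)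
    (hKi : K.relIndex (Subgroup.centralizer ({z} : Set G)) = 2) : E ≤ K := by
  subst hE
  have hD : ESData (O2C z) z := ESData.of_O2C hz hext hcent
  set E : Subgroup G := O2C z with hEdef
  set H : Subgroup G := Subgroup.centralizer ({z} : Set G) with hHdef
  have hEH : E ≤ H := Subgroup.map_subtype_le _
  have hmemH : ∀ g : G, g ∈ H ↔ Commute g z := by
    intro g
    rw [hHdef, Subgroup.mem_centralizer_singleton_iff]
    exact ⟨fun h => h, fun h => h⟩
  have hc8 : 8 < Nat.card E := by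
    rw [hcard]
    calc 8 < 2 ^ 5 := by norm_num
      _ ≤ 2 ^ (2 * n + 1) := Nat.pow_le_pow_right (by norm_num) (by omega)
  have hKi' : (K.subgroupOf H).index = 2 := hKi
  by_contra hEK
  obtain ⟨x, hxE, hxK⟩ := SetLike.not_le_iff_exists.1 hEK
  -- index two inside E
  have hind : ∀ a ∈ E, a ∈ E ⊓ K ∨ x⁻¹ * a ∈ E ⊓ K := by
    intro a ha
    by_cases haK : a ∈ K
    · exact Or.inl ⟨ha, haK⟩
    · right
      refine ⟨E.mul_mem (E.inv_mem hxE) ha, ?_⟩
      have h1 := Subgroup.mul_mem_iff_of_index_two hKi' (a := (⟨x, hEH hxE⟩ : H)⁻¹)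
        (b := ⟨a, hEH ha⟩)
      rw [Subgroup.inv_mem_iff] at h1
      simp only [Subgroup.mem_subgroupOf] at h1
      exact h1.2 ⟨fun h => absurd h hxK, fun h => absurd h haK⟩
  obtain ⟨a₀, ha₀, b₀, hb₀, hab₀⟩ := exists_comm_eq hD hc8 (E ⊓ K) inf_le_left hxE hind
  have hzK : z ∈ K := by
    rw [← hab₀]
    exact comm_mem_of_relIndex_two hKi (hEH ha₀.1) (hEH hb₀.1)
  -- an involution outside K
  have hinv : ∃ u ∈ E, u ∉ K ∧ u * u = 1 := by
    by_contra hcon
    push Not at hcon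
    have hsq : ∀ y ∈ E, y ∉ K → y * y = z := by
      intro y hy hyK
      rcases hD.sq hext hy with h1 | h1
      · exact absurd h1 (hcon y hy hyK)
      · exact h1
    have hinvt : ∀ a ∈ E ⊓ K, x⁻¹ * a * x = a⁻¹ := by
      intro a ha
      have hxa : x * a ∉ K := fun h => hxK (by
        have := K.mul_mem h (K.inv_mem ha.2)
        rwa [mul_inv_cancel_right] at this)
      have h1 := hsq _ (E.mul_mem hxE ha.1) hxa
      have h2 := hsq x hxE hxK
      have h3 : x * x * ((x⁻¹ * a * x) * a) = x * x := by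
        calc x * x * ((x⁻¹ * a * x) * a) = (x * a) * (x * a) := by group
          _ = x * x := by rw [h1, h2]
      have h4 : (x⁻¹ * a * x) * a = 1 := mul_eq_left.1 h3
      exact eq_inv_of_mul_eq_one_left h4
    have h5 := hinvt _ ((E ⊓ K).mul_mem ha₀ hb₀)
    have h6 : x⁻¹ * (a₀ * b₀) * x = (x⁻¹ * a₀ * x) * (x⁻¹ * b₀ * x) := by group
    rw [h6, hinvt a₀ ha₀, hinvt b₀ hb₀] at h5
    have h7 : a₀ * b₀ * a₀⁻¹ * b₀⁻¹ = 1 := by
      calc a₀ * b₀ * a₀⁻¹ * b₀⁻¹ = a₀ * b₀ * (a₀⁻¹ * b₀⁻¹) := by group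
        _ = a₀ * b₀ * (a₀ * b₀)⁻¹ := by rw [h5]
        _ = 1 := mul_inv_cancel _
    exact hD.z1 (hab₀.symm.trans h7)
  obtain ⟨u, huE, huK, huu⟩ := hinv
  have hu1 : u ≠ 1 := fun h => huK (h ▸ K.one_mem)
  have huz : u ≠ z := fun h => huK (h ▸ hzK)
  obtain ⟨q, hqE, hq⟩ := hD.exists_q huE hu1 huz
  set R : Subgroup G := E ⊓ Subgroup.centralizer ({u} : Set G) with hRdef
  have hmemR : ∀ r : G, r ∈ R ↔ r ∈ E ∧ Commute r u := by
    intro r
    rw [hRdef, Subgroup.mem_inf, Subgroup.mem_centralizer_singleton_iff]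
    exact ⟨fun h => h, fun h => h⟩
  have hindR : ∀ a ∈ E, a ∈ R ∨ q⁻¹ * a ∈ R := by
    intro a ha
    rcases hD.dichotomy huE hq ha with h1 | h1
    · exact Or.inl ((hmemR a).2 ⟨ha, h1⟩)
    · exact Or.inr ((hmemR _).2 ⟨E.mul_mem (E.inv_mem hqE) ha, h1⟩)
  obtain ⟨a, ha, b, hb, hab⟩ := exists_comm_eq hD hc8 R inf_le_left hqE hindR
  have heven := even_card_badSet hres hKi huu
  have hodd : Odd (Nat.card (badSet H K u)) := by
    apply odd_card_badSet R (hD.two.to_le inf_le_left) (fun r hr => ((hmemR r).1 hr).2)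
      ((1 : G) : G ⧸ H)
    · rw [mem_badSet_iff hKi]
      simp only [inv_one, one_mul, mul_one]
      exact ⟨hEH huE, huK⟩
    · intro r hr
      rw [smul_coset_eq_iff]
      simp only [inv_one, one_mul, mul_one]
      exact hEH ((hmemR r).1 hr).1
    · rintro _ ⟨g, rfl, h1, h2⟩ hfix
      have hc : ∀ r ∈ E, Commute r u → Commute r (g * z * g⁻¹) := by
        intro r hr hru
        have h3 := hfix r ((hmemR r).2 ⟨hr, hru⟩)
        rw [smul_coset_eq_iff, hmemH] at h3
        have h4 := h3.eq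
        show r * (g * z * g⁻¹) = g * z * g⁻¹ * r
        calc r * (g * z * g⁻¹) = g * (g⁻¹ * r * g * z) * g⁻¹ := by group
          _ = g * (z * (g⁻¹ * r * g)) * g⁻¹ := by rw [h4]
          _ = g * z * g⁻¹ * r := by group
      rcases hD.centralizer_CQ huE huu hqE hq hc with h3 | h3 | h3 | h3
      · exfalso
        apply hD.z1
        calc z = g⁻¹ * (g * z * g⁻¹) * g := by group
          _ = 1 := by rw [h3]; group
      · rw [QuotientGroup.eq]
        apply H.mul_mem (H.inv_mem _) H.one_mem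
        rw [hmemH]
        exact commute_of_conj_eq h3
      · exfalso
        apply h2
        have : g⁻¹ * u * g = z := by rw [← h3]; group
        rw [this]; exact hzK
      · exfalso
        apply h2
        -- g₁ = q⁻¹ g conjugates z to u
        have e1 : (q⁻¹ * g) * z * (q⁻¹ * g)⁻¹ = u := by
          calc (q⁻¹ * g) * z * (q⁻¹ * g)⁻¹ = q⁻¹ * (g * z * g⁻¹) * q := by group
            _ = q⁻¹ * (z * u) * q := by rw [h3]
            _ = u := hD.rel_back hq
        have e2 : (q⁻¹ * g)⁻¹ * u * (q⁻¹ * g) = z := by rw [← e1]; group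
        have e3 : g⁻¹ * u * g = ((q⁻¹ * g)⁻¹ * z * (q⁻¹ * g)) * z := by
          calc g⁻¹ * u * g = (q⁻¹ * g)⁻¹ * (q⁻¹ * u * q) * (q⁻¹ * g) := by group
            _ = (q⁻¹ * g)⁻¹ * (z * u) * (q⁻¹ * g) := by rw [hD.rel_qinv hqE hq]
            _ = ((q⁻¹ * g)⁻¹ * z * (q⁻¹ * g)) * ((q⁻¹ * g)⁻¹ * u * (q⁻¹ * g)) := by group
            _ = _ := by rw [e2]
        rw [e3]
        apply K.mul_mem _ hzK
        have hconjH : ∀ r ∈ R, (q⁻¹ * g)⁻¹ * r * (q⁻¹ * g) ∈ H := by
          intro r hr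
          rw [hmemH]
          have h4 := ((hmemR r).1 hr).2.eq
          show (q⁻¹ * g)⁻¹ * r * (q⁻¹ * g) * z = z * ((q⁻¹ * g)⁻¹ * r * (q⁻¹ * g))
          rw [← e2]
          calc (q⁻¹ * g)⁻¹ * r * (q⁻¹ * g) * ((q⁻¹ * g)⁻¹ * u * (q⁻¹ * g))
              = (q⁻¹ * g)⁻¹ * (r * u) * (q⁻¹ * g) := by group
            _ = (q⁻¹ * g)⁻¹ * (u * r) * (q⁻¹ * g) := by rw [h4]
            _ = _ := by group
        have h5 := comm_mem_of_relIndex_two hKi (hconjH a ha) (hconjH b hb)
        have e4 : (q⁻¹ * g)⁻¹ * a * (q⁻¹ * g) * ((q⁻¹ * g)⁻¹ * b * (q⁻¹ * g)) *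
            ((q⁻¹ * g)⁻¹ * a * (q⁻¹ * g))⁻¹ * ((q⁻¹ * g)⁻¹ * b * (q⁻¹ * g))⁻¹ =
            (q⁻¹ * g)⁻¹ * (a * b * a⁻¹ * b⁻¹) * (q⁻¹ * g) := by group
        rw [e4, hab] at h5
        exact h5
  exact (Nat.not_even_iff_odd.2 hodd) heven

end Cfsg.Agent.S3299
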