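import Cfsg.Statements.S3305
import Cfsg.Agent.Lib.Helper60.SylowLift

set_option autoImplicit false
open Cfsg

namespace Cfsg.Agent.S3305

/-- If any two distinct Sylow 2-subgroups of the finite group G intersect in a cyclic group, then the same holds in every quotient group G/H, H a normal subgroup of G. -/
theorem result {G : Type*} [Group G] [Finite G]
    (hC : ∀ S T : Sylow 2 G, S ≠ T → IsCyclic ↥((S : Subgroup G) ⊓ (T : Subgroup G))) (H : Subgroup G) [H.Normal] :
    ∀ S T : Sylow 2 (G ⧸ H), S ≠ T → IsCyclic ↥((S : Subgroup (G ⧸ H)) ⊓ (T : Subgroup (G ⧸ H))) := by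
  intro S T hST
  have hf : Function.Surjective (QuotientGroup.mk' H) := QuotientGroup.mk'_surjective H
  have hD : IsPGroup 2 ↥((S : Subgroup (G ⧸ H)) ⊓ (T : Subgroup (G ⧸ H))) :=
    S.2.to_le inf_le_left
  obtain ⟨D, hDp, -, hDmap⟩ := Cfsg.Agent.Lib.Helper60.exists_pGroup_map_eq (QuotientGroup.mk' H) hf 2
    ((S : Subgroup (G ⧸ H)) ⊓ (T : Subgroup (G ⧸ H))) hD ⊥ (IsPGroup.of_bot) (by simp)
  obtain ⟨S', hDS, hS'⟩ := Cfsg.Agent.Lib.Helper60.exists_sylow_map_eq (QuotientGroup.mk' H) hf 2 S D hDp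
    (by rw [hDmap]; exact inf_le_left)
  obtain ⟨T', hDT, hT'⟩ := Cfsg.Agent.Lib.Helper60.exists_sylow_map_eq (QuotientGroup.mk' H) hf 2 T D hDp
    (by rw [hDmap]; exact inf_le_right)
  have hne : S' ≠ T' := by
    rintro rfl
    exact hST (Sylow.ext (hS'.symm.trans hT'))
  haveI := hC S' T' hne
  haveI hDc : IsCyclic D :=
    isCyclic_of_injective (Subgroup.inclusion (le_inf hDS hDT)) (Subgroup.inclusion_injective _)
  rw [← hDmap]
  exact isCyclic_of_surjective ((QuotientGroup.mk' H).subgroupMap D)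
    ((QuotientGroup.mk' H).subgroupMap_surjective D)

end Cfsg.Agent.S3305
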