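import Cfsg.Statements.S3303
import Cfsg.Agent.Lib.Helper60.Cores
import Cfsg.Agent.S0017
import Cfsg.Agent.S3305

set_option autoImplicit false
open Cfsg

namespace Cfsg.Agent.S3303

/-- Let G be a finite solvable group in which the intersection of any two distinct Sylow 2-subgroups is cyclic. Then G/O(G) has a normal Sylow 2-subgroup, where O(G) is the largest normal subgroup of odd order. -/
theorem result {G : Type*} [Group G] [Finite G] (hs : Group.IsSolvable G)
    (hC : ∀ S T : Sylow 2 G, S ≠ T → IsCyclic ↥((S : Subgroup G) ⊓ (T : Subgroup G))) :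
    ∃ P : Sylow 2 (G ⧸ Cfsg.oddCore G), (P : Subgroup (G ⧸ Cfsg.oddCore G)).Normal := by
  classical
  have hsol : Group.IsSolvable (G ⧸ Cfsg.oddCore G) := inferInstance
  have hO : Cfsg.pPrimeCore 2 (G ⧸ Cfsg.oddCore G) = ⊥ :=
    Cfsg.Agent.Lib.Helper60.pPrimeCore_quotient 2
  have hcent := Cfsg.Agent.S0017.result (G := G ⧸ Cfsg.oddCore G) 2 hO
  have hcyc := Cfsg.Agent.S3305.result hC (Cfsg.oddCore G)
  obtain ⟨P⟩ : Nonempty (Sylow 2 (G ⧸ Cfsg.oddCore G)) := inferInstance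
  by_cases hall : ∀ P' : Sylow 2 (G ⧸ Cfsg.oddCore G), P' = P
  · have : Subsingleton (Sylow 2 (G ⧸ Cfsg.oddCore G)) :=
      ⟨fun a b => (hall a).trans (hall b).symm⟩
    exact ⟨P, P.normal_of_subsingleton⟩
  · push Not at hall
    obtain ⟨P', hP'⟩ := hall
    have hQp : IsPGroup 2 (Cfsg.pCore 2 (G ⧸ Cfsg.oddCore G)) :=
      Cfsg.Agent.Lib.Helper60.isPGroup_pCore 2
    have hle : Cfsg.pCore 2 (G ⧸ Cfsg.oddCore G) ≤ (P' : Subgroup _) ⊓ (P : Subgroup _) :=
      le_inf (Cfsg.Agent.Lib.Helper60.normal_le_sylow _ hQp P')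
        (Cfsg.Agent.Lib.Helper60.normal_le_sylow _ hQp P)
    have := hcyc P' P hP'
    have hQc : IsCyclic (Cfsg.pCore 2 (G ⧸ Cfsg.oddCore G)) :=
      isCyclic_of_injective (Subgroup.inclusion hle) (Subgroup.inclusion_injective _)
    have hG2 : IsPGroup 2 (G ⧸ Cfsg.oddCore G) :=
      Cfsg.Agent.Lib.Helper60.isPGroup_of_isPGroup_mulAut _ hQp hcent
        (Cfsg.Agent.Lib.Helper60.isPGroup_two_mulAut_of_isCyclic hQp)
    have htop : (⊤ : Subgroup (G ⧸ Cfsg.oddCore G)) = P :=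
      P.is_maximal' (hG2.to_subgroup _) le_top
    refine ⟨P, ?_⟩
    rw [← htop]
    infer_instance

end Cfsg.Agent.S3303
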