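import Cfsg.Statements.S3304
-- import your own Cfsg.Agent.* helpers here
import Cfsg.Agent.Lib.Helper92.G23.Main
import Cfsg.Agent.Lib.Helper11.Constrained
import Cfsg.Agent.Lib.Helper14.PConstrained
import Cfsg.Agent.Lib.Helper55.CharP

set_option autoImplicit false
open Cfsg

namespace Cfsg.Agent.S3304

/-- Let G be a finite solvable group in which the intersection of any two distinct Sylow 2-subgroups has 2-rank at most 1 (contains no Klein four-group). Write Q = G/O(G), O(G) the largest normal subgroup of odd order. Then Q has a normal Sylow 2-subgroup; or Q is isomorphic to GL(2,3); or Q has order 48, centre of order 2 with central quotient isomorphic to the symmetric group of degree 4, and generalized quaternion Sylow 2-subgroups of order 16 (the binary octahedral group). The last two are the two representation groups of the symmetric group of degree 4. -/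
theorem result {G : Type*} [Group G] [Finite G] (hs : Group.IsSolvable G)
    (hI : ∀ S T : Sylow 2 G, S ≠ T → Cfsg.PRankLE 2 1 ↥((S : Subgroup G) ⊓ (T : Subgroup G))) :
    (∃ P : Sylow 2 (G ⧸ Cfsg.oddCore G), (P : Subgroup (G ⧸ Cfsg.oddCore G)).Normal) ∨
    Nonempty ((G ⧸ Cfsg.oddCore G) ≃* GL (Fin 2) (ZMod 3)) ∨
    (Nat.card (G ⧸ Cfsg.oddCore G) = 48 ∧ Nat.card ↥(Subgroup.center (G ⧸ Cfsg.oddCore G)) = 2 ∧
      Nonempty ((G ⧸ Cfsg.oddCore G) ⧸ Subgroup.center (G ⧸ Cfsg.oddCore G) ≃* Equiv.Perm (Fin 4)) ∧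
      ∀ P : Sylow 2 (G ⧸ Cfsg.oddCore G), Nonempty (↥(P : Subgroup (G ⧸ Cfsg.oddCore G)) ≃* QuaternionGroup 4)) := by
  have hO : Cfsg.pPrimeCore 2 (G ⧸ Cfsg.oddCore G) = ⊥ :=
    Cfsg.Agent.Lib.Helper14.pPrimeCore_quotient_pPrimeCore
  have hsX : Group.IsSolvable (G ⧸ Cfsg.oddCore G) := inferInstance
  have hC := Cfsg.Agent.Lib.Helper11.centralizer_pCore_le (p := 2) hO inferInstance
  exact Cfsg.Agent.Lib.Helper92.G23.main_X hC (Cfsg.Agent.Lib.Helper55.pCore_normal' 2 _)
    (Cfsg.Agent.Lib.Helper55.pCore_isPGroup 2 _)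
    (fun P₁ P₂ hne A h1 h2 h3 h4 =>
      Cfsg.Agent.Lib.Helper92.G23.lift_rank hI P₁ P₂ hne A h1 h2 h3 h4)

end Cfsg.Agent.S3304
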