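import Cfsg.Statements.S3315
import Cfsg.Agent.Lib.Helper65.SU3Sylow
import Cfsg.Agent.Lib.Helper65.SU3Aut

set_option autoImplicit false
open Cfsg

namespace Cfsg.Agent.S3315

/-- Let S be a Sylow 2-subgroup of SU₃(2ⁿ), n ≥ 2 (realised over the field with 4ⁿ elements). If a finite 2-group R contains a subgroup S' of index 2 isomorphic to S, then the centre of S' is contained in the centre of R. -/
theorem result {R : Type*} [Group R] [Finite R]
    (hR : IsPGroup 2 R) (n : ℕ) (hn : 2 ≤ n) {F : Type*} [Field F] [Fintype F] (hF : Fintype.card F = 4 ^ n)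
    (P : Sylow 2 ↥(Cfsg.SU 3 F (2 ^ n))) (S' : Subgroup R) (hS : Nonempty (↥S' ≃* ↥(P : Subgroup ↥(Cfsg.SU 3 F (2 ^ n)))))
    (hidx : S'.index = 2) :
    (Subgroup.center ↥S').map S'.subtype ≤ Subgroup.center R := by
  have hK : Fintype.card F = (2 ^ n) ^ 2 := by
    rw [hF, ← pow_mul, mul_comm, pow_mul]; norm_num
  obtain ⟨C0⟩ := Cfsg.Agent.Lib.Helper65.SU3E.exists_coord_SU hK n rfl P
  obtain ⟨e⟩ := hS
  let C := C0.congr e
  have h2 := Cfsg.Agent.Lib.Helper65.SU3E.two_eq_zero_of hK n rfl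
  have hnorm : S'.Normal := Subgroup.normal_of_index_eq_two hidx
  rintro _ ⟨z, hz, rfl⟩
  rw [Subgroup.mem_center_iff]
  intro t
  let τ : ↥S' ≃* ↥S' := MulAut.conjNormal t
  have hτv : ∀ g : ↥S', ((τ g : ↥S') : R) = t * g.1 * t⁻¹ := fun g => MulAut.conjNormal_apply t g
  have hτ : ∀ g, C.fa (τ (τ g)) = C.fa g := by
    intro g
    have hs : t ^ 2 ∈ S' := Subgroup.sq_mem_of_index_two hidx t
    have h3 : τ (τ g) = ⟨t ^ 2, hs⟩ * g * (⟨t ^ 2, hs⟩ : ↥S')⁻¹ := by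
      apply Subtype.ext
      rw [hτv, hτv]
      simp only [Subgroup.coe_mul, Subgroup.coe_inv, pow_two, mul_inv_rev, mul_assoc]
    rw [h3, C.fa_mul, C.fa_mul, C.fa_inv]
    ring
  have h4 := C.aut_fix_center hK h2 τ hτ z hz
  have h5 : t * z.1 * t⁻¹ = z.1 := by
    rw [← hτv, h4]
  change t * z.1 = z.1 * t
  calc t * z.1 = (t * z.1 * t⁻¹) * t := by group
    _ = z.1 * t := by rw [h5]

end Cfsg.Agent.S3315
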