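import Cfsg.Statements.S3349
import Mathlib

set_option autoImplicit false
open Cfsg

namespace Cfsg.Agent.S3349

open scoped commutatorElement

/-- Let Q be a finite extraspecial p-group and α an automorphism of Q fixing every element of some maximal abelian subgroup of Q. Then the order of α is a power of p. -/
theorem result {Q : Type*} [Group Q] [Finite Q]
    (p : ℕ) [Fact p.Prime] (hQ : Cfsg.IsExtraspecial p Q) (α : MulAut Q)
    (A : Subgroup Q) (hA : IsMulCommutative A) (hmax : ∀ B : Subgroup Q, A ≤ B → IsMulCommutative B → B = A)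
    (hfix : ∀ a ∈ A, α a = a) :
    ∃ k : ℕ, orderOf α = p ^ k := by
  obtain ⟨⟨hp, _, hcomm⟩, _⟩ := hQ
  have hAc : ∀ a ∈ A, ∀ b ∈ A, a * b = b * a := fun a ha b hb =>
    setLike_mul_comm ha hb
  have hcent : ∀ c : Q, (∀ a ∈ A, c * a = a * c) → c ∈ A := by
    intro c hc
    have hB : IsMulCommutative (Subgroup.closure ((A : Set Q) ∪ {c})) := by
      apply Subgroup.isMulCommutative_closure
      rintro x (hx | hx) y (hy | hy)
      · exact hAc x hx y hy
      · rw [Set.mem_singleton_iff.mp hy]; exact (hc x hx).symm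
      · rw [Set.mem_singleton_iff.mp hx]; exact hc y hy
      · rw [Set.mem_singleton_iff.mp hx, Set.mem_singleton_iff.mp hy]
    have hle : A ≤ Subgroup.closure ((A : Set Q) ∪ {c}) := fun a ha =>
      Subgroup.subset_closure (Or.inl ha)
    have := hmax _ hle hB
    rw [← this]
    exact Subgroup.subset_closure (Or.inr rfl)
  have hZ : Subgroup.center Q ≤ A := fun z hz => hcent z fun a _ =>
    ((Subgroup.mem_center_iff.mp hz) a).symm
  have hconj : ∀ x : Q, ∀ a ∈ A, x⁻¹ * a * x ∈ A := by
    intro x a ha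
    have h1 : ⁅x⁻¹, a⁆ ∈ commutator Q :=
      Subgroup.commutator_mem_commutator (Subgroup.mem_top _) (Subgroup.mem_top _)
    rw [hcomm] at h1
    have h2 := A.mul_mem (hZ h1) ha
    have h3 : ⁅x⁻¹, a⁆ * a = x⁻¹ * a * x := by
      simp [commutatorElement_def]
    rwa [h3] at h2
  have hb : ∀ x : Q, α x * x⁻¹ ∈ A := by
    intro x
    apply hcent
    intro a ha
    have h1 := hfix _ (hconj x a ha)
    rw [map_mul, map_mul, map_inv, hfix a ha] at h1
    have h2 : a * α x = α x * (x⁻¹ * a * x) := by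
      rw [← h1]; group
    calc α x * x⁻¹ * a = α x * (x⁻¹ * a * x) * x⁻¹ := by group
      _ = a * α x * x⁻¹ := by rw [← h2]
      _ = a * (α x * x⁻¹) := by group
  have hpow : ∀ (n : ℕ) (x : Q), (α ^ n) x = (α x * x⁻¹) ^ n * x := by
    intro n x
    induction n with
    | zero => simp
    | succ n ih =>
      rw [pow_succ', MulAut.mul_apply, ih, map_mul, hfix _ (A.pow_mem (hb x) n), pow_succ]
      group
  have hone : α ^ (Nat.card Q) = 1 := by
    ext x
    rw [hpow, pow_card_eq_one']
    simp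
  obtain ⟨m, hm⟩ := hp.exists_card_eq
  have hdvd : orderOf α ∣ p ^ m := by
    rw [← hm]; exact orderOf_dvd_of_pow_eq_one hone
  obtain ⟨k, _, hk⟩ := (Nat.dvd_prime_pow (Fact.out)).mp hdvd
  exact ⟨k, hk⟩

end Cfsg.Agent.S3349
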