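import Cfsg.Statements.S3370
import Cfsg.Agent.S3381
import Cfsg.Agent.S3224
import Cfsg.Agent.Lib.Helper59.TwoGroupUniq
import Cfsg.Agent.Lib.Helper59.TwoGroupRecog

set_option autoImplicit false
set_option linter.unusedSectionVars false
open Cfsg

namespace Cfsg.Agent.S3370

theorem two_adic (x y : ℤ) (hxy : 2 ∣ x - y) (hx : ¬ 2 ∣ x) (n : ℕ) (hn : ¬ (2:ℤ) ∣ (n:ℤ)) (m : ℕ)
    (h : (2:ℤ)^m ∣ x^n - y^n) : (2:ℤ)^m ∣ x - y := by
  rw [pow_dvd_iff_le_emultiplicity] at h ⊢
  rwa [emultiplicity_pow_sub_pow_of_prime Int.prime_two hxy hx hn] at h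

theorem mersenne_pow {n p k : ℕ} (hp : p.Prime) (hn : 2 ≤ n) (h : 2^n = p^k + 1) : k = 1 := by
  have h4 : 4 ∣ 2^n := by
    obtain ⟨m, rfl⟩ := Nat.exists_eq_add_of_le hn
    rw [pow_add]; exact Dvd.intro _ rfl
  have hpodd : Odd p := by
    rcases hp.eq_two_or_odd' with rfl | h'
    · exfalso
      rcases k with _ | k
      · simp at h; omega
      · rw [pow_succ] at h; omega
    · exact h'
  rcases Nat.even_or_odd k with ⟨j, rfl⟩ | hk
  · exfalso
    have h1 : Odd (p^j) := hpodd.pow
    have h2 : (p^j)^2 % 4 = 1 := by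
      obtain ⟨b, hb⟩ := h1
      rw [hb]
      have : (2 * b + 1)^2 = 4 * (b * b + b) + 1 := by ring
      omega
    rw [← two_mul, mul_comm, pow_mul] at h
    omega
  · have hd : (2:ℤ)^n ∣ (p:ℤ) - (-1) := by
      apply two_adic (p:ℤ) (-1) _ _ k _ n
      · rw [hk.neg_one_pow]
        have : ((2^n : ℕ) : ℤ) = ((p^k + 1 : ℕ) : ℤ) := by rw [h]
        push_cast at this
        rw [this]; simp
      · obtain ⟨a, rfl⟩ := hpodd
        exact ⟨a + 1, by push_cast; ring⟩
      · obtain ⟨a, rfl⟩ := hpodd
        push_cast; omega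
      · obtain ⟨a, rfl⟩ := hk
        push_cast; omega
    have hd' : 2^n ∣ p + 1 := by
      have : ((2^n : ℕ) : ℤ) ∣ ((p + 1 : ℕ) : ℤ) := by push_cast; simpa using hd
      exact Int.natCast_dvd_natCast.1 this
    have hle := Nat.le_of_dvd (by omega) hd'
    have hle2 : p^k ≤ p^1 := by rw [pow_one]; omega
    have := (Nat.pow_le_pow_iff_right hp.one_lt).1 hle2
    obtain ⟨a, rfl⟩ := hk
    omega

theorem fermat_pow {q n k : ℕ} (hq : q.Prime) (hq2 : q ≠ 2) (hn : 1 ≤ n) (h : q^n = 2^k + 1) :
    n = 1 ∨ (q = 3 ∧ n = 2) := by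
  have hqodd : Odd q := hq.eq_two_or_odd'.resolve_left hq2
  rcases Nat.even_or_odd n with ⟨m, rfl⟩ | hk
  · right
    have hm : 1 ≤ m := by omega
    set a := q^m with ha
    have ha1 : 2 ≤ a := by
      calc 2 ≤ q := hq.two_le
        _ = q^1 := (pow_one q).symm
        _ ≤ q^m := Nat.pow_le_pow_right hq.pos hm
    have h1 : (a - 1) * (a + 1) = 2^k := by
      have : a * a = 2^k + 1 := by rw [← h, ha, ← pow_add]
      obtain ⟨b, hb⟩ : ∃ b, a = b + 1 := ⟨a - 1, by omega⟩
      rw [hb] at this ⊢
      simp only [Nat.add_sub_cancel]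
      nlinarith
    obtain ⟨i, -, hi⟩ := (Nat.dvd_prime_pow Nat.prime_two).1 (Dvd.intro _ h1)
    obtain ⟨j, -, hj⟩ := (Nat.dvd_prime_pow Nat.prime_two).1 (Dvd.intro_left _ h1)
    have h2 : 2^j = 2^i + 2 := by omega
    have hi1 : i = 1 := by
      rcases i with _ | _ | i
      · exfalso
        have : a = 2 := by simp at hi; omega
        have h3 : q ∣ 2 := by rw [← this, ha]; exact dvd_pow_self q (by omega)
        exact hq2 ((Nat.prime_dvd_prime_iff_eq hq Nat.prime_two).1 h3)
      · rfl
      · exfalso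
        rcases j with _ | _ | j
        · simp at h2
        · simp at h2
        · rw [pow_succ, pow_succ] at h2
          rw [pow_succ (n := i + 1), pow_succ (n := i)] at h2
          omega
    subst hi1
    have ha3 : a = 3 := by simp at hi; omega
    have h3 : q ∣ 3 := by rw [← ha3, ha]; exact dvd_pow_self q (by omega)
    have hq3 : q = 3 := (Nat.prime_dvd_prime_iff_eq hq Nat.prime_three).1 h3
    refine ⟨hq3, ?_⟩
    rw [hq3] at ha
    have : 3^m = 3^1 := by rw [← ha, ha3]; rfl
    have := Nat.pow_right_injective (le_refl 2 |>.trans (by norm_num : 2 ≤ 3)) this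
    omega
  · left
    have hd : (2:ℤ)^k ∣ (q:ℤ) - 1 := by
      apply two_adic (q:ℤ) 1 _ _ n _ k
      · rw [one_pow]
        have : ((q^n : ℕ) : ℤ) = ((2^k + 1 : ℕ) : ℤ) := by rw [h]
        push_cast at this
        rw [this]; simp
      · obtain ⟨a, rfl⟩ := hqodd
        exact ⟨a, by push_cast; ring⟩
      · obtain ⟨a, rfl⟩ := hqodd
        push_cast; omega
      · obtain ⟨a, rfl⟩ := hk
        push_cast; omega
    have hd' : 2^k ∣ q - 1 := by
      have : ((2^k : ℕ) : ℤ) ∣ ((q - 1 : ℕ) : ℤ) := by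
        rw [Nat.cast_sub hq.one_le]; push_cast; exact hd
      exact Int.natCast_dvd_natCast.1 this
    have hle := Nat.le_of_dvd (by have := hq.two_le; omega) hd'
    have hle2 : q^n ≤ q^1 := by rw [pow_one]; omega
    have := (Nat.pow_le_pow_iff_right hq.one_lt).1 hle2
    omega

section
variable {q : ℕ} [Fact q.Prime] {V : Type*} [AddCommGroup V] [Module (ZMod q) V] [Finite V]
  {G : Type*} [Group G] [Finite G] (ρ : G →* (V ≃ₗ[ZMod q] V))

open Cfsg.Agent.S3381 (rmul rone)

/-- stabiliser of a vector -/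
def stb (v : V) : Subgroup G where
  carrier := {g | ρ g v = v}
  mul_mem' := by
    intro a b ha hb
    simp only [Set.mem_ofPred_eq] at *
    rw [rmul, hb, ha]
  one_mem' := rone ρ v
  inv_mem' := by
    intro a ha
    simp only [Set.mem_ofPred_eq] at *
    have : ρ a⁻¹ (ρ a v) = v := by rw [← rmul]; simp
    rwa [ha] at this

theorem mem_stb (v : V) (g : G) : g ∈ stb ρ v ↔ ρ g v = v := Iff.rfl

theorem index_stb (htrans : ∀ v w : V, v ≠ 0 → w ≠ 0 → ∃ g : G, ρ g v = w) {v : V} (hv : v ≠ 0) :
    (stb ρ v).index = Nat.card V - 1 := by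
  let _ : MulAction G V := MulAction.compHom V ρ
  have hs : stb ρ v = MulAction.stabilizer G v := by ext g; rfl
  rw [hs, MulAction.index_stabilizer]
  have ho : MulAction.orbit G v = {w | w ≠ 0} := by
    ext w; constructor
    · rintro ⟨g, rfl⟩
      show ρ g v ≠ 0
      simpa using hv
    · intro hw
      obtain ⟨g, hg⟩ := htrans v w hv hw
      exact ⟨g, hg⟩
  rw [ho, ← Nat.card_coe_set_eq]
  exact Cfsg.Agent.S3381.card_ne 0

theorem eq_one_of_fix (hρ : Function.Injective ρ) {g : G} (h : ∀ w : V, w ≠ 0 → ρ g w = w) : g = 1 := by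
  apply hρ; rw [map_one]; ext w
  by_cases hw : w = 0
  · simp [hw]
  · exact h w hw

theorem card_eq_of_index_prime (hρ : Function.Injective ρ)
    (htrans : ∀ v w : V, v ≠ 0 → w ≠ 0 → ∃ g : G, ρ g v = w) (p : ℕ) [Fact p.Prime]
    (hG : IsPGroup p G) [Nontrivial G] {v : V} (hv : v ≠ 0) (hi : (stb ρ v).index = p) :
    Nat.card G = p := by
  have hnorm : (stb ρ v).Normal := by
    apply Subgroup.normal_of_index_eq_minFac_card
    obtain ⟨m, hm⟩ := IsPGroup.iff_card.1 hG
    rw [hi, hm, Nat.Prime.pow_minFac Fact.out]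
    rintro rfl
    have := Finite.one_lt_card (α := G)
    rw [pow_zero] at hm
    omega
  have hbot : stb ρ v = ⊥ := by
    rw [eq_bot_iff]; intro h hh
    rw [Subgroup.mem_bot]
    apply eq_one_of_fix ρ hρ
    intro w hw
    obtain ⟨g, rfl⟩ := htrans v w hv hw
    have h1 : g⁻¹ * h * g ∈ stb ρ v := by
      have := hnorm.conj_mem h hh g⁻¹
      simpa using this
    rw [mem_stb, rmul, rmul] at h1
    have h2 := congrArg (ρ g) h1
    rw [← rmul] at h2
    simpa [rone] using h2
  rw [← hi, hbot, Subgroup.index_bot]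

theorem cyclic_of_dim_one (hρ : Function.Injective ρ) {v : V} (hv : v ≠ 0)
    (h1 : ∀ w : V, ∃ c : ZMod q, c • v = w) : IsCyclic G := by
  choose c hc using h1
  have inj : ∀ a b : ZMod q, a • v = b • v → a = b := fun a b h => smul_left_injective _ hv h
  let f : G →* ZMod q :=
    { toFun := fun g => c (ρ g v)
      map_one' := by apply inj; rw [hc, rone, one_smul]
      map_mul' := by
        intro g h; apply inj
        rw [hc, rmul, mul_comm, mul_smul, hc, ← map_smul, hc] }
  apply isCyclic_of_injective_ringHom f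
  intro g h hgh
  apply hρ; ext w
  have hgh' : c (ρ g v) = c (ρ h v) := hgh
  rw [← hc w, map_smul, map_smul, ← hc (ρ g v), ← hc (ρ h v), hgh']

theorem stb_bot_of_dim_one (hρ : Function.Injective ρ) {v : V}
    (h1 : ∀ w : V, ∃ c : ZMod q, c • v = w) : stb ρ v = ⊥ := by
  rw [eq_bot_iff]; intro h hh
  rw [Subgroup.mem_bot]
  apply eq_one_of_fix ρ hρ
  intro w _
  obtain ⟨c, rfl⟩ := h1 w
  rw [map_smul, (mem_stb ρ v h).1 hh]

end

theorem card_gl9 {V : Type*} [AddCommGroup V] [Module (ZMod 3) V] [Finite V]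
    (h : Module.finrank (ZMod 3) V = 2) : Nat.card (V ≃ₗ[ZMod 3] V) = 48 := by
  let b := Module.finBasisOfFinrankEq (ZMod 3) V h
  have e1 : (V ≃ₗ[ZMod 3] V) ≃* (Module.End (ZMod 3) V)ˣ :=
    (LinearMap.GeneralLinearGroup.generalLinearEquiv (ZMod 3) V).symm
  have e2 : (Module.End (ZMod 3) V)ˣ ≃* (Matrix (Fin 2) (Fin 2) (ZMod 3))ˣ :=
    Units.mapEquiv (algEquivMatrix b).toMulEquiv
  rw [Nat.card_congr e1.toEquiv, Nat.card_congr e2.toEquiv]
  have := Matrix.card_GL_field (𝔽 := ZMod 3) 2
  rw [this]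
  simp [Fin.prod_univ_two]

section
variable {V : Type*} [AddCommGroup V] [Module (ZMod 3) V] [Finite V]
  {G : Type*} [Group G] [Finite G] (ρ : G →* (V ≃ₗ[ZMod 3] V))

open Cfsg.Agent.S3381 (rmul rone)

theorem case8 (hρ : Function.Injective ρ) (hG : IsPGroup 2 G)
    (hst : ∀ w : V, w ≠ 0 → ∀ g : G, ρ g w = w → g = 1) (hcard : Nat.card G = 8) :
    IsCyclic G ∨ Nonempty (G ≃* QuaternionGroup 2) := by
  have hneg : ∀ x : G, orderOf x = 2 → ∀ w, ρ x w = -w := by
    intro x hx w
    have hx2 : x * x = 1 := by rw [← pow_two, ← hx]; exact pow_orderOf_eq_one x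
    by_contra hne
    have h0 : ρ x w + w ≠ 0 := fun h => hne (eq_neg_of_add_eq_zero_left h)
    have : x = 1 := hst _ h0 x (by rw [map_add, ← rmul, hx2, rone, add_comm])
    rw [this] at hx; simp at hx
  have huniq : ∀ x y : G, orderOf x = 2 → orderOf y = 2 → x = y := by
    intro x y hx hy; apply hρ; ext w; rw [hneg x hx, hneg y hy]
  rcases Cfsg.Agent.Lib.Helper59.two_group_unique_involution hG huniq with
    h | ⟨k, a, b, ha, hc, hb, hbb, hba⟩
  · left; exact h
  · right
    have hk : k = 0 := by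
      rw [hcard] at hc
      by_contra hk
      have : 2 ≤ 2 ^ k := by
        calc 2 = 2 ^ 1 := rfl
          _ ≤ 2 ^ k := Nat.pow_le_pow_right (by norm_num) (by omega)
      omega
    subst hk
    exact Cfsg.Agent.Lib.Helper59.quaternion_recog 2 (by norm_num) a b (by simpa using ha)
      (by simpa using hbb) hba hb (by rw [hcard])

open Cfsg.Agent.S3381 (fx) in
theorem case16 (hρ : Function.Injective ρ) (hG : IsPGroup 2 G)
    (hfr : Module.finrank (ZMod 3) V = 2)
    (hst : ∀ w : V, w ≠ 0 → Nat.card {g : G // ρ g w = w} = 2) (hcard : Nat.card G = 16) :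
    Cfsg.IsQuasiDihedral G := by
  have : Fact (Nat.Prime 2) := ⟨Nat.prime_two⟩
  have : Nontrivial G := Finite.one_lt_card_iff_nontrivial.1 (by rw [hcard]; norm_num)
  have : Nontrivial V := Module.nontrivial_of_finrank_pos (R := ZMod 3) (by rw [hfr]; norm_num)
  obtain ⟨z, hzc, hz⟩ : ∃ z ∈ Subgroup.center G, orderOf z = 2 := by
    have := hG.center_nontrivial
    have h2 : 2 ∣ Nat.card (Subgroup.center G) := by
      obtain ⟨m, hm⟩ := IsPGroup.iff_card.1 (hG.to_subgroup (Subgroup.center G))
      rw [hm]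
      have : m ≠ 0 := by
        rintro rfl
        have := Finite.one_lt_card (α := Subgroup.center G)
        rw [pow_zero] at hm
        omega
      exact dvd_pow_self 2 this
    obtain ⟨x, hx⟩ := exists_prime_orderOf_dvd_card' 2 h2
    exact ⟨x.1, x.2, by rwa [Subgroup.orderOf_coe]⟩
  have hz1 : z ≠ 1 := by rintro rfl; simp at hz
  have hz2 : z * z = 1 := by rw [← pow_two, ← hz]; exact pow_orderOf_eq_one z
  have hzn := Cfsg.Agent.S3381.central_neg ρ hst hρ hzc hz1 hz2
  obtain ⟨v, hv⟩ := exists_ne (0:V)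
  obtain ⟨t, ht1, htv⟩ := Cfsg.Agent.S3381.exi ρ hst hv
  have ht2 := Cfsg.Agent.S3381.sq_one ρ hst hv ht1 htv
  have hto : orderOf t = 2 := orderOf_eq_prime (by rw [pow_two]; exact ht2) ht1
  have hfx : Module.finrank (ZMod 3) (fx ρ t) = 1 := by
    have hlt : Module.finrank (ZMod 3) (fx ρ t) < Module.finrank (ZMod 3) V :=
      Submodule.finrank_lt (by
        intro htop
        apply ht1; apply hρ; rw [map_one]; ext w
        have : w ∈ fx ρ t := by rw [htop]; trivial
        exact this)
    have hpos : 0 < Module.finrank (ZMod 3) (fx ρ t) := by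
      have : Nontrivial (fx ρ t) := ⟨⟨⟨v, htv⟩, 0, fun h => hv (congrArg Subtype.val h)⟩⟩
      exact Module.finrank_pos
    omega
  have hspan : ∀ w : V, ρ t w = w → ∃ c : ZMod 3, c • v = w := by
    intro w hw
    obtain ⟨c, hc⟩ := (finrank_eq_one_iff_of_nonzero' (⟨v, htv⟩ : fx ρ t)
      (fun h => hv (congrArg Subtype.val h))).1 hfx ⟨w, hw⟩
    exact ⟨c, congrArg Subtype.val hc⟩
  have hC : ∀ c : G, c * t = t * c → c = 1 ∨ c = t ∨ c = z ∨ c = z * t := by
    intro c hc
    have h1 : ρ t (ρ c v) = ρ c v := by rw [← rmul, ← hc, rmul, htv]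
    obtain ⟨a, ha⟩ := hspan _ h1
    have ha3 : a = 0 ∨ a = 1 ∨ a = -1 := (by decide : ∀ a : ZMod 3, a = 0 ∨ a = 1 ∨ a = -1) a
    rcases ha3 with rfl | rfl | rfl
    · exfalso
      rw [zero_smul] at ha
      exact hv (by simpa using ha.symm)
    · rw [one_smul] at ha
      by_cases hc1 : c = 1
      · left; exact hc1
      · right; left; exact Cfsg.Agent.S3381.uniq ρ hst hv ha.symm htv hc1 ht1
    · have h2 : ρ (z * c) v = v := by rw [rmul, ← ha, hzn]; simp
      by_cases hc1 : z * c = 1
      · right; right; left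
        calc c = (z * z) * c := by rw [hz2, one_mul]
          _ = z := by rw [mul_assoc, hc1, mul_one]
      · right; right; right
        have := Cfsg.Agent.S3381.uniq ρ hst hv h2 htv hc1 ht1
        calc c = (z * z) * c := by rw [hz2, one_mul]
          _ = z * t := by rw [mul_assoc, this]
  have htz : t ≠ z := by
    intro h
    have h1 : v = -v := by rw [← hzn v, ← h, htv]
    have h2 : (2 : ZMod 3) • v = 0 := by
      rw [two_smul]; nth_rewrite 2 [h1]; simp
    rcases smul_eq_zero.1 h2 with h | h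
    · exact absurd h (by decide)
    · exact hv h
  have hzcomm : ∀ g : G, g * z = z * g := fun g => Subgroup.mem_center_iff.1 hzc g
  have hcardC : Nat.card (Subgroup.centralizer ({t} : Set G)) = 4 := by
    classical
    have hset : ((Subgroup.centralizer ({t} : Set G) : Subgroup G) : Set G)
        = (({1, t, z, z * t} : Finset G) : Set G) := by
      ext c
      simp only [SetLike.mem_coe, Subgroup.mem_centralizer_singleton_iff, Finset.coe_insert,
        Finset.coe_singleton, Set.mem_insert_iff, Set.mem_singleton_iff]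
      constructor
      · intro h; exact hC c h
      · rintro (rfl | rfl | rfl | rfl)
        · simp
        · rfl
        · exact (hzcomm t).symm
        · rw [mul_assoc, ← mul_assoc t z t, hzcomm t, mul_assoc]
    have h1 : Nat.card (Subgroup.centralizer ({t} : Set G))
        = ((Subgroup.centralizer ({t} : Set G) : Subgroup G) : Set G).ncard :=
      Nat.card_coe_set_eq _
    rw [h1, hset, Set.ncard_coe_finset]
    rw [Finset.card_insert_of_notMem, Finset.card_insert_of_notMem, Finset.card_insert_of_notMem,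
      Finset.card_singleton]
    · simp [ht1]
    · simp only [Finset.mem_insert, Finset.mem_singleton, not_or]
      refine ⟨htz, ?_⟩
      intro h
      apply hz1
      have := congrArg (· * t) h
      simp only [ht2, mul_assoc, mul_one] at this
      exact this.symm
    · simp only [Finset.mem_insert, Finset.mem_singleton, not_or]
      refine ⟨ht1.symm, hz1.symm, ?_⟩
      intro h
      apply htz
      have := congrArg (z * ·) h
      simp only [← mul_assoc, hz2, mul_one, one_mul] at this
      exact this.symm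
  obtain ⟨r, hr1, hr2⟩ := Cfsg.Agent.S3381.result 3 ρ hρ hst z hz hzc
  have hr : r = 1 := by
    rw [Module.natCard_eq_pow_finrank (K := ZMod 3), Nat.card_zmod, hfr] at hr1
    have := Nat.pow_right_injective (le_refl 2 |>.trans (by norm_num : 2 ≤ 3)) hr1
    omega
  subst hr
  rcases Cfsg.Agent.S3224.result hG t hto hcardC with ⟨n, ⟨e⟩⟩ | h | h
  · exfalso
    have hn : n = 8 := by
      have := Nat.card_congr e.toEquiv
      rw [hcard, DihedralGroup.nat_card] at this
      omega
    subst hn
    have hle : Nat.card (ZMod 8) ≤ Nat.card {g : G // orderOf g = 2 ∧ g ∉ Subgroup.center G} := by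
      apply Nat.card_le_card_of_injective (fun i : ZMod 8 =>
        (⟨e.symm (DihedralGroup.sr i), by
          rw [MulEquiv.orderOf_eq e.symm]; exact DihedralGroup.orderOf_sr i, by
          intro hmem
          have h1 := Subgroup.mem_center_iff.1 hmem (e.symm (DihedralGroup.r 1))
          rw [← map_mul, ← map_mul] at h1
          have h2 := e.symm.injective h1
          simp only [DihedralGroup.r_mul_sr, DihedralGroup.sr_mul_r, DihedralGroup.sr.injEq] at h2
          exact (by decide : ∀ i : ZMod 8, i - 1 ≠ i + 1) i h2⟩ : {g : G // orderOf g = 2 ∧ g ∉ Subgroup.center G}))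
      intro i j hij
      have h1 := congrArg Subtype.val hij
      have h2 := e.symm.injective h1
      simpa using h2
    rw [hr2, Nat.card_zmod] at hle
    omega
  · exact h
  · omega

end

/-- Let q be a prime, V a non-trivial finite vector space over the field with q elements, and G a non-trivial finite p-group (p prime) acting faithfully and linearly on V and transitively on the non-zero vectors. Then either q = 2 and G has prime order p = |V| − 1; or p = 2, V has q elements with q = 2^m + 1 and G is cyclic of order 2^m; or p = 2, q = 3, V has 9 elements and G is cyclic of order 8, quaternion of order 8, or semidihedral of order 16. -/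
theorem result (q : ℕ) [Fact q.Prime] {V : Type*} [AddCommGroup V] [Module (ZMod q) V] [Finite V] [Nontrivial V]
    {G : Type*} [Group G] [Finite G] [Nontrivial G] (p : ℕ) [Fact p.Prime] (hG : IsPGroup p G)
    (ρ : G →* (V ≃ₗ[ZMod q] V)) (hρ : Function.Injective ρ)
    (htrans : ∀ v w : V, v ≠ 0 → w ≠ 0 → ∃ g : G, ρ g v = w) :
    (q = 2 ∧ p = Nat.card V - 1 ∧ Nat.card G = p) ∨
    (p = 2 ∧ Nat.card V = q ∧ (∃ m : ℕ, q = 2 ^ m + 1 ∧ Nat.card G = 2 ^ m) ∧ IsCyclic G) ∨
    (p = 2 ∧ q = 3 ∧ Nat.card V = 9 ∧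
      ((IsCyclic G ∧ Nat.card G = 8) ∨ Nonempty (G ≃* QuaternionGroup 2) ∨ (Cfsg.IsQuasiDihedral G ∧ Nat.card G = 16))) := by
  have hp : p.Prime := Fact.out
  have hq : q.Prime := Fact.out
  obtain ⟨v, hv⟩ := exists_ne (0 : V)
  have hidx : ∀ w : V, w ≠ 0 → (stb ρ w).index = Nat.card V - 1 :=
    fun w hw => index_stb ρ htrans hw
  obtain ⟨k, hk⟩ := hG.index (stb ρ v)
  have hcV : Nat.card V = q ^ (Module.finrank (ZMod q) V) := by
    rw [Module.natCard_eq_pow_finrank (K := ZMod q), Nat.card_zmod]
  have hn : 1 ≤ Module.finrank (ZMod q) V := Module.finrank_pos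
  generalize hnn : Module.finrank (ZMod q) V = n at hcV hn
  have hV1 : 1 < Nat.card V := Finite.one_lt_card
  have hN : q ^ n = p ^ k + 1 := by
    rw [← hcV, ← hk, hidx v hv]; omega
  have hk0 : k ≠ 0 := by
    rintro rfl
    obtain ⟨g, hg⟩ := exists_ne (1 : G)
    apply hg
    apply eq_one_of_fix ρ hρ
    intro w hw
    have h1 : (stb ρ w).index = 1 := by rw [hidx w hw, ← hidx v hv, hk, pow_zero]
    rw [Subgroup.index_eq_one] at h1
    have : g ∈ stb ρ w := by rw [h1]; trivial
    exact this
  have hpk : 2 ≤ p ^ k := by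
    calc 2 ≤ p := hp.two_le
      _ = p ^ 1 := (pow_one p).symm
      _ ≤ p ^ k := Nat.pow_le_pow_right hp.pos (by omega)
  by_cases hq2 : q = 2
  · left
    have hn2 : 2 ≤ n := by
      by_contra h
      have : n = 1 := by omega
      subst this
      rw [hq2, pow_one] at hN
      omega
    rw [hq2] at hN
    have hk1 := mersenne_pow hp hn2 hN
    subst hk1
    rw [pow_one] at hk
    refine ⟨hq2, ?_, card_eq_of_index_prime ρ hρ htrans p hG hv hk⟩
    rw [← hk, hidx v hv]
  · right
    have hp2 : p = 2 := by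
      have hqodd : Odd q := hq.eq_two_or_odd'.resolve_left hq2
      have h1 : Odd (q ^ n) := hqodd.pow
      rw [hN] at h1
      have h2 : Even (p ^ k) := by
        rcases Nat.even_or_odd (p ^ k) with h | h
        · exact h
        · exfalso
          exact (Nat.not_even_iff_odd.2 h1) h.add_one
      exact (Nat.Prime.even_iff hp).1 (Nat.even_pow.1 h2).1
    subst hp2
    rcases fermat_pow hq hq2 hn hN with rfl | ⟨rfl, rfl⟩
    · left
      rw [pow_one] at hcV hN
      have h1 := (finrank_eq_one_iff_of_nonzero' v hv).1 hnn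
      have hb := stb_bot_of_dim_one ρ hρ h1
      refine ⟨rfl, hcV, ⟨k, hN, ?_⟩, cyclic_of_dim_one ρ hρ hv h1⟩
      rw [← hk, hb, Subgroup.index_bot]
    · right
      have h9 : Nat.card V = 9 := by rw [hcV]; norm_num
      have hi8 : ∀ w : V, w ≠ 0 → (stb ρ w).index = 8 := by
        intro w hw; rw [hidx w hw, h9]
      have hd : Nat.card G ∣ 48 := by
        rw [← card_gl9 hnn]; exact Subgroup.card_dvd_of_injective ρ hρ
      have hmul : ∀ w : V, w ≠ 0 → Nat.card (stb ρ w) * 8 = Nat.card G := by
        intro w hw; rw [← hi8 w hw]; exact (stb ρ w).card_mul_index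
      obtain ⟨j, hj⟩ := IsPGroup.iff_card.1 (hG.to_subgroup (stb ρ v))
      refine ⟨rfl, rfl, h9, ?_⟩
      rcases j with _ | _ | j
      · have hc8 : Nat.card G = 8 := by rw [← hmul v hv, hj]; norm_num
        have hst : ∀ w : V, w ≠ 0 → ∀ g : G, ρ g w = w → g = 1 := by
          intro w hw g hg
          have h1 : Nat.card (stb ρ w) = 1 := by have := hmul w hw; omega
          have h2 := Subgroup.eq_bot_of_card_eq _ h1
          have : g ∈ stb ρ w := hg
          rw [h2] at this
          exact this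
        rcases case8 ρ hρ hG hst hc8 with h | h
        · left; exact ⟨h, hc8⟩
        · right; left; exact h
      · have hc16 : Nat.card G = 16 := by rw [← hmul v hv, hj]; norm_num
        right; right
        refine ⟨case16 ρ hρ hG hnn ?_ hc16, hc16⟩
        intro w hw
        have h1 : Nat.card (stb ρ w) = 2 := by have := hmul w hw; omega
        exact h1
      · exfalso
        have h1 := hmul v hv
        rw [hj] at h1
        obtain ⟨c, hc⟩ := hd
        rw [← h1, pow_succ, pow_succ] at hc
        have : 48 = 32 * (2 ^ j * c) := by rw [hc]; ring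
        omega

end Cfsg.Agent.S3370
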