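import Cfsg.Statements.S3376
import Cfsg.Agent.Lib.Helper53.Large
import Cfsg.Agent.Lib.Helper1.Coprime
import Cfsg.Agent.Lib.Helper60.Cores

set_option autoImplicit false
open Cfsg

namespace Cfsg.Agent.S3376

theorem exists_invariant_compl {A : Type*} [CommGroup A] [Finite A] (h3 : ∀ a : A, a ^ 3 = 1)
    (τ : A ≃* A) (hτ : ∀ a, τ (τ a) = a) (Z : Subgroup A) :
    ∃ W : Subgroup A, (∀ w ∈ W, τ w ∈ W) ∧ W ⊓ Z = ⊥ ∧ W ⊔ Z = ⊤ := by
  let P : Subgroup A → Prop := fun W => (∀ w ∈ W, τ w ∈ W) ∧ W ⊓ Z = ⊥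
  have hP0 : P ⊥ := ⟨by
    intro w hw
    rw [Subgroup.mem_bot] at hw ⊢
    rw [hw, map_one], bot_inf_eq _⟩
  obtain ⟨W, hW, hmax⟩ := Set.Finite.exists_maximal (s := {W | P W}) (Set.toFinite _) ⟨⊥, hP0⟩
  refine ⟨W, hW.1, hW.2, ?_⟩
  by_contra hne
  obtain ⟨x, hx⟩ : ∃ x, x ∉ W ⊔ Z := by
    by_contra hcon
    push Not at hcon
    exact hne (eq_top_iff.2 (fun x _ => hcon x))
  have hfour : ∀ a : A, (a ^ 2) ^ 2 = a := by
    intro a
    calc (a ^ 2) ^ 2 = a ^ 3 * a := by rw [← pow_mul, pow_succ a 3]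
      _ = a := by rw [h3, one_mul]
  obtain ⟨y, hyM, hy⟩ : ∃ y, y ∉ W ⊔ Z ∧ (τ y = y ∨ τ y = y⁻¹) := by
    by_cases h1 : x * τ x ∈ W ⊔ Z
    · refine ⟨x * (τ x)⁻¹, ?_, Or.inr ?_⟩
      · intro h2
        apply hx
        have h4 : x ^ 2 ∈ W ⊔ Z := by
          have : x ^ 2 = (x * τ x) * (x * (τ x)⁻¹) := by
            rw [pow_two, mul_mul_mul_comm]; simp
          rw [this]; exact Subgroup.mul_mem _ h1 h2
        rw [← hfour x]
        exact Subgroup.pow_mem _ h4 2
      · rw [map_mul, map_inv, hτ, mul_inv, inv_inv, mul_comm]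
    · exact ⟨x * τ x, h1, Or.inl (by rw [map_mul, hτ, mul_comm])⟩
  have hPW' : P (W ⊔ Subgroup.zpowers y) := by
    constructor
    · intro w hw
      obtain ⟨a, ha, b, hb, rfl⟩ := Subgroup.mem_sup.1 hw
      obtain ⟨k, rfl⟩ := Subgroup.mem_zpowers_iff.1 hb
      rw [map_mul, map_zpow]
      apply Subgroup.mul_mem _ (Subgroup.mem_sup_left (hW.1 a ha))
      apply Subgroup.mem_sup_right
      rcases hy with h | h
      · rw [h]; exact Subgroup.zpow_mem _ (Subgroup.mem_zpowers y) k
      · rw [h]; exact Subgroup.zpow_mem _ (Subgroup.inv_mem _ (Subgroup.mem_zpowers y)) k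
    · rw [eq_bot_iff]
      rintro g ⟨hg1, hg2⟩
      obtain ⟨a, ha, b, hb, rfl⟩ := Subgroup.mem_sup.1 hg1
      obtain ⟨k, rfl⟩ := Subgroup.mem_zpowers_iff.1 hb
      have hyk : y ^ k ∈ W ⊔ Z := by
        have : y ^ k = a⁻¹ * (a * y ^ k) := by group
        rw [this]
        exact Subgroup.mul_mem _ (Subgroup.mem_sup_left (W.inv_mem ha)) (Subgroup.mem_sup_right hg2)
      have hk1 : y ^ k = 1 := by
        have h3' : y ^ (3 : ℤ) = 1 := by exact_mod_cast h3 y
        rw [zpow_eq_zpow_emod k h3'] at hyk ⊢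
        have hlt : k % 3 < 3 := Int.emod_lt_of_pos k (by norm_num)
        have hge : 0 ≤ k % 3 := Int.emod_nonneg k (by norm_num)
        obtain h | h | h : k % 3 = 0 ∨ k % 3 = 1 ∨ k % 3 = 2 := by omega
        · rw [h, zpow_zero]
        · rw [h, zpow_one] at hyk; exact absurd hyk hyM
        · exfalso
          rw [h] at hyk
          apply hyM
          rw [← hfour y]
          have : y ^ (2 : ℤ) = y ^ 2 := by exact_mod_cast rfl
          rw [this] at hyk
          exact Subgroup.pow_mem _ hyk 2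
      rw [hk1, mul_one] at hg2 ⊢
      have : a ∈ W ⊓ Z := ⟨ha, hg2⟩
      rw [hW.2] at this
      exact this
  have hle : W ⊔ Subgroup.zpowers y ≤ W := hmax hPW' le_sup_left
  exact hyM (Subgroup.mem_sup_left (hle (Subgroup.mem_sup_right (Subgroup.mem_zpowers y))))

theorem cycleType_of (σ : Equiv.Perm (Fin 9)) (h3 : σ ^ 3 = 1) (hf : ∀ x, σ x ≠ x) :
    σ.cycleType = Multiset.replicate 3 3 := by
  have h1 : σ ≠ 1 := by
    intro h
    exact hf 0 (by rw [h]; rfl)
  have ho : orderOf σ = 3 := orderOf_eq_prime h3 h1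
  obtain ⟨n, hn⟩ := Equiv.Perm.cycleType_prime_order (σ := σ) (by rw [ho]; norm_num)
  have hs := Equiv.Perm.sum_cycleType σ
  have hsupp : σ.support = Finset.univ := by
    ext x; simp [hf x]
  rw [hn, hsupp, ho, Multiset.sum_replicate, Finset.card_univ, Fintype.card_fin] at hs
  have : n + 1 = 3 := by rw [smul_eq_mul] at hs; omega
  rw [hn, this, ho]

theorem card_cent (c : Equiv.Perm (Fin 9)) (h : c.cycleType = Multiset.replicate 3 3) :
    Nat.card (Subgroup.centralizer {c}) = 162 := by
  rw [Equiv.Perm.nat_card_centralizer, h]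
  simp
  decide

theorem sylow_card {G : Type*} [Group G] [Finite G] (p k m : ℕ) [hp : Fact p.Prime]
    (hcard : Nat.card G = p ^ k * m) (hm : ¬ p ∣ m) (P : Sylow p G) : Nat.card P = p ^ k := by
  have hm0 : m ≠ 0 := by rintro rfl; exact hm (dvd_zero p)
  rw [P.card_eq_multiplicity, hcard, Nat.factorization_mul (pow_ne_zero _ hp.1.ne_zero) hm0]
  simp [hp.1.factorization_self, Nat.factorization_eq_zero_of_not_dvd hm]

theorem eq_of_le_three {G : Type*} [Group G] [Finite G] (K Z : Subgroup G) (hK : K ≤ Z) (hK1 : K ≠ ⊥)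
    (hc : Nat.card Z = 3) : K = Z := by
  have h1 := Subgroup.card_dvd_of_le hK
  rw [hc] at h1
  rcases (Nat.dvd_prime Nat.prime_three).1 h1 with h | h
  · exact absurd (Subgroup.eq_bot_of_card_eq K h) hK1
  · exact Subgroup.eq_of_le_of_card_ge hK (by rw [h, hc])

open Cfsg.Agent.Lib.Helper53 Cfsg.Agent.Lib.Helper1 Cfsg.Agent.Lib.Helper60 in
/-- Let G be a group of order 162 = 3⁴·2 with Sylow 3-subgroup S and Sylow 2-subgroup T, having an elementary abelian normal subgroup J of order 27, such that Z = Z(S) has order 3, Z centralizes T, and C_S(T) ≠ S. Then G is isomorphic to the centralizer in Sym(9) of a product of three disjoint 3-cycles. -/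
theorem result {G : Type*} [Group G] [Finite G] (hG : Nat.card G = 162)
    (S : Sylow 3 G) (T : Sylow 2 G) (J : Subgroup G) [hJn : J.Normal] (hJcomm : IsMulCommutative J)
    (hJexp : ∀ a ∈ J, a ^ 3 = 1) (hJcard : Nat.card J = 27)
    (Z : Subgroup G) (hZ : Z = (S : Subgroup G) ⊓ Subgroup.centralizer ((S : Subgroup G) : Set G)) (hZcard : Nat.card Z = 3)
    (hZT : Z ≤ Subgroup.centralizer ((T : Subgroup G) : Set G))
    (hST : (S : Subgroup G) ⊓ Subgroup.centralizer ((T : Subgroup G) : Set G) ≠ S) :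
    Nonempty (G ≃* Subgroup.centralizer ({Equiv.swap (0 : Fin 9) 1 * Equiv.swap 1 2 * Equiv.swap 3 4 * Equiv.swap 4 5 * Equiv.swap 6 7 * Equiv.swap 7 8} : Set (Equiv.Perm (Fin 9)))) := by
  have : Fact (Nat.Prime 2) := ⟨Nat.prime_two⟩
  have : Fact (Nat.Prime 3) := ⟨Nat.prime_three⟩
  have hS : Nat.card S = 81 := by
    simpa using sylow_card 3 4 2 (by rw [hG]; norm_num) (by norm_num) S
  have hTc : Nat.card T = 2 := by
    simpa using sylow_card 2 1 81 (by rw [hG]; norm_num) (by norm_num) T
  have hSi : (S : Subgroup G).index = 2 := by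
    have := (S : Subgroup G).card_mul_index
    rw [hS, hG] at this; omega
  have hSn : (S : Subgroup G).Normal := Subgroup.normal_of_index_eq_two hSi
  obtain ⟨t, htT, ht1, hTt⟩ : ∃ t ∈ T, t ≠ 1 ∧ ∀ x ∈ T, x = 1 ∨ x = t := by
    obtain ⟨y, hy, huniq⟩ := (Nat.card_eq_two_iff' (1 : T)).1 hTc
    refine ⟨y.1, y.2, fun h => hy (Subtype.ext h), ?_⟩
    intro x hx
    by_cases hx1 : x = 1
    · left; exact hx1
    · right
      exact congrArg Subtype.val (huniq ⟨x, hx⟩ (fun h => hx1 (congrArg Subtype.val h)))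
  have ht2 : t * t = 1 := by
    rcases hTt (t * t) (T.mul_mem htT htT) with h | h
    · exact h
    · exfalso; exact ht1 (by simpa using h)
  have htinv : t⁻¹ = t := inv_eq_of_mul_eq_one_right ht2
  have hJp : IsPGroup 3 J := IsPGroup.of_card (n := 3) (by rw [hJcard]; norm_num)
  have hJS : J ≤ S := normal_le_sylow J hJp S
  have hJ1 : J ≠ ⊥ := by
    intro h; rw [h, Subgroup.card_bot] at hJcard; omega
  have hZJ : Z ≤ J := by
    have h1 := inf_centralizer_ne_bot (A := (S : Subgroup G)) (Y := J) S.isPGroup' hJp hJ1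
      (by rw [Subgroup.normalizer_eq_top]; exact le_top)
    have h2 : J ⊓ Subgroup.centralizer ((S : Subgroup G) : Set G) ≤ Z := by
      rw [hZ]; exact inf_le_inf_right _ hJS
    rw [← eq_of_le_three _ Z h2 h1 hZcard]
    exact inf_le_left
  have hZcen : ∀ z ∈ Z, ∀ g : G, g * z = z * g := by
    have hC : Subgroup.centralizer (Z : Set G) = ⊤ := by
      apply Subgroup.eq_top_of_card_eq
      have h1 : (S : Subgroup G) ≤ Subgroup.centralizer (Z : Set G) := by
        rw [Subgroup.le_centralizer_iff, hZ]; exact inf_le_right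
      have h2 : (T : Subgroup G) ≤ Subgroup.centralizer (Z : Set G) := by
        rw [Subgroup.le_centralizer_iff]; exact hZT
      have d1 := Subgroup.card_dvd_of_le h1
      have d2 := Subgroup.card_dvd_of_le h2
      rw [hS] at d1
      rw [hTc] at d2
      have d3 : 81 * 2 ∣ Nat.card (Subgroup.centralizer (Z : Set G)) :=
        Nat.Coprime.mul_dvd_of_dvd_of_dvd (by norm_num) d1 d2
      have d4 := Subgroup.card_subgroup_dvd_card (Subgroup.centralizer (Z : Set G))
      rw [hG] at d4 ⊢
      exact Nat.dvd_antisymm d4 d3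
    intro z hz g
    have hg : g ∈ Subgroup.centralizer (Z : Set G) := by rw [hC]; trivial
    exact ((Subgroup.mem_centralizer_iff.1 hg) z hz).symm
  let _ : CommGroup J := { (inferInstance : Group J) with mul_comm := fun a b => hJcomm.is_comm.comm a b }
  let τ : J ≃* J := MulAut.conjNormal t
  have hτa : ∀ a : J, ((τ a : J) : G) = t * a * t⁻¹ := fun a => MulAut.conjNormal_apply t a
  have hτ : ∀ a, τ (τ a) = a := by
    intro a
    apply Subtype.ext
    rw [hτa, hτa, htinv]
    calc t * (t * a * t) * t = (t * t) * a * (t * t) := by group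
      _ = a := by rw [ht2]; simp
  obtain ⟨W, hWτ, hWZ, hWsup⟩ := exists_invariant_compl (A := J)
    (fun a => Subtype.ext (by simpa using hJexp a.1 a.2)) τ hτ (Z.subgroupOf J)
  have hW9 : Nat.card W = 9 := by
    have hc : Subgroup.IsComplement' W (Z.subgroupOf J) := by
      apply Subgroup.isComplement'_of_disjoint_and_mul_eq_univ (disjoint_iff.2 hWZ)
      rw [← Subgroup.mul_normal, hWsup]; rfl
    have h1 := hc.card_mul_card
    have h2 : Nat.card (Z.subgroupOf J) = 3 := by
      rw [← hZcard]; exact Nat.card_congr (Subgroup.subgroupOfEquivOfLe hZJ).toEquiv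
    rw [h2, hJcard] at h1
    omega
  let W' : Subgroup G := W.map J.subtype
  have hW'9 : Nat.card W' = 9 := by
    rw [← hW9]; exact Subgroup.card_map_of_injective J.subtype_injective
  have hW'J : W' ≤ J := by
    rintro _ ⟨w, -, rfl⟩; exact w.2
  have hW't : ∀ w ∈ W', t * w * t⁻¹ ∈ W' := by
    rintro _ ⟨w, hw, rfl⟩
    exact ⟨τ w, hWτ w hw, hτa w⟩
  have hW'Z : ∀ x ∈ W', x ∈ Z → x = 1 := by
    rintro _ ⟨w, hw, rfl⟩ hz
    have : w ∈ W ⊓ Z.subgroupOf J := ⟨hw, hz⟩
    rw [hWZ, Subgroup.mem_bot] at this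
    rw [this]; rfl
  have hTN : (T : Subgroup G) ≤ Subgroup.normalizer (W' : Set G) := by
    intro x hx
    rcases hTt x hx with hx1 | hx1
    · rw [hx1]; exact Subgroup.one_mem _
    · rw [hx1, Subgroup.mem_normalizer_iff]
      intro h
      constructor
      · exact hW't h
      · intro hh
        have := hW't _ hh
        rw [htinv] at this
        have e : t * (t * h * t) * t = h := by
          calc t * (t * h * t) * t = (t * t) * h * (t * t) := by group
            _ = h := by rw [ht2]; simp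
        rwa [e] at this
  let H : Subgroup G := (T : Subgroup G) ⊔ W'
  have hH18 : Nat.card H = 18 := by
    have := card_sup_of_coprime_le_normalizer hTN (by rw [hTc, hW'9]; norm_num)
    rw [hTc, hW'9] at this
    exact this
  have hidx : H.index = 9 := by
    have := H.card_mul_index
    rw [hH18, hG] at this; omega
  have htJ : t ∉ J := by
    intro h
    have h3 := hJexp t h
    apply ht1
    calc t = t ^ 3 * (t * t)⁻¹ := by group
      _ = 1 := by rw [h3, ht2]; simp
  have hZH : ∀ z ∈ Z, z ∈ H → z = 1 := by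
    intro z hz hzH
    obtain ⟨x, hx, w, hw, rfl⟩ := (Cfsg.Agent.Lib.Helper1.mem_sup_of_le_normalizer hTN).1 hzH
    rcases hTt x hx with hx1 | hx1
    · rw [hx1, one_mul] at hz ⊢; exact hW'Z w hw hz
    · exfalso
      apply htJ
      have : t = (x * w) * w⁻¹ := by rw [hx1]; group
      rw [this]
      exact J.mul_mem (hZJ hz) (J.inv_mem (hW'J hw))
  obtain ⟨z, hzZ, hz1⟩ : ∃ z ∈ Z, z ≠ 1 := by
    have : Z ≠ ⊥ := by intro h; rw [h, Subgroup.card_bot] at hZcard; omega
    exact (Subgroup.ne_bot_iff_exists_ne_one).1 this |>.elim fun a ha =>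
      ⟨a.1, a.2, fun h => ha (Subtype.ext h)⟩
  have hzH : z ∉ H := fun h => hz1 (hZH z hzZ h)
  have hcore : H.normalCore = ⊥ := by
    by_contra hN
    have hNH : H.normalCore ≤ H := H.normalCore_le
    have hNn : H.normalCore.Normal := H.normalCore_normal
    by_cases h3 : H.normalCore ⊓ S = ⊥
    · obtain ⟨x, hxN, hx1⟩ : ∃ x ∈ H.normalCore, x ≠ 1 :=
        (Subgroup.ne_bot_iff_exists_ne_one).1 hN |>.elim fun a ha =>
          ⟨a.1, a.2, fun h => ha (Subtype.ext h)⟩
      have hxS : x ∉ (S : Subgroup G) := by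
        intro h
        have : x ∈ H.normalCore ⊓ S := ⟨hxN, h⟩
        rw [h3] at this
        exact hx1 this
      have hxc : ∀ s ∈ (S : Subgroup G), x * s = s * x := by
        intro s hs
        have h4 : x * s * x⁻¹ * s⁻¹ ∈ H.normalCore ⊓ S := by
          constructor
          · have : x * s * x⁻¹ * s⁻¹ = x * (s * x⁻¹ * s⁻¹) := by group
            rw [this]
            exact Subgroup.mul_mem _ hxN (hNn.conj_mem _ (Subgroup.inv_mem _ hxN) s)
          · exact Subgroup.mul_mem _ (hSn.conj_mem s hs x) (Subgroup.inv_mem _ hs)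
        rw [h3, Subgroup.mem_bot] at h4
        calc x * s = (x * s * x⁻¹ * s⁻¹) * (s * x) := by group
          _ = s * x := by rw [h4, one_mul]
      have htS : t ∉ (S : Subgroup G) := by
        intro h
        obtain ⟨k, hk⟩ := S.isPGroup' ⟨t, h⟩
        have hk' : t ^ 3 ^ k = 1 := by
          have := congrArg Subtype.val hk
          simpa using this
        have hodd : Odd (3 ^ k) := Odd.pow (by decide)
        obtain ⟨j, hj⟩ := hodd
        rw [hj, pow_succ, pow_mul, pow_two, ht2, one_pow, one_mul] at hk'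
        exact ht1 hk'
      have hx2 : x ^ 2 = 1 := by
        have : x ^ 2 ∈ H.normalCore ⊓ S :=
          ⟨Subgroup.pow_mem _ hxN 2, Subgroup.sq_mem_of_index_two hSi x⟩
        rw [h3] at this
        exact this
      have hs0 : x⁻¹ * t ∈ (S : Subgroup G) := by
        rw [Subgroup.mul_mem_iff_of_index_two hSi, Subgroup.inv_mem_iff]
        exact ⟨fun h => absurd h hxS, fun h => absurd h htS⟩
      have hcomm := hxc _ hs0
      have hs02 : (x⁻¹ * t) ^ 2 = 1 := by
        generalize hs : x⁻¹ * t = s0 at hcomm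
        have e1 : t = x * s0 := by rw [← hs]; group
        have e2 : t * t = x ^ 2 * s0 ^ 2 := by
          rw [e1]
          calc x * s0 * (x * s0) = x * (s0 * x) * s0 := by group
            _ = x * (x * s0) * s0 := by rw [hcomm]
            _ = x ^ 2 * s0 ^ 2 := by simp only [pow_two, mul_assoc]
        rw [ht2, hx2, one_mul] at e2
        exact e2.symm
      have hs01 : x⁻¹ * t = 1 := by
        obtain ⟨k, hk⟩ := S.isPGroup' ⟨x⁻¹ * t, hs0⟩
        have hk' : (x⁻¹ * t) ^ 3 ^ k = 1 := by
          have := congrArg Subtype.val hk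
          simpa using this
        have hodd : Odd (3 ^ k) := Odd.pow (by decide)
        obtain ⟨j, hj⟩ := hodd
        rw [hj, pow_succ, pow_mul, hs02, one_pow, one_mul] at hk'
        exact hk'
      have hxt : x = t := by
        have := congrArg (x * ·) hs01
        simpa using this.symm
      apply hST
      apply le_antisymm inf_le_left
      refine le_inf le_rfl ?_
      intro s hs
      rw [Subgroup.mem_centralizer_iff]
      intro y hy
      rcases hTt y hy with hy1 | hy1
      · rw [hy1]; simp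
      · rw [hy1, ← hxt]; exact hxc s hs
    · have h4 := inf_centralizer_ne_bot (A := (S : Subgroup G)) (Y := H.normalCore ⊓ S) S.isPGroup'
        (S.isPGroup'.to_le inf_le_right) h3
        (by
          have : (H.normalCore ⊓ (S : Subgroup G)).Normal := inferInstance
          rw [Subgroup.normalizer_eq_top]; exact le_top)
      have h5 : (H.normalCore ⊓ S) ⊓ Subgroup.centralizer ((S : Subgroup G) : Set G) ≤ Z := by
        rw [hZ]; exact inf_le_inf_right _ inf_le_right
      have h6 := eq_of_le_three _ Z h5 h4 hZcard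
      apply hzH
      apply hNH
      have : z ∈ (H.normalCore ⊓ S) ⊓ Subgroup.centralizer ((S : Subgroup G) : Set G) := by
        rw [h6]; exact hzZ
      exact this.1.1
  let π : G →* Equiv.Perm (G ⧸ H) := MulAction.toPermHom G (G ⧸ H)
  have hπ : Function.Injective π := by
    rw [← MonoidHom.ker_eq_bot_iff, ← Subgroup.normalCore_eq_ker, hcore]
  have hcard9 : Nat.card (G ⧸ H) = 9 := hidx
  let e : G ⧸ H ≃ Fin 9 := Finite.equivFinOfCardEq hcard9
  let π' : G →* Equiv.Perm (Fin 9) := (e.permCongrHom).toMonoidHom.comp π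
  have hπ' : Function.Injective π' := e.permCongrHom.injective.comp hπ
  set c : Equiv.Perm (Fin 9) := Equiv.swap (0 : Fin 9) 1 * Equiv.swap 1 2 * Equiv.swap 3 4 *
    Equiv.swap 4 5 * Equiv.swap 6 7 * Equiv.swap 7 8 with hc
  have hcyc : c.cycleType = Multiset.replicate 3 3 :=
    cycleType_of c (by rw [hc]; decide) (by rw [hc]; decide)
  have hσ : (π' z).cycleType = Multiset.replicate 3 3 := by
    apply cycleType_of
    · rw [← map_pow, hJexp z (hZJ hzZ), map_one]
    · intro x hx
      obtain ⟨y, rfl⟩ := e.surjective x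
      have h1 : π' z (e y) = e (z • y) := by
        show e ((π z) (e.symm (e y))) = e (z • y)
        rw [Equiv.symm_apply_apply]; rfl
      rw [h1] at hx
      have h2 : z • y = y := e.injective hx
      induction y using QuotientGroup.induction_on with | H g => ?_
      rw [MulAction.Quotient.smul_coe, smul_eq_mul, QuotientGroup.eq] at h2
      apply hzH
      have h3 : (z * g)⁻¹ * g = z⁻¹ := by
        rw [← hZcen z hzZ g]; group
      rw [h3] at h2
      simpa using H.inv_mem h2
  obtain ⟨γ, hγ⟩ := isConj_iff.1 (Equiv.Perm.isConj_iff_cycleType_eq.2 (hσ.trans hcyc.symm))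
  let π'' : G →* Equiv.Perm (Fin 9) := (MulAut.conj γ).toMonoidHom.comp π'
  have hπ'' : Function.Injective π'' := (MulAut.conj γ).injective.comp hπ'
  have hπz : π'' z = c := hγ
  let f : G →* Subgroup.centralizer ({c} : Set (Equiv.Perm (Fin 9))) :=
    π''.codRestrict _ (fun g => by
      rw [Subgroup.mem_centralizer_singleton_iff, ← hπz, ← map_mul, ← map_mul, hZcen z hzZ g])
  have hf : Function.Injective f := by
    intro a b hab
    exact hπ'' (congrArg Subtype.val hab)
  have hbij : Function.Bijective f :=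
    (Nat.bijective_iff_injective_and_card f).2 ⟨hf, by rw [hG, card_cent c hcyc]⟩
  exact ⟨MulEquiv.ofBijective f hbij⟩

end Cfsg.Agent.S3376
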