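import Cfsg.Statements.S3389
-- import your own Cfsg.Agent.* helpers here

set_option autoImplicit false
open Cfsg

namespace Cfsg.Agent.S3389

open MulAction

theorem modp {G : Type*} [Group G] {Ω : Type*} [Finite Ω] [MulAction G Ω] (g : G) (p : ℕ)
    [Fact p.Prime] (hg : orderOf g = p) : Nat.card Ω ≡ Nat.card (fixedBy Ω g) [MOD p] := by
  have hP : IsPGroup p (Subgroup.zpowers g) :=
    IsPGroup.of_card (n := 1) (by rw [Nat.card_zpowers, hg, pow_one])
  have h1 := hP.card_modEq_card_fixedPoints Ω
  have h2 : (fixedPoints (Subgroup.zpowers g) Ω : Set Ω) = fixedBy Ω g := by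
    ext x
    constructor
    · intro hx
      exact hx ⟨g, Subgroup.mem_zpowers g⟩
    · rintro hx ⟨h, hh⟩
      obtain ⟨j, rfl⟩ := Subgroup.mem_zpowers_iff.1 hh
      exact mem_fixedBy_zpow hx j
  rw [h2] at h1
  exact h1

theorem normalizer_trans {G : Type*} [Group G] [Finite G] {Ω : Type*} [MulAction G Ω]
    [IsPretransitive G Ω] (p : ℕ) [Fact p.Prime] (S : Sylow p G) (α β : Ω)
    (hα : ∀ s ∈ S, s • α = α) (hβ : ∀ s ∈ S, s • β = β) :
    ∃ n ∈ Subgroup.normalizer (S : Set G), n • α = β := by
  obtain ⟨x, hx⟩ := exists_smul_eq G α β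
  have h1 : (S : Subgroup G) ≤ stabilizer G β := fun s hs => hβ s hs
  have h2 : ((x • S : Sylow p G) : Subgroup G) ≤ stabilizer G β := by
    intro y hy
    rw [Sylow.smul_def, Sylow.pointwise_smul_def] at hy
    obtain ⟨s, hs, rfl⟩ := hy
    rw [mem_stabilizer_iff]
    show (x * s * x⁻¹) • β = β
    rw [← hx, mul_smul, mul_smul, inv_smul_smul, hα s hs]
  obtain ⟨h, hh⟩ := exists_smul_eq (stabilizer G β) ((x • S).subtype h2) (S.subtype h1)
  simp_rw [Sylow.smul_subtype, Subgroup.smul_def, smul_smul] at hh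
  refine ⟨h * x, Sylow.smul_eq_iff_mem_normalizer.mp (Sylow.subtype_injective hh), ?_⟩
  rw [mul_smul, hx]
  exact h.2

/-- Let G be a finite group acting faithfully and transitively on a finite set Ω with fixity k ≥ 1: every non-identity element fixes at most k points and some non-identity element fixes exactly k points. Then |Z(G)| divides k; if k = 2 then |G| is even; and for every prime p > k dividing |G| and every point α, either p does not divide |G_α| or G_α contains a Sylow p-subgroup of G. -/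
theorem result {G : Type*} [Group G] [Finite G] {Ω : Type*} [Fintype Ω] [MulAction G Ω] [FaithfulSMul G Ω]
    (htr : MulAction.IsPretransitive G Ω) (k : ℕ) (hk : 1 ≤ k)
    (hfix : ∀ g : G, g ≠ 1 → Nat.card (MulAction.fixedBy Ω g) ≤ k) (hex : ∃ g : G, g ≠ 1 ∧ Nat.card (MulAction.fixedBy Ω g) = k) :
    Nat.card (Subgroup.center G) ∣ k ∧ (k = 2 → 2 ∣ Nat.card G) ∧
      ∀ (p : ℕ), p.Prime → k < p → p ∣ Nat.card G → ∀ α : Ω,
        ¬ p ∣ Nat.card (MulAction.stabilizer G α) ∨ ¬ p ∣ (MulAction.stabilizer G α).index := by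
  obtain ⟨g, hg1, hgk⟩ := hex
  refine ⟨?_, ?_, ?_⟩
  · -- the centre acts freely on the fixed points of g
    let Δ : SubMulAction (Subgroup.center G) Ω :=
      { carrier := fixedBy Ω g
        smul_mem' := by
          intro c x hx
          rw [mem_fixedBy] at hx ⊢
          rw [Subgroup.smul_def, ← mul_smul, (Subgroup.mem_center_iff.1 c.2 g), mul_smul, hx] }
    have hfree : ∀ b : Δ, stabilizer (Subgroup.center G) b = ⊥ := by
      intro b
      rw [eq_bot_iff]
      intro c hc
      rw [mem_stabilizer_iff] at hc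
      have hc' : (c : G) • (b : Ω) = b := congrArg Subtype.val hc
      rw [Subgroup.mem_bot]
      apply Subtype.ext
      apply FaithfulSMul.eq_of_smul_eq_smul (α := Ω)
      intro ω
      obtain ⟨h, rfl⟩ := exists_smul_eq G (b : Ω) ω
      rw [Subgroup.coe_one, one_smul, ← mul_smul, ← (Subgroup.mem_center_iff.1 c.2 h), mul_smul, hc']
    have e := selfEquivOrbitsQuotientProd hfree
    have h1 : Nat.card Δ = k := hgk
    rw [← h1, Nat.card_congr e, Nat.card_prod]
    exact Dvd.intro_left _ rfl
  · rintro rfl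
    have hord : orderOf g ≠ 1 := fun h => hg1 (orderOf_eq_one_iff.1 h)
    set p := (orderOf g).minFac with hp
    have hpp : p.Prime := Nat.minFac_prime hord
    have : Fact p.Prime := ⟨hpp⟩
    set g' := g ^ (orderOf g / p) with hg'
    have ho : orderOf g' = p :=
      orderOf_pow_orderOf_div (orderOf_pos g).ne' (Nat.minFac_dvd _)
    have hg'1 : g' ≠ 1 := by
      intro h
      rw [h, orderOf_one] at ho
      exact hpp.one_lt.ne ho
    have hsub : fixedBy Ω g ⊆ fixedBy Ω g' := by
      intro x hx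
      have := mem_fixedBy_zpow hx (orderOf g / p : ℕ)
      rwa [zpow_natCast] at this
    have hc2 : Nat.card (fixedBy Ω g') = 2 := by
      apply le_antisymm (hfix g' hg'1)
      rw [← hgk]
      exact Nat.card_mono (Set.toFinite _) hsub
    by_cases hp2 : p = 2
    · rw [← hp2, ← ho]; exact orderOf_dvd_natCard g'
    have hp3 : 3 ≤ p := by
      have := hpp.two_le
      omega
    obtain ⟨S, hS⟩ := (IsPGroup.of_card (n := 1) (p := p) (G := Subgroup.zpowers g')
      (by rw [Nat.card_zpowers, ho, pow_one])).exists_le_sylow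
    have hgS : g' ∈ S := hS (Subgroup.mem_zpowers g')
    have hFsub : (fixedPoints S Ω : Set Ω) ⊆ fixedBy Ω g' := fun x hx => hx ⟨g', hgS⟩
    have hFle : Nat.card (fixedPoints S Ω) ≤ 2 := by
      rw [← hc2]; exact Nat.card_mono (Set.toFinite _) hFsub
    have hmod : Nat.card (fixedPoints S Ω) ≡ 2 [MOD p] := by
      have h1 := S.2.card_modEq_card_fixedPoints Ω
      have h2 := modp (Ω := Ω) g' p ho
      rw [hc2] at h2
      exact h1.symm.trans h2
    have hF2 : Nat.card (fixedPoints S Ω) = 2 := by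
      have h1 : Nat.card (fixedPoints S Ω) % p = 2 % p := hmod
      rw [Nat.mod_eq_of_lt (by omega), Nat.mod_eq_of_lt (by omega)] at h1
      exact h1
    obtain ⟨a, b, hab, huniv⟩ := Nat.card_eq_two_iff.1 hF2
    have hα : ∀ s ∈ S, s • (a : Ω) = a := fun s hs => a.2 ⟨s, hs⟩
    have hβ : ∀ s ∈ S, s • (b : Ω) = b := fun s hs => b.2 ⟨s, hs⟩
    obtain ⟨n, hn, hnab⟩ := normalizer_trans p S (a : Ω) (b : Ω) hα hβ
    have hnb : n • (b : Ω) ∈ fixedPoints S Ω := by
      rintro ⟨s, hs⟩
      show s • n • (b : Ω) = n • (b : Ω)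
      have h1 : n⁻¹ * s * n ∈ S := by
        have := (Subgroup.mem_normalizer_iff'.1 hn (n⁻¹ * s))
        have h2 : n * (n⁻¹ * s) ∈ (S : Subgroup G) := by simpa using hs
        exact this.2 h2
      have h2 := hβ _ h1
      rw [mul_smul, mul_smul, inv_smul_eq_iff] at h2
      exact h2
    have hne : (a : Ω) ≠ b := fun h => hab (Subtype.ext h)
    have hnba : n • (b : Ω) = a := by
      have : (⟨n • (b : Ω), hnb⟩ : fixedPoints S Ω) ∈ ({a, b} : Set _) := by rw [huniv]; trivial
      rcases this with h | h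
      · exact congrArg Subtype.val h
      · exfalso
        have h1 : n • (b : Ω) = b := congrArg Subtype.val h
        rw [← hnab] at h1
        have := smul_left_cancel n h1
        rw [hnab] at this
        exact hne this.symm
    have hpow : ∀ m : ℕ, n ^ (2 * m) • (a : Ω) = a := by
      intro m
      induction m with
      | zero => simp
      | succ m ih =>
        rw [Nat.mul_succ, pow_add, mul_smul, pow_two, mul_smul, hnab, hnba, ih]
    have h2 : 2 ∣ orderOf n := by
      by_contra hodd
      obtain ⟨m, hm⟩ : ∃ m, orderOf n = 2 * m + 1 := ⟨orderOf n / 2, by omega⟩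
      have h1 : n ^ (2 * m + 1) • (a : Ω) = a := by rw [← hm, pow_orderOf_eq_one, one_smul]
      rw [pow_succ', mul_smul, hpow, hnab] at h1
      exact hne h1.symm
    exact h2.trans (orderOf_dvd_natCard n)
  · intro p hp hkp _ α
    by_contra hcon
    push Not at hcon
    obtain ⟨h1, h2⟩ := hcon
    have : Fact p.Prime := ⟨hp⟩
    obtain ⟨y, hy⟩ := exists_prime_orderOf_dvd_card' p h1
    have hy' : orderOf (y : G) = p := by rw [Subgroup.orderOf_coe]; exact hy
    have hy1 : (y : G) ≠ 1 := by
      intro h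
      rw [h, orderOf_one] at hy'
      exact hp.one_lt.ne hy'
    have hm := modp (Ω := Ω) (y : G) p hy'
    rw [index_stabilizer_of_transitive] at h2
    have hle := hfix _ hy1
    have hpos : 0 < Nat.card (fixedBy Ω (y : G)) :=
      Nat.card_pos_iff.2 ⟨⟨⟨α, y.2⟩⟩, inferInstance⟩
    have h3 : Nat.card Ω % p = Nat.card (fixedBy Ω (y : G)) % p := hm
    rw [Nat.mod_eq_zero_of_dvd h2, Nat.mod_eq_of_lt (by omega)] at h3
    omega

end Cfsg.Agent.S3389
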