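import Cfsg.Statements.S3391
import Cfsg.Agent.Lib.Helper8.SzFixity
import Cfsg.Agent.Lib.Helper8.SzLie

set_option autoImplicit false
open Cfsg

namespace Cfsg.Agent.S3391

/-- Let q = 2^{2m+1} ≥ 8 and let G be isomorphic to the Suzuki group Sz(q). If G acts faithfully and transitively on a finite set Ω with fixity 2 (every non-identity element fixes at most two points, and some fixes exactly two), then either |Ω| = q² + 1 and the action is 2-transitive, or |Ω| = q²(q² + 1) and the point stabilizers have order q − 1. -/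
theorem result {G : Type*} [Group G] [Finite G] (F : Type) [Field F] [Fintype F] (m : ℕ) (hm : 1 ≤ m) (hF : Fintype.card F = 2 ^ (2 * m + 1))
    (e : G ≃* ↥(Cfsg.Lie.Sz F (2 ^ (m + 1)))) {Ω : Type*} [Fintype Ω] [MulAction G Ω] [FaithfulSMul G Ω] (htr : MulAction.IsPretransitive G Ω)
    (hfix : ∀ g : G, g ≠ 1 → Nat.card (MulAction.fixedBy Ω g) ≤ 2) (hex : ∃ g : G, g ≠ 1 ∧ Nat.card (MulAction.fixedBy Ω g) = 2) :
    (Fintype.card Ω = Fintype.card F ^ 2 + 1 ∧ MulAction.IsMultiplyPretransitive G Ω 2) ∨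
    (Fintype.card Ω = Fintype.card F ^ 2 * (Fintype.card F ^ 2 + 1) ∧ ∀ α : Ω, Nat.card (MulAction.stabilizer G α) = Fintype.card F - 1) := by
  have := Cfsg.Agent.Lib.Helper8.charP_two_of_card hF
  let φ : Cfsg.Sz F m ≃* G := (Cfsg.Agent.Lib.Helper8.lieSzEquiv hF hm).trans e.symm
  let _ : MulAction (Cfsg.Sz F m) Ω := MulAction.compHom Ω φ.toMonoidHom
  have hsm : ∀ (g : Cfsg.Sz F m) (a : Ω), g • a = φ g • a := fun _ _ => rfl
  have htr' : MulAction.IsPretransitive (Cfsg.Sz F m) Ω := ⟨fun a b => by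
    obtain ⟨g, hg⟩ := htr.exists_smul_eq a b
    exact ⟨φ.symm g, by rw [hsm, φ.apply_symm_apply, hg]⟩⟩
  have hne : ∀ g : Cfsg.Sz F m, g ≠ 1 → φ g ≠ 1 := fun g hg h =>
    hg (φ.injective (h.trans (map_one φ).symm))
  have hfix' : ∀ g : Cfsg.Sz F m, g ≠ 1 → Nat.card (MulAction.fixedBy Ω g) ≤ 2 :=
    fun g hg => hfix (φ g) (hne g hg)
  have hex' : ∃ (g : Cfsg.Sz F m) (α : Ω), g ≠ 1 ∧ g • α = α := by
    obtain ⟨g, hg, hc⟩ := hex
    have hpos : 0 < Nat.card (MulAction.fixedBy Ω g) := by omega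
    obtain ⟨⟨α, hα⟩⟩ := (Nat.card_pos_iff.1 hpos).1
    refine ⟨φ.symm g, α, ?_, ?_⟩
    · intro h
      apply hg
      have := congrArg φ h
      rwa [φ.apply_symm_apply, map_one] at this
    · rw [hsm, φ.apply_symm_apply]; exact hα
  have hnt' : ∃ (g : Cfsg.Sz F m) (α : Ω), g • α ≠ α := by
    have := Cfsg.Agent.Lib.Helper8.Sz_nontrivial hF
    obtain ⟨g, hg⟩ := exists_ne (1 : Cfsg.Sz F m)
    by_contra h
    push Not at h
    apply hne g hg
    apply FaithfulSMul.eq_of_smul_eq_smul (α := Ω)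
    intro a
    rw [one_smul]
    exact h g a
  rcases Cfsg.Agent.Lib.Helper8.fixity_Sz hF hm htr' hfix' hex' hnt' with ⟨h1, h2⟩ | ⟨h1, h2⟩
  · left
    refine ⟨by rw [h1, hF], ?_⟩
    rw [MulAction.is_two_pretransitive_iff] at h2 ⊢
    intro a b c d hab hcd
    obtain ⟨g, hg1, hg2⟩ := h2 hab hcd
    exact ⟨φ g, hg1, hg2⟩
  · right
    refine ⟨by rw [h1, hF], fun α => ?_⟩
    rw [hF, ← h2 α]
    symm
    apply Nat.card_congr
    exact φ.toEquiv.subtypeEquiv (fun g => Iff.rfl)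

end Cfsg.Agent.S3391
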