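import Cfsg.Statements.S3498
import Mathlib

set_option autoImplicit false
open Cfsg

namespace Cfsg.Agent.S3498

open Subgroup in
/-- A finite group with a maximal subgroup of prime order is solvable. -/
theorem solvable_of_coatom_prime {G : Type*} [Group G] [Finite G] (H : Subgroup G) (hmax : IsCoatom H)
    (hprime : (Nat.card H).Prime) : Group.IsSolvable G := by
  classical
  set p := Nat.card H with hp
  have hfact : Fact p.Prime := ⟨hprime⟩
  have hHp : IsPGroup p H := IsPGroup.of_card (n := 1) (by simp [p])
  have hHcyc : IsCyclic H := isCyclic_of_prime_card (p := p) rfl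
  have hHs : Group.IsSolvable H := by
    let _ := hHcyc.commGroup
    infer_instance
  -- general principle: normal solvable R and solvable C with R ⊔ C = ⊤ gives solvable G
  have key : ∀ R : Subgroup G, R.Normal → Group.IsSolvable R → ∀ C : Subgroup G, Group.IsSolvable C →
      R ⊔ C = ⊤ → Group.IsSolvable G := by
    intro R hRn hRs C hCs hRH
    have hsurj : Function.Surjective ((QuotientGroup.mk' R).comp C.subtype) := by
      rw [← MonoidHom.range_eq_top, MonoidHom.range_comp, C.range_subtype]
      have h1 : (R ⊔ C).map (QuotientGroup.mk' R) = ⊤ := by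
        rw [hRH, ← MonoidHom.range_eq_map, MonoidHom.range_eq_top]
        exact QuotientGroup.mk'_surjective R
      rw [Subgroup.map_sup] at h1
      have h2 : R.map (QuotientGroup.mk' R) = ⊥ := by
        rw [Subgroup.map_eq_bot_iff, QuotientGroup.ker_mk']
      rwa [h2, bot_sup_eq] at h1
    have hq : Group.IsSolvable (G ⧸ R) := Group.isSolvable_of_surjective hsurj
    exact (Group.isSolvable_iff_subgroup_quotient R).mpr ⟨hRs, hq⟩
  obtain ⟨P, hHP⟩ := hHp.exists_le_sylow
  rcases hmax.le_iff.mp hHP with hPtop | hPH
  · -- G is a p-group
    have hG : IsPGroup p G := by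
      have := P.2
      rw [hPtop] at this
      exact this.of_equiv Subgroup.topEquiv
    have := hG.isNilpotent
    infer_instance
  have hle : H ≤ normalizer (P : Set G) := by
    have : (P : Subgroup G) ≤ normalizer (P : Set G) := le_normalizer
    rwa [hPH] at this
  rcases hmax.le_iff.mp hle with hN | hN
  · -- H normal
    have hHn : H.Normal := by
      rw [← hPH]; exact normalizer_eq_top_iff.mp hN
    obtain ⟨g, hg⟩ : ∃ g, g ∉ H := by
      by_contra hcon
      push Not at hcon
      exact hmax.1 (eq_top_iff.mpr fun x _ => hcon x)
    apply key H hHn hHs (zpowers g) inferInstance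
    rcases hmax.le_iff.mp (le_sup_left : H ≤ H ⊔ zpowers g) with h | h
    · exact h
    · exfalso; apply hg; rw [← h]; exact mem_sup_right (mem_zpowers g)
  · -- Burnside
    have hNC : normalizer (P : Set G) ≤ centralizer (P : Set G) := by
      rw [hN]
      intro x hx
      rw [mem_centralizer_iff]
      intro y hy
      have hy' : y ∈ H := by rw [← hPH]; exact hy
      let _ := hHcyc.commGroup
      have := mul_comm (⟨y, hy'⟩ : H) ⟨x, hx⟩
      simpa using congrArg Subtype.val this
    set φ := MonoidHom.transferSylow P hNC with hφ
    set Q := φ.ker with hQ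
    have hcompl : IsComplement' Q P := MonoidHom.ker_transferSylow_isComplement' P hNC
    have hpQ : ¬ p ∣ Nat.card Q := MonoidHom.not_dvd_card_ker_transferSylow P hNC
    have hQH : Q ⊔ H = ⊤ := by rw [← hPH]; exact hcompl.sup_eq_top
    have hcardP : Nat.card P = p := by
      have : Nat.card (P : Subgroup G) = Nat.card H := by rw [hPH]
      exact this
    by_cases hQ1 : Nat.card Q = 1
    · have : Subsingleton Q := (Nat.card_eq_one_iff_unique.mp hQ1).1
      exact key Q inferInstance inferInstance H hHs hQH
    · set r := (Nat.card Q).minFac with hr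
      have hrp : r.Prime := Nat.minFac_prime hQ1
      have hrfact : Fact r.Prime := ⟨hrp⟩
      have hrQ : r ∣ Nat.card Q := Nat.minFac_dvd _
      have hrne : r ≠ p := fun h => hpQ (h ▸ hrQ)
      have hcop : Nat.Coprime r p := (Nat.coprime_primes hrp hprime).mpr hrne
      have hRQ : ∀ R : Sylow r G, (R : Subgroup G) ≤ Q := by
        intro R x hx
        obtain ⟨k, hk⟩ := R.2 ⟨x, hx⟩
        have hk' : x ^ (r ^ k) = 1 := by simpa using congrArg Subtype.val hk
        have h1 : orderOf (φ x) ∣ r ^ k := by
          apply orderOf_dvd_of_pow_eq_one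
          rw [← map_pow, hk', map_one]
        have h2 : orderOf (φ x) ∣ p := by
          exact (orderOf_dvd_natCard (φ x)).trans (dvd_of_eq hcardP)
        have h3 : orderOf (φ x) = 1 :=
          Nat.eq_one_of_dvd_coprimes (Nat.Coprime.pow_left k hcop) h1 h2
        exact orderOf_eq_one_iff.mp h3
      have hcardG : Nat.card Q * p = Nat.card G := by
        rw [← hcardP]; exact hcompl.card_mul_card
      have hnd : ¬ p ∣ Nat.card (Sylow r G) := by
        obtain ⟨R⟩ : Nonempty (Sylow r G) := inferInstance
        rw [R.card_eq_index_normalizer]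
        have hF : normalizer (R : Set G) ⊔ Q = ⊤ := R.normalizer_sup_eq_top' (hRQ R)
        have h1 : Q.relIndex (normalizer (R : Set G)) = p := by
          rw [← relIndex_sup_right, hF, relIndex_top_right, hcompl.symm.index_eq_card, hcardP]
        have h2 : p ∣ Nat.card (normalizer (R : Set G)) := h1 ▸ relIndex_dvd_card _ _
        intro h3
        have h4 : p * p ∣ Nat.card G := by
          rw [← (normalizer (R : Set G)).card_mul_index]
          exact mul_dvd_mul h2 h3
        rw [← hcardG] at h4
        exact hpQ (Nat.dvd_of_mul_dvd_mul_right hprime.pos h4)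
      obtain ⟨R, hR⟩ := hHp.nonempty_fixed_point_of_prime_not_dvd_card (Sylow r G) hnd
      have hHR : H ≤ normalizer (R : Set G) := by
        intro h hh
        exact Sylow.smul_eq_iff_mem_normalizer.mp (hR ⟨h, hh⟩)
      have hRH : (R : Subgroup G) ⊔ H = ⊤ := by
        rcases hmax.le_iff.mp (le_sup_right : H ≤ (R : Subgroup G) ⊔ H) with h | h
        · exact h
        · exfalso
          have hle' : (R : Subgroup G) ≤ H := h ▸ le_sup_left
          have h1 : Nat.card (R : Subgroup G) ∣ p := card_dvd_of_le hle'
          have h2 : r ∣ Nat.card (R : Subgroup G) := by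
            apply R.dvd_card_of_dvd_card
            rw [← hcardG]
            exact hrQ.mul_right p
          exact hrne ((Nat.prime_dvd_prime_iff_eq hrp hprime).mp (h2.trans h1))
      have hRn : (R : Subgroup G).Normal := by
        rw [← normalizer_eq_top_iff, eq_top_iff, ← hRH]
        exact sup_le le_normalizer hHR
      have hRs : Group.IsSolvable (R : Subgroup G) := by
        have := R.2.isNilpotent
        infer_instance
      exact key R hRn hRs H hHs hRH

/-- A maximal subgroup of a finite almost simple group does not have prime order. Here G is almost simple in the sense that it has a non-abelian simple normal subgroup T with trivial centralizer. -/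
theorem result {G : Type*} [Group G] [Finite G] (T : Subgroup G) [T.Normal] (hT : IsSimpleGroup T) (hTc : ¬ IsMulCommutative T)
    (hC : Subgroup.centralizer (T : Set G) = ⊥) (H : Subgroup G) (hmax : IsCoatom H) : ¬ (Nat.card H).Prime := by
  intro hprime
  have hs := solvable_of_coatom_prime H hmax hprime
  have hTs : Group.IsSolvable T := inferInstance
  exact hTc ⟨⟨IsSimpleGroup.comm_iff_isSolvable.mpr hTs⟩⟩

end Cfsg.Agent.S3498
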