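import Cfsg.Statements.S3504
import Mathlib

set_option autoImplicit false
open Cfsg

namespace Cfsg.Agent.S3504

open Equiv.Perm in
theorem cycleType_of_derangement {n : ℕ} (g : Equiv.Perm (Fin n)) (hg : (orderOf g).Prime)
    (hfix : ∀ i : Fin n, g i ≠ i) :
    ∃ k : ℕ, g.cycleType = Multiset.replicate (k + 1) (orderOf g) ∧ (k + 1) * orderOf g = n := by
  obtain ⟨k, hk⟩ := cycleType_prime_order hg
  refine ⟨k, hk, ?_⟩
  have h1 := g.sum_cycleType
  have h2 : g.support = Finset.univ := by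
    ext i; simp [hfix i]
  rw [h2, hk, Multiset.sum_replicate, Finset.card_univ, Fintype.card_fin] at h1
  simpa using h1

open Equiv.Perm in
theorem exists_derangement {n q : ℕ} (hq : q.Prime) (hqn : q ∣ n) (hn : 0 < n) :
    ∃ g : Equiv.Perm (Fin n), orderOf g = q ∧ ∀ i : Fin n, g i ≠ i := by
  obtain ⟨k, rfl⟩ := hqn
  have hk : 0 < k := Nat.pos_of_mul_pos_left hn
  obtain ⟨g, hg⟩ := (exists_with_cycleType_iff (Fin (q * k)) (m := Multiset.replicate k q)).mpr
    ⟨by simp [mul_comm], by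
      intro a ha
      rw [Multiset.eq_of_mem_replicate ha]
      exact hq.two_le⟩
  refine ⟨g, ?_, ?_⟩
  · rw [← lcm_cycleType, hg]
    have aux : ∀ j : ℕ, (Multiset.replicate (j + 1) q).lcm = q := by
      intro j
      induction j with
      | zero => simp
      | succ j ih => rw [Multiset.replicate_succ, Multiset.lcm_cons, ih]; simp
    obtain ⟨j, rfl⟩ : ∃ j, k = j + 1 := ⟨k - 1, by omega⟩
    exact aux j
  · have h1 := g.sum_cycleType
    rw [hg, Multiset.sum_replicate] at h1
    have h2 : g.support = Finset.univ := by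
      apply Finset.eq_univ_of_card
      rw [← h1, Fintype.card_fin]
      simp [mul_comm]
    intro i
    have : i ∈ g.support := h2 ▸ Finset.mem_univ i
    exact mem_support.mp this

/-- For n ≥ 5, the fixed-point-free permutations of prime order in the symmetric group of degree n form a single conjugacy class if and only if n is a prime power. -/
theorem result (n : ℕ) (hn : 5 ≤ n) :
    Nat.card {c : ConjClasses (Equiv.Perm (Fin n)) // ∃ g : Equiv.Perm (Fin n), ConjClasses.mk g = c ∧ (orderOf g).Prime ∧ ∀ i : Fin n, g i ≠ i} = 1 ↔ IsPrimePow n := by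
  rw [Nat.card_eq_one_iff_unique]
  constructor
  · rintro ⟨hsub, -⟩
    have hn1 : n ≠ 1 := by omega
    set p := n.minFac with hp
    have hpp : p.Prime := Nat.minFac_prime hn1
    have huniq : ∀ {d : ℕ}, d.Prime → d ∣ n → d = p := by
      intro d hd hdn
      obtain ⟨g, hg, hg'⟩ := exists_derangement hd hdn (by omega)
      obtain ⟨g₂, hg₂, hg₂'⟩ := exists_derangement hpp (Nat.minFac_dvd n) (by omega)
      have := hsub.elim ⟨ConjClasses.mk g, g, rfl, hg ▸ hd, hg'⟩ ⟨ConjClasses.mk g₂, g₂, rfl, hg₂ ▸ hpp, hg₂'⟩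
      have h2 : IsConj g g₂ := ConjClasses.mk_eq_mk_iff_isConj.mp (congrArg Subtype.val this)
      rw [← hg, ← hg₂, ← Equiv.Perm.lcm_cycleType g, ← Equiv.Perm.lcm_cycleType g₂,
        Equiv.Perm.isConj_iff_cycleType_eq.mp h2]
    have := Nat.eq_prime_pow_of_unique_prime_dvd (by omega : n ≠ 0) huniq
    rw [this]
    refine ⟨p, _, hpp.prime, ?_, rfl⟩
    rcases Nat.eq_zero_or_pos n.primeFactorsList.length with h | h
    · rw [h, pow_zero] at this; omega
    · exact h
  · rintro ⟨p, k, hp, hk, rfl⟩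
    have hpp : p.Prime := hp.nat_prime
    constructor
    · constructor
      rintro ⟨c, g, rfl, hg, hg'⟩ ⟨c', g', rfl, hg2, hg2'⟩
      apply Subtype.ext
      apply ConjClasses.mk_eq_mk_iff_isConj.mpr
      rw [Equiv.Perm.isConj_iff_cycleType_eq]
      obtain ⟨a, ha, ha'⟩ := cycleType_of_derangement g hg hg'
      obtain ⟨b, hb, hb'⟩ := cycleType_of_derangement g' hg2 hg2'
      have h1 : orderOf g = p := (Nat.prime_dvd_prime_iff_eq hg hpp).mp (hg.dvd_of_dvd_pow ⟨a + 1, by rw [mul_comm]; exact ha'.symm⟩)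
      have h2 : orderOf g' = p := (Nat.prime_dvd_prime_iff_eq hg2 hpp).mp (hg2.dvd_of_dvd_pow ⟨b + 1, by rw [mul_comm]; exact hb'.symm⟩)
      rw [h1] at ha ha'
      rw [h2] at hb hb'
      have : a + 1 = b + 1 := Nat.eq_of_mul_eq_mul_right hpp.pos (ha'.trans hb'.symm)
      rw [ha, hb, this]
    · obtain ⟨g, hg, hg'⟩ := exists_derangement hpp (dvd_pow_self p hk.ne') (by omega)
      exact ⟨⟨ConjClasses.mk g, g, rfl, hg.symm ▸ hpp, hg'⟩⟩

end Cfsg.Agent.S3504
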