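import Cfsg.Statements.S3508
import Cfsg.Agent.Lib.Helper77.AffOrder

set_option autoImplicit false
open Cfsg

namespace Cfsg.Agent.S3508

open Cfsg.Agent.Lib.Helper77

/-- Let a finite group G act faithfully on a set Ω with p ^ m points (p prime) and have an elementary abelian normal p-subgroup N acting regularly on Ω (so G is a group of affine transformations of an m-dimensional space over the field with p elements). If G contains an element of order p ^ r with r ≥ 1, then p ^ (r − 1) ≤ m. In particular an element of order p ^ m forces m ≤ 2, and m ≤ 1 when p is odd. -/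
theorem result {G : Type*} [Group G] [Finite G] {Ω : Type*} [Fintype Ω] [MulAction G Ω] [FaithfulSMul G Ω] (p m : ℕ) (hp : p.Prime) (hcard : Fintype.card Ω = p ^ m)
    (N : Subgroup G) [N.Normal] (hNc : IsMulCommutative N) (hNp : ∀ n ∈ N, n ^ p = 1)
    (hNtr : MulAction.IsPretransitive N Ω) (hNreg : ∀ ω : Ω, MulAction.stabilizer N ω = ⊥)
    (g : G) (r : ℕ) (hr : 1 ≤ r) (hg : orderOf g = p ^ r) :
    p ^ (r - 1) ≤ m ∧ (r = m → m ≤ 2 ∧ (2 < p → m ≤ 1)) := by
  have : Fact p.Prime := ⟨hp⟩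
  have key : p ^ (r - 1) ≤ m := by
    by_contra hlt
    have hlt' : m < p ^ (r - 1) := by omega
    have h1 : g ^ (p ^ r) = 1 := by rw [← hg]; exact pow_orderOf_eq_one g
    have h2 := affine_pow_eq_one p m hcard N hNc hNp hNtr hNreg g r (r - 1) h1 hlt'
    have h3 : orderOf g ∣ p ^ (r - 1) := orderOf_dvd_of_pow_eq_one h2
    rw [hg] at h3
    have h4 := (Nat.pow_dvd_pow_iff_le_right hp.one_lt).1 h3
    omega
  refine ⟨key, ?_⟩
  intro hrm
  subst hrm
  constructor
  · by_contra hcon
    obtain ⟨n, rfl⟩ : ∃ n, r = n + 3 := ⟨r - 3, by omega⟩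
    have h1 : 2 ^ (n + 3 - 1) ≤ p ^ (n + 3 - 1) := Nat.pow_le_pow_left hp.two_le _
    have h2 : n < 2 ^ n := Nat.lt_two_pow_self
    have h3 : 2 ^ (n + 3 - 1) = 4 * 2 ^ n := by
      have : n + 3 - 1 = n + 2 := by omega
      rw [this, pow_add]; ring
    omega
  · intro hp2
    by_contra hcon
    obtain ⟨n, rfl⟩ : ∃ n, r = n + 2 := ⟨r - 2, by omega⟩
    have h1 : 3 ^ (n + 2 - 1) ≤ p ^ (n + 2 - 1) := Nat.pow_le_pow_left (by omega) _
    have h2 : n < 3 ^ n := Nat.lt_pow_self (by norm_num)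
    have h3 : 3 ^ (n + 2 - 1) = 3 * 3 ^ n := by
      have : n + 2 - 1 = n + 1 := by omega
      rw [this, pow_succ]; ring
    omega

end Cfsg.Agent.S3508
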