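import Cfsg.Statements.S3511
-- import your own Cfsg.Agent.* helpers here

set_option autoImplicit false
open Cfsg

namespace Cfsg.Agent.S3511

/-- Let a finite group G act faithfully on a set Ω. If every element of G of square-free order has a regular cycle (an orbit of the cyclic group it generates with trivial stabilizer), then every element of G has a regular cycle. -/
theorem result {G : Type*} [Group G] [Finite G] {Ω : Type*} [MulAction G Ω] [FaithfulSMul G Ω]
    (h : ∀ g : G, Squarefree (orderOf g) → ∃ ω : Ω, MulAction.stabilizer (Subgroup.zpowers g) ω = ⊥) (g : G) :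
    ∃ ω : Ω, MulAction.stabilizer (Subgroup.zpowers g) ω = ⊥ := by
  classical
  induction' hn : orderOf g using Nat.strong_induction_on with n ih generalizing g
  by_cases hsq : Squarefree (orderOf g)
  · exact h g hsq
  · rw [Nat.squarefree_iff_prime_squarefree] at hsq
    push Not at hsq
    obtain ⟨p, hp, hpp⟩ := hsq
    have hpos : 0 < orderOf g := orderOf_pos g
    have hord : orderOf (g ^ p) = orderOf g / p :=
      orderOf_pow_of_dvd hp.ne_zero (dvd_of_mul_left_dvd hpp)
    have hlt : orderOf (g ^ p) < n := by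
      rw [hord, ← hn]; exact Nat.div_lt_self hpos hp.one_lt
    obtain ⟨ω, hω⟩ := ih _ hlt (g ^ p) rfl
    have key : ∀ j : ℤ, ((g ^ p) ^ j) • ω = ω → (g ^ p) ^ j = 1 := by
      intro j hj
      have hmem : (⟨(g ^ p) ^ j, Subgroup.zpow_mem_zpowers _ j⟩ : Subgroup.zpowers (g ^ p)) ∈
          MulAction.stabilizer (Subgroup.zpowers (g ^ p)) ω := by
        rw [MulAction.mem_stabilizer_iff]
        exact hj
      rw [hω, Subgroup.mem_bot] at hmem
      exact congrArg Subtype.val hmem
    refine ⟨ω, ?_⟩
    rw [Subgroup.eq_bot_iff_forall]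
    rintro ⟨x, hx⟩ hxω
    obtain ⟨k, rfl⟩ := Subgroup.mem_zpowers_iff.mp hx
    have hfix : (g ^ k) • ω = ω := hxω
    have hfixp : ((g ^ p) ^ k) • ω = ω := by
      have e : (g ^ p) ^ k = (g ^ k) ^ p := by
        rw [← zpow_natCast, ← zpow_natCast, ← zpow_mul, ← zpow_mul, mul_comm]
      rw [e]
      have : g ^ k ∈ MulAction.stabilizer G ω := hfix
      exact (MulAction.stabilizer G ω).pow_mem this p
    have h1 := key k hfixp
    have h2 : g ^ ((p : ℤ) * k) = 1 := by
      rw [zpow_mul, zpow_natCast]; exact h1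
    rw [← orderOf_dvd_iff_zpow_eq_one] at h2
    obtain ⟨m, hm⟩ := hpp
    have hp0 : (p : ℤ) ≠ 0 := by exact_mod_cast hp.ne_zero
    have h3 : ((p : ℤ) * m) ∣ k := by
      rw [hm] at h2
      push_cast at h2
      rw [mul_assoc] at h2
      exact (mul_dvd_mul_iff_left hp0).mp h2
    obtain ⟨j, hj⟩ := dvd_of_mul_right_dvd h3
    have e2 : g ^ k = (g ^ p) ^ j := by
      rw [hj, zpow_mul, zpow_natCast]
    have h4 : (g ^ p) ^ j = 1 := key j (by rw [← e2]; exact hfix)
    apply Subtype.ext
    simp only [Subgroup.coe_one]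
    rw [e2, h4]

end Cfsg.Agent.S3511
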