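import Cfsg.Statements.S3514
-- import your own Cfsg.Agent.* helpers here

set_option autoImplicit false
open Cfsg

namespace Cfsg.Agent.S3514

theorem card_mul_relIndex' {L : Type*} [Group L] {X Y : Subgroup L} (h : X ≤ Y) :
    Nat.card X * X.relIndex Y = Nat.card Y := by
  have := Subgroup.relIndex_mul_relIndex (⊥ : Subgroup L) X Y bot_le h
  simpa [Subgroup.relIndex_bot_left] using this

theorem relIndex_sup_of_le_normalizer {L : Type*} [Group L] [Finite L] (A K : Subgroup L)
    (h : A ≤ Subgroup.normalizer (K : Set L)) : A.relIndex (A ⊔ K) = A.relIndex K := by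
  have e0 : K.relIndex A = K.relIndex (A ⊔ K) := by
    letI := Subgroup.normal_subgroupOf_of_le_normalizer h
    letI := Subgroup.normal_subgroupOf_sup_of_le_normalizer h
    exact Nat.card_congr (QuotientGroup.quotientInfEquivProdNormalizerQuotient A K h).toEquiv
  have e1 := card_mul_relIndex' (le_sup_left : A ≤ A ⊔ K)
  have e2 := card_mul_relIndex' (le_sup_right : K ≤ A ⊔ K)
  have e4 := card_mul_relIndex' (inf_le_right : K ⊓ A ≤ A)
  have e5 := card_mul_relIndex' (inf_le_right : A ⊓ K ≤ K)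
  rw [Subgroup.inf_relIndex_right] at e4 e5
  rw [inf_comm] at e4
  have hA : 0 < Nat.card A := Nat.card_pos
  have hI : 0 < Nat.card (A ⊓ K : Subgroup L) := Nat.card_pos
  apply Nat.eq_of_mul_eq_mul_left hA
  rw [e1, ← e2, ← e0]
  apply Nat.eq_of_mul_eq_mul_left hI
  calc Nat.card (A ⊓ K : Subgroup L) * (Nat.card K * K.relIndex A)
      = Nat.card K * (Nat.card (A ⊓ K : Subgroup L) * K.relIndex A) := by ring
    _ = Nat.card K * Nat.card A := by rw [e4]
    _ = (Nat.card (A ⊓ K : Subgroup L) * A.relIndex K) * Nat.card A := by rw [e5]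
    _ = Nat.card (A ⊓ K : Subgroup L) * (Nat.card A * A.relIndex K) := by ring

theorem card_orbit_set {L X : Type*} [Group L] [MulAction L X] (A : Subgroup L) (v : X) :
    Nat.card {u : X | ∃ a ∈ A, a • v = u} = (MulAction.stabilizer L v).relIndex A := by
  have hs : {u : X | ∃ a ∈ A, a • v = u} = MulAction.orbit A v := by
    ext u
    constructor
    · rintro ⟨a, ha, rfl⟩
      exact ⟨⟨a, ha⟩, rfl⟩
    · rintro ⟨⟨a, ha⟩, rfl⟩
      exact ⟨a, ha, rfl⟩
  rw [hs, Nat.card_coe_set_eq, ← MulAction.index_stabilizer]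
  rfl

theorem relIndex_dvd_of_normal {L : Type*} [Group L] [Finite L] (S K H : Subgroup L) (hKH : K ≤ H)
    (hn : H ≤ Subgroup.normalizer (K : Set L)) : S.relIndex K ∣ S.relIndex H := by
  have h1 : (S ⊓ H).relIndex ((S ⊓ H) ⊔ K) = (S ⊓ H).relIndex K :=
    relIndex_sup_of_le_normalizer _ _ (inf_le_right.trans hn)
  have h2 : (S ⊓ H).relIndex K = S.relIndex K := by
    rw [← Subgroup.inf_relIndex_right, ← Subgroup.inf_relIndex_right S K, inf_assoc,
      inf_eq_right.mpr hKH]
  have h3 := Subgroup.relIndex_mul_relIndex (S ⊓ H) ((S ⊓ H) ⊔ K) H le_sup_left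
    (sup_le inf_le_right hKH)
  rw [Subgroup.inf_relIndex_right, h1, h2] at h3
  exact ⟨_, h3.symm⟩

theorem relIndex_sup_dvd {L : Type*} [Group L] [Finite L] (S N H : Subgroup L)
    (hn : H ≤ Subgroup.normalizer (N : Set L)) :
    S.relIndex (N ⊔ H) ∣ Nat.card N * S.relIndex H := by
  have h1 : H.relIndex (H ⊔ N) = H.relIndex N := relIndex_sup_of_le_normalizer _ _ hn
  have h2 : H.relIndex N ∣ Nat.card N := Subgroup.relIndex_dvd_card _ _
  have h3 := Subgroup.relIndex_mul_relIndex (S ⊓ H) H (H ⊔ N) inf_le_right le_sup_left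
  rw [Subgroup.inf_relIndex_right, h1] at h3
  have h4 : S.relIndex (H ⊔ N) ∣ (S ⊓ H).relIndex (H ⊔ N) :=
    Subgroup.relIndex_dvd_of_le_left _ inf_le_left
  rw [sup_comm]
  refine h4.trans ?_
  rw [← h3, mul_comm]
  exact Nat.mul_dvd_mul_right h2 _

/-- Let p be a prime, V a finite vector space over the field with p elements, and H a group of linear transformations of V all of whose orbits on V have size coprime to p. (i) Every normal subgroup K of H has all its orbits on V of size coprime to p. (ii) If N is a group of linear transformations of V of order coprime to p that is normalized by H, then the group generated by N and H has all its orbits on V of size coprime to p. -/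
theorem result (p : ℕ) [Fact p.Prime] {V : Type*} [AddCommGroup V] [Module (ZMod p) V] [Finite V]
    (H : Subgroup (V ≃ₗ[ZMod p] V)) (hH : ∀ v : V, ¬ p ∣ Nat.card {u : V | ∃ h ∈ H, h v = u}) :
    (∀ K : Subgroup (V ≃ₗ[ZMod p] V), K ≤ H → H ≤ Subgroup.normalizer (K : Set (V ≃ₗ[ZMod p] V)) →
        ∀ v : V, ¬ p ∣ Nat.card {u : V | ∃ k ∈ K, k v = u}) ∧
    (∀ N : Subgroup (V ≃ₗ[ZMod p] V), ¬ p ∣ Nat.card N → H ≤ Subgroup.normalizer (N : Set (V ≃ₗ[ZMod p] V)) →
        ∀ v : V, ¬ p ∣ Nat.card {u : V | ∃ x ∈ N ⊔ H, x v = u}) := by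
  have hp : p.Prime := Fact.out
  haveI : Finite (V ≃ₗ[ZMod p] V) :=
    Finite.of_injective (fun f : V ≃ₗ[ZMod p] V => (f : V → V)) DFunLike.coe_injective
  have hH' : ∀ v : V, ¬ p ∣ (MulAction.stabilizer (V ≃ₗ[ZMod p] V) v).relIndex H := by
    intro v
    rw [← card_orbit_set]
    exact hH v
  constructor
  · intro K hKH hn v hdiv
    have e : Nat.card {u : V | ∃ k ∈ K, k v = u} =
        (MulAction.stabilizer (V ≃ₗ[ZMod p] V) v).relIndex K := card_orbit_set K v
    rw [e] at hdiv
    exact hH' v (hdiv.trans (relIndex_dvd_of_normal _ K H hKH hn))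
  · intro N hN hn v hdiv
    have e : Nat.card {u : V | ∃ x ∈ N ⊔ H, x v = u} =
        (MulAction.stabilizer (V ≃ₗ[ZMod p] V) v).relIndex (N ⊔ H) := card_orbit_set (N ⊔ H) v
    rw [e] at hdiv
    have := hdiv.trans (relIndex_sup_dvd _ N H hn)
    rcases (Nat.Prime.dvd_mul hp).mp this with h | h
    · exact hN h
    · exact hH' v h

end Cfsg.Agent.S3514
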