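import Cfsg.Statements.S3515
-- import your own Cfsg.Agent.* helpers here
import Cfsg.Agent.Lib.Helper63.AffineClosure

set_option autoImplicit false
open Cfsg

namespace Cfsg.Agent.S3515

theorem cases_four : ∀ x : Fin 2 → ZMod 2, x = 0 ∨ x = Pi.single 0 1 ∨ x = Pi.single 1 1 ∨
    x = Pi.single 0 1 + Pi.single 1 1 := by decide

theorem w_ne_zero : (Pi.single 0 1 + Pi.single 1 1 : Fin 2 → ZMod 2) ≠ 0 := by decide

theorem w_ne_one : (Pi.single 0 1 + Pi.single 1 1 : Fin 2 → ZMod 2) ≠ Pi.single 0 1 := by decide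

theorem w_ne_two : (Pi.single 0 1 + Pi.single 1 1 : Fin 2 → ZMod 2) ≠ Pi.single 1 1 := by decide

/-- Every primitive affine permutation group of degree p² is 3-closed. Let p be a prime and G a group of permutations of the plane V = F_p² consisting of affine maps x ↦ Ax + b, containing all translations, and acting primitively on V. Then any permutation σ of V that agrees on every triple of points with some element of G (σ preserves every G-orbit on ordered triples) already lies in G. -/
theorem result (p : ℕ) [Fact p.Prime] (G : Subgroup (Equiv.Perm (Fin 2 → ZMod p)))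
    (haff : (G : Set (Equiv.Perm (Fin 2 → ZMod p))) ⊆ {τ : Equiv.Perm (Fin 2 → ZMod p) | ∃ (A : (Fin 2 → ZMod p) ≃ₗ[ZMod p] (Fin 2 → ZMod p)) (b : Fin 2 → ZMod p), ∀ x, τ x = A x + b})
    (htrans : ∀ b : Fin 2 → ZMod p, ∃ g ∈ G, ∀ x, g x = x + b) (hprim : MulAction.IsPreprimitive G (Fin 2 → ZMod p))
    (σ : Equiv.Perm (Fin 2 → ZMod p)) (hσ : (∀ t : Fin 3 → (Fin 2 → ZMod p), ∃ g ∈ G, ∀ i, σ (t i) = g (t i))) : σ ∈ G := by
  obtain ⟨g, hg, hgt⟩ := hσ ![0, Pi.single 0 1, Pi.single 1 1]
  have h0 := hgt 0
  have h1 := hgt 1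
  have h2 := hgt 2
  simp only [Matrix.cons_val_zero, Matrix.cons_val_one, Matrix.cons_val] at h0 h1 h2
  suffices hs : σ = g by rw [hs]; exact hg
  by_cases hp : p = 2
  · subst hp
    have hx := cases_four
    have hw0 := w_ne_zero
    have hw1 := w_ne_one
    have hw2 := w_ne_two
    ext1 x
    rcases hx x with rfl | rfl | rfl | rfl
    · exact h0
    · exact h1
    · exact h2
    · have hy : g (g.symm (σ (Pi.single 0 1 + Pi.single 1 1))) =
          σ (Pi.single 0 1 + Pi.single 1 1) := g.apply_symm_apply _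
      rcases hx (g.symm (σ (Pi.single 0 1 + Pi.single 1 1))) with h | h | h | h
      · rw [h, ← h0] at hy
        exact absurd (σ.injective hy).symm hw0
      · rw [h, ← h1] at hy
        exact absurd (σ.injective hy).symm hw1
      · rw [h, ← h2] at hy
        exact absurd (σ.injective hy).symm hw2
      · rw [h] at hy
        exact hy.symm
  · obtain ⟨A, b, hA⟩ := Cfsg.Agent.Lib.Helper63.affine_of_triples p hp σ (fun t => by
      obtain ⟨g', hg', h⟩ := hσ t
      obtain ⟨A, b, hAb⟩ := haff hg'
      exact ⟨A, b, fun i => by rw [h i, hAb]⟩)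
    obtain ⟨A', b', hA'⟩ := haff hg
    rw [hA, hA'] at h0 h1 h2
    have hb : b = b' := by simpa using h0
    subst hb
    have e1 : A (Pi.single 0 1) = A' (Pi.single 0 1) := add_right_cancel h1
    have e2 : A (Pi.single 1 1) = A' (Pi.single 1 1) := add_right_cancel h2
    have hAA : (A : (Fin 2 → ZMod p) →ₗ[ZMod p] (Fin 2 → ZMod p)) = A' := by
      apply (Pi.basisFun (ZMod p) (Fin 2)).ext
      intro i
      rw [Pi.basisFun_apply]
      fin_cases i
      · exact e1
      · exact e2
    ext1 x
    rw [hA, hA']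
    have := congrArg (fun f => f x) hAA
    simp only [LinearEquiv.coe_coe] at this
    rw [this]

end Cfsg.Agent.S3515
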