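import Cfsg.Statements.S3516
-- import your own Cfsg.Agent.* helpers here
import Cfsg.Agent.Lib.Helper63.AffineClosure

set_option autoImplicit false
open Cfsg

namespace Cfsg.Agent.S3516

/-- Let p be an odd prime, d ≥ 3, and G a group of affine permutations x ↦ Ax + b of V = F_p^d containing all translations and all maps x ↦ Ax with A of determinant 1. Then the 3-closure of G is the full affine group: a permutation σ of V agrees on every triple of points with some element of G if and only if σ is an affine map. -/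
theorem result (p : ℕ) [Fact p.Prime] (hp : p ≠ 2) (d : ℕ) (hd : 3 ≤ d) (G : Subgroup (Equiv.Perm (Fin d → ZMod p)))
    (haff : (G : Set (Equiv.Perm (Fin d → ZMod p))) ⊆ {τ : Equiv.Perm (Fin d → ZMod p) | ∃ (A : (Fin d → ZMod p) ≃ₗ[ZMod p] (Fin d → ZMod p)) (b : Fin d → ZMod p), ∀ x, τ x = A x + b})
    (htrans : ∀ b : Fin d → ZMod p, ∃ g ∈ G, ∀ x, g x = x + b)
    (hsl : ∀ A : (Fin d → ZMod p) ≃ₗ[ZMod p] (Fin d → ZMod p), LinearMap.det (A : (Fin d → ZMod p) →ₗ[ZMod p] (Fin d → ZMod p)) = 1 → ∃ g ∈ G, ∀ x, g x = A x)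
    (σ : Equiv.Perm (Fin d → ZMod p)) :
    (∀ t : Fin 3 → (Fin d → ZMod p), ∃ g ∈ G, ∀ i, σ (t i) = g (t i)) ↔ σ ∈ {τ : Equiv.Perm (Fin d → ZMod p) | ∃ (A : (Fin d → ZMod p) ≃ₗ[ZMod p] (Fin d → ZMod p)) (b : Fin d → ZMod p), ∀ x, τ x = A x + b} := by
  constructor
  · intro h
    exact Cfsg.Agent.Lib.Helper63.affine_of_triples p hp σ (fun t => by
      obtain ⟨g', hg', h'⟩ := h t
      obtain ⟨A, b, hAb⟩ := haff hg'
      exact ⟨A, b, fun i => by rw [h' i, hAb]⟩)
  · rintro ⟨A, b, hA⟩ t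
    have hlt : Submodule.span (ZMod p) (Set.range ![t 1 - t 0, t 2 - t 0]) < ⊤ := by
      rw [lt_top_iff_ne_top]
      intro htop
      have h1 : Module.finrank (ZMod p)
          (Submodule.span (ZMod p) (Set.range ![t 1 - t 0, t 2 - t 0])) ≤ 2 := by
        have := finrank_range_le_card (R := ZMod p) ![t 1 - t 0, t 2 - t 0]
        simpa [Set.finrank] using this
      rw [htop, finrank_top, Module.finrank_fin_fun] at h1
      omega
    obtain ⟨f, hf0, hfW⟩ := Submodule.exists_le_ker_of_lt_top _ hlt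
    obtain ⟨w0, hw0⟩ : ∃ w0, f w0 ≠ 0 := by
      by_contra hcon
      push Not at hcon
      exact hf0 (LinearMap.ext hcon)
    have hdetA : LinearMap.det (A : (Fin d → ZMod p) →ₗ[ZMod p] (Fin d → ZMod p)) ≠ 0 :=
      (LinearEquiv.isUnit_det' A).ne_zero
    set c : ZMod p := (LinearMap.det (A : (Fin d → ZMod p) →ₗ[ZMod p] (Fin d → ZMod p)))⁻¹ with hc
    have hc0 : c ≠ 0 := inv_ne_zero hdetA
    have hval : 1 + f ((c - 1) • (f w0)⁻¹ • w0) = c := by
      rw [map_smul, map_smul, smul_eq_mul, smul_eq_mul, inv_mul_cancel₀ hw0]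
      ring
    have hunit : IsUnit (1 + f ((c - 1) • (f w0)⁻¹ • w0)) := by
      rw [hval]; exact hc0.isUnit
    have hfz : ∀ i, f (t i - t 0) = 0 := by
      intro i
      fin_cases i
      · simp
      · exact hfW (Submodule.subset_span ⟨0, rfl⟩)
      · exact hfW (Submodule.subset_span ⟨1, rfl⟩)
    have hD : ∀ i, LinearEquiv.dilatransvection hunit (t i) =
        LinearEquiv.dilatransvection hunit (t 0) + (t i - t 0) := by
      intro i
      have e : t i = t 0 + (t i - t 0) := by abel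
      conv_lhs => rw [e, map_add]
      congr 1
      rw [LinearEquiv.dilatransvection.apply, hfz i, zero_smul, add_zero]
    have hdet : LinearMap.det (((LinearEquiv.dilatransvection hunit).trans A :
        (Fin d → ZMod p) ≃ₗ[ZMod p] (Fin d → ZMod p)) :
        (Fin d → ZMod p) →ₗ[ZMod p] (Fin d → ZMod p)) = 1 := by
      rw [LinearEquiv.coe_trans, LinearMap.det_comp, LinearEquiv.dilatransvection.coe_toLinearMap,
        LinearMap.transvection.det, hval, hc, mul_inv_cancel₀ hdetA]
    obtain ⟨g1, hg1, h1⟩ := hsl _ hdet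
    obtain ⟨g2, hg2, h2⟩ := htrans (A (t 0) + b - A (LinearEquiv.dilatransvection hunit (t 0)))
    refine ⟨g2 * g1, G.mul_mem hg2 hg1, fun i => ?_⟩
    rw [Equiv.Perm.mul_apply, h2, h1, LinearEquiv.trans_apply, hD i, map_add, map_sub, hA]
    abel

end Cfsg.Agent.S3516
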