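import Cfsg.Statements.S3517
-- import your own Cfsg.Agent.* helpers here

set_option autoImplicit false
open Cfsg

namespace Cfsg.Agent.S3517

theorem exists_linearEquiv_of_same_relations {K V : Type*} [Field K] [AddCommGroup V] [Module K V]
    [FiniteDimensional K V] (u v u' v' : V)
    (h : ∀ a b : K, a • u + b • v = 0 ↔ a • u' + b • v' = 0) :
    ∃ g : V ≃ₗ[K] V, g u = u' ∧ g v = v' := by
  let φ : (K × K) →ₗ[K] V :=
    (LinearMap.toSpanSingleton K V u).coprod (LinearMap.toSpanSingleton K V v)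
  let φ' : (K × K) →ₗ[K] V :=
    (LinearMap.toSpanSingleton K V u').coprod (LinearMap.toSpanSingleton K V v')
  have hφ : ∀ z : K × K, φ z = z.1 • u + z.2 • v := fun z => by
    simp [φ, LinearMap.coprod_apply, LinearMap.toSpanSingleton_apply]
  have hφ' : ∀ z : K × K, φ' z = z.1 • u' + z.2 • v' := fun z => by
    simp [φ', LinearMap.coprod_apply, LinearMap.toSpanSingleton_apply]
  have hker : LinearMap.ker φ = LinearMap.ker φ' := by
    ext z
    rw [LinearMap.mem_ker, LinearMap.mem_ker, hφ, hφ']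
    exact h z.1 z.2
  let f : LinearMap.range φ ≃ₗ[K] LinearMap.range φ' :=
    φ.quotKerEquivRange.symm ≪≫ₗ (Submodule.quotEquivOfEq _ _ hker) ≪≫ₗ φ'.quotKerEquivRange
  have hf : ∀ z : K × K, (f ⟨φ z, LinearMap.mem_range_self φ z⟩ : V) = φ' z := by
    intro z
    simp only [f, LinearEquiv.trans_apply]
    rw [LinearMap.quotKerEquivRange_symm_apply_image]
    simp
  obtain ⟨g, hg⟩ := Submodule.exists_linearEquiv_restrict_eq f
  refine ⟨g, ?_, ?_⟩
  · have h1 := hg ⟨φ (1, 0), LinearMap.mem_range_self φ _⟩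
    rw [hf] at h1
    simp only [hφ, hφ'] at h1
    simpa using h1.symm
  · have h1 := hg ⟨φ (0, 1), LinearMap.mem_range_self φ _⟩
    rw [hf] at h1
    simp only [hφ, hφ'] at h1
    simpa using h1.symm

/-- For d ≥ 3, the 3-closure of the affine group AGL_d(2) acting on F_2^d is the full symmetric group: every permutation of F_2^d agrees on every ordered triple of points with some affine map (AGL_d(2) is 3-transitive). -/
theorem result (d : ℕ) (hd : 3 ≤ d) (σ : Equiv.Perm (Fin d → ZMod 2)) (t : Fin 3 → (Fin d → ZMod 2)) :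
    ∃ (A : (Fin d → ZMod 2) ≃ₗ[ZMod 2] (Fin d → ZMod 2)) (b : Fin d → ZMod 2), ∀ i, σ (t i) = A (t i) + b := by
  have hchar : ∀ x : Fin d → ZMod 2, x + x = 0 := by
    intro x
    ext i
    have : ∀ a : ZMod 2, a + a = 0 := by decide
    exact this (x i)
  have hsub : ∀ x y : Fin d → ZMod 2, x - y = 0 ↔ x = y := fun x y => sub_eq_zero
  have hrel : ∀ a b : ZMod 2, a • (t 1 - t 0) + b • (t 2 - t 0) = 0 ↔
      a • (σ (t 1) - σ (t 0)) + b • (σ (t 2) - σ (t 0)) = 0 := by
    have key : ∀ x y z : Fin d → ZMod 2, (x - z) + (y - z) = 0 ↔ x = y := by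
      intro x y z
      have e : (x - z) + (y - z) = (x - y) + ((y + y) - (z + z)) := by abel
      rw [e, hchar, hchar, sub_zero, add_zero, sub_eq_zero]
    have h2 : ∀ a : ZMod 2, a = 0 ∨ a = 1 := by decide
    intro a b
    rcases h2 a with rfl | rfl <;> rcases h2 b with rfl | rfl
    · simp
    · simp [sub_eq_zero]
    · simp [sub_eq_zero]
    · simp only [one_smul]
      rw [key, key]
      exact σ.injective.eq_iff.symm
  obtain ⟨g, hg1, hg2⟩ := exists_linearEquiv_of_same_relations _ _ _ _ hrel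
  refine ⟨g, σ (t 0) - g (t 0), ?_⟩
  intro i
  fin_cases i
  · simp
  · have : g (t 1) = σ (t 1) - σ (t 0) + g (t 0) := by
      rw [← hg1, map_sub]; abel
    simp only [Fin.mk_one, Fin.isValue]
    rw [this]; abel
  · have : g (t 2) = σ (t 2) - σ (t 0) + g (t 0) := by
      rw [← hg2, map_sub]; abel
    simp only [Fin.reduceFinMk, Fin.isValue]
    rw [this]; abel

end Cfsg.Agent.S3517
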