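import Cfsg.Statements.S3518
-- import your own Cfsg.Agent.* helpers here
import Cfsg.Agent.Lib.Helper63.McConnel
import Cfsg.Agent.S3524

set_option autoImplicit false
open Cfsg

namespace Cfsg.Agent.S3518

/-- Closures of subgroups of the one-dimensional affine group. Let p be a prime and G a group of permutations of F_p lying in the affine group AGL₁(p) = {x ↦ ax + b, a ≠ 0} and containing all translations. (1) If G is a proper subgroup of AGL₁(p), then G is 2-closed: a permutation of F_p agreeing on every ordered pair of points with some element of G lies in G. (2) Every permutation of F_p agrees on every ordered pair with some element of AGL₁(p) (the 2-closure of AGL₁(p) is the symmetric group). (3) AGL₁(p) is 3-closed: a permutation agreeing on every ordered triple with some affine map is affine. -/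
theorem result (p : ℕ) [Fact p.Prime] (G : Subgroup (Equiv.Perm (ZMod p))) (hG : G ≤ Cfsg.affineGroup (ZMod p))
    (htrans : ∀ b : ZMod p, ∃ g ∈ G, ∀ x, g x = x + b) :
    (G ≠ Cfsg.affineGroup (ZMod p) → ∀ σ : Equiv.Perm (ZMod p), (∀ t : Fin 2 → ZMod p, ∃ g ∈ G, ∀ i, σ (t i) = g (t i)) → σ ∈ G) ∧
    (∀ σ : Equiv.Perm (ZMod p), (∀ t : Fin 2 → ZMod p, ∃ g ∈ Cfsg.affineGroup (ZMod p), ∀ i, σ (t i) = g (t i))) ∧
    (∀ σ : Equiv.Perm (ZMod p), (∀ t : Fin 3 → ZMod p, ∃ g ∈ Cfsg.affineGroup (ZMod p), ∀ i, σ (t i) = g (t i)) → σ ∈ Cfsg.affineGroup (ZMod p)) := by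
  classical
  have hp : p.Prime := Fact.out
  refine ⟨?_, ?_, ?_⟩
  · intro hne σ hσ
    let A : Subgroup (ZMod p)ˣ := G.comap (MulAction.toPermHom (ZMod p)ˣ (ZMod p))
    have hmemA : ∀ a : (ZMod p)ˣ, a ∈ A ↔ MulAction.toPerm a ∈ G := fun a => Iff.rfl
    have hlin : ∀ g ∈ G, ∀ (a : (ZMod p)ˣ) (b : ZMod p), (∀ x, g x = a * x + b) → a ∈ A := by
      intro g hg a b hgab
      obtain ⟨g', hg', h'⟩ := htrans (-b)
      have : MulAction.toPerm a = g' * g := by
        ext x
        simp [h', hgab, Units.smul_def]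
      rw [hmemA, this]
      exact G.mul_mem hg' hg
    have hAtop : A ≠ ⊤ := by
      intro htop
      apply hne
      apply le_antisymm hG
      rintro g ⟨a, b, hgab⟩
      obtain ⟨g', hg', h'⟩ := htrans b
      have ha : MulAction.toPerm a ∈ G := (hmemA a).mp (by rw [htop]; trivial)
      have : g = g' * MulAction.toPerm a := by
        ext x
        simp [h', hgab, Units.smul_def]
      rw [this]
      exact G.mul_mem hg' ha
    have hm1 : 1 ≤ Nat.card A := Nat.card_pos
    have hdvd : Nat.card A ∣ p - 1 := by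
      have := Subgroup.card_subgroup_dvd_card A
      rwa [Nat.card_eq_fintype_card (α := (ZMod p)ˣ), ZMod.card_units] at this
    have hmlt : Nat.card A ≠ p - 1 := by
      intro h
      apply hAtop
      apply Subgroup.eq_top_of_card_eq
      rw [Nat.card_eq_fintype_card (α := (ZMod p)ˣ), ZMod.card_units]
      exact h
    have hm2 : 2 * Nat.card A ≤ p - 1 := by
      obtain ⟨c, hc⟩ := hdvd
      have hp2 := hp.two_le
      have hc0 : c ≠ 0 := by
        rintro rfl
        omega
      have hc1 : c ≠ 1 := by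
        rintro rfl
        omega
      have hc2 : 2 ≤ c := by omega
      rw [hc, mul_comm]
      exact Nat.mul_le_mul_left _ hc2
    have hpow : ∀ x y, (σ x - σ y) ^ Nat.card A = (x - y) ^ Nat.card A := by
      intro x y
      obtain ⟨g, hg, hgt⟩ := hσ ![x, y]
      obtain ⟨a, b, hgab⟩ := hG hg
      have ha := hlin g hg a b hgab
      have ham : a ^ Nat.card A = 1 := by
        have := pow_card_eq_one' (G := A) (x := ⟨a, ha⟩)
        exact congrArg Subtype.val this
      have h0 := hgt 0
      have h1 := hgt 1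
      simp only [Matrix.cons_val_zero, Matrix.cons_val_one] at h0 h1
      rw [h0, h1, hgab, hgab]
      have e : (a : ZMod p) * x + b - (a * y + b) = a * (x - y) := by ring
      rw [e, mul_pow, ← Units.val_pow_eq_pow_val, ham, Units.val_one, one_mul]
    obtain ⟨a, b, hab⟩ := Cfsg.Agent.Lib.Helper63.mcconnel_prime p _ hm1 hm2 σ hpow
    obtain ⟨g, hg, hgt⟩ := hσ ![0, 1]
    obtain ⟨a', b', hgab⟩ := hG hg
    have h0 := hgt 0
    have h1 := hgt 1
    simp only [Matrix.cons_val_zero, Matrix.cons_val_one] at h0 h1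
    rw [hab, hgab] at h0 h1
    simp only [mul_zero, zero_add, mul_one] at h0 h1
    subst h0
    have ha : a = a' := add_right_cancel h1
    have : σ = g := by
      ext1 x
      rw [hab, hgab, ha]
    rw [this]
    exact hg
  · intro σ t
    by_cases h01 : t 0 = t 1
    · refine ⟨Equiv.addRight (σ (t 0) - t 0), ⟨1, σ (t 0) - t 0, fun x => by simp⟩, fun i => ?_⟩
      fin_cases i
      · simp
      · simp [← h01]
    · have hne : t 1 - t 0 ≠ 0 := sub_ne_zero.mpr (Ne.symm h01)
      have hne' : σ (t 1) - σ (t 0) ≠ 0 := sub_ne_zero.mpr (fun h => h01 (σ.injective h).symm)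
      refine ⟨(Units.mulLeft (Units.mk0 ((σ (t 1) - σ (t 0)) / (t 1 - t 0))
        (div_ne_zero hne' hne))).trans (Equiv.addRight (σ (t 0) -
          ((σ (t 1) - σ (t 0)) / (t 1 - t 0)) * t 0)),
        ⟨Units.mk0 ((σ (t 1) - σ (t 0)) / (t 1 - t 0)) (div_ne_zero hne' hne),
          σ (t 0) - ((σ (t 1) - σ (t 0)) / (t 1 - t 0)) * t 0,
          fun x => by simp⟩, fun i => ?_⟩
      fin_cases i
      · simp
      · simp only [Fin.mk_one, Fin.isValue, Equiv.trans_apply, Units.mulLeft_apply, Units.val_mk0,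
          Equiv.coe_addRight]
        field_simp
        ring
  · intro σ hσ
    apply Cfsg.Agent.S3524.result (Cfsg.affineGroup (ZMod p)) 2 ![0, 1] ?_ σ hσ
    rintro g ⟨a, b, hgab⟩ hfix
    have h0 := hfix 0
    have h1 := hfix 1
    simp only [Matrix.cons_val_zero, Matrix.cons_val_one] at h0 h1
    rw [hgab] at h0 h1
    simp only [mul_zero, zero_add, mul_one] at h0 h1
    subst h0
    ext1 x
    rw [hgab]
    rw [add_zero] at h1
    rw [h1]
    simp

end Cfsg.Agent.S3518
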