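import Cfsg.Statements.S3547
-- import your own Cfsg.Agent.* helpers here
import Cfsg.Agent.Lib.Helper63.Derangement

set_option autoImplicit false
open Cfsg

namespace Cfsg.Agent.S3547

/-- Let G act faithfully and transitively on a finite set Ω, let D be the subgroup generated by the derangements, and let r_G and r_D be the numbers of orbits of G and of D on ordered pairs of points (the permutation ranks). Then r_D − 1 = (r_G − 1)·[G : D]. -/
theorem result {G Ω : Type*} [Group G] [Finite G] [MulAction G Ω] [FaithfulSMul G Ω] [Finite Ω]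
    (htrans : MulAction.IsPretransitive G Ω) :
    Nat.card (MulAction.orbitRel.Quotient ↥(Subgroup.closure {g : G | ∀ ω : Ω, g • ω ≠ ω}) (Ω × Ω)) - 1 =
      (Nat.card (MulAction.orbitRel.Quotient G (Ω × Ω)) - 1) * (Subgroup.closure {g : G | ∀ ω : Ω, g • ω ≠ ω}).index := by
  classical
  rcases isEmpty_or_nonempty Ω with hE | hN
  · have h1 : IsEmpty (MulAction.orbitRel.Quotient G (Ω × Ω)) := by
      constructor
      intro q
      induction q using Quotient.inductionOn' with
      | h a => exact isEmptyElim a.1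
    have h2 : IsEmpty (MulAction.orbitRel.Quotient
        ↥(Subgroup.closure {g : G | ∀ ω : Ω, g • ω ≠ ω}) (Ω × Ω)) := by
      constructor
      intro q
      induction q using Quotient.inductionOn' with
      | h a => exact isEmptyElim a.1
    simp
  · obtain ⟨-, h2⟩ := Cfsg.Agent.Lib.Helper63.derSub_main (G := G) (Ω := Ω)
    have := Fintype.ofFinite G
    have hG := Cfsg.Agent.Lib.Helper63.burnside_card (G := G) (Ω := Ω × Ω)
    have hD := Cfsg.Agent.Lib.Helper63.burnside_card_subgroup (Ω := Ω × Ω)
      (Cfsg.Agent.Lib.Helper63.derSub G Ω)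
    have hsplit := Finset.sum_filter_add_sum_filter_not Finset.univ
      (· ∈ Cfsg.Agent.Lib.Helper63.derSub G Ω)
      (fun g => Nat.card (MulAction.fixedBy (Ω × Ω) g))
    have hcard := Finset.card_filter_add_card_filter_not (s := (Finset.univ : Finset G))
      (· ∈ Cfsg.Agent.Lib.Helper63.derSub G Ω)
    have hcD : (Finset.univ.filter (· ∈ Cfsg.Agent.Lib.Helper63.derSub G Ω)).card =
        Nat.card (Cfsg.Agent.Lib.Helper63.derSub G Ω) := by
      rw [Nat.card_eq_fintype_card, Fintype.card_subtype]
    have hout : ∑ g ∈ Finset.univ.filter (fun g => ¬ g ∈ Cfsg.Agent.Lib.Helper63.derSub G Ω),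
        Nat.card (MulAction.fixedBy (Ω × Ω) g) =
        (Finset.univ.filter (fun g => ¬ g ∈ Cfsg.Agent.Lib.Helper63.derSub G Ω)).card := by
      rw [Finset.card_eq_sum_ones]
      apply Finset.sum_congr rfl
      intro g hg
      rw [Cfsg.Agent.Lib.Helper63.card_fixedBy_prod, h2 g (Finset.mem_filter.mp hg).2, one_pow]
    rw [hD, hG, hout] at hsplit
    rw [hcD, Finset.card_univ, ← Nat.card_eq_fintype_card] at hcard
    have hidx := Subgroup.card_mul_index (Cfsg.Agent.Lib.Helper63.derSub G Ω)
    have hDpos : 0 < Nat.card (Cfsg.Agent.Lib.Helper63.derSub G Ω) := Nat.card_pos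
    have hrG : 1 ≤ Nat.card (MulAction.orbitRel.Quotient G (Ω × Ω)) := by
      have : Nonempty (MulAction.orbitRel.Quotient G (Ω × Ω)) :=
        ⟨Quotient.mk'' (Classical.arbitrary Ω, Classical.arbitrary Ω)⟩
      exact Nat.card_pos
    show Nat.card (MulAction.orbitRel.Quotient (Cfsg.Agent.Lib.Helper63.derSub G Ω) (Ω × Ω)) - 1 =
      (Nat.card (MulAction.orbitRel.Quotient G (Ω × Ω)) - 1) *
        (Cfsg.Agent.Lib.Helper63.derSub G Ω).index
    generalize Nat.card (MulAction.orbitRel.Quotient (Cfsg.Agent.Lib.Helper63.derSub G Ω) (Ω × Ω))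
      = rD at *
    generalize Nat.card (MulAction.orbitRel.Quotient G (Ω × Ω)) = rG at *
    generalize (Cfsg.Agent.Lib.Helper63.derSub G Ω).index = m at *
    generalize Nat.card (Cfsg.Agent.Lib.Helper63.derSub G Ω) = d at *
    generalize (Finset.univ.filter (fun g => ¬ g ∈ Cfsg.Agent.Lib.Helper63.derSub G Ω)).card
      = c at *
    generalize Nat.card G = N at *
    subst hidx
    obtain ⟨r', rfl⟩ : ∃ r', rG = r' + 1 := ⟨rG - 1, by omega⟩
    have h3 : d * (rD + m) = d * ((r' + 1) * m + 1) := by
      have : rD * d + c + d = (r' + 1) * (d * m) + d := by omega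
      nlinarith
    have h4 := Nat.eq_of_mul_eq_mul_left hDpos h3
    have h5 : rD = r' * m + 1 := by nlinarith
    simp [h5]

end Cfsg.Agent.S3547
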