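import Cfsg.Statements.S3548
-- import your own Cfsg.Agent.* helpers here
import Cfsg.Agent.Lib.Helper63.Derangement2

set_option autoImplicit false
open Cfsg

namespace Cfsg.Agent.S3548

open Cfsg.Agent.Lib.Helper63 MulAction

/-- Let G act faithfully and transitively on a finite set with n ≥ 2 points and let D be the subgroup generated by the derangements. Then the index of D in G divides n − 1, and if it equals n − 1 then n is a prime power. -/
theorem result {G Ω : Type*} [Group G] [Finite G] [MulAction G Ω] [FaithfulSMul G Ω] [Finite Ω]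
    (htrans : MulAction.IsPretransitive G Ω) (hΩ : 2 ≤ Nat.card Ω) :
    (Subgroup.closure {g : G | ∀ ω : Ω, g • ω ≠ ω}).index ∣ Nat.card Ω - 1 ∧
    ((Subgroup.closure {g : G | ∀ ω : Ω, g • ω ≠ ω}).index = Nat.card Ω - 1 → IsPrimePow (Nat.card Ω)) := by
  classical
  have hne : Nonempty Ω := by
    by_contra h
    rw [not_nonempty_iff] at h
    simp at hΩ
  obtain ⟨α⟩ := hne
  have hcompl : Nat.card ({α}ᶜ : Set Ω) = Nat.card Ω - 1 := by
    rw [Nat.card_coe_set_eq, Set.ncard_compl, Set.ncard_singleton]
  have hinv : ∀ g : G, g • α = α → ∀ x ∈ ({α}ᶜ : Set Ω), g • x ∈ ({α}ᶜ : Set Ω) := by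
    intro g hg x hx hgx
    apply hx
    simp only [Set.mem_singleton_iff] at hgx ⊢
    rw [← hg] at hgx
    exact smul_left_cancel g hgx
  have hdvd : (derSub G Ω).index ∣ Nat.card Ω - 1 := by
    rw [← hcompl]
    exact index_dvd_card_of_invariant α _ (by simp) hinv
  refine ⟨hdvd, fun hm => ?_⟩
  change (derSub G Ω).index = Nat.card Ω - 1 at hm
  have hnorm := derSub_normal (G := G) (Ω := Ω)
  have hN : Nonempty Ω := ⟨α⟩
  have htD := (derSub_main (G := G) (Ω := Ω)).1
  have hmpos : 0 < (derSub G Ω).index := by omega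
  -- orbits of the stabilizer
  have horb : ∀ β : Ω, β ≠ α → orbit (stabilizer G α) β = ({α}ᶜ : Set Ω) := by
    intro β hβ
    have hsub : orbit (stabilizer G α) β ⊆ ({α}ᶜ : Set Ω) := by
      rintro _ ⟨⟨g, hg⟩, rfl⟩
      exact hinv g hg β (by simpa using hβ)
    apply Set.eq_of_subset_of_ncard_le hsub
    have h1 := index_dvd_card_orbit (G := G) hβ
    have h2 : 0 < Nat.card (orbit (stabilizer G α) β) := by
      have : Nonempty (orbit (stabilizer G α) β) := ⟨⟨β, mem_orbit_self β⟩⟩
      exact Nat.card_pos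
    have h3 := Nat.le_of_dvd h2 h1
    rw [Nat.card_coe_set_eq] at h3 hcompl
    omega
  have hDα : ∀ d ∈ derSub G Ω, d • α = α → d = 1 := by
    intro d hd hdα
    apply FaithfulSMul.eq_of_smul_eq_smul (α := Ω)
    intro β
    rw [one_smul]
    by_cases hβ : β = α
    · rw [hβ]; exact hdα
    · have h1 : (stabilizer (stabilizer G α) β).index = (derSub G Ω).index := by
        rw [index_stabilizer, horb β hβ, ← Nat.card_coe_set_eq, hcompl, hm]
      have h2 : ((derSub G Ω).subgroupOf (stabilizer G α)).index = (derSub G Ω).index :=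
        derSub_relIndex_stabilizer α
      have h3 : stabilizer (stabilizer G α) β ≤ (derSub G Ω).subgroupOf (stabilizer G α) := by
        rintro ⟨h, hα⟩ hβ'
        exact mem_derSub_of_two_fixed hβ hα hβ'
      have h4 := Subgroup.relIndex_mul_index h3
      rw [h1, h2] at h4
      have h5 : (stabilizer (stabilizer G α) β).relIndex
          ((derSub G Ω).subgroupOf (stabilizer G α)) = 1 := by
        have := Nat.eq_of_mul_eq_mul_right hmpos (h4.trans (one_mul _).symm)
        exact this
      rw [Subgroup.relIndex_eq_one] at h5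
      have h6 : (⟨d, hdα⟩ : stabilizer G α) ∈ (derSub G Ω).subgroupOf (stabilizer G α) := hd
      exact h5 h6
  have hcardD : Nat.card (derSub G Ω) = Nat.card Ω := by
    have h1 := index_stabilizer_of_transitive (derSub G Ω) α
    have hbot : stabilizer (derSub G Ω) α = ⊥ := by
      rw [Subgroup.eq_bot_iff_forall]
      rintro ⟨d, hd⟩ hdα
      exact Subtype.ext (hDα d hd hdα)
    rw [hbot, Subgroup.index_bot] at h1
    exact h1
  obtain ⟨p, hp, hpn⟩ := Nat.exists_prime_and_dvd (show Nat.card Ω ≠ 1 by omega)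
  have hpF := Fact.mk hp
  obtain ⟨⟨x, hxD⟩, hx⟩ := exists_prime_orderOf_dvd_card' (G := derSub G Ω) p (hcardD ▸ hpn)
  have hx' : orderOf x = p := by
    rw [← hx]; exact (Subgroup.orderOf_mk x hxD).symm
  have hx1 : x ≠ 1 := by
    rintro rfl
    rw [orderOf_one] at hx'
    exact hp.one_lt.ne hx'
  have hall : ∀ y ∈ derSub G Ω, y ^ p = 1 := by
    intro y hy
    by_cases hy1 : y = 1
    · rw [hy1, one_pow]
    · have hyα : y • α ≠ α := fun h => hy1 (hDα y hy h)
      have hxα : x • α ≠ α := fun h => hx1 (hDα x hxD h)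
      have hmem : y • α ∈ orbit (stabilizer G α) (x • α) := by
        rw [horb _ hxα]; simpa using hyα
      obtain ⟨⟨h, hh⟩, hhx⟩ := hmem
      have hhx' : h • x • α = y • α := hhx
      have hh' : h • α = α := hh
      have hconj : y⁻¹ * (h * x * h⁻¹) = 1 := by
        apply hDα
        · exact Subgroup.mul_mem _ (Subgroup.inv_mem _ hy) (hnorm.conj_mem x hxD h)
        · have e1 : h⁻¹ • α = α := by
            rw [inv_smul_eq_iff, hh']
          rw [mul_smul, mul_smul, mul_smul, e1, hhx', inv_smul_smul]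
      have hyeq : y = h * x * h⁻¹ := by
        have := congrArg (fun z => y * z) hconj
        simpa using this.symm
      rw [hyeq, conj_pow, ← hx', pow_orderOf_eq_one]
      simp
  have hpg : IsPGroup p (derSub G Ω) := by
    rintro ⟨y, hy⟩
    refine ⟨1, ?_⟩
    apply Subtype.ext
    simpa using hall y hy
  obtain ⟨k, hk⟩ := IsPGroup.iff_card.mp hpg
  rw [hcardD] at hk
  have hk0 : 0 < k := by
    rcases Nat.eq_zero_or_pos k with h | h
    · rw [h, pow_zero] at hk; omega
    · exact h
  exact ⟨p, k, hp.prime, hk0, hk.symm⟩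

end Cfsg.Agent.S3548
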