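import Cfsg.Statements.S3549
-- import your own Cfsg.Agent.* helpers here
import Cfsg.Agent.Lib.Helper63.Derangement2
import Cfsg.Agent.S3548

set_option autoImplicit false
open Cfsg

namespace Cfsg.Agent.S3549

open Cfsg.Agent.Lib.Helper63 MulAction
open scoped Pointwise

/-- Let G act faithfully, transitively but imprimitively on a finite set with n points, and let D be the subgroup generated by the derangements. Then the index of D in G is at most √n − 1. -/
theorem result {G Ω : Type*} [Group G] [Finite G] [MulAction G Ω] [FaithfulSMul G Ω] [Finite Ω]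
    (htrans : MulAction.IsPretransitive G Ω) (himp : ¬ MulAction.IsPreprimitive G Ω) :
    ((Subgroup.closure {g : G | ∀ ω : Ω, g • ω ≠ ω}).index : ℝ) ≤ Real.sqrt (Nat.card Ω) - 1 := by
  classical
  obtain ⟨B, hB, hBt⟩ : ∃ B : Set Ω, IsBlock G B ∧ ¬ IsTrivialBlock B := by
    by_contra h
    push Not at h
    exact himp ⟨fun {B} hB => h B hB⟩
  rw [IsTrivialBlock, not_or] at hBt
  obtain ⟨hBs, hBu⟩ := hBt
  rw [Set.not_subsingleton_iff] at hBs
  obtain ⟨α, hα⟩ := hBs.nonempty
  obtain ⟨a, ha⟩ := hB.ncard_dvd_card ⟨α, hα⟩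
  have hb2 : 2 ≤ B.ncard := by
    have := Set.one_lt_ncard_iff_nontrivial.mpr hBs
    omega
  have hnpos : 0 < Nat.card Ω := by
    have : Nonempty Ω := ⟨α⟩
    exact Nat.card_pos
  have ha2 : 2 ≤ a := by
    rcases Nat.lt_or_ge a 2 with h | h
    · exfalso
      interval_cases a
      · omega
      · apply hBu
        apply Set.eq_of_subset_of_ncard_le (Set.subset_univ B)
        rw [Set.ncard_univ, ha, mul_one]
    · exact h
  have hn2 : 2 ≤ Nat.card Ω := by
    rw [ha]; nlinarith
  have h2 : (derSub G Ω).index ∣ Nat.card Ω - 1 := (Cfsg.Agent.S3548.result htrans hn2).1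
  have h1 : (derSub G Ω).index ∣ B.ncard - 1 := by
    have hc : Nat.card (B \ {α} : Set Ω) = B.ncard - 1 := by
      rw [Nat.card_coe_set_eq, Set.ncard_sdiff_singleton_of_mem hα]
    rw [← hc]
    apply index_dvd_card_of_invariant α
    · simp
    · intro g hg x hx
      have hgB : g • B = B := hB.smul_eq_of_mem hα (by rw [hg]; exact hα)
      refine ⟨?_, ?_⟩
      · rw [← hgB]; exact Set.smul_mem_smul_set hx.1
      · intro hgx
        apply hx.2
        simp only [Set.mem_singleton_iff] at hgx ⊢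
        rw [← hg] at hgx
        exact smul_left_cancel g hgx
  have h3 : (derSub G Ω).index ∣ a - 1 := by
    have e : Nat.card Ω - 1 = a * (B.ncard - 1) + (a - 1) := by
      rw [ha]
      obtain ⟨b', hb'⟩ : ∃ b', B.ncard = b' + 1 := ⟨B.ncard - 1, by omega⟩
      obtain ⟨a', rfl⟩ : ∃ a', a = a' + 1 := ⟨a - 1, by omega⟩
      rw [hb']
      simp only [Nat.add_sub_cancel]
      have : (b' + 1) * (a' + 1) = (a' + 1) * b' + a' + 1 := by ring
      omega
    rw [e] at h2
    exact (Nat.dvd_add_right (Dvd.dvd.mul_left h1 a)).mp h2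
  have h4 : (derSub G Ω).index + 1 ≤ a := by
    have := Nat.le_of_dvd (by omega) h3
    omega
  have h5 : (derSub G Ω).index + 1 ≤ B.ncard := by
    have := Nat.le_of_dvd (by omega) h1
    omega
  have h6 : ((derSub G Ω).index + 1) ^ 2 ≤ Nat.card Ω := by
    rw [ha, sq]
    exact Nat.mul_le_mul h5 h4
  have h7 : (((derSub G Ω).index : ℝ) + 1) ≤ Real.sqrt (Nat.card Ω) := by
    rw [Real.le_sqrt' (by positivity)]
    exact_mod_cast h6
  change ((derSub G Ω).index : ℝ) ≤ Real.sqrt (Nat.card Ω) - 1
  linarith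

end Cfsg.Agent.S3549
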