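import Cfsg.Statements.S3560
-- import your own Cfsg.Agent.* helpers here
import Cfsg.Agent.Lib.Helper63.Hamming

set_option autoImplicit false
open Cfsg

namespace Cfsg.Agent.S3560

/-- Let K be a finite group isomorphic to a direct product of r ≥ 2 groups all of the same order m ≥ 3. Then K is not a B-group: there is a primitive but not doubly transitive permutation group (on some finite set) containing a regular subgroup isomorphic to K. -/
theorem result {K : Type*} [Group K] [Finite K] {ι : Type*} [Fintype ι] (F : ι → Type*) [∀ i, Group (F i)]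
    (hr : 2 ≤ Fintype.card ι) (m : ℕ) (hm : 3 ≤ m) (hcard : ∀ i, Nat.card (F i) = m) (e : K ≃* (∀ i, F i)) :
    ∃ (n : ℕ) (G R : Subgroup (Equiv.Perm (Fin n))), R ≤ G ∧ Nonempty (↥R ≃* K) ∧
      MulAction.IsPretransitive ↥R (Fin n) ∧ (∀ a : Fin n, MulAction.stabilizer ↥R a = ⊥) ∧
      MulAction.IsPreprimitive ↥G (Fin n) ∧ ¬ MulAction.IsMultiplyPretransitive ↥G (Fin n) 2 := by
  classical
  have hfin : ∀ i, Finite (F i) := fun i => by
    apply Nat.finite_of_card_ne_zero
    rw [hcard i]; omega
  let ε : ∀ i, F i ≃ Fin m := fun i => Finite.equivFinOfCardEq (hcard i)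
  let n := Fintype.card (ι → Fin m)
  let E' : (ι → Fin m) ≃ Fin n := Fintype.equivFin _
  let Ψ : (∀ i, F i) ≃ (ι → Fin m) := Equiv.piCongrRight ε
  let Φ : (∀ i, F i) ≃ Fin n := Ψ.trans E'
  let f : (∀ i, F i) →* Equiv.Perm (Fin n) :=
    Φ.permCongrHom.toMonoidHom.comp (MulAction.toPermHom (∀ i, F i) (∀ i, F i))
  have hf_apply : ∀ (p : ∀ i, F i) (a : Fin n), f p a = Φ (p * Φ.symm a) := by
    intro p a
    rfl
  have hf_inj : Function.Injective f := by
    intro p q hpq
    have := congrArg (fun σ : Equiv.Perm (Fin n) => σ (Φ 1)) hpq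
    simp only [hf_apply] at this
    simpa using this
  have h3 : ∀ a b : Fin m, ∃ c, c ≠ a ∧ c ≠ b := by
    intro a b
    by_contra hcon
    push Not at hcon
    have hsub : (Finset.univ : Finset (Fin m)) ⊆ {a, b} := by
      intro c _
      by_cases hca : c = a
      · simp [hca]
      · simp [hcon c hca]
    have := Finset.card_le_card hsub
    have h2 : ({a, b} : Finset (Fin m)).card ≤ 2 := Finset.card_le_two
    simp at this
    omega
  refine ⟨n, (Lib.Helper63.hamGroup ι (Fin m)).map E'.permCongrHom.toMonoidHom, f.range,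
    ?_, ?_, ?_, ?_, ?_, ?_⟩
  · rintro _ ⟨p, rfl⟩
    refine ⟨Lib.Helper63.wrPerm (fun k => (ε k).permCongr (MulAction.toPerm (p k))) 1,
      Lib.Helper63.wrPerm_mem _ _, ?_⟩
    ext a
    rw [hf_apply]
    congr 1
  · exact ⟨((MonoidHom.ofInjective hf_inj).symm).trans e.symm⟩
  · constructor
    intro a b
    refine ⟨⟨f (Φ.symm b * (Φ.symm a)⁻¹), ⟨_, rfl⟩⟩, ?_⟩
    change f (Φ.symm b * (Φ.symm a)⁻¹) a = b
    rw [hf_apply]
    simp
  · intro a
    rw [eq_bot_iff]
    rintro ⟨_, ⟨p, rfl⟩⟩ hp
    have hp' : f p a = a := hp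
    rw [hf_apply] at hp'
    have : p * Φ.symm a = Φ.symm a := by
      rw [Equiv.eq_symm_apply]; exact hp'
    have hp1 : p = 1 := mul_eq_right.mp this
    subst hp1
    simp
  · haveI := Lib.Helper63.hamGroup_isPreprimitive (ι := ι) (A := Fin m) h3
    let φ : Lib.Helper63.hamGroup ι (Fin m) →
        (Lib.Helper63.hamGroup ι (Fin m)).map E'.permCongrHom.toMonoidHom :=
      fun g => ⟨E'.permCongrHom g, ⟨g, g.2, rfl⟩⟩
    let ff : (ι → Fin m) →ₑ[φ] Fin n :=
      { toFun := E'
        map_smul' := by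
          intro g x
          change E' (g.1 x) = E' (g.1 (E'.symm (E' x)))
          simp }
    exact MulAction.IsPreprimitive.of_surjective (f := ff) E'.surjective
  · intro h2
    rw [MulAction.is_two_pretransitive_iff] at h2
    have hι : ∃ i j : ι, i ≠ j := by
      have : 1 < Fintype.card ι := by omega
      rw [Fintype.one_lt_card_iff] at this
      exact this
    have hA : ∃ a b : Fin m, a ≠ b := by
      have : 1 < Fintype.card (Fin m) := by simp; omega
      rw [Fintype.one_lt_card_iff] at this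
      exact this
    apply Lib.Helper63.hamGroup_not_two hι hA
    intro a b c d hab hcd
    obtain ⟨⟨_, ⟨g, hg, rfl⟩⟩, h1, h2⟩ := h2 (E'.injective.ne hab) (E'.injective.ne hcd)
    refine ⟨⟨g, hg⟩, ?_, ?_⟩
    · have h1' : E' (g (E'.symm (E' a))) = E' c := h1
      simpa using h1'
    · have h2' : E' (g (E'.symm (E' b))) = E' d := h2
      simpa using h2'

end Cfsg.Agent.S3560
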