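import Cfsg.Statements.S3627
import Cfsg.Agent.Lib.Helper93.J1Spec

set_option autoImplicit false
open Cfsg

namespace Cfsg.Agent.S3627

/-- the action of `±1` on a commutative group by inversion. -/
def phi (N : Type) [CommGroup N] : ℤˣ →* MulAut N where
  toFun u := if u = 1 then 1 else MulEquiv.inv N
  map_one' := by simp
  map_mul' := by
    intro u v
    rcases Int.units_eq_one_or u with rfl | rfl <;> rcases Int.units_eq_one_or v with rfl | rfl
    · simp
    · simp
    · simp
    · have h : ((-1 : ℤˣ) = 1) = False := by simp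
      simp only [mul_neg, mul_one, neg_neg, if_true, h, if_false]
      ext x
      simp

/-- the elementary abelian group of order `3 ^ k`. -/
abbrev V (k : ℕ) := Multiplicative (Fin k → ZMod 3)

/-- the generalised dihedral group of order `2 * 3 ^ k`. -/
abbrev GD (k : ℕ) := V k ⋊[phi (V k)] ℤˣ

theorem V_pow_three (k : ℕ) (x : V k) : x ^ 3 = 1 := by
  apply Multiplicative.toAdd.injective
  rw [toAdd_pow, toAdd_one]
  ext i
  simp only [Pi.smul_apply, Pi.zero_apply, nsmul_eq_mul]
  have : ((3 : ℕ) : ZMod 3) = 0 := by decide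
  rw [this, zero_mul]

theorem phi_neg_one (N : Type) [CommGroup N] (x : N) : phi N (-1) x = x⁻¹ := by
  have h : ((-1 : ℤˣ) = 1) = False := by simp
  simp only [phi, MonoidHom.coe_mk, OneHom.coe_mk, h, if_false]
  rfl

theorem GD_sq (k : ℕ) (n : V k) : (⟨n, -1⟩ : GD k) ^ 2 = 1 := by
  rw [pow_two]
  apply SemidirectProduct.ext
  · rw [SemidirectProduct.mul_left]
    show n * phi (V k) (-1) n = 1
    rw [phi_neg_one, mul_inv_cancel]
  · rw [SemidirectProduct.mul_right]
    show (-1 : ℤˣ) * (-1) = 1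
    simp

theorem GD_order (k : ℕ) (x : GD k) : x ^ 3 = 1 ∨ x ^ 2 = 1 := by
  obtain ⟨n, u⟩ := x
  rcases Int.units_eq_one_or u with rfl | rfl
  · left
    have : (⟨n, 1⟩ : GD k) = SemidirectProduct.inl n := rfl
    rw [this, ← map_pow, V_pow_three, map_one]
  · right
    exact GD_sq k n

instance (k : ℕ) : Finite (GD k) := Finite.of_equiv _ SemidirectProduct.equivProd.symm

theorem range_GD (k : ℕ) (hk : 0 < k) : Set.range (orderOf : GD k → ℕ) = ↑({1, 2, 3} : Finset ℕ) := by
  apply Set.Subset.antisymm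
  · rintro _ ⟨x, rfl⟩
    rcases GD_order k x with h | h
    · have := orderOf_dvd_of_pow_eq_one h
      rcases (Nat.dvd_prime (by norm_num : Nat.Prime 3)).1 this with h | h <;> simp [h]
    · have := orderOf_dvd_of_pow_eq_one h
      rcases (Nat.dvd_prime (by norm_num : Nat.Prime 2)).1 this with h | h <;> simp [h]
  · intro n hn
    simp only [Finset.coe_insert, Finset.coe_singleton, Set.mem_insert_iff, Set.mem_singleton_iff] at hn
    rcases hn with rfl | rfl | rfl
    · exact ⟨1, orderOf_one⟩
    · refine ⟨⟨1, -1⟩, ?_⟩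
      apply orderOf_eq_prime (GD_sq k 1)
      intro h
      have h2 : (-1 : ℤˣ) = 1 := congrArg SemidirectProduct.right h
      revert h2; decide
    · refine ⟨SemidirectProduct.inl (Multiplicative.ofAdd (fun _ => 1)), ?_⟩
      apply orderOf_eq_prime
      · rw [← map_pow, V_pow_three, map_one]
      · intro h
        have h2 : (Multiplicative.ofAdd (fun _ => 1) : V k) = 1 := SemidirectProduct.inl_injective (by rw [h, map_one])
        have h3 := congrFun (congrArg Multiplicative.toAdd h2) ⟨0, hk⟩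
        simp at h3

theorem range_dihedral (p : ℕ) [hp : Fact p.Prime] :
    Set.range (orderOf : DihedralGroup p → ℕ) = ↑({1, 2, p} : Finset ℕ) := by
  have : NeZero p := ⟨hp.out.ne_zero⟩
  apply Set.Subset.antisymm
  · rintro _ ⟨x, rfl⟩
    cases x with
    | r i =>
      rw [DihedralGroup.orderOf_r]
      rcases (Nat.dvd_prime hp.out).1 (Nat.gcd_dvd_left p i.val) with h | h
      · rw [h]; simp
      · rw [h, Nat.div_self hp.out.pos]; simp
    | sr i => rw [DihedralGroup.orderOf_sr]; simp
  · intro n hn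
    simp only [Finset.coe_insert, Finset.coe_singleton, Set.mem_insert_iff, Set.mem_singleton_iff] at hn
    rcases hn with rfl | rfl | rfl
    · exact ⟨1, orderOf_one⟩
    · exact ⟨DihedralGroup.sr 0, DihedralGroup.orderOf_sr 0⟩
    · exact ⟨DihedralGroup.r 1, DihedralGroup.orderOf_r_one⟩

theorem range_prod {G K : Type*} [Monoid G] [Monoid K] {A B : Finset ℕ}
    (hA : Set.range (orderOf : G → ℕ) = ↑A) (hB : Set.range (orderOf : K → ℕ) = ↑B) :
    Set.range (orderOf : G × K → ℕ) = ↑(Finset.image₂ Nat.lcm A B) := by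
  ext n
  simp only [Set.mem_range, Finset.coe_image₂, Set.mem_image2, Finset.mem_coe, Prod.exists, Prod.orderOf]
  constructor
  · rintro ⟨g, k, rfl⟩
    exact ⟨orderOf g, by rw [← Finset.mem_coe, ← hA]; exact ⟨g, rfl⟩, orderOf k,
      by rw [← Finset.mem_coe, ← hB]; exact ⟨k, rfl⟩, rfl⟩
  · rintro ⟨a, ha, b, hb, rfl⟩
    rw [← Finset.mem_coe, ← hA] at ha
    rw [← Finset.mem_coe, ← hB] at hb
    obtain ⟨g, rfl⟩ := ha
    obtain ⟨k, rfl⟩ := hb
    exact ⟨g, k, rfl⟩

instance : Fact (Nat.Prime 5) := ⟨by norm_num⟩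
instance : Fact (Nat.Prime 7) := ⟨by norm_num⟩
instance : Fact (Nat.Prime 11) := ⟨by norm_num⟩
instance : Fact (Nat.Prime 19) := ⟨by norm_num⟩

set_option maxRecDepth 100000 in
/-- Let J be the first Janko group. Then there are finite groups of arbitrarily large order with exactly the same set of element orders as J × J × J × J. -/
theorem result (N : ℕ) : ∃ (H : Type) (_ : Group H) (_ : Fintype H), N < Fintype.card H ∧
      Set.range (orderOf : H → ℕ) = Set.range (orderOf : ↥Cfsg.Spor.J1 × ↥Cfsg.Spor.J1 × ↥Cfsg.Spor.J1 × ↥Cfsg.Spor.J1 → ℕ) := by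
  refine ⟨GD (N + 1) × DihedralGroup 5 × DihedralGroup 7 × DihedralGroup 11 × DihedralGroup 19, inferInstance,
    Fintype.ofFinite _, ?_, ?_⟩
  · rw [Fintype.card_eq_nat_card, Nat.card_prod]
    have h1 : Nat.card (GD (N + 1)) = Nat.card (V (N + 1)) * Nat.card ℤˣ := by
      rw [Nat.card_congr SemidirectProduct.equivProd, Nat.card_prod]
    have h2 : Nat.card (V (N + 1)) = 3 ^ (N + 1) := by
      rw [Nat.card_eq_fintype_card]
      simp [V]
    have h3 : 0 < Nat.card ℤˣ := Nat.card_pos
    have h4 : 0 < Nat.card (DihedralGroup 5 × DihedralGroup 7 × DihedralGroup 11 × DihedralGroup 19) :=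
      Nat.card_pos
    have h5 : N < 3 ^ (N + 1) := lt_trans (Nat.lt_succ_self N) (Nat.lt_pow_self (by norm_num))
    rw [h1, h2]
    calc N < 3 ^ (N + 1) := h5
      _ ≤ 3 ^ (N + 1) * Nat.card ℤˣ := Nat.le_mul_of_pos_right _ h3
      _ ≤ _ := Nat.le_mul_of_pos_right _ h4
  · have hJ := Cfsg.Agent.Lib.Helper93.J1.range_orderOf
    rw [range_prod (range_GD (N + 1) (Nat.succ_pos N)) (range_prod (range_dihedral 5) (range_prod (range_dihedral 7)
      (range_prod (range_dihedral 11) (range_dihedral 19)))),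
      range_prod hJ (range_prod hJ (range_prod hJ hJ))]
    congr 1
    decide +kernel

end Cfsg.Agent.S3627
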