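import Cfsg.Statements.S3660
import Cfsg.Agent.Lib.Helper64.SemiGraph

set_option autoImplicit false
open Cfsg

namespace Cfsg.Agent.S3660

/-- The prime graph of a finite group has the prime divisors of its order as vertices, two distinct primes p, q being joined when the group has an element of order pq; two groups have the same prime graph when they have the same prime divisors and the same joined pairs. Let F be a finite field of characteristic 2 with at least 4 elements. Then there are finite groups of arbitrarily large order with the same prime graph as PSL(2,F); in particular PSL(2,F) is not determined by its prime graph. -/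
theorem result {F : Type*} [Field F] [Fintype F] [CharP F 2] (hF : 4 ≤ Fintype.card F) (N : ℕ) :
    ∃ (H : Type) (_ : Group H) (_ : Finite H), N < Nat.card H ∧
      ((∀ p : ℕ, p.Prime → (p ∣ Nat.card (Matrix.ProjectiveSpecialLinearGroup (Fin 2) F) ↔ p ∣ Nat.card H)) ∧
      (∀ p q : ℕ, p.Prime → q.Prime → p ≠ q → ((∃ g : (Matrix.ProjectiveSpecialLinearGroup (Fin 2) F), orderOf g = p * q) ↔ (∃ g : H, orderOf g = p * q)))) := by
  classical
  have h3 : (2 : F) = 0 := CharTwo.two_eq_zero
  have hN : ∀ n : Multiplicative (Matrix (Fin 2) (Fin N) F), n ^ 2 = 1 := by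
    intro n
    apply Multiplicative.toAdd.injective
    rw [toAdd_pow, toAdd_one]
    ext i j
    simp only [Matrix.smul_apply, Matrix.zero_apply, nsmul_eq_mul, Nat.cast_ofNat, h3, zero_mul]
  have hfix : ∀ (s : Matrix.SpecialLinearGroup (Fin 2) F)
      (n : Multiplicative (Matrix (Fin 2) (Fin N) F)),
      Cfsg.Agent.Lib.Helper64.slAct F (Fin N) s n = n → n ≠ 1 →
      ∀ q : ℕ, q.Prime → q ≠ 2 → orderOf s ≠ q := by
    intro s n hsn hn q hq hq2 hs
    have h1 : s ^ 2 = 1 := by
      apply Cfsg.Agent.Lib.Helper64.sl2_sq_eq_one s n.toAdd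
      · intro h
        apply hn
        apply Multiplicative.toAdd.injective
        rw [h, toAdd_one]
      · rw [Cfsg.Agent.Lib.Helper64.slAct_apply] at hsn
        exact congrArg Multiplicative.toAdd hsn
    have h2 := orderOf_dvd_of_pow_eq_one h1
    rw [hs] at h2
    exact hq2 ((Nat.prime_dvd_prime_iff_eq hq Nat.prime_two).mp h2)
  have hlS : 2 ∣ Nat.card (Matrix.SpecialLinearGroup (Fin 2) F) := by
    let t : Matrix.SpecialLinearGroup (Fin 2) F := ⟨!![1, 1; 0, 1], by simp [Matrix.det_fin_two]⟩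
    have ht2 : t ^ 2 = 1 := by
      apply Matrix.SpecialLinearGroup.ext
      intro i j
      rw [pow_two, Matrix.SpecialLinearGroup.coe_mul, Matrix.mul_apply, Fin.sum_univ_two]
      fin_cases i <;> fin_cases j <;> simp [t]
      linear_combination h3
    have ht1 : t ≠ 1 := by
      intro h
      have := congrArg (fun m : Matrix.SpecialLinearGroup (Fin 2) F =>
        (m : Matrix (Fin 2) (Fin 2) F) 0 1) h
      simp [t] at this
    have : orderOf t = 2 := orderOf_eq_prime ht2 ht1
    have h5 := orderOf_dvd_natCard t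
    rwa [this] at h5
  obtain ⟨g1, g2⟩ := Cfsg.Agent.Lib.Helper64.semidirect_same_graph
    (Cfsg.Agent.Lib.Helper64.slAct F (Fin N)) Nat.prime_two hN hfix hlS
  have hfin : Finite (Multiplicative (Matrix (Fin 2) (Fin N) F) ⋊[Cfsg.Agent.Lib.Helper64.slAct F (Fin N)]
      Matrix.SpecialLinearGroup (Fin 2) F) := Finite.of_equiv _ SemidirectProduct.equivProd.symm
  obtain ⟨H', iG, iF, ⟨e⟩⟩ := Cfsg.Agent.Lib.Helper64.exists_type0_copy
    (Multiplicative (Matrix (Fin 2) (Fin N) F) ⋊[Cfsg.Agent.Lib.Helper64.slAct F (Fin N)]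
      Matrix.SpecialLinearGroup (Fin 2) F)
  obtain ⟨e2⟩ := Cfsg.Agent.Lib.Helper64.psl2_equiv_sl2 F
  refine ⟨H', iG, iF, ?_, ?_, ?_⟩
  · rw [← Nat.card_congr e.toEquiv, Nat.card_congr SemidirectProduct.equivProd, Nat.card_prod]
    have hc1 : Nat.card (Multiplicative (Matrix (Fin 2) (Fin N) F)) = Fintype.card F ^ (2 * N) := by
      rw [Nat.card_congr Multiplicative.toAdd]
      change Nat.card (Fin 2 → Fin N → F) = _
      rw [Nat.card_eq_fintype_card]
      simp only [Fintype.card_pi, Finset.prod_const, Finset.card_univ, Fintype.card_fin]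
      rw [← pow_mul, mul_comm]
    have hc2 : 0 < Nat.card (Matrix.SpecialLinearGroup (Fin 2) F) := Nat.card_pos
    have hc3 : N < Fintype.card F ^ (2 * N) := by
      calc N < 2 ^ N := Nat.lt_two_pow_self
        _ ≤ 2 ^ (2 * N) := Nat.pow_le_pow_right (by norm_num) (by omega)
        _ ≤ Fintype.card F ^ (2 * N) := Nat.pow_le_pow_left (by omega) _
    rw [hc1]
    exact lt_of_lt_of_le hc3 (Nat.le_mul_of_pos_right _ hc2)
  · intro p hp
    rw [Nat.card_congr e2.toEquiv, ← Nat.card_congr e.toEquiv]
    exact g1 p hp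
  · intro p q hp hq hpq
    constructor
    · rintro ⟨g, hg⟩
      obtain ⟨g', hg'⟩ := (g2 p q hp hq hpq).mp ⟨e2 g, by rw [MulEquiv.orderOf_eq, hg]⟩
      exact ⟨e g', by rw [MulEquiv.orderOf_eq, hg']⟩
    · rintro ⟨g, hg⟩
      obtain ⟨g', hg'⟩ := (g2 p q hp hq hpq).mpr ⟨e.symm g, by rw [MulEquiv.orderOf_eq, hg]⟩
      exact ⟨e2.symm g', by rw [MulEquiv.orderOf_eq, hg']⟩

end Cfsg.Agent.S3660
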