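import Cfsg.Statements.S3670
-- import your own Cfsg.Agent.* helpers here
import Cfsg.Agent.Lib.Helper44.U33.UTOP
import Cfsg.Agent.Lib.Helper44.U33.UCONC
import Cfsg.Agent.Lib.Helper44.U33.GRAPHU
import Cfsg.Agent.Lib.Helper44.U33.SOLV
import Cfsg.Agent.Lib.Helper47.PSL2Degrees

set_option autoImplicit false
open Cfsg

namespace Cfsg.Agent.S3670

/-- The character degree graph of a finite group has as vertices the primes dividing some irreducible complex character degree, two distinct primes being joined when their product divides some irreducible character degree; two groups have the same character degree graph when they have the same vertices and the same joined pairs. Let F be the field with 9 elements and L = PSU(3,3) realised over F (order 6048). There is a finite solvable group of order 6048 with the same character degree graph as L; so L is not determined by its order together with its character degree graph. -/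
theorem result {F : Type*} [Field F] [Fintype F] (hF : Fintype.card F = 9) :
    ∃ (H : Type) (_ : Group H) (_ : Fintype H), Group.IsSolvable H ∧ Nat.card H = 6048 ∧ Cfsg.degreePrimes H = Cfsg.degreePrimes (Cfsg.PSU 3 F 3) ∧ Cfsg.degreeGraph H = Cfsg.degreeGraph (Cfsg.PSU 3 F 3) := by
  obtain ⟨H, iG, iF, hsol, hcard, d, hd, h42⟩ := Cfsg.Agent.Lib.Helper44.U33.exists_solvable
  obtain ⟨C⟩ := Cfsg.Agent.Lib.Helper44.U33.conc hF
  obtain ⟨e⟩ := Cfsg.Agent.Lib.Helper44.U33.psu_iso hF
  obtain ⟨d1, d2, d3, h1, h2, h3, h6, h14, h21⟩ := Cfsg.Agent.Lib.Helper44.U33.degrees C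
  rw [← Cfsg.Agent.Lib.Helper47.charDegrees_congr e] at h1 h2 h3
  have hcP : Nat.card (Cfsg.PSU 3 F 3) = 6048 := by
    rw [Nat.card_congr e.toEquiv]
    exact C.hcard
  obtain ⟨p1, p2⟩ := Cfsg.Agent.Lib.Helper44.U33.graph_of_degrees hcP h1 h2 h3 h6 h14 h21
  obtain ⟨q1, q2⟩ := Cfsg.Agent.Lib.Helper44.U33.graph_of_degrees hcard hd hd hd
    (Dvd.dvd.trans (by norm_num) h42) (Dvd.dvd.trans (by norm_num) h42)
    (Dvd.dvd.trans (by norm_num) h42)
  refine ⟨H, iG, iF, hsol, hcard, by rw [p1, q1], ?_⟩
  ext r s
  rw [p2, q2]

end Cfsg.Agent.S3670
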