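import Cfsg.Statements.S3678
import Mathlib
-- import your own Cfsg.Agent.* helpers here

set_option autoImplicit false
open Cfsg

namespace Cfsg.Agent.S3678

theorem spec {X : Type*} [Group X] [Finite X] (hpow : ∀ x : X, x ^ 4 = 1 ∨ x ^ 7 = 1 ∨ x ^ 9 = 1)
    (h2 : ∃ x : X, orderOf x = 2) (h3 : ∃ x : X, orderOf x = 3) (h7 : ∃ x : X, orderOf x = 7) :
    (∀ p : ℕ, p.Prime → (p ∣ Nat.card X ↔ p = 2 ∨ p = 3 ∨ p = 7)) ∧
    (∀ p q : ℕ, p.Prime → q.Prime → p ≠ q → ¬ ∃ g : X, orderOf g = p * q) := by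
  have key : ∀ x : X, ∃ r : ℕ, r.Prime ∧ (r = 2 ∨ r = 3 ∨ r = 7) ∧ ∃ k : ℕ, orderOf x ∣ r ^ k := by
    intro x
    rcases hpow x with h | h | h
    · exact ⟨2, Nat.prime_two, Or.inl rfl, 2, orderOf_dvd_of_pow_eq_one h⟩
    · exact ⟨7, by norm_num, Or.inr (Or.inr rfl), 1, orderOf_dvd_of_pow_eq_one h⟩
    · exact ⟨3, Nat.prime_three, Or.inr (Or.inl rfl), 2, orderOf_dvd_of_pow_eq_one h⟩
  have key2 : ∀ (x : X) (r k p : ℕ), r.Prime → orderOf x ∣ r ^ k → p.Prime → p ∣ orderOf x → p = r := by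
    intro x r k p hr hx hp hpx
    exact (Nat.prime_dvd_prime_iff_eq hp hr).mp (hp.dvd_of_dvd_pow (hpx.trans hx))
  constructor
  · intro p hp
    constructor
    · intro hd
      have : Fact p.Prime := ⟨hp⟩
      obtain ⟨x, hx⟩ := exists_prime_orderOf_dvd_card' (G := X) p hd
      obtain ⟨r, hr, hr', k, hk⟩ := key x
      have := key2 x r k p hr hk hp (by rw [hx])
      rw [this]; exact hr'
    · rintro (rfl | rfl | rfl)
      · obtain ⟨x, hx⟩ := h2; rw [← hx]; exact orderOf_dvd_natCard x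
      · obtain ⟨x, hx⟩ := h3; rw [← hx]; exact orderOf_dvd_natCard x
      · obtain ⟨x, hx⟩ := h7; rw [← hx]; exact orderOf_dvd_natCard x
  · rintro p q hp hq hpq ⟨g, hg⟩
    obtain ⟨r, hr, -, k, hk⟩ := key g
    have e1 := key2 g r k p hr hk hp (by rw [hg]; exact dvd_mul_right _ _)
    have e2 := key2 g r k q hr hk hq (by rw [hg]; exact dvd_mul_left _ _)
    exact hpq (e1.trans e2.symm)


section mat
variable {K : Type*} [CommRing K] (A : Matrix (Fin 2) (Fin 2) K)

theorem CH (hdet : A.det = 1) : A * A = A.trace • A - 1 := by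
  rw [Matrix.det_fin_two] at hdet
  ext i j
  fin_cases i <;> fin_cases j <;>
    simp [Matrix.mul_apply, Fin.sum_univ_two, Matrix.trace_fin_two] <;>
    first | ring1 | linear_combination (-1 : K) * hdet

variable {A}

theorem mulE {t : K} (h : A * A = t • A - 1) (u v u' v' : K) :
    (u • A + v • (1 : Matrix (Fin 2) (Fin 2) K)) * (u' • A + v' • (1 : Matrix (Fin 2) (Fin 2) K)) =
      (u * u' * t + u * v' + v * u') • A + (v * v' - u * u') • (1 : Matrix (Fin 2) (Fin 2) K) := by
  simp only [add_mul, mul_add, smul_mul_assoc, mul_smul_comm, h, one_mul, mul_one, smul_sub,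
    smul_smul]
  module

theorem E_congr {u v u' v' : K} (hu : u = u') (hv : v = v') :
    u • A + v • (1 : Matrix (Fin 2) (Fin 2) K) = u' • A + v' • (1 : Matrix (Fin 2) (Fin 2) K) := by
  rw [hu, hv]

theorem pow1 : A ^ 1 = (1 : K) • A + (0 : K) • (1 : Matrix (Fin 2) (Fin 2) K) := by
  simp

theorem pow2 {t : K} (h : A * A = t • A - 1) :
    A ^ 2 = t • A + (-1 : K) • (1 : Matrix (Fin 2) (Fin 2) K) := by
  rw [pow_two, h]; module

theorem pow3 {t : K} (h : A * A = t • A - 1) :
    A ^ 3 = (t ^ 2 - 1) • A + (-t) • (1 : Matrix (Fin 2) (Fin 2) K) := by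
  rw [show 3 = 2 + 1 from rfl, pow_add, pow2 h, pow1, mulE h]
  apply E_congr <;> ring

theorem pow4 {t : K} (h : A * A = t • A - 1) :
    A ^ 4 = (t ^ 3 - 2 * t) • A + (1 - t ^ 2) • (1 : Matrix (Fin 2) (Fin 2) K) := by
  rw [show 4 = 2 + 2 from rfl, pow_add, pow2 h, mulE h]
  apply E_congr <;> ring

theorem pow7 {t : K} (h : A * A = t • A - 1) :
    A ^ 7 = (t ^ 6 - 5 * t ^ 4 + 6 * t ^ 2 - 1) • A + (- t ^ 5 + 4 * t ^ 3 - 3 * t) •
      (1 : Matrix (Fin 2) (Fin 2) K) := by
  rw [show 7 = 4 + 3 from rfl, pow_add, pow4 h, pow3 h, mulE h]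
  apply E_congr <;> ring

theorem pow8 {t : K} (h : A * A = t • A - 1) :
    A ^ 8 = ((t ^ 3 - 2 * t) ^ 2 * t + 2 * (t ^ 3 - 2 * t) * (1 - t ^ 2)) • A +
      ((1 - t ^ 2) ^ 2 - (t ^ 3 - 2 * t) ^ 2) • (1 : Matrix (Fin 2) (Fin 2) K) := by
  rw [show 8 = 4 + 4 from rfl, pow_add, pow4 h, mulE h]
  apply E_congr <;> ring

theorem E_zero {u v ε : K} (hu : u = 0) (hv : v = ε) :
    u • A + v • (1 : Matrix (Fin 2) (Fin 2) K) = ε • (1 : Matrix (Fin 2) (Fin 2) K) := by
  rw [hu, hv, zero_smul, zero_add]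

end mat

section seven


variable {F : Type*} [Field F] [Fintype F]

theorem mem_center_of {s : Matrix.SpecialLinearGroup (Fin 2) F} {ε : F} (hε : ε ^ 2 = 1)
    (h : (s : Matrix (Fin 2) (Fin 2) F) = ε • (1 : Matrix (Fin 2) (Fin 2) F)) :
    s ∈ Subgroup.center (Matrix.SpecialLinearGroup (Fin 2) F) := by
  rw [Matrix.SpecialLinearGroup.mem_center_iff]
  refine ⟨ε, by simpa using hε, ?_⟩
  rw [h, Matrix.smul_one_eq_diagonal]
  rfl

theorem sl7_pow (hF : Fintype.card F = 7) (s : Matrix.SpecialLinearGroup (Fin 2) F) :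
    ∃ n : ℕ, (n = 4 ∨ n = 7 ∨ n = 3) ∧ ∃ ε : F, ε ^ 2 = 1 ∧
      ((s : Matrix (Fin 2) (Fin 2) F) ^ n = ε • (1 : Matrix (Fin 2) (Fin 2) F)) := by
  have h7 : (7 : F) = 0 := by
    have := FiniteField.cast_card_eq_zero F
    rw [hF] at this
    exact_mod_cast this
  set A : Matrix (Fin 2) (Fin 2) F := (s : Matrix (Fin 2) (Fin 2) F) with hA
  set t : F := A.trace with ht
  have h : A * A = t • A - 1 := CH A s.2
  have ht7 : t ^ 7 = t := by
    have := FiniteField.pow_card t
    rwa [hF] at this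
  have hprod : t * (t - 1) * (t - 2) * (t - 3) * (t - 4) * (t - 5) * (t - 6) = 0 := by
    linear_combination ht7 + (-3 * t ^ 6 + 25 * t ^ 5 - 105 * t ^ 4 + 232 * t ^ 3 - 252 * t ^ 2 +
      103 * t) * h7
  simp only [mul_eq_zero, sub_eq_zero] at hprod
  rcases hprod with (((((h0 | h0) | h0) | h0) | h0) | h0) | h0
  · refine ⟨4, Or.inl rfl, 1, by norm_num, ?_⟩
    rw [pow4 h]
    apply E_zero <;> rw [h0] <;> ring
  · refine ⟨3, Or.inr (Or.inr rfl), -1, by norm_num, ?_⟩
    rw [pow3 h]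
    apply E_zero <;> rw [h0] <;> ring
  · refine ⟨7, Or.inr (Or.inl rfl), 1, by norm_num, ?_⟩
    rw [pow7 h]
    apply E_zero <;> rw [h0]
    · linear_combination h7
    · linear_combination (-1 : F) * h7
  · refine ⟨4, Or.inl rfl, -1, by norm_num, ?_⟩
    rw [pow4 h]
    apply E_zero <;> rw [h0]
    · linear_combination 3 * h7
    · linear_combination (-1 : F) * h7
  · refine ⟨4, Or.inl rfl, -1, by norm_num, ?_⟩
    rw [pow4 h]
    apply E_zero <;> rw [h0]
    · linear_combination 8 * h7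
    · linear_combination (-2 : F) * h7
  · refine ⟨7, Or.inr (Or.inl rfl), -1, by norm_num, ?_⟩
    rw [pow7 h]
    apply E_zero <;> rw [h0]
    · linear_combination 1807 * h7
    · linear_combination (-377 : F) * h7
  · refine ⟨3, Or.inr (Or.inr rfl), 1, by norm_num, ?_⟩
    rw [pow3 h]
    apply E_zero <;> rw [h0]
    · linear_combination 5 * h7
    · linear_combination (-1 : F) * h7

theorem psl7_pow (hF : Fintype.card F = 7) (x : Matrix.ProjectiveSpecialLinearGroup (Fin 2) F) :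
    x ^ 4 = 1 ∨ x ^ 7 = 1 ∨ x ^ 9 = 1 := by
  obtain ⟨s, rfl⟩ := QuotientGroup.mk_surjective x
  obtain ⟨n, hn, ε, hε, h⟩ := sl7_pow hF s
  have hc : s ^ n ∈ Subgroup.center (Matrix.SpecialLinearGroup (Fin 2) F) :=
    mem_center_of hε (by rw [Matrix.SpecialLinearGroup.coe_pow]; exact h)
  have h1 : (QuotientGroup.mk s : Matrix.ProjectiveSpecialLinearGroup (Fin 2) F) ^ n = 1 := by
    rw [← QuotientGroup.mk_pow]
    exact (QuotientGroup.eq_one_iff _).mpr hc
  rcases hn with rfl | rfl | rfl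
  · exact Or.inl h1
  · exact Or.inr (Or.inl h1)
  · right; right
    rw [show 9 = 3 * 3 from rfl, pow_mul, h1, one_pow]

/-- an element of prime order in PSL -/
theorem psl_order {p : ℕ} (hp : p.Prime) (s : Matrix.SpecialLinearGroup (Fin 2) F) {ε : F} (hε : ε ^ 2 = 1)
    (h : (s : Matrix (Fin 2) (Fin 2) F) ^ p = ε • (1 : Matrix (Fin 2) (Fin 2) F))
    (h01 : (s : Matrix (Fin 2) (Fin 2) F) 0 1 ≠ 0) :
    orderOf (QuotientGroup.mk s : Matrix.ProjectiveSpecialLinearGroup (Fin 2) F) = p := by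
  have : Fact p.Prime := ⟨hp⟩
  apply orderOf_eq_prime
  · rw [← QuotientGroup.mk_pow]
    exact (QuotientGroup.eq_one_iff _).mpr (mem_center_of hε (by rw [Matrix.SpecialLinearGroup.coe_pow]; exact h))
  · intro hc
    rw [QuotientGroup.eq_one_iff, Matrix.SpecialLinearGroup.mem_center_iff] at hc
    obtain ⟨r, -, hr⟩ := hc
    apply h01
    rw [← hr]
    simp

theorem psl7_orders (hF : Fintype.card F = 7) :
    (∃ x : Matrix.ProjectiveSpecialLinearGroup (Fin 2) F, orderOf x = 2) ∧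
    (∃ x : Matrix.ProjectiveSpecialLinearGroup (Fin 2) F, orderOf x = 3) ∧
    (∃ x : Matrix.ProjectiveSpecialLinearGroup (Fin 2) F, orderOf x = 7) := by
  have h7 : (7 : F) = 0 := by
    have := FiniteField.cast_card_eq_zero F
    rw [hF] at this
    exact_mod_cast this
  refine ⟨?_, ?_, ?_⟩
  · let s : Matrix.SpecialLinearGroup (Fin 2) F := ⟨!![0, 1; -1, 0], by simp [Matrix.det_fin_two]⟩
    refine ⟨QuotientGroup.mk s, psl_order Nat.prime_two s (ε := -1) (by norm_num) ?_ (by simp [s])⟩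
    have h := CH (s : Matrix (Fin 2) (Fin 2) F) s.2
    rw [pow2 h]
    apply E_zero
    · simp [s, Matrix.trace_fin_two]
    · rfl
  · let s : Matrix.SpecialLinearGroup (Fin 2) F := ⟨!![0, 1; -1, -1], by simp [Matrix.det_fin_two]⟩
    refine ⟨QuotientGroup.mk s, psl_order Nat.prime_three s (ε := 1) (by norm_num) ?_ (by simp [s])⟩
    have h := CH (s : Matrix (Fin 2) (Fin 2) F) s.2
    rw [pow3 h]
    apply E_zero
    · simp [s, Matrix.trace_fin_two]
    · simp [s, Matrix.trace_fin_two]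
  · let s : Matrix.SpecialLinearGroup (Fin 2) F := ⟨!![1, 1; 0, 1], by simp [Matrix.det_fin_two]⟩
    refine ⟨QuotientGroup.mk s, psl_order (by norm_num) s (ε := 1) (by norm_num) ?_ (by simp [s])⟩
    have h := CH (s : Matrix (Fin 2) (Fin 2) F) s.2
    have ht : (s : Matrix (Fin 2) (Fin 2) F).trace = 2 := by
      simp [s, Matrix.trace_fin_two]; norm_num
    rw [pow7 h]
    apply E_zero <;> rw [ht]
    · linear_combination h7
    · linear_combination (-1 : F) * h7

end seven


section aff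

/-- the split extension of `m` copies of the natural module by `SL₂(K)` -/
structure Aff (K : Type) [Field K] (m : ℕ) : Type where
  v : Matrix (Fin 2) (Fin m) K
  s : Matrix.SpecialLinearGroup (Fin 2) K

variable {K : Type} [Field K] {m : ℕ}

theorem Aff.ext' {x y : Aff K m} (h1 : x.v = y.v) (h2 : x.s = y.s) : x = y := by
  cases x; cases y; simp_all

instance Aff.instMul : Mul (Aff K m) :=
  ⟨fun x y => ⟨x.v + (x.s : Matrix (Fin 2) (Fin 2) K) * y.v, x.s * y.s⟩⟩

instance Aff.instOne : One (Aff K m) := ⟨⟨0, 1⟩⟩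

instance Aff.instInv : Inv (Aff K m) :=
  ⟨fun x => ⟨-((x.s⁻¹ : Matrix.SpecialLinearGroup (Fin 2) K) : Matrix (Fin 2) (Fin 2) K) * x.v, x.s⁻¹⟩⟩

instance Aff.instGroup : Group (Aff K m) :=
  Group.ofLeftAxioms
    (by
      intro x y z
      apply Aff.ext'
      · show x.v + (x.s : Matrix (Fin 2) (Fin 2) K) * y.v + ((x.s * y.s : Matrix.SpecialLinearGroup (Fin 2) K) : Matrix (Fin 2) (Fin 2) K) * z.v = x.v + (x.s : Matrix (Fin 2) (Fin 2) K) * (y.v + (y.s : Matrix (Fin 2) (Fin 2) K) * z.v)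
        rw [Matrix.SpecialLinearGroup.coe_mul, Matrix.mul_add, Matrix.mul_assoc, add_assoc]
      · exact mul_assoc _ _ _)
    (by
      intro x
      apply Aff.ext'
      · show (0 : Matrix (Fin 2) (Fin m) K) + ((1 : Matrix.SpecialLinearGroup (Fin 2) K) : Matrix (Fin 2) (Fin 2) K) * x.v = x.v
        rw [Matrix.SpecialLinearGroup.coe_one, Matrix.one_mul, zero_add]
      · exact one_mul _)
    (by
      intro x
      apply Aff.ext'
      · show -((x.s⁻¹ : Matrix.SpecialLinearGroup (Fin 2) K) : Matrix (Fin 2) (Fin 2) K) * x.v + ((x.s⁻¹ : Matrix.SpecialLinearGroup (Fin 2) K) : Matrix (Fin 2) (Fin 2) K) * x.v = 0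
        rw [Matrix.neg_mul, neg_add_cancel]
      · exact inv_mul_cancel _)

theorem Aff.mul_v (x y : Aff K m) : (x * y).v = x.v + (x.s : Matrix (Fin 2) (Fin 2) K) * y.v := rfl
theorem Aff.mul_s (x y : Aff K m) : (x * y).s = x.s * y.s := rfl
theorem Aff.one_v : (1 : Aff K m).v = 0 := rfl
theorem Aff.one_s : (1 : Aff K m).s = 1 := rfl
theorem Aff.inv_v (x : Aff K m) : (x⁻¹).v = -((x.s⁻¹ : Matrix.SpecialLinearGroup (Fin 2) K) : Matrix (Fin 2) (Fin 2) K) * x.v := rfl
theorem Aff.inv_s (x : Aff K m) : (x⁻¹).s = x.s⁻¹ := rfl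

/-- the complement -/
noncomputable def Aff.ι : Matrix.SpecialLinearGroup (Fin 2) K →* Aff K m where
  toFun s := ⟨0, s⟩
  map_one' := rfl
  map_mul' a b := by
    apply Aff.ext'
    · rw [Aff.mul_v]; simp
    · rfl

theorem Aff.ι_injective : Function.Injective (Aff.ι : Matrix.SpecialLinearGroup (Fin 2) K →* Aff K m) := by
  intro a b h
  exact congrArg Aff.s h


theorem sl_ext {a b : Matrix.SpecialLinearGroup (Fin 2) K}
    (h : (a : Matrix (Fin 2) (Fin 2) K) = (b : Matrix (Fin 2) (Fin 2) K)) : a = b := Subtype.ext h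

theorem sl8_pow (h2 : (2 : K) = 0) (h7 : ∀ t : K, t ≠ 0 → t ^ 7 = 1)
    (s : Matrix.SpecialLinearGroup (Fin 2) K) :
    ((s : Matrix (Fin 2) (Fin 2) K).trace = 0 → s ^ 2 = 1) ∧
    ((s : Matrix (Fin 2) (Fin 2) K).trace ≠ 0 → s ^ 7 = 1 ∨ s ^ 9 = 1) := by
  set A : Matrix (Fin 2) (Fin 2) K := (s : Matrix (Fin 2) (Fin 2) K) with hA
  set t : K := A.trace with ht
  have h : A * A = t • A - 1 := CH A s.2
  have hneg : (-1 : K) = 1 := by linear_combination (-1 : K) * h2
  constructor
  · intro h0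
    apply sl_ext
    rw [Matrix.SpecialLinearGroup.coe_pow, Matrix.SpecialLinearGroup.coe_one, ← hA, pow2 h,
      E_zero h0 hneg, one_smul]
  · intro h0
    have ht7 := h7 t h0
    set c : K := t ^ 6 + t ^ 4 + 1 with hc
    have h8 : A ^ 8 = (1 : K) • A + c • (1 : Matrix (Fin 2) (Fin 2) K) := by
      rw [pow8 h]
      apply E_congr
      · linear_combination ht7 + (-2 * t ^ 5 + 2 * t ^ 3 + (t ^ 3 - 2 * t) * (1 - t ^ 2)) * h2
      · rw [hc]
        linear_combination (2 * t ^ 4 - 3 * t ^ 2 - t ^ 6) * h2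
    have hcc : c * (c + t) = 0 := by
      rw [hc]
      linear_combination (t ^ 5 + t + 1) * ht7 + (t ^ 10 + t ^ 6 + t ^ 5 + t ^ 4 + t + 1) * h2
    rcases mul_eq_zero.mp hcc with h1 | h1
    · left
      have h9 : s ^ 8 = s := by
        apply sl_ext
        rw [Matrix.SpecialLinearGroup.coe_pow, ← hA, h8, h1, one_smul, zero_smul, add_zero]
      have : s ^ 7 * s = s := by rw [← pow_succ]; exact h9
      exact mul_eq_right.mp this
    · right
      apply sl_ext
      rw [Matrix.SpecialLinearGroup.coe_pow, Matrix.SpecialLinearGroup.coe_one, ← hA,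
        show 9 = 8 + 1 from rfl, pow_add, h8, pow1, mulE h]
      rw [E_zero (ε := 1), one_smul]
      · linear_combination h1
      · linear_combination hneg

theorem aff_pow (h2 : (2 : K) = 0) (h7 : ∀ t : K, t ≠ 0 → t ^ 7 = 1) (x : Aff K m) :
    x ^ 4 = 1 ∨ x ^ 7 = 1 ∨ x ^ 9 = 1 := by
  set A : Matrix (Fin 2) (Fin 2) K := (x.s : Matrix (Fin 2) (Fin 2) K) with hA
  set t : K := A.trace with ht
  have h : A * A = t • A - 1 := CH A x.s.2
  by_cases h0 : t = 0
  · left
    have hs := (sl8_pow h2 h7 x.s).1 h0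
    have hx2 : (x ^ 2).s = 1 := by rw [pow_two, Aff.mul_s, ← pow_two, hs]
    rw [show 4 = 2 * 2 from rfl, pow_mul, pow_two (x ^ 2)]
    apply Aff.ext'
    · rw [Aff.mul_v, hx2, Matrix.SpecialLinearGroup.coe_one, Matrix.one_mul, ← two_smul K, h2,
        zero_smul, Aff.one_v]
    · rw [Aff.mul_s, hx2, mul_one, Aff.one_s]
  · right
    have ht2 : t - 2 ≠ 0 := by rw [h2, sub_zero]; exact h0
    set w : Matrix (Fin 2) (Fin m) K := (t - 2)⁻¹ • (((t - 1) • (1 : Matrix (Fin 2) (Fin 2) K) - A) * x.v)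
      with hw
    have hid : (1 - A) * ((t - 1) • (1 : Matrix (Fin 2) (Fin 2) K) - A) =
        (t - 2) • (1 : Matrix (Fin 2) (Fin 2) K) := by
      have e1 : (1 : Matrix (Fin 2) (Fin 2) K) - A = (-1 : K) • A + (1 : K) • (1 : Matrix (Fin 2) (Fin 2) K) := by
        module
      have e2 : (t - 1) • (1 : Matrix (Fin 2) (Fin 2) K) - A =
          (-1 : K) • A + (t - 1) • (1 : Matrix (Fin 2) (Fin 2) K) := by module
      rw [e1, e2, mulE h]
      apply E_zero <;> ring
    have hconj : x = (⟨w, 1⟩ : Aff K m) * Aff.ι x.s * (⟨w, 1⟩ : Aff K m)⁻¹ := by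
      apply Aff.ext'
      · rw [Aff.mul_v, Aff.mul_v, Aff.mul_s, Aff.inv_v]
        show x.v = w + ((1 : Matrix.SpecialLinearGroup (Fin 2) K) : Matrix (Fin 2) (Fin 2) K) * 0 +
          ((1 * x.s : Matrix.SpecialLinearGroup (Fin 2) K) : Matrix (Fin 2) (Fin 2) K) *
          (-(((1 : Matrix.SpecialLinearGroup (Fin 2) K)⁻¹ : Matrix.SpecialLinearGroup (Fin 2) K) : Matrix (Fin 2) (Fin 2) K) * w)
        rw [inv_one, one_mul, Matrix.SpecialLinearGroup.coe_one, Matrix.mul_zero, add_zero,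
          Matrix.neg_mul, Matrix.one_mul, Matrix.mul_neg, ← hA]
        have : w + -(A * w) = (1 - A) * w := by rw [Matrix.sub_mul, Matrix.one_mul, sub_eq_add_neg]
        rw [this, hw, Matrix.mul_smul, ← Matrix.mul_assoc, hid, Matrix.smul_mul, Matrix.one_mul,
          smul_smul, inv_mul_cancel₀ ht2, one_smul]
      · rw [Aff.mul_s, Aff.mul_s, Aff.inv_s]
        show x.s = 1 * x.s * 1⁻¹
        simp
    have hpow : ∀ n : ℕ, x.s ^ n = 1 → x ^ n = 1 := by
      intro n hn
      rw [hconj, conj_pow, ← map_pow, hn, map_one, mul_one, mul_inv_cancel]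
    rcases (sl8_pow h2 h7 x.s).2 h0 with h1 | h1
    · exact Or.inl (hpow 7 h1)
    · exact Or.inr (hpow 9 h1)

theorem aff_orders (h2 : (2 : K) = 0) (a : K) (ha0 : a ≠ 0) (ha1 : a ≠ 1) (ha7 : a ^ 7 = 1) :
    (∃ x : Aff K m, orderOf x = 2) ∧ (∃ x : Aff K m, orderOf x = 3) ∧
    (∃ x : Aff K m, orderOf x = 7) := by
  have hneg : (-1 : K) = 1 := by linear_combination (-1 : K) * h2
  have key : ∀ (p : ℕ) (s : Matrix.SpecialLinearGroup (Fin 2) K), p.Prime → s ^ p = 1 → s ≠ 1 →
      ∃ x : Aff K m, orderOf x = p := by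
    intro p s hp h1 h3
    have : Fact p.Prime := ⟨hp⟩
    exact ⟨Aff.ι s, by rw [orderOf_injective _ Aff.ι_injective]; exact orderOf_eq_prime h1 h3⟩
  refine ⟨?_, ?_, ?_⟩
  · let s : Matrix.SpecialLinearGroup (Fin 2) K := ⟨!![1, 1; 0, 1], by simp [Matrix.det_fin_two]⟩
    apply key 2 s Nat.prime_two
    · apply sl_ext
      have h := CH (s : Matrix (Fin 2) (Fin 2) K) s.2
      rw [Matrix.SpecialLinearGroup.coe_pow, Matrix.SpecialLinearGroup.coe_one, pow2 h,
        E_zero (ε := 1), one_smul]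
      · simp only [s, Matrix.trace_fin_two]
        simp only [Matrix.of_apply, Matrix.cons_val', Matrix.cons_val_zero, Matrix.cons_val_one,
          Matrix.cons_val_fin_one]
        linear_combination h2
      · exact hneg
    · intro hs
      have := congrArg (fun z : Matrix.SpecialLinearGroup (Fin 2) K => (z : Matrix (Fin 2) (Fin 2) K) 0 1) hs
      simp [s] at this
  · let s : Matrix.SpecialLinearGroup (Fin 2) K := ⟨!![0, 1; 1, 1], by
      simp [Matrix.det_fin_two]; exact hneg⟩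
    apply key 3 s Nat.prime_three
    · apply sl_ext
      have h := CH (s : Matrix (Fin 2) (Fin 2) K) s.2
      have ht : (s : Matrix (Fin 2) (Fin 2) K).trace = 1 := by
        simp [s, Matrix.trace_fin_two]
      rw [Matrix.SpecialLinearGroup.coe_pow, Matrix.SpecialLinearGroup.coe_one, pow3 h,
        E_zero (ε := 1), one_smul]
      · rw [ht]; ring
      · rw [ht]; exact hneg
    · intro hs
      have := congrArg (fun z : Matrix.SpecialLinearGroup (Fin 2) K => (z : Matrix (Fin 2) (Fin 2) K) 0 1) hs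
      simp [s] at this
  · let s : Matrix.SpecialLinearGroup (Fin 2) K := ⟨Matrix.diagonal ![a, a⁻¹], by
      simp [Matrix.det_diagonal, Fin.prod_univ_two, ha0]⟩
    apply key 7 s (by norm_num)
    · apply sl_ext
      rw [Matrix.SpecialLinearGroup.coe_pow, Matrix.SpecialLinearGroup.coe_one]
      show (Matrix.diagonal ![a, a⁻¹]) ^ 7 = 1
      rw [Matrix.diagonal_pow, ← Matrix.diagonal_one]
      congr 1
      funext i
      fin_cases i
      · simpa using ha7
      · simp [ha7]
    · intro hs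
      have := congrArg (fun z : Matrix.SpecialLinearGroup (Fin 2) K => (z : Matrix (Fin 2) (Fin 2) K) 0 0) hs
      simp [s] at this
      exact ha1 this

theorem aff_finite [Finite K] : Finite (Aff K m) := by
  classical
  have : Fintype K := Fintype.ofFinite K
  exact Finite.of_injective (fun x : Aff K m => (x.v, x.s)) (by
    intro x y h
    exact Aff.ext' (congrArg Prod.fst h) (congrArg Prod.snd h))

theorem aff_card [Finite K] : m ≤ Nat.card (Aff K m) := by
  classical
  have := aff_finite (K := K) (m := m)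
  have h := Nat.card_le_card_of_injective
    (fun i : Fin m => (⟨Matrix.single 0 i 1, 1⟩ : Aff K m)) (by
      intro i j hij
      have h1 : Matrix.single (0 : Fin 2) i (1 : K) = Matrix.single 0 j 1 := congrArg Aff.v hij
      by_contra hne
      have h2 := congrFun (congrFun h1 0) i
      simp [Matrix.single] at h2
      exact hne h2.symm)
  simpa using h

end aff


/-- The prime graph of a finite group has the prime divisors of its order as vertices, two distinct primes p, q being joined when the group has an element of order pq; two groups have the same prime graph when they have the same prime divisors and the same joined pairs. Let F be the field with 7 elements. There are finite groups of arbitrarily large order with the same prime graph as PSL(2,F) (the graph on {2, 3, 7} with no edges, which is also the prime graph of PSL(2,8)). -/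
theorem result {F : Type*} [Field F] [Fintype F] (hF : Fintype.card F = 7) (N : ℕ) :
    ∃ (H : Type) (_ : Group H) (_ : Finite H), N < Nat.card H ∧
      ((∀ p : ℕ, p.Prime → (p ∣ Nat.card (Matrix.ProjectiveSpecialLinearGroup (Fin 2) F) ↔ p ∣ Nat.card H)) ∧
      (∀ p q : ℕ, p.Prime → q.Prime → p ≠ q → ((∃ g : (Matrix.ProjectiveSpecialLinearGroup (Fin 2) F), orderOf g = p * q) ↔ (∃ g : H, orderOf g = p * q)))) := by
  have : Fact (Nat.Prime 2) := ⟨Nat.prime_two⟩
  let K := GaloisField 2 3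
  have hfin : Finite K := inferInstance
  have : Fintype K := Fintype.ofFinite K
  have hcard : Fintype.card K = 8 := by
    rw [← Nat.card_eq_fintype_card, GaloisField.card 2 3 (by norm_num)]; norm_num
  have h2 : (2 : K) = 0 := by
    have := CharP.cast_eq_zero K 2
    exact_mod_cast this
  have h7 : ∀ t : K, t ≠ 0 → t ^ 7 = 1 := by
    intro t ht
    have := FiniteField.pow_card_sub_one_eq_one t ht
    rwa [hcard] at this
  obtain ⟨a, ha0, ha1⟩ : ∃ a : K, a ≠ 0 ∧ a ≠ 1 := by
    by_contra hcon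
    push Not at hcon
    have hle : Fintype.card K ≤ Fintype.card (Fin 2) := by
      classical
      apply Fintype.card_le_of_injective (fun x : K => if x = 0 then (0 : Fin 2) else 1)
      intro x y hxy
      by_cases hx : x = 0 <;> by_cases hy : y = 0
      · rw [hx, hy]
      · simp [hx, hy] at hxy
      · simp [hx, hy] at hxy
      · rw [hcon x hx, hcon y hy]
    rw [hcard] at hle
    simp at hle
  have hfinH : Finite (Aff K (N + 1)) := aff_finite
  obtain ⟨o2, o3, o7⟩ := aff_orders (m := N + 1) h2 a ha0 ha1 (h7 a ha0)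
  obtain ⟨p2, p3, p7⟩ := psl7_orders hF
  have sH := spec (X := Aff K (N + 1)) (aff_pow h2 h7) o2 o3 o7
  have sP := spec (X := Matrix.ProjectiveSpecialLinearGroup (Fin 2) F) (psl7_pow hF) p2 p3 p7
  refine ⟨Aff K (N + 1), inferInstance, hfinH, ?_, ?_, ?_⟩
  · exact Nat.lt_of_succ_le aff_card
  · intro p hp
    rw [sP.1 p hp, sH.1 p hp]
  · intro p q hp hq hpq
    exact iff_of_false (sP.2 p q hp hq hpq) (sH.2 p q hp hq hpq)

end Cfsg.Agent.S3678
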