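import Cfsg.Statements.S3681
-- import your own Cfsg.Agent.* helpers here

set_option autoImplicit false
open Cfsg

namespace Cfsg.Agent.S3681

open Equiv Equiv.Perm

theorem comm_eq {Ω : Type*} [DecidableEq Ω] (x y : Perm Ω) (α : Ω) (hx : x α ≠ α) (hy : y α ≠ α)
    (H : ∀ ω, ω ≠ α → x ω = ω ∨ y ω = ω) :
    x * y * x⁻¹ * y⁻¹ = swap α (x α) * swap (x α) (y α) := by
  have hxy : x α ≠ y α := by
    intro h
    rcases H (x α) hx with h1 | h1
    · exact hx (x.injective h1)
    · rw [h] at h1; exact hy (y.injective h1)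
  have key : x * y = swap α (x α) * swap (x α) (y α) * (y * x) := by
    ext ω
    simp only [Perm.mul_apply]
    by_cases hω : ω = α
    · subst hω
      have h1 : x (y ω) = y ω := by
        rcases H (y ω) hy with h | h
        · exact h
        · exact absurd (y.injective h) hy
      have h2 : y (x ω) = x ω := by
        rcases H (x ω) hx with h | h
        · exact absurd (x.injective h) hx
        · exact h
      rw [h1, h2, swap_apply_left, swap_apply_of_ne_of_ne hy hxy.symm]
    · rcases H ω hω with h | h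
      · rw [h]
        by_cases h3 : y ω = α
        · rw [h3, swap_apply_of_ne_of_ne hx.symm hy.symm, swap_apply_left]
        · have h4 : x (y ω) = y ω := by
            rcases H (y ω) h3 with h5 | h5
            · exact h5
            · rw [y.injective h5]; exact h
          have h6 : y ω ≠ x α := by
            intro h7
            rw [h7] at h4
            exact hx (x.injective h4)
          have h8 : y ω ≠ y α := fun h9 => hω (y.injective h9)
          rw [h4, swap_apply_of_ne_of_ne h6 h8, swap_apply_of_ne_of_ne h3 h6]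
      · rw [h]
        by_cases h3 : x ω = α
        · rw [h3, swap_apply_right, swap_apply_right]
        · have h4 : y (x ω) = x ω := by
            rcases H (x ω) h3 with h5 | h5
            · rw [x.injective h5]; exact h
            · exact h5
          have h6 : x ω ≠ y α := by
            intro h7
            rw [h7] at h4
            exact hy (y.injective h4)
          have h8 : x ω ≠ x α := fun h9 => hω (x.injective h9)
          rw [h4, swap_apply_of_ne_of_ne h8 h6, swap_apply_of_ne_of_ne h3 h8]
  calc x * y * x⁻¹ * y⁻¹ = (x * y) * (y * x)⁻¹ := by group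
    _ = swap α (x α) * swap (x α) (y α) * (y * x) * (y * x)⁻¹ := by rw [← key]
    _ = _ := by group

theorem three_cycle {Ω : Type*} [DecidableEq Ω] [Fintype Ω] (x y : Perm Ω) (α : Ω) (hx : x α ≠ α)
    (hy : y α ≠ α) (H : ∀ ω, ω ≠ α → x ω = ω ∨ y ω = ω) : (x * y * x⁻¹ * y⁻¹).IsThreeCycle := by
  have hxy : x α ≠ y α := by
    intro h
    rcases H (x α) hx with h1 | h1
    · exact hx (x.injective h1)
    · rw [h] at h1; exact hy (y.injective h1)
  rw [comm_eq x y α hx hy H, swap_comm α (x α)]
  exact isThreeCycle_swap_mul_swap_same hx hxy hy.symm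

theorem exists_free_set {Ω : Type*} [DecidableEq Ω] [Fintype Ω] (P : Subgroup (Perm Ω))
    (hprim : MulAction.IsPreprimitive P Ω) (hA : ¬ alternatingGroup Ω ≤ P) :
    ∃ Δ : Finset Ω, (Fintype.card Ω + 1) / 2 ≤ Δ.card ∧ ∀ g ∈ P, g.support ⊆ Δ → g = 1 := by
  classical
  let 𝒟 : Finset (Finset Ω) := Finset.univ.filter fun Δ => ∀ g ∈ P, g.support ⊆ Δ → g = 1
  have hne : 𝒟.Nonempty := ⟨∅, by
    simp only [𝒟, Finset.mem_filter, Finset.mem_univ, true_and]
    intro g _ hg
    exact support_eq_empty_iff.mp (Finset.subset_empty.mp hg)⟩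
  obtain ⟨Δ, hΔ, hmax⟩ := Finset.exists_max_image 𝒟 Finset.card hne
  have hΔ' : ∀ g ∈ P, g.support ⊆ Δ → g = 1 := by
    simpa [𝒟] using hΔ
  have hbig : ∀ Γ : Finset Ω, Δ.card < Γ.card → ∃ g ∈ P, g.support ⊆ Γ ∧ g ≠ 1 := by
    intro Γ hΓ
    by_contra hcon
    push Not at hcon
    have : Γ ∈ 𝒟 := by
      simp only [𝒟, Finset.mem_filter, Finset.mem_univ, true_and]
      exact hcon
    exact absurd (hmax Γ this) (not_le.mpr hΓ)
  refine ⟨Δ, ?_, hΔ'⟩
  by_contra hlt
  push Not at hlt
  have hc : Δ.card + Δᶜ.card = Fintype.card Ω := Finset.card_add_card_compl Δ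
  obtain ⟨x, hxP, hxs, hx1⟩ := hbig Δᶜ (by omega)
  obtain ⟨α, hα⟩ : x.support.Nonempty := by
    rw [Finset.nonempty_iff_ne_empty]
    intro h
    exact hx1 (support_eq_empty_iff.mp h)
  have hαΔ : α ∉ Δ := Finset.mem_compl.mp (hxs hα)
  obtain ⟨y, hyP, hys, hy1⟩ := hbig (insert α Δ) (by
    rw [Finset.card_insert_of_notMem hαΔ]; omega)
  have hαy : α ∈ y.support := by
    by_contra hn
    apply hy1
    apply hΔ' y hyP
    intro ω hω
    rcases Finset.mem_insert.mp (hys hω) with h | h
    · subst h; exact absurd hω hn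
    · exact h
  apply hA
  apply alternatingGroup_le_of_isPreprimitive_of_isThreeCycle_mem hprim
    (three_cycle x y α (mem_support.mp hα) (mem_support.mp hαy) ?_)
    (P.mul_mem (P.mul_mem (P.mul_mem hxP hyP) (P.inv_mem hxP)) (P.inv_mem hyP))
  intro ω hω
  by_contra hcon
  push Not at hcon
  have h1 : ω ∈ x.support := mem_support.mpr hcon.1
  have h2 : ω ∈ y.support := mem_support.mpr hcon.2
  rcases Finset.mem_insert.mp (hys h2) with h | h
  · exact hω h
  · exact Finset.mem_compl.mp (hxs h1) h

theorem card_bound {Ω : Type*} [DecidableEq Ω] [Fintype Ω] (P : Subgroup (Perm Ω)) (Δ : Finset Ω)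
    (h : ∀ g ∈ P, g.support ⊆ Δ → g = 1) :
    Nat.card P * Nat.factorial Δ.card ≤ Nat.factorial (Fintype.card Ω) := by
  let ι : Perm {x // x ∈ Δ} →* Perm Ω := Perm.ofSubtype
  have hι : Function.Injective ι := Perm.ofSubtype_injective
  let f : P × Perm {x // x ∈ Δ} → Perm Ω := fun z => z.1 * ι z.2
  have hf : Function.Injective f := by
    rintro ⟨g, s⟩ ⟨g', s'⟩ hgs
    simp only [f] at hgs
    have h1 : ((g'⁻¹ * g : P) : Perm Ω) = ι (s' * s⁻¹) := by
      rw [map_mul, map_inv]
      push_cast
      rw [inv_mul_eq_iff_eq_mul, ← mul_assoc, ← hgs]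
      group
    have h2 : ((g'⁻¹ * g : P) : Perm Ω) = 1 := by
      apply h _ (g'⁻¹ * g).2
      rw [h1]
      intro ω hω
      by_contra hn
      exact (mem_support.mp hω) (Perm.ofSubtype_apply_of_not_mem _ hn)
    have h3 : g = g' := by
      have : g'⁻¹ * g = 1 := Subtype.ext h2
      exact (inv_mul_eq_one.mp this).symm
    have h4 : s' * s⁻¹ = 1 := by
      apply hι
      rw [← h1, h2, map_one]
    rw [h3, (mul_inv_eq_one.mp h4)]
  have := Nat.card_le_card_of_injective f hf
  rw [Nat.card_prod, Nat.card_eq_fintype_card (α := Perm {x // x ∈ Δ}), Fintype.card_perm,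
    Fintype.card_coe, Nat.card_eq_fintype_card (α := Perm Ω), Fintype.card_perm] at this
  exact this

/-- Bochert's bound for primitive groups. Let a finite group G act faithfully and primitively on a finite set Ω with n elements, and suppose the image of G in the symmetric group of Ω does not contain the alternating group of Ω. Then |G| · ⌊(n + 1)/2⌋! ≤ n!, that is, the index of G in the symmetric group is at least ⌊(n + 1)/2⌋!. -/
theorem result {G Ω : Type*} [Group G] [Finite G] [MulAction G Ω] [FaithfulSMul G Ω] [Fintype Ω] [DecidableEq Ω]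
    (hprim : MulAction.IsPreprimitive G Ω) (hA : ¬ alternatingGroup Ω ≤ (MulAction.toPermHom G Ω).range) :
    Nat.card G * Nat.factorial ((Fintype.card Ω + 1) / 2) ≤ Nat.factorial (Fintype.card Ω) := by
  have hinj : Function.Injective (MulAction.toPermHom G Ω) := MulAction.toPerm_injective
  have hcard : Nat.card G = Nat.card (MulAction.toPermHom G Ω).range :=
    Nat.card_congr (MonoidHom.ofInjective hinj).toEquiv
  have hprimP : MulAction.IsPreprimitive (MulAction.toPermHom G Ω).range Ω := by
    let φ : G → (MulAction.toPermHom G Ω).range := (MulAction.toPermHom G Ω).rangeRestrict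
    let f : Ω →ₑ[φ] Ω := { toFun := id, map_smul' := fun g x => rfl }
    exact MulAction.IsPreprimitive.of_surjective (f := f) Function.surjective_id
  obtain ⟨Δ, hΔ, hfree⟩ := exists_free_set _ hprimP hA
  rw [hcard]
  calc _ ≤ Nat.card (MulAction.toPermHom G Ω).range * Nat.factorial Δ.card :=
        Nat.mul_le_mul_left _ (Nat.factorial_le hΔ)
    _ ≤ _ := card_bound _ Δ hfree

end Cfsg.Agent.S3681
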