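import Cfsg.Statements.S3682
-- import your own Cfsg.Agent.* helpers here
import Cfsg.Agent.Lib.Helper92.TW.Fin

set_option autoImplicit false
open Cfsg

namespace Cfsg.Agent.S3682

open Cfsg.Agent.Lib.Helper92 Cfsg.Agent.Lib.Helper28

/-- Wielandt's bound toward the Sims conjecture. Let a finite group G act faithfully and primitively on a set Ω, let a and b be points, and suppose the orbit of b under the stabilizer of a has length d ≥ 2. Then there are a prime p and a normal p-subgroup P of the stabilizer of a, all of whose elements fix b, such that the index of P in the stabilizer of a divides d! · ((d - 1)!)^d. -/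
theorem result {G Ω : Type*} [Group G] [Finite G] [MulAction G Ω] [FaithfulSMul G Ω] [Finite Ω]
    (hprim : MulAction.IsPreprimitive G Ω) (a b : Ω) (d : ℕ) (hd : Nat.card (MulAction.orbit (MulAction.stabilizer G a) b) = d) (h2 : 2 ≤ d) :
    ∃ p : ℕ, p.Prime ∧ ∃ P : Subgroup (MulAction.stabilizer G a), P.Normal ∧ IsPGroup p P ∧ (∀ g : P, ((g : MulAction.stabilizer G a) : G) • b = b) ∧
      P.index ∣ Nat.factorial d * (Nat.factorial (d - 1)) ^ d := by
  obtain ⟨B₁, A₂, B₂, h, hcard, hMN, -, hdM, hdN⟩ := exists_TW_of_action hprim a b d hd h2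
  obtain ⟨p, hp, P, hPle, hn, hPp, hdvd, -⟩ := h.exists_P hcard hMN d hdM hdN
  have hPM : P ≤ MulAction.stabilizer G a := hPle.trans inf_le_left
  refine ⟨p, hp, P.subgroupOf (MulAction.stabilizer G a),
    (Subgroup.normal_subgroupOf_iff_le_normalizer hPM).mpr hn,
    hPp.of_equiv (Subgroup.subgroupOfEquivOfLe hPM).symm, ?_, hdvd⟩
  intro g
  have h1 : ((g : MulAction.stabilizer G a) : G) ∈ P := Subgroup.mem_subgroupOf.mp g.2
  exact MulAction.mem_stabilizer_iff.mp (hPle h1).2

end Cfsg.Agent.S3682
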