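import Cfsg.Statements.S3683
-- import your own Cfsg.Agent.* helpers here

set_option autoImplicit false
open Cfsg

namespace Cfsg.Agent.S3683

theorem prime_of_bot_coatom {G : Type*} [Group G] [Finite G] (h : IsCoatom (⊥ : Subgroup G)) :
    IsCyclic G ∧ (Nat.card G).Prime := by
  have hnt : Nontrivial G := by
    by_contra hn
    rw [not_nontrivial_iff_subsingleton] at hn
    exact h.1 (Subsingleton.elim _ _)
  obtain ⟨g, hg⟩ := exists_ne (1 : G)
  have hz : Subgroup.zpowers g = ⊤ := by
    apply h.2
    rw [bot_lt_iff_ne_bot]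
    intro hb
    exact hg (Subgroup.zpowers_eq_bot.mp hb)
  have hcyc : IsCyclic G := ⟨g, fun x => by
    have : x ∈ Subgroup.zpowers g := by rw [hz]; trivial
    exact this⟩
  refine ⟨hcyc, ?_⟩
  let _ : CommGroup G := IsCyclic.commGroup
  have : IsSimpleGroup G := ⟨fun H _ => by
    by_cases hH : H = ⊥
    · exact Or.inl hH
    · exact Or.inr (h.2 H (bot_lt_iff_ne_bot.mpr hH))⟩
  exact IsSimpleGroup.prime_card

/-- Let a finite group G act faithfully and primitively on a set Ω, and suppose the stabilizer of a point a fixes a second point b ≠ a (a suborbit of length 1 other than {a}). Then the stabilizer of a is trivial and G is cyclic of prime order. -/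
theorem result {G Ω : Type*} [Group G] [Finite G] [MulAction G Ω] [FaithfulSMul G Ω] [Finite Ω]
    (hprim : MulAction.IsPreprimitive G Ω) (a b : Ω) (hab : a ≠ b) (hfix : ∀ g : G, g • a = a → g • b = b) :
    MulAction.stabilizer G a = ⊥ ∧ IsCyclic G ∧ (Nat.card G).Prime := by
  have : Nontrivial Ω := ⟨a, b, hab⟩
  have hca : IsCoatom (MulAction.stabilizer G a) :=
    MulAction.IsPreprimitive.isCoatom_stabilizer_of_isPreprimitive G a
  have hcb : IsCoatom (MulAction.stabilizer G b) :=
    MulAction.IsPreprimitive.isCoatom_stabilizer_of_isPreprimitive G b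
  have hle : MulAction.stabilizer G a ≤ MulAction.stabilizer G b := fun g hg => hfix g hg
  have heq : MulAction.stabilizer G a = MulAction.stabilizer G b := by
    rcases eq_or_lt_of_le hle with h | h
    · exact h
    · exact absurd (hca.2 _ h) hcb.1
  obtain ⟨g, hg⟩ := MulAction.exists_smul_eq G a b
  have hnorm : (MulAction.stabilizer G a).Normal := by
    rw [← Subgroup.normalizer_eq_top_iff]
    apply hca.2
    refine lt_of_le_of_ne Subgroup.le_normalizer ?_
    intro hN
    have hgN : g ∈ Subgroup.normalizer (MulAction.stabilizer G a : Set G) := by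
      rw [Subgroup.mem_normalizer_iff]
      intro x
      have h1 : g * x * g⁻¹ ∈ MulAction.stabilizer G a ↔ g * x * g⁻¹ ∈ MulAction.stabilizer G b := by
        rw [heq]
      show x ∈ MulAction.stabilizer G a ↔ g * x * g⁻¹ ∈ MulAction.stabilizer G a
      rw [h1, MulAction.mem_stabilizer_iff, MulAction.mem_stabilizer_iff, ← hg]
      rw [mul_smul, mul_smul, inv_smul_smul, smul_left_cancel_iff]
    rw [← hN] at hgN
    exact hab (by rw [← hg]; exact (MulAction.mem_stabilizer_iff.mp hgN).symm)
  have hbot : MulAction.stabilizer G a = ⊥ := by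
    rw [eq_bot_iff]
    intro x hx
    rw [Subgroup.mem_bot]
    apply FaithfulSMul.eq_of_smul_eq_smul (α := Ω)
    intro c
    obtain ⟨k, hk⟩ := MulAction.exists_smul_eq G a c
    have : k⁻¹ * x * k ∈ MulAction.stabilizer G a := by
      have := hnorm.conj_mem x hx k⁻¹
      simpa using this
    rw [MulAction.mem_stabilizer_iff, mul_smul, mul_smul, hk] at this
    rw [one_smul]
    exact (inv_smul_eq_iff.mp this).trans hk
  refine ⟨hbot, ?_⟩
  rw [hbot] at hca
  exact prime_of_bot_coatom hca

end Cfsg.Agent.S3683
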