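import Cfsg.Statements.S3684
import Cfsg.Agent.Lib.Helper5.DihedralIso

set_option autoImplicit false
open Cfsg

namespace Cfsg.Agent.S3684

open Subgroup MulAction

theorem normal_le_normalizer {G : Type*} [Group G] (D H : Subgroup G) (hDH : D ≤ H)
    (h2 : D.relIndex H = 2) : H ≤ normalizer (D : Set G) := by
  have hn : (D.subgroupOf H).Normal := normal_of_index_eq_two h2
  exact (normal_subgroupOf_iff_le_normalizer hDH).1 hn

theorem exists_gen_of_card_two {G : Type*} [Group G] (H : Subgroup G) (h : Nat.card H = 2) :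
    ∃ s : G, orderOf s = 2 ∧ H = zpowers s := by
  have : Fact (Nat.Prime 2) := ⟨by norm_num⟩
  have : Finite H := Nat.finite_of_card_ne_zero (by rw [h]; norm_num)
  obtain ⟨s, hs⟩ := exists_prime_orderOf_dvd_card' (G := H) 2 (by rw [h])
  have hs' : orderOf (s : G) = 2 := by rw [Subgroup.orderOf_coe, hs]
  refine ⟨s, hs', ?_⟩
  symm
  apply Subgroup.eq_of_le_of_card_ge (zpowers_le.2 s.2)
  rw [h, Nat.card_zpowers, hs']

/-- Let a finite group G act faithfully and primitively on a set Ω, and suppose the stabilizer of a point a has an orbit of length 2. Then the stabilizer of a has order 2 and G is isomorphic to the dihedral group of order 2p for some prime p. -/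
theorem result {G Ω : Type*} [Group G] [Finite G] [MulAction G Ω] [FaithfulSMul G Ω] [Finite Ω]
    (hprim : MulAction.IsPreprimitive G Ω) (a b : Ω) (h2 : Nat.card (MulAction.orbit (MulAction.stabilizer G a) b) = 2) :
    Nat.card (MulAction.stabilizer G a) = 2 ∧ ∃ p : ℕ, p.Prime ∧ Nonempty (G ≃* DihedralGroup p) := by
  classical
  have htr : IsPretransitive G Ω := hprim.toIsPretransitive
  set H := stabilizer G a with hH
  set K := stabilizer G b with hK
  set D := H ⊓ K with hD
  -- index of D in H
  have hstab : stabilizer H b = K.subgroupOf H := by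
    ext x
    rw [mem_subgroupOf]
    rfl
  have hKH : K.relIndex H = 2 := by
    have := index_stabilizer H b
    rw [hstab, ← Nat.card_coe_set_eq, h2] at this
    exact this
  have hDH : D.relIndex H = 2 := by rw [hD, inf_comm, inf_relIndex_right]; exact hKH
  have hcH : Nat.card D * 2 = Nat.card H := by
    have := relIndex_mul_relIndex ⊥ D H bot_le inf_le_left
    rwa [relIndex_bot_left, relIndex_bot_left, hDH] at this
  have hcHK : Nat.card K = Nat.card H := by
    obtain ⟨g, hg⟩ := exists_smul_eq G a b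
    rw [hK, ← hg, stabilizer_smul_eq_stabilizer_map_conj]
    exact card_map_of_injective (MulAut.conj g).injective
  have hDK : D.relIndex K = 2 := by
    have := relIndex_mul_relIndex ⊥ D K bot_le inf_le_right
    rw [relIndex_bot_left, relIndex_bot_left, hcHK, ← hcH] at this
    have hpos : 0 < Nat.card D := Nat.card_pos
    exact Nat.eq_of_mul_eq_mul_left hpos this
  have hne : H ≠ K := by
    intro h
    have : D = H := by rw [hD, ← h, inf_idem]
    rw [this] at hcH
    have hpos : 0 < Nat.card H := Nat.card_pos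
    omega
  have hnt : Nontrivial Ω := by
    by_contra hcon
    rw [not_nontrivial_iff_subsingleton] at hcon
    apply hne
    rw [hH, hK, Subsingleton.elim a b]
  have hco : IsCoatom H := IsPreprimitive.isCoatom_stabilizer_of_isPreprimitive G a
  have hsup : H ⊔ K = ⊤ := by
    apply hco.2
    apply lt_of_le_of_ne le_sup_left
    intro h
    have hKleH : K ≤ H := by rw [h]; exact le_sup_right
    exact hne (Subgroup.eq_of_le_of_card_ge hKleH hcHK.ge).symm
  have hDn : D.Normal := by
    rw [← normalizer_eq_top_iff, eq_top_iff, ← hsup]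
    exact sup_le (normal_le_normalizer D H inf_le_left hDH)
      (normal_le_normalizer D K inf_le_right hDK)
  have hDbot : D = ⊥ := by
    rw [eq_bot_iff]
    intro d hd
    rw [mem_bot]
    apply FaithfulSMul.eq_of_smul_eq_smul (α := Ω)
    intro x
    obtain ⟨g, rfl⟩ := exists_smul_eq G a x
    have h1 : g⁻¹ * d * g⁻¹⁻¹ ∈ D := hDn.conj_mem d hd g⁻¹
    have h3 : (g⁻¹ * d * g⁻¹⁻¹) • a = a := (inf_le_left : D ≤ H) h1
    rw [one_smul]
    calc d • g • a = g • ((g⁻¹ * d * g⁻¹⁻¹) • a) := by
          rw [← mul_smul, ← mul_smul]; congr 1; group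
      _ = g • a := by rw [h3]
  have hH2 : Nat.card H = 2 := by
    rw [← hcH, hDbot, card_bot]
  refine ⟨hH2, ?_⟩
  obtain ⟨s, hs, hHs⟩ := exists_gen_of_card_two H hH2
  obtain ⟨t, ht, hKt⟩ := exists_gen_of_card_two K (hcHK.trans hH2)
  have hcl : closure ({s, t} : Set G) = ⊤ := by
    rw [← hsup, hHs, hKt, zpowers_eq_closure, zpowers_eq_closure, ← Subgroup.closure_union]
    rfl
  set n := orderOf (s * t) with hn
  have hiso : G ≃* DihedralGroup n :=
    (topEquiv.symm.trans (MulEquiv.subgroupCongr hcl.symm)).trans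
      (Cfsg.Agent.Lib.Helper5.dihEquiv hs ht)
  refine ⟨n, ?_, ⟨hiso⟩⟩
  have hG : Nat.card G = 2 * n := by
    rw [← card_top (G := G), ← hcl]
    exact Cfsg.Agent.Lib.Helper5.dih_card hs ht
  have hss : s * s = 1 := by rw [← pow_two, ← hs]; exact pow_orderOf_eq_one s
  have htt : t * t = 1 := by rw [← pow_two, ← ht]; exact pow_orderOf_eq_one t
  have hn0 : 0 < n := orderOf_pos _
  have hn1 : n ≠ 1 := by
    intro h1
    rw [hn, orderOf_eq_one_iff] at h1
    apply hne
    have : s = t := by
      calc s = s * (t * t) := by rw [htt, mul_one]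
        _ = (s * t) * t := by group
        _ = t := by rw [h1, one_mul]
    rw [hHs, hKt, this]
  by_contra hnp
  obtain ⟨p, hp, hpn⟩ := Nat.exists_prime_and_dvd hn1
  obtain ⟨m, hm⟩ := hpn
  have hm1 : 1 < m := by
    rcases Nat.lt_or_ge 1 m with h | h
    · exact h
    · exfalso
      interval_cases m
      · omega
      · rw [mul_one] at hm
        exact hnp (hm ▸ hp)
  set r := s * t with hr
  have hinv : s * r * s = r⁻¹ := by
    have : r⁻¹ = t * s := by
      rw [hr, mul_inv_rev]
      have e1 : t⁻¹ = t := inv_eq_of_mul_eq_one_left htt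
      have e2 : s⁻¹ = s := inv_eq_of_mul_eq_one_left hss
      rw [e1, e2]
    rw [this, hr]
    calc s * (s * t) * s = (s * s) * t * s := by group
      _ = t * s := by rw [hss, one_mul]
  have hsinv : s⁻¹ = s := inv_eq_of_mul_eq_one_left hss
  have hinvp : ∀ k : ℕ, s * r ^ k * s = (r ^ k)⁻¹ := by
    intro k
    have h1 : s * r ^ k * s⁻¹ = (s * r * s⁻¹) ^ k := (conj_pow).symm
    rw [hsinv, hinv, inv_pow] at h1
    exact h1
  set t' := s * r ^ p with ht'
  have ht'2 : t' * t' = 1 := by
    calc t' * t' = (s * r ^ p * s) * r ^ p := by rw [ht']; group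
      _ = 1 := by rw [hinvp, inv_mul_cancel]
  have hst' : s * t' = r ^ p := by
    rw [ht', ← mul_assoc, hss, one_mul]
  have hord : orderOf (r ^ p) = m := by
    rw [orderOf_pow_of_dvd hp.ne_zero ⟨m, hm⟩, ← hn, hm]
    exact Nat.mul_div_cancel_left m hp.pos
  have ht'1 : t' ≠ 1 := by
    intro h1
    have h3 : r ^ p = s := by
      rw [← hst', h1, mul_one]
    have hcomm : s * r = r * s := by
      rw [← h3, ← pow_succ, ← pow_succ']
    have h4 : r = r⁻¹ := by
      rw [← hinv, hcomm, mul_assoc, hss, mul_one]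
    have h5 : r ^ 2 = 1 := by
      rw [pow_two]
      nth_rewrite 2 [h4]
      exact mul_inv_cancel r
    have h6 : n ∣ 2 := orderOf_dvd_of_pow_eq_one h5
    have h7 : n ≤ 2 := Nat.le_of_dvd (by norm_num) h6
    have h8 : 2 ≤ p := hp.two_le
    nlinarith
  have ht'o : orderOf t' = 2 := orderOf_eq_prime (by rw [pow_two]; exact ht'2) ht'1
  set L := closure ({s, t'} : Set G) with hL
  have hLc : Nat.card L = 2 * m := by
    rw [hL, Cfsg.Agent.Lib.Helper5.dih_card hs ht'o, hst', hord]
  have hHL : H ≤ L := by
    rw [hHs, zpowers_le]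
    exact subset_closure (Set.mem_insert _ _)
  have hLtop : L = ⊤ := by
    apply hco.2
    apply lt_of_le_of_ne hHL
    intro h
    rw [← h, hH2] at hLc
    omega
  rw [hLtop, card_top, hG, hm] at hLc
  have h8 : 2 ≤ p := hp.two_le
  nlinarith

end Cfsg.Agent.S3684
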