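import Cfsg.Statements.S3693
-- import your own Cfsg.Agent.* helpers here
import Cfsg.Agent.Lib.Helper92.TW.Fin
import Cfsg.Agent.Lib.Helper92.TW.FIT

set_option autoImplicit false
open Cfsg

namespace Cfsg.Agent.S3693

open Cfsg.Agent.Lib.Helper92 Cfsg.Agent.Lib.Helper28

/-- Let a finite group G act faithfully and primitively on a set Ω, let a and b be points such that the orbit Δ of b under the stabilizer H of a has length d ≥ 2, and consider the permutation group induced on Δ by the elements of H fixing b. If that induced group has trivial Fitting subgroup (no non-trivial nilpotent normal subgroup), then the two-point stabilizer of a and b has trivial Fitting subgroup and the order of H divides d! · ((d - 1)!)^d. -/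
theorem result {G Ω : Type*} [Group G] [Finite G] [MulAction G Ω] [FaithfulSMul G Ω] [Finite Ω]
    (hprim : MulAction.IsPreprimitive G Ω) (a b : Ω) (d : ℕ) (hd : Nat.card (MulAction.orbit (MulAction.stabilizer G a) b) = d) (h2 : 2 ≤ d)
    (hF : Cfsg.fittingSubgroup ↥(((MulAction.stabilizer G b).subgroupOf (MulAction.stabilizer G a)).map (MulAction.toPermHom (MulAction.stabilizer G a) (MulAction.orbit (MulAction.stabilizer G a) b))) = ⊥) :
    Cfsg.fittingSubgroup ↥(MulAction.stabilizer G a ⊓ MulAction.stabilizer G b) = ⊥ ∧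
      Nat.card (MulAction.stabilizer G a) ∣ Nat.factorial d * (Nat.factorial (d - 1)) ^ d := by
  obtain ⟨B₁, A₂, B₂, h, hcard, hMN, ⟨g, hg⟩, hdM, hdN⟩ := exists_TW_of_action hprim a b d hd h2
  have hO : ∀ p : ℕ, p.Prime →
      opIn p (MulAction.stabilizer G a ⊓ MulAction.stabilizer G b) = ⊥ := by
    intro p hp
    have : Fact p.Prime := ⟨hp⟩
    exact h.opIn_inf_eq_bot g hg (opIn_le_coreIn_of_fitting a b hF p)
  refine ⟨fitting_eq_bot_of_opIn hO, ?_⟩
  obtain ⟨p, hp, P, hPle, hn, hPp, hdvd, -⟩ := h.exists_P hcard hMN d hdM hdN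
  have hP : P = ⊥ := by
    rw [eq_bot_iff, ← hO p hp]
    exact le_opIn hPle (inf_le_left.trans hn) hPp
  rwa [hP, Subgroup.relIndex_bot_left] at hdvd

end Cfsg.Agent.S3693
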