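import Cfsg.Statements.S3802
-- import your own Cfsg.Agent.* helpers here
import Cfsg.Agent.S0538
import Cfsg.Agent.Lib.Helper67.Conj

set_option autoImplicit false
open Cfsg

namespace Cfsg.Agent.S3802

/-- Let G be a finite group, M a maximal subgroup of G and N a subnormal subgroup of G contained in M. Then N is contained in every conjugate of M, that is, N lies in the core of M in G. -/
theorem result {G : Type*} [Group G] [Finite G] (M N : Subgroup G) (hM : IsCoatom M) (hN : N.IsSubnormal) (hNM : N ≤ M) :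
    N ≤ Subgroup.normalCore M := by
  obtain ⟨X, hNX, hX⟩ := Finite.exists_le_maximal (p := fun X : Subgroup G => X.IsSubnormal ∧ X ≤ M)
    (a := N) ⟨hN, hNM⟩
  obtain ⟨⟨hXs, hXM⟩, hXmax⟩ := hX
  have hbig : ∀ Y : Subgroup G, Y.IsSubnormal → Y ≤ M → Y ≤ X := by
    intro Y hY hYM
    have h1 : (X ⊔ Y).IsSubnormal := Cfsg.Agent.S0538.result X Y hXs hY
    exact le_sup_right.trans (hXmax ⟨h1, sup_le hXM hYM⟩ le_sup_left)
  have hMn : M ≤ Subgroup.normalizer (X : Set G) := by
    rw [Subgroup.le_normalizer_iff]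
    intro m hm k hk
    have h1 : (Lib.Helper67.cj m X).IsSubnormal := hXs.map (MulAut.conj m).surjective
    have h2 : Lib.Helper67.cj m X ≤ M := Lib.Helper67.cj_le_of_mem hm hXM
    exact hbig _ h1 h2 (Lib.Helper67.conj_mem_cj hk)
  rcases hM.le_iff.1 hMn with h | h
  · have hXn : X.Normal := Subgroup.normalizer_eq_top_iff.1 h
    exact hNX.trans (Subgroup.normal_le_normalCore.2 hXM)
  · exfalso
    rcases Subgroup.IsSubnormal.iff_eq_top_or_exists.1 hXs with h1 | ⟨K, hXK, hKs, hKn⟩
    · rw [h1, top_le_iff] at hXM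
      exact hM.1 hXM
    · have h2 : K ≤ M := h ▸ (Subgroup.normal_subgroupOf_iff_le_normalizer hXK.le).1 hKn
      exact hXK.not_ge (hbig K hKs h2)

end Cfsg.Agent.S3802
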