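import Cfsg.Statements.S3803
-- import your own Cfsg.Agent.* helpers here
import Cfsg.Agent.Lib.Helper11.OmegaAut
import Cfsg.Agent.Lib.Helper1.Coprime2
import Cfsg.Agent.Lib.Helper3.PGroup

set_option autoImplicit false
open Cfsg

namespace Cfsg.Agent.S3803

open Subgroup

/-- In a finite `p`-subgroup `P`, any subgroup `H` lies in a subgroup of any intermediate order. -/
theorem exists_between {X : Type*} [Group X] [Finite X] {p : ℕ} [Fact p.Prime] (H P : Subgroup X)
    (hP : IsPGroup p P) (hHP : H ≤ P) (k : ℕ) (h1 : Nat.card H ≤ p ^ k) (h2 : p ^ k ≤ Nat.card P) :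
    ∃ E : Subgroup X, H ≤ E ∧ E ≤ P ∧ Nat.card E = p ^ k := by
  obtain ⟨n, hn⟩ := hP.exists_card_eq
  have hH : IsPGroup p H := hP.to_le hHP
  obtain ⟨a, ha⟩ := hH.exists_card_eq
  have hp1 : 1 < p := (Fact.out : p.Prime).one_lt
  have hkn : k ≤ n := by rw [hn] at h2; exact (Nat.pow_le_pow_iff_right hp1).mp h2
  have hak : a ≤ k := by rw [ha] at h1; exact (Nat.pow_le_pow_iff_right hp1).mp h1
  have hc : Nat.card (H.subgroupOf P) = p ^ a := by
    rw [← ha]; exact Nat.card_congr (Subgroup.subgroupOfEquivOfLe hHP).toEquiv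
  obtain ⟨K, hK, hHK⟩ := Sylow.exists_subgroup_card_pow_prime_le p (hn ▸ pow_dvd_pow p hkn)
    (H.subgroupOf P) hc hak
  refine ⟨K.map P.subtype, ?_, Subgroup.map_subtype_le K, ?_⟩
  · intro x hx
    exact ⟨⟨x, hHP hx⟩, hHK (Subgroup.mem_subgroupOf.mpr hx), rfl⟩
  · rw [Subgroup.card_map_of_injective P.subtype_injective, hK]

/-- An element of odd order normalizing a cyclic `2`-subgroup centralizes it. -/
theorem mem_centralizer_of_cyclic {X : Type*} [Group X] [Finite X] (E : Subgroup X)
    (hE : IsPGroup 2 E) (hc : IsCyclic E) (y : X) (hy : y ∈ normalizer (E : Set X))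
    (hodd : Odd (orderOf y)) : y ∈ centralizer (E : Set X) := by
  have h1 : orderOf (E.normalizerMonoidHom ⟨y, hy⟩) ∣ orderOf y := by
    have := orderOf_map_dvd E.normalizerMonoidHom (⟨y, hy⟩ : normalizer (E : Set X))
    rwa [Subgroup.orderOf_mk] at this
  have h2 : orderOf (E.normalizerMonoidHom ⟨y, hy⟩) ∣ Nat.card (MulAut E) := orderOf_dvd_natCard _
  obtain ⟨k, hk⟩ := hE.exists_card_eq
  have h3 : ∃ j, Nat.card (MulAut E) = 2 ^ j := by
    rw [hc.card_mulAut, hk]
    rcases Nat.eq_zero_or_pos k with h0 | h0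
    · exact ⟨0, by rw [h0]; simp⟩
    · exact ⟨k - 1, by rw [Nat.totient_prime_pow Nat.prime_two h0]; simp⟩
  obtain ⟨j, hj⟩ := h3
  have h4 : orderOf (E.normalizerMonoidHom ⟨y, hy⟩) = 1 := by
    rw [hj] at h2
    have hcop : Nat.Coprime (orderOf y) (2 ^ j) :=
      Nat.Coprime.pow_right j (Nat.coprime_two_right.mpr hodd)
    exact Nat.eq_one_of_dvd_coprimes hcop h1 h2
  have h5 : (⟨y, hy⟩ : normalizer (E : Set X)) ∈ E.normalizerMonoidHom.ker :=
    orderOf_eq_one_iff.mp h4
  rw [Subgroup.normalizerMonoidHom_ker, Subgroup.mem_subgroupOf] at h5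
  exact h5

theorem le_normalizer_sup' {X : Type*} [Group X] {A E M : Subgroup X}
    (hE : A ≤ normalizer (E : Set X)) (hM : A ≤ normalizer (M : Set X)) :
    A ≤ normalizer ((E ⊔ M : Subgroup X) : Set X) := by
  intro a ha
  rw [mem_normalizer_iff_map_conj_eq, Subgroup.map_sup,
    mem_normalizer_iff_map_conj_eq.mp (hE ha), mem_normalizer_iff_map_conj_eq.mp (hM ha)]

theorem main {X : Type*} [Group X] [Finite X] (A : Subgroup X) (hA : Odd (Nat.card A)) (n : ℕ) :
    ∀ P : Subgroup X, Nat.card P = n → IsPGroup 2 P → A ≤ normalizer (P : Set X) →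
    ∀ d : ℕ, 1 ≤ d → 2 ^ d < Nat.card P →
    (∀ E : Subgroup X, E ≤ P → (Nat.card E = 2 ^ d ∨ (2 ^ d = 2 ∧ Nat.card E = 4)) →
      A ≤ normalizer (E : Set X)) → A ≤ centralizer (P : Set X) := by
  induction n using Nat.strong_induction_on with
  | _ n ih =>
  intro P hn hP hAP d hd hdP hinv
  obtain ⟨N, hN⟩ := hP.exists_card_eq
  have hdN : d < N := by rw [hN] at hdP; exact (Nat.pow_lt_pow_iff_right (by norm_num)).mp hdP
  by_cases hcase : N = d + 1
  · -- all subgroups of index two are invariant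
    apply Cfsg.Agent.Lib.Helper1.coprime_trivial_on_frattini_quotient A P hAP
    · have h1 : Nat.card (frattini P) ∣ 2 ^ N := hN ▸ Subgroup.card_subgroup_dvd_card _
      exact Nat.Coprime.coprime_dvd_right h1
        (Nat.Coprime.pow_right N (Nat.coprime_two_right.mpr hA))
    · intro a ha k hk
      have hak : a * k * a⁻¹ ∈ P := (le_normalizer_iff.mp hAP) a ha k hk
      refine ⟨⟨a * k * a⁻¹, hak⟩ * (⟨k, hk⟩ : P)⁻¹, ?_, rfl⟩
      rw [SetLike.mem_coe, Cfsg.Agent.Lib.Helper3.mem_frattini_iff]
      intro M hM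
      have hidx : M.index = 2 := Cfsg.Agent.Lib.Helper3.coatom_index hP hM
      have hcM : Nat.card (M.map P.subtype) = 2 ^ d := by
        rw [Subgroup.card_map_of_injective P.subtype_injective]
        have h1 := M.card_mul_index
        rw [hidx, hN, hcase, pow_succ] at h1
        exact Nat.eq_of_mul_eq_mul_right (by norm_num) h1
      have hAM := hinv _ (Subgroup.map_subtype_le M) (Or.inl hcM)
      rw [Subgroup.mul_mem_iff_of_index_two hidx, inv_mem_iff]
      have h2 := (mem_normalizer_iff.mp (hAM ha)) k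
      rw [← Subgroup.mem_map_iff_mem P.subtype_injective (K := M) (x := ⟨k, hk⟩),
        ← Subgroup.mem_map_iff_mem P.subtype_injective (K := M) (x := ⟨a * k * a⁻¹, hak⟩)]
      exact h2.symm
  have hd1N : d + 1 < N := by omega
  intro y hyA
  have hyodd : Odd (orderOf y) := by
    have h1 : orderOf y ∣ Nat.card A := by
      have := orderOf_dvd_natCard (⟨y, hyA⟩ : A)
      rwa [Subgroup.orderOf_mk] at this
    exact hA.of_dvd_nat h1
  apply Cfsg.Agent.Lib.Helper11.mem_centralizer_of_fix_omega P hP y (hAP hyA)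
    (Nat.coprime_two_right.mpr hyodd)
  intro x hx hx4
  have hx4' : x ^ 4 = 1 := by
    rcases hx4 with h | ⟨_, h⟩
    · calc x ^ 4 = (x ^ 2) ^ 2 := by rw [← pow_mul]
        _ = 1 := by rw [h, one_pow]
    · exact h
  have hzP : zpowers x ≤ P := (zpowers_le).mpr hx
  have hz4 : Nat.card (zpowers x) ∣ 2 ^ 2 := by
    rw [Nat.card_zpowers]; exact orderOf_dvd_of_pow_eq_one hx4'
  suffices h : ∃ B : Subgroup X, x ∈ B ∧ y ∈ centralizer (B : Set X) by
    obtain ⟨B, hxB, hyB⟩ := h
    exact (mem_centralizer_iff.mp hyB x hxB).symm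
  by_cases hd1 : d = 1
  · subst hd1
    refine ⟨zpowers x, mem_zpowers x, ?_⟩
    apply mem_centralizer_of_cyclic _ (hP.to_le hzP) inferInstance y _ hyodd
    obtain ⟨j, hj, hj2⟩ := (Nat.dvd_prime_pow Nat.prime_two).mp hz4
    interval_cases j
    · have : zpowers x = ⊥ := (Subgroup.card_eq_one).mp (by simpa using hj2)
      rw [this, mem_normalizer_iff]
      intro h
      simp only [mem_bot]
      constructor
      · rintro rfl; simp
      · intro h1
        have : h = y⁻¹ * (y * h * y⁻¹) * y := by group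
        rw [this, h1]; simp
    · exact hinv _ hzP (Or.inl (by simpa using hj2)) hyA
    · exact hinv _ hzP (Or.inr ⟨by norm_num, by simpa using hj2⟩) hyA
  have hd2 : 2 ≤ d := by omega
  have hz4' : Nat.card (zpowers x) ≤ 2 ^ d :=
    (Nat.le_of_dvd (by norm_num) hz4).trans (Nat.pow_le_pow_right (by norm_num) hd2)
  obtain ⟨E, hzE, hEP, hcE⟩ := exists_between (zpowers x) P hP hzP d hz4' hdP.le
  have hxE : x ∈ E := hzE (mem_zpowers x)
  have hAE := hinv E hEP (Or.inl hcE)
  obtain ⟨B, hEB, hBP, hcB⟩ := exists_between E P hP hEP (d + 1)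
    (by rw [hcE]; exact Nat.pow_le_pow_right (by norm_num) (by omega))
    (by rw [hN]; exact Nat.pow_le_pow_right (by norm_num) (by omega))
  by_cases hBc : IsCyclic B
  · refine ⟨E, hxE, ?_⟩
    have hEc : IsCyclic E :=
      isCyclic_of_injective (Subgroup.inclusion hEB) (Subgroup.inclusion_injective hEB)
    exact mem_centralizer_of_cyclic E (hP.to_le hEP) hEc y (hAE hyA) hyodd
  · have hlt : E < B := by
      refine lt_of_le_of_ne hEB ?_
      intro h
      rw [h, hcB] at hcE
      exact absurd hcE (by rw [pow_succ]; have : 0 < 2 ^ d := by positivity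
                           omega)
    obtain ⟨r, hrB, hrE⟩ := SetLike.exists_of_lt hlt
    have hrB' : zpowers r ≤ B := (zpowers_le).mpr hrB
    have hrne : zpowers r ≠ B := by
      intro h
      apply hBc
      rw [← h]
      infer_instance
    have hBp : IsPGroup 2 B := hP.to_le hBP
    obtain ⟨c, hc⟩ := (hBp.to_le hrB').exists_card_eq
    have hcd : c ≤ d := by
      by_contra hcon
      apply hrne
      apply Subgroup.eq_of_le_of_card_ge hrB'
      rw [hcB, hc]
      exact Nat.pow_le_pow_right (by norm_num) (by omega)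
    obtain ⟨M, hrM, hMB, hcM⟩ := exists_between (zpowers r) B hBp hrB' d
      (by rw [hc]; exact Nat.pow_le_pow_right (by norm_num) hcd)
      (by rw [hcB]; exact Nat.pow_le_pow_right (by norm_num) (by omega))
    have hAM := hinv M (hMB.trans hBP) (Or.inl hcM)
    have hsup : E ⊔ M = B := by
      have hle : E ⊔ M ≤ B := sup_le hEB hMB
      obtain ⟨e, he⟩ := (hBp.to_le hle).exists_card_eq
      apply Subgroup.eq_of_le_of_card_ge hle
      rw [hcB, he]
      apply Nat.pow_le_pow_right (by norm_num)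
      by_contra hcon
      have hEe : E = E ⊔ M := by
        apply Subgroup.eq_of_le_of_card_ge le_sup_left
        rw [hcE, he]
        exact Nat.pow_le_pow_right (by norm_num) (by omega)
      apply hrE
      rw [hEe]
      exact (le_sup_right : M ≤ E ⊔ M) (hrM (mem_zpowers r))
    have hAB : A ≤ normalizer (B : Set X) := hsup ▸ le_normalizer_sup' hAE hAM
    have hBlt : Nat.card B < n := by
      rw [← hn, hN, hcB]
      exact Nat.pow_lt_pow_right (by norm_num) hd1N
    have := ih (Nat.card B) hBlt B rfl hBp hAB d hd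
      (by rw [hcB]; exact Nat.pow_lt_pow_right (by norm_num) (by omega))
      (fun E' hE' h => hinv E' (hE'.trans hBP) h)
    exact ⟨B, hEB hxE, this hyA⟩

/-- Let P be a 2-subgroup and A a subgroup of odd order of a finite group, with A normalizing P. Let D ≤ P with 1 < |D| < |P|. If every subgroup of P of order |D|, and also every subgroup of P of order 4 in case |D| = 2, is normalized by A, then A centralizes P. -/
theorem result {X : Type*} [Group X] [Finite X] (P A D : Subgroup X) (hP : IsPGroup 2 P) (hA : Odd (Nat.card A))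
    (hAP : A ≤ Subgroup.normalizer (P : Set X)) (hDP : D ≤ P) (hD1 : 1 < Nat.card D) (hD2 : Nat.card D < Nat.card P)
    (hinv : ∀ E : Subgroup X, E ≤ P → (Nat.card E = Nat.card D ∨ (Nat.card D = 2 ∧ Nat.card E = 4)) → A ≤ Subgroup.normalizer (E : Set X)) :
    A ≤ Subgroup.centralizer (P : Set X) := by
  obtain ⟨d, hd⟩ := (hP.to_le hDP).exists_card_eq
  have hd1 : 1 ≤ d := by
    by_contra hcon
    have : d = 0 := by omega
    rw [hd, this] at hD1
    simp at hD1
  apply main A hA (Nat.card P) P rfl hP hAP d hd1 (hd ▸ hD2)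
  intro E hE h
  exact hinv E hE (by rw [hd]; exact h)

end Cfsg.Agent.S3803
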