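import Cfsg.Statements.S3815
-- import your own Cfsg.Agent.* helpers here

set_option autoImplicit false
open Cfsg

namespace Cfsg.Agent.S3815

/-- Let G be a finite group, p a prime and d ∈ G an element of order prime to p. If dg has order prime to p for every element g ∈ G of order prime to p, then d ∈ O_{p'}(G). -/
theorem result {G : Type*} [Group G] [Finite G] {p : ℕ} [Fact p.Prime]
    (d : G) (hd : (orderOf d).Coprime p)
    (h : ∀ g : G, (orderOf g).Coprime p → (orderOf (d * g)).Coprime p) :
    d ∈ Cfsg.pPrimeCore p G := by
  classical
  have orderOf_conj : ∀ x g : G, orderOf (x * g * x⁻¹) = orderOf g := fun x g =>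
    (MulAut.conj x).orderOf_eq g
  let K : Subgroup G :=
    { carrier := {k | ∀ g : G, (orderOf g).Coprime p → (orderOf (k * g)).Coprime p}
      one_mem' := by intro g hg; simpa using hg
      mul_mem' := by
        intro a b ha hb g hg
        rw [mul_assoc]
        exact ha _ (hb _ hg)
      inv_mem' := by
        intro a ha
        have hpow : ∀ n : ℕ, ∀ g : G, (orderOf g).Coprime p → (orderOf (a ^ n * g)).Coprime p := by
          intro n
          induction n with
          | zero => intro g hg; simpa using hg
          | succ n ih =>
            intro g hg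
            rw [pow_succ', mul_assoc]
            exact ha _ (ih _ hg)
        have : a⁻¹ = a ^ (orderOf a - 1) := by
          have h1 : 0 < orderOf a := orderOf_pos a
          apply inv_eq_of_mul_eq_one_right
          rw [← pow_succ', Nat.sub_add_cancel h1, pow_orderOf_eq_one]
        intro g hg
        rw [this]
        exact hpow _ g hg }
  have hKmem : ∀ k : G, k ∈ K ↔ ∀ g : G, (orderOf g).Coprime p → (orderOf (k * g)).Coprime p := fun k => Iff.rfl
  have hKn : K.Normal := by
    constructor
    intro k hk x
    rw [hKmem] at hk ⊢
    intro g hg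
    have h1 : (orderOf (x⁻¹ * g * x)).Coprime p := by
      have : orderOf (x⁻¹ * g * x) = orderOf g := by
        have := orderOf_conj (x⁻¹) g
        simpa using this
      rw [this]; exact hg
    have h2 := hk _ h1
    have h3 : x * k * x⁻¹ * g = x * (k * (x⁻¹ * g * x)) * x⁻¹ := by group
    rw [h3]
    have := orderOf_conj x (k * (x⁻¹ * g * x))
    rw [this]; exact h2
  have hKc : (Nat.card K).Coprime p := by
    rw [Nat.coprime_comm, Nat.Prime.coprime_iff_not_dvd Fact.out]
    intro hdvd
    obtain ⟨k, hk⟩ := exists_prime_orderOf_dvd_card' p hdvd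
    have h1 := (hKmem k.1).1 k.2 1 (by simp)
    rw [mul_one, Subgroup.orderOf_coe, hk] at h1
    have hp : p.Prime := Fact.out
    simp at h1
    exact hp.one_lt.ne' h1
  have : K ≤ Cfsg.pPrimeCore p G := le_sSup ⟨hKn, hKc⟩
  exact this ((hKmem d).2 h)

end Cfsg.Agent.S3815
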