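import Cfsg.Statements.S3819
-- import your own Cfsg.Agent.* helpers here
import Cfsg.Agent.Lib.Helper58.Flav19

set_option autoImplicit false
open Cfsg

namespace Cfsg.Agent.S3819

/-- Let G be a finite group with Sylow p-subgroup P and H = O_{p'}(G), and suppose G = PH and the commutator subgroup [H, P] is solvable. Let q be a prime and z an element of q-power order of C_H(P). Then (O_{q'}(C_H(z)) ∩ O_{q'}(C_H(P))) · [O_{q'}(C_H(z)), P] ≤ O_{q'}(H). -/
theorem result {G : Type*} [Group G] [Finite G] {p : ℕ} [Fact p.Prime]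
    (P : Sylow p G) (hPH : Cfsg.pPrimeCore p G ⊔ (P : Subgroup G) = ⊤)
    (hsol : Group.IsSolvable ↥⁅Cfsg.pPrimeCore p G, (P : Subgroup G)⁆)
    {q : ℕ} [Fact q.Prime] (z : G) (hzH : z ∈ Cfsg.pPrimeCore p G) (hzP : z ∈ Subgroup.centralizer ((P : Subgroup G) : Set G))
    (hz : ∃ k : ℕ, orderOf z = q ^ k) :
    ((Cfsg.pPrimeCore q ↥(Cfsg.pPrimeCore p G ⊓ Subgroup.centralizer ({z} : Set G))).map
        (Cfsg.pPrimeCore p G ⊓ Subgroup.centralizer ({z} : Set G)).subtype ⊓
      (Cfsg.pPrimeCore q ↥(Cfsg.pPrimeCore p G ⊓ Subgroup.centralizer ((P : Subgroup G) : Set G))).map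
        (Cfsg.pPrimeCore p G ⊓ Subgroup.centralizer ((P : Subgroup G) : Set G)).subtype) ⊔
    ⁅(Cfsg.pPrimeCore q ↥(Cfsg.pPrimeCore p G ⊓ Subgroup.centralizer ({z} : Set G))).map
        (Cfsg.pPrimeCore p G ⊓ Subgroup.centralizer ({z} : Set G)).subtype, (P : Subgroup G)⁆ ≤
    (Cfsg.pPrimeCore q ↥(Cfsg.pPrimeCore p G)).map (Cfsg.pPrimeCore p G).subtype := by
  classical
  haveI hHc := Cfsg.Agent.Lib.Helper28.pPrimeCore_characteristic (G := G) p
  have hHn : (Cfsg.pPrimeCore p G).Normal := inferInstance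
  haveI h1c := Cfsg.Agent.Lib.Helper28.pPrimeCore_characteristic
    (G := ↥(Cfsg.pPrimeCore p G ⊓ Subgroup.centralizer ({z} : Set G))) q
  haveI h2c := Cfsg.Agent.Lib.Helper28.pPrimeCore_characteristic
    (G := ↥(Cfsg.pPrimeCore p G ⊓ Subgroup.centralizer ((P : Subgroup G) : Set G))) q
  obtain ⟨k, hk⟩ := hz
  apply Cfsg.Agent.Lib.Helper58.Flav19.main (p := p) (q := q) (z := z) hHn P.2
    (Cfsg.Agent.Lib.Helper28.pPrimeCore_not_dvd p) hsol hzH
  · rw [IsPGroup.iff_card, Nat.card_zpowers]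
    exact ⟨k, hk⟩
  · exact (Subgroup.map_subtype_le _).trans inf_le_left
  · exact (Subgroup.map_subtype_le _).trans inf_le_right
  · rw [Subgroup.card_subtype]
    exact Cfsg.Agent.Lib.Helper28.pPrimeCore_not_dvd q
  · exact Cfsg.Agent.Lib.Helper27.le_normalizer_map_subtype_of_normal _
  · refine le_trans ?_ (Cfsg.Agent.Lib.Helper27.le_normalizer_map_of_characteristic _)
    apply Cfsg.Agent.Lib.Helper27.le_normalizer_inf
    · rw [Subgroup.normalizer_eq_top_iff.2 hHn]; exact le_top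
    · apply Cfsg.Agent.Lib.Helper27.le_normalizer_of_conj_mem
      intro a ha x hx
      rw [Subgroup.mem_centralizer_singleton_iff] at hx ⊢
      have h3 : a * z = z * a := (Subgroup.mem_centralizer_iff.1 hzP) a ha
      have h4 : a⁻¹ * z = z * a⁻¹ := by
        calc a⁻¹ * z = a⁻¹ * (z * a) * a⁻¹ := by group
          _ = a⁻¹ * (a * z) * a⁻¹ := by rw [h3]
          _ = z * a⁻¹ := by group
      calc a * x * a⁻¹ * z = a * x * (a⁻¹ * z) := by group
        _ = a * (x * z) * a⁻¹ := by rw [h4]; group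
        _ = a * (z * x) * a⁻¹ := by rw [hx]
        _ = (a * z) * x * a⁻¹ := by group
        _ = z * (a * x * a⁻¹) := by rw [h3]; group
  · rw [Subgroup.card_subtype]
    exact Cfsg.Agent.Lib.Helper28.pPrimeCore_not_dvd q
  · exact Cfsg.Agent.Lib.Helper27.le_normalizer_map_subtype_of_normal _

end Cfsg.Agent.S3819
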