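import Cfsg.Statements.S3820
-- import your own Cfsg.Agent.* helpers here
import Cfsg.Agent.Lib.Helper67.Conj

set_option autoImplicit false
open Cfsg

namespace Cfsg.Agent.S3820

/-- Call a subgroup H of G pronormal if H and gHg⁻¹ are conjugate inside ⟨H, gHg⁻¹⟩ for every g ∈ G. Let S ≤ H ≤ G be subgroups of a finite group with S pronormal in G (for instance S a Sylow subgroup). Then H is pronormal in G if and only if H and gHg⁻¹ are conjugate inside ⟨H, gHg⁻¹⟩ for every g ∈ N_G(S). In particular H is pronormal whenever N_G(S) ≤ H. -/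
theorem result {G : Type*} [Group G] [Finite G] (S H : Subgroup G) (hSH : S ≤ H)
    (hS : Cfsg.IsPronormal S) :
    Cfsg.IsPronormal H ↔
      ∀ g ∈ Subgroup.normalizer (S : Set G), ∃ w ∈ H ⊔ H.map (MulAut.conj g).toMonoidHom,
        H.map (MulAut.conj g).toMonoidHom = H.map (MulAut.conj w).toMonoidHom := by
  constructor
  · intro h g _
    exact h g
  · intro h g
    obtain ⟨x, hx, hxe⟩ := hS g
    have hn : x⁻¹ * g ∈ Subgroup.normalizer (S : Set G) := Lib.Helper67.cj_eq_cj_iff.1 hxe
    obtain ⟨w, hw, hwe⟩ := h _ hn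
    have hxJ : x ∈ H ⊔ H.map (MulAut.conj g).toMonoidHom :=
      (sup_le_sup hSH (Subgroup.map_mono hSH)) hx
    refine ⟨x * w, ?_, ?_⟩
    · apply Subgroup.mul_mem _ hxJ
      have hle : H ⊔ H.map (MulAut.conj (x⁻¹ * g)).toMonoidHom ≤ H ⊔ H.map (MulAut.conj g).toMonoidHom := by
        apply sup_le le_sup_left
        have h1 : H.map (MulAut.conj (x⁻¹ * g)).toMonoidHom = Lib.Helper67.cj x⁻¹ (Lib.Helper67.cj g H) :=
          (Lib.Helper67.cj_cj _ _ _).symm
        rw [h1]
        exact Lib.Helper67.cj_le_of_mem (Subgroup.inv_mem _ hxJ) le_sup_right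
      exact hle hw
    · have h1 := congrArg (Lib.Helper67.cj x) hwe
      rw [Lib.Helper67.cj_cj, Lib.Helper67.cj_cj, mul_inv_cancel_left] at h1
      exact h1

end Cfsg.Agent.S3820
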