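import Cfsg.Statements.S3821
-- import your own Cfsg.Agent.* helpers here
import Cfsg.Agent.Lib.Helper67.Conj

set_option autoImplicit false
open Cfsg

namespace Cfsg.Agent.S3821

open Lib.Helper67 in
theorem map_subtype_cj {G : Type*} [Group G] (A : Subgroup G) (a : A) (K : Subgroup A) :
    (cj a K).map A.subtype = cj (a : G) (K.map A.subtype) := by
  simp only [cj, Subgroup.map_map]
  congr 1

/-- Let A be a normal subgroup of the finite group G and H a subgroup of A. Then H is pronormal in G (H and gHg⁻¹ conjugate inside ⟨H, gHg⁻¹⟩ for every g ∈ G) if and only if H is pronormal in A and G = A · N_G(H). -/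
theorem result {G : Type*} [Group G] [Finite G] (A H : Subgroup G) [A.Normal] (hHA : H ≤ A) :
    Cfsg.IsPronormal H ↔ (Cfsg.IsPronormal (H.subgroupOf A) ∧ A ⊔ Subgroup.normalizer (H : Set G) = ⊤) := by
  have hsub : (H.subgroupOf A).map A.subtype = H := Subgroup.map_subgroupOf_eq_of_le hHA
  have hcjA : ∀ g : G, Lib.Helper67.cj g H ≤ A := by
    intro g
    have := Lib.Helper67.cj_mono g hHA
    rwa [Lib.Helper67.cj_normal (H := A)] at this
  constructor
  · intro h
    constructor
    · intro a
      obtain ⟨x, hx, hxe⟩ := h a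
      have hxA : x ∈ A := (sup_le hHA (hcjA a)) hx
      refine ⟨⟨x, hxA⟩, ?_, ?_⟩
      · rw [← Subgroup.mem_map_iff_mem A.subtype_injective, Subgroup.map_sup]
        have := map_subtype_cj A a (H.subgroupOf A)
        rw [hsub] at this
        rw [hsub]
        erw [this]
        exact hx
      · apply Subgroup.map_injective A.subtype_injective
        have h1 := map_subtype_cj A a (H.subgroupOf A)
        have h2 := map_subtype_cj A ⟨x, hxA⟩ (H.subgroupOf A)
        rw [hsub] at h1 h2
        erw [h1, h2]
        exact hxe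
    · rw [eq_top_iff]
      intro g _
      obtain ⟨x, hx, hxe⟩ := h g
      have hxA : x ∈ A := (sup_le hHA (hcjA g)) hx
      have hn : x⁻¹ * g ∈ Subgroup.normalizer (H : Set G) := Lib.Helper67.cj_eq_cj_iff.1 hxe
      have : g = x * (x⁻¹ * g) := by group
      rw [this]
      exact Subgroup.mul_mem _ (Subgroup.mem_sup_left hxA) (Subgroup.mem_sup_right hn)
  · rintro ⟨h1, h2⟩ g
    have hg : g ∈ A ⊔ Subgroup.normalizer (H : Set G) := by rw [h2]; trivial
    rw [Subgroup.mem_sup_of_normal_left] at hg
    obtain ⟨a, ha, n, hn, rfl⟩ := hg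
    obtain ⟨x, hx, hxe⟩ := h1 ⟨a, ha⟩
    have e1 : Lib.Helper67.cj (a * n) H = Lib.Helper67.cj a H := by
      rw [← Lib.Helper67.cj_cj, Lib.Helper67.mem_normalizer_iff_cj.1 hn]
    have k1 := map_subtype_cj A ⟨a, ha⟩ (H.subgroupOf A)
    have k2 := map_subtype_cj A x (H.subgroupOf A)
    rw [hsub] at k1 k2
    refine ⟨x, ?_, ?_⟩
    · rw [← Subgroup.mem_map_iff_mem A.subtype_injective, Subgroup.map_sup, hsub] at hx
      erw [k1] at hx
      change (x : G) ∈ H ⊔ Lib.Helper67.cj (a * n) H
      rw [e1]
      exact hx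
    · have := congrArg (Subgroup.map A.subtype) hxe
      erw [k1, k2] at this
      change Lib.Helper67.cj (a * n) H = _
      rw [e1]
      exact this

end Cfsg.Agent.S3821
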