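import Cfsg.Statements.S3825
-- import your own Cfsg.Agent.* helpers here

set_option autoImplicit false
open Cfsg

namespace Cfsg.Agent.S3825

theorem card_le_two {V : Type*} [Group V] (K : Subgroup V) (y : V) (h : ∀ x ∈ K, x = 1 ∨ x = y) :
    Nat.card K ≤ 2 := by
  have hsub : (K : Set V) ⊆ {1, y} := by
    intro x hx
    rcases h x hx with h | h
    · left; exact h
    · right; exact h
  have h1 := Set.ncard_le_ncard hsub (Set.toFinite _)
  have h2 : ({1, y} : Set V).ncard ≤ 2 := by
    refine (Set.ncard_insert_le _ _).trans ?_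
    simp
  have h3 : Nat.card K = (K : Set V).ncard := Nat.card_coe_set_eq _
  omega

/-- a fixed-point-free automorphism of order dividing 2 inverts a finite group -/
theorem fpf_inverts {Q : Type*} [Group Q] [Finite Q] (s : Q →* Q) (hs2 : ∀ x, s (s x) = x)
    (hfpf : ∀ t, s t = t → t = 1) : ∀ g, s g = g⁻¹ := by
  have hinj : Function.Injective (fun x : Q => x⁻¹ * s x) := by
    intro x y hxy
    have hxy' : x⁻¹ * s x = y⁻¹ * s y := hxy
    have h1 : s (x * y⁻¹) = x * y⁻¹ := by
      rw [map_mul, map_inv]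
      have : s x = x * (y⁻¹ * s y) := by rw [← hxy']; group
      rw [this]; group
    have := hfpf _ h1
    exact mul_inv_eq_one.1 this
  have hsurj := Finite.injective_iff_surjective.1 hinj
  intro g
  obtain ⟨x, rfl⟩ := hsurj g
  simp only [map_mul, map_inv, hs2, mul_inv_rev, inv_inv]

/-- Let U be a subgroup of a finite group H and w an involution of H normalizing U and commuting with exactly two elements of U, the identity and y. If V is a non-cyclic elementary abelian 2-subgroup of U containing y which is normal in U and invariant under w, then V is a Sylow 2-subgroup of U, V has order 4, and U/V is abelian. -/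
theorem result {H : Type*} [Group H] [Finite H] (U : Subgroup H) (w : H) (hw : orderOf w = 2)
    (hwU : w ∈ Subgroup.normalizer (U : Set H)) (y : H) (hy : y ≠ 1) (hyU : y ∈ U)
    (hfix : ∀ u ∈ U, w * u * w⁻¹ = u ↔ (u = 1 ∨ u = y))
    (V : Subgroup H) (hVU : V ≤ U) (hVn : (V.subgroupOf U).Normal) (hVw : ∀ v ∈ V, w * v * w⁻¹ ∈ V)
    (hVe : Cfsg.IsElementaryAbelian 2 V) (hVc : ¬ IsCyclic ↥V) (hyV : y ∈ V) :
    ¬ 2 ∣ V.relIndex U ∧ Nat.card ↥V = 4 ∧ ⁅U, U⁆ ≤ V := by
  classical
  have hw2 : w * w = 1 := by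
    have := pow_orderOf_eq_one w
    rwa [hw, pow_two] at this
  have hwinv : w⁻¹ = w := inv_eq_of_mul_eq_one_left hw2
  obtain ⟨hVab, hV2⟩ := hVe
  have hVcomm : ∀ a ∈ V, ∀ b ∈ V, a * b = b * a := fun a ha b hb =>
    congrArg Subtype.val (hVab.is_comm.comm ⟨a, ha⟩ ⟨b, hb⟩)
  have hVinv : ∀ a ∈ V, a⁻¹ = a := fun a ha => by
    have := hV2 a ha
    rw [pow_two] at this
    exact inv_eq_of_mul_eq_one_left this
  have hss : ∀ u : H, w * (w * u * w⁻¹) * w⁻¹ = u := by
    intro u
    rw [hwinv]
    calc w * (w * u * w) * w = (w * w) * u * (w * w) := by group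
      _ = u := by rw [hw2]; simp
  let φ : V →* V :=
    { toFun := fun v => ⟨(v : H) * (w * v * w⁻¹), V.mul_mem v.2 (hVw v v.2)⟩
      map_one' := by ext; simp
      map_mul' := by
        intro a b
        ext
        simp only [Subgroup.coe_mul]
        have e := hVcomm b b.2 _ (hVw a a.2)
        calc (a : H) * b * (w * (a * b) * w⁻¹) = a * (b * (w * a * w⁻¹)) * (w * b * w⁻¹) := by group
          _ = a * ((w * a * w⁻¹) * b) * (w * b * w⁻¹) := by rw [e]
          _ = _ := by group }
  have hφ : ∀ v : V, ((φ v : V) : H) = (v : H) * (w * v * w⁻¹) := fun v => rfl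
  have hrange : ∀ x ∈ φ.range, x = 1 ∨ x = ⟨y, hyV⟩ := by
    rintro _ ⟨v, rfl⟩
    have h1 : w * ((φ v : V) : H) * w⁻¹ = ((φ v : V) : H) := by
      rw [hφ]
      calc w * ((v : H) * (w * v * w⁻¹)) * w⁻¹ = (w * v * w⁻¹) * (w * (w * v * w⁻¹) * w⁻¹) := by group
        _ = (w * v * w⁻¹) * v := by rw [hss]
        _ = _ := hVcomm _ (hVw v v.2) _ v.2
    rcases (hfix _ (hVU (φ v).2)).1 h1 with h | h
    · left; exact Subtype.ext h
    · right; exact Subtype.ext h
  have hker : ∀ x ∈ φ.ker, x = 1 ∨ x = ⟨y, hyV⟩ := by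
    intro v hv
    have h0 : ((φ v : V) : H) = 1 := congrArg Subtype.val (MonoidHom.mem_ker.1 hv)
    rw [hφ] at h0
    have h1 : w * (v : H) * w⁻¹ = v := by
      rw [eq_inv_of_mul_eq_one_right h0, hVinv v v.2]
    rcases (hfix _ (hVU v.2)).1 h1 with h | h
    · left; exact Subtype.ext h
    · right; exact Subtype.ext h
  have c1 := card_le_two _ _ hrange
  have c2 := card_le_two _ _ hker
  have c3 : Nat.card φ.ker * Nat.card φ.range = Nat.card V := by
    rw [← Subgroup.index_ker]; exact Subgroup.card_mul_index _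
  have c4 : 0 < Nat.card φ.ker := Nat.card_pos
  have c5 : 0 < Nat.card φ.range := Nat.card_pos
  have hn1 : Nat.card V ≠ 1 := by
    intro h
    have : Subsingleton V := (Nat.card_eq_one_iff_unique.1 h).1
    exact hVc (isCyclic_of_subsingleton)
  have hn2 : Nat.card V ≠ 2 := fun h =>
    hVc (@isCyclic_of_prime_card _ _ 2 ⟨Nat.prime_two⟩ h)
  have hk2 : Nat.card φ.ker = 2 ∧ Nat.card φ.range = 2 := by
    have h1 : Nat.card φ.ker = 1 ∨ Nat.card φ.ker = 2 := by omega
    have h2 : Nat.card φ.range = 1 ∨ Nat.card φ.range = 2 := by omega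
    rcases h1 with h1 | h1 <;> rcases h2 with h2 | h2 <;> rw [h1, h2] at c3 <;> omega
  have hV4 : Nat.card V = 4 := by rw [← c3, hk2.1, hk2.2]
  obtain ⟨v', hv'⟩ : ∃ v' : V, (v' : H) * (w * v' * w⁻¹) = y := by
    by_contra hcon
    push Not at hcon
    have : φ.range = ⊥ := by
      rw [eq_bot_iff]
      intro x hx
      rcases hrange x hx with h | h
      · exact h
      · exfalso
        obtain ⟨v, rfl⟩ := hx
        exact hcon v (congrArg Subtype.val h)
    have h2 := hk2.2
    rw [this] at h2
    simp at h2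
  -- the automorphism induced by `w` on `U`
  let s : U →* U :=
    { toFun := fun u => ⟨w * u * w⁻¹, (Subgroup.mem_normalizer_iff.1 hwU u).1 u.2⟩
      map_one' := by ext; simp
      map_mul' := by intro a b; ext; simp }
  have hs : ∀ u : U, ((s u : U) : H) = w * u * w⁻¹ := fun u => rfl
  have hle : V.subgroupOf U ≤ (V.subgroupOf U).comap s := by
    intro u hu
    rw [Subgroup.mem_comap, Subgroup.mem_subgroupOf, hs]
    exact hVw _ (Subgroup.mem_subgroupOf.1 hu)
  let sb : (U ⧸ V.subgroupOf U) →* (U ⧸ V.subgroupOf U) := QuotientGroup.map _ _ s hle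
  have hsb : ∀ u : U, sb (u : U ⧸ V.subgroupOf U) = ((s u : U) : U ⧸ V.subgroupOf U) := fun u => rfl
  have hsb2 : ∀ x, sb (sb x) = x := by
    intro x
    induction x using QuotientGroup.induction_on with
    | H u =>
      rw [hsb, hsb]
      congr 1
      ext
      rw [hs, hs, hss]
  have hfpf : ∀ t, sb t = t → t = 1 := by
    intro t
    induction t using QuotientGroup.induction_on with
    | H u =>
      intro ht
      rw [hsb] at ht
      have h1 : u⁻¹ * s u ∈ V.subgroupOf U := QuotientGroup.eq.1 ht.symm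
      rw [Subgroup.mem_subgroupOf] at h1
      have h1' : (u : H)⁻¹ * (w * u * w⁻¹) ∈ V := h1
      rw [QuotientGroup.eq_one_iff, Subgroup.mem_subgroupOf]
      have hfixt : w * ((u : H)⁻¹ * (w * u * w⁻¹)) * w⁻¹ = (u : H)⁻¹ * (w * u * w⁻¹) := by
        calc w * ((u : H)⁻¹ * (w * u * w⁻¹)) * w⁻¹
            = (w * u * w⁻¹)⁻¹ * (w * (w * u * w⁻¹) * w⁻¹) := by simp [mul_assoc]
          _ = (w * u * w⁻¹)⁻¹ * u := by rw [hss]
          _ = ((u : H)⁻¹ * (w * u * w⁻¹))⁻¹ := by simp [mul_assoc]
          _ = _ := hVinv _ h1'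
      rcases (hfix _ (hVU h1')).1 hfixt with h | h
      · have h2 : w * (u : H) * w⁻¹ = u := by
          have := congrArg (fun t => (u : H) * t) h
          simpa using this
        rcases (hfix _ u.2).1 h2 with h3 | h3
        · rw [h3]; exact V.one_mem
        · rw [h3]; exact hyV
      · have h2 : w * (u : H) * w⁻¹ = u * y := by
          have := congrArg (fun t => (u : H) * t) h
          simpa using this
        have h3 : w * (v' : H) * w⁻¹ = v' * y := by
          have := congrArg (fun t => (v' : H)⁻¹ * t) hv'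
          simp only [inv_mul_cancel_left] at this
          rw [this, hVinv _ v'.2]
        have h4 : w * ((u : H) * v') * w⁻¹ = u * v' := by
          calc w * ((u : H) * v') * w⁻¹ = (w * u * w⁻¹) * (w * v' * w⁻¹) := by group
            _ = (u * y) * (v' * y) := by rw [h2, h3]
            _ = u * (y * v') * y := by group
            _ = u * (v' * y) * y := by rw [hVcomm y hyV v' v'.2]
            _ = u * v' * (y * y) := by group
            _ = u * v' := by
              have := hV2 y hyV
              rw [pow_two] at this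
              rw [this, mul_one]
        have h5 : (u : H) * v' ∈ V := by
          rcases (hfix _ (U.mul_mem u.2 (hVU v'.2))).1 h4 with h6 | h6
          · rw [h6]; exact V.one_mem
          · rw [h6]; exact hyV
        have := V.mul_mem h5 (V.inv_mem v'.2)
        simpa using this
  have hinv := fpf_inverts sb hsb2 hfpf
  refine ⟨?_, hV4, ?_⟩
  · intro hdvd
    have h1 : 2 ∣ Nat.card (U ⧸ V.subgroupOf U) := by
      rw [← Subgroup.index_eq_card]; exact hdvd
    have : Fact (Nat.Prime 2) := ⟨Nat.prime_two⟩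
    obtain ⟨t, ht⟩ := exists_prime_orderOf_dvd_card' 2 h1
    have h2 : t * t = 1 := by
      have := pow_orderOf_eq_one t
      rwa [ht, pow_two] at this
    have h3 : sb t = t := by
      rw [hinv]; exact inv_eq_of_mul_eq_one_left h2
    have h4 := hfpf t h3
    rw [h4] at ht
    simp at ht
  · have hcomm : IsMulCommutative (U ⧸ V.subgroupOf U) := by
      refine ⟨⟨fun a b => ?_⟩⟩
      have h1 := hinv (a * b)
      rw [map_mul, hinv, hinv] at h1
      have := congrArg (fun t => t⁻¹) h1
      simpa using this.symm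
    have h1 := Subgroup.Normal.quotient_commutative_iff_commutator_le.1 hcomm
    have h2 := Subgroup.map_mono (f := U.subtype) h1
    rw [Subgroup.map_subtype_commutator, Subgroup.map_subgroupOf_eq_of_le hVU] at h2
    exact h2

end Cfsg.Agent.S3825
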