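import Cfsg.Statements.S3835
-- import your own Cfsg.Agent.* helpers here
import Cfsg.Agent.Lib.Helper67.Qd
import Cfsg.Agent.S2231

set_option autoImplicit false
open Cfsg

namespace Cfsg.Agent.S3835

open Cfsg.Agent.Lib.Helper67 Cfsg.Agent.S2231

theorem comm_of_card_dvd_prime {p : ℕ} [Fact p.Prime] {G : Type*} [Group G] (h : Nat.card G ∣ p) :
    ∀ a b : G, a * b = b * a := by
  have hp : p.Prime := Fact.out
  rcases (Nat.dvd_prime hp).1 h with h1 | h1
  · intro a b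
    have := (Nat.card_eq_one_iff_unique.1 h1).1
    exact Subsingleton.elim _ _
  · have : IsCyclic G := isCyclic_of_prime_card h1
    exact fun a b => IsCyclic.commGroup.mul_comm a b

theorem abP_perm {p : ℕ} [Fact p.Prime] {n : ℕ} (hn : n < p ^ 2) : AbP p (Equiv.Perm (Fin n)) := by
  intro P hP x hx y hy
  have hp : p.Prime := Fact.out
  refine Equiv.ext fun a => ?_
  set φ := MulAction.toPermHom ↥P ↥(MulAction.orbit ↥P a) with hφ
  have hR : IsPGroup p φ.range := hP.of_surjective φ.rangeRestrict φ.rangeRestrict_surjective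
  obtain ⟨k, hk⟩ := hP.card_orbit a
  have hk1 : k ≤ 1 := by
    have h1 : Nat.card ↥(MulAction.orbit ↥P a) ≤ n := by
      have := Nat.card_le_card_of_injective (Subtype.val : ↥(MulAction.orbit ↥P a) → Fin n)
        Subtype.val_injective
      simpa using this
    rw [hk] at h1
    have h2 : p ^ k < p ^ 2 := lt_of_le_of_lt h1 hn
    have := (Nat.pow_lt_pow_iff_right hp.one_lt).1 h2
    omega
  have hO : Nat.card ↥(MulAction.orbit ↥P a) ≤ p := by
    rw [hk]
    calc p ^ k ≤ p ^ 1 := Nat.pow_le_pow_right hp.pos hk1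
      _ = p := pow_one p
  have hdvd : Nat.card φ.range ∣ p.factorial := by
    have h1 : Nat.card φ.range ∣ Nat.card (Equiv.Perm ↥(MulAction.orbit ↥P a)) :=
      Subgroup.card_subgroup_dvd_card _
    rw [Nat.card_perm] at h1
    exact h1.trans (Nat.factorial_dvd_factorial hO)
  obtain ⟨j, hj⟩ := IsPGroup.iff_card.1 hR
  have hj1 : j ≤ 1 := by
    by_contra hcon
    have h2 : p ^ 2 ∣ p.factorial := by
      refine dvd_trans ?_ (hj ▸ hdvd)
      exact pow_dvd_pow p (by omega)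
    obtain ⟨q, rfl⟩ : ∃ q, p = q + 1 := ⟨p - 1, by have := hp.pos; omega⟩
    rw [Nat.factorial_succ, sq] at h2
    have h3 : (q + 1) ∣ q.factorial := Nat.dvd_of_mul_dvd_mul_left hp.pos h2
    have := (hp.dvd_factorial).1 h3
    omega
  have hcard : Nat.card φ.range ∣ p := by
    rw [hj]
    calc p ^ j ∣ p ^ 1 := pow_dvd_pow p hj1
      _ = p := pow_one p
  have hc := comm_of_card_dvd_prime hcard ⟨φ ⟨x, hx⟩, ⟨_, rfl⟩⟩ ⟨φ ⟨y, hy⟩, ⟨_, rfl⟩⟩
  have hc' : φ ⟨x, hx⟩ * φ ⟨y, hy⟩ = φ ⟨y, hy⟩ * φ ⟨x, hx⟩ := congrArg Subtype.val hc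
  have := congrArg (fun σ : Equiv.Perm ↥(MulAction.orbit ↥P a) =>
    ((σ ⟨a, MulAction.mem_orbit_self a⟩ : ↥(MulAction.orbit ↥P a)) : Fin n)) hc'
  exact this

theorem not_abP_qd {p : ℕ} [Fact p.Prime] (hp : p ≠ 2) : ¬ AbP p ↥(Cfsg.qd p) := by
  intro h5
  have hle : U3 p ≤ Cfsg.qd p := by
    intro M hM
    obtain ⟨a1, a2, a3, a4, a5, a6⟩ := hM
    exact Subgroup.subset_closure ⟨a2, a3, a6⟩
  obtain ⟨x, hx⟩ : ∃ x : Matrix.SpecialLinearGroup (Fin 3) (ZMod p), (x : Matrix (Fin 3) (Fin 3) (ZMod p)) = !![1,1,0;0,1,0;0,0,1] :=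
    ⟨⟨!![1,1,0;0,1,0;0,0,1], by simp [Matrix.det_fin_three]⟩, rfl⟩
  obtain ⟨y, hy⟩ : ∃ x : Matrix.SpecialLinearGroup (Fin 3) (ZMod p), (x : Matrix (Fin 3) (Fin 3) (ZMod p)) = !![1,0,0;0,1,1;0,0,1] :=
    ⟨⟨!![1,0,0;0,1,1;0,0,1], by simp [Matrix.det_fin_three]⟩, rfl⟩
  have hxU : x ∈ U3 p := by
    show _ ∧ _ ∧ _ ∧ _ ∧ _ ∧ _
    rw [hx]
    simp
  have hyU : y ∈ U3 p := by
    show _ ∧ _ ∧ _ ∧ _ ∧ _ ∧ _
    rw [hy]
    simp
  have hPG : IsPGroup p ((U3 p).subgroupOf (Cfsg.qd p)) :=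
    (U3_isPGroup p hp).comap_of_injective (Cfsg.qd p).subtype (Subgroup.subtype_injective _)
  have hcomm := h5 _ hPG ⟨x, hle hxU⟩ (by simpa [Subgroup.mem_subgroupOf] using hxU) ⟨y, hle hyU⟩ (by simpa [Subgroup.mem_subgroupOf] using hyU)
  have hcomm' : x * y = y * x := congrArg Subtype.val hcomm
  have h02 := congrArg (fun M : Matrix.SpecialLinearGroup (Fin 3) (ZMod p) => (M : Matrix (Fin 3) (Fin 3) (ZMod p)) 0 2) hcomm'
  simp only [Matrix.SpecialLinearGroup.coe_mul, hx, hy, Matrix.mul_apply, Fin.sum_univ_three] at h02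
  simp at h02

theorem exists_embedding {p : ℕ} [Fact p.Prime] (hp : p ≠ 2) {n : ℕ} (hn : p ^ 2 ≤ n) :
    ∃ f : ↥(Cfsg.qd p) →* ↥(alternatingGroup (Fin n)), Function.Injective f := by
  classical
  haveI : Finite (AffPlane p) := Nat.finite_of_card_ne_zero (by
    rw [card_affPlane]; exact pow_ne_zero _ (Fact.out : p.Prime).ne_zero)
  haveI : Fintype (AffPlane p) := Fintype.ofFinite _
  have hcard : Fintype.card (AffPlane p) = Fintype.card {i : Fin n // (i : ℕ) < p ^ 2} := by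
    rw [Fintype.card_fin_lt_of_le hn, ← Nat.card_eq_fintype_card, card_affPlane]
  let e : AffPlane p ≃ {i : Fin n // (i : ℕ) < p ^ 2} := Fintype.equivOfCardEq hcard
  let ρ : ↥(Cfsg.qd p) →* Equiv.Perm (Fin n) :=
    (Equiv.Perm.extendDomainHom e).comp (MulAction.toPermHom ↥(Cfsg.qd p) (AffPlane p))
  have hρ : Function.Injective ρ :=
    (Equiv.Perm.extendDomainHom_injective e).comp (toPermHom_injective p)
  have hmem : ∀ g, ρ g ∈ alternatingGroup (Fin n) := by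
    intro g
    rw [Equiv.Perm.mem_alternatingGroup]
    exact qd_hom_units_trivial hp (Equiv.Perm.sign.comp ρ) g
  refine ⟨ρ.codRestrict _ hmem, ?_⟩
  intro a b hab
  exact hρ (congrArg Subtype.val hab)

/-- Let p be an odd prime and n a natural number. The alternating group of degree n has a subgroup isomorphic to Qd(p) (the natural semidirect product of an elementary abelian group of order p² by SL₂(p)) if and only if n ≥ p²; and if n < p² then Qd(p) is not even involved in it. -/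
theorem result {p : ℕ} [Fact p.Prime] (hp : p ≠ 2) (n : ℕ) : ((∃ H : Subgroup (alternatingGroup (Fin n)), Nonempty (↥H ≃* ↥(Cfsg.qd p))) ↔ p ^ 2 ≤ n) ∧ (n < p ^ 2 → ¬ Cfsg.Involves ↥(Cfsg.qd p) ↥(alternatingGroup (Fin n))) := by
  have hA : n < p ^ 2 → AbP p ↥(alternatingGroup (Fin n)) := fun hn => (abP_perm hn).subgroup _
  refine ⟨⟨?_, ?_⟩, ?_⟩
  · rintro ⟨H, ⟨e⟩⟩
    by_contra hcon
    push Not at hcon
    exact not_abP_qd hp (((hA hcon).subgroup H).of_surjective e.toMonoidHom e.surjective)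
  · intro hn
    obtain ⟨f, hf⟩ := exists_embedding hp hn
    exact ⟨f.range, ⟨(MonoidHom.ofInjective hf).symm⟩⟩
  · rintro hn ⟨K0, R0, hN, ⟨e⟩⟩
    have h3 := (hA hn).subgroup K0
    have h4 : AbP p (K0 ⧸ R0.subgroupOf K0) :=
      h3.of_surjective (QuotientGroup.mk' _) (QuotientGroup.mk'_surjective _)
    exact not_abP_qd hp (h4.of_surjective e.toMonoidHom e.surjective)

end Cfsg.Agent.S3835
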