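import Cfsg.Statements.S3836
-- import your own Cfsg.Agent.* helpers here

set_option autoImplicit false
open Cfsg

namespace Cfsg.Agent.S3836

/-- Let G be a finite group that is p-stable in the normalizer form: for every p-subgroup Q and every x ∈ N_G(Q) with [Q, x, x] = 1, the image of x in N_G(Q)/C_G(Q) lies in O_p(N_G(Q)/C_G(Q)). Then every subgroup of G is p-stable in the same sense. -/
theorem result {G : Type*} [Group G] [Finite G] {p : ℕ} [Fact p.Prime] (hst : Cfsg.IsNormalizerPStable p G) (H : Subgroup G) : Cfsg.IsNormalizerPStable p ↥H := by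
  intro P hP g hg hcomm
  have hg' : (g : G) ∈ Subgroup.normalizer ((P.map H.subtype : Subgroup G) : Set G) :=
    Subgroup.le_normalizer_map H.subtype ⟨g, hg, rfl⟩
  have hP' : IsPGroup p (P.map H.subtype) := hP.map _
  have hcomm' : ⁅⁅P.map H.subtype, Subgroup.zpowers (g : G)⁆, Subgroup.zpowers (g : G)⁆ = ⊥ := by
    have hz : Subgroup.zpowers (g : G) = (Subgroup.zpowers g).map H.subtype := by
      rw [MonoidHom.map_zpowers]; rfl
    rw [hz, ← Subgroup.map_commutator, ← Subgroup.map_commutator, hcomm, Subgroup.map_bot]
  have key := hst (P.map H.subtype) hP' (g : G) hg' hcomm'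
  let φ : ↥(Subgroup.normalizer (P : Set H)) →* ↥(Subgroup.normalizer ((P.map H.subtype : Subgroup G) : Set G)) :=
    { toFun := fun x => ⟨((x : H) : G), Subgroup.le_normalizer_map H.subtype ⟨x, x.2, rfl⟩⟩
      map_one' := rfl
      map_mul' := fun _ _ => rfl }
  have hle : (Subgroup.centralizer (P : Set H)).subgroupOf (Subgroup.normalizer (P : Set H)) ≤
      ((Subgroup.centralizer ((P.map H.subtype : Subgroup G) : Set G)).subgroupOf
        (Subgroup.normalizer ((P.map H.subtype : Subgroup G) : Set G))).comap φ := by
    intro x hx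
    rw [Subgroup.mem_comap, Subgroup.mem_subgroupOf, Subgroup.mem_centralizer_iff]
    rw [Subgroup.mem_subgroupOf, Subgroup.mem_centralizer_iff] at hx
    rintro y ⟨u, hu, rfl⟩
    have := hx u hu
    exact congrArg Subtype.val this
  let ψ := QuotientGroup.map _ _ φ hle
  have hψ : Function.Injective ψ := by
    rw [injective_iff_map_eq_one]
    intro x
    induction x using QuotientGroup.induction_on with
    | H x =>
      intro hx
      have hx1 : ((φ x : _) : _ ⧸ ((Subgroup.centralizer ((P.map H.subtype : Subgroup G) : Set G)).subgroupOf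
        (Subgroup.normalizer ((P.map H.subtype : Subgroup G) : Set G)))) = 1 := hx
      rw [QuotientGroup.eq_one_iff, Subgroup.mem_subgroupOf, Subgroup.mem_centralizer_iff] at hx1
      rw [QuotientGroup.eq_one_iff, Subgroup.mem_subgroupOf, Subgroup.mem_centralizer_iff]
      intro u hu
      have := hx1 (u : G) ⟨u, hu, rfl⟩
      exact Subtype.ext this
  have hpc : IsPGroup p (Cfsg.pCore p (↥(Subgroup.normalizer ((P.map H.subtype : Subgroup G) : Set G)) ⧸
      (Subgroup.centralizer ((P.map H.subtype : Subgroup G) : Set G)).subgroupOf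
        (Subgroup.normalizer ((P.map H.subtype : Subgroup G) : Set G)))) :=
    Sylow.sSup_of_normal _ (fun _ h => h.2) (fun _ h => h.1)
  have hsub : (Cfsg.pCore p (↥(Subgroup.normalizer ((P.map H.subtype : Subgroup G) : Set G)) ⧸
      (Subgroup.centralizer ((P.map H.subtype : Subgroup G) : Set G)).subgroupOf
        (Subgroup.normalizer ((P.map H.subtype : Subgroup G) : Set G)))).comap ψ ≤ Cfsg.pCore p _ := by
    apply le_sSup
    refine ⟨?_, hpc.comap_of_injective ψ hψ⟩
    have : (Cfsg.pCore p (↥(Subgroup.normalizer ((P.map H.subtype : Subgroup G) : Set G)) ⧸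
      (Subgroup.centralizer ((P.map H.subtype : Subgroup G) : Set G)).subgroupOf
        (Subgroup.normalizer ((P.map H.subtype : Subgroup G) : Set G)))).Normal :=
      Subgroup.sSup_normal _ (fun _ h => h.1)
    exact this.comap ψ
  apply hsub
  rw [Subgroup.mem_comap]
  exact key

end Cfsg.Agent.S3836
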