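import Cfsg.Statements.S3838
-- import your own Cfsg.Agent.* helpers here
import Cfsg.Agent.Lib.Helper67.NPC

set_option autoImplicit false
open Cfsg

namespace Cfsg.Agent.S3838

/-- Let G be a finite group with Sylow p-subgroup P such that N_G(P) has a normal p-complement. Then N_G(Q) has a normal p-complement for every subgroup Q with [P, P] ≤ Q ≤ Φ(P). -/
theorem result {G : Type*} [Group G] [Finite G] {p : ℕ} [Fact p.Prime] (P : Sylow p G) (hN : Cfsg.HasNormalPComplement p ↥(Subgroup.normalizer ((P : Subgroup G) : Set G))) (Q : Subgroup G) (h1 : (commutator ↥(P : Subgroup G)).map (P : Subgroup G).subtype ≤ Q) (h2 : Q ≤ (frattini ↥(P : Subgroup G)).map (P : Subgroup G).subtype) : Cfsg.HasNormalPComplement p ↥(Subgroup.normalizer (Q : Set G)) := by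
  have hp : p.Prime := Fact.out
  have hQP : Q ≤ (P : Subgroup G) := h2.trans (Subgroup.map_subtype_le _)
  have hcomm : ∀ a ∈ (P : Subgroup G), ∀ b ∈ (P : Subgroup G), a * b * a⁻¹ * b⁻¹ ∈ Q := by
    intro a ha b hb
    apply h1
    refine ⟨(⟨a, ha⟩ : (P : Subgroup G)) * ⟨b, hb⟩ * (⟨a, ha⟩ : (P : Subgroup G))⁻¹ *
      (⟨b, hb⟩ : (P : Subgroup G))⁻¹, ?_, by simp⟩
    rw [commutator_def, ← commutatorElement_def]
    exact Subgroup.commutator_mem_commutator (Subgroup.mem_top _) (Subgroup.mem_top _)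
  have hPN : (P : Subgroup G) ≤ Subgroup.normalizer (Q : Set G) := by
    rw [Subgroup.le_normalizer_iff]
    intro u hu q hq
    have := Q.mul_mem (hcomm u hu q (hQP hq)) hq
    simpa using this
  set X := Subgroup.normalizer (Q : Set G) with hX
  let PX : Sylow p X := P.subtype hPN
  have hPX : (PX : Subgroup X) = (P : Subgroup G).subgroupOf X := Sylow.coe_subtype _ _
  have hQXn : (Q.subgroupOf X).Normal := Subgroup.normal_in_normalizer
  have hQXP : Q.subgroupOf X ≤ PX := by
    intro x hx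
    rw [hPX, Subgroup.mem_subgroupOf]
    exact hQP (Subgroup.mem_subgroupOf.1 hx)
  apply Lib.Helper67.npc_of_quotient PX (Q.subgroupOf X) hQXP
  · intro R hR hsup
    have hR0 : R.map X.subtype ≤ (P : Subgroup G) := by
      rintro _ ⟨r, hr, rfl⟩
      have := hR hr
      rw [hPX, Subgroup.mem_subgroupOf] at this
      exact this
    have hsup0 : Q ⊔ R.map X.subtype = (P : Subgroup G) := by
      have := congrArg (Subgroup.map X.subtype) hsup
      rw [Subgroup.map_sup, Subgroup.map_subgroupOf_eq_of_le Subgroup.le_normalizer, hPX,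
        Subgroup.map_subgroupOf_eq_of_le hPN] at this
      exact this
    have htop : (R.map X.subtype).subgroupOf (P : Subgroup G) ⊔ frattini ↥(P : Subgroup G) = ⊤ := by
      apply Subgroup.map_injective (P : Subgroup G).subtype_injective
      rw [Subgroup.map_sup, Subgroup.map_subgroupOf_eq_of_le hR0, ← MonoidHom.range_eq_map,
        Subgroup.range_subtype]
      apply le_antisymm (sup_le hR0 (Subgroup.map_subtype_le _))
      exact hsup0.ge.trans (sup_le (h2.trans le_sup_right) le_sup_left)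
    have h3 := frattini_nongenerating htop
    rw [Subgroup.subgroupOf_eq_top] at h3
    apply le_antisymm hR
    intro x hx
    rw [hPX, Subgroup.mem_subgroupOf] at hx
    obtain ⟨r, hr, hrx⟩ := h3 hx
    have : r = x := Subtype.ext hrx
    exact this ▸ hr
  · let Pb : Sylow p (X ⧸ Q.subgroupOf X) := PX.mapSurjective (QuotientGroup.mk'_surjective _)
    have hPb : (Pb : Subgroup (X ⧸ Q.subgroupOf X)) = (PX : Subgroup X).map (QuotientGroup.mk' _) :=
      Sylow.coe_mapSurjective _ _
    have hNC : Subgroup.normalizer ((Pb : Subgroup (X ⧸ Q.subgroupOf X)) : Set (X ⧸ Q.subgroupOf X)) ≤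
        Subgroup.centralizer ((Pb : Subgroup (X ⧸ Q.subgroupOf X)) : Set (X ⧸ Q.subgroupOf X)) := by
      intro gb hgb
      obtain ⟨g, rfl⟩ := QuotientGroup.mk'_surjective _ gb
      have hgP : (g : G) ∈ Subgroup.normalizer ((P : Subgroup G) : Set G) := by
        rw [Lib.Helper67.mem_normalizer_iff_cj]
        apply Subgroup.eq_of_le_of_card_ge _ (Lib.Helper67.card_cj _ _).ge
        rintro _ ⟨h, hh, rfl⟩
        have hhX : (⟨h, hPN hh⟩ : X) ∈ (PX : Subgroup X) := by
          rw [hPX, Subgroup.mem_subgroupOf]; exact hh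
        have h4 : (QuotientGroup.mk' (Q.subgroupOf X)) g * (QuotientGroup.mk' (Q.subgroupOf X)) ⟨h, hPN hh⟩ *
            ((QuotientGroup.mk' (Q.subgroupOf X)) g)⁻¹ ∈ (Pb : Subgroup (X ⧸ Q.subgroupOf X)) :=
          (Subgroup.mem_normalizer_iff.1 hgb _).1 (hPb ▸ Subgroup.mem_map_of_mem _ hhX)
        rw [hPb] at h4
        obtain ⟨h', hh', he⟩ := h4
        have h5 : h'⁻¹ * (g * ⟨h, hPN hh⟩ * g⁻¹) ∈ Q.subgroupOf X := by
          rw [← QuotientGroup.eq]
          simpa using he
        have h6 : g * ⟨h, hPN hh⟩ * g⁻¹ ∈ (PX : Subgroup X) := by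
          have := (PX : Subgroup X).mul_mem hh' (hQXP h5)
          simpa using this
        rw [hPX, Subgroup.mem_subgroupOf] at h6
        simpa using h6
      obtain ⟨k, hk, u, hu, hgku⟩ := Lib.Helper67.normalizer_decomp P hN g hgP
      rw [Subgroup.mem_centralizer_iff]
      intro xb hxb
      have hxb' : xb ∈ (PX : Subgroup X).map (QuotientGroup.mk' _) := hPb ▸ hxb
      obtain ⟨x, hx, rfl⟩ := hxb'
      rw [← map_mul, ← map_mul]
      apply QuotientGroup.eq.2
      rw [Subgroup.mem_subgroupOf]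
      have hxP : (x : G) ∈ (P : Subgroup G) := by
        have := hx
        rw [SetLike.mem_coe, hPX, Subgroup.mem_subgroupOf] at this
        exact this
      have hkx : (x : G)⁻¹ * k = k * (x : G)⁻¹ :=
        Subgroup.mem_centralizer_iff.1 hk _ ((P : Subgroup G).inv_mem hxP)
      have h7 := hcomm u⁻¹ ((P : Subgroup G).inv_mem hu) (x : G)⁻¹ ((P : Subgroup G).inv_mem hxP)
      have h8 : (((x * g)⁻¹ * (g * x) : X) : G) = u⁻¹ * (x : G)⁻¹ * u⁻¹⁻¹ * (x : G)⁻¹⁻¹ := by
        simp only [Subgroup.coe_mul, Subgroup.coe_inv, hgku, mul_inv_rev, inv_inv]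
        calc u⁻¹ * k⁻¹ * (x : G)⁻¹ * (k * u * x) = u⁻¹ * k⁻¹ * ((x : G)⁻¹ * k) * u * x := by group
          _ = u⁻¹ * k⁻¹ * (k * (x : G)⁻¹) * u * x := by rw [hkx]
          _ = _ := by group
      rw [h8]
      exact h7
    exact ⟨Pb, _, inferInstance, MonoidHom.ker_transferSylow_isComplement' Pb hNC⟩

end Cfsg.Agent.S3838
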