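import Cfsg.Statements.S3857
-- import your own Cfsg.Agent.* helpers here
import Cfsg.Agent.S0039
import Cfsg.Agent.S0034
import Cfsg.Agent.Lib.Helper1.Fpf3
import Cfsg.Agent.Lib.Helper1.Hall
import Cfsg.Agent.Lib.Helper1.Cores
import Cfsg.Agent.Lib.Lead.Hall

set_option autoImplicit false
open Cfsg

namespace Cfsg.Agent.S3857

open scoped Pointwise

/-- all prime divisors of `n` lie in `A` -/
def Anum (A : Set ℕ) (n : ℕ) : Prop := ∀ q : ℕ, q.Prime → q ∣ n → q ∈ A

/-- no element of order `a * b` with `a ∈ A`, `b ∉ A` primes -/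
def Hyp (A : Set ℕ) (X : Type*) [Group X] : Prop :=
  ∀ a ∈ A, ∀ b ∉ A, a.Prime → b.Prime → ∀ g : X, orderOf g ≠ a * b

theorem Anum.of_dvd {A : Set ℕ} {m n : ℕ} (h : Anum A n) (hmn : m ∣ n) : Anum A m :=
  fun q hq hqm => h q hq (hqm.trans hmn)

theorem Anum.mul {A : Set ℕ} {m n : ℕ} (hm : Anum A m) (hn : Anum A n) : Anum A (m * n) := by
  intro q hq hqmn
  rcases (Nat.Prime.dvd_mul hq).1 hqmn with h | h
  · exact hm q hq h
  · exact hn q hq h

theorem Anum.coprime {A : Set ℕ} {m n : ℕ} (hm : Anum A m) (hn : Anum Aᶜ n) : m.Coprime n := by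
  apply Nat.coprime_of_dvd
  intro q hq h1 h2
  exact hn q hq h2 (hm q hq h1)

theorem Hyp.compl {A : Set ℕ} {X : Type*} [Group X] (h : Hyp A X) : Hyp Aᶜ X := by
  intro a ha b hb hap hbp g hg
  have hb' : b ∈ A := by
    by_contra hcon
    exact hb hcon
  exact h b hb' a ha hbp hap g (by rw [hg, mul_comm])

theorem Hyp.subgroup {A : Set ℕ} {X : Type*} [Group X] (h : Hyp A X) (K : Subgroup X) : Hyp A ↥K := by
  intro a ha b hb hap hbp g hg
  exact h a ha b hb hap hbp (g : X) (by rw [Subgroup.orderOf_coe, hg])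

theorem Hyp.of_surjective {A : Set ℕ} {X Y : Type*} [Group X] [Finite X] [Group Y] (h : Hyp A X)
    (f : X →* Y) (hf : Function.Surjective f) : Hyp A Y := by
  intro a ha b hb hap hbp g hg
  obtain ⟨x, rfl⟩ := hf g
  have h1 : a * b ∣ orderOf x := hg ▸ orderOf_map_dvd f x
  exact h a ha b hb hap hbp (x ^ (orderOf x / (a * b)))
    (orderOf_pow_orderOf_div (orderOf_pos x).ne' h1)

theorem Hyp.noEdge {A : Set ℕ} {X : Type*} [Group X] [Finite X] (h : Hyp A X) {x y : X}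
    (hc : Commute x y) (hx : x ≠ 1) (hy : y ≠ 1) (hxA : Anum A (orderOf x))
    (hyB : Anum Aᶜ (orderOf y)) : False := by
  have hx1 : orderOf x ≠ 1 := fun h1 => hx (orderOf_eq_one_iff.1 h1)
  have hy1 : orderOf y ≠ 1 := fun h1 => hy (orderOf_eq_one_iff.1 h1)
  obtain ⟨a, hap, hax⟩ := Nat.exists_prime_and_dvd hx1
  obtain ⟨b, hbp, hby⟩ := Nat.exists_prime_and_dvd hy1
  have haA := hxA a hap hax
  have hbA := hyB b hbp hby
  have h1 : orderOf (x ^ (orderOf x / a)) = a := orderOf_pow_orderOf_div (orderOf_pos x).ne' hax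
  have h2 : orderOf (y ^ (orderOf y / b)) = b := orderOf_pow_orderOf_div (orderOf_pos y).ne' hby
  have hab : a ≠ b := by
    rintro rfl
    exact hbA haA
  have hcop : Nat.Coprime (orderOf (x ^ (orderOf x / a))) (orderOf (y ^ (orderOf y / b))) := by
    rw [h1, h2]
    exact (Nat.coprime_primes hap hbp).2 hab
  have h3 := (hc.pow_pow (orderOf x / a) (orderOf y / b)).orderOf_mul_eq_mul_orderOf_of_coprime hcop
  rw [h1, h2] at h3
  exact h a haA b hbA hap hbp _ h3

/-- A normal Hall subgroup separated from its quotient in the prime graph is a Frobenius kernel. -/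
theorem frob_of_normal {A : Set ℕ} {X : Type*} [Group X] [Finite X] (h : Hyp A X) (N : Subgroup X)
    [N.Normal] (hN : N ≠ ⊥) (hN' : N ≠ ⊤) (hA : Anum A (Nat.card N)) (hB : Anum Aᶜ N.index) :
    ∃ C : Subgroup X, Cfsg.IsFrobeniusComplement C ∧ Cfsg.frobeniusKernel C = (N : Set X) := by
  obtain ⟨C, hC⟩ := Subgroup.exists_right_complement'_of_coprime (hA.coprime hB)
  have hcard : Nat.card C = N.index := by
    have h1 := hC.card_mul_card
    have h2 := N.card_mul_index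
    rw [← h1] at h2
    exact (Nat.eq_of_mul_eq_mul_left Nat.card_pos h2).symm
  have hCne : C ≠ ⊥ := by
    rintro rfl
    rw [Subgroup.card_bot] at hcard
    exact hN' (Subgroup.index_eq_one.1 hcard.symm)
  have hfpf : ∀ c ∈ C, c ≠ 1 → N ⊓ Subgroup.centralizer {c} = ⊥ := by
    intro c hc hc1
    rw [eq_bot_iff]
    intro n hn
    obtain ⟨hnN, hnc⟩ := Subgroup.mem_inf.1 hn
    rw [Subgroup.mem_bot]
    by_contra hn1
    have hcomm : Commute n c := (Subgroup.mem_centralizer_iff.1 hnc c rfl).symm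
    refine h.noEdge hcomm hn1 hc1 (hA.of_dvd ?_) (hB.of_dvd ?_)
    · exact Subgroup.orderOf_dvd_natCard N hnN
    · rw [← hcard]; exact Subgroup.orderOf_dvd_natCard C hc
  have hF : Cfsg.IsFrobeniusComplement C := (Cfsg.Agent.S0039.result N C hC hN hCne).2 hfpf
  refine ⟨C, hF, ?_⟩
  have hsub : (N : Set X) ⊆ Cfsg.frobeniusKernel C := by
    intro n hn
    by_cases hn1 : n = 1
    · exact Or.inl hn1
    · right
      intro g hg
      apply hn1
      rw [Subgroup.mem_pointwise_smul_iff_inv_smul_mem] at hg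
      have h1 : (MulAut.conj g)⁻¹ • n ∈ N := by
        have : (MulAut.conj g)⁻¹ • n = g⁻¹ * n * g := by
          simp [MulAut.smul_def, ← map_inv]
        rw [this]
        have := ‹N.Normal›.conj_mem n hn g⁻¹
        simpa using this
      have h2 : (MulAut.conj g)⁻¹ • n ∈ N ⊓ C := Subgroup.mem_inf.2 ⟨h1, hg⟩
      rw [hC.disjoint.eq_bot, Subgroup.mem_bot] at h2
      have h3 : g⁻¹ * n * g = 1 := by simpa using h2
      have h4 : n = g * (g⁻¹ * n * g) * g⁻¹ := by group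
      rw [h4, h3]; group
  symm
  apply Set.eq_of_subset_of_ncard_le hsub
  have h1 := (Cfsg.Agent.S0034.result C hF).1
  have h2 : (Cfsg.frobeniusKernel C).ncard = C.index := h1
  rw [h2]
  have h3 : (N : Set X).ncard = Nat.card N := rfl
  rw [h3]
  have h4 := hC.card_mul_card
  have h5 := C.card_mul_index
  rw [← h4, mul_comm] at h5
  exact (Nat.eq_of_mul_eq_mul_right Nat.card_pos h5).le

theorem exists_core (A : Set ℕ) (X : Type*) [Group X] [Finite X] :
    ∃ K : Subgroup X, K.Normal ∧ Anum A (Nat.card K) ∧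
      ∀ L : Subgroup X, L.Normal → Anum A (Nat.card L) → L ≤ K := by
  obtain ⟨K, ⟨hKn, hKA⟩, hmax⟩ := exists_maximal_of_wellFoundedGT
    (fun L : Subgroup X => L.Normal ∧ Anum A (Nat.card L))
    ⟨⊥, inferInstance, by
      intro q hq hq1
      rw [Subgroup.card_bot] at hq1
      exact absurd (Nat.dvd_one.1 hq1) hq.one_lt.ne'⟩
  refine ⟨K, hKn, hKA, ?_⟩
  intro L hL hLA
  have h1 : (L ⊔ K).Normal := inferInstance
  have h2 : Anum A (Nat.card (L ⊔ K : Subgroup X)) :=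
    (hLA.mul hKA).of_dvd (Cfsg.Agent.Lib.Helper1.card_sup_dvd_of_normal L K)
  have := hmax ⟨h1, h2⟩ le_sup_right
  exact le_sup_left.trans this

theorem cyc_aux {A : Set ℕ} {M : Type*} [Group M] [Finite M] (h : Hyp A M) (N : Subgroup M)
    [N.Normal] (hN : N ≠ ⊥) (hNA : Anum A (Nat.card N)) (hsolv : Group.IsSolvable N)
    (P : Subgroup M) (hPA : Anum Aᶜ (Nat.card P))
    (hcomm : ∀ x ∈ P, ∀ y ∈ P, x * y * x⁻¹ * y⁻¹ ∈ N) : IsCyclic P := by
  have hdisj : N ⊓ P = ⊥ := (Subgroup.disjoint_of_coprime_natCard (hNA.coprime hPA)).eq_bot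
  have hPc : IsMulCommutative P := by
    refine ⟨⟨fun a b => ?_⟩⟩
    have h1 : (a : M) * b * (a : M)⁻¹ * (b : M)⁻¹ ∈ N ⊓ P :=
      Subgroup.mem_inf.2 ⟨hcomm a a.2 b b.2,
        P.mul_mem (P.mul_mem (P.mul_mem a.2 b.2) (P.inv_mem a.2)) (P.inv_mem b.2)⟩
    rw [hdisj, Subgroup.mem_bot] at h1
    apply Subtype.ext
    have h2 : (a : M) * b = ((a : M) * b * (a : M)⁻¹ * (b : M)⁻¹) * (b * a) := by group
    rw [h1, one_mul] at h2
    exact h2
  have hPN : P ≤ Subgroup.normalizer (N : Set M) := by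
    rw [Subgroup.normalizer_eq_top]
    exact le_top
  have hfpf : ∀ e ∈ P, e ≠ 1 → N ⊓ Subgroup.centralizer {e} = ⊥ := by
    intro c hc hc1
    rw [eq_bot_iff]
    intro n hn
    obtain ⟨hnN, hnc⟩ := Subgroup.mem_inf.1 hn
    rw [Subgroup.mem_bot]
    by_contra hn1
    have hcm : Commute n c := (Subgroup.mem_centralizer_iff.1 hnc c rfl).symm
    refine h.noEdge hcm hn1 hc1 (hNA.of_dvd ?_) (hPA.of_dvd ?_)
    · exact Subgroup.orderOf_dvd_natCard N hnN
    · exact Subgroup.orderOf_dvd_natCard P hc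
  obtain ⟨V, hVN, hVne, hVc, hPV, hfpfV⟩ :=
    Cfsg.Agent.Lib.Helper1.fpf_exists_invariant_abelian P N hPN hN hfpf (Or.inr hsolv)
  exact Cfsg.Agent.Lib.Helper1.fpf_isCyclic_subgroup P V hVne hPV hfpfV (Or.inl hPc)

theorem anum_of_isPGroup {B : Set ℕ} {X : Type*} [Group X] [Finite X] {s : ℕ} (hs : s.Prime)
    (hsB : s ∈ B) (hX : IsPGroup s X) : Anum B (Nat.card X) := by
  haveI : Fact s.Prime := ⟨hs⟩
  obtain ⟨n, hn⟩ := IsPGroup.iff_card.1 hX
  intro q hq hqd
  rw [hn] at hqd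
  have := (Nat.prime_dvd_prime_iff_eq hq hs).1 (hq.dvd_of_dvd_pow hqd)
  rw [this]; exact hsB

theorem cyc_lemma {A : Set ℕ} {G : Type*} [Group G] [Finite G] (hsol : Group.IsSolvable G)
    (h : Hyp A G) (N : Subgroup G) [N.Normal] (hN : N ≠ ⊥) (hNA : Anum A (Nat.card N))
    (Φ : Subgroup (G ⧸ N)) (hΦc : IsMulCommutative Φ) (s : ℕ) (hs : s.Prime) (hsA : s ∉ A)
    (hΦ : IsPGroup s Φ) : IsCyclic Φ := by
  haveI : Fact s.Prime := ⟨hs⟩
  let M : Subgroup G := Φ.comap (QuotientGroup.mk' N)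
  let f : ↥M →* ↥Φ := (QuotientGroup.mk' N).subgroupComap Φ
  have hf : Function.Surjective f :=
    MonoidHom.subgroupComap_surjective_of_surjective _ _ (QuotientGroup.mk'_surjective N)
  have hNM : N ≤ M := by
    intro n hn
    change QuotientGroup.mk' N n ∈ Φ
    have : QuotientGroup.mk' N n = 1 := (QuotientGroup.eq_one_iff n).2 hn
    rw [this]
    exact Φ.one_mem
  obtain ⟨P⟩ : Nonempty (Sylow s ↥M) := inferInstance
  have hPtop : (P : Subgroup ↥M).map f = ⊤ := by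
    rw [← Sylow.coe_mapSurjective hf P]
    symm
    apply (P.mapSurjective hf).is_maximal' _ le_top
    exact hΦ.of_equiv Subgroup.topEquiv.symm
  have hcyc : IsCyclic (P : Subgroup ↥M) := by
    apply cyc_aux (h.subgroup M) (N.subgroupOf M)
    · intro hbot
      rw [Subgroup.subgroupOf_eq_bot, disjoint_iff, inf_eq_left.2 hNM] at hbot
      exact hN hbot
    · rw [Nat.card_congr (Subgroup.subgroupOfEquivOfLe hNM).toEquiv]
      exact hNA
    · infer_instance
    · exact anum_of_isPGroup hs hsA P.isPGroup'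
    · intro x _ y _
      rw [Subgroup.mem_subgroupOf]
      have h1 : f (x * y * x⁻¹ * y⁻¹) = 1 := by
        rw [map_mul, map_mul, map_mul, map_inv, map_inv, hΦc.is_comm.comm (f x) (f y)]
        group
      have h2 : QuotientGroup.mk' N ((x * y * x⁻¹ * y⁻¹ : ↥M) : G) = 1 := congrArg Subtype.val h1
      exact (QuotientGroup.eq_one_iff _).1 h2
  let f' : ↥(P : Subgroup ↥M) →* ↥Φ := f.comp (P : Subgroup ↥M).subtype
  apply isCyclic_of_surjective f'
  intro y
  have : y ∈ (P : Subgroup ↥M).map f := by rw [hPtop]; trivial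
  obtain ⟨x, hx, rfl⟩ := this
  exact ⟨⟨x, hx⟩, rfl⟩

theorem abq {A : Set ℕ} {G : Type*} [Group G] [Finite G] (hsol : Group.IsSolvable G)
    (h : Hyp A G) (N : Subgroup G) [N.Normal] (hN : N ≠ ⊥) (hNA : Anum A (Nat.card N))
    (K : Subgroup (G ⧸ N)) (hKn : K.Normal) (hKne : K ≠ ⊥) (hKB : Anum Aᶜ (Nat.card K))
    (hmax : ∀ L : Subgroup (G ⧸ N), L.Normal → Anum Aᶜ (Nat.card L) → L ≤ K) :
    ∀ x y : G ⧸ N, x * y * x⁻¹ * y⁻¹ ∈ K := by
  have hY : Hyp A (G ⧸ N) :=
    h.of_surjective (QuotientGroup.mk' N) (QuotientGroup.mk'_surjective N)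
  obtain ⟨Φ, hΦK, hΦn, hΦne, hΦc, s, hs, hΦs⟩ :=
    Cfsg.Agent.Lib.Helper1.exists_normal_abelian_pgroup_le K hKne inferInstance
  haveI : Fact s.Prime := ⟨hs⟩
  have hsA : s ∉ A := by
    obtain ⟨n, hn⟩ := IsPGroup.iff_card.1 hΦs
    have hn0 : n ≠ 0 := by
      rintro rfl
      rw [pow_zero] at hn
      exact hΦne (Subgroup.card_eq_one.1 hn)
    have h1 : s ∣ Nat.card Φ := by rw [hn]; exact dvd_pow_self s hn0
    exact hKB s hs (h1.trans (Subgroup.card_dvd_of_le hΦK))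
  have hcyc : IsCyclic Φ := cyc_lemma hsol h N hN hNA Φ hΦc s hs hsA hΦs
  have hCn : (Subgroup.centralizer (Φ : Set (G ⧸ N))).Normal := inferInstance
  have hCB : Anum Aᶜ (Nat.card (Subgroup.centralizer (Φ : Set (G ⧸ N)))) := by
    intro q hq hqC hqA
    haveI : Fact q.Prime := ⟨hq⟩
    obtain ⟨c, hc⟩ := exists_prime_orderOf_dvd_card' (G := Subgroup.centralizer (Φ : Set (G ⧸ N))) q hqC
    obtain ⟨w, hw1⟩ := Subgroup.ne_bot_iff_exists_ne_one.1 hΦne
    have hcw : Commute (c : G ⧸ N) (w : G ⧸ N) := (Subgroup.mem_centralizer_iff.1 c.2 w w.2).symm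
    refine hY.noEdge hcw ?_ ?_ ?_ ?_
    · intro hc1
      have : c = 1 := Subtype.ext hc1
      rw [this, orderOf_one] at hc
      exact hq.one_lt.ne hc
    · intro hw
      exact hw1 (Subtype.ext hw)
    · rw [Subgroup.orderOf_coe, hc]
      intro r hr hrq
      rw [(Nat.prime_dvd_prime_iff_eq hr hq).1 hrq]
      exact hqA
    · exact (anum_of_isPGroup hs hsA hΦs).of_dvd (by
        rw [Subgroup.orderOf_coe]; exact orderOf_dvd_natCard w)
  have hCK := hmax _ hCn hCB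
  intro x y
  apply hCK
  have hcommAut : ∀ φ ψ : MulAut Φ, φ * ψ = ψ * φ := by
    intro φ ψ
    apply (IsCyclic.mulAutMulEquiv Φ).injective
    rw [map_mul, map_mul, mul_comm]
  have h1 : (MulAut.conjNormal (x * y * x⁻¹ * y⁻¹) : MulAut Φ) = 1 := by
    rw [map_mul, map_mul, map_mul, map_inv, map_inv, hcommAut (MulAut.conjNormal x)]
    group
  rw [Subgroup.mem_centralizer_iff]
  intro w hw
  have h2 := MulAut.conjNormal_apply (x * y * x⁻¹ * y⁻¹) (⟨w, hw⟩ : Φ)
  rw [h1] at h2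
  have h3 : w = x * y * x⁻¹ * y⁻¹ * w * (x * y * x⁻¹ * y⁻¹)⁻¹ := h2
  exact (mul_inv_eq_iff_eq_mul.1 h3.symm).symm

theorem idx_lemma {B : Set ℕ} {Y : Type*} [Group Y] [Finite Y] (K : Subgroup Y) (hKn : K.Normal)
    (hKB : Anum B (Nat.card K))
    (hmax : ∀ L : Subgroup Y, L.Normal → Anum B (Nat.card L) → L ≤ K)
    (hab : ∀ x y : Y, x * y * x⁻¹ * y⁻¹ ∈ K) : Anum Bᶜ K.index := by
  intro q hq hqK hqB
  haveI : Fact q.Prime := ⟨hq⟩
  obtain ⟨P⟩ : Nonempty (Sylow q Y) := inferInstance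
  have hT : ((P : Subgroup Y) ⊔ K).Normal := by
    constructor
    intro t ht g
    have h1 : g * t * g⁻¹ = (g * t * g⁻¹ * t⁻¹) * t := by group
    rw [h1]
    exact Subgroup.mul_mem _ ((le_sup_right : K ≤ (P : Subgroup Y) ⊔ K) (hab g t)) ht
  have hTB : Anum B (Nat.card ((P : Subgroup Y) ⊔ K : Subgroup Y)) :=
    ((anum_of_isPGroup hq hqB P.isPGroup').mul hKB).of_dvd
      (Cfsg.Agent.Lib.Helper1.card_sup_dvd_of_normal _ K)
  have hPK : (P : Subgroup Y) ≤ K := le_sup_left.trans (hmax _ hT hTB)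
  exact P.not_dvd_index (hqK.trans (Subgroup.index_dvd_of_le hPK))

theorem main {A : Set ℕ} {G : Type*} [Group G] [Finite G] (hsol : Group.IsSolvable G)
    (h : Hyp A G) (hb : ∃ b ∉ A, b.Prime ∧ b ∣ Nat.card G)
    (N₀ : Subgroup G) (hN₀n : N₀.Normal) (hN₀ : N₀ ≠ ⊥) (hN₀A : Anum A (Nat.card N₀)) :
    (∃ C : Subgroup G, Cfsg.IsFrobeniusComplement C) ∨
    (∃ (H K : Subgroup G) (_ : H.Normal), K.Normal ∧ H < K ∧
      (∃ C : Subgroup ↥K, Cfsg.IsFrobeniusComplement C ∧ Cfsg.frobeniusKernel C = (H.subgroupOf K : Set ↥K)) ∧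
      (∃ C : Subgroup (G ⧸ H), Cfsg.IsFrobeniusComplement C ∧ Cfsg.frobeniusKernel C = (K.map (QuotientGroup.mk' H) : Set (G ⧸ H)))) := by
  obtain ⟨N, hNn, hNA, hNmax⟩ := exists_core A G
  haveI := hNn
  have hN : N ≠ ⊥ := by
    intro hbot
    have := hNmax N₀ hN₀n hN₀A
    rw [hbot, le_bot_iff] at this
    exact hN₀ this
  have hNtop : N ≠ ⊤ := by
    rintro rfl
    obtain ⟨b, hbA, hbp, hbd⟩ := hb
    rw [Subgroup.card_top] at hNA
    exact hbA (hNA b hbp hbd)
  obtain ⟨K, hKn, hKB, hKmax⟩ := exists_core Aᶜ (G ⧸ N)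
  haveI := hKn
  have hY : Hyp A (G ⧸ N) :=
    h.of_surjective (QuotientGroup.mk' N) (QuotientGroup.mk'_surjective N)
  have hbot_of_le : ∀ Φ : Subgroup (G ⧸ N), Φ.comap (QuotientGroup.mk' N) ≤ N → Φ = ⊥ := by
    intro Φ h2
    rw [eq_bot_iff]
    intro y hy
    obtain ⟨x, rfl⟩ := QuotientGroup.mk'_surjective N y
    exact (QuotientGroup.eq_one_iff x).2 (h2 hy)
  have hKne : K ≠ ⊥ := by
    intro hKbot
    have hYnt : (⊤ : Subgroup (G ⧸ N)) ≠ ⊥ := by
      intro htb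
      apply hNtop
      rw [eq_top_iff]
      intro x _
      have : (QuotientGroup.mk' N x) ∈ (⊤ : Subgroup (G ⧸ N)) := trivial
      rw [htb, Subgroup.mem_bot] at this
      exact (QuotientGroup.eq_one_iff x).1 this
    obtain ⟨Φ, -, hΦn, hΦne, hΦc, s, hs, hΦs⟩ :=
      Cfsg.Agent.Lib.Helper1.exists_normal_abelian_pgroup_le (⊤ : Subgroup (G ⧸ N)) hYnt
        inferInstance
    by_cases hsA : s ∈ A
    · have h1 : Anum A (Nat.card (Φ.comap (QuotientGroup.mk' N))) := by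
        rw [Cfsg.Agent.Lib.Lead.card_comap_mk']
        exact (anum_of_isPGroup hs hsA hΦs).mul hNA
      exact hΦne (hbot_of_le Φ (hNmax _ (hΦn.comap _) h1))
    · have := hKmax Φ hΦn (anum_of_isPGroup hs hsA hΦs)
      rw [hKbot, le_bot_iff] at this
      exact hΦne this
  have hab := abq hsol h N hN hNA K hKn hKne hKB hKmax
  have hidx := idx_lemma K hKn hKB hKmax hab
  by_cases hKtop : K = ⊤
  · left
    have hB : Anum Aᶜ N.index := by
      rw [hKtop, Subgroup.card_top] at hKB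
      exact hKB
    obtain ⟨C, hC, -⟩ := frob_of_normal h N hN hNtop hNA hB
    exact ⟨C, hC⟩
  · right
    have hNM : N ≤ K.comap (QuotientGroup.mk' N) := by
      intro n hn
      change QuotientGroup.mk' N n ∈ K
      have : QuotientGroup.mk' N n = 1 := (QuotientGroup.eq_one_iff n).2 hn
      rw [this]
      exact K.one_mem
    have hnle : ¬ K.comap (QuotientGroup.mk' N) ≤ N := fun hle => hKne (hbot_of_le K hle)
    refine ⟨N, K.comap (QuotientGroup.mk' N), hNn, hKn.comap _, lt_of_le_not_ge hNM hnle, ?_, ?_⟩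
    · apply frob_of_normal (h.subgroup _) (N.subgroupOf (K.comap (QuotientGroup.mk' N)))
      · intro hbot
        rw [Subgroup.subgroupOf_eq_bot, disjoint_iff, inf_eq_left.2 hNM] at hbot
        exact hN hbot
      · intro htop
        rw [Subgroup.subgroupOf_eq_top] at htop
        exact hnle htop
      · rw [Nat.card_congr (Subgroup.subgroupOfEquivOfLe hNM).toEquiv]
        exact hNA
      · have h1 : (N.subgroupOf (K.comap (QuotientGroup.mk' N))).index = Nat.card K := by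
          have h2 := Cfsg.Agent.Lib.Helper1.card_mul_relIndex hNM
          rw [Cfsg.Agent.Lib.Lead.card_comap_mk', mul_comm] at h2
          exact Nat.eq_of_mul_eq_mul_right Nat.card_pos h2
        rw [h1]
        exact hKB
    · rw [Subgroup.map_comap_eq_self_of_surjective (QuotientGroup.mk'_surjective N)]
      exact frob_of_normal hY.compl K hKne hKtop hKB hidx

/-- A finite solvable group whose prime graph (prime divisors of the order, two distinct primes joined when there is an element of order their product) is disconnected is a Frobenius group or a 2-Frobenius group (it has normal subgroups H < K with K a Frobenius group with kernel H and G/H a Frobenius group with kernel K/H). -/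
theorem result {G : Type*} [Group G] [Finite G] (hsol : Group.IsSolvable G)
    (hdisc : (∃ A : Set ℕ, (∃ a ∈ A, a.Prime ∧ a ∣ Nat.card G) ∧ (∃ b ∉ A, b.Prime ∧ b ∣ Nat.card G) ∧
      ∀ a ∈ A, ∀ b ∉ A, a.Prime → b.Prime → a ∣ Nat.card G → b ∣ Nat.card G → ¬ ∃ g : G, orderOf g = a * b)) :
    (∃ C : Subgroup G, Cfsg.IsFrobeniusComplement C) ∨
    (∃ (H K : Subgroup G) (_ : H.Normal), K.Normal ∧ H < K ∧
      (∃ C : Subgroup ↥K, Cfsg.IsFrobeniusComplement C ∧ Cfsg.frobeniusKernel C = (H.subgroupOf K : Set ↥K)) ∧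
      (∃ C : Subgroup (G ⧸ H), Cfsg.IsFrobeniusComplement C ∧ Cfsg.frobeniusKernel C = (K.map (QuotientGroup.mk' H) : Set (G ⧸ H)))) := by
  obtain ⟨A, ⟨a, haA, hap, had⟩, ⟨b, hbA, hbp, hbd⟩, hne⟩ := hdisc
  have hH : Hyp A G := by
    intro a' ha' b' hb' hap' hbp' g hg
    apply hne a' ha' b' hb' hap' hbp' _ _ ⟨g, hg⟩
    · exact (Dvd.intro _ rfl).trans (hg ▸ orderOf_dvd_natCard g)
    · exact (Dvd.intro_left _ rfl).trans (hg ▸ orderOf_dvd_natCard g)
  have hnt : (⊤ : Subgroup G) ≠ ⊥ := by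
    intro htb
    have h1 : Nat.card (⊤ : Subgroup G) = 1 := by rw [htb, Subgroup.card_bot]
    rw [Subgroup.card_top] at h1
    rw [h1] at had
    exact hap.one_lt.ne' (Nat.dvd_one.1 had)
  obtain ⟨Φ, -, hΦn, hΦne, hΦc, s, hs, hΦs⟩ :=
    Cfsg.Agent.Lib.Helper1.exists_normal_abelian_pgroup_le (⊤ : Subgroup G) hnt inferInstance
  by_cases hsA : s ∈ A
  · exact main hsol hH ⟨b, hbA, hbp, hbd⟩ Φ hΦn hΦne (anum_of_isPGroup hs hsA hΦs)
  · exact main hsol hH.compl ⟨a, not_not.2 haA, hap, had⟩ Φ hΦn hΦne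
      (anum_of_isPGroup hs hsA hΦs)

end Cfsg.Agent.S3857
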