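import Cfsg.Statements.S3858
-- import your own Cfsg.Agent.* helpers here
import Cfsg.Agent.Lib.Helper67.SylowAux

set_option autoImplicit false
open Cfsg

namespace Cfsg.Agent.S3858

/-- Let G be a finite group with a normal non-abelian simple subgroup T whose centralizer is trivial (G almost simple with socle T), r a prime and R a Sylow r-subgroup of G meeting T nontrivially. Then R lies in exactly one maximal subgroup of G if and only if G has exactly one conjugacy class of maximal subgroups whose index is prime to r. -/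
theorem result {G : Type*} [Group G] [Finite G] (T : Subgroup G) [T.Normal] (hT : IsSimpleGroup T) (hna : ¬ IsMulCommutative T)
    (hC : Subgroup.centralizer (T : Set G) = ⊥) {r : ℕ} [Fact r.Prime] (R : Sylow r G) (hR0 : (R : Subgroup G) ⊓ T ≠ ⊥) :
    (∃! M : Subgroup G, IsCoatom M ∧ (R : Subgroup G) ≤ M) ↔
      ((∃ M : Subgroup G, IsCoatom M ∧ ¬ r ∣ M.index) ∧
        ∀ M₁ M₂ : Subgroup G, IsCoatom M₁ → ¬ r ∣ M₁.index → IsCoatom M₂ → ¬ r ∣ M₂.index → ∃ g : G, M₂ = M₁.map (MulAut.conj g).toMonoidHom) := by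
  have ha : ∀ M : Subgroup G, (R : Subgroup G) ≤ M → ¬ r ∣ M.index := fun M hM h =>
    R.not_dvd_index (h.trans (Subgroup.index_dvd_of_le hM))
  have hc : Subgroup.normalizer ((R : Subgroup G) : Set G) ≠ ⊤ := by
    intro htop
    have hRn : (R : Subgroup G).Normal := Subgroup.normalizer_eq_top_iff.1 htop
    have hn : (((R : Subgroup G) ⊓ T).subgroupOf T).Normal := by
      have : ((R : Subgroup G) ⊓ T).Normal := inferInstance
      infer_instance
    rcases hn.eq_bot_or_eq_top with h | h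
    · rw [Subgroup.subgroupOf_eq_bot, disjoint_iff, inf_assoc, inf_idem] at h
      exact hR0 h
    · rw [Subgroup.subgroupOf_eq_top] at h
      have hTR : T ≤ (R : Subgroup G) := h.trans inf_le_left
      have hTp : IsPGroup r T := R.isPGroup'.to_le hTR
      have hnt : Nontrivial T := hT.toNontrivial
      have hcn : Nontrivial (Subgroup.center T) := hTp.center_nontrivial
      have hcnorm : (Subgroup.center T).Normal := inferInstance
      rcases hcnorm.eq_bot_or_eq_top with h2 | h2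
      · rw [h2] at hcn
        exact not_subsingleton _ (inferInstance : Subsingleton (⊥ : Subgroup T))
      · apply hna
        refine ⟨⟨fun a b => ?_⟩⟩
        have : b ∈ Subgroup.center T := by rw [h2]; trivial
        exact (Subgroup.mem_center_iff.1 this a)
  constructor
  · rintro ⟨M, ⟨hM, hRM⟩, huniq⟩
    refine ⟨⟨M, hM, ha M hRM⟩, ?_⟩
    intro M₁ M₂ h1 h1i h2 h2i
    obtain ⟨g1, hg1⟩ := Lib.Helper67.exists_cj_le_of_not_dvd_index h1i R.isPGroup'
    obtain ⟨g2, hg2⟩ := Lib.Helper67.exists_cj_le_of_not_dvd_index h2i R.isPGroup'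
    have e1 := huniq _ ⟨Lib.Helper67.isCoatom_cj (g := g1⁻¹) h1, Lib.Helper67.cj_le_iff.1 hg1⟩
    have e2 := huniq _ ⟨Lib.Helper67.isCoatom_cj (g := g2⁻¹) h2, Lib.Helper67.cj_le_iff.1 hg2⟩
    refine ⟨g2 * g1⁻¹, ?_⟩
    change M₂ = Lib.Helper67.cj (g2 * g1⁻¹) M₁
    rw [← Lib.Helper67.cj_cj, e1, ← e2, Lib.Helper67.cj_cj, mul_inv_cancel, Lib.Helper67.cj_one]
  · rintro ⟨⟨M, hM, hMi⟩, hconj⟩
    obtain ⟨M0, hM0, hle⟩ := (eq_top_or_exists_le_coatom _).resolve_left hc
    have hRM0 : (R : Subgroup G) ≤ M0 := Subgroup.le_normalizer.trans hle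
    refine ⟨M0, ⟨hM0, hRM0⟩, ?_⟩
    rintro M1 ⟨hM1, hRM1⟩
    obtain ⟨g, hg⟩ := hconj M0 M1 hM0 (ha _ hRM0) hM1 (ha _ hRM1)
    have h1 : Lib.Helper67.cj g (R : Subgroup G) ≤ M1 := by
      rw [hg]; exact Lib.Helper67.cj_mono g hRM0
    obtain ⟨m, hm, he⟩ := Lib.Helper67.exists_cj_eq_of_relIndex R.isPGroup' hRM1 h1
      (Lib.Helper67.sylow_not_dvd_relIndex R hRM1) (Lib.Helper67.card_cj g _)
    have h2 : m⁻¹ * g ∈ M0 := hle (Lib.Helper67.cj_eq_cj_iff.1 he)
    have h3 := Lib.Helper67.cj_eq_of_mem h2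
    rw [← Lib.Helper67.cj_cj] at h3
    have h4 : Lib.Helper67.cj g M0 = M1 := hg.symm
    rw [h4, Lib.Helper67.cj_eq_of_mem (M1.inv_mem hm)] at h3
    exact h3

end Cfsg.Agent.S3858
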