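import Cfsg.Statements.S3859
-- import your own Cfsg.Agent.* helpers here
import Cfsg.Agent.Lib.Helper28.SylSub

set_option autoImplicit false
open Cfsg

namespace Cfsg.Agent.S3859

open Cfsg.Agent.Lib.Helper28

/-- Let G be a finite group with a normal non-abelian simple subgroup T whose centralizer is trivial (G almost simple with socle T), r a prime and R a Sylow r-subgroup of G meeting T nontrivially. If R lies in exactly one maximal subgroup of G, then G/T is an r-group. -/
theorem result {G : Type*} [Group G] [Finite G] (T : Subgroup G) [T.Normal] (hT : IsSimpleGroup T) (hna : ¬ IsMulCommutative T)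
    (hC : Subgroup.centralizer (T : Set G) = ⊥) {r : ℕ} [Fact r.Prime] (R : Sylow r G) (hR0 : (R : Subgroup G) ⊓ T ≠ ⊥)
    (huniq : ∃! M : Subgroup G, IsCoatom M ∧ (R : Subgroup G) ≤ M) : IsPGroup r (G ⧸ T) := by
  obtain ⟨M, ⟨hM, hRM⟩, huniq⟩ := huniq
  -- every proper subgroup containing `R` lies in `M`
  have hle : ∀ X : Subgroup G, (R : Subgroup G) ≤ X → X ≠ ⊤ → X ≤ M := by
    intro X hRX hX
    obtain ⟨M', hM', hXM'⟩ := (eq_top_or_exists_le_coatom X).resolve_left hX
    rw [← huniq M' ⟨hM', hRX.trans hXM'⟩]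
    exact hXM'
  have hTn : T.Normal := inferInstance
  have hsyl := isSyl_inf_subnormal R hTn.isSubnormal
  have h3 := Cfsg.Agent.Lib.Helper53.frattini_sup hsyl le_top (by rw [Subgroup.normalizer_eq_top])
  rw [top_inf_eq] at h3
  have hRN : (R : Subgroup G) ≤ Subgroup.normalizer (((R : Subgroup G) ⊓ T : Subgroup G) : Set G) :=
    le_normalizer_inf' Subgroup.le_normalizer (by rw [Subgroup.normalizer_eq_top]; exact le_top)
  have hNne : Subgroup.normalizer (((R : Subgroup G) ⊓ T : Subgroup G) : Set G) ≠ ⊤ := by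
    intro htop
    have hn : ((R : Subgroup G) ⊓ T).Normal := Subgroup.normalizer_eq_top_iff.mp htop
    have hn' : (((R : Subgroup G) ⊓ T).subgroupOf T).Normal := hn.subgroupOf T
    rcases hn'.eq_bot_or_eq_top with h | h
    · rw [Subgroup.subgroupOf_eq_bot, disjoint_iff, inf_assoc, inf_idem] at h
      exact hR0 h
    · rw [Subgroup.subgroupOf_eq_top] at h
      have hTp : IsPGroup r ↥T := R.2.to_le (h.trans inf_le_left)
      have hnil := hTp.isNilpotent
      have hsol : Group.IsSolvable ↥T := inferInstance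
      exact hna ⟨⟨fun a b => (IsSimpleGroup.comm_iff_isSolvable.mpr hsol) a b⟩⟩
  have hTR : T ⊔ (R : Subgroup G) = ⊤ := by
    by_contra hne
    apply hM.1
    rw [eq_top_iff, ← h3]
    exact sup_le (le_sup_left.trans (hle _ le_sup_right hne)) (hle _ hRN hNne)
  -- `G / T` is an image of `R`
  have hmap : (R : Subgroup G).map (QuotientGroup.mk' T) = ⊤ := by
    have h5 := congrArg (Subgroup.map (QuotientGroup.mk' T)) hTR
    rw [Subgroup.map_sup, Subgroup.map_top_of_surjective _ (QuotientGroup.mk'_surjective T),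
      (Subgroup.map_eq_bot_iff T).mpr (by rw [QuotientGroup.ker_mk']), bot_sup_eq] at h5
    exact h5
  have h6 : IsPGroup r ↥((R : Subgroup G).map (QuotientGroup.mk' T)) := R.2.map _
  rw [hmap] at h6
  exact h6.of_equiv Subgroup.topEquiv

end Cfsg.Agent.S3859
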