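import Cfsg.Statements.S3861
-- import your own Cfsg.Agent.* helpers here
import Mathlib
import Cfsg.Agent.S0239
import Cfsg.Agent.Lib.Helper58.RealOdd

set_option autoImplicit false
open Cfsg

namespace Cfsg.Agent.S3861

/-- A finite group G has no non-identity element of odd order that is conjugate to its inverse if and only if the Sylow 2-subgroups of G are normal. -/
theorem result {G : Type*} [Group G] [Finite G] (P : Sylow 2 G) : (∀ x : G, x ≠ 1 → Odd (orderOf x) → ¬ IsConj x x⁻¹) ↔ (P : Subgroup G).Normal := by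
  constructor
  · intro h
    exact Cfsg.Agent.Lib.Helper58.sylow_two_normal_of_no_real h P
  · intro hP x hx1 hxo hreal
    obtain ⟨g, hg⟩ := isConj_iff.mp hreal
    have hxP : x ∉ (P : Subgroup G) := by
      intro hx
      obtain ⟨k, hk⟩ := (IsPGroup.iff_orderOf.mp P.2) ⟨x, hx⟩
      rw [Subgroup.orderOf_mk] at hk
      rw [hk] at hxo
      rcases Nat.eq_zero_or_pos k with rfl | hk0
      · rw [pow_zero, orderOf_eq_one_iff] at hk
        exact hx1 hk
      · exact (Nat.not_even_iff_odd.mpr hxo) ((Nat.even_pow.mpr ⟨even_two, hk0.ne'⟩))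
    have h1 : ((x : G) : G ⧸ (P : Subgroup G)) ≠ 1 := by
      rwa [Ne, QuotientGroup.eq_one_iff]
    have h2 : IsConj ((x : G) : G ⧸ (P : Subgroup G)) ((x : G) : G ⧸ (P : Subgroup G))⁻¹ := by
      rw [isConj_iff]
      refine ⟨(g : G ⧸ (P : Subgroup G)), ?_⟩
      rw [← QuotientGroup.mk_inv, ← QuotientGroup.mk_inv, ← QuotientGroup.mk_mul, ← QuotientGroup.mk_mul, hg]
    have h3 := Cfsg.Agent.S0239.result _ h1 h2
    have h4 := P.not_dvd_index
    rw [Subgroup.index_eq_card] at h4
    exact h4 h3.two_dvd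

end Cfsg.Agent.S3861
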