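import Cfsg.Statements.S3862
import Cfsg.Agent.S0071

set_option autoImplicit false
open Cfsg

namespace Cfsg.Agent.S3862


section aux
variable {G : Type*} [Group G]

/-- the commutator `x y x⁻¹ y⁻¹` -/
def cm (x y : G) : G := x * y * x⁻¹ * y⁻¹

lemma cm_eq_squares (x y : G) : cm x y = (x * y) ^ 2 * (y⁻¹ * x⁻¹ * y) ^ 2 * (y⁻¹) ^ 2 := by
  unfold cm; simp only [pow_two]; group

lemma sq_mul (x y : G) (h : Commute (cm x y) x) : (x * y) ^ 2 = (cm x y)⁻¹ * x ^ 2 * y ^ 2 := by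
  have h1 : (x * y) ^ 2 = x * (cm x y)⁻¹ * x * y ^ 2 := by unfold cm; simp only [pow_two]; group
  rw [h1, ← (h.inv_left).eq, pow_two x]
  simp only [mul_assoc]

lemma cm_mul_left (w v y : G) (h : Commute (cm v y) w) : cm (w * v) y = cm v y * cm w y := by
  have h1 : cm (w * v) y = w * cm v y * y * w⁻¹ * y⁻¹ := by unfold cm; group
  rw [h1, ← h.eq]
  unfold cm; group

lemma cm_swap (x y : G) : cm x y = (cm y x)⁻¹ := by unfold cm; group

lemma cm_one_left (y : G) : cm 1 y = 1 := by unfold cm; group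

lemma conj_cm (g x y : G) : g * cm x y * g⁻¹ = cm (g * x * g⁻¹) (g * y * g⁻¹) := by
  unfold cm; group

lemma inv_surj [Finite G] (g : G) (R : Subgroup G) (hR : ∀ x ∈ R, g * x * g⁻¹ ∈ R) :
    ∀ y ∈ R, ∃ y' ∈ R, g * y' * g⁻¹ = y := by
  let f : R → R := fun x => ⟨g * x * g⁻¹, hR x x.2⟩
  have hf : Function.Injective f := by
    intro a b hab
    have h1 : g * (a : G) * g⁻¹ = g * (b : G) * g⁻¹ := congrArg Subtype.val hab
    apply Subtype.ext
    simpa using h1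
  have hs := Finite.surjective_of_injective hf
  intro y hy
  obtain ⟨y', hy'⟩ := hs ⟨y, hy⟩
  exact ⟨y', y'.2, congrArg Subtype.val hy'⟩

theorem card_lt_of_lt [Finite G] {H K : Subgroup G} (h : H < K) :
    Nat.card H < Nat.card K := by
  by_contra hc
  exact h.ne (Subgroup.eq_of_le_of_card_ge h.le (not_lt.mp hc))

/-- an element of odd order normalizing a `2`-subgroup centralizes it, if all real `2`-elements
are central -/
theorem centralizes [Finite G]
    (h : ∀ x : G, (∃ j : ℕ, orderOf x = 2 ^ j) → IsConj x x⁻¹ → x ∈ Subgroup.center G)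
    (g : G) (hg : Odd (orderOf g)) (n : ℕ) :
    ∀ Q : Subgroup G, Nat.card Q = n → IsPGroup 2 Q → (∀ x ∈ Q, g * x * g⁻¹ ∈ Q) →
      ∀ x ∈ Q, g * x * g⁻¹ = x := by
  induction n using Nat.strong_induction_on with
  | _ n ih =>
  intro Q hn hQ hInv
  by_contra hcon
  push Not at hcon
  obtain ⟨x₀, hx₀, hmove⟩ := hcon
  -- proper invariant subgroups are centralized
  have sub : ∀ R : Subgroup G, R ≤ Q → (∀ x ∈ R, g * x * g⁻¹ ∈ R) → R ≠ Q →
      ∀ x ∈ R, g * x * g⁻¹ = x := by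
    intro R hRQ hRinv hne
    exact ih (Nat.card R) (hn ▸ card_lt_of_lt (lt_of_le_of_ne hRQ hne)) R rfl (hQ.to_le hRQ) hRinv
  -- Step 1: `Q = [Q, g]`
  have hgen : ∀ T : Subgroup G, (∀ x ∈ Q, x⁻¹ * (g * x * g⁻¹) ∈ T) → Q ≤ T := by
    intro T hT
    set D := Subgroup.closure {d : G | ∃ x ∈ Q, d = x⁻¹ * (g * x * g⁻¹)} with hD
    have hDQ : D ≤ Q := by
      rw [hD, Subgroup.closure_le]
      rintro _ ⟨x, hx, rfl⟩
      exact Q.mul_mem (Q.inv_mem hx) (hInv x hx)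
    have hDinv : ∀ x ∈ D, g * x * g⁻¹ ∈ D := by
      have h1 : D ≤ D.comap (MulAut.conj g).toMonoidHom := by
        apply (Subgroup.closure_le _).2
        rintro _ ⟨x, hx, rfl⟩
        have h2 : g * (x⁻¹ * (g * x * g⁻¹)) * g⁻¹ ∈ D :=
          Subgroup.subset_closure ⟨g * x * g⁻¹, hInv x hx, by group⟩
        exact h2
      intro x hx
      exact h1 hx
    have hDeq : D = Q := by
      by_contra hne
      have hcen := sub D hDQ hDinv hne
      apply hmove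
      set c := x₀⁻¹ * (g * x₀ * g⁻¹) with hc
      have hcD : c ∈ D := Subgroup.subset_closure ⟨x₀, hx₀, rfl⟩
      have hcc : g * c * g⁻¹ = c := hcen c hcD
      have hpow : ∀ k : ℕ, g ^ k * x₀ * (g ^ k)⁻¹ = x₀ * c ^ k := by
        intro k
        induction k with
        | zero => simp
        | succ k ihk =>
          have e1 : g ^ (k + 1) * x₀ * (g ^ (k + 1))⁻¹ = g * (g ^ k * x₀ * (g ^ k)⁻¹) * g⁻¹ := by
            rw [pow_succ']; group
          have e2 : g * c ^ k * g⁻¹ = c ^ k := by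
            rw [← conj_pow, hcc]
          have e3 : g * (x₀ * c ^ k) * g⁻¹ = (g * x₀ * g⁻¹) * (g * c ^ k * g⁻¹) := by group
          have e4 : g * x₀ * g⁻¹ = x₀ * c := by rw [hc]; group
          rw [e1, ihk, e3, e2, e4, pow_succ', mul_assoc]
      have h1 := hpow (orderOf g)
      rw [pow_orderOf_eq_one, one_mul, inv_one, mul_one, left_eq_mul] at h1
      have h2 : orderOf c ∣ orderOf g := orderOf_dvd_of_pow_eq_one h1
      obtain ⟨j, hj⟩ := (IsPGroup.iff_orderOf.1 hQ) ⟨c, hDQ hcD⟩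
      rw [Subgroup.orderOf_mk] at hj
      have h3 : c = 1 := by
        rcases Nat.eq_zero_or_pos j with rfl | hjpos
        · rw [pow_zero, orderOf_eq_one_iff] at hj
          exact hj
        · exfalso
          have h4 : 2 ∣ orderOf g := (dvd_pow_self 2 hjpos.ne').trans (hj ▸ h2)
          exact (Nat.not_even_iff_odd.mpr hg) (even_iff_two_dvd.mpr h4)
      have e4 : g * x₀ * g⁻¹ = x₀ * c := by rw [hc]; group
      rw [e4, h3, mul_one]
    rw [← hDeq, hD, Subgroup.closure_le]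
    rintro _ ⟨x, hx, rfl⟩
    exact hT x hx
  -- Step 2: the subgroup generated by squares
  set S := Subgroup.closure {s : G | ∃ x ∈ Q, s = x ^ 2} with hS
  have hsqS : ∀ x ∈ Q, x ^ 2 ∈ S := fun x hx => Subgroup.subset_closure ⟨x, hx, rfl⟩
  have hSQ : S ≤ Q := by
    rw [hS, Subgroup.closure_le]
    rintro _ ⟨x, hx, rfl⟩
    exact Q.pow_mem hx 2
  have hSconj : ∀ y : G, (∀ x ∈ Q, y * x * y⁻¹ ∈ Q) → ∀ s ∈ S, y * s * y⁻¹ ∈ S := by
    intro y hy
    have h1 : S ≤ S.comap (MulAut.conj y).toMonoidHom := by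
      apply (Subgroup.closure_le _).2
      rintro _ ⟨x, hx, rfl⟩
      have h2 : y * x ^ 2 * y⁻¹ ∈ S := by
        rw [← conj_pow]
        exact Subgroup.subset_closure ⟨_, hy x hx, rfl⟩
      exact h2
    intro s hs
    exact h1 hs
  have hSne : S ≠ Q := by
    intro hSeq
    have hQne : Nat.card Q ≠ 1 := by
      intro h1
      have h2 : Q = ⊥ := Subgroup.card_eq_one.mp h1
      rw [h2, Subgroup.mem_bot] at hx₀
      apply hmove
      rw [hx₀]; group
    obtain ⟨m, hm⟩ := hQ.exists_card_eq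
    have hmpos : 0 < m := by
      rcases Nat.eq_zero_or_pos m with rfl | h0
      · exact absurd hm hQne
      · exact h0
    obtain ⟨K, hK⟩ := Sylow.exists_subgroup_card_pow_prime (G := Q) 2 (n := m - 1)
      (by rw [hm]; exact pow_dvd_pow 2 (Nat.sub_le m 1))
    have hidx : K.index = 2 := by
      have h1 := Subgroup.card_mul_index K
      rw [hK, hm] at h1
      have h2 : 2 ^ m = 2 ^ (m - 1) * 2 := by rw [← pow_succ]; congr 1; omega
      rw [h2] at h1
      exact Nat.eq_of_mul_eq_mul_left (Nat.pow_pos (by norm_num)) h1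
    have hle : S ≤ K.map Q.subtype := by
      rw [hS, Subgroup.closure_le]
      rintro _ ⟨x, hx, rfl⟩
      exact ⟨(⟨x, hx⟩ : Q) ^ 2, Subgroup.sq_mem_of_index_two hidx _, rfl⟩
    have h3 := Subgroup.card_le_of_le hle
    rw [hSeq, Subgroup.card_map_of_injective Q.subtype_injective, hK, hm] at h3
    have h4 : 2 ^ (m - 1) < 2 ^ m := Nat.pow_lt_pow_right (by norm_num) (by omega)
    omega
  have hScen : ∀ s ∈ S, g * s * g⁻¹ = s := sub S hSQ (hSconj g hInv) hSne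
  have hSnorm : ∀ y ∈ Q, ∀ s ∈ S, y * s * y⁻¹ ∈ S := fun y hy =>
    hSconj y (fun x hx => Q.mul_mem (Q.mul_mem hy hx) (Q.inv_mem hy))
  -- Step 3: `S` is central in `Q`
  have hSZ : ∀ s ∈ S, ∀ x ∈ Q, Commute s x := by
    intro s hs
    have h1 : Q ≤ Subgroup.centralizer ({s} : Set G) := by
      apply hgen
      intro x hx
      rw [Subgroup.mem_centralizer_singleton_iff]
      have e1 := hScen _ (hSnorm x hx s hs)
      have e2 : g * (x * s * x⁻¹) * g⁻¹ = (g * x * g⁻¹) * (g * s * g⁻¹) * (g * x * g⁻¹)⁻¹ := by group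
      rw [e2, hScen s hs] at e1
      calc x⁻¹ * (g * x * g⁻¹) * s = x⁻¹ * ((g * x * g⁻¹) * s * (g * x * g⁻¹)⁻¹) * (g * x * g⁻¹) := by
            group
        _ = x⁻¹ * (x * s * x⁻¹) * (g * x * g⁻¹) := by rw [e1]
        _ = s * (x⁻¹ * (g * x * g⁻¹)) := by group
    intro x hx
    have := h1 hx
    rw [Subgroup.mem_centralizer_singleton_iff] at this
    exact this.symm
  have hcmS : ∀ x ∈ Q, ∀ y ∈ Q, cm x y ∈ S := by
    intro x hx y hy
    rw [cm_eq_squares]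
    exact S.mul_mem (S.mul_mem (hsqS _ (Q.mul_mem hx hy))
      (hsqS _ (Q.mul_mem (Q.mul_mem (Q.inv_mem hy) (Q.inv_mem hx)) hy))) (hsqS _ (Q.inv_mem hy))
  have hbil : ∀ w ∈ Q, ∀ v ∈ Q, ∀ y ∈ Q, cm (w * v) y = cm v y * cm w y := fun w hw v hv y hy =>
    cm_mul_left w v y (hSZ _ (hcmS v hv y hy) w hw)
  have hcminv : ∀ w ∈ Q, ∀ y ∈ Q, cm w⁻¹ y = (cm w y)⁻¹ := by
    intro w hw y hy
    have h1 := hbil w⁻¹ (Q.inv_mem hw) w hw y hy
    rw [inv_mul_cancel, cm_one_left] at h1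
    exact (inv_eq_of_mul_eq_one_right h1.symm).symm
  -- Step 4: the subgroup `B = [Q, x₀]`
  let B : Subgroup G :=
    { carrier := {z | ∃ y ∈ Q, z = cm y x₀}
      one_mem' := ⟨1, Q.one_mem, (cm_one_left x₀).symm⟩
      mul_mem' := by
        rintro _ _ ⟨y₁, hy₁, rfl⟩ ⟨y₂, hy₂, rfl⟩
        exact ⟨y₂ * y₁, Q.mul_mem hy₂ hy₁, (hbil y₂ hy₂ y₁ hy₁ x₀ hx₀).symm⟩
      inv_mem' := by
        rintro _ ⟨y, hy, rfl⟩
        exact ⟨y⁻¹, Q.inv_mem hy, (hcminv y hy x₀ hx₀).symm⟩ }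
  have hBmem : ∀ z, z ∈ B ↔ ∃ y ∈ Q, z = cm y x₀ := fun z => Iff.rfl
  -- all commutators lie in `B`
  let R : Subgroup G :=
    { carrier := {w | w ∈ Q ∧ ∀ y ∈ Q, cm w y ∈ B}
      one_mem' := ⟨Q.one_mem, fun y _ => by rw [cm_one_left]; exact B.one_mem⟩
      mul_mem' := by
        rintro w v ⟨hw, hw'⟩ ⟨hv, hv'⟩
        refine ⟨Q.mul_mem hw hv, fun y hy => ?_⟩
        rw [hbil w hw v hv y hy]
        exact B.mul_mem (hv' y hy) (hw' y hy)
      inv_mem' := by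
        rintro w ⟨hw, hw'⟩
        refine ⟨Q.inv_mem hw, fun y hy => ?_⟩
        rw [hcminv w hw y hy]
        exact B.inv_mem (hw' y hy) }
  have hRQ : R ≤ Q := fun w hw => hw.1
  have hRinv : ∀ w ∈ R, g * w * g⁻¹ ∈ R := by
    rintro w ⟨hw, hw'⟩
    refine ⟨hInv w hw, fun y hy => ?_⟩
    obtain ⟨y', hy', rfl⟩ := inv_surj g Q hInv y hy
    rw [← conj_cm, hScen _ (hcmS w hw y' hy')]
    exact hw' y' hy'
  have hx₀R : x₀ ∈ R := by
    refine ⟨hx₀, fun y hy => ?_⟩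
    rw [cm_swap]
    exact B.inv_mem ⟨y, hy, rfl⟩
  have hReq : R = Q := by
    by_contra hne
    exact hmove (sub R hRQ hRinv hne x₀ hx₀R)
  have hcmB : ∀ w ∈ Q, ∀ y ∈ Q, cm w y ∈ B := by
    intro w hw y hy
    have : w ∈ R := hReq ▸ hw
    exact this.2 y hy
  have hsqmul : ∀ w ∈ Q, ∀ v ∈ Q, (w * v) ^ 2 = (cm w v)⁻¹ * w ^ 2 * v ^ 2 := fun w hw v hv =>
    sq_mul w v (hSZ _ (hcmS w hw v hv) w hw)
  let T : Subgroup G :=
    { carrier := {w | w ∈ Q ∧ w ^ 2 ∈ B}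
      one_mem' := ⟨Q.one_mem, by rw [one_pow]; exact B.one_mem⟩
      mul_mem' := by
        rintro w v ⟨hw, hw'⟩ ⟨hv, hv'⟩
        refine ⟨Q.mul_mem hw hv, ?_⟩
        rw [hsqmul w hw v hv]
        exact B.mul_mem (B.mul_mem (B.inv_mem (hcmB w hw v hv)) hw') hv'
      inv_mem' := by
        rintro w ⟨hw, hw'⟩
        refine ⟨Q.inv_mem hw, ?_⟩
        rw [inv_pow]
        exact B.inv_mem hw' }
  have hQT : Q ≤ T := by
    apply hgen
    intro w hw
    refine ⟨Q.mul_mem (Q.inv_mem hw) (hInv w hw), ?_⟩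
    rw [hsqmul _ (Q.inv_mem hw) _ (hInv w hw), conj_pow, hScen _ (hsqS w hw), inv_pow, mul_assoc,
      inv_mul_cancel, mul_one]
    exact B.inv_mem (hcmB _ (Q.inv_mem hw) _ (hInv w hw))
  have hx₀sq : (x₀ ^ 2)⁻¹ ∈ B := B.inv_mem (hQT hx₀).2
  obtain ⟨y, hy, hyx⟩ := (hBmem _).1 hx₀sq
  have hreal : IsConj x₀ x₀⁻¹ := by
    rw [isConj_iff]
    refine ⟨y, ?_⟩
    have : y * x₀ * y⁻¹ = cm y x₀ * x₀ := by unfold cm; group
    rw [this, ← hyx]
    group
  obtain ⟨j, hj⟩ := (IsPGroup.iff_orderOf.1 hQ) ⟨x₀, hx₀⟩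
  rw [Subgroup.orderOf_mk] at hj
  have hcen := h x₀ ⟨j, hj⟩ hreal
  apply hmove
  rw [Subgroup.mem_center_iff] at hcen
  rw [hcen g, mul_inv_cancel_right]

end aux

/-- If every 2-element of the finite group G that is conjugate to its inverse lies in the centre of G, then G has a normal 2-complement. -/
theorem result {G : Type*} [Group G] [Finite G] (h : ∀ x : G, (∃ j : ℕ, orderOf x = 2 ^ j) → IsConj x x⁻¹ → x ∈ Subgroup.center G) : Cfsg.HasNormalPComplement 2 G := by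
  obtain ⟨P⟩ : Nonempty (Sylow 2 G) := inferInstance
  refine ⟨P, ?_⟩
  rw [Cfsg.Agent.S0071.result P]
  intro Q hQ g hg hcop
  have hodd : Odd (orderOf g) := by
    exact Nat.coprime_two_right.mp hcop
  have hInv : ∀ x ∈ Q, g * x * g⁻¹ ∈ Q := fun x hx => (Subgroup.mem_normalizer_iff.mp hg x).mp hx
  have h1 := centralizes h g hodd _ Q rfl (P.2.to_le hQ) hInv
  rw [Subgroup.mem_centralizer_iff]
  intro x hx
  have h2 := h1 x hx
  rw [mul_inv_eq_iff_eq_mul] at h2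
  exact h2.symm

end Cfsg.Agent.S3862
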