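import Cfsg.Statements.S3864
import Cfsg.Agent.S0111
import Cfsg.Agent.S0071
import Cfsg.Agent.S1255
import Cfsg.Agent.Lib.Helper11.DihedralSylow
import Cfsg.Agent.Lib.Helper11.DihedralAut
import Cfsg.Agent.Lib.Helper11.NPC
import Cfsg.Agent.Lib.Helper11.SylowAux

set_option autoImplicit false
open Cfsg

namespace Cfsg.Agent.S3864

open Cfsg.Agent.Lib.Helper11

/-- the data of a dihedral Sylow `2`-subgroup of order at least `8` -/
structure DD {G : Type*} [Group G] (P : Sylow 2 G) (Q : Subgroup G) (z c : G) : Prop where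
  hQP : Q ≤ (P : Subgroup G)
  hQi : Q.relIndex (P : Subgroup G) = 2
  hcQ : c ∈ Q
  hgen : ∀ a ∈ Q, a ∈ Subgroup.zpowers c
  h4 : 4 ∣ orderOf c
  hzQ : z ∈ Q
  hz2 : orderOf z = 2
  huniq : ∀ a ∈ Q, orderOf a = 2 → a = z
  hinv : ∀ x ∈ (P : Subgroup G), x ∉ Q → x * x = 1 ∧ ∀ a ∈ Q, x * a * x⁻¹ = a⁻¹

section
variable {G : Type*} [Group G] {P : Sylow 2 G} {Q : Subgroup G} {z c : G}

theorem DD.inv (h : DD P Q z c) : DD P Q z c⁻¹ where
  hQP := h.hQP
  hQi := h.hQi
  hcQ := Q.inv_mem h.hcQ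
  hgen := by
    intro a ha
    rw [Subgroup.zpowers_inv]
    exact h.hgen a ha
  h4 := by rw [orderOf_inv]; exact h.h4
  hzQ := h.hzQ
  hz2 := h.hz2
  huniq := h.huniq
  hinv := h.hinv

theorem DD.mul_mem_iff (h : DD P Q z c) {x y : G} (hx : x ∈ (P : Subgroup G))
    (hy : y ∈ (P : Subgroup G)) : x * y ∈ Q ↔ (x ∈ Q ↔ y ∈ Q) := by
  have h2 : (Q.subgroupOf (P : Subgroup G)).index = 2 := h.hQi
  have := Subgroup.mul_mem_iff_of_index_two h2 (a := ⟨x, hx⟩) (b := ⟨y, hy⟩)
  simpa [Subgroup.mem_subgroupOf] using this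

theorem DD.conj_sq (h : DD P Q z c) {w a : G} (hw : w ∈ (P : Subgroup G)) (hwQ : w ∉ Q)
    (ha : a ∈ Q) : a⁻¹ * w * a⁻¹⁻¹ = w * a * a := by
  have h1 := (h.hinv w hw hwQ).2 a ha
  calc a⁻¹ * w * a⁻¹⁻¹ = (w * a * w⁻¹) * w * a := by rw [h1, inv_inv]
    _ = w * a * a := by group

theorem DD.mul_c (h : DD P Q z c) {t : G} (ht : t ∈ (P : Subgroup G)) (htQ : t ∉ Q) :
    t * c ∈ (P : Subgroup G) ∧ t * c ∉ Q := by
  refine ⟨Subgroup.mul_mem _ ht (h.hQP h.hcQ), ?_⟩
  rw [h.mul_mem_iff ht (h.hQP h.hcQ)]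
  intro h1
  exact htQ (h1.2 h.hcQ)

theorem DD.ord_two (h : DD P Q z c) {t : G} (ht : t ∈ (P : Subgroup G)) (htQ : t ∉ Q) :
    orderOf t = 2 :=
  orderOf_two_iff.2 ⟨(h.hinv t ht htQ).1, fun h1 => htQ (h1 ▸ Q.one_mem)⟩

theorem DD.conj_out (h : DD P Q z c) {t u : G} (ht : t ∈ (P : Subgroup G)) (htQ : t ∉ Q)
    (hu : u ∈ (P : Subgroup G)) (huQ : u ∉ Q) : IsConj t u ∨ IsConj (t * c) u := by
  have hq : t⁻¹ * u ∈ Q := by
    rw [h.mul_mem_iff (Subgroup.inv_mem _ ht) hu]
    constructor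
    · intro h1; exact absurd (by simpa using Q.inv_mem h1) htQ
    · intro h1; exact absurd h1 huQ
  obtain ⟨k, hk⟩ := Subgroup.mem_zpowers_iff.1 (h.hgen _ hq)
  have hu' : u = t * c ^ k := by rw [hk]; group
  rcases Int.even_or_odd' k with ⟨j, rfl | rfl⟩
  · left
    rw [isConj_iff]
    refine ⟨(c ^ j)⁻¹, ?_⟩
    rw [h.conj_sq ht htQ (Q.zpow_mem h.hcQ j), hu', two_mul, zpow_add, mul_assoc]
  · right
    rw [isConj_iff]
    refine ⟨(c ^ j)⁻¹, ?_⟩
    rw [h.conj_sq (h.mul_c ht htQ).1 (h.mul_c ht htQ).2 (Q.zpow_mem h.hcQ j), hu']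
    have : c ^ (2 * j + 1) = c * c ^ j * c ^ j := by
      rw [zpow_add, zpow_one, two_mul, zpow_add]
      have := (Commute.refl c).zpow_right j
      calc c ^ j * c ^ j * c = c ^ j * (c ^ j * c) := by group
        _ = c ^ j * (c * c ^ j) := by rw [this.eq]
        _ = (c ^ j * c) * c ^ j := by group
        _ = c * c ^ j * c ^ j := by rw [this.eq]
    rw [this]; group

theorem DD.odd_pow_ne (h : DD P Q z c) (j : ℤ) : c ^ (2 * j + 1) ≠ 1 := by
  intro h1
  have h2 : (orderOf c : ℤ) ∣ 2 * j + 1 := orderOf_dvd_iff_zpow_eq_one.2 h1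
  have h3 : (4 : ℤ) ∣ (orderOf c : ℤ) := by exact_mod_cast h.h4
  have := h3.trans h2
  omega

/-- `t` and `t * c` are not conjugate in `P` -/
theorem DD.not_conj (h : DD P Q z c) {t : G} (ht : t ∈ (P : Subgroup G)) (htQ : t ∉ Q)
    (s : G) (hs : s ∈ (P : Subgroup G)) : s * t * s⁻¹ ≠ t * c := by
  have key : ∀ q ∈ Q, q * t * q⁻¹ ≠ t * c := by
    intro q hq h1
    have h2 := h.conj_sq ht htQ (Q.inv_mem hq)
    rw [inv_inv] at h2
    rw [h2] at h1
    have h3 : q⁻¹ * q⁻¹ = c := by
      have : t * (q⁻¹ * q⁻¹) = t * c := by rw [← h1]; group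
      exact mul_left_cancel this
    obtain ⟨k, hk⟩ := Subgroup.mem_zpowers_iff.1 (h.hgen _ hq)
    apply h.odd_pow_ne k
    rw [zpow_add, zpow_one, two_mul, zpow_add, hk, ← h3]
    group
  by_cases hsQ : s ∈ Q
  · exact key s hsQ
  · have hq : s * t ∈ Q := by
      rw [h.mul_mem_iff hs ht]
      exact ⟨fun h1 => absurd h1 hsQ, fun h1 => absurd h1 htQ⟩
    have htt := (h.hinv t ht htQ).1
    have := key _ hq
    intro h1
    apply this
    rw [← h1]
    group

theorem DD.z_even (h : DD P Q z c) : ∃ j : ℤ, z = c ^ (2 * j) := by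
  obtain ⟨k, hk⟩ := Subgroup.mem_zpowers_iff.1 (h.hgen _ h.hzQ)
  rcases Int.even_or_odd' k with ⟨j, rfl | rfl⟩
  · exact ⟨j, hk.symm⟩
  · exfalso
    have hzz : z * z = 1 := (orderOf_two_iff.1 h.hz2).1
    rw [← hk, ← zpow_add] at hzz
    have h2 : (orderOf c : ℤ) ∣ 2 * j + 1 + (2 * j + 1) := orderOf_dvd_iff_zpow_eq_one.2 hzz
    have h3 : (4 : ℤ) ∣ (orderOf c : ℤ) := by exact_mod_cast h.h4
    have := h3.trans h2
    omega

/-- every involution is conjugate to `z`, `t` or `t * c` -/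
theorem DD.classes [Finite G] (h : DD P Q z c) {t : G} (ht : t ∈ (P : Subgroup G)) (htQ : t ∉ Q)
    (a : G) (ha : orderOf a = 2) : IsConj z a ∨ IsConj t a ∨ IsConj (t * c) a := by
  obtain ⟨k, hk⟩ := Cfsg.Agent.S1255.exists_conj_mem_sylow P a ha
  have hk2 : orderOf (k * a * k⁻¹) = 2 :=
    (show orderOf (k * a * k⁻¹) = orderOf a from (MulAut.conj k).orderOf_eq a).trans ha
  have hc : IsConj (k * a * k⁻¹) a := (isConj_iff.2 ⟨k, rfl⟩ : IsConj a (k * a * k⁻¹)).symm
  by_cases hkQ : k * a * k⁻¹ ∈ Q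
  · left
    rw [← h.huniq _ hkQ hk2]; exact hc
  · rcases h.conj_out ht htQ hk hkQ with h1 | h1
    · exact Or.inr (Or.inl (h1.trans hc))
    · exact Or.inr (Or.inr (h1.trans hc))

/-- the mixed case -/
theorem DD.caseB [Finite G] (h : DD P Q z c) {t : G} (ht : t ∈ (P : Subgroup G)) (htQ : t ∉ Q)
    (h1 : IsConj t z) (h2 : ¬ IsConj (t * c) z) :
    (∃ N : Subgroup G, N.Normal ∧ N.index = 2) ∧ ∀ N : Subgroup G, N.Normal → N.index ≠ 4 := by
  constructor
  · rcases Cfsg.Agent.S0111.result P Q h.hQP h.hQi (t * c) (h.ord_two (h.mul_c ht htQ).1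
      (h.mul_c ht htQ).2) (h.mul_c ht htQ).1 (h.mul_c ht htQ).2 with ⟨M, hM, hMi, -⟩ | ⟨g, hg⟩
    · exact ⟨M, hM, hMi⟩
    · exfalso
      apply h2
      have hg2 : orderOf (g * (t * c) * g⁻¹) = 2 :=
        (show orderOf (g * (t * c) * g⁻¹) = orderOf (t * c) from
          (MulAut.conj g).orderOf_eq (t * c)).trans
          (h.ord_two (h.mul_c ht htQ).1 (h.mul_c ht htQ).2)
      rw [← h.huniq _ hg hg2]
      exact isConj_iff.2 ⟨g, rfl⟩
  · intro N hN hN4
    have hcard : Nat.card (G ⧸ N) = 4 := hN4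
    have hcomm : ∀ a b : G ⧸ N, a * b = b * a := by
      have : Fact (Nat.Prime 2) := ⟨Nat.prime_two⟩
      have := IsPGroup.isMulCommutative_of_card_eq_prime_sq (p := 2) (G := G ⧸ N)
        (by rw [hcard]; norm_num)
      exact this.is_comm.comm
    let π : G →* G ⧸ N := QuotientGroup.mk' N
    have hπc : π c * π c = 1 := by
      have e1 := (h.hinv t ht htQ).2 c h.hcQ
      have e2 : π t * π c * (π t)⁻¹ = (π c)⁻¹ := by
        rw [← map_mul, ← map_inv, ← map_mul, e1, map_inv]
      rw [hcomm (π t) (π c), mul_inv_cancel_right] at e2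
      calc π c * π c = π c * (π c)⁻¹ := by rw [← e2]
        _ = 1 := mul_inv_cancel _
    have hπz : π z = 1 := by
      obtain ⟨j, hj⟩ := h.z_even
      rw [hj, map_zpow, zpow_mul, zpow_two, hπc, one_zpow]
    have hπt : π t = 1 := by
      obtain ⟨g, hg⟩ := isConj_iff.1 h1
      rw [← hπz, ← hg, map_mul, map_mul, map_inv, hcomm (π g) (π t), mul_inv_cancel_right]
    have htN : t ∈ N := (QuotientGroup.eq_one_iff t).1 hπt
    have hPK : (P : Subgroup G) ≤ N ⊔ Subgroup.zpowers c := by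
      intro x hx
      by_cases hxQ : x ∈ Q
      · exact Subgroup.mem_sup_right (h.hgen x hxQ)
      · have hq : t * x ∈ Q := by
          rw [h.mul_mem_iff ht hx]
          exact ⟨fun h1 => absurd h1 htQ, fun h1 => absurd h1 hxQ⟩
        have : x = t⁻¹ * (t * x) := by group
        rw [this]
        exact Subgroup.mul_mem _ (Subgroup.mem_sup_left (N.inv_mem htN))
          (Subgroup.mem_sup_right (h.hgen _ hq))
    have hKtop : N ⊔ Subgroup.zpowers c = ⊤ := by
      rw [← Subgroup.index_eq_one]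
      have d1 : (N ⊔ Subgroup.zpowers c).index ∣ (P : Subgroup G).index :=
        Subgroup.index_dvd_of_le hPK
      have d2 : (N ⊔ Subgroup.zpowers c).index ∣ 2 ^ 2 := by
        have := Subgroup.index_dvd_of_le (le_sup_left : N ≤ N ⊔ Subgroup.zpowers c)
        rw [hN4] at this
        exact this
      have hcop : Nat.Coprime ((P : Subgroup G).index) (2 ^ 2) := by
        apply Nat.Coprime.pow_right
        rw [Nat.coprime_comm, Nat.Prime.coprime_iff_not_dvd Nat.prime_two]
        exact P.not_dvd_index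
      exact Nat.eq_one_of_dvd_coprimes hcop d1 d2
    have hall : ∀ y : G ⧸ N, y ∈ Subgroup.zpowers (π c) := by
      intro y
      obtain ⟨g, rfl⟩ := QuotientGroup.mk'_surjective N y
      have hg : g ∈ N ⊔ Subgroup.zpowers c := by rw [hKtop]; trivial
      have hg' : g ∈ ((N ⊔ Subgroup.zpowers c : Subgroup G) : Set G) := hg
      rw [Subgroup.normal_mul] at hg'
      obtain ⟨n, hn, w, hw, rfl⟩ := Set.mem_mul.1 hg'
      obtain ⟨k, rfl⟩ := Subgroup.mem_zpowers_iff.1 hw
      have : (QuotientGroup.mk' N) (n * c ^ k) = (π c) ^ k := by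
        have hn1 : (QuotientGroup.mk' N) n = 1 := (QuotientGroup.eq_one_iff n).2 hn
        rw [map_mul, hn1, one_mul, map_zpow]
      rw [this]
      exact Subgroup.zpow_mem_zpowers _ _
    have hc4 : Nat.card (G ⧸ N) = orderOf (π c) := by
      rw [← Nat.card_zpowers, (Subgroup.eq_top_iff' _).2 hall, Subgroup.card_top]
    have : orderOf (π c) ∣ 2 := orderOf_dvd_of_pow_eq_one (by rw [pow_two]; exact hπc)
    rw [← hc4, hcard] at this
    omega

/-- no fusion of `z` with the outer involutions gives a normal `2`-complement -/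
theorem DD.caseC [Finite G] (h : DD P Q z c) (m : ℕ)
    (eS : (P : Subgroup G) ≃* DihedralGroup m)
    (hno : ∀ u ∈ (P : Subgroup G), u ∉ Q → ¬ IsConj u z) :
    ∃ N : Subgroup G, N.Normal ∧ N.IsComplement' (P : Subgroup G) := by
  rw [Cfsg.Agent.S0071.result P]
  intro R hRP g hgN hg2
  have hR2 : IsPGroup 2 R := P.isPGroup'.to_le hRP
  let f : R →* DihedralGroup m := eS.toMonoidHom.comp (Subgroup.inclusion hRP)
  have hf : Function.Injective f :=
    eS.injective.comp (Subgroup.inclusion_injective hRP)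
  obtain ⟨A, hAc, hidx, hinv⟩ := dihedral_structure f hf
  have hord : (orderOf (R.normalizerMonoidHom ⟨g, hgN⟩)).Coprime 2 := by
    have h8 : orderOf (R.normalizerMonoidHom ⟨g, hgN⟩) ∣ orderOf g := by
      have := orderOf_map_dvd R.normalizerMonoidHom (⟨g, hgN⟩ : Subgroup.normalizer (R : Set G))
      rwa [Subgroup.orderOf_mk] at this
    exact Nat.Coprime.coprime_dvd_left h8 hg2
  rcases aut_eq_one_or_kleinFour hR2 A hidx (fun x hx => (hinv x hx).1) _ hord with h1 | h1
  · exact (normalizerMonoidHom_eq_one_iff R g hgN).1 h1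
  · -- the four-group case
    have hsq : ∀ x ∈ R, x * x = 1 := fun x hx => kleinFour_mul_self h1 hx
    have hnorm : ∀ (y : G), y ∈ Subgroup.normalizer (R : Set G) → ∀ x ∈ R, y * x * y⁻¹ ∈ R :=
      fun y hy x hx => (Subgroup.mem_normalizer_iff.1 hy x).1 hx
    have hord2 : ∀ (y x : G), x * x = 1 → x ≠ 1 → orderOf (y * x * y⁻¹) = 2 := by
      intro y x hx hx1
      exact (show orderOf (y * x * y⁻¹) = orderOf x from (MulAut.conj y).orderOf_eq x).trans
        (orderOf_two_iff.2 ⟨hx, hx1⟩)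
    -- outer elements stay outer
    have hout : ∀ (y : G), y ∈ Subgroup.normalizer (R : Set G) → ∀ x ∈ R, x ∉ Q →
        y * x * y⁻¹ ∉ Q := by
      intro y hy x hx hxQ hyQ
      apply hno x (hRP hx) hxQ
      have hx1 : x ≠ 1 := fun e => hxQ (e ▸ Q.one_mem)
      rw [← h.huniq _ hyQ (hord2 y x (hsq x hx) hx1)]
      exact isConj_iff.2 ⟨y, rfl⟩
    have hgi : g⁻¹ ∈ Subgroup.normalizer (R : Set G) := Subgroup.inv_mem _ hgN
    -- inner elements are fixed
    have hin : ∀ x ∈ R, x ∈ Q → g * x * g⁻¹ = x := by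
      intro x hx hxQ
      by_cases hx1 : x = 1
      · rw [hx1]; group
      · have hxz : x = z := h.huniq x hxQ (orderOf_two_iff.2 ⟨hsq x hx, hx1⟩)
        have hgx : g * x * g⁻¹ ∈ Q := by
          by_contra hcon
          have := hout g⁻¹ hgi _ (hnorm g hgN x hx) hcon
          apply this
          have e : g⁻¹ * (g * x * g⁻¹) * g⁻¹⁻¹ = x := by group
          rw [e]; exact hxQ
        rw [h.huniq _ hgx (hord2 g x (hsq x hx) hx1), hxz]
    have hcomm2 : ∀ x ∈ R, g * (g * x * g⁻¹) * g⁻¹ = x := by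
      intro x hx
      by_cases hxQ : x ∈ Q
      · rw [hin x hx hxQ, hin x hx hxQ]
      · have hy := hnorm g hgN x hx
        have hyQ := hout g hgN x hx hxQ
        have hq : x * (g * x * g⁻¹) ∈ Q := by
          rw [h.mul_mem_iff (hRP hx) (hRP hy)]
          exact ⟨fun e => absurd e hxQ, fun e => absurd e hyQ⟩
        have hfix := hin _ (R.mul_mem hx hy) hq
        have e1 : g * (x * (g * x * g⁻¹)) * g⁻¹ = (g * x * g⁻¹) * (g * (g * x * g⁻¹) * g⁻¹) := by
          group
        rw [e1] at hfix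
        have hyy := hsq _ hy
        have hxy := kleinFour_comm h1 hx hy
        generalize g * (g * x * g⁻¹) * g⁻¹ = w at hfix ⊢
        generalize g * x * g⁻¹ = y at hfix hyy hxy
        calc w = y * (y * w) := by rw [← mul_assoc, hyy, one_mul]
          _ = y * (x * y) := by rw [hfix]
          _ = y * (y * x) := by rw [hxy]
          _ = x := by rw [← mul_assoc, hyy, one_mul]
    rw [Subgroup.mem_centralizer_iff]
    intro x hx
    have hc2 : Commute (g ^ 2) x := by
      have := hcomm2 x hx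
      show g ^ 2 * x = x * g ^ 2
      calc g ^ 2 * x = (g * (g * x * g⁻¹) * g⁻¹) * g ^ 2 := by rw [pow_two]; group
        _ = x * g ^ 2 := by rw [this]
    have hodd : Odd (orderOf g) := by
      rw [← Nat.not_even_iff_odd, even_iff_two_dvd]
      intro hd
      have := Nat.eq_one_of_dvd_coprimes hg2 hd dvd_rfl
      omega
    obtain ⟨k, hk⟩ := hodd
    have hgk : (g ^ 2) ^ (k + 1) = g := by
      rw [← pow_mul]
      have : 2 * (k + 1) = orderOf g + 1 := by omega
      rw [this, pow_succ, pow_orderOf_eq_one, one_mul]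
    have := hc2.pow_left (k + 1)
    rw [hgk] at this
    exact this.eq.symm

end

/-- Let G be a finite group whose Sylow 2-subgroups are dihedral of order 2 ^ n with n ≥ 3, and count the conjugacy classes of involutions of G. Then exactly one of the following holds: there is one class of involutions and no normal subgroup of index 2; there are two classes of involutions, a normal subgroup of index 2 and none of index 4; there are three classes of involutions and G has a normal 2-complement. -/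
theorem result {G : Type*} [Group G] [Finite G] (P : Sylow 2 G) (n : ℕ) (hn : 3 ≤ n) (hdih : Nonempty (↥(P : Subgroup G) ≃* DihedralGroup (2 ^ (n - 1)))) : (Nat.card {C : ConjClasses G // ∃ g : G, ConjClasses.mk g = C ∧ orderOf g = 2} = 1 ∧ ∀ N : Subgroup G, N.Normal → N.index ≠ 2) ∨ (Nat.card {C : ConjClasses G // ∃ g : G, ConjClasses.mk g = C ∧ orderOf g = 2} = 2 ∧ (∃ N : Subgroup G, N.Normal ∧ N.index = 2) ∧ ∀ N : Subgroup G, N.Normal → N.index ≠ 4) ∨ (Nat.card {C : ConjClasses G // ∃ g : G, ConjClasses.mk g = C ∧ orderOf g = 2} = 3 ∧ Cfsg.HasNormalPComplement 2 G) := by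
  obtain ⟨eS⟩ := hdih
  have hm4 : 4 ∣ 2 ^ (n - 1) := by
    obtain ⟨k, rfl⟩ : ∃ k, n = k + 3 := ⟨n - 3, by omega⟩
    have : k + 3 - 1 = k + 2 := by omega
    rw [this, pow_add]
    exact Dvd.intro_left _ rfl
  have hm : 2 ≤ 2 ^ (n - 1) := by
    have := Nat.le_of_dvd (by positivity) hm4
    omega
  obtain ⟨Q, z, hQP, hQc, hQi, hzQ, hz2, hinv⟩ :=
    dih_data (P : Subgroup G) P.isPGroup' _ hm eS
  obtain ⟨c0, hc0⟩ := IsCyclic.exists_generator (α := Q)
  have hcardQ : Nat.card Q = 2 ^ (n - 1) := by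
    have h1 := (Q.subgroupOf (P : Subgroup G)).card_mul_index
    have : NeZero (2 ^ (n - 1)) := ⟨by positivity⟩
    have h2 : (Q.subgroupOf (P : Subgroup G)).index = 2 := hQi
    rw [h2, Nat.card_congr (Subgroup.subgroupOfEquivOfLe hQP).toEquiv,
      Nat.card_congr eS.toEquiv, DihedralGroup.nat_card] at h1
    omega
  have hD : DD P Q z (c0 : G) :=
    { hQP := hQP
      hQi := hQi
      hcQ := c0.2
      hgen := by
        intro a ha
        obtain ⟨k, hk⟩ := Subgroup.mem_zpowers_iff.1 (hc0 ⟨a, ha⟩)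
        refine Subgroup.mem_zpowers_iff.2 ⟨k, ?_⟩
        have := congrArg Subtype.val hk
        simpa using this
      h4 := by
        rw [Subgroup.orderOf_coe, orderOf_eq_card_of_forall_mem_zpowers hc0, hcardQ]
        exact hm4
      hzQ := hzQ
      hz2 := hz2
      huniq := fun a ha ha2 => eq_of_orderOf_two_of_mem_cyclic Q ha hzQ ha2 hz2
      hinv := hinv }
  obtain ⟨t, htP, htQ⟩ : ∃ t ∈ (P : Subgroup G), t ∉ Q := by
    by_contra hcon
    push Not at hcon
    have : Q.relIndex (P : Subgroup G) = 1 := Subgroup.relIndex_eq_one.2 hcon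
    omega
  set c : G := (c0 : G) with hc
  have ht2 : orderOf t = 2 := hD.ord_two htP htQ
  have ht'2 : orderOf (t * c) = 2 := hD.ord_two (hD.mul_c htP htQ).1 (hD.mul_c htP htQ).2
  have hset : {C : ConjClasses G | ∃ g : G, ConjClasses.mk g = C ∧ orderOf g = 2}
      = {ConjClasses.mk z, ConjClasses.mk t, ConjClasses.mk (t * c)} := by
    ext C
    simp only [Set.mem_ofPred_eq, Set.mem_insert_iff, Set.mem_singleton_iff]
    constructor
    · rintro ⟨g, rfl, hg⟩
      rcases hD.classes htP htQ g hg with h1 | h1 | h1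
      · left; exact (ConjClasses.mk_eq_mk_iff_isConj.2 h1).symm
      · right; left; exact (ConjClasses.mk_eq_mk_iff_isConj.2 h1).symm
      · right; right; exact (ConjClasses.mk_eq_mk_iff_isConj.2 h1).symm
    · rintro (rfl | rfl | rfl)
      · exact ⟨z, rfl, hz2⟩
      · exact ⟨t, rfl, ht2⟩
      · exact ⟨t * c, rfl, ht'2⟩
  have hcard : Nat.card {C : ConjClasses G // ∃ g : G, ConjClasses.mk g = C ∧ orderOf g = 2}
      = ({ConjClasses.mk z, ConjClasses.mk t, ConjClasses.mk (t * c)} :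
          Set (ConjClasses G)).ncard := by
    rw [← hset]
    exact Nat.card_coe_set_eq _
  rw [hcard]
  by_cases h1 : IsConj t z
  · by_cases h2 : IsConj (t * c) z
    · left
      have e1 := ConjClasses.mk_eq_mk_iff_isConj.2 h1
      have e2 := ConjClasses.mk_eq_mk_iff_isConj.2 h2
      constructor
      · rw [e1, e2]; simp
      · intro N _
        have hall : ∀ a b : G, orderOf a = 2 → orderOf b = 2 → IsConj a b := by
          have hz' : ∀ a : G, orderOf a = 2 → IsConj z a := by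
            intro a ha
            rcases hD.classes htP htQ a ha with h3 | h3 | h3
            · exact h3
            · exact h1.symm.trans h3
            · exact h2.symm.trans h3
          intro a b ha hb
          exact (hz' a ha).symm.trans (hz' b hb)
        exact ((Cfsg.Agent.S1255.result P _ hm eS).2 (Or.inl hall)).1 N
    · right; left
      have e1 := ConjClasses.mk_eq_mk_iff_isConj.2 h1
      refine ⟨?_, hD.caseB htP htQ h1 h2⟩
      rw [e1]
      have hne : ConjClasses.mk z ≠ ConjClasses.mk (t * c) := by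
        intro e
        exact h2 (ConjClasses.mk_eq_mk_iff_isConj.1 e).symm
      simp only [Set.insert_eq_of_mem, Set.mem_insert_iff, true_or]
      exact Set.ncard_pair hne
  · by_cases h2 : IsConj (t * c) z
    · right; left
      have e2 := ConjClasses.mk_eq_mk_iff_isConj.2 h2
      have h1' : ¬ IsConj (t * c * c⁻¹) z := by
        rw [mul_inv_cancel_right]; exact h1
      refine ⟨?_, hD.inv.caseB (hD.mul_c htP htQ).1 (hD.mul_c htP htQ).2 h2 h1'⟩
      rw [e2]
      have hne : ConjClasses.mk z ≠ ConjClasses.mk t := by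
        intro e
        exact h1 (ConjClasses.mk_eq_mk_iff_isConj.1 e).symm
      have : ({ConjClasses.mk z, ConjClasses.mk t, ConjClasses.mk z} : Set (ConjClasses G))
          = {ConjClasses.mk z, ConjClasses.mk t} := by
        ext x; simp only [Set.mem_insert_iff, Set.mem_singleton_iff]; tauto
      rw [this]
      exact Set.ncard_pair hne
    · right; right
      have hno : ∀ u ∈ (P : Subgroup G), u ∉ Q → ¬ IsConj u z := by
        intro u hu huQ hcon
        rcases hD.conj_out htP htQ hu huQ with h3 | h3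
        · exact h1 (h3.trans hcon)
        · exact h2 (h3.trans hcon)
      obtain ⟨N, hN, hcN⟩ := hD.caseC _ eS hno
      refine ⟨?_, ⟨P, N, hN, hcN⟩⟩
      rw [Set.ncard_eq_three]
      refine ⟨_, _, _, ?_, ?_, ?_, rfl⟩
      · intro e
        exact h1 (ConjClasses.mk_eq_mk_iff_isConj.1 e).symm
      · intro e
        exact h2 (ConjClasses.mk_eq_mk_iff_isConj.1 e).symm
      · intro e
        obtain ⟨x, hx⟩ := isConj_iff.1 (ConjClasses.mk_eq_mk_iff_isConj.1 e)
        obtain ⟨s, hs, hxs⟩ := conj_eq_of_complement N P hN hcN x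
        have h5 := hxs t htP (by rw [hx]; exact (hD.mul_c htP htQ).1)
        exact hD.not_conj htP htQ s hs (by rw [← h5, hx])

end Cfsg.Agent.S3864
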