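import Cfsg.Statements.S3866
import Cfsg.Agent.Lib.Helper68.CycAb

set_option autoImplicit false
open Cfsg

namespace Cfsg.Agent.S3866

/-- Let A be a commutative normal subgroup of the finite group G with G generated by A and an element x. Then a ↦ x a x⁻¹ a⁻¹ is a surjective homomorphism from A onto the commutator subgroup of G whose kernel is the centralizer of x in A; in particular the commutator subgroup has order equal to the index in A of that centralizer. -/
theorem result {G : Type*} [Group G] [Finite G] (A : Subgroup G) [A.Normal] (hA : IsMulCommutative A) (x : G) (hgen : A ⊔ Subgroup.zpowers x = ⊤) : (∀ a ∈ A, x * a * x⁻¹ * a⁻¹ ∈ commutator G) ∧ (∀ c ∈ commutator G, ∃ a ∈ A, x * a * x⁻¹ * a⁻¹ = c) ∧ (∀ a ∈ A, ∀ b ∈ A, x * (a * b) * x⁻¹ * (a * b)⁻¹ = (x * a * x⁻¹ * a⁻¹) * (x * b * x⁻¹ * b⁻¹)) ∧ Nat.card (commutator G) * Nat.card ↥(A ⊓ Subgroup.centralizer ({x} : Set G)) = Nat.card A := by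
  have hc := Lib.Helper68.commutator_eq_commRange A hA x hgen
  refine ⟨?_, ?_, ?_, ?_⟩
  · intro a ha
    rw [hc]
    exact Lib.Helper68.mem_commRange.mpr ⟨a, ha, rfl⟩
  · intro c hcc
    rw [hc] at hcc
    exact Lib.Helper68.mem_commRange.mp hcc
  · intro a ha b hb
    have := (Lib.Helper68.commHom A hA x).map_mul ⟨a, ha⟩ ⟨b, hb⟩
    exact congrArg Subtype.val this
  · rw [hc]
    exact Lib.Helper68.card_commRange_mul A hA x

end Cfsg.Agent.S3866
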