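import Cfsg.Statements.S3867
-- import your own Cfsg.Agent.* helpers here
import Cfsg.Agent.Lib.Helper67.SylowAux
import Cfsg.Agent.Lib.Helper74.MaxSolvable

set_option autoImplicit false
open Cfsg

namespace Cfsg.Agent.S3867

open Cfsg.Agent.Lib.Helper67 in
theorem normalizer_sup {G : Type*} [Group G] [Finite G] {p : ℕ} [Fact p.Prime] (P : Sylow p G)
    (K : Subgroup G) [K.Normal] :
    Subgroup.normalizer (((P : Subgroup G) ⊔ K : Subgroup G) : Set G)
      = Subgroup.normalizer ((P : Subgroup G) : Set G) ⊔ K := by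
  apply le_antisymm
  · intro g hg
    rw [mem_normalizer_iff_cj] at hg
    have h1 : cj g (P : Subgroup G) ≤ (P : Subgroup G) ⊔ K := by
      rw [← hg]; exact cj_mono g le_sup_left
    obtain ⟨m, hm, he⟩ := exists_cj_eq_of_relIndex P.2 le_sup_left h1
      (sylow_not_dvd_relIndex P le_sup_left) (card_cj g _)
    have hn : m⁻¹ * g ∈ Subgroup.normalizer ((P : Subgroup G) : Set G) := cj_eq_cj_iff.1 he
    have hm' : m ∈ Subgroup.normalizer ((P : Subgroup G) : Set G) ⊔ K :=
      (sup_le_sup_right Subgroup.le_normalizer K) hm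
    have : g = m * (m⁻¹ * g) := by group
    rw [this]
    exact Subgroup.mul_mem _ hm' (Subgroup.mem_sup_left hn)
  · apply sup_le
    · intro g hg
      rw [mem_normalizer_iff_cj] at hg ⊢
      rw [cj_sup, hg, cj_normal]
    · exact le_sup_right.trans Subgroup.le_normalizer

theorem card_sylow_quotient {G : Type*} [Group G] [Finite G] {p : ℕ} [Fact p.Prime] (P : Sylow p G)
    (K : Subgroup G) [K.Normal] :
    Nat.card (Sylow p (G ⧸ K))
      = (Subgroup.normalizer (((P : Subgroup G) ⊔ K : Subgroup G) : Set G)).index := by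
  have hs := QuotientGroup.mk'_surjective K
  rw [Sylow.card_eq_index_normalizer (P.mapSurjective hs)]
  change (Subgroup.normalizer (((P : Subgroup G).map (QuotientGroup.mk' K) : Subgroup (G ⧸ K)) : Set (G ⧸ K))).index = _
  rw [← Subgroup.index_comap_of_surjective _ hs, Subgroup.comap_normalizer_eq_of_surjective _ hs,
    QuotientGroup.comap_map_mk', sup_comm]

/-- Let M and N be nontrivial normal subgroups of the finite group G with M ⊓ N trivial, and let p be a prime. Writing n(X) for the number of Sylow p-subgroups of a group X, one has n(G) · n(G/MN) = n(G/M) · n(G/N). -/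
theorem result {G : Type*} [Group G] [Finite G] (p : ℕ) [Fact p.Prime] (M N : Subgroup G) [M.Normal] [N.Normal] (hM : M ≠ ⊥) (hN : N ≠ ⊥) (hMN : M ⊓ N = ⊥) : Nat.card (Sylow p G) * Nat.card (Sylow p (G ⧸ (M ⊔ N))) = Nat.card (Sylow p (G ⧸ M)) * Nat.card (Sylow p (G ⧸ N)) := by
  obtain ⟨P⟩ : Nonempty (Sylow p G) := inferInstance
  rw [card_sylow_quotient P, card_sylow_quotient P, card_sylow_quotient P,
    Sylow.card_eq_index_normalizer P]
  set D := Subgroup.normalizer ((P : Subgroup G) : Set G) with hD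
  change D.index * _ = _
  rw [normalizer_sup P (M ⊔ N), normalizer_sup P M, normalizer_sup P N, ← hD]
  have h1 := Cfsg.Agent.Lib.Helper74.relIndex_mul_index_sup_of_normal (D ⊔ M) N
  have h2 := Cfsg.Agent.Lib.Helper74.relIndex_mul_index_sup_of_normal D N
  have hpow : ∀ (K : Subgroup G) [K.Normal], ∀ x ∈ (P : Subgroup G) ⊔ K, ∃ k : ℕ, x ^ (p ^ k) ∈ K := by
    intro K _ x hx
    obtain ⟨u, hu, m, hm, rfl⟩ := Subgroup.mem_sup_of_normal_right.mp hx
    obtain ⟨k, hk⟩ := P.2 ⟨u, hu⟩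
    refine ⟨k, ?_⟩
    rw [← QuotientGroup.eq_one_iff, QuotientGroup.mk_pow, QuotientGroup.mk_mul_of_mem u hm,
      ← QuotientGroup.mk_pow]
    have : u ^ (p ^ k) = 1 := congrArg Subtype.val hk
    rw [this]; rfl
  have hpg : IsPGroup p ↥(((P : Subgroup G) ⊔ M) ⊓ ((P : Subgroup G) ⊔ N)) := by
    rintro ⟨x, hx⟩
    obtain ⟨hx1, hx2⟩ := Subgroup.mem_inf.mp hx
    obtain ⟨k₁, hk₁⟩ := hpow M x hx1
    obtain ⟨k₂, hk₂⟩ := hpow N x hx2
    refine ⟨k₁ + k₂, Subtype.ext ?_⟩
    have h : x ^ (p ^ (k₁ + k₂)) ∈ M ⊓ N := by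
      refine Subgroup.mem_inf.mpr ⟨?_, ?_⟩
      · rw [pow_add, pow_mul]; exact Subgroup.pow_mem _ hk₁ _
      · rw [pow_add, mul_comm, pow_mul]; exact Subgroup.pow_mem _ hk₂ _
    rw [hMN, Subgroup.mem_bot] at h
    simpa using h
  have hinf : ((P : Subgroup G) ⊔ M) ⊓ ((P : Subgroup G) ⊔ N) = (P : Subgroup G) :=
    P.is_maximal' hpg (le_inf le_sup_left le_sup_left)
  have h3 : (D ⊔ M) ⊓ (D ⊔ N) ≤ D := by
    intro g hg
    obtain ⟨hg1, hg2⟩ := Subgroup.mem_inf.mp hg
    rw [hD, ← normalizer_sup P M, Subgroup.mem_normalizer_iff_map_conj_eq] at hg1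
    rw [hD, ← normalizer_sup P N, Subgroup.mem_normalizer_iff_map_conj_eq] at hg2
    rw [hD, Subgroup.mem_normalizer_iff_map_conj_eq]
    conv_lhs => rw [← hinf]
    rw [Subgroup.map_inf _ _ _ (MulAut.conj g).injective, hg1, hg2, hinf]
  have h4 : (D ⊔ M).relIndex N = D.relIndex N := by
    rw [← Subgroup.inf_relIndex_right (D ⊔ M) N, ← Subgroup.inf_relIndex_right D N]
    congr 1
    apply le_antisymm
    · exact le_inf ((inf_le_inf_left _ le_sup_right).trans h3) inf_le_right
    · exact inf_le_inf_right _ le_sup_left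
  rw [← h1, ← h2, h4, sup_assoc]
  ring

end Cfsg.Agent.S3867
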