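import Cfsg.Statements.S3878
import Mathlib
-- import your own Cfsg.Agent.* helpers here

set_option autoImplicit false
open Cfsg

namespace Cfsg.Agent.S3878

open Equiv Equiv.Perm MulAction

theorem conj_mem_of_hall {G : Type*} [Group G] [Finite G] {π : Set ℕ} {H : Subgroup G}
    (hH : Cfsg.IsPiHall π H) {p : ℕ} (hp : p.Prime) (hpπ : p ∈ π) (x : G)
    (hx : IsPGroup p (Subgroup.zpowers x)) : ∃ g : G, g⁻¹ * x * g ∈ H := by
  have : Fact p.Prime := ⟨hp⟩
  have hnd : ¬ p ∣ Nat.card (G ⧸ H) := hH.2 p hp hpπ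
  obtain ⟨a, ha⟩ := hx.nonempty_fixed_point_of_prime_not_dvd_card (G ⧸ H) hnd
  obtain ⟨g, rfl⟩ := QuotientGroup.mk_surjective a
  have h1 := ha ⟨x, Subgroup.mem_zpowers x⟩
  have h2 : ((x * g : G) : G ⧸ H) = (g : G ⧸ H) := h1
  refine ⟨g, ?_⟩
  rw [mul_assoc]
  exact QuotientGroup.eq.1 h2.symm

theorem dvd_card_of_hall {G : Type*} [Group G] [Finite G] {π : Set ℕ} {H : Subgroup G}
    (hH : Cfsg.IsPiHall π H) {p : ℕ} (hp : p.Prime) (hpπ : p ∈ π) (hd : p ∣ Nat.card G) :
    p ∣ Nat.card H := by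
  rw [← H.card_mul_index] at hd
  exact (hp.dvd_mul.1 hd).resolve_right (hH.2 p hp hpπ)

theorem isPGroup_zpowers {G : Type*} [Group G] {p : ℕ} (x : G) (hx : orderOf x = p) :
    IsPGroup p (Subgroup.zpowers x) := by
  apply IsPGroup.of_card (n := 1)
  rw [Nat.card_zpowers, hx, pow_one]

theorem preprimitive_of_hall {π : Set ℕ} {q : ℕ} (hq : q.Prime) (hqπ : q ∈ π)
    {H : Subgroup (Perm (Fin q))} (hH : Cfsg.IsPiHall π H) : IsPreprimitive H (Fin q) := by
  have : Fact q.Prime := ⟨hq⟩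
  have h1 : q ∣ Nat.card H := by
    apply dvd_card_of_hall hH hq hqπ
    rw [Nat.card_perm, Nat.card_eq_fintype_card, Fintype.card_fin]
    exact Nat.dvd_factorial hq.pos le_rfl
  obtain ⟨x, hx⟩ := exists_prime_orderOf_dvd_card' q h1
  have hσ : orderOf (x : Perm (Fin q)) = q := by rw [Subgroup.orderOf_coe, hx]
  have hcyc : (x : Perm (Fin q)).IsCycle := by
    apply isCycle_of_prime_order'
    · rw [hσ]; exact hq
    · rw [hσ, Fintype.card_fin]
      have := hq.pos
      omega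
  have hsupp : (x : Perm (Fin q)).support = Finset.univ := by
    apply Finset.eq_univ_of_card
    rw [← hcyc.orderOf, hσ, Fintype.card_fin]
  have hmv : ∀ a : Fin q, (x : Perm (Fin q)) a ≠ a := by
    intro a
    rw [← Equiv.Perm.mem_support, hsupp]
    exact Finset.mem_univ a
  have htr : IsPretransitive H (Fin q) := by
    constructor
    intro a b
    obtain ⟨i, hi⟩ := hcyc.exists_zpow_eq (hmv a) (hmv b)
    exact ⟨x ^ i, hi⟩
  apply IsPreprimitive.of_prime_card
  rw [Nat.card_eq_fintype_card, Fintype.card_fin]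
  exact hq

theorem caseA1 (π : Set ℕ) (h2 : 2 ∈ π) (q r : ℕ) (hq : q.Prime) (hqπ : q ∈ π) (hr : r.Prime)
    (hrπ : r ∉ π) (hrq : r < q) (hE : Cfsg.IsEPiGroup π (Perm (Fin q))) : False := by
  obtain ⟨H, hH⟩ := hE
  have hprim := preprimitive_of_hall hq hqπ hH
  have hr2 := hr.two_le
  obtain ⟨a, ha⟩ : ∃ a : Fin q, a = ⟨0, by omega⟩ := ⟨_, rfl⟩
  obtain ⟨b, hb⟩ : ∃ b : Fin q, b = ⟨1, by omega⟩ := ⟨_, rfl⟩
  have hab : a ≠ b := by
    rw [ha, hb]
    intro h
    simp at h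
  obtain ⟨g, hg⟩ := conj_mem_of_hall hH Nat.prime_two h2 (swap a b)
    (isPGroup_zpowers _ (IsSwap.orderOf ⟨a, b, hab, rfl⟩))
  have hsw : (g⁻¹ * swap a b * g).IsSwap := by
    refine ⟨g⁻¹ a, g⁻¹ b, fun h => hab (g⁻¹.injective h), ?_⟩
    rw [Equiv.swap_apply_apply, inv_inv]
  have htop := subgroup_eq_top_of_isPreprimitive_of_isSwap_mem hprim _ hsw hg
  apply hrπ
  apply hH.1 r hr
  rw [htop, Subgroup.card_top, Nat.card_perm, Nat.card_eq_fintype_card, Fintype.card_fin]
  exact Nat.dvd_factorial hr.pos hrq.le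

theorem exists_cycle (p q : ℕ) (hp : 2 ≤ p) (hpq : p ≤ q) :
    ∃ c : Perm (Fin q), c.IsCycle ∧ c.support.card = p := by
  have hnd : ((List.finRange q).take p).Nodup := (List.nodup_finRange q).sublist (List.take_sublist _ _)
  have hlen : ((List.finRange q).take p).length = p := by
    rw [List.length_take, List.length_finRange]
    omega
  refine ⟨((List.finRange q).take p).formPerm, List.isCycle_formPerm hnd (by omega), ?_⟩
  rw [List.support_formPerm_of_nodup _ hnd, List.toFinset_card_of_nodup hnd, hlen]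
  intro x hx
  rw [hx] at hlen
  simp at hlen
  omega

theorem caseB (π : Set ℕ) (h2 : 2 ∉ π) (p q : ℕ) (hp : p.Prime) (hpπ : p ∈ π) (hq : q.Prime)
    (hqπ : q ∈ π) (hpq : p < q) (hE : Cfsg.IsEPiGroup π (Perm (Fin q))) : False := by
  obtain ⟨H, hH⟩ := hE
  have hprim := preprimitive_of_hall hq hqπ hH
  have hp2 := hp.two_le
  obtain ⟨c, hc, hcs⟩ := exists_cycle p q hp2 hpq.le
  obtain ⟨g, hg⟩ := conj_mem_of_hall hH hp hpπ c (isPGroup_zpowers _ (by rw [hc.orderOf, hcs]))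
  have hc' : (g⁻¹ * c * g).IsCycle := by
    have := hc.conj (g := g⁻¹)
    rwa [inv_inv] at this
  have hcs' : (g⁻¹ * c * g).support.card = p := by
    have := card_support_conj (σ := g⁻¹) (τ := c)
    rw [inv_inv] at this
    rw [this, hcs]
  obtain ⟨n, hn⟩ : ∃ n, q = p + (n + 1) := ⟨q - p - 1, by omega⟩
  have hsc : Set.ncard (((g⁻¹ * c * g).support : Set (Fin q))ᶜ) = n + 1 := by
    apply Nat.add_left_cancel (n := p)
    have := Set.ncard_add_ncard_compl ((g⁻¹ * c * g).support : Set (Fin q))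
    rw [Set.ncard_coe_finset, hcs', Nat.card_eq_fintype_card, Fintype.card_fin] at this
    rw [this, hn]
  have h2t : IsMultiplyPretransitive H (Fin q) 2 := by
    apply hprim.is_two_pretransitive hsc
    · rw [Nat.card_eq_fintype_card, Fintype.card_fin]
      omega
    · exact isPretransitive_of_isCycle_mem hc' hg
  obtain ⟨a, ha⟩ : ∃ a : Fin q, a = ⟨0, by omega⟩ := ⟨_, rfl⟩
  obtain ⟨b, hb⟩ : ∃ b : Fin q, b = ⟨1, by omega⟩ := ⟨_, rfl⟩
  have hab : a ≠ b := by
    rw [ha, hb]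
    intro h
    simp at h
  obtain ⟨h, h1, h2'⟩ := (is_two_pretransitive_iff (G := H) (α := Fin q)).1 h2t hab hab.symm
  apply h2
  apply hH.1 2 Nat.prime_two
  refine dvd_trans ?_ (orderOf_dvd_natCard h)
  by_contra hodd
  obtain ⟨k, hk⟩ : ∃ k, orderOf h = 2 * k + 1 := ⟨orderOf h / 2, by omega⟩
  have hsq : h ^ 2 ∈ stabilizer H a := by
    rw [mem_stabilizer_iff, pow_two, mul_smul, h1, h2']
  have hh : h = (h ^ 2) ^ (k + 1) := by
    rw [← pow_mul, show 2 * (k + 1) = (2 * k + 1) + 1 by ring, pow_succ, ← hk, pow_orderOf_eq_one,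
      one_mul]
  have hmem : h ∈ stabilizer H a := by
    rw [hh]
    exact Subgroup.pow_mem _ hsq _
  rw [mem_stabilizer_iff, h1] at hmem
  exact hab hmem.symm

theorem caseA2 (π : Set ℕ) (r : ℕ) (hr : r.Prime) (hrπ : r ∉ π) (hr5 : 5 ≤ r)
    (hlt : ∀ s : ℕ, s.Prime → s < r → s ∈ π) (hE : Cfsg.IsEPiGroup π (Perm (Fin (r + 1)))) :
    False := by
  obtain ⟨H, hH⟩ := hE
  have hcardG : Nat.card (Perm (Fin (r + 1))) = (r + 1).factorial := by
    rw [Nat.card_perm, Nat.card_eq_fintype_card, Fintype.card_fin]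
  have hfac : (r + 1).factorial = r * ((r + 1) * (r - 1).factorial) := by
    obtain ⟨m, rfl⟩ : ∃ m, r = m + 1 := ⟨r - 1, by omega⟩
    rw [Nat.factorial_succ, Nat.factorial_succ, Nat.add_sub_cancel]
    ring
  have hidx : H.index ∣ r := by
    have h1 : H.index ∣ r * ((r + 1) * (r - 1).factorial) := by
      rw [← hfac, ← hcardG]
      exact H.index_dvd_card
    apply Nat.Coprime.dvd_of_dvd_mul_right _ h1
    apply Nat.coprime_of_dvd
    intro s hs hs1 hs2
    apply hH.2 s hs _ hs1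
    apply hlt s hs
    rcases (hs.dvd_mul).1 hs2 with h | h
    · have hle : s ≤ r + 1 := Nat.le_of_dvd (by omega) h
      have hne1 : s ≠ r + 1 := by
        rintro rfl
        rcases hr.eq_two_or_odd with h2 | h2
        · omega
        · rcases hs.eq_two_or_odd with h3 | h3 <;> omega
      have hne2 : s ≠ r := by
        rintro rfl
        have : s ∣ 1 := (Nat.dvd_add_right (dvd_refl s)).1 h
        exact hs.one_lt.ne' (Nat.dvd_one.1 this)
      omega
    · have := (hs.dvd_factorial).1 h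
      omega
  have hidx' : H.index = r := by
    rcases (Nat.dvd_prime hr).1 hidx with h | h
    · exfalso
      apply hrπ
      apply hH.1 r hr
      rw [Subgroup.index_eq_one] at h
      rw [h, Subgroup.card_top, hcardG]
      exact Nat.dvd_factorial hr.pos (by omega)
    · exact h
  have hcore : H.normalCore.index ∣ r.factorial := by
    have h0 : H.normalCore.index ∣ H.index.factorial := by
      rw [Subgroup.normalCore_eq_ker, Subgroup.index_ker, Subgroup.index_eq_card,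
        ← Nat.card_perm]
      exact Subgroup.card_subgroup_dvd_card _
    rwa [hidx'] at h0
  have hnt : Nontrivial H.normalCore := by
    rw [Subgroup.nontrivial_iff_ne_bot]
    intro hbot
    rw [hbot, Subgroup.index_bot, hcardG, Nat.factorial_succ] at hcore
    have h1 := Nat.le_of_dvd (Nat.factorial_pos r) hcore
    have h2 : 0 < r.factorial := Nat.factorial_pos r
    nlinarith
  have hle : alternatingGroup (Fin (r + 1)) ≤ H.normalCore :=
    alternatingGroup_le_of_normal (by rw [Nat.card_eq_fintype_card, Fintype.card_fin]; omega) hnt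
  have hle2 : alternatingGroup (Fin (r + 1)) ≤ H := hle.trans H.normalCore_le
  have h2 := Subgroup.index_dvd_of_le hle2
  have : Nontrivial (Fin (r + 1)) := Fin.nontrivial_iff_two_le.2 (by omega)
  rw [alternatingGroup.index_eq_two, hidx'] at h2
  have := Nat.le_of_dvd (by norm_num) h2
  omega

theorem triv_of_E (π : Set ℕ) (hE : ∀ (G : Type) [Group G] [Finite G], Cfsg.IsEPiGroup π G) :
    (∀ p q : ℕ, p.Prime → q.Prime → p ∈ π → q ∈ π → p = q) ∨ ∀ p : ℕ, p.Prime → p ∈ π := by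
  by_contra hcon
  push Not at hcon
  obtain ⟨⟨p, q, hp, hq, hpπ, hqπ, hpq⟩, ⟨r, hr, hrπ⟩⟩ := hcon
  wlog hlt : p < q generalizing p q
  · exact this q p hq hp hqπ hpπ (Ne.symm hpq) (by omega)
  by_cases h2 : 2 ∈ π
  · by_cases hex : ∃ q' r' : ℕ, q'.Prime ∧ q' ∈ π ∧ r'.Prime ∧ r' ∉ π ∧ r' < q'
    · obtain ⟨q', r', h1, h2', h3, h4, h5⟩ := hex
      exact caseA1 π h2 q' r' h1 h2' h3 h4 h5 (hE _)
    · push Not at hex
      classical
      have hexr : ∃ r : ℕ, r.Prime ∧ r ∉ π := ⟨r, hr, hrπ⟩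
      obtain ⟨hr0, hr0π⟩ := Nat.find_spec hexr
      have hmin : ∀ s : ℕ, s.Prime → s < Nat.find hexr → s ∈ π := by
        intro s hs hlt
        by_contra hsπ
        exact Nat.find_min hexr hlt ⟨hs, hsπ⟩
      have hq0 : q ≤ Nat.find hexr := hex q _ hq hqπ hr0 hr0π
      have hne : q ≠ Nat.find hexr := by
        intro h
        rw [← h] at hr0π
        exact hr0π hqπ
      have hp2 := hp.two_le
      have h4 : Nat.find hexr ≠ 4 := by
        intro h
        rw [h] at hr0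
        revert hr0
        decide
      exact caseA2 π _ hr0 hr0π (by omega) hmin (hE _)
  · exact caseB π h2 p q hp hpπ hq hqπ hlt (hE _)

theorem piSubgroup_of_isPGroup {G : Type*} [Group G] [Finite G] (π : Set ℕ) {p : ℕ} (hp : p.Prime)
    (hpπ : p ∈ π) (L : Subgroup G) (hL : IsPGroup p L) : Cfsg.IsPiSubgroup π L := by
  intro s hs hsd
  have : Fact p.Prime := ⟨hp⟩
  obtain ⟨n, hn⟩ := IsPGroup.iff_card.1 hL
  rw [hn] at hsd
  have := (Nat.prime_dvd_prime_iff_eq hs hp).1 (hs.dvd_of_dvd_pow hsd)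
  rw [this]
  exact hpπ

theorem piSubgroup_bot {G : Type*} [Group G] (π : Set ℕ) : Cfsg.IsPiSubgroup π (⊥ : Subgroup G) := by
  intro p hp hd
  rw [Subgroup.card_bot] at hd
  exact absurd (Nat.dvd_one.1 hd) hp.ne_one

theorem E_of_D {G : Type*} [Group G] [Finite G] (π : Set ℕ) (hD : Cfsg.IsDPiGroup π G) :
    Cfsg.IsEPiGroup π G := by
  have hexmax : ∀ K : Subgroup G, Cfsg.IsPiSubgroup π K →
      ∃ M, K ≤ M ∧ Maximal (Cfsg.IsPiSubgroup π) M := by
    intro K hK
    exact (Set.toFinite {M | Cfsg.IsPiSubgroup π M}).exists_le_maximal hK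
  obtain ⟨M, -, hM⟩ := hexmax ⊥ (piSubgroup_bot π)
  refine ⟨M, hM.prop, ?_⟩
  intro p hp hpπ hd
  have : Fact p.Prime := ⟨hp⟩
  obtain ⟨P⟩ : Nonempty (Sylow p G) := inferInstance
  obtain ⟨Mp, hle, hMp⟩ := hexmax P (piSubgroup_of_isPGroup π hp hpπ _ P.2)
  obtain ⟨g, hg⟩ := hD M Mp hM hMp
  have hcard : Nat.card Mp = Nat.card M := by
    rw [hg]
    exact Subgroup.card_map_of_injective (MulAut.conj g).injective
  have hidx : Mp.index = M.index := by
    have h1 := M.card_mul_index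
    have h2 := Mp.card_mul_index
    rw [hcard, ← h1] at h2
    exact Nat.eq_of_mul_eq_mul_left Nat.card_pos h2
  have h3 := Subgroup.index_dvd_of_le hle
  rw [hidx] at h3
  exact P.not_dvd_index (hd.trans h3)

theorem E_of_triv {G : Type*} [Group G] [Finite G] (π : Set ℕ)
    (hT : (∀ p q : ℕ, p.Prime → q.Prime → p ∈ π → q ∈ π → p = q) ∨ ∀ p : ℕ, p.Prime → p ∈ π) :
    Cfsg.IsEPiGroup π G := by
  rcases hT with h1 | h2
  · by_cases hex : ∃ p : ℕ, p.Prime ∧ p ∈ π
    · obtain ⟨p, hp, hpπ⟩ := hex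
      have : Fact p.Prime := ⟨hp⟩
      obtain ⟨P⟩ : Nonempty (Sylow p G) := inferInstance
      refine ⟨P, piSubgroup_of_isPGroup π hp hpπ _ P.2, fun s hs hsπ => ?_⟩
      rw [h1 s p hs hp hsπ hpπ]
      exact P.not_dvd_index
    · exact ⟨⊥, piSubgroup_bot π, fun s hs hsπ => absurd ⟨s, hs, hsπ⟩ hex⟩
  · refine ⟨⊤, fun p hp _ => h2 p hp, fun p hp _ hd => ?_⟩
    rw [Subgroup.index_top] at hd
    exact hp.ne_one (Nat.dvd_one.1 hd)

theorem D_of_triv {G : Type*} [Group G] [Finite G] (π : Set ℕ)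
    (hT : (∀ p q : ℕ, p.Prime → q.Prime → p ∈ π → q ∈ π → p = q) ∨ ∀ p : ℕ, p.Prime → p ∈ π) :
    Cfsg.IsDPiGroup π G := by
  intro H K hH hK
  rcases hT with h1 | h2
  · by_cases hex : ∃ p : ℕ, p.Prime ∧ p ∈ π
    · obtain ⟨p, hp, hpπ⟩ := hex
      have : Fact p.Prime := ⟨hp⟩
      have hiff : ∀ L : Subgroup G, Cfsg.IsPiSubgroup π L → IsPGroup p L := by
        intro L hL
        exact IsPGroup.of_card (Nat.eq_prime_pow_of_unique_prime_dvd (Nat.card_pos.ne')
          (fun hd hdvd => h1 _ _ hd hp (hL _ hd hdvd) hpπ))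
      let PH : Sylow p G := ⟨H, hiff H hH.prop, fun {Q} hQ hle =>
        hH.eq_of_ge (piSubgroup_of_isPGroup π hp hpπ Q hQ) hle⟩
      let PK : Sylow p G := ⟨K, hiff K hK.prop, fun {Q} hQ hle =>
        hK.eq_of_ge (piSubgroup_of_isPGroup π hp hpπ Q hQ) hle⟩
      obtain ⟨g, hg⟩ := MulAction.exists_smul_eq G PH PK
      refine ⟨g, ?_⟩
      have h3 : ((g • PH : Sylow p G) : Subgroup G) = K := by rw [hg]
      rw [← h3]
      rfl
    · have hb : ∀ L : Subgroup G, Cfsg.IsPiSubgroup π L → L = ⊥ := by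
        intro L hL
        rw [← Subgroup.card_eq_one]
        by_contra hne
        obtain ⟨s, hs, hsd⟩ := Nat.exists_prime_and_dvd hne
        exact hex ⟨s, hs, hL s hs hsd⟩
      rw [hb H hH.prop, hb K hK.prop]
      exact ⟨1, by simp⟩
  · have htop : Cfsg.IsPiSubgroup π (⊤ : Subgroup G) := fun p hp _ => h2 p hp
    have hHt : H = ⊤ := (hH.eq_of_ge htop le_top).symm
    have hKt : K = ⊤ := (hK.eq_of_ge htop le_top).symm
    refine ⟨1, ?_⟩
    rw [hHt, hKt]
    simp

/-- For a set of primes π the following are equivalent: every finite group has a Hall π-subgroup; in every finite group the maximal π-subgroups are pairwise conjugate; π contains at most one prime or contains every prime. -/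
theorem result (π : Set ℕ) :
    ((∀ (G : Type) [Group G] [Finite G], Cfsg.IsEPiGroup π G) ↔
      ((∀ p q : ℕ, p.Prime → q.Prime → p ∈ π → q ∈ π → p = q) ∨ ∀ p : ℕ, p.Prime → p ∈ π)) ∧
    ((∀ (G : Type) [Group G] [Finite G], Cfsg.IsDPiGroup π G) ↔
      ((∀ p q : ℕ, p.Prime → q.Prime → p ∈ π → q ∈ π → p = q) ∨ ∀ p : ℕ, p.Prime → p ∈ π)) := by
  refine ⟨⟨triv_of_E π, fun hT G _ _ => E_of_triv π hT⟩,
    ⟨fun hD => triv_of_E π (fun G _ _ => E_of_D π (hD G)), fun hT G _ _ => D_of_triv π hT⟩⟩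

end Cfsg.Agent.S3878
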