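import Cfsg.Statements.S3881
import Cfsg.Agent.Lib.Helper68.Meta5

set_option autoImplicit false
open Cfsg

namespace Cfsg.Agent.S3881

/-- Let p be an odd prime and G a finite metacyclic p-group (G has a cyclic normal subgroup with cyclic quotient). Suppose G is non-abelian with |G'| = p^n. Then for 1 ≤ i ≤ n the number of elements of G whose conjugacy class has exactly p^i elements is |Z(G)| · (p^(2i) − p^(2i−2)). -/
theorem result {G : Type*} [Group G] [Finite G] {p : ℕ} [Fact p.Prime] (hp : p ≠ 2) (hG : IsPGroup p G) (hmc : Cfsg.IsMetacyclic G) (n : ℕ) (hn : n ≠ 0) (hGn : Nat.card ↥(commutator G) = p ^ n) (i : ℕ) (hi : 1 ≤ i) (hin : i ≤ n) :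
    Nat.card {g : G // (Subgroup.centralizer ({g} : Set G)).index = p ^ i} =
      Nat.card ↥(Subgroup.center G) * (p ^ (2 * i) - p ^ (2 * i - 2)) := by
  have hpp : p.Prime := Fact.out
  have hset : {g : G | (Subgroup.centralizer ({g} : Set G)).index = p ^ i} =
      ((Cfsg.Agent.Lib.Helper68.agemo p (n - i) G : Subgroup G) : Set G) \
        ((Cfsg.Agent.Lib.Helper68.agemo p (n - i + 1) G : Subgroup G) : Set G) := by
    ext g
    obtain ⟨k, hk⟩ := hG.index (Subgroup.centralizer ({g} : Set G))
    have e1 : g ∈ Cfsg.Agent.Lib.Helper68.agemo p (n - i) G ↔ k ≤ i := by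
      constructor
      · intro h
        have := Cfsg.Agent.Lib.Helper68.index_centralizer_le_of_mem_agemo hp hG hmc hGn _ h
        rw [hk, Nat.pow_le_pow_iff_right hpp.one_lt] at this
        omega
      · intro h
        apply Cfsg.Agent.Lib.Helper68.mem_agemo_of_index_centralizer_le hp hG hmc hGn (by omega)
        rw [hk, Nat.pow_le_pow_iff_right hpp.one_lt]
        omega
    have e2 : g ∈ Cfsg.Agent.Lib.Helper68.agemo p (n - i + 1) G ↔ k ≤ i - 1 := by
      constructor
      · intro h
        have := Cfsg.Agent.Lib.Helper68.index_centralizer_le_of_mem_agemo hp hG hmc hGn _ h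
        rw [hk, Nat.pow_le_pow_iff_right hpp.one_lt] at this
        omega
      · intro h
        apply Cfsg.Agent.Lib.Helper68.mem_agemo_of_index_centralizer_le hp hG hmc hGn (by omega)
        rw [hk, Nat.pow_le_pow_iff_right hpp.one_lt]
        omega
    rw [Set.mem_ofPred_eq, Set.mem_sdiff, SetLike.mem_coe, SetLike.mem_coe, e1, e2, hk,
      (Nat.pow_right_injective hpp.two_le).eq_iff]
    omega
  have h1 := Cfsg.Agent.Lib.Helper68.card_agemo hp hG hmc hGn (s := n - i) (by omega)
  have h2 := Cfsg.Agent.Lib.Helper68.card_agemo hp hG hmc hGn (s := n - i + 1) (by omega)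
  have h3 : 2 * (n - (n - i)) = 2 * i := by omega
  have h4 : 2 * (n - (n - i + 1)) = 2 * i - 2 := by omega
  rw [h3] at h1
  rw [h4] at h2
  change Nat.card ↥{g : G | (Subgroup.centralizer ({g} : Set G)).index = p ^ i} = _
  rw [hset, Nat.card_coe_set_eq, Set.ncard_sdiff'
    (Cfsg.Agent.Lib.Helper68.agemo_anti p (Nat.le_succ _) G) (Set.toFinite _), Nat.mul_sub, ← h1, ← h2]
  rfl

end Cfsg.Agent.S3881
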