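import Cfsg.Statements.S3883
import Cfsg.Agent.Lib.Helper68.Meta4
import Cfsg.Agent.S3880

set_option autoImplicit false
open Cfsg

namespace Cfsg.Agent.S3883

/-- Let p be an odd prime and G a finite metacyclic p-group (G has a cyclic normal subgroup with cyclic quotient). Suppose G is non-abelian. Then an element g of G lies outside the Frattini subgroup if and only if its centralizer C_G(g) is abelian. -/
theorem result {G : Type*} [Group G] [Finite G] {p : ℕ} [Fact p.Prime] (hp : p ≠ 2) (hG : IsPGroup p G) (hmc : Cfsg.IsMetacyclic G) (hna : ¬ IsMulCommutative G) (g : G) :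
    g ∉ frattini G ↔ IsMulCommutative ↥(Subgroup.centralizer ({g} : Set G)) := by
  have hpp : p.Prime := Fact.out
  obtain ⟨B, n, hB, hn, hcard, hL⟩ := Cfsg.Agent.Lib.Helper68.meta_summary hp hG hmc
  have hn1 : 1 ≤ n := by
    rcases Nat.eq_zero_or_pos n with rfl | h
    · exfalso
      apply hna
      rw [Cfsg.Agent.Lib.Helper68.isMulCommutative_iff_card_commutator, hn, pow_zero]
    · exact h
  obtain ⟨A, X, h1, -, -, -, -⟩ := hL (Subgroup.centralizer ({g} : Set G))
  obtain ⟨hA, hidx⟩ := Cfsg.Agent.Lib.Helper68.index_eq_pow_of_card hpp h1 hcard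
  rw [Cfsg.Agent.Lib.Helper68.frattini_eq_agemo hG hmc, (Cfsg.Agent.S3880.result hp hG hmc _).1, h1, hB,
    Nat.pow_le_pow_iff_right hpp.one_lt]
  constructor
  · intro h
    by_contra hAB
    apply h
    apply Cfsg.Agent.Lib.Helper68.mem_agemo_of_index_centralizer_le hp hG hmc hn hn1
    rw [hidx, Nat.pow_le_pow_iff_right hpp.one_lt]
    omega
  · intro hAB h
    have := Cfsg.Agent.Lib.Helper68.index_centralizer_le_of_mem_agemo hp hG hmc hn 1 h
    rw [hidx, Nat.pow_le_pow_iff_right hpp.one_lt] at this
    omega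

end Cfsg.Agent.S3883
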