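import Cfsg.Statements.S3888
-- import your own Cfsg.Agent.* helpers here
import Cfsg.Agent.S0126
import Cfsg.Agent.S0639
import Cfsg.Agent.Lib.Helper42.BlkB1
import Cfsg.Agent.Lib.Helper42.BlkB2
import Cfsg.Agent.Lib.Helper42.BlkA6
import Cfsg.Agent.Lib.Helper76.BlkB3
import Cfsg.Agent.Lib.Helper76.BlkB4
import Cfsg.Agent.Lib.Helper76.BlkB6
import Cfsg.Agent.Lib.Helper41.BlkB5
import Cfsg.Agent.Lib.Helper41.BlkB7
import Cfsg.Agent.Lib.Helper41.BlkB8
import Cfsg.Agent.Lib.Helper41.BlkB9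

set_option autoImplicit false
open Cfsg

namespace Cfsg.Agent.S3888

/-- The classification of the p-groups of rank at most two for odd p. Let p be an odd prime and G a group of order p^n with no elementary abelian subgroup of order p³. Then one of the following holds: G is metacyclic; n ≥ 3 and G is generated by elements x, y, z with x^p = y^p = z^(p^(n−2)) = 1, z commuting with x and y, and x⁻¹yx = y z^(p^(n−3)); n ≥ 4 and G is generated by elements x, y, z with x^p = y^p = z^(p^(n−2)) = 1, yz = zy, x⁻¹yx = y z^(s p^(n−3)) and x⁻¹zx = yz, where s = 1 or s is a quadratic non-residue modulo p; or p = 3 and G has maximal class (nilpotency class n − 1). -/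
theorem result {G : Type*} [Group G] [Finite G] {p : ℕ} [Fact p.Prime] (hp : p ≠ 2) (n : ℕ) (hG : Nat.card G = p ^ n)
    (hrk : Cfsg.PRankLE p 2 G) :
    Cfsg.IsMetacyclic G ∨
    (3 ≤ n ∧ ∃ x y z : G, Subgroup.closure ({x, y, z} : Set G) = ⊤ ∧ x ^ p = 1 ∧ y ^ p = 1 ∧ z ^ p ^ (n - 2) = 1 ∧
        x * z = z * x ∧ y * z = z * y ∧ x⁻¹ * y * x = y * z ^ p ^ (n - 3)) ∨
    (4 ≤ n ∧ ∃ (s : ℕ) (x y z : G), (s = 1 ∨ ¬ IsSquare (s : ZMod p)) ∧ Subgroup.closure ({x, y, z} : Set G) = ⊤ ∧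
        x ^ p = 1 ∧ y ^ p = 1 ∧ z ^ p ^ (n - 2) = 1 ∧ y * z = z * y ∧ x⁻¹ * y * x = y * z ^ (s * p ^ (n - 3)) ∧
        x⁻¹ * z * x = y * z) ∨
    (p = 3 ∧ 2 ≤ n ∧ (⊤ : Subgroup G).lowerCentralSeries (n - 2) ≠ ⊥) := by
  classical
  have hpp : p.Prime := Fact.out
  have hPG : IsPGroup p G := IsPGroup.of_card hG
  have hnil : Group.IsNilpotent G := hPG.isNilpotent
  by_cases hcyc : IsCyclic G
  · left
    exact ⟨⊤, inferInstance, (Subgroup.isCyclic_iff_exists_zpowers_eq_top (⊤ : Subgroup G)).mpr (by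
      obtain ⟨g, hg⟩ := hcyc.exists_generator
      exact ⟨g, (Subgroup.eq_top_iff' _).mpr hg⟩), inferInstance⟩
  obtain ⟨N, hNn, ⟨hNcm, hNe⟩, hNc⟩ := Cfsg.Agent.S0126.result hp hPG hcyc
  have hNcomm : ∀ a ∈ N, ∀ b ∈ N, a * b = b * a := by
    intro a ha b hb
    have := hNcm.is_comm.comm ⟨a, ha⟩ ⟨b, hb⟩
    simpa using congrArg Subtype.val this
  have hn2 : 2 ≤ n := by
    have h1 : p ^ 2 ∣ p ^ n := by
      rw [← hNc, ← hG]; exact Subgroup.card_subgroup_dvd_card N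
    exact (Nat.pow_dvd_pow_iff_le_right hpp.one_lt).mp h1
  have hd : Group.nilpotencyClass G = n - 1 →
      (⊤ : Subgroup G).lowerCentralSeries (n - 2) ≠ ⊥ := by
    intro hc h
    have := Subgroup.lowerCentralSeries_eq_bot_iff_nilpotencyClass_le.mp h
    omega
  by_cases hA : ∀ g : G, g ^ p = 1 → g ∈ N
  · -- Case A
    have hO : Nat.card (Cfsg.omegaOne p (⊤ : Subgroup G)) ≤ p ^ 2 := by
      rw [← hNc]
      apply Subgroup.card_le_of_le
      show Subgroup.closure {x : G | x ∈ (⊤ : Subgroup G) ∧ x ^ p = 1} ≤ N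
      rw [Subgroup.closure_le]
      intro g hg
      exact hA g hg.2
    by_cases hp3 : 3 < p
    · left
      exact Cfsg.Agent.S0639.result hp3 hPG hO
    · have hp3' : p = 3 := by
        have := hpp.two_le
        omega
      subst hp3'
      rcases Cfsg.Agent.Lib.Helper42.Blk.three_main n G hG hO with h | h
      · exact Or.inl h
      · exact Or.inr (Or.inr (Or.inr ⟨rfl, hn2, hd h⟩))
  · -- Case B
    push Not at hA
    obtain ⟨x, hx, hxN⟩ := hA
    have F := Cfsg.Agent.Lib.Helper42.Blk.frame_of_rank hp hPG hrk N hNc hNe hNcomm x hx hxN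
    obtain ⟨z₀, Z⟩ := Cfsg.Agent.Lib.Helper42.Blk.exists_zdata F
    by_cases hI : ∀ c, Cfsg.Agent.Lib.Helper42.Blk.InC1 N x c →
        Cfsg.Agent.Lib.Helper42.Blk.ps x c ∈ Subgroup.zpowers z₀
    · have hΩ := Cfsg.Agent.Lib.Helper76.Blk.caseI_omega F Z hI
      have hall := Cfsg.Agent.Lib.Helper76.Blk.normalizer_step F hΩ
      exact Or.inr (Or.inl (Cfsg.Agent.Lib.Helper41.Blk.caseI_final F Z n hG
        (fun c hc => hI c ⟨hc, hall c hc⟩)))
    · push Not at hI
      obtain ⟨c, hc, hcz⟩ := hI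
      have hs := Cfsg.Agent.Lib.Helper76.Blk.caseII_struct F Z c hc hcz
      by_cases h3 : p = 3 ∧ c ^ 9 = 1
      · obtain ⟨h3, h9⟩ := h3
        refine Or.inr (Or.inr (Or.inr ⟨h3, hn2, hd ?_⟩))
        exact Cfsg.Agent.Lib.Helper41.Blk.caseII_max F Z n hG c hc hcz hs (by
          rw [h3]; exact h9)
      · have hΩ := Cfsg.Agent.Lib.Helper41.Blk.caseII_omega F Z c hc hcz hs
          (fun h h9 => h3 ⟨h, h9⟩)
        have hall := Cfsg.Agent.Lib.Helper76.Blk.normalizer_step F hΩ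
        exact Or.inr (Or.inr (Or.inl (Cfsg.Agent.Lib.Helper41.Blk.caseII_final F Z n hG c hc hcz
          (fun w hw => hs w ⟨hw, hall w hw⟩))))

end Cfsg.Agent.S3888
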