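import Cfsg.Statements.S3897
-- import your own Cfsg.Agent.* helpers here

set_option autoImplicit false
open Cfsg

namespace Cfsg.Agent.S3897

open scoped Pointwise

lemma orbit_bound {G : Type*} [Group G] [Finite G] {p : ℕ} [Fact p.Prime] (P : Sylow p G)
    (hnc : ¬ Subgroup.normalizer ((P : Subgroup G) : Set G) ≤ Subgroup.centralizer ((P : Subgroup G) : Set G)) :
    2 * p * Nat.card (MulAction.orbitRel.Quotient (Subgroup.normalizer ((P : Subgroup G) : Set G)) (P : Subgroup G))
      ≤ (p + 1) * Nat.card (P : Subgroup G) := by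
  classical
  have hp : p.Prime := Fact.out
  set N := Subgroup.normalizer ((P : Subgroup G) : Set G) with hN
  set s := Nat.card (P : Subgroup G) with hs
  let _ : Fintype N := Fintype.ofFinite _
  let _ : Fintype (P : Subgroup G) := Fintype.ofFinite _
  let _ : Fintype (MulAction.orbitRel.Quotient N (P : Subgroup G)) := Fintype.ofFinite _
  have hB := MulAction.sum_card_fixedBy_eq_card_orbits_mul_card_group N (P : Subgroup G)
  set C : Subgroup N := (Subgroup.centralizer ((P : Subgroup G) : Set G)).subgroupOf N with hC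
  have hCtop : C ≠ ⊤ := by
    intro h
    apply hnc
    rw [hC, Subgroup.subgroupOf_eq_top] at h
    exact h
  have hbound : ∀ n : N, p * Fintype.card (MulAction.fixedBy (P : Subgroup G) n) ≤
      s + (if n ∈ C then (p - 1) * s else 0) := by
    intro n
    by_cases hn : n ∈ C
    · rw [if_pos hn]
      have h1 : Fintype.card (MulAction.fixedBy (P : Subgroup G) n) ≤ s := by
        rw [hs, Nat.card_eq_fintype_card]
        exact Fintype.card_subtype_le _
      have h2 : s + (p - 1) * s = p * s := by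
        obtain ⟨q, rfl⟩ : ∃ q, p = q + 1 := ⟨p - 1, (Nat.succ_pred_eq_of_pos hp.pos).symm⟩
        simp; ring
      rw [h2]
      exact Nat.mul_le_mul_left _ h1
    · rw [if_neg hn, add_zero]
      let F : Subgroup (P : Subgroup G) :=
        { carrier := MulAction.fixedBy (P : Subgroup G) n
          mul_mem' := by
            intro a b ha hb
            rw [MulAction.mem_fixedBy] at *
            rw [smul_mul', ha, hb]
          one_mem' := by
            rw [MulAction.mem_fixedBy]; exact smul_one n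
          inv_mem' := by
            intro a ha
            rw [MulAction.mem_fixedBy] at *
            rw [smul_inv', ha] }
      have hFtop : F ≠ ⊤ := by
        intro h
        apply hn
        rw [hC, Subgroup.mem_subgroupOf, Subgroup.mem_centralizer_iff]
        intro a ha
        have h1 : (⟨a, ha⟩ : (P : Subgroup G)) ∈ F := h ▸ Subgroup.mem_top _
        have h2 : n • (⟨a, ha⟩ : (P : Subgroup G)) = ⟨a, ha⟩ := h1
        have h3 := congrArg Subtype.val h2
        have h4 : (n : G) * a * (n : G)⁻¹ = a := h3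
        rw [mul_inv_eq_iff_eq_mul] at h4
        exact h4.symm
      have hcardF : Fintype.card (MulAction.fixedBy (P : Subgroup G) n) = Nat.card F := by
        rw [← Nat.card_eq_fintype_card]; rfl
      obtain ⟨j, hj⟩ := P.2.index F
      have hj0 : j ≠ 0 := by
        rintro rfl
        rw [pow_zero, Subgroup.index_eq_one] at hj
        exact hFtop hj
      have hple : p ≤ F.index := by
        rw [hj]
        calc p = p ^ 1 := (pow_one p).symm
          _ ≤ p ^ j := Nat.pow_le_pow_right hp.pos (Nat.one_le_iff_ne_zero.mpr hj0)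
      rw [hcardF, hs, ← F.index_mul_card]
      exact Nat.mul_le_mul_right _ hple
  have hsum : p * ∑ n : N, Fintype.card (MulAction.fixedBy (P : Subgroup G) n) ≤
      Nat.card N * s + Nat.card C * ((p - 1) * s) := by
    rw [Finset.mul_sum]
    refine (Finset.sum_le_sum (fun n _ => hbound n)).trans ?_
    rw [Finset.sum_add_distrib, Finset.sum_const, Finset.card_univ, smul_eq_mul, ← Nat.card_eq_fintype_card,
      ← Finset.sum_filter, Finset.sum_const, smul_eq_mul]
    apply le_of_eq
    congr 2
    rw [Nat.card_eq_fintype_card, Fintype.card_subtype]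
  have hC2 : 2 * Nat.card C ≤ Nat.card N := by
    rw [← C.index_mul_card]
    apply Nat.mul_le_mul_right
    have h0 : C.index ≠ 0 := Subgroup.index_ne_zero_of_finite
    have h1 : C.index ≠ 1 := fun h => hCtop (Subgroup.index_eq_one.mp h)
    omega
  rw [hB, ← Nat.card_eq_fintype_card, ← Nat.card_eq_fintype_card] at hsum
  have hNpos : 0 < Nat.card N := Nat.card_pos
  apply Nat.le_of_mul_le_mul_right _ hNpos
  obtain ⟨q, rfl⟩ : ∃ q, p = q + 1 := ⟨p - 1, (Nat.succ_pred_eq_of_pos hp.pos).symm⟩
  simp only [Nat.add_sub_cancel] at hsum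
  nlinarith [Nat.mul_le_mul_right (q * s) hC2]

lemma orderOf_of_mem_carrier {G : Type*} [Group G] {x y : G} (hy : y ∈ (ConjClasses.mk x).carrier) :
    orderOf y = orderOf x := by
  rw [ConjClasses.mem_carrier_iff_mk_eq, ConjClasses.mk_eq_mk_iff_isConj, isConj_iff] at hy
  obtain ⟨c, rfl⟩ := hy
  exact ((MulAut.conj c).orderOf_eq y).symm

lemma pclass_of_mem {G : Type*} [Group G] {p : ℕ} [Fact p.Prime] (P : Sylow p G) (x : (P : Subgroup G)) :
    ∀ y ∈ (ConjClasses.mk (x : G)).carrier, ∃ k : ℕ, orderOf y = p ^ k := by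
  intro y hy
  obtain ⟨k, hk⟩ := (IsPGroup.iff_orderOf.mp P.2) x
  exact ⟨k, by rw [orderOf_of_mem_carrier hy, ← hk, Subgroup.orderOf_coe]⟩

lemma card_le_orbits {G : Type*} [Group G] [Finite G] {p : ℕ} [Fact p.Prime] (P : Sylow p G) :
    Nat.card {c : ConjClasses G // ∀ x ∈ c.carrier, ∃ k : ℕ, orderOf x = p ^ k} ≤
      Nat.card (MulAction.orbitRel.Quotient (Subgroup.normalizer ((P : Subgroup G) : Set G)) (P : Subgroup G)) := by
  classical
  let f : ↥(P : Subgroup G) → {c : ConjClasses G // ∀ x ∈ c.carrier, ∃ k : ℕ, orderOf x = p ^ k} :=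
    fun x => ⟨ConjClasses.mk (x : G), pclass_of_mem P x⟩
  have hf : ∀ a b : (P : Subgroup G),
      (MulAction.orbitRel (Subgroup.normalizer ((P : Subgroup G) : Set G)) (P : Subgroup G)).r a b → f a = f b := by
    intro a b hab
    obtain ⟨n, hn⟩ := hab
    apply Subtype.ext
    simp only [f]
    rw [ConjClasses.mk_eq_mk_iff_isConj, isConj_comm, isConj_iff]
    exact ⟨n, congrArg Subtype.val hn⟩
  let g : MulAction.orbitRel.Quotient (Subgroup.normalizer ((P : Subgroup G) : Set G)) (P : Subgroup G) →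
      {c : ConjClasses G // ∀ x ∈ c.carrier, ∃ k : ℕ, orderOf x = p ^ k} := Quotient.lift f hf
  apply Nat.card_le_card_of_surjective g
  rintro ⟨c, hc⟩
  obtain ⟨x, rfl⟩ := ConjClasses.exists_rep c
  obtain ⟨k, hk⟩ := hc x ConjClasses.mem_carrier_mk
  have hz : IsPGroup p (Subgroup.zpowers x) := IsPGroup.of_card (n := k) (by rw [Nat.card_zpowers, hk])
  obtain ⟨Q, hQ⟩ := hz.exists_le_sylow
  obtain ⟨h, hh⟩ := MulAction.exists_smul_eq G Q P
  have hxQ : x ∈ (Q : Subgroup G) := hQ (Subgroup.mem_zpowers x)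
  have hmem : h * x * h⁻¹ ∈ (P : Subgroup G) := by
    rw [← hh, Sylow.smul_def, Sylow.pointwise_smul_def]
    exact Subgroup.smul_mem_pointwise_smul _ (MulAut.conj h) _ hxQ
  refine ⟨Quotient.mk _ ⟨h * x * h⁻¹, hmem⟩, ?_⟩
  apply Subtype.ext
  show ConjClasses.mk (h * x * h⁻¹) = ConjClasses.mk x
  rw [ConjClasses.mk_eq_mk_iff_isConj, isConj_comm, isConj_iff]
  exact ⟨h, rfl⟩

lemma card_le_of_complement {G : Type*} [Group G] [Finite G] {p : ℕ} [Fact p.Prime] (P : Sylow p G)
    (hc : Cfsg.HasNormalPComplement p G) (hab : IsMulCommutative ↥(P : Subgroup G)) :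
    Nat.card (P : Subgroup G) ≤
      Nat.card {c : ConjClasses G // ∀ x ∈ c.carrier, ∃ k : ℕ, orderOf x = p ^ k} := by
  obtain ⟨P₀, K, hKn, hK⟩ := hc
  have hcardP : Nat.card (P : Subgroup G) = Nat.card (P₀ : Subgroup G) := by
    rw [P.card_eq_multiplicity, P₀.card_eq_multiplicity]
  have hKP : K.IsComplement' P := by
    apply Subgroup.isComplement'_of_coprime
    · rw [hcardP]; exact hK.card_mul_card
    · obtain ⟨n, hn⟩ := P.2.exists_card_eq
      rw [hn]
      apply Nat.Coprime.pow_right
      rw [Nat.coprime_comm, Nat.Prime.coprime_iff_not_dvd Fact.out, ← hK.index_eq_card]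
      exact P₀.not_dvd_index
  let f : ↥(P : Subgroup G) → {c : ConjClasses G // ∀ x ∈ c.carrier, ∃ k : ℕ, orderOf x = p ^ k} :=
    fun x => ⟨ConjClasses.mk (x : G), pclass_of_mem P x⟩
  apply Nat.card_le_card_of_injective f
  intro x y hxy
  have h1 : ConjClasses.mk (x : G) = ConjClasses.mk (y : G) := congrArg Subtype.val hxy
  rw [ConjClasses.mk_eq_mk_iff_isConj, isConj_iff] at h1
  obtain ⟨g, hg⟩ := h1
  obtain ⟨⟨⟨k, hk⟩, ⟨u, hu⟩⟩, hku⟩ := (hKP.existsUnique g).exists
  simp only at hku
  have hux : u * (x : G) * u⁻¹ = x := by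
    have := hab.is_comm.comm (⟨u, hu⟩ : (P : Subgroup G)) x
    have h2 : u * (x : G) = x * u := congrArg Subtype.val this
    rw [h2, mul_inv_cancel_right]
  have h3 : k * (x : G) * k⁻¹ = y := by
    rw [← hg, ← hku]
    calc k * (x : G) * k⁻¹ = k * (u * (x : G) * u⁻¹) * k⁻¹ := by rw [hux]
      _ = k * u * ↑x * (k * u)⁻¹ := by group
  have h4 : (y : G) * (x : G)⁻¹ ∈ K := by
    rw [← h3]
    have : k * (x : G) * k⁻¹ * (x : G)⁻¹ = k * ((x : G) * k⁻¹ * (x : G)⁻¹) := by group
    rw [this]
    exact K.mul_mem hk (hKn.conj_mem _ (K.inv_mem hk) _)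
  have h5 : (y : G) * (x : G)⁻¹ ∈ (P : Subgroup G) := P.mul_mem y.2 (P.inv_mem x.2)
  have h6 : (y : G) * (x : G)⁻¹ ∈ K ⊓ (P : Subgroup G) := ⟨h4, h5⟩
  rw [hKP.disjoint.eq_bot, Subgroup.mem_bot, mul_inv_eq_one] at h6
  exact Subtype.ext h6.symm

/-- Let p be an odd prime and G a finite group with Sylow p-subgroup P, and write k_p(G) for the number of conjugacy classes of G consisting of p-elements (elements of p-power order, the identity included). Then k_p(G) > (p + 1)|P|/(2p) if and only if G has a normal p-complement and P is abelian. -/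
theorem result {G : Type*} [Group G] [Finite G] {p : ℕ} [Fact p.Prime] (hp : p ≠ 2) (P : Sylow p G) :
    (p + 1) * Nat.card ↥(P : Subgroup G) < 2 * p * Nat.card {c : ConjClasses G // ∀ x ∈ c.carrier, ∃ k : ℕ, orderOf x = p ^ k} ↔
      Cfsg.HasNormalPComplement p G ∧ IsMulCommutative ↥(P : Subgroup G) := by
  have hp' : p.Prime := Fact.out
  constructor
  · intro h
    have hnc : Subgroup.normalizer ((P : Subgroup G) : Set G) ≤ Subgroup.centralizer ((P : Subgroup G) : Set G) := by
      by_contra hnc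
      have h1 := orbit_bound P hnc
      have h2 := card_le_orbits P
      have h3 := Nat.mul_le_mul_left (2 * p) h2
      omega
    refine ⟨⟨P, _, inferInstance, MonoidHom.ker_transferSylow_isComplement' P hnc⟩, ?_⟩
    exact ⟨⟨fun a b => Subtype.ext (hnc (Subgroup.le_normalizer b.2) a a.2)⟩⟩
  · rintro ⟨hc, hab⟩
    have h1 := card_le_of_complement P hc hab
    have h2 : 0 < Nat.card (P : Subgroup G) := Nat.card_pos
    have h3 : 2 ≤ p := hp'.two_le
    nlinarith

end Cfsg.Agent.S3897
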