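import Cfsg.Statements.S3895
import Cfsg.Agent.S3897
import Cfsg.Agent.S0072
import Cfsg.Agent.Lib.Helper77.Frobenius
import Cfsg.Agent.Lib.Helper1.Coprime3

set_option autoImplicit false
open Cfsg

namespace Cfsg.Agent.S3895

open scoped Pointwise
open Cfsg.Agent.Lib.Helper77 Cfsg.Agent.Lib.Helper1

theorem pow_mul_inv_mem {G : Type*} [Group G] (C : Subgroup G) (a b : G) (hb : b ∈ C)
    (ha : a ∈ Subgroup.normalizer (C : Set G)) (j : ℕ) : (b * a) ^ j * (a ^ j)⁻¹ ∈ C := by
  induction j with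
  | zero => simp
  | succ j ih =>
    have h1 : (b * a) ^ (j + 1) * (a ^ (j + 1))⁻¹ = b * (a * ((b * a) ^ j * (a ^ j)⁻¹) * a⁻¹) := by
      rw [pow_succ' (b * a), pow_succ' a]; group
    rw [h1]
    exact C.mul_mem hb ((Subgroup.mem_normalizer_iff.mp ha _).mp ih)

theorem mem_of_pow_mem_of_coprime {G : Type*} [Group G] (H : Subgroup G) (g : G) (p e : ℕ)
    (hg : (orderOf g).Coprime p) (h : g ^ p ^ e ∈ H) : g ∈ H := by
  obtain ⟨m, hm⟩ := exists_pow_eq_self_of_coprime (x := g) (n := p ^ e)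
    (Nat.Coprime.pow_left e hg.symm)
  rw [← hm]
  exact H.pow_mem h m

theorem normalizer_le_normalizer_centralizer' {G : Type*} [Group G] (Q : Subgroup G) :
    Subgroup.normalizer (Q : Set G) ≤
      Subgroup.normalizer ((Subgroup.centralizer (Q : Set G) : Subgroup G) : Set G) := by
  rw [Subgroup.le_normalizer_iff]
  intro a ha c hc
  rw [Subgroup.mem_centralizer_iff] at hc ⊢
  intro k hk
  have hk' : a⁻¹ * k * a ∈ Q := (Subgroup.mem_normalizer_iff''.mp ha k).mp hk
  have h1 := hc _ hk'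
  calc k * (a * c * a⁻¹) = a * ((a⁻¹ * k * a) * c) * a⁻¹ := by group
    _ = a * (c * (a⁻¹ * k * a)) * a⁻¹ := by rw [h1]
    _ = a * c * a⁻¹ * k := by group

/-- If the Frobenius condition fails, it fails for a `p`-subgroup containing every `p`-element of
its centralizer. -/
theorem exists_centric {G : Type*} [Group G] [Finite G] {p : ℕ} [Fact p.Prime]
    (h : ¬ FrobCond p G) :
    ∃ (S : Subgroup G) (w : G), IsPGroup p S ∧ w ∈ Subgroup.normalizer (S : Set G) ∧
      (orderOf w).Coprime p ∧ w ∉ Subgroup.centralizer (S : Set G) ∧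
      ∀ x ∈ Subgroup.centralizer (S : Set G), (∃ k : ℕ, orderOf x = p ^ k) → x ∈ S := by
  unfold FrobCond at h
  push Not at h
  obtain ⟨Q, hQ, g, hgN, hgo, hgC⟩ := h
  obtain ⟨C, hC⟩ : ∃ C : Subgroup G, C = Subgroup.centralizer (Q : Set G) := ⟨_, rfl⟩
  obtain ⟨N, hN⟩ : ∃ N : Subgroup G, N = Subgroup.normalizer (Q : Set G) := ⟨_, rfl⟩
  have hNC : N ≤ Subgroup.normalizer (C : Set G) := by
    rw [hN, hC]; exact normalizer_le_normalizer_centralizer' Q
  have hQN : Q ≤ N := by rw [hN]; exact Subgroup.le_normalizer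
  have hCN : C ≤ N := by rw [hN, hC]; exact Subgroup.centralizer_le_normalizer _
  have hDN : C ⊔ Q ≤ N := sup_le hCN hQN
  have hND : N ≤ Subgroup.normalizer ((C ⊔ Q : Subgroup G) : Set G) := by
    intro a ha
    have h1 : a ∈ Subgroup.normalizer (C : Set G) := hNC ha
    have h2 : a ∈ Subgroup.normalizer (Q : Set G) := by rw [← hN]; exact ha
    rw [Subgroup.mem_normalizer_iff_map_conj_eq] at h1 h2 ⊢
    rw [Subgroup.map_sup, h1, h2]
  obtain ⟨S, hS⟩ := exists_isSylowIn p (C ⊔ Q)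
  have hQS : Q ≤ S := hS.le_of_normal le_sup_right (by rw [← hN]; exact hDN) hQ
  have hgN' : g ∈ N := by rw [hN]; exact hgN
  obtain ⟨k, hk, hkS⟩ := (hS.conj (hND hgN')).exists_conj hS
  have hn : k * g ∈ Subgroup.normalizer (S : Set G) := by
    rw [mem_normalizer_iff_conj_smul, map_mul, mul_smul]
    exact hkS
  obtain ⟨e, he⟩ := exists_pow_p_coprime p (k * g)
  have hCS : Subgroup.centralizer (S : Set G) ≤ C := by
    rw [hC]; exact Subgroup.centralizer_le (SetLike.coe_subset_coe.mpr hQS)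
  refine ⟨S, (k * g) ^ p ^ e, hS.2.1, Subgroup.pow_mem _ hn _, he, ?_, ?_⟩
  · intro hw
    apply hgC
    rw [← hC]
    -- `g ^ p ^ e ∈ C ⊔ Q`
    have h1 := pow_mul_inv_mem (C ⊔ Q) g k hk (hND hgN') (p ^ e)
    have h2 : g ^ p ^ e ∈ C ⊔ Q := by
      have h3 : g ^ p ^ e = ((k * g) ^ p ^ e * (g ^ p ^ e)⁻¹)⁻¹ * (k * g) ^ p ^ e := by group
      rw [h3]
      exact Subgroup.mul_mem _ (Subgroup.inv_mem _ h1) (le_sup_left (a := C) (hCS hw))
    have h4 : g ∈ C ⊔ Q := mem_of_pow_mem_of_coprime _ g p e hgo h2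
    obtain ⟨c, hc, q, hq, hcq⟩ := (mem_sup_of_le_normalizer (hCN.trans (by rw [hN]))).mp h4
    obtain ⟨a, ha⟩ := (IsPGroup.iff_orderOf.mp hQ) ⟨q, hq⟩
    have hqa : q ^ p ^ a = 1 := by
      rw [← ha, ← Subgroup.orderOf_coe]
      exact pow_orderOf_eq_one q
    have h5 := pow_mul_inv_mem C q c hc (hNC (hQN hq)) (p ^ a)
    rw [hqa, inv_one, mul_one, hcq] at h5
    exact mem_of_pow_mem_of_coprime _ g p a hgo h5
  · rintro x hx ⟨j, hj⟩
    have hxp : IsPGroup p (Subgroup.zpowers x) :=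
      IsPGroup.of_card (n := j) (by rw [Nat.card_zpowers, hj])
    have hxn : Subgroup.zpowers x ≤ Subgroup.normalizer (S : Set G) := by
      rw [Subgroup.zpowers_le]
      exact Subgroup.centralizer_le_normalizer _ hx
    have hT : IsPGroup p (Subgroup.zpowers x ⊔ S : Subgroup G) :=
      hxp.to_sup_of_normal_right' hS.2.1 hxn
    have hTD : Subgroup.zpowers x ⊔ S ≤ C ⊔ Q :=
      sup_le (by rw [Subgroup.zpowers_le]; exact le_sup_left (a := C) (hCS hx)) hS.1
    have h1 := Subgroup.relIndex_mul_relIndex S _ _ (le_sup_right : S ≤ Subgroup.zpowers x ⊔ S) hTD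
    have h2 : ¬ p ∣ S.relIndex (Subgroup.zpowers x ⊔ S) := by
      intro hd
      apply hS.2.2
      rw [← h1]
      exact Dvd.dvd.mul_right hd _
    obtain ⟨n, hn⟩ := IsPGroup.iff_card.mp hT
    have h3 : S.relIndex (Subgroup.zpowers x ⊔ S) ∣ p ^ n := by
      rw [← hn]; exact Subgroup.relIndex_dvd_card _ _
    obtain ⟨i, -, hi⟩ := (Nat.dvd_prime_pow Fact.out).mp h3
    have hi0 : i = 0 := by
      by_contra hne
      exact h2 (by rw [hi]; exact dvd_pow_self p hne)
    rw [hi0, pow_zero, Subgroup.relIndex_eq_one] at hi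
    exact hi (le_sup_left (a := Subgroup.zpowers x) (Subgroup.mem_zpowers x))

theorem four_mul_card_le {G : Type*} [Group G] [Finite G] (S : Subgroup G) (w : G)
    (hS : IsPGroup 2 S) (hw : w ∈ Subgroup.normalizer (S : Set G)) (hwo : (orderOf w).Coprime 2)
    (hwc : w ∉ Subgroup.centralizer (S : Set G)) :
    4 * Nat.card (S ⊓ Subgroup.centralizer ({w} : Set G) : Subgroup G) ≤ Nat.card S := by
  have : Fact (Nat.Prime 2) := ⟨Nat.prime_two⟩
  obtain ⟨C, hC⟩ : ∃ C : Subgroup G, C = S ⊓ Subgroup.centralizer ({w} : Set G) := ⟨_, rfl⟩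
  rw [← hC]
  have hCS : C ≤ S := by rw [hC]; exact inf_le_left
  have hmemC : ∀ x, x ∈ C ↔ x ∈ S ∧ w * x = x * w := by
    intro x
    rw [hC, Subgroup.mem_inf, Subgroup.mem_centralizer_singleton_iff, eq_comm]
  have hcard := card_mul_relIndex hCS
  obtain ⟨n, hn⟩ := IsPGroup.iff_card.mp hS
  have h3 : C.relIndex S ∣ 2 ^ n := by
    rw [← hn]; exact Subgroup.relIndex_dvd_card _ _
  obtain ⟨i, -, hi⟩ := (Nat.dvd_prime_pow Nat.prime_two).mp h3
  have hnle : ¬ S ≤ C := by
    intro hle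
    apply hwc
    rw [Subgroup.mem_centralizer_iff]
    intro x hx
    exact (((hmemC x).mp (hle hx)).2).symm
  have hi0 : i ≠ 0 := by
    rintro rfl
    rw [pow_zero, Subgroup.relIndex_eq_one] at hi
    exact hnle hi
  have hi1 : i ≠ 1 := by
    rintro rfl
    rw [pow_one] at hi
    obtain ⟨x, hxS, hxC⟩ := SetLike.not_le_iff_exists.mp hnle
    have hyS : w * x * w⁻¹ ∈ S := (Subgroup.mem_normalizer_iff.mp hw x).mp hxS
    have hyC : w * x * w⁻¹ ∉ C := by
      intro hy
      have h1 := ((hmemC _).mp hy).2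
      apply hxC
      rw [hmemC]
      refine ⟨hxS, ?_⟩
      have h2 : w * (w * x * w⁻¹) = w * x := by
        rw [h1, inv_mul_cancel_right]
      exact mul_inv_eq_iff_eq_mul.mp (mul_left_cancel h2)
    have hc : x⁻¹ * (w * x * w⁻¹) ∈ C := by
      have h1 := Subgroup.mul_mem_iff_of_index_two (H := C.subgroupOf S) hi
        (a := ⟨x⁻¹, S.inv_mem hxS⟩) (b := ⟨w * x * w⁻¹, hyS⟩)
      have h2 : (⟨x⁻¹, S.inv_mem hxS⟩ : S) * ⟨w * x * w⁻¹, hyS⟩ ∈ C.subgroupOf S := by
        rw [h1, Subgroup.mem_subgroupOf, Subgroup.mem_subgroupOf]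
        simp only [inv_mem_iff]
        exact ⟨fun h => absurd h hxC, fun h => absurd h hyC⟩
      exact Subgroup.mem_subgroupOf.mp h2
    obtain ⟨c, hcdef⟩ : ∃ c : G, c = x⁻¹ * (w * x * w⁻¹) := ⟨_, rfl⟩
    rw [← hcdef] at hc
    have hwx : w * x * w⁻¹ = x * c := by rw [hcdef]; group
    have hwcomm : w * c = c * w := ((hmemC c).mp hc).2
    have hpow : ∀ j : ℕ, w ^ j * x * (w ^ j)⁻¹ = x * c ^ j := by
      intro j
      induction j with
      | zero => simp
      | succ j ih =>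
        have hcj : w * c ^ j * w⁻¹ = c ^ j := by
          have : Commute w (c ^ j) := (show Commute w c from hwcomm).pow_right j
          rw [this.eq, mul_inv_cancel_right]
        calc w ^ (j + 1) * x * (w ^ (j + 1))⁻¹ = w * (w ^ j * x * (w ^ j)⁻¹) * w⁻¹ := by
              rw [pow_succ']; group
          _ = w * (x * c ^ j) * w⁻¹ := by rw [ih]
          _ = (w * x * w⁻¹) * (w * c ^ j * w⁻¹) := by group
          _ = x * c ^ (j + 1) := by rw [hwx, hcj, pow_succ', mul_assoc]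
    have h5 := hpow (orderOf w)
    rw [pow_orderOf_eq_one, one_mul, inv_one, mul_one] at h5
    have h6 : c ^ orderOf w = 1 := (mul_eq_left.mp h5.symm)
    obtain ⟨t, ht⟩ := (IsPGroup.iff_orderOf.mp hS) ⟨c, hCS hc⟩
    rw [Subgroup.orderOf_mk] at ht
    have h7 : orderOf c ∣ orderOf w := orderOf_dvd_of_pow_eq_one h6
    have h8 : orderOf c = 1 := by
      have h9 : (orderOf c).Coprime (orderOf w) := by
        rw [ht]; exact Nat.Coprime.pow_left t hwo.symm
      exact Nat.Coprime.eq_one_of_dvd h9 h7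
    rw [orderOf_eq_one_iff] at h8
    rw [h8, mul_one] at hwx
    apply hxC
    rw [hmemC]
    exact ⟨hxS, mul_inv_eq_iff_eq_mul.mp hwx⟩
  obtain ⟨i', rfl⟩ : ∃ i', i = i' + 2 := ⟨i - 2, by omega⟩
  rw [← hcard, hi, pow_add]
  have : 0 < 2 ^ i' := pow_pos (by norm_num) _
  nlinarith [Nat.card_pos (α := C)]

/-- The map from a Sylow subgroup to the classes of `p`-elements. -/
def clsMap {G : Type*} [Group G] {p : ℕ} [Fact p.Prime] (P : Sylow p G) :
    ↥(P : Subgroup G) → {c : ConjClasses G // ∀ x ∈ c.carrier, ∃ k : ℕ, orderOf x = p ^ k} :=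
  fun x => ⟨ConjClasses.mk (x : G), Cfsg.Agent.S3897.pclass_of_mem P x⟩

theorem clsMap_surjective {G : Type*} [Group G] [Finite G] {p : ℕ} [Fact p.Prime] (P : Sylow p G) :
    Function.Surjective (clsMap P) := by
  rintro ⟨c, hc⟩
  obtain ⟨x, rfl⟩ := ConjClasses.exists_rep c
  obtain ⟨k, hk⟩ := hc x ConjClasses.mem_carrier_mk
  have hz : IsPGroup p (Subgroup.zpowers x) := IsPGroup.of_card (n := k) (by rw [Nat.card_zpowers, hk])
  obtain ⟨Q, hQ⟩ := hz.exists_le_sylow
  obtain ⟨h, hh⟩ := MulAction.exists_smul_eq G Q P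
  have hxQ : x ∈ (Q : Subgroup G) := hQ (Subgroup.mem_zpowers x)
  have hmem : h * x * h⁻¹ ∈ (P : Subgroup G) := by
    rw [← hh, Sylow.smul_def, Sylow.pointwise_smul_def]
    exact Subgroup.smul_mem_pointwise_smul _ (MulAut.conj h) _ hxQ
  refine ⟨⟨h * x * h⁻¹, hmem⟩, ?_⟩
  apply Subtype.ext
  show ConjClasses.mk (h * x * h⁻¹) = ConjClasses.mk x
  rw [ConjClasses.mk_eq_mk_iff_isConj, isConj_comm, isConj_iff]
  exact ⟨h, rfl⟩

theorem clsMap_conj {G : Type*} [Group G] {p : ℕ} [Fact p.Prime] (P : Sylow p G)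
    (x : (P : Subgroup G)) (g : G) (hg : g * (x : G) * g⁻¹ ∈ (P : Subgroup G)) :
    clsMap P ⟨g * (x : G) * g⁻¹, hg⟩ = clsMap P x := by
  apply Subtype.ext
  show ConjClasses.mk (g * (x : G) * g⁻¹) = ConjClasses.mk (x : G)
  rw [ConjClasses.mk_eq_mk_iff_isConj, isConj_comm, isConj_iff]
  exact ⟨g, rfl⟩

theorem sum_indicator {G : Type*} [Group G] [Finite G] (P S : Subgroup G) (h : S ≤ P) [Fintype P]
    [DecidablePred (fun x : P => (x : G) ∈ S)] :
    ∑ x : P, (if (x : G) ∈ S then 1 else 0) = Nat.card S := by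
  rw [Finset.sum_boole, Nat.cast_id, ← Fintype.card_subtype, ← Nat.card_eq_fintype_card]
  exact Nat.card_congr (Subgroup.subgroupOfEquivOfLe h).toEquiv

theorem two_mul_card_le {G : Type*} [Group G] [Finite G] (h : ¬ FrobCond 2 G) (P : Sylow 2 G) :
    2 * Nat.card {c : ConjClasses G // ∀ x ∈ c.carrier, ∃ k : ℕ, orderOf x = 2 ^ k} ≤
      Nat.card (P : Subgroup G) := by
  classical
  obtain ⟨S, w, hS, hw, hwo, hwc, hcen⟩ := exists_centric h
  obtain ⟨P', hSP⟩ := hS.exists_le_sylow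
  have hcardP : Nat.card (P : Subgroup G) = Nat.card (P' : Subgroup G) := by
    rw [P.card_eq_multiplicity, P'.card_eq_multiplicity]
  rw [hcardP]
  have h4 := four_mul_card_le S w hS hw hwo hwc
  obtain ⟨C, hC⟩ : ∃ C : Subgroup G, C = S ⊓ Subgroup.centralizer ({w} : Set G) := ⟨_, rfl⟩
  rw [← hC] at h4
  have hCS : C ≤ S := by rw [hC]; exact inf_le_left
  have hmemC : ∀ x, x ∈ C ↔ x ∈ S ∧ w * x = x * w := by
    intro x
    rw [hC, Subgroup.mem_inf, Subgroup.mem_centralizer_singleton_iff, eq_comm]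
  have := Fintype.ofFinite (P' : Subgroup G)
  have := Fintype.ofFinite {c : ConjClasses G // ∀ x ∈ c.carrier, ∃ k : ℕ, orderOf x = 2 ^ k}
  let μ : ↥(P' : Subgroup G) → ℕ := fun x => if (x : G) ∈ C then 6 else if (x : G) ∈ S then 2 else 3
  have hμS : ∀ x : (P' : Subgroup G), (x : G) ∈ S → 2 ≤ μ x := by
    intro x hx
    simp only [μ]
    split_ifs <;> omega
  have hμ3 : ∀ x : (P' : Subgroup G), (x : G) ∉ S → μ x = 3 := by
    intro x hx
    have hxC : (x : G) ∉ C := fun h => hx (hCS h)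
    simp only [μ, hxC, hx, if_false]
  have key : ∀ c, 6 ≤ ∑ x ∈ Finset.univ.filter (fun x => clsMap P' x = c), μ x := by
    intro c
    obtain ⟨x₀, hx₀⟩ := clsMap_surjective P' c
    by_cases h1 : ∃ x, clsMap P' x = c ∧ (x : G) ∈ C
    · obtain ⟨x, hxF, hxC⟩ := h1
      have h6 : μ x = 6 := by simp only [μ, hxC, if_true]
      rw [← h6]
      exact Finset.single_le_sum (f := μ) (fun _ _ => Nat.zero_le _)
        (Finset.mem_filter.mpr ⟨Finset.mem_univ _, hxF⟩)
    by_cases h2 : ∃ x, clsMap P' x = c ∧ (x : G) ∈ S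
    · obtain ⟨x, hxF, hxS⟩ := h2
      have hxC : (x : G) ∉ C := fun hh => h1 ⟨x, hxF, hh⟩
      have hne : w * (x : G) * w⁻¹ ≠ x := by
        intro hh
        exact hxC ((hmemC _).mpr ⟨hxS, mul_inv_eq_iff_eq_mul.mp hh⟩)
      have hx1S : w * (x : G) * w⁻¹ ∈ S := (Subgroup.mem_normalizer_iff.mp hw _).mp hxS
      have hx2S : w * (w * (x : G) * w⁻¹) * w⁻¹ ∈ S := (Subgroup.mem_normalizer_iff.mp hw _).mp hx1S
      obtain ⟨x1, hx1⟩ : ∃ x1 : (P' : Subgroup G), x1 = ⟨w * (x : G) * w⁻¹, hSP hx1S⟩ := ⟨_, rfl⟩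
      obtain ⟨x2, hx2⟩ : ∃ x2 : (P' : Subgroup G),
        x2 = ⟨w * (w * (x : G) * w⁻¹) * w⁻¹, hSP hx2S⟩ := ⟨_, rfl⟩
      have hv1 : (x1 : G) = w * (x : G) * w⁻¹ := by rw [hx1]
      have hv2 : (x2 : G) = w * (w * (x : G) * w⁻¹) * w⁻¹ := by rw [hx2]
      have hf1 : clsMap P' x1 = c := by rw [hx1, clsMap_conj, hxF]
      have hf2 : clsMap P' x2 = c := by
        have h9 : x2 = ⟨w * (x1 : G) * w⁻¹, by rw [hv1]; exact hSP hx2S⟩ :=
          Subtype.ext (by
            show (x2 : G) = w * (x1 : G) * w⁻¹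
            rw [hv2, hv1])
        rw [h9, clsMap_conj, hf1]
      have n1 : x ≠ x1 := by
        intro hh
        apply hne
        rw [← hv1, ← hh]
      have n2 : x1 ≠ x2 := by
        intro hh
        apply hne
        have h5 : (x1 : G) = (x2 : G) := congrArg Subtype.val hh
        rw [hv1, hv2] at h5
        have h6 : (x : G) = w * (x : G) * w⁻¹ := by
          have := mul_right_cancel h5
          exact mul_left_cancel this
        exact h6.symm
      have n3 : x ≠ x2 := by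
        intro hh
        apply hne
        have h5 : (x : G) = (x2 : G) := congrArg Subtype.val hh
        rw [hv2] at h5
        have h6 : w ^ 2 ^ 1 ∈ Subgroup.centralizer ({(x : G)} : Set G) := by
          rw [Subgroup.mem_centralizer_singleton_iff, pow_one, pow_two]
          have h7 : w * w * (x : G) * (w * w)⁻¹ = x := by
            have h10 : w * w * (x : G) * (w * w)⁻¹ = w * (w * (x : G) * w⁻¹) * w⁻¹ := by group
            rw [h10, ← h5]
          exact (mul_inv_eq_iff_eq_mul.mp h7)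
        have h8 := mem_of_pow_mem_of_coprime _ w 2 1 hwo h6
        rw [Subgroup.mem_centralizer_singleton_iff] at h8
        exact mul_inv_eq_iff_eq_mul.mpr h8
      have hsub : ({x, x1, x2} : Finset (P' : Subgroup G)) ⊆
          Finset.univ.filter (fun x => clsMap P' x = c) := by
        intro y hy
        simp only [Finset.mem_insert, Finset.mem_singleton] at hy
        rw [Finset.mem_filter]
        refine ⟨Finset.mem_univ _, ?_⟩
        rcases hy with rfl | rfl | rfl
        · exact hxF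
        · exact hf1
        · exact hf2
      have hsum : ∑ y ∈ ({x, x1, x2} : Finset (P' : Subgroup G)), μ y = μ x + (μ x1 + μ x2) := by
        rw [Finset.sum_insert (by simp [n1, n3]), Finset.sum_pair n2]
      have b0 := hμS x hxS
      have b1 := hμS x1 (by rw [hv1]; exact hx1S)
      have b2 := hμS x2 (by rw [hv2]; exact hx2S)
      calc 6 ≤ μ x + (μ x1 + μ x2) := by omega
        _ = ∑ y ∈ ({x, x1, x2} : Finset (P' : Subgroup G)), μ y := hsum.symm
        _ ≤ _ := Finset.sum_le_sum_of_subset hsub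
    · have hnS : ∀ x, clsMap P' x = c → (x : G) ∉ S := fun x hx hh => h2 ⟨x, hx, hh⟩
      have hex : ∃ u ∈ (P' : Subgroup G), u * (x₀ : G) * u⁻¹ ≠ x₀ := by
        by_contra hcon
        push Not at hcon
        apply hnS x₀ hx₀
        apply hcen
        · rw [Subgroup.mem_centralizer_iff]
          intro s hs
          exact mul_inv_eq_iff_eq_mul.mp (hcon s (hSP hs))
        · obtain ⟨k, hk⟩ := (IsPGroup.iff_orderOf.mp P'.2) x₀
          exact ⟨k, by rw [← hk, Subgroup.orderOf_coe]⟩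
      obtain ⟨u, hu, hune⟩ := hex
      obtain ⟨x1, hx1⟩ : ∃ x1 : (P' : Subgroup G), x1 = ⟨u * (x₀ : G) * u⁻¹,
        (P' : Subgroup G).mul_mem ((P' : Subgroup G).mul_mem hu x₀.2)
          ((P' : Subgroup G).inv_mem hu)⟩ := ⟨_, rfl⟩
      have hf1 : clsMap P' x1 = c := by rw [hx1, clsMap_conj, hx₀]
      have n1 : x₀ ≠ x1 := by
        intro hh
        apply hune
        have : (x1 : G) = u * (x₀ : G) * u⁻¹ := by rw [hx1]
        rw [← this, ← hh]
      have hsub : ({x₀, x1} : Finset (P' : Subgroup G)) ⊆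
          Finset.univ.filter (fun x => clsMap P' x = c) := by
        intro y hy
        simp only [Finset.mem_insert, Finset.mem_singleton] at hy
        rw [Finset.mem_filter]
        refine ⟨Finset.mem_univ _, ?_⟩
        rcases hy with rfl | rfl
        · exact hx₀
        · exact hf1
      calc 6 = μ x₀ + μ x1 := by rw [hμ3 _ (hnS _ hx₀), hμ3 _ (hnS _ hf1)]
        _ = ∑ y ∈ ({x₀, x1} : Finset (P' : Subgroup G)), μ y := (Finset.sum_pair n1).symm
        _ ≤ _ := Finset.sum_le_sum_of_subset hsub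
  have htot : ∑ c, ∑ x ∈ Finset.univ.filter (fun x => clsMap P' x = c), μ x = ∑ x, μ x :=
    Finset.sum_fiberwise Finset.univ (clsMap P') μ
  have hlow : 6 * Nat.card {c : ConjClasses G // ∀ x ∈ c.carrier, ∃ k : ℕ, orderOf x = 2 ^ k} ≤
      ∑ x, μ x := by
    rw [← htot, Nat.card_eq_fintype_card]
    calc 6 * Fintype.card {c : ConjClasses G // ∀ x ∈ c.carrier, ∃ k : ℕ, orderOf x = 2 ^ k}
        = ∑ _c : {c : ConjClasses G // ∀ x ∈ c.carrier, ∃ k : ℕ, orderOf x = 2 ^ k}, 6 := by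
          rw [Finset.sum_const, Finset.card_univ, smul_eq_mul, mul_comm]
      _ ≤ _ := Finset.sum_le_sum (fun c _ => key c)
  have hpt : ∀ x : (P' : Subgroup G), μ x + (if (x : G) ∈ S then 1 else 0) =
      3 + 4 * (if (x : G) ∈ C then 1 else 0) := by
    intro x
    by_cases hxC : (x : G) ∈ C
    · have hxS := hCS hxC
      simp only [μ, hxC, hxS, if_true]
    · by_cases hxS : (x : G) ∈ S
      · simp only [μ, hxC, hxS, if_true, if_false]
      · simp only [μ, hxC, hxS, if_false]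
  have hsum : ∑ x, μ x + Nat.card S = 3 * Nat.card (P' : Subgroup G) + 4 * Nat.card C := by
    rw [← sum_indicator (P' : Subgroup G) S hSP, ← sum_indicator (P' : Subgroup G) C (hCS.trans hSP),
      ← Finset.sum_add_distrib, Finset.sum_congr rfl (fun x _ => hpt x), Finset.sum_add_distrib,
      Finset.sum_const, Finset.card_univ, smul_eq_mul, ← Finset.mul_sum, Nat.card_eq_fintype_card,
      mul_comm]
  omega

theorem clsMap_eq_of_isConj {G : Type*} [Group G] {p : ℕ} [Fact p.Prime] (P : Sylow p G)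
    (a b : (P : Subgroup G)) (hab : IsConj a b) : clsMap P a = clsMap P b := by
  obtain ⟨u, hu⟩ := isConj_iff.mp hab
  have h1 : (u : G) * (a : G) * (u : G)⁻¹ = b := congrArg Subtype.val hu
  apply Subtype.ext
  show ConjClasses.mk (a : G) = ConjClasses.mk (b : G)
  rw [ConjClasses.mk_eq_mk_iff_isConj, isConj_iff]
  exact ⟨u, h1⟩

/-- The induced map on conjugacy classes. -/
def clsLift {G : Type*} [Group G] {p : ℕ} [Fact p.Prime] (P : Sylow p G) :
    ConjClasses ↥(P : Subgroup G) →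
      {c : ConjClasses G // ∀ x ∈ c.carrier, ∃ k : ℕ, orderOf x = p ^ k} :=
  Quotient.lift (clsMap P) (clsMap_eq_of_isConj P)

theorem card_le_card_conjClasses {G : Type*} [Group G] [Finite G] {p : ℕ} [Fact p.Prime]
    (P : Sylow p G) :
    Nat.card {c : ConjClasses G // ∀ x ∈ c.carrier, ∃ k : ℕ, orderOf x = p ^ k} ≤
      Nat.card (ConjClasses ↥(P : Subgroup G)) := by
  apply Nat.card_le_card_of_surjective (clsLift P)
  intro c
  obtain ⟨x, hx⟩ := clsMap_surjective P c
  exact ⟨ConjClasses.mk x, hx⟩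

theorem card_conjClasses_le {G : Type*} [Group G] [Finite G] {p : ℕ} [Fact p.Prime]
    (P : Sylow p G) (hc : Cfsg.HasNormalPComplement p G) :
    Nat.card (ConjClasses ↥(P : Subgroup G)) ≤
      Nat.card {c : ConjClasses G // ∀ x ∈ c.carrier, ∃ k : ℕ, orderOf x = p ^ k} := by
  obtain ⟨P₀, K, hKn, hK⟩ := hc
  have hcardP : Nat.card (P : Subgroup G) = Nat.card (P₀ : Subgroup G) := by
    rw [P.card_eq_multiplicity, P₀.card_eq_multiplicity]
  have hKP : K.IsComplement' P := by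
    apply Subgroup.isComplement'_of_coprime
    · rw [hcardP]; exact hK.card_mul_card
    · obtain ⟨n, hn⟩ := P.2.exists_card_eq
      rw [hn]
      apply Nat.Coprime.pow_right
      rw [Nat.coprime_comm, Nat.Prime.coprime_iff_not_dvd Fact.out, ← hK.index_eq_card]
      exact P₀.not_dvd_index
  apply Nat.card_le_card_of_injective (clsLift P)
  intro a b hab
  obtain ⟨x, rfl⟩ := ConjClasses.exists_rep a
  obtain ⟨y, rfl⟩ := ConjClasses.exists_rep b
  have hxy : clsMap P x = clsMap P y := hab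
  have h1 : ConjClasses.mk (x : G) = ConjClasses.mk (y : G) := congrArg Subtype.val hxy
  rw [ConjClasses.mk_eq_mk_iff_isConj, isConj_iff] at h1
  obtain ⟨g, hg⟩ := h1
  obtain ⟨⟨⟨k, hk⟩, ⟨u, hu⟩⟩, hku⟩ := (hKP.existsUnique g).exists
  simp only at hku
  have hx' : u * (x : G) * u⁻¹ ∈ (P : Subgroup G) :=
    (P : Subgroup G).mul_mem ((P : Subgroup G).mul_mem hu x.2) ((P : Subgroup G).inv_mem hu)
  have h3 : k * (u * (x : G) * u⁻¹) * k⁻¹ = y := by
    rw [← hg, ← hku]; group
  have h4 : (y : G) * (u * (x : G) * u⁻¹)⁻¹ ∈ K := by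
    rw [← h3]
    have : k * (u * (x : G) * u⁻¹) * k⁻¹ * (u * (x : G) * u⁻¹)⁻¹ =
        k * ((u * (x : G) * u⁻¹) * k⁻¹ * (u * (x : G) * u⁻¹)⁻¹) := by group
    rw [this]
    exact K.mul_mem hk (hKn.conj_mem _ (K.inv_mem hk) _)
  have h5 : (y : G) * (u * (x : G) * u⁻¹)⁻¹ ∈ (P : Subgroup G) :=
    (P : Subgroup G).mul_mem y.2 ((P : Subgroup G).inv_mem hx')
  have h6 : (y : G) * (u * (x : G) * u⁻¹)⁻¹ ∈ K ⊓ (P : Subgroup G) := ⟨h4, h5⟩
  rw [hKP.disjoint.eq_bot, Subgroup.mem_bot, mul_inv_eq_one] at h6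
  rw [ConjClasses.mk_eq_mk_iff_isConj, isConj_iff]
  exact ⟨⟨u, hu⟩, Subtype.ext h6.symm⟩

/-- Let G be a finite group with Sylow 2-subgroup P, and write k₂(G) for the number of conjugacy classes of G consisting of 2-elements (elements of 2-power order, the identity included). Then k₂(G) > |P|/2 if and only if G has a normal 2-complement and P has more than |P|/2 conjugacy classes. -/
theorem result {G : Type*} [Group G] [Finite G] (P : Sylow 2 G) :
    Nat.card ↥(P : Subgroup G) < 2 * Nat.card {c : ConjClasses G // ∀ x ∈ c.carrier, ∃ k : ℕ, orderOf x = 2 ^ k} ↔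
      Cfsg.HasNormalPComplement 2 G ∧ Nat.card ↥(P : Subgroup G) < 2 * Nat.card (ConjClasses ↥(P : Subgroup G)) := by
  have h1 := card_le_card_conjClasses P
  constructor
  · intro h
    refine ⟨?_, by omega⟩
    by_contra hc
    rw [Cfsg.Agent.S0072.hasNPC_iff, npc_iff_frobCond] at hc
    have h2 := two_mul_card_le hc P
    omega
  · rintro ⟨hc, h⟩
    have h2 := card_conjClasses_le P hc
    omega

end Cfsg.Agent.S3895
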