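import Cfsg.Statements.S3899
import Cfsg.Agent.S3897

set_option autoImplicit false
open Cfsg

namespace Cfsg.Agent.S3899

universe u

lemma exists_decomp {G : Type*} [Group G] [Finite G] (x : G) {r : ℕ} (hr : r.Prime) :
    ∃ y z : G, x = y * z ∧ Commute y z ∧ (∃ k, orderOf y = r ^ k) ∧ orderOf z ∣ orderOf x ∧
      ¬ r ∣ orderOf z := by
  obtain ⟨a, m, hm, hn⟩ := Nat.exists_eq_pow_mul_and_not_dvd (orderOf_pos x).ne' r hr.ne_one
  have hcop : Nat.Coprime (r ^ a) m := Nat.Coprime.pow_left _ ((Nat.Prime.coprime_iff_not_dvd hr).mpr hm)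
  have hb := Nat.gcd_eq_gcd_ab (r ^ a) m
  rw [hcop.gcd_eq_one] at hb
  set u := Nat.gcdA (r ^ a) m
  set v := Nat.gcdB (r ^ a) m
  refine ⟨x ^ ((m : ℤ) * v), x ^ (((r ^ a : ℕ) : ℤ) * u), ?_, Commute.zpow_zpow_self x _ _, ?_, ?_, ?_⟩
  · rw [← zpow_add, add_comm, ← hb]; simp
  · have h1 : (x ^ ((m : ℤ) * v)) ^ (r ^ a) = 1 := by
      rw [← zpow_natCast, ← zpow_mul]
      have : (m : ℤ) * v * ((r ^ a : ℕ) : ℤ) = ((orderOf x : ℕ) : ℤ) * v := by
        rw [hn]; push_cast; ring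
      rw [this, zpow_mul, zpow_natCast, pow_orderOf_eq_one, one_zpow]
    obtain ⟨k, -, hk⟩ := (Nat.dvd_prime_pow hr).mp (orderOf_dvd_of_pow_eq_one h1)
    exact ⟨k, hk⟩
  all_goals
    have h1 : (x ^ (((r ^ a : ℕ) : ℤ) * u)) ^ m = 1 := by
      rw [← zpow_natCast, ← zpow_mul]
      have : ((r ^ a : ℕ) : ℤ) * u * (m : ℤ) = ((orderOf x : ℕ) : ℤ) * u := by
        rw [hn]; push_cast; ring
      rw [this, zpow_mul, zpow_natCast, pow_orderOf_eq_one, one_zpow]
    have h2 := orderOf_dvd_of_pow_eq_one h1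
  · exact h2.trans (hn ▸ Dvd.intro_left _ rfl)
  · exact fun h3 => hm (h3.trans h2)

lemma mk_out {G : Type*} [Group G] (c : ConjClasses G) : ConjClasses.mk (Quotient.out c) = c :=
  Quotient.out_eq c

lemma card_insert_le {G : Type u} [Group G] [Finite G] {r : ℕ} (hr : r.Prime) (σ : Finset ℕ) (M : ℕ)
    (hM : ∀ y : G, Nat.card {c : ConjClasses (Subgroup.centralizer ({y} : Set G)) //
      ∀ x ∈ c.carrier, ∀ q : ℕ, q.Prime → q ∣ orderOf x → q ∈ σ} ≤ M) :
    Nat.card {c : ConjClasses G // ∀ x ∈ c.carrier, ∀ q : ℕ, q.Prime → q ∣ orderOf x → q ∈ insert r σ} ≤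
      Nat.card {c : ConjClasses G // ∀ x ∈ c.carrier, ∃ k : ℕ, orderOf x = r ^ k} * M := by
  classical
  let Y := {c : ConjClasses G // ∀ x ∈ c.carrier, ∃ k : ℕ, orderOf x = r ^ k}
  let rep : Y → G := fun c => Quotient.out c.1
  let Z : G → Type u := fun y => {c : ConjClasses (Subgroup.centralizer ({y} : Set G)) //
      ∀ x ∈ c.carrier, ∀ q : ℕ, q.Prime → q ∣ orderOf x → q ∈ σ}
  have hrep : ∀ c : Y, ∃ k : ℕ, orderOf (rep c) = r ^ k := by
    intro c
    apply c.2
    rw [ConjClasses.mem_carrier_iff_mk_eq]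
    exact mk_out c.1
  have hprop : ∀ (c : Y) (d : Z (rep c)), ∀ x ∈ (ConjClasses.mk (rep c * ((Quotient.out d.1 : Subgroup.centralizer ({rep c} : Set G)) : G))).carrier,
      ∀ q : ℕ, q.Prime → q ∣ orderOf x → q ∈ insert r σ := by
    intro c d x hx q hq hqx
    rw [S3897.orderOf_of_mem_carrier hx] at hqx
    set z := (Quotient.out d.1 : Subgroup.centralizer ({rep c} : Set G)) with hz
    have hcomm : Commute (rep c) (z : G) := Subgroup.mem_centralizer_iff.mp z.2 (rep c) (Set.mem_singleton _)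
    have h1 := hqx.trans hcomm.orderOf_mul_dvd_mul_orderOf
    obtain ⟨k, hk⟩ := hrep c
    rcases (Nat.Prime.dvd_mul hq).mp h1 with h2 | h2
    · rw [hk] at h2
      have := (Nat.prime_dvd_prime_iff_eq hq hr).mp (hq.dvd_of_dvd_pow h2)
      rw [this]; exact Finset.mem_insert_self _ _
    · apply Finset.mem_insert_of_mem
      apply d.2 z _ q hq
      · rwa [Subgroup.orderOf_coe] at h2
      · rw [ConjClasses.mem_carrier_iff_mk_eq]; exact mk_out d.1
  let Ψ : (Σ c : Y, Z (rep c)) →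
      {c : ConjClasses G // ∀ x ∈ c.carrier, ∀ q : ℕ, q.Prime → q ∣ orderOf x → q ∈ insert r σ} :=
    fun a => ⟨ConjClasses.mk (rep a.1 * ((Quotient.out a.2.1 : Subgroup.centralizer ({rep a.1} : Set G)) : G)),
      hprop a.1 a.2⟩
  have hsurj : Function.Surjective Ψ := by
    rintro ⟨c, hc⟩
    obtain ⟨x, rfl⟩ := ConjClasses.exists_rep c
    obtain ⟨y, z, hxyz, hcomm, ⟨k, hk⟩, hzx, hrz⟩ := exists_decomp x hr
    let c₀ : Y := ⟨ConjClasses.mk y, fun w hw => ⟨k, by rw [S3897.orderOf_of_mem_carrier hw, hk]⟩⟩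
    have h1 : ConjClasses.mk (rep c₀) = ConjClasses.mk y := mk_out _
    rw [ConjClasses.mk_eq_mk_iff_isConj, isConj_comm, isConj_iff] at h1
    obtain ⟨g, hg⟩ := h1
    have hz' : g * z * g⁻¹ ∈ Subgroup.centralizer ({rep c₀} : Set G) := by
      rw [Subgroup.mem_centralizer_iff]
      intro a ha
      rw [Set.mem_singleton_iff.mp ha, ← hg]
      have := hcomm.eq
      calc g * y * g⁻¹ * (g * z * g⁻¹) = g * (y * z) * g⁻¹ := by group
        _ = g * (z * y) * g⁻¹ := by rw [this]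
        _ = g * z * g⁻¹ * (g * y * g⁻¹) := by group
    have hoz : orderOf (g * z * g⁻¹) = orderOf z := (MulAut.conj g).orderOf_eq z
    let d₀ : Z (rep c₀) := ⟨ConjClasses.mk ⟨g * z * g⁻¹, hz'⟩, by
      intro w hw q hq hqw
      rw [S3897.orderOf_of_mem_carrier hw, ← Subgroup.orderOf_coe] at hqw
      simp only at hqw
      rw [hoz] at hqw
      have h2 := hc x ConjClasses.mem_carrier_mk q hq (hqw.trans hzx)
      rcases Finset.mem_insert.mp h2 with h3 | h3
      · exact absurd (h3 ▸ hqw) hrz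
      · exact h3⟩
    refine ⟨⟨c₀, d₀⟩, ?_⟩
    apply Subtype.ext
    show ConjClasses.mk (rep c₀ * ((Quotient.out d₀.1 : Subgroup.centralizer ({rep c₀} : Set G)) : G)) = ConjClasses.mk x
    have h3 : ConjClasses.mk (Quotient.out d₀.1) = ConjClasses.mk (⟨g * z * g⁻¹, hz'⟩ : Subgroup.centralizer ({rep c₀} : Set G)) := mk_out _
    rw [ConjClasses.mk_eq_mk_iff_isConj, isConj_comm, isConj_iff] at h3
    obtain ⟨h, hh⟩ := h3
    have hh' : (h : G) * (g * z * g⁻¹) * (h : G)⁻¹ = ((Quotient.out d₀.1 : Subgroup.centralizer ({rep c₀} : Set G)) : G) :=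
      congrArg Subtype.val hh
    have hcomm2 : (rep c₀) * (h : G) = (h : G) * rep c₀ := Subgroup.mem_centralizer_iff.mp h.2 (rep c₀) (Set.mem_singleton _)
    rw [ConjClasses.mk_eq_mk_iff_isConj, isConj_comm, isConj_iff]
    refine ⟨(h : G) * g, ?_⟩
    rw [← hh', hxyz]
    generalize (h : G) = h' at hcomm2 ⊢
    calc h' * g * (y * z) * (h' * g)⁻¹ = h' * (g * y * g⁻¹) * h'⁻¹ * (h' * (g * z * g⁻¹) * h'⁻¹) := by group
      _ = h' * rep c₀ * h'⁻¹ * (h' * (g * z * g⁻¹) * h'⁻¹) := by rw [hg]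
      _ = rep c₀ * (h' * (g * z * g⁻¹) * h'⁻¹) := by rw [← hcomm2, mul_inv_cancel_right]
  have h1 := Nat.card_le_card_of_surjective Ψ hsurj
  refine h1.trans ?_
  let _ : Fintype Y := Fintype.ofFinite _
  rw [Nat.card_sigma]
  calc ∑ a : Y, Nat.card (Z (rep a)) ≤ ∑ _a : Y, M := Finset.sum_le_sum (fun a _ => hM (rep a))
    _ = Nat.card Y * M := by rw [Finset.sum_const, Finset.card_univ, smul_eq_mul, Nat.card_eq_fintype_card]

lemma card_pClasses_le {G : Type*} [Group G] [Finite G] {r : ℕ} [Fact r.Prime] :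
    Nat.card {c : ConjClasses G // ∀ x ∈ c.carrier, ∃ k : ℕ, orderOf x = r ^ k} ≤
      r ^ (Nat.card G).factorization r := by
  obtain ⟨P⟩ : Nonempty (Sylow r G) := inferInstance
  rw [← P.card_eq_multiplicity]
  exact (S3897.card_le_orbits P).trans (Nat.card_le_card_of_surjective _ Quotient.mk_surjective)

lemma card_piClasses_le (σ : Finset ℕ) (hσ : ∀ s ∈ σ, s.Prime) : ∀ (H : Type u) [Group H] [Finite H],
    Nat.card {c : ConjClasses H // ∀ x ∈ c.carrier, ∀ q : ℕ, q.Prime → q ∣ orderOf x → q ∈ σ} ≤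
      σ.prod (fun s => s ^ (Nat.card H).factorization s) := by
  induction σ using Finset.induction_on with
  | empty =>
    intro H _ _
    simp only [Finset.prod_empty]
    rw [Finite.card_le_one_iff_subsingleton]
    have key : ∀ a : {c : ConjClasses H // ∀ x ∈ c.carrier, ∀ q : ℕ, q.Prime → q ∣ orderOf x → q ∈ (∅ : Finset ℕ)},
        a.1 = ConjClasses.mk 1 := by
      rintro ⟨a, ha⟩
      obtain ⟨x, rfl⟩ := ConjClasses.exists_rep a
      have h1 : orderOf x = 1 := by
        by_contra hne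
        obtain ⟨q, hq, hqx⟩ := Nat.exists_prime_and_dvd hne
        exact absurd (ha x ConjClasses.mem_carrier_mk q hq hqx) (Finset.notMem_empty q)
      rw [orderOf_eq_one_iff] at h1
      exact congrArg ConjClasses.mk h1
    exact ⟨fun a b => Subtype.ext ((key a).trans (key b).symm)⟩
  | insert r σ hr ih =>
    intro H _ _
    have hrp : r.Prime := hσ r (Finset.mem_insert_self _ _)
    have : Fact r.Prime := ⟨hrp⟩
    have ih' := ih (fun s hs => hσ s (Finset.mem_insert_of_mem hs))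
    rw [Finset.prod_insert hr]
    refine (card_insert_le hrp σ (σ.prod fun s => s ^ (Nat.card H).factorization s) ?_).trans
      (Nat.mul_le_mul_right _ card_pClasses_le)
    intro y
    refine (ih' _).trans ?_
    apply Finset.prod_le_prod (fun _ _ => Nat.zero_le _)
    intro s hs
    apply Nat.pow_le_pow_right (hσ s (Finset.mem_insert_of_mem hs)).pos
    exact (Nat.factorization_le_iff_dvd Nat.card_pos.ne' Nat.card_pos.ne').mpr
      (Subgroup.card_subgroup_dvd_card _) s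

lemma complement_props {G : Type*} [Group G] [Finite G] {r : ℕ} [Fact r.Prime] (P : Sylow r G)
    (hc : Cfsg.HasNormalPComplement r G) (hab : IsMulCommutative ↥(P : Subgroup G)) :
    ∃ K : Subgroup G, K.Normal ∧ ¬ r ∣ Nat.card K ∧ (∃ m, K.index = r ^ m) ∧
      ∀ a b : G, a * b * a⁻¹ * b⁻¹ ∈ K := by
  obtain ⟨P₀, K, hKn, hK⟩ := hc
  have hnd : ¬ r ∣ Nat.card K := by
    rw [← hK.index_eq_card]; exact P₀.not_dvd_index
  have hcardP : Nat.card (P : Subgroup G) = Nat.card (P₀ : Subgroup G) := by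
    rw [P.card_eq_multiplicity, P₀.card_eq_multiplicity]
  have hKP : K.IsComplement' P := by
    apply Subgroup.isComplement'_of_coprime
    · rw [hcardP]; exact hK.card_mul_card
    · obtain ⟨n, hn⟩ := P.2.exists_card_eq
      rw [hn]
      apply Nat.Coprime.pow_right
      rw [Nat.coprime_comm, Nat.Prime.coprime_iff_not_dvd Fact.out]
      exact hnd
  refine ⟨K, hKn, hnd, ?_, ?_⟩
  · obtain ⟨n, hn⟩ := P.2.exists_card_eq
    exact ⟨n, by rw [hKP.symm.index_eq_card, hn]⟩
  · intro a b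
    have hmk : ∀ g : G, ∃ u ∈ (P : Subgroup G), (QuotientGroup.mk' K g) = QuotientGroup.mk' K u := by
      intro g
      obtain ⟨⟨⟨k, hk⟩, ⟨u, hu⟩⟩, hku⟩ := (hKP.existsUnique g).exists
      simp only at hku
      refine ⟨u, hu, ?_⟩
      have hk1 : QuotientGroup.mk' K k = 1 := (QuotientGroup.eq_one_iff k).mpr hk
      rw [← hku, map_mul, hk1, one_mul]
    obtain ⟨u, hu, hau⟩ := hmk a
    obtain ⟨v, hv, hbv⟩ := hmk b
    have huv : u * v = v * u := congrArg Subtype.val (hab.is_comm.comm (⟨u, hu⟩ : (P : Subgroup G)) ⟨v, hv⟩)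
    rw [← QuotientGroup.eq_one_iff, ← QuotientGroup.mk'_apply, map_mul, map_mul, map_mul, map_inv, map_inv,
      hau, hbv, ← map_mul, huv, map_mul]
    group

/-- Let π be a finite non-empty set of odd primes with smallest member p and G a finite group. Write k_π(G) for the number of conjugacy classes of G consisting of π-elements (elements all of whose order's prime divisors lie in π) and |G|_π for the π-part of the order of G. If k_π(G) > (p + 1)|G|_π/(2p), then G has a normal π-complement (a normal subgroup of order prime to π whose index is a π-number) and an abelian Hall π-subgroup. -/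
theorem result {G : Type*} [Group G] [Finite G] (π : Finset ℕ) (hπ : ∀ r ∈ π, r.Prime) (h2 : 2 ∉ π) (p : ℕ) (hp : p ∈ π)
    (hmin : ∀ r ∈ π, p ≤ r) (hk : (p + 1) * π.prod (fun r => r ^ (Nat.card G).factorization r) < 2 * p * Nat.card {c : ConjClasses G // ∀ x ∈ c.carrier, ∀ r : ℕ, r.Prime → r ∣ orderOf x → r ∈ π}) :
    (∃ N : Subgroup G, N.Normal ∧ (∀ r : ℕ, r.Prime → r ∣ Nat.card ↥N → r ∉ π) ∧ ∀ r : ℕ, r.Prime → r ∣ N.index → r ∈ π) ∧ ∃ H : Subgroup G, Cfsg.IsPiHall (↑π : Set ℕ) H ∧ IsMulCommutative ↥H := by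
  classical
  have key : ∀ r ∈ π, ∃ K : Subgroup G, K.Normal ∧ ¬ r ∣ Nat.card K ∧ (∃ m, K.index = r ^ m) ∧
      ∀ a b : G, a * b * a⁻¹ * b⁻¹ ∈ K := by
    intro r hr
    have hrp : r.Prime := hπ r hr
    have : Fact r.Prime := ⟨hrp⟩
    have hpp : p.Prime := hπ p hp
    obtain ⟨P⟩ : Nonempty (Sylow r G) := inferInstance
    have hr2 : r ≠ 2 := fun h => h2 (h ▸ hr)
    have hk' := hk
    rw [← Finset.insert_erase hr, Finset.prod_insert (Finset.notMem_erase r π)] at hk'
    have h1 := card_insert_le (G := G) hrp (π.erase r) ((π.erase r).prod fun s => s ^ (Nat.card G).factorization s) (by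
      intro y
      refine (card_piClasses_le (π.erase r) (fun s hs => hπ s (Finset.mem_of_mem_erase hs)) _).trans ?_
      apply Finset.prod_le_prod (fun _ _ => Nat.zero_le _)
      intro s hs
      apply Nat.pow_le_pow_right (hπ s (Finset.mem_of_mem_erase hs)).pos
      exact (Nat.factorization_le_iff_dvd Nat.card_pos.ne' Nat.card_pos.ne').mpr
        (Subgroup.card_subgroup_dvd_card _) s)
    set E := (π.erase r).prod fun s => s ^ (Nat.card G).factorization s with hE
    set kπ := Nat.card {c : ConjClasses G // ∀ x ∈ c.carrier, ∀ q : ℕ, q.Prime → q ∣ orderOf x → q ∈ insert r (π.erase r)} with hkπ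
    set kr := Nat.card {c : ConjClasses G // ∀ x ∈ c.carrier, ∃ k : ℕ, orderOf x = r ^ k} with hkr
    rw [← P.card_eq_multiplicity] at hk'
    set A := Nat.card (P : Subgroup G) with hA
    have h3 : (p + 1) * A < 2 * p * kr := by
      have h4 : (p + 1) * A * E < 2 * p * kr * E := by
        calc (p + 1) * A * E = (p + 1) * (A * E) := by ring
          _ < 2 * p * kπ := hk'
          _ ≤ 2 * p * (kr * E) := Nat.mul_le_mul_left _ h1
          _ = 2 * p * kr * E := by ring
      exact Nat.lt_of_mul_lt_mul_right h4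
    have hpr : p ≤ r := hmin r hr
    have h5 : (r + 1) * A < 2 * r * kr := by
      have h6 : p * ((r + 1) * A) < p * (2 * r * kr) := by
        calc p * ((r + 1) * A) ≤ r * ((p + 1) * A) := by nlinarith
          _ < r * (2 * p * kr) := Nat.mul_lt_mul_of_pos_left h3 hrp.pos
          _ = p * (2 * r * kr) := by ring
      exact Nat.lt_of_mul_lt_mul_left h6
    obtain ⟨hc, hab⟩ := (S3897.result hr2 P).mp h5
    exact complement_props P hc hab
  choose! K hKn hKnd hKidx hKcomm using key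
  set N : Subgroup G := ⨅ r : π, K r.1 with hN
  have hNle : ∀ r ∈ π, N ≤ K r := fun r hr => iInf_le (fun r : π => K r.1) ⟨r, hr⟩
  have hNn : N.Normal := Subgroup.normal_iInf_normal (fun r : π => hKn r.1 r.2)
  have hN1 : ∀ r : ℕ, r.Prime → r ∣ Nat.card ↥N → r ∉ π := by
    intro r _ hrN hr
    exact hKnd r hr (hrN.trans (Subgroup.card_dvd_of_le (hNle r hr)))
  have hN2 : ∀ r : ℕ, r.Prime → r ∣ N.index → r ∈ π := by
    intro q hq hqN
    by_contra hqπ
    have : Fact q.Prime := ⟨hq⟩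
    obtain ⟨Q⟩ : Nonempty (Sylow q G) := inferInstance
    have hQN : (Q : Subgroup G) ≤ N := by
      intro g hg
      rw [hN, Subgroup.mem_iInf]
      rintro ⟨r, hr⟩
      have := hKn r hr
      obtain ⟨j, hj⟩ := (IsPGroup.iff_orderOf.mp Q.2) ⟨g, hg⟩
      rw [Subgroup.orderOf_mk] at hj
      obtain ⟨m, hm⟩ := hKidx r hr
      have h1 : orderOf (QuotientGroup.mk' (K r) g) ∣ q ^ j := hj ▸ orderOf_map_dvd _ g
      have h2 : orderOf (QuotientGroup.mk' (K r) g) ∣ r ^ m := by
        rw [← hm, Subgroup.index_eq_card]; exact orderOf_dvd_natCard _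
      have hqr : q ≠ r := fun h => hqπ (h ▸ hr)
      have hcop : Nat.Coprime (q ^ j) (r ^ m) :=
        Nat.Coprime.pow _ _ ((Nat.coprime_primes hq (hπ r hr)).mpr hqr)
      have h3 := Nat.eq_one_of_dvd_coprimes hcop h1 h2
      rw [orderOf_eq_one_iff] at h3
      exact (QuotientGroup.eq_one_iff g).mp h3
    exact Q.not_dvd_index (hqN.trans (Subgroup.index_dvd_of_le hQN))
  have hNcomm : ∀ a b : G, a * b * a⁻¹ * b⁻¹ ∈ N := by
    intro a b
    rw [hN, Subgroup.mem_iInf]
    rintro ⟨r, hr⟩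
    exact hKcomm r hr a b
  refine ⟨⟨N, hNn, hN1, hN2⟩, ?_⟩
  have hcop : Nat.Coprime (Nat.card N) N.index :=
    Nat.coprime_of_dvd (fun q hq h1 h2 => hN1 q hq h1 (hN2 q hq h2))
  obtain ⟨H, hH⟩ := Subgroup.exists_right_complement'_of_coprime hcop
  refine ⟨H, ⟨?_, ?_⟩, ?_⟩
  · intro q hq hqH
    rw [← hH.symm.index_eq_card] at hqH
    exact hN2 q hq hqH
  · intro q hq hqπ hqH
    rw [hH.index_eq_card] at hqH
    exact hN1 q hq hqH hqπ
  · refine ⟨⟨fun a b => ?_⟩⟩
    have h1 : (a : G) * b * (a : G)⁻¹ * (b : G)⁻¹ ∈ N ⊓ H :=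
      ⟨hNcomm a b, H.mul_mem (H.mul_mem (H.mul_mem a.2 b.2) (H.inv_mem a.2)) (H.inv_mem b.2)⟩
    rw [hH.disjoint.eq_bot, Subgroup.mem_bot, mul_inv_eq_one, mul_inv_eq_iff_eq_mul] at h1
    exact Subtype.ext h1

end Cfsg.Agent.S3899
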