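import Cfsg.Statements.S3898
import Cfsg.Agent.S3895
import Cfsg.Agent.S3897
import Cfsg.Agent.S3899

set_option autoImplicit false
open Cfsg

namespace Cfsg.Agent.S3898

open scoped Pointwise

/-- Burnside count for the normalizer of a Sylow subgroup acting on it. -/
lemma orbit_bound' {G : Type*} [Group G] [Finite G] {p : ℕ} [Fact p.Prime] (P : Sylow p G) :
    p * (Nat.card (MulAction.orbitRel.Quotient (Subgroup.normalizer ((P : Subgroup G) : Set G)) (P : Subgroup G))
        * Nat.card (Subgroup.normalizer ((P : Subgroup G) : Set G)))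
      ≤ Nat.card (Subgroup.normalizer ((P : Subgroup G) : Set G)) * Nat.card (P : Subgroup G) +
        Nat.card ((Subgroup.centralizer ((P : Subgroup G) : Set G)).subgroupOf
          (Subgroup.normalizer ((P : Subgroup G) : Set G))) * ((p - 1) * Nat.card (P : Subgroup G)) := by
  classical
  have hp : p.Prime := Fact.out
  set N := Subgroup.normalizer ((P : Subgroup G) : Set G) with hN
  set s := Nat.card (P : Subgroup G) with hs
  let _ : Fintype N := Fintype.ofFinite _
  let _ : Fintype (P : Subgroup G) := Fintype.ofFinite _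
  let _ : Fintype (MulAction.orbitRel.Quotient N (P : Subgroup G)) := Fintype.ofFinite _
  have hB := MulAction.sum_card_fixedBy_eq_card_orbits_mul_card_group N (P : Subgroup G)
  set C : Subgroup N := (Subgroup.centralizer ((P : Subgroup G) : Set G)).subgroupOf N with hC
  have hbound : ∀ n : N, p * Fintype.card (MulAction.fixedBy (P : Subgroup G) n) ≤
      s + (if n ∈ C then (p - 1) * s else 0) := by
    intro n
    by_cases hn : n ∈ C
    · rw [if_pos hn]
      have h1 : Fintype.card (MulAction.fixedBy (P : Subgroup G) n) ≤ s := by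
        rw [hs, Nat.card_eq_fintype_card]
        exact Fintype.card_subtype_le _
      have h2 : s + (p - 1) * s = p * s := by
        obtain ⟨q, rfl⟩ : ∃ q, p = q + 1 := ⟨p - 1, (Nat.succ_pred_eq_of_pos hp.pos).symm⟩
        simp; ring
      rw [h2]
      exact Nat.mul_le_mul_left _ h1
    · rw [if_neg hn, add_zero]
      let F : Subgroup (P : Subgroup G) :=
        { carrier := MulAction.fixedBy (P : Subgroup G) n
          mul_mem' := by
            intro a b ha hb
            rw [MulAction.mem_fixedBy] at *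
            rw [smul_mul', ha, hb]
          one_mem' := by
            rw [MulAction.mem_fixedBy]; exact smul_one n
          inv_mem' := by
            intro a ha
            rw [MulAction.mem_fixedBy] at *
            rw [smul_inv', ha] }
      have hFtop : F ≠ ⊤ := by
        intro h
        apply hn
        rw [hC, Subgroup.mem_subgroupOf, Subgroup.mem_centralizer_iff]
        intro a ha
        have h1 : (⟨a, ha⟩ : (P : Subgroup G)) ∈ F := h ▸ Subgroup.mem_top _
        have h2 : n • (⟨a, ha⟩ : (P : Subgroup G)) = ⟨a, ha⟩ := h1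
        have h3 := congrArg Subtype.val h2
        have h4 : (n : G) * a * (n : G)⁻¹ = a := h3
        rw [mul_inv_eq_iff_eq_mul] at h4
        exact h4.symm
      have hcardF : Fintype.card (MulAction.fixedBy (P : Subgroup G) n) = Nat.card F := by
        rw [← Nat.card_eq_fintype_card]; rfl
      obtain ⟨j, hj⟩ := P.2.index F
      have hj0 : j ≠ 0 := by
        rintro rfl
        rw [pow_zero, Subgroup.index_eq_one] at hj
        exact hFtop hj
      have hple : p ≤ F.index := by
        rw [hj]
        calc p = p ^ 1 := (pow_one p).symm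
          _ ≤ p ^ j := Nat.pow_le_pow_right hp.pos (Nat.one_le_iff_ne_zero.mpr hj0)
      rw [hcardF, hs, ← F.index_mul_card]
      exact Nat.mul_le_mul_right _ hple
  have hsum : p * ∑ n : N, Fintype.card (MulAction.fixedBy (P : Subgroup G) n) ≤
      Nat.card N * s + Nat.card C * ((p - 1) * s) := by
    rw [Finset.mul_sum]
    refine (Finset.sum_le_sum (fun n _ => hbound n)).trans ?_
    rw [Finset.sum_add_distrib, Finset.sum_const, Finset.card_univ, smul_eq_mul, ← Nat.card_eq_fintype_card,
      ← Finset.sum_filter, Finset.sum_const, smul_eq_mul]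
    apply le_of_eq
    congr 2
    rw [Nat.card_eq_fintype_card, Fintype.card_subtype]
  rw [hB, ← Nat.card_eq_fintype_card, ← Nat.card_eq_fintype_card] at hsum
  exact hsum

/-- If more than half of `|R|` classes of `r`-elements exist (`r` odd), then the elements of odd order
normalizing the Sylow subgroup `R` centralize it. -/
lemma good_of_lt {G : Type*} [Group G] [Finite G] {r : ℕ} [Fact r.Prime] (hr2 : r ≠ 2) (R : Sylow r G)
    (h : Nat.card (R : Subgroup G) <
      2 * Nat.card {c : ConjClasses G // ∀ x ∈ c.carrier, ∃ k : ℕ, orderOf x = r ^ k})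
    (w : G) (hw : w ∈ Subgroup.normalizer ((R : Subgroup G) : Set G)) (hodd : Odd (orderOf w)) :
    w ∈ Subgroup.centralizer ((R : Subgroup G) : Set G) := by
  classical
  have hr : r.Prime := Fact.out
  have hr3 : 3 ≤ r := by
    have := hr.two_le
    omega
  have h1 := orbit_bound' R
  have h2 := S3897.card_le_orbits R
  set N := Subgroup.normalizer ((R : Subgroup G) : Set G) with hN
  set s := Nat.card (R : Subgroup G) with hs
  set o := Nat.card (MulAction.orbitRel.Quotient N (R : Subgroup G)) with ho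
  set C : Subgroup N := (Subgroup.centralizer ((R : Subgroup G) : Set G)).subgroupOf N with hC
  have hCn : C.Normal := Subgroup.normal_subgroupOf_of_le_normalizer
    (S3895.normalizer_le_normalizer_centralizer' (R : Subgroup G))
  set m := C.index with hm
  have hm0 : m ≠ 0 := Subgroup.index_ne_zero_of_finite
  have hspos : 0 < s := Nat.card_pos
  have hCpos : 0 < Nat.card C := Nat.card_pos
  have h3 : r * (o * m) ≤ m * s + (r - 1) * s := by
    rw [← C.index_mul_card, ← hm] at h1
    apply Nat.le_of_mul_le_mul_right _ hCpos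
    calc r * (o * m) * Nat.card C = r * (o * (m * Nat.card C)) := by ring
      _ ≤ m * Nat.card C * s + Nat.card C * ((r - 1) * s) := h1
      _ = (m * s + (r - 1) * s) * Nat.card C := by ring
  have h4 : s < 2 * o := by omega
  obtain ⟨q, rfl⟩ : ∃ q, r = q + 1 := ⟨r - 1, by omega⟩
  simp only [Nat.add_sub_cancel] at h3
  have h5 : (q + 1) * m < 2 * (m + q) := by
    apply Nat.lt_of_mul_lt_mul_right (a := s)
    calc (q + 1) * m * s < (q + 1) * m * (2 * o) :=
          Nat.mul_lt_mul_of_pos_left h4 (Nat.mul_pos (Nat.succ_pos _) (Nat.pos_of_ne_zero hm0))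
      _ = 2 * ((q + 1) * (o * m)) := by ring
      _ ≤ 2 * (m * s + q * s) := Nat.mul_le_mul_left _ h3
      _ = 2 * (m + q) * s := by ring
  have hm3 : m ≤ 3 := by
    by_contra hcon
    have : 4 ≤ m := by omega
    nlinarith
  have hm3' : m = 3 → q + 1 = 3 := by
    intro h
    rw [h] at h5
    omega
  have hcyc : IsCyclic (N ⧸ C) := by
    have hcard : Nat.card (N ⧸ C) = m := (Subgroup.index_eq_card C).symm
    have hcases : m = 1 ∨ m = 2 ∨ m = 3 := by omega
    rcases hcases with h | h | h
    · have : Subsingleton (N ⧸ C) := (Nat.card_eq_one_iff_unique.mp (hcard.trans h)).1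
      exact isCyclic_of_subsingleton
    · have : Fact (Nat.Prime 2) := ⟨Nat.prime_two⟩
      exact isCyclic_of_prime_card (hcard.trans h)
    · have : Fact (Nat.Prime 3) := ⟨Nat.prime_three⟩
      exact isCyclic_of_prime_card (hcard.trans h)
  have hRN : (R : Subgroup G) ≤ N := Subgroup.le_normalizer
  let f : ↥(R : Subgroup G) →* N ⧸ C := (QuotientGroup.mk' C).comp (Subgroup.inclusion hRN)
  have hker : f.ker ≤ Subgroup.center ↥(R : Subgroup G) := by
    intro x hx
    rw [MonoidHom.mem_ker] at hx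
    have hx' : Subgroup.inclusion hRN x ∈ C := (QuotientGroup.eq_one_iff _).mp hx
    rw [hC, Subgroup.mem_subgroupOf, Subgroup.mem_centralizer_iff] at hx'
    rw [Subgroup.mem_center_iff]
    intro y
    exact Subtype.ext (hx' y y.2)
  have hab := f.isMulCommutative_of_isCyclic_of_ker_le_center hker
  have hRC : (R : Subgroup G).subgroupOf N ≤ C := by
    intro x hx
    rw [Subgroup.mem_subgroupOf] at hx
    rw [hC, Subgroup.mem_subgroupOf, Subgroup.mem_centralizer_iff]
    intro y hy
    exact congrArg Subtype.val (hab.is_comm.comm (⟨y, hy⟩ : (R : Subgroup G)) ⟨x, hx⟩)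
  have hndvd : ¬ (q + 1) ∣ m := by
    intro hd
    have h6 : m ∣ (R : Subgroup G).relIndex N := Subgroup.index_dvd_of_le hRC
    have h7 : (R : Subgroup G).relIndex N ∣ (R : Subgroup G).index :=
      Dvd.intro _ (Subgroup.relIndex_mul_index hRN)
    exact R.not_dvd_index (hd.trans (h6.trans h7))
  have hm2 : m = 1 ∨ m = 2 := by
    have : m ≠ 3 := by
      intro h
      apply hndvd
      rw [hm3' h, h]
    omega
  have hw2 : (⟨w, hw⟩ : N) ^ 2 ∈ C := by
    have h6 := Subgroup.pow_index_mem C (⟨w, hw⟩ : N)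
    rw [← hm] at h6
    rcases hm2 with h | h
    · rw [h, pow_one] at h6
      exact C.pow_mem h6 2
    · rwa [h] at h6
  rw [hC, Subgroup.mem_subgroupOf] at hw2
  have hw3 : w ^ 2 ^ 1 ∈ Subgroup.centralizer ((R : Subgroup G) : Set G) := by
    simpa using hw2
  exact S3895.mem_of_pow_mem_of_coprime _ w 2 1 (Nat.coprime_two_right.mpr hodd) hw3

lemma lt_of_lt {G : Type*} [Group G] [Finite G] (π : Finset ℕ) (hπ : ∀ r ∈ π, r.Prime)
    (hk : π.prod (fun r => r ^ (Nat.card G).factorization r) < 2 * Nat.card {c : ConjClasses G // ∀ x ∈ c.carrier, ∀ r : ℕ, r.Prime → r ∣ orderOf x → r ∈ π})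
    (r : ℕ) (hr : r ∈ π) :
    r ^ (Nat.card G).factorization r <
      2 * Nat.card {c : ConjClasses G // ∀ x ∈ c.carrier, ∃ k : ℕ, orderOf x = r ^ k} := by
  classical
  have hrp : r.Prime := hπ r hr
  have hk' := hk
  rw [← Finset.insert_erase hr, Finset.prod_insert (Finset.notMem_erase r π)] at hk'
  have h1 := S3899.card_insert_le (G := G) hrp (π.erase r) ((π.erase r).prod fun s => s ^ (Nat.card G).factorization s) (by
    intro y
    refine (S3899.card_piClasses_le (π.erase r) (fun s hs => hπ s (Finset.mem_of_mem_erase hs)) _).trans ?_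
    apply Finset.prod_le_prod (fun _ _ => Nat.zero_le _)
    intro s hs
    apply Nat.pow_le_pow_right (hπ s (Finset.mem_of_mem_erase hs)).pos
    exact (Nat.factorization_le_iff_dvd Nat.card_pos.ne' Nat.card_pos.ne').mpr
      (Subgroup.card_subgroup_dvd_card _) s)
  set E := (π.erase r).prod fun s => s ^ (Nat.card G).factorization s with hE
  set kπ := Nat.card {c : ConjClasses G // ∀ x ∈ c.carrier, ∀ q : ℕ, q.Prime → q ∣ orderOf x → q ∈ insert r (π.erase r)} with hkπ
  set kr := Nat.card {c : ConjClasses G // ∀ x ∈ c.carrier, ∃ k : ℕ, orderOf x = r ^ k} with hkr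
  set A := r ^ (Nat.card G).factorization r with hA
  have h4 : A * E < 2 * kr * E := by
    calc A * E < 2 * kπ := hk'
      _ ≤ 2 * (kr * E) := Nat.mul_le_mul_left _ h1
      _ = 2 * kr * E := by ring
  exact Nat.lt_of_mul_lt_mul_right h4

/-- Let π be a finite set of primes containing 2 and G a finite group. Write k_π(G) for the number of conjugacy classes of G consisting of π-elements (elements all of whose order's prime divisors lie in π) and |G|_π for the π-part of the order of G. If k_π(G) > |G|_π/2, then G has a normal π-complement (a normal subgroup of order prime to π whose index is a π-number) and an abelian Hall subgroup for the set of odd primes in π. -/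
theorem result {G : Type*} [Group G] [Finite G] (π : Finset ℕ) (hπ : ∀ r ∈ π, r.Prime) (h2 : 2 ∈ π)
    (hk : π.prod (fun r => r ^ (Nat.card G).factorization r) < 2 * Nat.card {c : ConjClasses G // ∀ x ∈ c.carrier, ∀ r : ℕ, r.Prime → r ∣ orderOf x → r ∈ π}) :
    (∃ N : Subgroup G, N.Normal ∧ (∀ r : ℕ, r.Prime → r ∣ Nat.card ↥N → r ∉ π) ∧ ∀ r : ℕ, r.Prime → r ∣ N.index → r ∈ π) ∧ ∃ H : Subgroup G, Cfsg.IsPiHall ((↑π : Set ℕ) \ {2}) H ∧ IsMulCommutative ↥H := by
  classical
  have hlt := lt_of_lt π hπ hk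
  have : Fact (Nat.Prime 2) := ⟨Nat.prime_two⟩
  obtain ⟨P⟩ : Nonempty (Sylow 2 G) := inferInstance
  have h2' := hlt 2 h2
  rw [← P.card_eq_multiplicity] at h2'
  obtain ⟨⟨P₀, K, hKn, hK⟩, -⟩ := (S3895.result P).mp h2'
  have hKodd : ¬ 2 ∣ Nat.card K := by
    rw [← hK.index_eq_card]; exact P₀.not_dvd_index
  obtain ⟨a, hKidx⟩ : ∃ a, K.index = 2 ^ a := by
    obtain ⟨n, hn⟩ := P₀.2.exists_card_eq
    exact ⟨n, by rw [hK.symm.index_eq_card, hn]⟩
  set σ := π.erase 2 with hσ
  have key : ∀ r ∈ σ, ∃ L : Subgroup K, L.Normal ∧ ¬ r ∣ Nat.card L ∧ (∃ m, L.index = r ^ m) ∧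
      ∀ a b : K, a * b * a⁻¹ * b⁻¹ ∈ L := by
    intro r hr
    have hrπ : r ∈ π := Finset.mem_of_mem_erase hr
    have hr2 : r ≠ 2 := Finset.ne_of_mem_erase hr
    have hrp : r.Prime := hπ r hrπ
    have : Fact r.Prime := ⟨hrp⟩
    obtain ⟨R'⟩ : Nonempty (Sylow r K) := inferInstance
    have hcard : Nat.card ((R' : Subgroup K).map K.subtype) = r ^ (Nat.card G).factorization r := by
      rw [Subgroup.card_map_of_injective K.subtype_injective, R'.card_eq_multiplicity]
      congr 1
      rw [← K.card_mul_index, hKidx, Nat.factorization_mul Nat.card_pos.ne' (by positivity),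
        Nat.factorization_pow, Finsupp.add_apply, Finsupp.smul_apply,
        Nat.factorization_eq_zero_of_not_dvd (n := 2) (p := r)]
      · simp
      · intro hd
        exact hr2 ((Nat.prime_dvd_prime_iff_eq hrp Nat.prime_two).mp hd)
    let R : Sylow r G := Sylow.ofCard _ hcard
    have hRcoe : (R : Subgroup G) = (R' : Subgroup K).map K.subtype := rfl
    have hnc : Subgroup.normalizer ((R' : Subgroup K) : Set K) ≤
        Subgroup.centralizer ((R' : Subgroup K) : Set K) := by
      intro n hn
      have h3 : (n : G) ∈ Subgroup.normalizer ((R : Subgroup G) : Set G) := by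
        rw [hRcoe]
        exact Subgroup.le_normalizer_map K.subtype (Subgroup.mem_map_of_mem K.subtype hn)
      have h4 : Odd (orderOf (n : G)) := by
        rw [Subgroup.orderOf_coe, ← Nat.not_even_iff_odd, even_iff_two_dvd]
        exact fun hd => hKodd (hd.trans (orderOf_dvd_natCard n))
      have h5 := good_of_lt hr2 R (by rw [R.card_eq_multiplicity]; exact hlt r hrπ) (n : G) h3 h4
      rw [Subgroup.mem_centralizer_iff] at h5 ⊢
      intro y hy
      exact Subtype.ext (h5 (y : G) (by
        rw [hRcoe]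
        exact Subgroup.mem_map_of_mem K.subtype hy))
    exact S3899.complement_props R'
      ⟨R', _, inferInstance, MonoidHom.ker_transferSylow_isComplement' R' hnc⟩
      ⟨⟨fun a b => Subtype.ext (hnc (Subgroup.le_normalizer b.2) a a.2)⟩⟩
  choose! L hLn hLnd hLidx hLcomm using key
  set N : Subgroup K := ⨅ r : σ, L r.1 with hN
  have hNle : ∀ r ∈ σ, N ≤ L r := fun r hr => iInf_le (fun r : σ => L r.1) ⟨r, hr⟩
  have hNn : N.Normal := Subgroup.normal_iInf_normal (fun r : σ => hLn r.1 r.2)
  have hσp : ∀ r ∈ σ, r.Prime := fun r hr => hπ r (Finset.mem_of_mem_erase hr)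
  have hN1 : ∀ r : ℕ, r.Prime → r ∣ Nat.card ↥N → r ∉ σ := by
    intro r _ hrN hr
    exact hLnd r hr (hrN.trans (Subgroup.card_dvd_of_le (hNle r hr)))
  have hN2 : ∀ r : ℕ, r.Prime → r ∣ N.index → r ∈ σ := by
    intro q hq hqN
    by_contra hqπ
    have : Fact q.Prime := ⟨hq⟩
    obtain ⟨Q⟩ : Nonempty (Sylow q K) := inferInstance
    have hQN : (Q : Subgroup K) ≤ N := by
      intro g hg
      rw [hN, Subgroup.mem_iInf]
      rintro ⟨r, hr⟩
      have := hLn r hr
      obtain ⟨j, hj⟩ := (IsPGroup.iff_orderOf.mp Q.2) ⟨g, hg⟩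
      rw [Subgroup.orderOf_mk] at hj
      obtain ⟨m, hm⟩ := hLidx r hr
      have h1 : orderOf (QuotientGroup.mk' (L r) g) ∣ q ^ j := hj ▸ orderOf_map_dvd _ g
      have h2 : orderOf (QuotientGroup.mk' (L r) g) ∣ r ^ m := by
        rw [← hm, Subgroup.index_eq_card]; exact orderOf_dvd_natCard _
      have hqr : q ≠ r := fun h => hqπ (h ▸ hr)
      have hcop : Nat.Coprime (q ^ j) (r ^ m) :=
        Nat.Coprime.pow _ _ ((Nat.coprime_primes hq (hσp r hr)).mpr hqr)
      have h3 := Nat.eq_one_of_dvd_coprimes hcop h1 h2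
      rw [orderOf_eq_one_iff] at h3
      exact (QuotientGroup.eq_one_iff g).mp h3
    exact Q.not_dvd_index (hqN.trans (Subgroup.index_dvd_of_le hQN))
  have hNcomm : ∀ a b : K, a * b * a⁻¹ * b⁻¹ ∈ N := by
    intro a b
    rw [hN, Subgroup.mem_iInf]
    rintro ⟨r, hr⟩
    exact hLcomm r hr a b
  have hcop : Nat.Coprime (Nat.card N) N.index :=
    Nat.coprime_of_dvd (fun q hq h1 h2 => hN1 q hq h1 (hN2 q hq h2))
  have hmemσ : ∀ q : ℕ, q ∈ σ ↔ q ∈ π ∧ q ≠ 2 := by
    intro q
    rw [hσ, Finset.mem_erase, and_comm]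
  refine ⟨⟨N.map K.subtype, ?_, ?_, ?_⟩, ?_⟩
  · -- normality in G
    constructor
    rintro _ ⟨x, hx, rfl⟩ g
    have hmem : g * (x : G) * g⁻¹ ∈ K := hKn.conj_mem _ x.2 g
    refine ⟨⟨g * (x : G) * g⁻¹, hmem⟩, ?_, rfl⟩
    have ho : orderOf (⟨g * (x : G) * g⁻¹, hmem⟩ : K) = orderOf x := by
      rw [← Subgroup.orderOf_coe, ← Subgroup.orderOf_coe]
      exact (MulAut.conj g).orderOf_eq (x : G)
    have hox : orderOf x ∣ Nat.card N := by
      have := orderOf_dvd_natCard (⟨x, hx⟩ : N)
      rwa [Subgroup.orderOf_mk] at this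
    have hc : Nat.Coprime N.index (orderOf (⟨g * (x : G) * g⁻¹, hmem⟩ : K)) := by
      rw [ho]
      exact (Nat.Coprime.coprime_dvd_left hox hcop).symm
    obtain ⟨m, hm⟩ := exists_pow_eq_self_of_coprime hc
    show (⟨g * (x : G) * g⁻¹, hmem⟩ : K) ∈ N
    rw [← hm]
    exact N.pow_mem (Subgroup.pow_index_mem N _) m
  · intro q hq hqN hqπ
    rw [Subgroup.card_map_of_injective K.subtype_injective] at hqN
    by_cases hq2 : q = 2
    · subst hq2
      exact hKodd (hqN.trans (Subgroup.card_subgroup_dvd_card N))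
    · exact hN1 q hq hqN ((hmemσ q).mpr ⟨hqπ, hq2⟩)
  · intro q hq hqN
    rw [Subgroup.index_map_subtype, hKidx] at hqN
    rcases (Nat.Prime.dvd_mul hq).mp hqN with h | h
    · exact ((hmemσ q).mp (hN2 q hq h)).1
    · have := (Nat.prime_dvd_prime_iff_eq hq Nat.prime_two).mp (hq.dvd_of_dvd_pow h)
      rw [this]; exact h2
  obtain ⟨H, hH⟩ := Subgroup.exists_right_complement'_of_coprime hcop
  have hHab : IsMulCommutative ↥H := by
    refine ⟨⟨fun a b => ?_⟩⟩
    have h1 : (a : K) * b * (a : K)⁻¹ * (b : K)⁻¹ ∈ N ⊓ H :=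
      ⟨hNcomm a b, H.mul_mem (H.mul_mem (H.mul_mem a.2 b.2) (H.inv_mem a.2)) (H.inv_mem b.2)⟩
    rw [hH.disjoint.eq_bot, Subgroup.mem_bot, mul_inv_eq_one, mul_inv_eq_iff_eq_mul] at h1
    exact Subtype.ext h1
  refine ⟨H.map K.subtype, ⟨?_, ?_⟩, Subgroup.map_isMulCommutative H K.subtype⟩
  · intro q hq hqH
    rw [Subgroup.card_map_of_injective K.subtype_injective, ← hH.symm.index_eq_card] at hqH
    have := (hmemσ q).mp (hN2 q hq hqH)
    exact ⟨this.1, this.2⟩
  · intro q hq hqπ hqH
    rw [Subgroup.index_map_subtype, hKidx, hH.index_eq_card] at hqH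
    have hq2 : q ≠ 2 := hqπ.2
    rcases (Nat.Prime.dvd_mul hq).mp hqH with h | h
    · exact hN1 q hq h ((hmemσ q).mpr ⟨hqπ.1, hq2⟩)
    · exact hq2 ((Nat.prime_dvd_prime_iff_eq hq Nat.prime_two).mp (hq.dvd_of_dvd_pow h))

end Cfsg.Agent.S3898
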