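import Cfsg.Statements.S3903
-- import your own Cfsg.Agent.* helpers here

set_option autoImplicit false
open Cfsg

namespace Cfsg.Agent.S3903

open scoped Pointwise

lemma centralizer_isPGroup {G : Type*} [Group G] [Finite G] (N : Subgroup G) [N.Normal]
    (h : ∀ x : G, x ∉ N → IsPrimePow (orderOf x)) {x : G} (hx : x ∉ N) {p k : ℕ} (hp : p.Prime)
    (hk : orderOf x = p ^ k) : IsPGroup p (Subgroup.centralizer ({x} : Set G)) := by
  have hk0 : k ≠ 0 := by
    rintro rfl
    rw [pow_zero, orderOf_eq_one_iff] at hk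
    exact hx (hk ▸ N.one_mem)
  rintro ⟨y, hy⟩
  have hcomm : Commute x y := by
    have := Subgroup.mem_centralizer_iff.mp hy x (Set.mem_singleton x)
    exact this
  obtain ⟨j, m, hm, hjm⟩ := Nat.exists_eq_pow_mul_and_not_dvd (orderOf_pos y).ne' p hp.ne_one
  set w := y ^ (p ^ j) with hw
  have hwo : orderOf w = m := by
    rw [hw, orderOf_pow_of_dvd (pow_ne_zero _ hp.ne_zero) (hjm ▸ Dvd.intro _ rfl), hjm]
    exact Nat.mul_div_cancel_left _ (pow_pos hp.pos _)
  have hcop : Nat.Coprime (p ^ k) m := Nat.Coprime.pow_left _ ((Nat.Prime.coprime_iff_not_dvd hp).mpr hm)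
  have hcw : Commute x w := hcomm.pow_right _
  have hxw : orderOf (x * w) = p ^ k * m := by
    rw [hcw.orderOf_mul_eq_mul_orderOf_of_coprime (by rw [hk, hwo]; exact hcop), hk, hwo]
  have hnot : x * w ∉ N := by
    intro hmem
    have h1 : ((x : G) : G ⧸ N) ^ m = 1 := by
      have : (x * w) ^ m ∈ N := N.pow_mem hmem m
      rw [hcw.mul_pow, ← hwo, pow_orderOf_eq_one, mul_one] at this
      rw [← QuotientGroup.mk_pow, QuotientGroup.eq_one_iff, ← hwo]
      exact this
    have h2 : ((x : G) : G ⧸ N) ^ (p ^ k) = 1 := by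
      rw [← QuotientGroup.mk_pow, ← hk, pow_orderOf_eq_one]; rfl
    have h3 : orderOf ((x : G) : G ⧸ N) = 1 :=
      Nat.eq_one_of_dvd_coprimes hcop (orderOf_dvd_of_pow_eq_one h2) (orderOf_dvd_of_pow_eq_one h1)
    rw [orderOf_eq_one_iff, QuotientGroup.eq_one_iff] at h3
    exact hx h3
  have hpp := h _ hnot
  rw [hxw] at hpp
  have hm1 : m = 1 := by
    rcases (hcop.isPrimePow_dvd_mul hpp).mp dvd_rfl with h1 | h1
    · have := Nat.le_of_dvd (pow_pos hp.pos _) h1
      have hmpos : 0 < m := Nat.pos_of_ne_zero (by rintro rfl; simp at hm)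
      nlinarith [pow_pos hp.pos k]
    · have h2 : p ^ k ∣ m := (Dvd.intro _ rfl).trans h1
      exact absurd ((dvd_pow_self p hk0).trans h2) hm
  refine ⟨j, ?_⟩
  apply Subtype.ext
  have : y ^ (p ^ j) = 1 := by
    rw [← hw, ← orderOf_eq_one_iff, hwo, hm1]
  simpa using this

lemma key_count {G : Type*} [Group G] [Finite G] (N P : Subgroup G) [N.Normal] (hNP : N ⊔ P = ⊤)
    (hconj : ∀ w : G, w ∉ N → ∃ g : G, ∃ y ∈ P, w = g * y * g⁻¹)
    {y g : G} (hy : y ∈ P) (hyN : y ∉ N) (hg : g * y * g⁻¹ ∈ P) : g ∈ P := by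
  obtain ⟨T, hT, h1T⟩ := Subgroup.exists_isComplement_left P 1
  have hconjN : ∀ (a b : G), b ∉ N → a * b * a⁻¹ ∉ N := by
    intro a b hb hab
    apply hb
    have := (inferInstance : N.Normal).conj_mem _ hab a⁻¹
    simpa [mul_assoc] using this
  let Φ : T × ↥((P : Set G) \ (N : Set G)) → ↥((N : Set G)ᶜ) :=
    fun a => ⟨a.1.1 * a.2.1 * a.1.1⁻¹, hconjN _ _ a.2.2.2⟩
  have hsurj : Function.Surjective Φ := by
    rintro ⟨w, hw⟩
    obtain ⟨g, y, hyP, rfl⟩ := hconj w hw
    have hyN' : y ∉ N := by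
      intro hyN'
      exact hw ((inferInstance : N.Normal).conj_mem _ hyN' g)
    set t := (hT.equiv g).1 with ht
    set u := (hT.equiv g).2 with hu
    have hgtu : (t : G) * (u : G) = g := hT.equiv_fst_mul_equiv_snd g
    refine ⟨(t, ⟨(u : G) * y * (u : G)⁻¹, P.mul_mem (P.mul_mem u.2 hyP) (P.inv_mem u.2), hconjN _ _ hyN'⟩), ?_⟩
    apply Subtype.ext
    simp only [Φ]
    rw [← hgtu]
    group
  have hcard : Nat.card (T × ↥((P : Set G) \ (N : Set G))) ≤ Nat.card ↥((N : Set G)ᶜ) := by
    rw [Nat.card_prod, Nat.card_coe_set_eq, Nat.card_coe_set_eq, Nat.card_coe_set_eq]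
    have h1 : ((P : Set G) ∩ (N : Set G)).ncard + ((P : Set G) \ (N : Set G)).ncard = (P : Set G).ncard :=
      Set.ncard_inter_add_ncard_sdiff_eq_ncard _ _
    have h2 : (N : Set G).ncard + ((N : Set G)ᶜ).ncard = Nat.card G := Set.ncard_add_ncard_compl _
    have h3 : T.ncard * (P : Set G).ncard = Nat.card G := by
      have := hT.card_mul_card
      rwa [Nat.card_coe_set_eq, Nat.card_coe_set_eq] at this
    have h4 : ((P : Set G) ∩ (N : Set G)).ncard = Nat.card ↥(N ⊓ P) := by
      rw [← Nat.card_coe_set_eq, Set.inter_comm]; rfl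
    have h5 : (P : Set G).ncard = Nat.card P := by rw [← Nat.card_coe_set_eq]; rfl
    have h6 : (N : Set G).ncard = Nat.card N := by rw [← Nat.card_coe_set_eq]; rfl
    have h7 : Nat.card ↥(N ⊓ P) * N.index = Nat.card P := by
      have e1 : N.index = (N ⊓ P).relIndex P := by
        rw [Subgroup.inf_relIndex_right, ← Subgroup.relIndex_sup_left P N, hNP, Subgroup.relIndex_top_right]
      rw [e1, ← Subgroup.relIndex_bot_left, ← Subgroup.relIndex_bot_left]
      exact Subgroup.relIndex_mul_relIndex _ _ _ bot_le inf_le_right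
    have h8 : Nat.card N * N.index = Nat.card G := N.card_mul_index
    have hi : 0 < N.index := Nat.pos_of_ne_zero Subgroup.index_ne_zero_of_finite
    rw [h4] at h1
    rw [h5] at h1 h3
    rw [h6] at h2
    have h9 : T.ncard * Nat.card ↥(N ⊓ P) = Nat.card N := by
      apply Nat.eq_of_mul_eq_mul_right hi
      rw [mul_assoc, h7, h3, h8]
    have h10 : T.ncard * Nat.card ↥(N ⊓ P) + T.ncard * ((P : Set G) \ (N : Set G)).ncard = Nat.card G := by
      rw [← mul_add, h1, h3]
    omega
  have hinj := (hsurj.bijective_of_nat_card_le hcard).1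
  set t := (hT.equiv g).1 with ht
  set u := (hT.equiv g).2 with hu
  have hgtu : (t : G) * (u : G) = g := hT.equiv_fst_mul_equiv_snd g
  have heq : Φ (t, ⟨(u : G) * y * (u : G)⁻¹, P.mul_mem (P.mul_mem u.2 hy) (P.inv_mem u.2), hconjN _ _ hyN⟩)
      = Φ (⟨1, h1T⟩, ⟨g * y * g⁻¹, hg, hconjN _ _ hyN⟩) := by
    apply Subtype.ext
    simp only [Φ]
    rw [← hgtu]
    group
  have := congrArg (fun a => (a.1 : G)) (hinj heq)
  simp only at this
  rw [← hgtu, this, one_mul]
  exact u.2

lemma solvable_of_complement {G : Type*} [Group G] [Finite G] {p : ℕ} [Fact p.Prime] (P : Sylow p G)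
    (hco : IsCoatom (P : Subgroup G)) (K : Subgroup G) [K.Normal] (hK : K.IsComplement' P) :
    Group.IsSolvable G := by
  have hKbot : K ≠ ⊥ := by
    rintro rfl
    exact hco.1 (Subgroup.isComplement'_bot_left.mp hK)
  have hcardK : Nat.card K ≠ 1 := by
    intro h1
    exact hKbot (Subgroup.card_eq_one.mp h1)
  set q := (Nat.card K).minFac with hq
  have : Fact q.Prime := ⟨Nat.minFac_prime hcardK⟩
  have hqK : q ∣ Nat.card K := Nat.minFac_dvd _
  have hpK : ¬ p ∣ Nat.card K := by
    rw [← hK.index_eq_card]; exact P.not_dvd_index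
  let _ : MulAction (P : Subgroup G) (Sylow q K) :=
    MulAction.compHom (Sylow q K) ((MulAut.conjNormal (H := K)).comp (P : Subgroup G).subtype)
  have hnd : ¬ p ∣ Nat.card (Sylow q K) := by
    intro hd
    obtain ⟨S0⟩ : Nonempty (Sylow q K) := inferInstance
    exact hpK ((hd.trans S0.card_dvd_index).trans (Subgroup.index_dvd_card _))
  obtain ⟨S, hS⟩ := IsPGroup.nonempty_fixed_point_of_prime_not_dvd_card P.2 (Sylow q K) hnd
  set S' : Subgroup G := (S : Subgroup K).map K.subtype with hS'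
  have hPn : (P : Subgroup G) ≤ Subgroup.normalizer (S' : Set G) := by
    rw [Subgroup.le_normalizer_iff]
    rintro u hu _ ⟨k, hk, rfl⟩
    have h1 : (⟨u, hu⟩ : (P : Subgroup G)) • S = S := hS ⟨u, hu⟩
    have h2 : (MulAut.conjNormal (H := K) u) • S = S := h1
    have h3 : (MulAut.conjNormal (H := K) u) • k ∈ (MulAut.conjNormal (H := K) u) • (S : Subgroup K) :=
      Subgroup.smul_mem_pointwise_smul _ _ _ hk
    rw [← Sylow.pointwise_smul_def, h2] at h3
    refine ⟨_, h3, ?_⟩
    simp [MulAut.conjNormal_apply]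
  have hS'n : S' ≤ Subgroup.normalizer (S' : Set G) := Subgroup.le_normalizer
  have hSne : (S : Subgroup K) ≠ ⊥ := S.ne_bot_of_dvd_card hqK
  have hS'K : S' ≤ K := Subgroup.map_subtype_le _
  have hsup : (P : Subgroup G) ⊔ S' = ⊤ := by
    by_contra hne
    have hle : (P : Subgroup G) ≤ (P : Subgroup G) ⊔ S' := le_sup_left
    have heq : (P : Subgroup G) ⊔ S' = P := by
      rcases hle.eq_or_lt with h | h
      · exact h.symm
      · exact absurd (hco.2 _ h) hne
    have hS'P : S' ≤ P := heq ▸ le_sup_right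
    have : S' ≤ K ⊓ P := le_inf hS'K hS'P
    rw [hK.disjoint.eq_bot, le_bot_iff, hS', Subgroup.map_eq_bot_iff_of_injective _ K.subtype_injective] at this
    exact hSne this
  have hnorm : S'.Normal := by
    rw [← Subgroup.normalizer_eq_top_iff, eq_top_iff, ← hsup]
    exact sup_le hPn hS'n
  have hS'pg : IsPGroup q S' := S.2.map K.subtype
  have : Group.IsSolvable S' := by
    have := hS'pg.isNilpotent
    infer_instance
  have hquot : IsPGroup p (G ⧸ S') := by
    obtain ⟨n, hn⟩ := P.2.exists_card_eq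
    have h1 : Nat.card (G ⧸ S') ∣ p ^ n := by
      rw [← hn, ← Subgroup.index_eq_card, ← Subgroup.relIndex_top_right, ← hsup, Subgroup.relIndex_sup_right]
      exact Subgroup.relIndex_dvd_card _ _
    obtain ⟨k, -, hk⟩ := (Nat.dvd_prime_pow Fact.out).mp h1
    exact IsPGroup.of_card hk
  have : Group.IsSolvable (G ⧸ S') := by
    have := hquot.isNilpotent
    infer_instance
  exact (Group.isSolvable_iff_subgroup_quotient S').mpr ⟨inferInstance, inferInstance⟩

/-- Let N be a proper normal subgroup of the finite group G such that every element x of G outside N has prime power order and has centralizer C_G(x) a maximal subgroup of G. Then N is solvable. -/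
theorem result {G : Type*} [Group G] [Finite G] (N : Subgroup G) [N.Normal] (hN : N ≠ ⊤)
    (h : ∀ x : G, x ∉ N → IsPrimePow (orderOf x) ∧ IsCoatom (Subgroup.centralizer ({x} : Set G))) : Group.IsSolvable ↥N := by
  classical
  obtain ⟨x, hx⟩ : ∃ x, x ∉ N := by
    by_contra hcon
    push Not at hcon
    exact hN ((Subgroup.eq_top_iff' N).mpr hcon)
  obtain ⟨p, k, hp, hk0, hk⟩ := (isPrimePow_nat_iff _).mp (h x hx).1
  have : Fact p.Prime := ⟨hp⟩
  have hpp : ∀ y, y ∉ N → IsPrimePow (orderOf y) := fun y hy => (h y hy).1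
  by_cases hG : IsPGroup p G
  · have := hG.isNilpotent
    infer_instance
  have hsyl : ∀ C : Subgroup G, IsPGroup p C → IsCoatom C → ∃ S : Sylow p G, (S : Subgroup G) = C := by
    intro C hC hco
    obtain ⟨S, hS⟩ := hC.exists_le_sylow
    refine ⟨S, ?_⟩
    rcases hS.eq_or_lt with h1 | h1
    · exact h1.symm
    · exfalso
      have htop := hco.2 _ h1
      apply hG
      intro g
      obtain ⟨j, hj⟩ := S.2 ⟨g, htop ▸ Subgroup.mem_top g⟩
      exact ⟨j, by simpa using congrArg Subtype.val hj⟩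
  obtain ⟨P, hP⟩ := hsyl _ (centralizer_isPGroup N hpp hx hp hk.symm) (h x hx).2
  have hPco : IsCoatom (P : Subgroup G) := hP ▸ (h x hx).2
  by_cases hNP : N ≤ P
  · have h1 : IsPGroup p N := P.2.to_le hNP
    have := h1.isNilpotent
    infer_instance
  have hsup : N ⊔ P = ⊤ := by
    apply hPco.2
    exact lt_of_le_of_ne le_sup_right (fun heq => hNP (heq ▸ le_sup_left))
  have hquot : IsPGroup p (G ⧸ N) := by
    obtain ⟨n, hn⟩ := P.2.exists_card_eq
    have h1 : Nat.card (G ⧸ N) ∣ p ^ n := by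
      rw [← hn, ← Subgroup.index_eq_card, ← Subgroup.relIndex_top_right, ← hsup, Subgroup.relIndex_sup_left]
      exact Subgroup.relIndex_dvd_card _ _
    obtain ⟨k, -, hk⟩ := (Nat.dvd_prime_pow hp).mp h1
    exact IsPGroup.of_card hk
  have hord : ∀ y, y ∉ N → ∃ j, orderOf y = p ^ j := by
    intro y hy
    obtain ⟨q, l, hq, hl0, hl⟩ := (isPrimePow_nat_iff _).mp (h y hy).1
    have hne : (QuotientGroup.mk' N y) ≠ 1 := by
      intro h1
      exact hy ((QuotientGroup.eq_one_iff y).mp h1)
    have h1 : p ∣ orderOf y := (hquot.dvd_orderOf hne).trans (orderOf_map_dvd (QuotientGroup.mk' N) y)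
    rw [← hl] at h1
    have h2 : p = q := (Nat.prime_dvd_prime_iff_eq hp hq).mp (hp.dvd_of_dvd_pow h1)
    exact ⟨l, by rw [h2, hl]⟩
  have hcent : ∀ y, y ∉ N → ∃ S : Sylow p G, (S : Subgroup G) = Subgroup.centralizer ({y} : Set G) := by
    intro y hy
    obtain ⟨j, hj⟩ := hord y hy
    exact hsyl _ (centralizer_isPGroup N hpp hy hp hj) (h y hy).2
  have hconj : ∀ w : G, w ∉ N → ∃ g : G, ∃ y ∈ (P : Subgroup G), w = g * y * g⁻¹ := by
    intro w hw
    obtain ⟨S, hS⟩ := hcent w hw
    obtain ⟨g, hg⟩ := MulAction.exists_smul_eq G P S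
    have hwS : w ∈ (S : Subgroup G) := by
      rw [hS, Subgroup.mem_centralizer_iff]
      intro a ha
      rw [Set.mem_singleton_iff.mp ha]
    rw [← hg, Sylow.smul_def, Sylow.pointwise_smul_def, Subgroup.mem_pointwise_smul_iff_inv_smul_mem] at hwS
    refine ⟨g, _, hwS, ?_⟩
    simp [MulAut.smul_def, mul_assoc]
  have key : ∀ y ∈ (P : Subgroup G), y ∉ N → ∀ g, g * y * g⁻¹ ∈ (P : Subgroup G) → g ∈ (P : Subgroup G) :=
    fun y hy hyN g hg => key_count N P hsup hconj hy hyN hg
  have hxP : x ∈ (P : Subgroup G) := by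
    rw [hP, Subgroup.mem_centralizer_iff]
    intro a ha
    rw [Set.mem_singleton_iff.mp ha]
  have hcomm1 : ∀ y ∈ (P : Subgroup G), y ∉ N → ∀ u ∈ (P : Subgroup G), y * u = u * y := by
    intro y hy hyN u hu
    have hle : Subgroup.centralizer ({y} : Set G) ≤ P := by
      intro g hg
      apply key y hy hyN g
      have := Subgroup.mem_centralizer_iff.mp hg y (Set.mem_singleton y)
      rw [← this, mul_inv_cancel_right]
      exact hy
    have heq : Subgroup.centralizer ({y} : Set G) = P := by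
      rcases hle.eq_or_lt with h1 | h1
      · exact h1
      · exact absurd ((h y hyN).2.2 _ h1) hPco.1
    rw [← heq] at hu
    exact Subgroup.mem_centralizer_iff.mp hu y (Set.mem_singleton y)
  have habel : ∀ a ∈ (P : Subgroup G), ∀ b ∈ (P : Subgroup G), a * b = b * a := by
    intro a ha b hb
    by_cases haN : a ∈ N
    · have hxa : x * a ∉ N := fun hmem => hx (by simpa using N.mul_mem hmem (N.inv_mem haN))
      have h1 := hcomm1 (x * a) (P.mul_mem hxP ha) hxa b hb
      have h2 := hcomm1 x hxP hx b hb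
      have h3 : x * (a * b) = x * (b * a) := by
        rw [← mul_assoc, h1, ← mul_assoc, ← h2, mul_assoc]
      exact mul_left_cancel h3
    · exact hcomm1 a ha haN b hb
  have hnc : Subgroup.normalizer (P : Set G) ≤ Subgroup.centralizer (P : Set G) := by
    intro g hg
    have hgP : g ∈ (P : Subgroup G) := key x hxP hx g ((Subgroup.mem_normalizer_iff.mp hg x).mp hxP)
    rw [Subgroup.mem_centralizer_iff]
    intro a ha
    exact habel a ha g hgP
  have hK := MonoidHom.ker_transferSylow_isComplement' P hnc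
  have := solvable_of_complement P hPco _ hK
  infer_instance

end Cfsg.Agent.S3903
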