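import Cfsg.Statements.S3908
import Cfsg.Agent.Lib.Helper70.ConjSub
import Cfsg.Agent.S0016
-- import your own Cfsg.Agent.* helpers here

set_option autoImplicit false
open Cfsg

namespace Cfsg.Agent.S3908

/-- Let G be a finite group in which any two abelian subgroups of the same order are conjugate. Then a Sylow 2-subgroup of G is cyclic, elementary abelian or generalized quaternion, and for an odd prime p a Sylow p-subgroup of G is cyclic or has exponent dividing p. -/
theorem result {G : Type*} [Group G] [Finite G] (hB : ∀ A B : Subgroup G, IsMulCommutative ↥A → IsMulCommutative ↥B → Nat.card ↥A = Nat.card ↥B → ∃ g : G, B = A.map (MulAut.conj g).toMonoidHom) :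
    (∀ P : Sylow 2 G, IsCyclic ↥(P : Subgroup G) ∨ Cfsg.IsElementaryAbelian 2 (P : Subgroup G) ∨ ∃ k : ℕ, Nonempty (↥(P : Subgroup G) ≃* QuaternionGroup (2 ^ k))) ∧
    ∀ (p : ℕ) [Fact p.Prime], p ≠ 2 → ∀ P : Sylow p G, IsCyclic ↥(P : Subgroup G) ∨ ∀ x ∈ (P : Subgroup G), x ^ p = 1 := by
  have key : ∀ (p : ℕ) [Fact p.Prime] (P : Sylow p G),
      (∀ H K : Subgroup (P : Subgroup G), Nat.card H = p → Nat.card K = p → H = K) ∨
      ∀ x ∈ (P : Subgroup G), x ^ p = 1 := by
    intro p _ P
    exact Cfsg.Agent.Lib.Helper70.unique_or_exponent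
      (fun A B hA hB' h1 h2 => hB A B hA hB' (h1.trans h2.symm)) P
  constructor
  · intro P
    rcases key 2 P with h | h
    · rcases Cfsg.Agent.S0016.result 2 P.2 h with h1 | ⟨-, n, hn⟩
      · exact Or.inl h1
      · exact Or.inr (Or.inr ⟨n, hn⟩)
    · refine Or.inr (Or.inl ⟨⟨⟨?_⟩⟩, h⟩)
      intro a b
      have ha : a * a = 1 := by
        have := h a a.2
        exact Subtype.ext (by simpa [pow_two] using this)
      have hb : b * b = 1 := by
        have := h b b.2
        exact Subtype.ext (by simpa [pow_two] using this)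
      have hab : (a * b) * (a * b) = 1 := by
        have := h (a * b) (a * b).2
        exact Subtype.ext (by simpa [pow_two] using this)
      calc a * b = a * ((a * b) * (a * b)) * b := by rw [hab, mul_one]
        _ = (a * a) * (b * a) * (b * b) := by group
        _ = b * a := by rw [ha, hb, one_mul, mul_one]
  · intro p _ hp2 P
    rcases key p P with h | h
    · rcases Cfsg.Agent.S0016.result p P.2 h with h1 | ⟨h2, -⟩
      · exact Or.inl h1
      · exact absurd h2 hp2
    · exact Or.inr h

end Cfsg.Agent.S3908
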