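import Cfsg.Statements.S3909
import Cfsg.Agent.Lib.Helper70.ConjSub
-- import your own Cfsg.Agent.* helpers here

set_option autoImplicit false
open Cfsg

namespace Cfsg.Agent.S3909

/-- Let G be a finite group in which any two abelian subgroups of the same order are conjugate. Let M be a normal subgroup of G. If M contains an element of the same order as a ∈ G, then a ∈ M; and if M is elementary abelian of order p^t with p prime and t ≥ 2, then M is the unique Sylow p-subgroup of G. -/
theorem result {G : Type*} [Group G] [Finite G] (hB : ∀ A B : Subgroup G, IsMulCommutative ↥A → IsMulCommutative ↥B → Nat.card ↥A = Nat.card ↥B → ∃ g : G, B = A.map (MulAut.conj g).toMonoidHom) (M : Subgroup G) [M.Normal] :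
    (∀ a : G, (∃ m ∈ M, orderOf m = orderOf a) → a ∈ M) ∧
    ∀ (p t : ℕ) [Fact p.Prime], 2 ≤ t → Nat.card ↥M = p ^ t → Cfsg.IsElementaryAbelian p M → ∀ P : Sylow p G, (P : Subgroup G) = M := by
  have part1 : ∀ a : G, (∃ m ∈ M, orderOf m = orderOf a) → a ∈ M := by
    rintro a ⟨m, hm, hma⟩
    obtain ⟨g, hg⟩ := hB (Subgroup.zpowers m) (Subgroup.zpowers a) inferInstance inferInstance
      (by rw [Nat.card_zpowers, Nat.card_zpowers, hma])
    have h1 : a ∈ (Subgroup.zpowers m).map (MulAut.conj g).toMonoidHom := by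
      rw [← hg]; exact Subgroup.mem_zpowers a
    obtain ⟨u, hu, rfl⟩ := h1
    have hu' : u ∈ M := (Subgroup.zpowers_le.mpr hm) hu
    exact ‹M.Normal›.conj_mem u hu' g
  refine ⟨part1, ?_⟩
  intro p t _ ht hcard hel P
  have hp : p.Prime := Fact.out
  have hMp : IsPGroup p M := IsPGroup.of_card hcard
  have hMP : M ≤ (P : Subgroup G) := by
    have h1 : IsPGroup p ((P : Subgroup G) ⊔ M : Subgroup G) := P.isPGroup'.to_sup_of_normal_right hMp
    have h2 := P.is_maximal' h1 le_sup_left
    rw [← h2]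
    exact le_sup_right
  apply le_antisymm _ hMP
  obtain ⟨E, hE⟩ := Sylow.exists_subgroup_card_pow_prime (G := M) p (n := 2)
    (by rw [hcard]; exact pow_dvd_pow p ht)
  let e1 := E.equivMapOfInjective M.subtype M.subtype_injective
  set E' := E.map M.subtype with hE'
  have hE'card : Nat.card E' = p ^ 2 := by rw [← Nat.card_congr e1.toEquiv, hE]
  have hE'exp : ∀ a ∈ E', a ^ p = 1 := by
    rintro _ ⟨a, ha, rfl⟩
    exact hel.2 _ a.2
  intro x hx
  obtain ⟨k, hk⟩ := (IsPGroup.iff_orderOf.mp P.2) ⟨x, hx⟩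
  rw [Subgroup.orderOf_mk] at hk
  have hxp : x ^ p = 1 := Cfsg.Agent.Lib.Helper70.pow_prime_eq_one_of_rank_two
    (fun A B hA hB' h1 h2 => hB A B hA hB' (h1.trans h2.symm)) E' hE'card hE'exp x k hk
  by_cases hx1 : x = 1
  · rw [hx1]; exact one_mem _
  · have hxo : orderOf x = p := orderOf_eq_prime hxp hx1
    obtain ⟨m, hm⟩ := exists_prime_orderOf_dvd_card' (G := M) p
      (by rw [hcard]; exact dvd_pow_self p (by omega))
    exact part1 x ⟨m, m.2, by rw [Subgroup.orderOf_coe, hm, hxo]⟩

end Cfsg.Agent.S3909
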