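import Cfsg.Statements.S3910
-- import your own Cfsg.Agent.* helpers here
import Cfsg.Agent.Lib.Helper31.Nilpotent
import Cfsg.Agent.Lib.Helper57.Replacement

set_option autoImplicit false
open Cfsg

namespace Cfsg.Agent.S3910

/-- A finite nilpotent group in which any two abelian subgroups of the same order are conjugate is cyclic. -/
theorem result {G : Type*} [Group G] [Finite G] (hB : ∀ A B : Subgroup G, IsMulCommutative ↥A → IsMulCommutative ↥B → Nat.card ↥A = Nat.card ↥B → ∃ g : G, B = A.map (MulAut.conj g).toMonoidHom) (hnil : Group.IsNilpotent G) : IsCyclic G := by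
  classical
  have := hnil
  obtain ⟨A, -, hAmax⟩ := Finite.exists_le_maximal
    (p := fun A : Subgroup G => A.Normal ∧ IsMulCommutative ↥A) (a := ⊥) ⟨inferInstance, inferInstance⟩
  obtain ⟨hAn, hAc⟩ := hAmax.prop
  have := hAn
  have := hAc
  have hCA : Subgroup.centralizer (A : Set G) ≤ A := by
    by_contra hcon
    have hN : (Subgroup.centralizer (A : Set G)).map (QuotientGroup.mk' A) ≠ ⊥ := by
      intro h
      apply hcon
      rw [Subgroup.map_eq_bot_iff, QuotientGroup.ker_mk'] at h
      exact h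
    have : ((Subgroup.centralizer (A : Set G)).map (QuotientGroup.mk' A)).Normal :=
      Subgroup.Normal.map inferInstance _ (QuotientGroup.mk'_surjective A)
    obtain ⟨z, hzN, hzc, hz1⟩ := Cfsg.Agent.Lib.Helper31.exists_mem_center_of_normal_of_nilpotent
      ((Subgroup.centralizer (A : Set G)).map (QuotientGroup.mk' A)) hN
    obtain ⟨x, hxC, rfl⟩ := hzN
    have hxA : x ∉ A := fun h => hz1 ((QuotientGroup.eq_one_iff x).mpr h)
    have hB1 : IsMulCommutative ↥(A ⊔ Subgroup.zpowers x) :=
      Cfsg.Agent.Lib.Helper57.isMulCommutative_sup (by rw [Subgroup.zpowers_le]; exact hxC)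
    have hB2 : (A ⊔ Subgroup.zpowers x).Normal := by
      rw [← QuotientGroup.comap_map_mk']
      apply Subgroup.Normal.comap
      constructor
      intro n hn g
      have hn' : n ∈ Subgroup.center (G ⧸ A) := by
        rw [MonoidHom.map_zpowers] at hn
        exact (Subgroup.zpowers_le.mpr hzc) hn
      rw [Subgroup.mem_center_iff.mp hn' g, mul_inv_cancel_right]
      exact hn
    have := hAmax.le_of_ge ⟨hB2, hB1⟩ le_sup_left
    exact hxA (this (Subgroup.mem_sup_right (Subgroup.mem_zpowers x)))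
  have hAtop : A = ⊤ := by
    by_contra hne
    have hex : ∃ x : G, x ∉ A := by
      by_contra h
      push Not at h
      exact hne (eq_top_iff.mpr fun x _ => h x)
    have hPn : ∃ n, ∃ x : G, x ∉ A ∧ orderOf x = n := let ⟨x, hx⟩ := hex; ⟨_, x, hx, rfl⟩
    obtain ⟨y, hyA, hyn⟩ := Nat.find_spec hPn
    have hmin : ∀ z : G, orderOf z < orderOf y → z ∈ A := by
      intro z hz
      by_contra hzA
      exact Nat.find_min hPn (hyn ▸ hz) ⟨z, hzA, rfl⟩
    have hn0 : orderOf y ≠ 0 := (orderOf_pos y).ne'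
    have hn1 : orderOf y ≠ 1 := by
      intro h
      rw [orderOf_eq_one_iff] at h
      exact hyA (h ▸ A.one_mem)
    obtain ⟨p, hp, hpy⟩ := Nat.exists_prime_and_dvd hn1
    have : Fact p.Prime := ⟨hp⟩
    obtain ⟨a, ha, b, hb, hab, ⟨k, hk⟩, hbq⟩ :=
      Cfsg.Agent.Lib.Helper31.exists_prime_decomp p y (isOfFinOrder_of_finite y)
    have hdvd : ∀ c ∈ Subgroup.zpowers y, orderOf c ∣ orderOf y := by
      intro c hc
      rw [← Nat.card_zpowers, ← Nat.card_zpowers]
      exact Subgroup.card_dvd_of_le (Subgroup.zpowers_le.mpr hc)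
    have hbA : b ∈ A := by
      apply hmin
      apply lt_of_le_of_ne (Nat.le_of_dvd (orderOf_pos y) (hdvd b hb))
      intro h
      rw [h] at hbq
      exact hp.one_lt.ne' (Nat.Coprime.eq_one_of_dvd hbq.symm hpy)
    have haA : a ∉ A := by
      intro h
      exact hyA (hab ▸ A.mul_mem h hbA)
    have hyk : orderOf y = p ^ k := by
      rw [← hk]
      by_contra h
      exact haA (hmin a (lt_of_le_of_ne (Nat.le_of_dvd (orderOf_pos y) (hdvd a ha)) (fun h' => h h'.symm)))
    have hk0 : k ≠ 0 := by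
      rintro rfl
      exact hn1 (by simpa using hyk)
    have hyp : orderOf (y ^ p) = p ^ (k - 1) := by
      rw [orderOf_pow_of_dvd hp.ne_zero hpy, hyk]
      obtain ⟨j, rfl⟩ := Nat.exists_eq_succ_of_ne_zero hk0
      rw [Nat.succ_sub_one, pow_succ, Nat.mul_div_cancel _ hp.pos]
    have hypA : y ^ p ∈ A := by
      apply hmin
      rw [hyp, hyk]
      exact Nat.pow_lt_pow_right hp.one_lt (by omega)
    by_cases hdiv : p ^ k ∣ Nat.card ↥A
    · obtain ⟨K, hK⟩ := Sylow.exists_subgroup_card_pow_prime p hdiv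
      have hcard : Nat.card ↥(K.map A.subtype) = Nat.card ↥(Subgroup.zpowers y) := by
        rw [Subgroup.card_map_of_injective A.subtype_injective, hK, Nat.card_zpowers, hyk]
      obtain ⟨g, hg⟩ := hB (K.map A.subtype) (Subgroup.zpowers y) inferInstance inferInstance hcard
      have hy : y ∈ (K.map A.subtype).map (MulAut.conj g).toMonoidHom := hg ▸ Subgroup.mem_zpowers y
      obtain ⟨c, ⟨c', -, rfl⟩, hc⟩ := hy
      apply hyA
      rw [← hc]
      exact hAn.conj_mem _ c'.2 g
    · apply hyA
      apply hCA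
      rw [Subgroup.mem_centralizer_iff]
      intro c hc
      obtain ⟨c₁, hc₁, c₂, hc₂, hcc, ⟨i, hi⟩, hc₂q⟩ :=
        Cfsg.Agent.Lib.Helper31.exists_prime_decomp p c (isOfFinOrder_of_finite c)
      have hle : Subgroup.zpowers c ≤ A := Subgroup.zpowers_le.mpr hc
      have h2 : Commute y c₂ := by
        apply Cfsg.Agent.Lib.Helper31.commute_of_coprime_orderOf
        rw [hyk]
        exact (Nat.Coprime.pow_left k hc₂q.symm)
      have h1 : Commute y c₁ := by
        have hD : Subgroup.zpowers (y ^ p) ≤ A := Subgroup.zpowers_le.mpr hypA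
        have hE : Subgroup.zpowers c₁ ≤ A := Subgroup.zpowers_le.mpr (hle hc₁)
        have hnorm : Subgroup.zpowers c₁ ≤ Subgroup.normalizer ((Subgroup.zpowers (y ^ p) : Subgroup G) : Set G) := by
          refine hE.trans (le_trans ?_ (Subgroup.centralizer_le_normalizer _))
          exact (Subgroup.le_centralizer_iff_isMulCommutative.mpr hAc).trans (Subgroup.centralizer_le hD)
        have hpg : IsPGroup p ↥(Subgroup.zpowers c₁ ⊔ Subgroup.zpowers (y ^ p)) :=
          IsPGroup.to_sup_of_normal_right' (IsPGroup.of_card (n := i) (by rw [Nat.card_zpowers, hi]))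
            (IsPGroup.of_card (n := k - 1) (by rw [Nat.card_zpowers, hyp])) hnorm
        obtain ⟨t, ht⟩ := hpg.exists_card_eq
        have htA : p ^ t ∣ Nat.card ↥A := ht ▸ Subgroup.card_dvd_of_le (sup_le hE hD)
        have htk : t < k := by
          by_contra h
          exact hdiv ((pow_dvd_pow p (not_lt.mp h)).trans htA)
        have heq : Subgroup.zpowers (y ^ p) = Subgroup.zpowers c₁ ⊔ Subgroup.zpowers (y ^ p) := by
          apply Subgroup.eq_of_le_of_card_ge le_sup_right
          rw [ht, Nat.card_zpowers, hyp]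
          exact Nat.pow_le_pow_right hp.pos (by omega)
        have hmem : c₁ ∈ Subgroup.zpowers (y ^ p) := by
          rw [heq]; exact Subgroup.mem_sup_left (Subgroup.mem_zpowers c₁)
        obtain ⟨j, rfl⟩ := Subgroup.mem_zpowers_iff.mp hmem
        exact ((Commute.refl y).pow_right p).zpow_right j
      rw [hcc]
      exact (h1.mul_right h2).eq.symm
  have hcomm : ∀ a b : G, Commute a b := by
    intro a b
    have := hAc.is_comm.comm ⟨a, hAtop ▸ Subgroup.mem_top a⟩ ⟨b, hAtop ▸ Subgroup.mem_top b⟩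
    exact congrArg Subtype.val this
  obtain ⟨x, hx⟩ := Finite.exists_max (fun x : G => orderOf x)
  refine ⟨x, fun y => ?_⟩
  have hdvd : orderOf y ∣ orderOf x := by
    obtain ⟨z, -, hz⟩ := (hcomm x y).exists_orderOf_eq_lcm
    have h1 := hx z
    rw [hz] at h1
    have h2 : orderOf x ∣ Nat.lcm (orderOf x) (orderOf y) := Nat.dvd_lcm_left _ _
    have h3 : Nat.lcm (orderOf x) (orderOf y) = orderOf x :=
      le_antisymm h1 (Nat.le_of_dvd (Nat.lcm_pos (orderOf_pos x) (orderOf_pos y)) h2)
    rw [← h3]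
    exact Nat.dvd_lcm_right _ _
  have hn : orderOf x / orderOf y ∣ orderOf x := Nat.div_dvd_of_dvd hdvd
  have hn0 : orderOf x / orderOf y ≠ 0 := by
    intro h
    rw [h] at hn
    exact (orderOf_pos x).ne' (Nat.eq_zero_of_zero_dvd hn)
  have hcard : Nat.card ↥(Subgroup.zpowers (x ^ (orderOf x / orderOf y))) = Nat.card ↥(Subgroup.zpowers y) := by
    rw [Nat.card_zpowers, Nat.card_zpowers, orderOf_pow_of_dvd hn0 hn, Nat.div_div_self hdvd (orderOf_pos x).ne']
  obtain ⟨g, hg⟩ := hB _ _ inferInstance inferInstance hcard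
  have hy : y ∈ (Subgroup.zpowers (x ^ (orderOf x / orderOf y))).map (MulAut.conj g).toMonoidHom :=
    hg ▸ Subgroup.mem_zpowers y
  obtain ⟨c, hc, hcy⟩ := hy
  have : y = c := by
    rw [← hcy]
    change g * c * g⁻¹ = c
    rw [(hcomm g c).eq, mul_inv_cancel_right]
  rw [this]
  exact (Subgroup.zpowers_le.mpr (Subgroup.pow_mem _ (Subgroup.mem_zpowers x) _)) hc

end Cfsg.Agent.S3910
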