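import Cfsg.Statements.S3918
import Cfsg.Agent.S0126
import Cfsg.Agent.Lib.Helper3.RankThree

set_option autoImplicit false
open Cfsg

namespace Cfsg.Agent.S3918

/-- a group of order `1`, `p` or `p ^ 2` is commutative -/
theorem comm_of_card_le_sq {G : Type*} [Group G] [Finite G] {p : ℕ} [Fact p.Prime] {n : ℕ} (hn : n ≤ 2)
    (hG : Nat.card G = p ^ n) : ∀ a b : G, a * b = b * a := by
  have hp : p.Prime := Fact.out
  interval_cases n
  · rw [pow_zero] at hG
    have := (Nat.card_eq_one_iff_unique.1 hG).1
    intro a b
    exact Subsingleton.elim _ _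
  · rw [pow_one] at hG
    have := isCyclic_of_prime_card hG
    intro a b
    exact (IsCyclic.isMulCommutative (α := G)).is_comm.comm a b
  · exact (IsPGroup.isMulCommutative_of_card_eq_prime_sq hG).is_comm.comm

/-- Say that a group has self-centralizing non-cyclic subgroups when every non-cyclic subgroup H satisfies C_G(H) ≤ H. For an odd prime p, a finite non-abelian p-group has self-centralizing non-cyclic subgroups if and only if it has order p³. -/
theorem result {G : Type*} [Group G] [Finite G] {p : ℕ} [Fact p.Prime] (hp : p ≠ 2) (hG : IsPGroup p G) (hna : ¬ IsMulCommutative G) :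
    (∀ H : Subgroup G, ¬ IsCyclic ↥H → Subgroup.centralizer (H : Set G) ≤ H) ↔ Nat.card G = p ^ 3 := by
  have hpp : p.Prime := Fact.out
  obtain ⟨n, hn⟩ := hG.exists_card_eq
  have hn3 : 3 ≤ n := by
    by_contra hcon
    exact hna ⟨⟨comm_of_card_le_sq (n := n) (by omega) hn⟩⟩
  constructor
  · intro h
    have hnc : ¬ IsCyclic G := by
      intro hc
      exact hna IsCyclic.isMulCommutative
    obtain ⟨A, hAn, hAe, hAc⟩ := Cfsg.Agent.S0126.result hp hG hnc
    have hAnc : ¬ IsCyclic ↥A := by
      intro hcyc
      obtain ⟨g, hg⟩ := hcyc.exists_generator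
      have h1 : orderOf g = Nat.card ↥A := orderOf_eq_card_of_forall_mem_zpowers hg
      have h2 : orderOf g ≤ p := orderOf_le_of_pow_eq_one hpp.pos
        (Subtype.ext (by simpa using hAe.2 g.1 g.2))
      rw [h1, hAc] at h2
      have : p < p ^ 2 := by
        calc p = p ^ 1 := (pow_one p).symm
          _ < p ^ 2 := Nat.pow_lt_pow_right hpp.one_lt (by norm_num)
      omega
    have hC := h A hAnc
    have h1 := Cfsg.Agent.Lib.Helper3.index_centralizer_le hG A hAc.le
    have h2 : Nat.card ↥(Subgroup.centralizer (A : Set G)) ≤ p ^ 2 := by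
      rw [← hAc]
      exact Subgroup.card_le_of_le hC
    have h3 := (Subgroup.centralizer (A : Set G)).card_mul_index
    have h4 : Nat.card G ≤ p ^ 3 := by
      rw [← h3]
      calc _ ≤ p ^ 2 * p := Nat.mul_le_mul h2 h1
        _ = p ^ 3 := by ring
    rw [hn] at h4 ⊢
    have h5 : n ≤ 3 := (Nat.pow_le_pow_iff_right hpp.one_lt).1 h4
    have : n = 3 := by omega
    rw [this]
  · intro hcard H hH
    obtain ⟨k, hk⟩ := (hG.to_subgroup H).exists_card_eq
    have hk3 : k ≤ 3 := by
      have h1 : Nat.card ↥H ≤ Nat.card G := Subgroup.card_le_card_group H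
      rw [hk, hcard] at h1
      exact (Nat.pow_le_pow_iff_right hpp.one_lt).1 h1
    have hk2 : 2 ≤ k := by
      by_contra hcon
      apply hH
      have hk01 : k = 0 ∨ k = 1 := by omega
      rcases hk01 with rfl | rfl
      · rw [pow_zero] at hk
        have := (Nat.card_eq_one_iff_unique.1 hk).1
        exact isCyclic_of_subsingleton
      · rw [pow_one] at hk
        exact isCyclic_of_prime_card hk
    rcases (by omega : k = 2 ∨ k = 3) with rfl | rfl
    · have hHc : ∀ a b : ↥H, a * b = b * a := (IsPGroup.isMulCommutative_of_card_eq_prime_sq hk).is_comm.comm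
      have hHC : H ≤ Subgroup.centralizer (H : Set G) := by
        intro x hx
        rw [Subgroup.mem_centralizer_iff]
        intro y hy
        exact congrArg Subtype.val (hHc ⟨y, hy⟩ ⟨x, hx⟩)
      obtain ⟨j, hj⟩ := (hG.to_subgroup (Subgroup.centralizer (H : Set G))).exists_card_eq
      have hj3 : j ≤ 3 := by
        have h1 : Nat.card ↥(Subgroup.centralizer (H : Set G)) ≤ Nat.card G :=
          Subgroup.card_le_card_group _
        rw [hj, hcard] at h1
        exact (Nat.pow_le_pow_iff_right hpp.one_lt).1 h1
      by_cases hj2 : j ≤ 2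
      · have h1 : Nat.card ↥(Subgroup.centralizer (H : Set G)) ≤ Nat.card ↥H := by
          rw [hj, hk]
          exact Nat.pow_le_pow_right hpp.pos hj2
        exact (Subgroup.eq_of_le_of_card_ge hHC h1).ge
      · exfalso
        have hj' : j = 3 := by omega
        have htop : Subgroup.centralizer (H : Set G) = ⊤ := by
          apply Subgroup.eq_top_of_card_eq
          rw [hj, hj', hcard]
        have hHZ : H ≤ Subgroup.center G := by
          intro x hx
          rw [Subgroup.mem_center_iff]
          intro g
          have hg : g ∈ Subgroup.centralizer (H : Set G) := htop ▸ Subgroup.mem_top g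
          exact ((Subgroup.mem_centralizer_iff.1 hg) x hx).symm
        have hZ : p ^ 2 ≤ Nat.card ↥(Subgroup.center G) := hk ▸ Subgroup.card_le_of_le hHZ
        have hq := Subgroup.card_eq_card_quotient_mul_card_subgroup (Subgroup.center G)
        obtain ⟨z, hz⟩ := (hG.to_subgroup (Subgroup.center G)).exists_card_eq
        obtain ⟨w, hw⟩ := (hG.to_quotient (Subgroup.center G)).exists_card_eq
        rw [hz] at hZ
        have hz2 : 2 ≤ z := (Nat.pow_le_pow_iff_right hpp.one_lt).1 hZ
        rw [hcard, hz, hw, ← pow_add] at hq
        have hwz : 3 = w + z := Nat.pow_right_injective hpp.two_le hq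
        have hcyc : IsCyclic (G ⧸ Subgroup.center G) := by
          rcases (by omega : w = 0 ∨ w = 1) with rfl | rfl
          · rw [pow_zero] at hw
            have := (Nat.card_eq_one_iff_unique.1 hw).1
            exact isCyclic_of_subsingleton
          · rw [pow_one] at hw
            exact isCyclic_of_prime_card hw
        apply hna
        exact MonoidHom.isMulCommutative_of_isCyclic_of_ker_le_center
          (QuotientGroup.mk' (Subgroup.center G)) (by rw [QuotientGroup.ker_mk'])
    · have : H = ⊤ := by
        apply Subgroup.eq_top_of_card_eq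
        rw [hk, hcard]
      rw [this]
      exact le_top

end Cfsg.Agent.S3918
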