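import Cfsg.Statements.S3939
import Cfsg.Agent.Lib.Helper40.PComp
import Cfsg.Agent.Lib.Helper31.Nilpotent
import Cfsg.Agent.Lib.Helper38.PGroup

set_option autoImplicit false
open Cfsg

namespace Cfsg.Agent.S3939

universe u

theorem nil_of_le {G : Type*} [Group G] {H K : Subgroup G} (h : H ≤ K) (hK : Group.IsNilpotent K) :
    Group.IsNilpotent H := by
  have : (Subgroup.inclusion h).ker ≤ Subgroup.center H := by
    rw [(Subgroup.inclusion h).ker_eq_bot (Subgroup.inclusion_injective h)]
    exact bot_le
  exact Subgroup.isNilpotent_of_ker_le_center (Subgroup.inclusion h) this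

theorem nil_map {G G' : Type*} [Group G] [Group G'] (f : G →* G') {H : Subgroup G}
    (hH : Group.IsNilpotent H) : Group.IsNilpotent (H.map f) :=
  Group.nilpotent_of_surjective (f.subgroupMap H) (f.subgroupMap_surjective H)

theorem map_pair {G G' : Type*} [Group G] [Group G'] (f : G →* G') (x g : G) :
    (Subgroup.closure ({x, g} : Set G)).map f = Subgroup.closure ({f x, f g} : Set G') := by
  rw [MonoidHom.map_closure, Set.image_pair]

open scoped IsMulCommutative in
theorem nil_zpowers {G : Type*} [Group G] (x : G) : Group.IsNilpotent (Subgroup.zpowers x) := inferInstance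

theorem easy (n : ℕ) : ∀ {G : Type u} [Group G] (g : G), g ∈ Subgroup.upperCentralSeries G n →
    ∀ x : G, Group.IsNilpotent ↥(Subgroup.closure ({x, g} : Set G)) := by
  induction n with
  | zero =>
    intro G _ g hg x
    rw [Subgroup.upperCentralSeries_zero, Subgroup.mem_bot] at hg
    subst hg
    have hle : Subgroup.closure ({x, 1} : Set G) ≤ Subgroup.zpowers x := by
      rw [Subgroup.closure_le]
      rintro y (rfl | rfl)
      · exact Subgroup.mem_zpowers _
      · exact one_mem _
    exact nil_of_le hle (nil_zpowers x)
  | succ n ih =>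
    intro G _ g hg x
    rw [← Subgroup.comap_upperCentralSeries_quotient_center] at hg
    have h1 := ih (QuotientGroup.mk' (Subgroup.center G) g) hg (QuotientGroup.mk' (Subgroup.center G) x)
    rw [← map_pair] at h1
    set H := Subgroup.closure ({x, g} : Set G)
    have hk : ((QuotientGroup.mk' (Subgroup.center G)).subgroupMap H).ker ≤ Subgroup.center H := by
      intro h hh
      rw [MonoidHom.mem_ker] at hh
      have h2 : QuotientGroup.mk' (Subgroup.center G) (h : G) = 1 := congrArg Subtype.val hh
      rw [← MonoidHom.mem_ker, QuotientGroup.ker_mk'] at h2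
      rw [Subgroup.mem_center_iff]
      intro k
      exact Subtype.ext (Subgroup.mem_center_iff.mp h2 k)
    exact Subgroup.isNilpotent_of_ker_le_center _ hk

theorem commute_of_nil {G : Type*} [Group G] (h y : G)
    (hn : Group.IsNilpotent ↥(Subgroup.closure ({y, h} : Set G)))
    (hc : (orderOf y).Coprime (orderOf h)) : y * h = h * y := by
  have hy : y ∈ Subgroup.closure ({y, h} : Set G) := Subgroup.subset_closure (by simp)
  have hh : h ∈ Subgroup.closure ({y, h} : Set G) := Subgroup.subset_closure (by simp)
  have := Cfsg.Agent.Lib.Helper31.commute_of_coprime_orderOf _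
    (⟨y, hy⟩ : Subgroup.closure ({y, h} : Set G)) ⟨h, hh⟩ (by
      rw [Subgroup.orderOf_mk, Subgroup.orderOf_mk]; exact hc)
  exact congrArg Subtype.val this

theorem hard (n : ℕ) : ∀ {G : Type u} [Group G] [Finite G], Nat.card G = n → ∀ g : G,
    (∀ x : G, Group.IsNilpotent ↥(Subgroup.closure ({x, g} : Set G))) →
    ∃ k, g ∈ Subgroup.upperCentralSeries G k := by
  induction n using Nat.strong_induction_on with
  | _ n ih =>
  intro G _ _ hn g hg
  by_cases hZ : Subgroup.center G = ⊥
  · refine ⟨0, ?_⟩
    rw [Subgroup.upperCentralSeries_zero, Subgroup.mem_bot]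
    by_contra hg1
    have ho1 : orderOf g ≠ 1 := by rwa [Ne, orderOf_eq_one_iff]
    obtain ⟨p, hpdef⟩ : ∃ p, p = (orderOf g).minFac := ⟨_, rfl⟩
    have hp : p.Prime := hpdef ▸ Nat.minFac_prime ho1
    have : Fact p.Prime := ⟨hp⟩
    have hpd : p ∣ orderOf g := hpdef ▸ Nat.minFac_dvd _
    obtain ⟨g', hg'def⟩ : ∃ g', g' = g ^ (orderOf g / p) := ⟨_, rfl⟩
    have ho' : orderOf g' = p := by
      rw [hg'def]; exact orderOf_pow_orderOf_div (orderOf_pos g).ne' hpd
    have hg' : ∀ x : G, Group.IsNilpotent ↥(Subgroup.closure ({x, g'} : Set G)) := by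
      intro x
      apply nil_of_le _ (hg x)
      rw [Subgroup.closure_le]
      rintro y (rfl | rfl)
      · exact Subgroup.subset_closure (by simp)
      · rw [hg'def]
        exact pow_mem (Subgroup.subset_closure (by simp)) _
    have hconj : ∀ u x : G, Group.IsNilpotent ↥(Subgroup.closure ({x, u * g' * u⁻¹} : Set G)) := by
      intro u x
      have h1 := nil_map (MulAut.conj u).toMonoidHom (hg' (u⁻¹ * x * u))
      rw [map_pair] at h1
      have h2 : (MulAut.conj u).toMonoidHom (u⁻¹ * x * u) = x := by
        simp [MulAut.conj_apply]; group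
      have h3 : (MulAut.conj u).toMonoidHom g' = u * g' * u⁻¹ := by
        simp [MulAut.conj_apply]
      rwa [h2, h3] at h1
    have hpg : IsPGroup p (Subgroup.zpowers g') := by
      apply IsPGroup.of_card (n := 1)
      rw [Nat.card_zpowers, ho', pow_one]
    obtain ⟨P, hP⟩ := hpg.exists_le_sylow
    have hg'P : g' ∈ (P : Subgroup G) := hP (Subgroup.mem_zpowers g')
    let D : Subgroup (P : Subgroup G) := Subgroup.normalClosure {⟨g', hg'P⟩}
    have hD : D ≠ ⊥ := by
      intro h
      have h1 : (⟨g', hg'P⟩ : (P : Subgroup G)) ∈ D := Subgroup.subset_normalClosure (by simp)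
      rw [h, Subgroup.mem_bot] at h1
      have h2 : g' = 1 := congrArg Subtype.val h1
      rw [h2, orderOf_one] at ho'
      exact hp.one_lt.ne ho'
    obtain ⟨z, hzD, hz1, hzc⟩ := Cfsg.Agent.Lib.Helper38.exists_ne_one_mem_center_of_normal P.2 D hD
    have hDc : ∀ d ∈ D, ∀ y : G, (orderOf y).Coprime p → y * (d : G) = d * y := by
      intro d hd y hy
      have hle : D ≤ (Subgroup.centralizer ({y} : Set G)).comap (P : Subgroup G).subtype := by
        show Subgroup.closure _ ≤ _
        rw [Subgroup.closure_le]
        intro c hc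
        rw [Group.mem_conjugatesOfSet_iff] at hc
        obtain ⟨a, ha, hac⟩ := hc
        rw [Set.mem_singleton_iff] at ha
        subst ha
        obtain ⟨u, hu⟩ := isConj_iff.mp hac
        show (c : G) ∈ Subgroup.centralizer ({y} : Set G)
        rw [Subgroup.mem_centralizer_singleton_iff, ← hu]
        simp only [Subgroup.coe_mul, Subgroup.coe_inv]
        apply (commute_of_nil _ _ (hconj u y) _).symm
        rw [Cfsg.Agent.Lib.Helper40.orderOf_conj, ho']
        exact hy
      have := hle hd
      have h2 : (d : G) ∈ Subgroup.centralizer ({y} : Set G) := this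
      rw [Subgroup.mem_centralizer_singleton_iff] at h2
      exact h2.symm
    have hzG : (z : G) ∈ Subgroup.center G := by
      have hres : Cfsg.pResidual p G ≤ Subgroup.centralizer ({(z : G)} : Set G) := by
        unfold Cfsg.pResidual
        rw [Subgroup.closure_le]
        intro y hy
        show y ∈ Subgroup.centralizer ({(z : G)} : Set G)
        rw [Subgroup.mem_centralizer_singleton_iff]
        exact hDc z hzD y hy
      rw [Subgroup.mem_center_iff]
      intro x
      obtain ⟨r, hr, w, hw, rfl⟩ := Cfsg.Agent.Lib.Helper40.sylow_mul_pResidual P x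
      have h1 : r * (z : G) = z * r := congrArg Subtype.val (Subgroup.mem_center_iff.mp hzc ⟨r, hr⟩)
      have h2 : w * (z : G) = z * w := by
        have := hres hw
        rw [Subgroup.mem_centralizer_singleton_iff] at this
        exact this
      calc r * w * (z : G) = r * (w * z) := by group
        _ = r * (z * w) := by rw [h2]
        _ = (r * z) * w := by group
        _ = z * r * w := by rw [h1]
        _ = z * (r * w) := by group
    rw [hZ, Subgroup.mem_bot] at hzG
    exact hz1 (Subtype.ext hzG)
  · have hlt : Nat.card (G ⧸ Subgroup.center G) < n := by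
      rw [← hn, ← Subgroup.index_eq_card, ← Subgroup.card_mul_index (Subgroup.center G)]
      have h1 : 1 < Nat.card (Subgroup.center G) := by
        rw [Finite.one_lt_card_iff_nontrivial]
        exact (Subgroup.nontrivial_iff_ne_bot _).mpr hZ
      have h2 : 0 < (Subgroup.center G).index := Nat.pos_of_ne_zero Subgroup.FiniteIndex.index_ne_zero
      nlinarith
    obtain ⟨k, hk⟩ := ih _ hlt rfl (QuotientGroup.mk' (Subgroup.center G) g) (by
      intro x
      obtain ⟨x, rfl⟩ := QuotientGroup.mk'_surjective _ x
      rw [← map_pair]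
      exact nil_map _ (hg x))
    refine ⟨k + 1, ?_⟩
    rw [← Subgroup.comap_upperCentralSeries_quotient_center]
    exact hk

/-- In a finite group G the set of elements g such that the subgroup generated by g and x is nilpotent for every x ∈ G is exactly the hypercenter of G (the last term of the upper central series). -/
theorem result {G : Type*} [Group G] [Finite G] (g : G) :
    (∀ x : G, Group.IsNilpotent ↥(Subgroup.closure ({x, g} : Set G))) ↔ g ∈ ⨆ n : ℕ, Subgroup.upperCentralSeries G n := by
  rw [Subgroup.mem_iSup_of_directed (Subgroup.upperCentralSeries_mono G).directed_le]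
  constructor
  · intro h
    exact hard _ rfl g h
  · rintro ⟨n, hn⟩
    exact easy n g hn

end Cfsg.Agent.S3939
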