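import Cfsg.Statements.S3941

set_option autoImplicit false
open Cfsg

namespace Cfsg.Agent.S3941

open Equiv Equiv.Perm

theorem key {G : Type*} [Group G] [Finite G] (H : Subgroup G) (p : ℕ) [Fact p.Prime]
    (hcl : Cfsg.IsPClosed p H) :
    ∃ K : Subgroup G, IsPGroup p K ∧ ∀ g ∈ H, (∃ k : ℕ, g ^ (p ^ k) = 1) → g ∈ K := by
  obtain ⟨P⟩ : Nonempty (Sylow p H) := inferInstance
  have hPn : (P : Subgroup H).Normal := hcl P
  refine ⟨(P : Subgroup H).map H.subtype, P.2.map _, ?_⟩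
  rintro g hg ⟨k, hk⟩
  have hgk : (⟨g, hg⟩ : H) ^ (p ^ k) = 1 := Subtype.ext hk
  have hz : IsPGroup p (Subgroup.zpowers (⟨g, hg⟩ : H)) := by
    rintro ⟨_, ⟨m, rfl⟩⟩
    refine ⟨k, Subtype.ext ?_⟩
    change ((⟨g, hg⟩ : H) ^ m) ^ (p ^ k) = 1
    rw [← zpow_natCast, ← zpow_mul, mul_comm, zpow_mul, zpow_natCast, hgk, one_zpow]
  obtain ⟨Q, hQ⟩ := hz.exists_le_sylow
  have hPQ : (P : Subgroup H) ≤ Q := IsPGroup.le_sylow_of_normal P.2 Q
  have hQP : (Q : Subgroup H) = P := P.is_maximal' Q.2 hPQ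
  exact ⟨⟨g, hg⟩, hQP ▸ hQ (Subgroup.mem_zpowers _), rfl⟩

/-- the subgroup containing all even `p`-elements fixing `a`. -/
theorem main (n p : ℕ) [Fact p.Prime]
    (h : ∀ H : Subgroup ↥(alternatingGroup (Fin n)), H ≠ ⊤ → p ∣ Nat.card ↥H → Cfsg.IsPClosed p ↥H)
    (a x y : Fin n) (hax : a ≠ x) (hay : a ≠ y) (hxy : x ≠ y)
    (c : Perm (Fin n)) (hc : c ∈ alternatingGroup (Fin n)) (hca : c a = a) (hco : orderOf c = p) :
    ∃ K : Subgroup (Perm (Fin n)), IsPGroup p K ∧
      ∀ g ∈ alternatingGroup (Fin n), g a = a → (∃ k : ℕ, g ^ (p ^ k) = 1) → g ∈ K := by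
  set H : Subgroup (alternatingGroup (Fin n)) := MulAction.stabilizer (alternatingGroup (Fin n)) a
    with hH
  have hmem : ∀ g : alternatingGroup (Fin n), g ∈ H ↔ (g : Perm (Fin n)) a = a := by
    intro g
    rw [hH, MulAction.mem_stabilizer_iff]
    rfl
  have hne : H ≠ ⊤ := by
    intro htop
    have h3 : IsThreeCycle (swap a x * swap a y) := isThreeCycle_swap_mul_swap_same hax hay hxy
    have : (⟨_, h3.mem_alternatingGroup⟩ : alternatingGroup (Fin n)) ∈ H := htop ▸ Subgroup.mem_top _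
    rw [hmem] at this
    simp only [Perm.mul_apply, swap_apply_left] at this
    rw [swap_apply_of_ne_of_ne hay.symm hxy.symm] at this
    exact hay this.symm
  have hdvd : p ∣ Nat.card H := by
    have h1 : (⟨c, hc⟩ : alternatingGroup (Fin n)) ∈ H := (hmem _).mpr hca
    have h2 := orderOf_dvd_natCard (⟨⟨c, hc⟩, h1⟩ : H)
    rwa [Subgroup.orderOf_mk, Subgroup.orderOf_mk, hco] at h2
  obtain ⟨K, hK, hKm⟩ := key H p (h H hne hdvd)
  refine ⟨K.map (alternatingGroup (Fin n)).subtype, hK.map _, ?_⟩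
  rintro g hg hga ⟨k, hk⟩
  exact ⟨⟨g, hg⟩, hKm ⟨g, hg⟩ ((hmem _).mpr hga) ⟨k, Subtype.ext hk⟩, rfl⟩

theorem no_prime_order {G : Type*} [Group G] {K : Subgroup G} {p q : ℕ} [Fact p.Prime]
    (hK : IsPGroup p K) (hq : q.Prime) (hqp : q ≠ p) {v : G} (hv : v ∈ K) (ho : orderOf v = q) :
    False := by
  obtain ⟨k, hk⟩ := hK ⟨v, hv⟩
  have h1 : v ^ (p ^ k) = 1 := congrArg Subtype.val hk
  have h2 : q ∣ p ^ k := ho ▸ orderOf_dvd_of_pow_eq_one h1
  exact hqp ((Nat.prime_dvd_prime_iff_eq hq Fact.out).mp (hq.dvd_of_dvd_pow h2))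

theorem pow_ne {α : Type*} {c : Perm α} {p : ℕ} (hp : p.Prime) (hco : orderOf c = p) {x : α}
    (hx : c x ≠ x) {i : ℕ} (hi : 0 < i) (hip : i < p) : (c ^ i) x ≠ x := by
  intro h
  have hcop : Nat.Coprime i (orderOf c) := by
    rw [hco]
    exact (Nat.coprime_of_lt_prime hi.ne' hip hp).symm
  obtain ⟨m, hm⟩ := exists_pow_eq_self_of_coprime hcop
  apply hx
  rw [← hm]
  exact pow_apply_eq_self_of_apply_eq_self h m

theorem case3 (n : ℕ) (hn : 5 ≤ n)
    (h : ∀ H : Subgroup ↥(alternatingGroup (Fin n)), H ≠ ⊤ → 3 ∣ Nat.card ↥H → Cfsg.IsPClosed 3 ↥H) :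
    False := by
  have : Fact (Nat.Prime 3) := ⟨Nat.prime_three⟩
  obtain ⟨a, ha⟩ : ∃ a : Fin n, a = ⟨4, by omega⟩ := ⟨_, rfl⟩
  obtain ⟨x, hx⟩ : ∃ a : Fin n, a = ⟨0, by omega⟩ := ⟨_, rfl⟩
  obtain ⟨y, hy⟩ : ∃ a : Fin n, a = ⟨1, by omega⟩ := ⟨_, rfl⟩
  obtain ⟨z, hz⟩ : ∃ a : Fin n, a = ⟨2, by omega⟩ := ⟨_, rfl⟩
  obtain ⟨w, hw⟩ : ∃ a : Fin n, a = ⟨3, by omega⟩ := ⟨_, rfl⟩
  have hax : a ≠ x := by rw [ha, hx]; simp
  have hay : a ≠ y := by rw [ha, hy]; simp
  have haz : a ≠ z := by rw [ha, hz]; simp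
  have haw : a ≠ w := by rw [ha, hw]; simp
  have hxy : x ≠ y := by rw [hx, hy]; simp
  have hxz : x ≠ z := by rw [hx, hz]; simp
  have hxw : x ≠ w := by rw [hx, hw]; simp
  have hyz : y ≠ z := by rw [hy, hz]; simp
  have hyw : y ≠ w := by rw [hy, hw]; simp
  have hzw : z ≠ w := by rw [hz, hw]; simp
  have c1 : IsThreeCycle (swap x y * swap x z) := isThreeCycle_swap_mul_swap_same hxy hxz hyz
  have c2 : IsThreeCycle (swap x y * swap x w) := isThreeCycle_swap_mul_swap_same hxy hxw hyw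
  have f1 : (swap x y * swap x z) a = a := by
    rw [Perm.mul_apply, swap_apply_of_ne_of_ne hax haz, swap_apply_of_ne_of_ne hax hay]
  have f2 : (swap x y * swap x w) a = a := by
    rw [Perm.mul_apply, swap_apply_of_ne_of_ne hax haw, swap_apply_of_ne_of_ne hax hay]
  obtain ⟨K, hK, hKm⟩ := main n 3 h a x y hax hay hxy _ c1.mem_alternatingGroup f1 c1.orderOf
  have m1 : swap x y * swap x z ∈ K := hKm _ c1.mem_alternatingGroup f1
    ⟨1, by rw [pow_one, ← c1.orderOf]; exact pow_orderOf_eq_one _⟩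
  have m2 : swap x y * swap x w ∈ K := hKm _ c2.mem_alternatingGroup f2
    ⟨1, by rw [pow_one, ← c2.orderOf]; exact pow_orderOf_eq_one _⟩
  have e3 : swap x y * swap x z * swap x y = swap y z := by
    have := swap_apply_apply (swap x y) x z
    rw [swap_apply_left, swap_apply_of_ne_of_ne hxz.symm hyz.symm, swap_inv] at this
    exact this.symm
  have hv : swap x y * swap x z * (swap x y * swap x w) = swap y z * swap x w := by
    rw [← mul_assoc, e3]
  have hcomm : Commute (swap y z) (swap x w) :=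
    (disjoint_swap_swap (by simp [hyz, hxy.symm, hyw, hxz.symm, hzw, hxw])).commute
  have ho : orderOf (swap y z * swap x w) = 2 := by
    apply orderOf_eq_prime
    · rw [hcomm.mul_pow, sq, sq, swap_mul_self, swap_mul_self, one_mul]
    · intro h1
      have := congrArg (fun f : Perm (Fin n) => f x) h1
      simp only [Perm.mul_apply, swap_apply_left, Perm.coe_one, id_eq] at this
      rw [swap_apply_of_ne_of_ne hyw.symm hzw.symm] at this
      exact hxw this.symm
  exact no_prime_order hK Nat.prime_two (by norm_num) (hv ▸ K.mul_mem m1 m2) ho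

theorem case5 (n p : ℕ) [Fact p.Prime] (hp5 : 5 ≤ p) (hlt : p < n)
    (h : ∀ H : Subgroup ↥(alternatingGroup (Fin n)), H ≠ ⊤ → p ∣ Nat.card ↥H → Cfsg.IsPClosed p ↥H) :
    False := by
  have hpp : p.Prime := Fact.out
  obtain ⟨c, hc⟩ := (exists_with_cycleType_iff (α := Fin n) (m := {p})).mpr
    ⟨by simpa using hlt.le, by simpa using hpp.two_le⟩
  have hco : orderOf c = p := by
    rw [← lcm_cycleType, hc, Multiset.lcm_singleton, normalize_eq]
  have hodd : Odd p := hpp.odd_of_ne_two (by omega)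
  have hce : c ∈ alternatingGroup (Fin n) := by
    rw [mem_alternatingGroup, sign_of_cycleType, hc]
    simp only [Multiset.sum_singleton, Multiset.card_singleton]
    exact Even.neg_one_pow hodd.add_one
  have hsupp : c.support.card = p := by
    rw [← sum_cycleType, hc, Multiset.sum_singleton]
  obtain ⟨a, hca⟩ : ∃ a, c a = a := by
    by_contra hno
    push Not at hno
    have : c.support = Finset.univ := by
      ext i
      simp [hno i]
    rw [this, Finset.card_univ, Fintype.card_fin] at hsupp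
    omega
  obtain ⟨x, hx⟩ : ∃ x, c x ≠ x := by
    by_contra hno
    push Not at hno
    have : c = 1 := Equiv.ext hno
    rw [this, orderOf_one] at hco
    omega
  obtain ⟨y, hy⟩ : ∃ y, c x = y := ⟨_, rfl⟩
  obtain ⟨z, hz⟩ : ∃ z, c y = z := ⟨_, rfl⟩
  obtain ⟨w, hw⟩ : ∃ w, c z = w := ⟨_, rfl⟩
  have p2 : z ≠ x := by
    have := pow_ne hpp hco hx (i := 2) (by norm_num) (by omega)
    rwa [sq, Perm.mul_apply, hy, hz] at this
  have p3 : w ≠ x := by
    have := pow_ne hpp hco hx (i := 3) (by norm_num) (by omega)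
    rwa [pow_succ, sq, Perm.mul_apply, Perm.mul_apply, hy, hz, hw] at this
  have hxy : x ≠ y := by rw [← hy]; exact hx.symm
  have hyz : y ≠ z := by
    rw [← hy, ← hz]; exact fun e => hxy (c.injective e)
  have hyw : y ≠ w := by
    rw [← hy, ← hw]; exact fun e => p2 (c.injective e).symm
  have hzw : z ≠ w := by
    rw [← hz, ← hw]; exact fun e => hyz (c.injective e)
  have hax : a ≠ x := by
    rintro rfl; exact hx hca
  have hay : a ≠ y := by
    rw [← hy, ← hca]; exact fun e => hax (by rw [hca] at e; exact c.injective (hca.trans e))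
  have haz : a ≠ z := by
    rw [← hz]; exact fun e => hay (c.injective (hca.trans e))
  obtain ⟨K, hK, hKm⟩ := main n p h a x y hax hay hxy c hce hca hco
  have hcp : c ^ p = 1 := hco ▸ pow_orderOf_eq_one c
  have mc : c ∈ K := hKm c hce hca ⟨1, by rw [pow_one]; exact hcp⟩
  have t3 : IsThreeCycle (swap y x * swap y z) :=
    isThreeCycle_swap_mul_swap_same hxy.symm hyz p2.symm
  obtain ⟨t, ht⟩ : ∃ t, t = swap y x * swap y z := ⟨_, rfl⟩
  rw [← ht] at t3
  have hta : t a = a := by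
    rw [ht, Perm.mul_apply, swap_apply_of_ne_of_ne hay haz, swap_apply_of_ne_of_ne hay hax]
  have htia : t⁻¹ a = a := by
    rw [Perm.inv_eq_iff_eq]; exact hta.symm
  have mt : t * c * t⁻¹ ∈ K := by
    apply hKm
    · exact Subgroup.mul_mem _ (Subgroup.mul_mem _ t3.mem_alternatingGroup hce)
        (Subgroup.inv_mem _ t3.mem_alternatingGroup)
    · rw [Perm.mul_apply, Perm.mul_apply, htia, hca, hta]
    · exact ⟨1, by rw [pow_one, conj_pow, hcp, mul_one, mul_inv_cancel]⟩
  have e1 : c * swap y x * c⁻¹ = swap z y := by rw [← swap_apply_apply, hz, hy]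
  have e2 : c * swap y z * c⁻¹ = swap z w := by rw [← swap_apply_apply, hz, hw]
  have e3 : swap y z * swap z w * swap y z = swap y w := by
    have := swap_apply_apply (swap y z) z w
    rw [swap_apply_right, swap_apply_of_ne_of_ne hyw.symm hzw.symm, swap_inv] at this
    exact this.symm
  have e4 : c * t * c⁻¹ = swap z y * swap z w := by
    rw [← e1, ← e2, ht]; group
  have hu : t * c * t⁻¹ * c⁻¹ = swap y x * swap y w := by
    have : t * c * t⁻¹ * c⁻¹ = t * (c * t * c⁻¹)⁻¹ := by group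
    rw [this, e4, mul_inv_rev, swap_inv, swap_inv, ht, ← e3, swap_comm z y]
    simp only [mul_assoc]
  have u3 : IsThreeCycle (swap y x * swap y w) :=
    isThreeCycle_swap_mul_swap_same hxy.symm hyw p3.symm
  exact no_prime_order hK Nat.prime_three (by omega)
    (hu ▸ K.mul_mem mt (K.inv_mem mc)) u3.orderOf

/-- Let n ≥ 5 and p an odd prime with p ≤ n, and suppose that every proper subgroup of the alternating group of degree n whose order is divisible by p has a normal Sylow p-subgroup. Then n = p. -/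
theorem result (n p : ℕ) (hn : 5 ≤ n) [Fact p.Prime] (hp : p ≠ 2) (hpn : p ≤ n)
    (h : ∀ H : Subgroup ↥(alternatingGroup (Fin n)), H ≠ ⊤ → p ∣ Nat.card ↥H → Cfsg.IsPClosed p ↥H) : n = p := by
  by_contra hnp
  have hlt : p < n := lt_of_le_of_ne hpn (Ne.symm hnp)
  have hpp : p.Prime := Fact.out
  by_cases hp3 : p = 3
  · subst hp3
    exact case3 n hn h
  · have h2 := hpp.two_le
    have h4 : p ≠ 4 := by
      rintro rfl
      exact absurd hpp (by norm_num)
    exact case5 n p (by omega) hlt h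

end Cfsg.Agent.S3941
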