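import Cfsg.Statements.S3949
import Mathlib

set_option autoImplicit false
open Cfsg

namespace Cfsg.Agent.S3949

theorem iter_inv {G : Type*} [Group G] (α : MulAut G) (g : G) (hg : α g = g⁻¹) (j : ℕ) :
    ((fun c : G => c * (α c)⁻¹)^[j]) g = g ^ (2 ^ j) := by
  induction j generalizing g with
  | zero => simp
  | succ n ih =>
    rw [Function.iterate_succ_apply]
    have h1 : g * (α g)⁻¹ = g ^ 2 := by rw [hg, inv_inv, pow_two]
    have h2 : α (g ^ 2) = (g ^ 2)⁻¹ := by rw [map_pow, hg, inv_pow]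
    show ((fun c : G => c * (α c)⁻¹)^[n]) (g * (α g)⁻¹) = _
    rw [h1, ih _ h2, ← pow_mul, pow_succ' 2 n]

/-- Let G be a finite group and α an automorphism of G of order 2 such that the elements g·α(g)⁻¹ generate G. Let j be a positive integer such that 2^j divides the order of no element inverted by α. Then the set of values of the j-th iterate of the map c ↦ c·α(c)⁻¹ is exactly the set of elements of odd order inverted by α. -/
theorem result {G : Type*} [Group G] [Finite G] (α : MulAut G) (hα : orderOf α = 2) (hG : Subgroup.closure (Set.range (fun c : G => c * (α c)⁻¹)) = ⊤)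
    (j : ℕ) (hj : ∀ g : G, α g = g⁻¹ → ¬ 2 ^ j ∣ orderOf g) :
    Set.range ((fun c : G => c * (α c)⁻¹)^[j]) = {g : G | Odd (orderOf g) ∧ α g = g⁻¹} := by
  have hαα : ∀ x, α (α x) = x := by
    intro x
    have : α ^ 2 = 1 := by rw [← hα]; exact pow_orderOf_eq_one α
    have h := congrArg (fun f : MulAut G => f x) this
    simpa [pow_two] using h
  have hj0 : j ≠ 0 := by
    rintro rfl
    exact hj 1 (by simp) (by simp)
  obtain ⟨k, rfl⟩ := Nat.exists_eq_succ_of_ne_zero hj0
  ext g
  simp only [Set.mem_range, Set.mem_ofPred_eq]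
  constructor
  · rintro ⟨c, rfl⟩
    rw [Function.iterate_succ_apply]
    have hinv : α (c * (α c)⁻¹) = (c * (α c)⁻¹)⁻¹ := by
      simp [hαα]
    show Odd (orderOf (((fun c : G => c * (α c)⁻¹)^[k]) (c * (α c)⁻¹))) ∧
      α (((fun c : G => c * (α c)⁻¹)^[k]) (c * (α c)⁻¹)) = (((fun c : G => c * (α c)⁻¹)^[k]) (c * (α c)⁻¹))⁻¹
    rw [iter_inv α _ hinv]
    set h := c * (α c)⁻¹ with hh
    refine ⟨?_, by rw [map_pow, hinv, inv_pow]⟩
    have hnd := hj h hinv
    rw [orderOf_pow]
    by_contra hodd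
    rw [Nat.not_odd_iff_even] at hodd
    apply hnd
    have hpos : 0 < orderOf h := orderOf_pos h
    obtain ⟨m, hm⟩ := hodd.two_dvd
    have hg : Nat.gcd (orderOf h) (2 ^ k) ∣ orderOf h := Nat.gcd_dvd_left _ _
    have hord : orderOf h = Nat.gcd (orderOf h) (2 ^ k) * (2 * m) := by
      rw [← hm, Nat.mul_div_cancel' hg]
    obtain ⟨i, hi, hgi⟩ := (Nat.dvd_prime_pow Nat.prime_two).mp (Nat.gcd_dvd_right (orderOf h) (2 ^ k))
    rcases Nat.lt_or_ge i k with hlt | hge
    · exfalso
      have h1 : 2 ^ (i + 1) ∣ orderOf h := by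
        rw [hord, hgi, pow_succ, ← mul_assoc]
        exact Dvd.intro _ rfl
      have h2 : 2 ^ (i + 1) ∣ 2 ^ k := pow_dvd_pow 2 hlt
      have h3 := Nat.dvd_gcd h1 h2
      rw [hgi] at h3
      have := Nat.pow_dvd_pow_iff_le_right (by norm_num : 1 < 2) |>.mp h3
      omega
    · have hik : i = k := le_antisymm hi hge
      rw [hord, hgi, hik, pow_succ, ← mul_assoc]
      exact Dvd.intro _ rfl
  · rintro ⟨hodd, hinv⟩
    have hcop : Nat.Coprime (orderOf g) (2 ^ (k + 1)) := by
      apply Nat.Coprime.pow_right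
      exact (Nat.coprime_two_right).mpr hodd
    obtain ⟨m, hm⟩ := exists_pow_eq_self_of_coprime hcop.symm
    refine ⟨g ^ m, ?_⟩
    have : α (g ^ m) = (g ^ m)⁻¹ := by rw [map_pow, hinv, inv_pow]
    rw [iter_inv α _ this, ← pow_mul, mul_comm, pow_mul, hm]

end Cfsg.Agent.S3949
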