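import Cfsg.Statements.S3982
-- import your own Cfsg.Agent.* helpers here
import Cfsg.Agent.Lib.Helper67.Conj
import Cfsg.Agent.Lib.Helper40.Alperin
import Cfsg.Agent.Lib.Helper30.Coprime
import Cfsg.Agent.Lib.Helper92.LargeES
import Cfsg.Agent.Lib.Helper12.Card

set_option autoImplicit false
open Cfsg

namespace Cfsg.Agent.S3982

theorem conj_mem_centralizer {G : Type*} [Group G] {R : Subgroup G} {t c : G}
    (ht : t ∈ Subgroup.normalizer (R : Set G)) (hc : c ∈ Subgroup.centralizer (R : Set G)) :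
    t * c * t⁻¹ ∈ Subgroup.centralizer (R : Set G) := by
  rw [Subgroup.mem_centralizer_iff] at hc ⊢
  intro r hr
  have h1 : t⁻¹ * r * t ∈ R := by
    have := (Subgroup.mem_normalizer_iff.mp (Subgroup.inv_mem _ ht) r).mp hr
    simpa using this
  have h2 := hc _ h1
  calc r * (t * c * t⁻¹) = t * ((t⁻¹ * r * t) * c) * t⁻¹ := by group
    _ = t * (c * (t⁻¹ * r * t)) * t⁻¹ := by rw [h2]
    _ = t * c * t⁻¹ * r := by group

open Cfsg.Agent.Lib.Helper67 in
theorem mem_normalizer_of_cj_le {G : Type*} [Group G] [Finite G] {g : G} {H : Subgroup G}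
    (h : cj g H ≤ H) : g ∈ Subgroup.normalizer (H : Set G) := by
  rw [mem_normalizer_iff_cj]
  exact Subgroup.eq_of_le_of_card_ge h (le_of_eq (card_cj g H).symm)

/-- Let p be an odd prime and G a finite group of even order divisible by p in which the centralizer of every non-identity p-element has odd order. If some nontrivial p-subgroup of G has a normalizer of even order, then the normalizer of every Sylow p-subgroup of G has even order. -/
theorem result {G : Type*} [Group G] [Finite G] (p : ℕ) [Fact p.Prime] (hp2 : p ≠ 2) (hpG : p ∣ Nat.card G) (h2G : 2 ∣ Nat.card G) (hC : ∀ g : G, g ≠ 1 → (∃ k : ℕ, orderOf g = p ^ k) → Odd (Nat.card ↥(Subgroup.centralizer ({g} : Set G)))) (Q : Subgroup G) (hQ : IsPGroup p ↥Q) (hQ1 : Q ≠ ⊥) (hev : Even (Nat.card ↥(Subgroup.normalizer (Q : Set G)))) (P : Sylow p G) : Even (Nat.card ↥(Subgroup.normalizer ((P : Subgroup G) : Set G))) := by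
  have hp : p.Prime := Fact.out
  obtain ⟨y0, hy0⟩ := exists_prime_orderOf_dvd_card' 2 (even_iff_two_dvd.mp hev)
  obtain ⟨y, hyQ⟩ := y0
  have hy : orderOf y = 2 := by rw [← hy0, Subgroup.orderOf_mk]
  have hy2 : y * y = 1 := by rw [← sq, ← hy]; exact pow_orderOf_eq_one y
  obtain ⟨R, hQR, hRmax⟩ := Finite.exists_le_maximal
    (p := fun R : Subgroup G => IsPGroup p ↥R ∧ y ∈ Subgroup.normalizer (R : Set G)) (a := Q) ⟨hQ, hyQ⟩
  obtain ⟨hR, hyR⟩ := hRmax.prop
  have hR1 : R ≠ ⊥ := ne_bot_of_le_ne_bot hQ1 hQR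
  have hodd : ∀ k ∈ R, k ≠ 1 → Odd (Nat.card ↥(Subgroup.centralizer ({k} : Set G))) := by
    intro k hk hk1
    obtain ⟨j, hj⟩ := (IsPGroup.iff_orderOf.mp hR) ⟨k, hk⟩
    exact hC k hk1 ⟨j, by rw [← hj, Subgroup.orderOf_mk]⟩
  have hinv : ∀ k ∈ R, y * k * y⁻¹ = k⁻¹ := by
    apply Cfsg.Agent.Lib.Helper92.inverts_of_fixedPointFree hy2
    · intro k hk
      exact (Subgroup.mem_normalizer_iff.mp hyR k).mp hk
    · intro k hk hfix
      by_contra hk1
      have h1 := hodd k hk hk1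
      have h2 : y ∈ Subgroup.centralizer ({k} : Set G) := by
        rw [Subgroup.mem_centralizer_singleton_iff]
        exact mul_inv_eq_iff_eq_mul.mp hfix
      have h3 : orderOf (⟨y, h2⟩ : ↥(Subgroup.centralizer ({k} : Set G))) = 2 := by
        rw [Subgroup.orderOf_mk, hy]
      have h4 := orderOf_dvd_natCard (⟨y, h2⟩ : ↥(Subgroup.centralizer ({k} : Set G)))
      rw [h3] at h4
      exact (Nat.not_even_iff_odd.mpr h1) (even_iff_two_dvd.mpr h4)
  obtain ⟨P₂, hP₂⟩ := hR.exists_le_sylow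
  have hRP : R = (P₂ : Subgroup G) := by
    by_contra hne
    have hlt : R < (P₂ : Subgroup G) := lt_of_le_of_ne hP₂ hne
    have hlt2 := Cfsg.Agent.Lib.Helper40.lt_inf_normalizer P₂.2 hlt
    set T := (P₂ : Subgroup G) ⊓ Subgroup.normalizer (R : Set G) with hT
    set C₁ := Subgroup.centralizer (R : Set G) with hC₁
    have hTp : IsPGroup p ↥T := P₂.2.to_le inf_le_left
    have hTC : T ≤ Subgroup.normalizer (C₁ : Set G) := by
      intro t ht
      apply mem_normalizer_of_cj_le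
      rintro _ ⟨c, hc, rfl⟩
      exact conj_mem_centralizer ht.2 hc
    have hC₁odd : Odd (Nat.card ↥C₁) := by
      obtain ⟨⟨k, hk⟩, hk1⟩ := Subgroup.ne_bot_iff_exists_ne_one.mp hR1
      have hk1' : k ≠ 1 := fun h => hk1 (Subtype.ext h)
      exact (hodd k hk hk1').of_dvd_nat
        (Subgroup.card_dvd_of_le (Subgroup.centralizer_le (Set.singleton_subset_iff.mpr hk)))
    have hTodd : Odd (Nat.card ↥T) := by
      obtain ⟨n, hn⟩ := hTp.exists_card_eq
      rw [hn]
      exact (hp.odd_of_ne_two hp2).pow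
    have hYodd : Odd (Nat.card ↥(T ⊔ C₁)) := by
      have h1 := Cfsg.Agent.Lib.Helper12.card_sup_mul_card_inf' T C₁ hTC
      exact (hTodd.mul hC₁odd).of_dvd_nat (Dvd.intro _ h1)
    have hcomm : ∀ t ∈ Subgroup.normalizer (R : Set G), y * t * y⁻¹ * t⁻¹ ∈ C₁ := by
      intro t ht
      rw [hC₁, Subgroup.mem_centralizer_iff]
      intro r hr
      have h1 : t⁻¹ * r * t ∈ R := by
        have := (Subgroup.mem_normalizer_iff.mp (Subgroup.inv_mem _ ht) r).mp hr
        simpa using this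
      have h2 := hinv _ h1
      have h3 := hinv _ hr
      have h4 : y * t * y⁻¹ * t⁻¹ * r * (y * t * y⁻¹ * t⁻¹)⁻¹ = r := by
        have hyi : y⁻¹ = y := inv_eq_of_mul_eq_one_left hy2
        have h2' : y⁻¹ * (t⁻¹ * r * t) * y = (t⁻¹ * r * t)⁻¹ := by
          rw [← h2, hyi]
        calc y * t * y⁻¹ * t⁻¹ * r * (y * t * y⁻¹ * t⁻¹)⁻¹
            = y * (t * (y⁻¹ * (t⁻¹ * r * t) * y) * t⁻¹) * y⁻¹ := by group
          _ = y * r⁻¹ * y⁻¹ := by rw [h2']; group
          _ = r := by rw [hinv _ (R.inv_mem hr), inv_inv]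
      exact (mul_inv_eq_iff_eq_mul.mp h4).symm
    have hyY : Subgroup.zpowers y ≤ Subgroup.normalizer ((T ⊔ C₁ : Subgroup G) : Set G) := by
      rw [Subgroup.zpowers_le]
      apply mem_normalizer_of_cj_le
      rw [Cfsg.Agent.Lib.Helper67.cj_sup]
      apply sup_le
      · rintro _ ⟨t, ht, rfl⟩
        have : (MulAut.conj y).toMonoidHom t = (y * t * y⁻¹ * t⁻¹) * t := by
          simp [MulAut.conj_apply]
        rw [this]
        exact Subgroup.mul_mem _ (Subgroup.mem_sup_right (hcomm t ht.2)) (Subgroup.mem_sup_left ht)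
      · rintro _ ⟨c, hc, rfl⟩
        exact Subgroup.mem_sup_right (conj_mem_centralizer hyR hc)
    have hcop : (Nat.card ↥(Subgroup.zpowers y)).Coprime (Nat.card ↥(T ⊔ C₁)) := by
      rw [Nat.card_zpowers, hy]
      exact Nat.coprime_two_left.mpr hYodd
    obtain ⟨S, hS, hRS, hyS⟩ := Cfsg.Agent.Lib.Helper30.exists_invariant_isSylowIn_ge hyY hcop
      (Or.inl inferInstance) p (hlt2.le.trans le_sup_left) hR (Subgroup.zpowers_le.mpr hyR)
    have hSR : S ≤ R := hRmax.le_of_ge ⟨hS.isPGroup, hyS (Subgroup.mem_zpowers y)⟩ hRS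
    have hSeq : S = R := le_antisymm hSR hRS
    rw [hSeq] at hS
    have := hS.eq_of_le le_sup_left hTp hlt2.le
    exact hlt2.ne this.symm
  obtain ⟨g, hg⟩ := MulAction.exists_smul_eq G P₂ P
  have hPcj : (P : Subgroup G) = Cfsg.Agent.Lib.Helper67.cj g (P₂ : Subgroup G) := by
    rw [← hg]; rfl
  have hmem : g * y * g⁻¹ ∈ Subgroup.normalizer ((P : Subgroup G) : Set G) := by
    rw [Cfsg.Agent.Lib.Helper67.mem_normalizer_iff_cj, hPcj, Cfsg.Agent.Lib.Helper67.cj_cj,
      inv_mul_cancel_right, ← Cfsg.Agent.Lib.Helper67.cj_cj, ← hRP,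
      Cfsg.Agent.Lib.Helper67.mem_normalizer_iff_cj.mp hyR]
  have h3 : orderOf (⟨g * y * g⁻¹, hmem⟩ : ↥(Subgroup.normalizer ((P : Subgroup G) : Set G))) = 2 := by
    rw [Subgroup.orderOf_mk, Cfsg.Agent.Lib.Helper67.orderOf_conj, hy]
  have h4 := orderOf_dvd_natCard (⟨g * y * g⁻¹, hmem⟩ : ↥(Subgroup.normalizer ((P : Subgroup G) : Set G)))
  rw [h3] at h4
  exact even_iff_two_dvd.mpr h4

end Cfsg.Agent.S3982
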