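import Cfsg.Statements.S3984
import Mathlib
import Cfsg.Agent.Lib.Helper70.TI
-- import your own Cfsg.Agent.* helpers here

set_option autoImplicit false
open scoped Pointwise
open Cfsg

namespace Cfsg.Agent.S3984

/-- Let P be a Sylow p-subgroup of the finite group G that meets each conjugate g P g⁻¹ with g outside N_G(P) trivially, and let N be a normal subgroup of G of order prime to p. Then every Sylow p-subgroup Q of G ⧸ N meets each conjugate x Q x⁻¹ with x outside its normalizer trivially. -/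
theorem result {G : Type*} [Group G] [Finite G] (p : ℕ) [Fact p.Prime] (P : Sylow p G) (hTI : ∀ g : G, g ∉ Subgroup.normalizer ((P : Subgroup G) : Set G) → (P : Subgroup G) ⊓ (MulAut.conj g • (P : Subgroup G)) = ⊥) (N : Subgroup G) [N.Normal] (hN : (Nat.card ↥N).Coprime p) (Q : Sylow p (G ⧸ N)) : ∀ x : G ⧸ N, x ∉ Subgroup.normalizer ((Q : Subgroup (G ⧸ N)) : Set (G ⧸ N)) → (Q : Subgroup (G ⧸ N)) ⊓ (MulAut.conj x • (Q : Subgroup (G ⧸ N))) = ⊥ := by
  have hG := Cfsg.Agent.Lib.Helper70.ti_pairs P hTI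
  refine Cfsg.Agent.Lib.Helper70.ti_of_pairs ?_ Q
  intro Q₁ Q₂ hne
  by_contra hbot
  obtain ⟨⟨xb, hxb⟩, hxb1'⟩ := Subgroup.ne_bot_iff_exists_ne_one.mp hbot
  have hxb1 : xb ≠ 1 := fun h => hxb1' (Subtype.ext h)
  obtain ⟨hx1, hx2⟩ := Subgroup.mem_inf.mp hxb
  have hsurj : Function.Surjective (QuotientGroup.mk' N) := QuotientGroup.mk'_surjective N
  obtain ⟨R₁, rfl⟩ := Sylow.mapSurjective_surjective hsurj p Q₁
  obtain ⟨R₂, rfl⟩ := Sylow.mapSurjective_surjective hsurj p Q₂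
  obtain ⟨a, ha, hax⟩ : ∃ a ∈ (R₁ : Subgroup G), QuotientGroup.mk' N a = xb := by
    simpa using hx1
  obtain ⟨b, hb, hbx⟩ : ∃ b ∈ (R₂ : Subgroup G), QuotientGroup.mk' N b = xb := by
    simpa using hx2
  have ha1 : a ≠ 1 := by
    rintro rfl
    exact hxb1 (by rw [← hax, map_one])
  have hb1 : b ≠ 1 := by
    rintro rfl
    exact hxb1 (by rw [← hbx, map_one])
  let X : Subgroup G := (Subgroup.zpowers (xb : G ⧸ N)).comap (QuotientGroup.mk' N)
  have haX : a ∈ X := by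
    change QuotientGroup.mk' N a ∈ Subgroup.zpowers (xb : G ⧸ N)
    rw [hax]; exact Subgroup.mem_zpowers _
  have hbX : b ∈ X := by
    change QuotientGroup.mk' N b ∈ Subgroup.zpowers (xb : G ⧸ N)
    rw [hbx]; exact Subgroup.mem_zpowers _
  obtain ⟨S, hS⟩ := (R₁.2.comap_of_injective X.subtype X.subtype_injective).exists_le_sylow
  obtain ⟨T, hT⟩ := (R₂.2.comap_of_injective X.subtype X.subtype_injective).exists_le_sylow
  obtain ⟨R₂', hR₂'⟩ := Sylow.exists_comap_subtype_eq T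
  have hbT : (⟨b, hbX⟩ : X) ∈ (T : Subgroup X) := hT (Subgroup.mem_comap.mpr hb)
  have haS : (⟨a, haX⟩ : X) ∈ (S : Subgroup X) := hS (Subgroup.mem_comap.mpr ha)
  have hR2 : R₂' = R₂ := by
    by_contra h
    have h0 := hG R₂' R₂ h
    have hb' : b ∈ (R₂' : Subgroup G) := by
      rw [← hR₂'] at hbT
      exact Subgroup.mem_comap.mp hbT
    have : b ∈ (R₂' : Subgroup G) ⊓ (R₂ : Subgroup G) := ⟨hb', hb⟩
    rw [h0] at this
    exact hb1 (Subgroup.mem_bot.mp this)
  subst hR2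
  obtain ⟨c, hc⟩ := MulAction.exists_smul_eq X S T
  have hcaT : c * ⟨a, haX⟩ * c⁻¹ ∈ (T : Subgroup X) := by
    rw [← hc, Sylow.coe_subgroup_smul]
    have := Subgroup.smul_mem_pointwise_smul (⟨a, haX⟩ : X) (MulAut.conj c) (S : Subgroup X) haS
    simpa [MulAut.smul_def, MulAut.conj_apply] using this
  have hca2 : (c : G) * a * (c : G)⁻¹ ∈ (R₂' : Subgroup G) := by
    rw [← hR₂'] at hcaT
    exact Subgroup.mem_comap.mp hcaT
  have hca1 : (c : G) * a * (c : G)⁻¹ ∈ (((c : G) • R₁ : Sylow p G) : Subgroup G) := by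
    rw [Sylow.coe_subgroup_smul]
    have := Subgroup.smul_mem_pointwise_smul a (MulAut.conj (c : G)) (R₁ : Subgroup G) ha
    simpa [MulAut.smul_def, MulAut.conj_apply] using this
  have hca_ne : (c : G) * a * (c : G)⁻¹ ≠ 1 := by
    intro h
    apply ha1
    have := congrArg (fun z => (c : G)⁻¹ * z * (c : G)) h
    simpa [mul_assoc] using this
  have hceq : (c : G) • R₁ = R₂' := by
    by_contra h
    have h0 := hG _ _ h
    have : (c : G) * a * (c : G)⁻¹ ∈ (((c : G) • R₁ : Sylow p G) : Subgroup G) ⊓ (R₂' : Subgroup G) :=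
      ⟨hca1, hca2⟩
    rw [h0] at this
    exact hca_ne (Subgroup.mem_bot.mp this)
  -- the image of c lies in the first Sylow subgroup of the quotient
  have hcQ : QuotientGroup.mk' N (c : G) ∈ ((R₁.mapSurjective hsurj : Sylow p (G ⧸ N)) : Subgroup (G ⧸ N)) := by
    have h1 : QuotientGroup.mk' N (c : G) ∈ Subgroup.zpowers (xb : G ⧸ N) := c.2
    exact (Subgroup.zpowers_le.mpr hx1) h1
  apply hne
  have hle : ((R₂'.mapSurjective hsurj : Sylow p (G ⧸ N)) : Subgroup (G ⧸ N)) ≤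
      ((R₁.mapSurjective hsurj : Sylow p (G ⧸ N)) : Subgroup (G ⧸ N)) := by
    intro y hy
    obtain ⟨r, hr, rfl⟩ : ∃ r ∈ (R₂' : Subgroup G), QuotientGroup.mk' N r = y := by
      simpa using hy
    rw [← hceq, Sylow.coe_subgroup_smul] at hr
    obtain ⟨r1, hr1, rfl⟩ := hr
    have hr1Q : QuotientGroup.mk' N r1 ∈ ((R₁.mapSurjective hsurj : Sylow p (G ⧸ N)) : Subgroup (G ⧸ N)) := by
      rw [Sylow.coe_mapSurjective]
      exact Subgroup.mem_map_of_mem _ hr1
    have : QuotientGroup.mk' N ((c : G) * r1 * (c : G)⁻¹) ∈ ((R₁.mapSurjective hsurj : Sylow p (G ⧸ N)) : Subgroup (G ⧸ N)) := by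
      rw [map_mul, map_mul, map_inv]
      exact Subgroup.mul_mem _ (Subgroup.mul_mem _ hcQ hr1Q) (Subgroup.inv_mem _ hcQ)
    simpa [MulAut.smul_def, MulAut.conj_apply] using this
  exact Sylow.ext ((R₂'.mapSurjective hsurj).3 (R₁.mapSurjective hsurj).2 hle)

end Cfsg.Agent.S3984
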