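import Cfsg.Statements.S3985
-- import your own Cfsg.Agent.* helpers here
import Cfsg.Agent.Lib.Helper58.CyclicSylow

set_option autoImplicit false
open scoped Pointwise
open Cfsg

namespace Cfsg.Agent.S3985

/-- Let P be a cyclic Sylow p-subgroup of the finite group G. Then P meets each conjugate g P g⁻¹ with g outside N_G(P) trivially if and only if P is weakly self-centralizing: C_G(x) = C_G(P) for every non-identity x ∈ P. -/
theorem result {G : Type*} [Group G] [Finite G] (p : ℕ) [Fact p.Prime] (P : Sylow p G) (hcyc : IsCyclic ↥(P : Subgroup G)) : (∀ g : G, g ∉ Subgroup.normalizer ((P : Subgroup G) : Set G) → (P : Subgroup G) ⊓ (MulAut.conj g • (P : Subgroup G)) = ⊥) ↔ ∀ x : G, x ∈ (P : Subgroup G) → x ≠ 1 → Subgroup.centralizer ({x} : Set G) = Subgroup.centralizer ((P : Subgroup G) : Set G) := by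
  classical
  have hp : p.Prime := Fact.out
  obtain ⟨⟨u, huP⟩, hgen⟩ := hcyc.exists_generator
  have hu : Subgroup.zpowers u = (P : Subgroup G) := by
    apply le_antisymm
    · rw [Subgroup.zpowers_le]; exact huP
    · intro y hy
      obtain ⟨i, hi⟩ := Subgroup.mem_zpowers_iff.mp (hgen ⟨y, hy⟩)
      rw [Subgroup.mem_zpowers_iff]
      exact ⟨i, by simpa using congrArg Subtype.val hi⟩
  have hcomm : ∀ a ∈ (P : Subgroup G), ∀ b ∈ (P : Subgroup G), a * b = b * a := by
    intro a ha b hb
    rw [← hu] at ha hb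
    obtain ⟨i, rfl⟩ := Subgroup.mem_zpowers_iff.mp ha
    obtain ⟨j, rfl⟩ := Subgroup.mem_zpowers_iff.mp hb
    exact (((Commute.refl u).zpow_left i).zpow_right j).eq
  constructor
  · intro hTI x hx hx1
    apply le_antisymm
    · intro c hc
      rw [Subgroup.mem_centralizer_singleton_iff] at hc
      have hcN : c ∈ Subgroup.normalizer ((P : Subgroup G) : Set G) := by
        by_contra hcon
        have h1 := hTI c hcon
        have h2 : x ∈ (P : Subgroup G) ⊓ (MulAut.conj c • (P : Subgroup G)) := by
          refine Subgroup.mem_inf.mpr ⟨hx, ?_⟩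
          rw [Subgroup.mem_pointwise_smul_iff_inv_smul_mem]
          have : (MulAut.conj c)⁻¹ • x = x := by
            simp only [MulAut.smul_def, MulAut.conj_inv_apply]
            rw [mul_assoc, ← hc, inv_mul_cancel_left]
          rw [this]; exact hx
        rw [h1, Subgroup.mem_bot] at h2
        exact hx1 h2
      have h3 : c * u * c⁻¹ ∈ Subgroup.zpowers u := by
        rw [hu]
        exact (Subgroup.mem_normalizer_iff.mp hcN u).mp huP
      obtain ⟨k, hk⟩ := (mem_powers_iff_mem_zpowers.mpr h3 : c * u * c⁻¹ ∈ Submonoid.powers u)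
      have hk : c * u * c⁻¹ = u ^ k := hk.symm
      have hx' : x ∈ Subgroup.zpowers u := by rw [hu]; exact hx
      obtain ⟨m, hm⟩ := (mem_powers_iff_mem_zpowers.mpr hx' : x ∈ Submonoid.powers u)
      have hm : u ^ m = x := hm
      obtain ⟨e, he⟩ := P.2.exists_card_eq
      have hord : orderOf u = p ^ e := by rw [← Nat.card_zpowers, hu]; exact he
      have h4 : u ^ (k * m) = u ^ m := by
        rw [pow_mul, ← hk, conj_pow, hm, hc, mul_inv_cancel_right]
      have h5 : ((p ^ e : ℕ) : ℤ) ∣ ((k * m : ℕ) : ℤ) - (m : ℤ) := by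
        rw [← hord]
        apply orderOf_dvd_sub_iff_zpow_eq_zpow.mpr
        rw [zpow_natCast, zpow_natCast, h4]
      have h6 : ¬ (p ^ e) ∣ m := by
        intro h
        apply hx1
        rw [← hm, ← hord] at *
        exact orderOf_dvd_iff_pow_eq_one.mp h
      have h7 : (p : ℤ) ∣ (k : ℤ) - 1 := by
        by_contra hcon
        have hpz : Prime (p : ℤ) := Nat.prime_iff_prime_int.mp hp
        have hcop : IsCoprime ((p : ℤ) ^ e) ((k : ℤ) - 1) :=
          ((Prime.coprime_iff_not_dvd hpz).mpr hcon).pow_left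
        have h8 : ((p : ℤ) ^ e) ∣ ((k : ℤ) - 1) * m := by
          have : ((k * m : ℕ) : ℤ) - (m : ℤ) = ((k : ℤ) - 1) * m := by push_cast; ring
          rw [this] at h5
          exact_mod_cast h5
        have h9 := hcop.dvd_of_dvd_mul_left h8
        exact h6 (by exact_mod_cast h9)
      have h10 := Cfsg.Agent.Lib.Helper58.commute_of_conj_eq_pow P u hu c k hk h7
      rw [Subgroup.mem_centralizer_iff]
      intro y hy
      have hy' : y ∈ Subgroup.zpowers u := by rw [hu]; exact hy
      obtain ⟨i, rfl⟩ := Subgroup.mem_zpowers_iff.mp hy'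
      exact (h10.zpow_right i).eq.symm
    · exact Subgroup.centralizer_le (Set.singleton_subset_iff.mpr hx)
  · intro hC g hg
    by_contra hne
    obtain ⟨⟨x, hx⟩, hx1'⟩ := Subgroup.ne_bot_iff_exists_ne_one.mp hne
    have hx1 : x ≠ 1 := fun h => hx1' (Subtype.ext h)
    obtain ⟨hxP, hxg⟩ := Subgroup.mem_inf.mp hx
    rw [Subgroup.mem_pointwise_smul_iff_inv_smul_mem] at hxg
    simp only [MulAut.smul_def, MulAut.conj_inv_apply] at hxg
    have hx2 : g⁻¹ * x * g ≠ 1 := by
      intro h
      apply hx1
      have : x = g * (g⁻¹ * x * g) * g⁻¹ := by group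
      rw [this, h]; group
    have e1 := hC x hxP hx1
    have e2 := hC _ hxg hx2
    -- every element of g P g⁻¹ centralizes P
    have h1 : ∀ y ∈ (P : Subgroup G), g * y * g⁻¹ ∈ Subgroup.centralizer ((P : Subgroup G) : Set G) := by
      intro y hy
      rw [← e1, Subgroup.mem_centralizer_singleton_iff]
      have h2 : y ∈ Subgroup.centralizer ({g⁻¹ * x * g} : Set G) := by
        rw [Subgroup.mem_centralizer_singleton_iff]
        exact hcomm _ hy _ hxg
      rw [Subgroup.mem_centralizer_singleton_iff] at h2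
      calc g * y * g⁻¹ * x = g * (y * (g⁻¹ * x * g)) * g⁻¹ := by group
        _ = g * ((g⁻¹ * x * g) * y) * g⁻¹ := by rw [h2]
        _ = x * (g * y * g⁻¹) := by group
    have h2 : (MulAut.conj g • (P : Subgroup G)) ≤ (P : Subgroup G) := by
      have hle : (MulAut.conj g • (P : Subgroup G)) ≤ Subgroup.normalizer ((P : Subgroup G) : Set G) := by
        intro z hz
        obtain ⟨y, hy, rfl⟩ := (Subgroup.mem_smul_pointwise_iff_exists _ _ _).mp hz
        exact Subgroup.centralizer_le_normalizer _ (h1 y hy)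
      have hpg : IsPGroup p ↥(MulAut.conj g • (P : Subgroup G)) := (MulAut.conj g • P).2
      have hsup : IsPGroup p ↥((MulAut.conj g • (P : Subgroup G)) ⊔ (P : Subgroup G)) :=
        IsPGroup.to_sup_of_normal_right' hpg P.2 hle
      have hmax : (MulAut.conj g • (P : Subgroup G)) ⊔ (P : Subgroup G) = (P : Subgroup G) :=
        P.is_maximal' hsup le_sup_right
      calc (MulAut.conj g • (P : Subgroup G)) ≤ (MulAut.conj g • (P : Subgroup G)) ⊔ (P : Subgroup G) := le_sup_left
        _ = (P : Subgroup G) := hmax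
    apply hg
    rw [Subgroup.mem_normalizer_iff_map_conj_eq]
    apply Subgroup.eq_of_le_of_card_ge
    · exact h2
    · exact le_of_eq (Subgroup.card_map_of_injective (MulAut.conj g).injective).symm

end Cfsg.Agent.S3985
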