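import Cfsg.Statements.S3986
import Mathlib
import Cfsg.Agent.Lib.Helper70.SylowGen
-- import your own Cfsg.Agent.* helpers here

set_option autoImplicit false
open Cfsg

namespace Cfsg.Agent.S3986

/-- Let p be a prime and G a finite group. Then some Sylow p-subgroup of G is a direct factor of G (it is normal and has a normal complement) if and only if every element of p-power order commutes with every element whose order is a power of a prime other than p. -/
theorem result {G : Type*} [Group G] [Finite G] (p : ℕ) [Fact p.Prime] : (∃ (P : Sylow p G) (K : Subgroup G), (P : Subgroup G).Normal ∧ K.Normal ∧ (P : Subgroup G) ⊓ K = ⊥ ∧ (P : Subgroup G) ⊔ K = ⊤) ↔ ∀ x y : G, (∃ a : ℕ, orderOf x = p ^ a) → (∃ q b : ℕ, q.Prime ∧ q ≠ p ∧ orderOf y = q ^ b) → x * y = y * x := by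
  have hp : p.Prime := Fact.out
  constructor
  · rintro ⟨P, K, hP, hK, hinf, hsup⟩ x y ⟨a, ha⟩ ⟨q, b, hq, hqp, hb⟩
    have hdis : Disjoint (P : Subgroup G) K := disjoint_iff.mpr hinf
    have hxP : x ∈ (P : Subgroup G) := Cfsg.Agent.Lib.Helper70.mem_normal_sylow P hP ha
    have hyK : y ∈ K := by
      have hy : y ∈ (P : Subgroup G) ⊔ K := by rw [hsup]; exact Subgroup.mem_top y
      obtain ⟨u, hu, k, hk, rfl⟩ := Subgroup.mem_sup_of_normal_right.mp hy
      have hcomm : Commute u k := Subgroup.commute_of_normal_of_disjoint _ _ hP hK hdis u k hu hk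
      have h1 : (u * k) ^ (q ^ b) = 1 := by rw [← hb]; exact pow_orderOf_eq_one _
      rw [hcomm.mul_pow] at h1
      have h2 : u ^ (q ^ b) ∈ (P : Subgroup G) ⊓ K := by
        refine ⟨Subgroup.pow_mem _ hu _, ?_⟩
        rw [eq_inv_of_mul_eq_one_left h1]
        exact Subgroup.inv_mem _ (Subgroup.pow_mem _ hk _)
      rw [hinf, Subgroup.mem_bot] at h2
      obtain ⟨c, hc⟩ := (IsPGroup.iff_orderOf.mp P.2) ⟨u, hu⟩
      rw [Subgroup.orderOf_mk] at hc
      have h3 : orderOf u ∣ q ^ b := orderOf_dvd_of_pow_eq_one h2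
      have h4 : Nat.Coprime (p ^ c) (q ^ b) :=
        Nat.Coprime.pow _ _ ((Nat.coprime_primes hp hq).mpr (Ne.symm hqp))
      rw [hc] at h3
      have h5 : p ^ c = 1 := Nat.Coprime.eq_one_of_dvd h4 h3
      rw [h5, orderOf_eq_one_iff] at hc
      rw [hc, one_mul]
      exact hk
    exact Subgroup.commute_of_normal_of_disjoint _ _ hP hK hdis x y hxP hyK
  · intro h
    obtain ⟨P⟩ : Nonempty (Sylow p G) := inferInstance
    have hPelt : ∀ x ∈ (P : Subgroup G), ∃ a : ℕ, orderOf x = p ^ a := by
      intro x hx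
      obtain ⟨c, hc⟩ := (IsPGroup.iff_orderOf.mp P.2) ⟨x, hx⟩
      rw [Subgroup.orderOf_mk] at hc
      exact ⟨c, hc⟩
    have hnorm : Subgroup.normalizer ((P : Subgroup G) : Set G) = ⊤ := by
      apply Cfsg.Agent.Lib.Helper70.eq_top_of_sylow_le
      intro q hq
      by_cases hqp : q = p
      · subst hqp
        exact ⟨P, Subgroup.le_normalizer⟩
      · have : Fact q.Prime := ⟨hq⟩
        obtain ⟨Q⟩ : Nonempty (Sylow q G) := inferInstance
        refine ⟨Q, fun y hy => ?_⟩
        obtain ⟨b, hb⟩ := (IsPGroup.iff_orderOf.mp Q.2) ⟨y, hy⟩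
        rw [Subgroup.orderOf_mk] at hb
        have hcen : y ∈ Subgroup.centralizer ((P : Subgroup G) : Set G) := by
          rw [Subgroup.mem_centralizer_iff]
          intro x hx
          exact h x y (hPelt x hx) ⟨q, b, hq, hqp, hb⟩
        exact Subgroup.centralizer_le_normalizer _ hcen
    have hP : (P : Subgroup G).Normal := Subgroup.normalizer_eq_top_iff.mp hnorm
    obtain ⟨K, hK⟩ := Subgroup.exists_right_complement'_of_coprime (N := (P : Subgroup G)) P.card_coprime_index
    have hKcard : (Nat.card K).Coprime p := by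
      have h1 : Nat.card K = (P : Subgroup G).index := by
        have h2 := hK.card_mul_card
        have h3 := (P : Subgroup G).card_mul_index
        have hpos : 0 < Nat.card (P : Subgroup G) := Nat.card_pos
        exact Nat.eq_of_mul_eq_mul_left hpos (h2.trans h3.symm)
      rw [h1]
      exact ((Nat.Prime.coprime_iff_not_dvd hp).mpr P.not_dvd_index).symm
    have hKcen : K ≤ Subgroup.centralizer ((P : Subgroup G) : Set G) := by
      have htop : (Subgroup.centralizer ((P : Subgroup G) : Set G)).subgroupOf K = ⊤ := by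
        apply Cfsg.Agent.Lib.Helper70.eq_top_of_prime_pow_mem
        rintro q hq y ⟨b, hb⟩
        rw [Subgroup.mem_subgroupOf, Subgroup.mem_centralizer_iff]
        intro x hx
        by_cases hqp : q = p
        · subst hqp
          have h1 : orderOf y ∣ Nat.card K := orderOf_dvd_natCard y
          have h2 : Nat.Coprime (orderOf y) (q ^ b) := (Nat.Coprime.coprime_dvd_left h1 hKcard).pow_right b
          rw [hb, Nat.coprime_self] at h2
          rw [h2, orderOf_eq_one_iff] at hb
          simp [hb]
        · exact h x y (hPelt x hx) ⟨q, b, hq, hqp, by rw [Subgroup.orderOf_coe, hb]⟩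
      exact Subgroup.subgroupOf_eq_top.mp htop
    have hsup : (P : Subgroup G) ⊔ K = ⊤ := hK.sup_eq_top
    have hKn : K.Normal := by
      rw [← Subgroup.normalizer_eq_top_iff, eq_top_iff, ← hsup, sup_le_iff]
      refine ⟨?_, Subgroup.le_normalizer⟩
      have h1 : (P : Subgroup G) ≤ Subgroup.centralizer (K : Set G) :=
        Subgroup.le_centralizer_iff.mp hKcen
      exact h1.trans (Subgroup.centralizer_le_normalizer _)
    exact ⟨P, K, hP, hKn, hK.disjoint.eq_bot, hsup⟩

end Cfsg.Agent.S3986
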