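import Cfsg.Statements.S3987
import Mathlib
import Cfsg.Agent.Lib.Helper70.SylowGen
import Cfsg.Agent.S3986
-- import your own Cfsg.Agent.* helpers here

set_option autoImplicit false
open Cfsg

namespace Cfsg.Agent.S3987

theorem index_centralizer_eq {G : Type*} [Group G] (x : G) :
    (Subgroup.centralizer ({x} : Set G)).index = (MulAction.orbit (ConjAct G) x).ncard := by
  rw [← MulAction.index_stabilizer, ConjAct.stabilizer_eq_centralizer]
  rfl

theorem index_inf_of_coprime {G : Type*} [Group G] [Finite G] (H K : Subgroup G)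
    (h : Nat.Coprime H.index K.index) : (H ⊓ K).index = H.index * K.index := by
  apply le_antisymm Subgroup.index_inf_le
  apply Nat.le_of_dvd (Nat.pos_of_ne_zero Subgroup.index_ne_zero_of_finite)
  exact Nat.Coprime.mul_dvd_of_dvd_of_dvd h (Subgroup.index_dvd_of_le inf_le_left)
    (Subgroup.index_dvd_of_le inf_le_right)

theorem mem_complement {G : Type*} [Group G] [Finite G] {p : ℕ} [Fact p.Prime] (P : Sylow p G)
    (K : Subgroup G) (hP : (P : Subgroup G).Normal) (hK : K.Normal) (hinf : (P : Subgroup G) ⊓ K = ⊥)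
    (hsup : (P : Subgroup G) ⊔ K = ⊤) {q b : ℕ} (hq : q.Prime) (hqp : q ≠ p) {y : G}
    (hb : orderOf y = q ^ b) : y ∈ K := by
  have hp : p.Prime := Fact.out
  have hdis : Disjoint (P : Subgroup G) K := disjoint_iff.mpr hinf
  have hy : y ∈ (P : Subgroup G) ⊔ K := by rw [hsup]; exact Subgroup.mem_top y
  obtain ⟨u, hu, k, hk, rfl⟩ := Subgroup.mem_sup_of_normal_right.mp hy
  have hcomm : Commute u k := Subgroup.commute_of_normal_of_disjoint _ _ hP hK hdis u k hu hk
  have h1 : (u * k) ^ (q ^ b) = 1 := by rw [← hb]; exact pow_orderOf_eq_one _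
  rw [hcomm.mul_pow] at h1
  have h2 : u ^ (q ^ b) ∈ (P : Subgroup G) ⊓ K := by
    refine ⟨Subgroup.pow_mem _ hu _, ?_⟩
    rw [eq_inv_of_mul_eq_one_left h1]
    exact Subgroup.inv_mem _ (Subgroup.pow_mem _ hk _)
  rw [hinf, Subgroup.mem_bot] at h2
  obtain ⟨c, hc⟩ := (IsPGroup.iff_orderOf.mp P.2) ⟨u, hu⟩
  rw [Subgroup.orderOf_mk] at hc
  have h3 : orderOf u ∣ q ^ b := orderOf_dvd_of_pow_eq_one h2
  have h4 : Nat.Coprime (p ^ c) (q ^ b) :=
    Nat.Coprime.pow _ _ ((Nat.coprime_primes hp hq).mpr (Ne.symm hqp))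
  rw [hc] at h3
  have h5 : p ^ c = 1 := Nat.Coprime.eq_one_of_dvd h4 h3
  rw [h5, orderOf_eq_one_iff] at hc
  rw [hc, one_mul]
  exact hk

theorem centralizer_mul_eq {G : Type*} [Group G] {x y : G} (hxy : Commute x y)
    (hco : Nat.Coprime (orderOf x) (orderOf y)) :
    Subgroup.centralizer ({x * y} : Set G) =
      Subgroup.centralizer ({x} : Set G) ⊓ Subgroup.centralizer ({y} : Set G) := by
  apply le_antisymm
  · intro g hg
    rw [Subgroup.mem_centralizer_singleton_iff] at hg
    have hg' : Commute g (x * y) := hg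
    have hx : Commute g x := by
      obtain ⟨m, hm⟩ := exists_pow_eq_self_of_coprime (x := x) hco.symm
      have h1 : (x * y) ^ (orderOf y) = x ^ (orderOf y) := by
        rw [hxy.mul_pow, pow_orderOf_eq_one, mul_one]
      rw [← hm, ← h1]
      exact (hg'.pow_right _).pow_right _
    have hy : Commute g y := by
      obtain ⟨m, hm⟩ := exists_pow_eq_self_of_coprime (x := y) hco
      have h1 : (x * y) ^ (orderOf x) = y ^ (orderOf x) := by
        rw [hxy.mul_pow, pow_orderOf_eq_one, one_mul]
      rw [← hm, ← h1]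
      exact (hg'.pow_right _).pow_right _
    exact ⟨Subgroup.mem_centralizer_singleton_iff.mpr hx, Subgroup.mem_centralizer_singleton_iff.mpr hy⟩
  · intro g hg
    obtain ⟨hx, hy⟩ := Subgroup.mem_inf.mp hg
    rw [Subgroup.mem_centralizer_singleton_iff] at hx hy ⊢
    have hx' : Commute g x := hx
    have hy' : Commute g y := hy
    exact hx'.mul_right hy'

theorem commute_of_index_mul {G : Type*} [Group G] [Finite G] (x y : G)
    (h : (Subgroup.centralizer ({x * y} : Set G)).index =
      (Subgroup.centralizer ({x} : Set G)).index * (Subgroup.centralizer ({y} : Set G)).index) :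
    x * y = y * x := by
  classical
  rw [index_centralizer_eq, index_centralizer_eq, index_centralizer_eq] at h
  set A := MulAction.orbit (ConjAct G) x with hA
  set B := MulAction.orbit (ConjAct G) y with hB
  set C := MulAction.orbit (ConjAct G) (x * y) with hC
  let f : G × G → G := fun ab => ab.1 * ab.2
  have hsub : C ⊆ f '' (A ×ˢ B) := by
    rintro _ ⟨g, rfl⟩
    refine ⟨(g • x, g • y), ⟨⟨g, rfl⟩, ⟨g, rfl⟩⟩, ?_⟩
    simp [f]
  have hcard : (f '' (A ×ˢ B)).ncard = (A ×ˢ B).ncard := by
    apply le_antisymm (Set.ncard_image_le (Set.toFinite _))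
    rw [Set.ncard_prod, ← h]
    exact Set.ncard_le_ncard hsub (Set.toFinite _)
  have hinj : Set.InjOn f (A ×ˢ B) := Set.injOn_of_ncard_image_eq hcard (Set.toFinite _)
  have hxA : x ∈ A := MulAction.mem_orbit_self x
  have hyB : y ∈ B := MulAction.mem_orbit_self y
  have ha' : y⁻¹ * x * y ∈ A := ⟨ConjAct.toConjAct y⁻¹, by simp [ConjAct.smul_def]⟩
  have hb' : (y⁻¹ * x * y)⁻¹ * y * (y⁻¹ * x * y) ∈ B :=
    ⟨ConjAct.toConjAct (y⁻¹ * x * y)⁻¹, by simp [ConjAct.smul_def]⟩
  have heq : f (x, y) = f (y⁻¹ * x * y, (y⁻¹ * x * y)⁻¹ * y * (y⁻¹ * x * y)) := by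
    simp only [f]
    group
  have := hinj (Set.mk_mem_prod hxA hyB) (Set.mk_mem_prod ha' hb') heq
  have h1 : x = y⁻¹ * x * y := (Prod.ext_iff.mp this).1
  calc x * y = y * (y⁻¹ * x * y) := by group
    _ = y * x := by rw [← h1]

/-- Let p be a prime and G a finite group. Then some Sylow p-subgroup of G is a direct factor of G (normal with a normal complement) if and only if for every element x of p-power order and every element y whose order is a power of a prime other than p, the conjugacy class of x y has as many elements as the product of the sizes of the classes of x and of y. -/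
theorem result {G : Type*} [Group G] [Finite G] (p : ℕ) [Fact p.Prime] : (∃ (P : Sylow p G) (K : Subgroup G), (P : Subgroup G).Normal ∧ K.Normal ∧ (P : Subgroup G) ⊓ K = ⊥ ∧ (P : Subgroup G) ⊔ K = ⊤) ↔ ∀ x y : G, (∃ a : ℕ, orderOf x = p ^ a) → (∃ q b : ℕ, q.Prime ∧ q ≠ p ∧ orderOf y = q ^ b) → (Subgroup.centralizer ({x * y} : Set G)).index = (Subgroup.centralizer ({x} : Set G)).index * (Subgroup.centralizer ({y} : Set G)).index := by
  have hp : p.Prime := Fact.out
  constructor
  · rintro ⟨P, K, hP, hK, hinf, hsup⟩ x y ⟨a, ha⟩ ⟨q, b, hq, hqp, hb⟩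
    have hdis : Disjoint (P : Subgroup G) K := disjoint_iff.mpr hinf
    have hxP : x ∈ (P : Subgroup G) := Cfsg.Agent.Lib.Helper70.mem_normal_sylow P hP ha
    have hyK : y ∈ K := mem_complement P K hP hK hinf hsup hq hqp hb
    have hxy : Commute x y := Subgroup.commute_of_normal_of_disjoint _ _ hP hK hdis x y hxP hyK
    have hco : Nat.Coprime (orderOf x) (orderOf y) := by
      rw [ha, hb]
      exact Nat.Coprime.pow _ _ ((Nat.coprime_primes hp hq).mpr (Ne.symm hqp))
    rw [centralizer_mul_eq hxy hco]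
    apply index_inf_of_coprime
    have hKx : K ≤ Subgroup.centralizer ({x} : Set G) := by
      intro k hk
      rw [Subgroup.mem_centralizer_singleton_iff]
      exact (Subgroup.commute_of_normal_of_disjoint _ _ hP hK hdis x k hxP hk).symm
    have hPy : (P : Subgroup G) ≤ Subgroup.centralizer ({y} : Set G) := by
      intro u hu
      rw [Subgroup.mem_centralizer_singleton_iff]
      exact (Subgroup.commute_of_normal_of_disjoint _ _ hP hK hdis u y hu hyK)
    have h1 : (Subgroup.centralizer ({x} : Set G)).index ∣ K.index := Subgroup.index_dvd_of_le hKx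
    have h2 : (Subgroup.centralizer ({y} : Set G)).index ∣ (P : Subgroup G).index :=
      Subgroup.index_dvd_of_le hPy
    have hcompl : Subgroup.IsComplement' (P : Subgroup G) K :=
      Subgroup.isComplement'_of_disjoint_and_mul_eq_univ hdis (by
        rw [← Subgroup.mul_normal, hsup]; rfl)
    have h3 : K.index = Nat.card (P : Subgroup G) := hcompl.index_eq_card
    rw [h3] at h1
    exact Nat.Coprime.coprime_dvd_left h1 (Nat.Coprime.coprime_dvd_right h2 P.card_coprime_index)
  · intro h
    apply (Cfsg.Agent.S3986.result p).mpr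
    intro x y hx hy
    exact commute_of_index_mul x y (h x y hx hy)

end Cfsg.Agent.S3987
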