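import Cfsg.Statements.S4013
import Mathlib
-- import your own Cfsg.Agent.* helpers here

set_option autoImplicit false
open Cfsg

namespace Cfsg.Agent.S4013

/-- Let G be a finite p-group (p prime) and N < M normal subgroups of G such that for some g ∈ M ∖ N the conjugacy class of g is exactly M ∖ N. Then p = 2 and N has index 2 in M. -/
theorem result {G : Type*} [Group G] [Finite G] (p : ℕ) [Fact p.Prime] (hG : IsPGroup p G) (N M : Subgroup G) [N.Normal] [M.Normal] (hNM : N < M) (g : G) (hgM : g ∈ M) (hgN : g ∉ N) (hcl : {h : G | IsConj g h} = (M : Set G) \ (N : Set G)) : p = 2 ∧ N.relIndex M = 2 := by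
  classical
  have hp : p.Prime := Fact.out
  -- the class has p-power size
  have hGc : IsPGroup p (ConjAct G) := hG
  obtain ⟨k, hk⟩ := hGc.card_orbit (α := G) g
  have horb : (MulAction.orbit (ConjAct G) g : Set G) = (M : Set G) \ (N : Set G) := by
    rw [← hcl]
    ext h
    rw [ConjAct.mem_orbit_conjAct, Set.mem_ofPred_eq, isConj_comm]
  rw [horb] at hk
  have hNM' : (N : Set G) ⊆ (M : Set G) := hNM.le
  have hcard : Nat.card ↥((M : Set G) \ (N : Set G)) + Nat.card N = Nat.card M := by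
    have h1 := Set.ncard_sdiff_add_ncard_of_subset hNM' (Set.toFinite _)
    exact h1
  have hrel : N.relIndex M * Nat.card N = Nat.card M := by
    have := Subgroup.relIndex_mul_relIndex ⊥ N M bot_le hNM.le
    rw [Subgroup.relIndex_bot_left, Subgroup.relIndex_bot_left] at this
    rw [mul_comm]; exact this
  obtain ⟨a, ha⟩ := (hG.to_subgroup N).exists_card_eq
  obtain ⟨c, hc⟩ := (hG.to_subgroup M).exists_card_eq
  have hr1 : N.relIndex M ≠ 1 := by
    intro h
    rw [Subgroup.relIndex_eq_one] at h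
    exact absurd h (not_le_of_gt hNM)
  have hrdvd : N.relIndex M ∣ p ^ c := by
    rw [← hc, ← hrel]; exact dvd_mul_right _ _
  obtain ⟨b, -, hb⟩ := (Nat.dvd_prime_pow hp).mp hrdvd
  have hb0 : b ≠ 0 := by
    rintro rfl
    exact hr1 (by simpa using hb)
  -- p^k + p^a = p^b * p^a
  have hmain : p ^ k + p ^ a = p ^ b * p ^ a := by
    rw [← hk, ← ha, ← hb, hcard, hrel]
  have hpa : 0 < p ^ a := pow_pos hp.pos a
  have hpb : 2 ≤ p ^ b := by
    calc 2 ≤ p := hp.two_le
      _ = p ^ 1 := (pow_one p).symm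
      _ ≤ p ^ b := Nat.pow_le_pow_right hp.pos (Nat.one_le_iff_ne_zero.mpr hb0)
  have hk' : p ^ k = (p ^ b - 1) * p ^ a := by
    have : p ^ b * p ^ a = (p ^ b - 1) * p ^ a + p ^ a := by
      conv_lhs => rw [show p ^ b = (p ^ b - 1) + 1 by omega]
      ring
    omega
  have hd : (p ^ b - 1) ∣ p ^ k := by rw [hk']; exact dvd_mul_right _ _
  obtain ⟨e, -, he⟩ := (Nat.dvd_prime_pow hp).mp hd
  have he0 : e = 0 := by
    by_contra hne
    have h1 : p ∣ p ^ b - 1 := by rw [he]; exact dvd_pow_self p hne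
    have h2 : p ∣ p ^ b := dvd_pow_self p hb0
    have h3 : p ∣ 1 := by
      have := (Nat.dvd_sub h2 h1)
      rwa [show p ^ b - (p ^ b - 1) = 1 by omega] at this
    exact hp.one_lt.ne' (Nat.dvd_one.mp h3)
  subst he0
  have hpb2 : p ^ b = 2 := by simp at he; omega
  have hp2 : p = 2 := by
    have h2 : p ∣ 2 := by rw [← hpb2]; exact dvd_pow_self p hb0
    exact (Nat.prime_dvd_prime_iff_eq hp Nat.prime_two).mp h2
  exact ⟨hp2, by rw [hb, hpb2]⟩

end Cfsg.Agent.S4013
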