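import Cfsg.Statements.S4014
import Mathlib
import Cfsg.Agent.Lib.Helper3.PGroup

set_option autoImplicit false
open Cfsg

namespace Cfsg.Agent.S4014

open Cfsg.Agent.Lib.Helper3

theorem derivedSeries_succ_le_map {G : Type*} [Group G] (M : Subgroup G) (hM : commutator G ≤ M)
    (k : ℕ) : derivedSeries G (k + 1) ≤ (derivedSeries M k).map M.subtype := by
  induction k with
  | zero =>
    rw [derivedSeries_succ, derivedSeries_zero, derivedSeries_zero, ← MonoidHom.range_eq_map,
      Subgroup.range_subtype]
    exact hM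
  | succ k ih =>
    rw [derivedSeries_succ, derivedSeries_succ (G := M), Subgroup.map_commutator]
    exact Subgroup.commutator_mono ih ih

theorem upper (p : ℕ) [Fact p.Prime] (k : ℕ) : ∀ (G : Type) [Group G] [Finite G] (α : Type)
    [Finite α] [MulAction G α], IsPGroup p G → Nat.card α < p ^ (k + 1) →
    ∀ g ∈ derivedSeries G k, ∀ a : α, g • a = a := by
  induction k with
  | zero =>
    intro G _ _ α _ _ hG hα g _ a
    have h1 : Nat.card (MulAction.orbit G a) ≤ Nat.card α :=
      Nat.card_le_card_of_injective _ Subtype.val_injective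
    obtain ⟨n, hn⟩ := hG.card_orbit a
    have hn0 : n = 0 := by
      by_contra h
      have : p ^ 1 ≤ p ^ n := Nat.pow_le_pow_right (Fact.out : p.Prime).pos (Nat.one_le_iff_ne_zero.mpr h)
      rw [zero_add] at hα
      omega
    rw [hn0, pow_zero] at hn
    have hs : Subsingleton (MulAction.orbit G a) := (Nat.card_eq_one_iff_unique.mp hn).1
    have := hs.elim ⟨g • a, MulAction.mem_orbit a g⟩ ⟨a, MulAction.mem_orbit_self a⟩
    exact congrArg Subtype.val this
  | succ k ih =>
    intro G _ _ α _ _ hG hα g hg a
    by_cases hH : MulAction.stabilizer G a = ⊤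
    · have : g ∈ MulAction.stabilizer G a := by rw [hH]; trivial
      exact this
    · obtain ⟨M, hM, hHM⟩ := (eq_top_or_exists_le_coatom (MulAction.stabilizer G a)).resolve_left hH
      have hMn := coatom_normal hG hM
      have hMi := coatom_index hG hM
      have hcomm : commutator G ≤ M := by
        have hcyc : IsCyclic (G ⧸ M) := isCyclic_of_prime_card (coatom_card_quotient hG hM)
        have hc : IsMulCommutative (G ⧸ M) := inferInstance
        exact Subgroup.Normal.quotient_commutative_iff_commutator_le.mp hc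
      obtain ⟨m, hm, rfl⟩ := derivedSeries_succ_le_map M hcomm k hg
      have hcard : Nat.card (MulAction.orbit M a) < p ^ (k + 1) := by
        have e1 : Nat.card (MulAction.orbit M a) = (MulAction.stabilizer M a).index :=
          Nat.card_congr (MulAction.orbitEquivQuotientStabilizer M a)
        have e2 : Nat.card (MulAction.orbit G a) = (MulAction.stabilizer G a).index :=
          Nat.card_congr (MulAction.orbitEquivQuotientStabilizer G a)
        have e3 : MulAction.stabilizer M a = (MulAction.stabilizer G a).subgroupOf M := by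
          ext x
          simp [Subgroup.mem_subgroupOf, MulAction.mem_stabilizer_iff, Subgroup.smul_def]
        have e4 := Subgroup.relIndex_mul_index hHM
        have h1 : Nat.card (MulAction.orbit G a) ≤ Nat.card α :=
          Nat.card_le_card_of_injective _ Subtype.val_injective
        rw [e1, e3]
        change (MulAction.stabilizer G a).relIndex M < _
        rw [hMi, ← e2] at e4
        have : (MulAction.stabilizer G a).relIndex M * p < p ^ (k + 1) * p := by
          rw [e4, ← pow_succ]; omega
        exact Nat.lt_of_mul_lt_mul_right this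
      have := ih M (MulAction.orbit M a) (hG.to_subgroup M) hcard m hm ⟨a, MulAction.mem_orbit_self a⟩
      exact congrArg Subtype.val this

open RegularWreathProduct in
/-- evaluation at `1` on the base group of a regular wreath product -/
def ev (D Q : Type) [Group D] [Group Q] : (rightHom : D ≀ᵣ Q →* Q).ker →* D where
  toFun x := x.1.left 1
  map_one' := rfl
  map_mul' x y := by
    have hx : x.1.right = 1 := x.2
    simp [RegularWreathProduct.mul_left, hx]

open RegularWreathProduct in
open scoped commutatorElement in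
theorem proj (D Q : Type) [Group D] [Group Q] (q0 : Q) (hq0 : q0 ≠ 1) (i : ℕ) :
    derivedSeries D i ≤ ((derivedSeries (D ≀ᵣ Q) (i + 1)).subgroupOf
      (rightHom : D ≀ᵣ Q →* Q).ker).map (ev D Q) := by
  classical
  induction i with
  | zero =>
    intro d _
    let b : D ≀ᵣ Q := ⟨Pi.mulSingle 1 d, 1⟩
    let c : D ≀ᵣ Q := inl q0
    have hk : ⁅b, c⁆ ∈ (rightHom : D ≀ᵣ Q →* Q).ker := by
      rw [MonoidHom.mem_ker, map_commutatorElement]
      simp [b, c, commutatorElement_def, rightHom]
    refine ⟨⟨⁅b, c⁆, hk⟩, ?_, ?_⟩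
    · change ⁅b, c⁆ ∈ derivedSeries (D ≀ᵣ Q) (0 + 1)
      rw [derivedSeries_succ, derivedSeries_zero]
      exact Subgroup.commutator_mem_commutator (Subgroup.mem_top _) (Subgroup.mem_top _)
    · change (⁅b, c⁆ : D ≀ᵣ Q).left 1 = d
      have hq : q0⁻¹ ≠ 1 := by simpa using hq0
      simp [b, c, commutatorElement_def, RegularWreathProduct.mul_left, hq, Pi.mulSingle_apply]
  | succ i ih =>
    rw [derivedSeries_succ, Subgroup.commutator_le]
    intro g₁ h₁ g₂ h₂
    obtain ⟨x₁, hx₁, rfl⟩ := ih h₁
    obtain ⟨x₂, hx₂, rfl⟩ := ih h₂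
    refine ⟨⁅x₁, x₂⁆, ?_, map_commutatorElement _ _ _⟩
    change ((⁅x₁, x₂⁆ : (rightHom : D ≀ᵣ Q →* Q).ker) : D ≀ᵣ Q) ∈ derivedSeries (D ≀ᵣ Q) (i + 1 + 1)
    rw [derivedSeries_succ]
    exact Subgroup.commutator_mem_commutator hx₁ hx₂

open RegularWreathProduct in
theorem lower_exists (p : ℕ) [Fact p.Prime] (k : ℕ) : ∃ (W : Type) (_ : Group W) (_ : Finite W)
    (Λ : Type) (_ : Finite Λ) (_ : Nonempty Λ) (_ : MulAction W Λ) (_ : FaithfulSMul W Λ),
    Nat.card Λ = p ^ k ∧ IsPGroup p W ∧ ∀ j < k, derivedSeries W j ≠ ⊥ := by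
  induction k with
  | zero =>
    refine ⟨PUnit, inferInstance, inferInstance, PUnit, inferInstance, inferInstance,
      inferInstance, ⟨fun _ => Subsingleton.elim _ _⟩, by simp, IsPGroup.of_card (n := 0) (by simp), ?_⟩
    intro j hj; omega
  | succ k ih =>
    obtain ⟨W, _, _, Λ, _, _, _, _, hΛ, hW, hder⟩ := ih
    let Q := Multiplicative (ZMod p)
    have hQ : Nat.card Q = p := by simp [Q]
    have : Finite Q := Nat.finite_of_card_ne_zero (by rw [hQ]; exact (Fact.out : p.Prime).ne_zero)
    have hQnt : Nontrivial Q := by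
      rw [← Finite.one_lt_card_iff_nontrivial, hQ]; exact (Fact.out : p.Prime).one_lt
    obtain ⟨q0, hq0⟩ := exists_ne (1 : Q)
    refine ⟨W ≀ᵣ Q, inferInstance, inferInstance, Λ × Q, inferInstance, inferInstance,
      inferInstance, inferInstance, ?_, ?_, ?_⟩
    · rw [Nat.card_prod, hΛ, hQ, pow_succ]
    · obtain ⟨n, hn⟩ := IsPGroup.iff_card.mp hW
      refine IsPGroup.of_card (n := n * p + 1) ?_
      rw [RegularWreathProduct.card, hn, hQ, ← pow_mul, pow_succ]
    · intro j hj
      cases j with
      | zero =>
        rw [derivedSeries_zero]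
        intro h
        have : (inl q0 : W ≀ᵣ Q) ∈ (⊥ : Subgroup (W ≀ᵣ Q)) := by rw [← h]; trivial
        rw [Subgroup.mem_bot] at this
        exact hq0 (congrArg RegularWreathProduct.right this)
      | succ i =>
        intro h
        apply hder i (by omega)
        rw [eq_bot_iff]
        intro d hd
        obtain ⟨x, hx, rfl⟩ := proj W Q q0 hq0 i hd
        have hx' : (x : W ≀ᵣ Q) ∈ derivedSeries (W ≀ᵣ Q) (i + 1) := hx
        rw [h, Subgroup.mem_bot] at hx'
        have : x = 1 := Subtype.ext hx'
        rw [this, map_one]; exact Subgroup.one_mem _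

/-- Let p be a prime, n ≥ 1, and P a Sylow p-subgroup of the symmetric group on n letters. Then the derived length of P is exactly k = ⌊log_p n⌋ (the largest k with p^k ≤ n): the k-th derived subgroup of P is trivial and, when k ≥ 1, the (k−1)-st is not. -/
theorem result (p : ℕ) [Fact p.Prime] (n : ℕ) (hn : 1 ≤ n) (P : Sylow p (Equiv.Perm (Fin n))) : derivedSeries ↥(P : Subgroup (Equiv.Perm (Fin n))) (Nat.log p n) = ⊥ ∧ (1 ≤ Nat.log p n → derivedSeries ↥(P : Subgroup (Equiv.Perm (Fin n))) (Nat.log p n - 1) ≠ ⊥) := by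
  constructor
  · rw [eq_bot_iff]
    intro g hg
    have h := upper p (Nat.log p n) (P : Subgroup (Equiv.Perm (Fin n))) (Fin n) P.2
      (by simpa using Nat.lt_pow_succ_log_self (Fact.out : p.Prime).one_lt n) g hg
    rw [Subgroup.mem_bot]
    apply Subtype.ext
    ext a
    have := h a
    rw [Subgroup.smul_def, Equiv.Perm.smul_def] at this
    simp [this]
  · intro hk
    obtain ⟨W, _, _, Λ, _, _, _, _, hΛ, hW, hder⟩ := lower_exists p (Nat.log p n)
    have hle : Nat.card Λ ≤ n := by
      rw [hΛ]; exact Nat.pow_log_le_self p (by omega)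
    let ι : Λ ↪ Fin n := (Finite.equivFin Λ).toEmbedding.trans (Fin.castLEEmb hle)
    let f : W →* Equiv.Perm (Fin n) := (Equiv.Perm.viaEmbeddingHom ι).comp (MulAction.toPermHom W Λ)
    have hf : Function.Injective f :=
      (Equiv.Perm.viaEmbeddingHom_injective ι).comp MulAction.toPerm_injective
    have hfp : IsPGroup p f.range := hW.of_surjective f.rangeRestrict f.rangeRestrict_surjective
    obtain ⟨P', hP'⟩ := hfp.exists_le_sylow
    obtain ⟨g, hg⟩ := MulAction.exists_smul_eq (Equiv.Perm (Fin n)) P' P
    let F : W →* (P : Subgroup (Equiv.Perm (Fin n))) :=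
      ((MulAut.conj g).toMonoidHom.comp f).codRestrict (P : Subgroup (Equiv.Perm (Fin n))) (by
        intro w
        rw [← hg, Sylow.coe_subgroup_smul]
        exact Subgroup.smul_mem_pointwise_smul _ _ _ (hP' ⟨w, rfl⟩))
    have hF : Function.Injective F := by
      intro a b hab
      have := congrArg Subtype.val hab
      exact hf ((MulAut.conj g).injective this)
    intro hbot
    apply hder (Nat.log p n - 1) (by omega)
    have := map_derivedSeries_le_derivedSeries F (Nat.log p n - 1)
    rw [hbot, le_bot_iff, Subgroup.map_eq_bot_iff_of_injective _ hF] at this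
    exact this

end Cfsg.Agent.S4014
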