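import Cfsg.Statements.S4213
import Mathlib
import Cfsg.Agent.Lib.Helper70.Frobenius
-- import your own Cfsg.Agent.* helpers here

set_option autoImplicit false
open Cfsg

namespace Cfsg.Agent.S4213

universe u
open Cfsg.Agent.Lib.Helper70

/-- A nontrivial solvable group has a nontrivial normal subgroup of prime exponent
(adapted from helper's S3444). -/
theorem exists_normal_exponent_prime {G : Type*} [Group G] [Finite G] [Nontrivial G]
    [hs : Group.IsSolvable G] :
    ∃ (p : ℕ) (V : Subgroup G), p.Prime ∧ V.Normal ∧ V ≠ ⊥ ∧ ∀ x ∈ V, x ^ p = 1 := by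
  classical
  let S : Set (Subgroup G) := {M | M.Normal ∧ M ≠ ⊥}
  have hSne : S.Nonempty := ⟨⊤, inferInstance, top_ne_bot⟩
  obtain ⟨M, hMS, hMmin⟩ := WellFounded.has_min (wellFounded_lt (α := Subgroup G)) S hSne
  obtain ⟨hMn, hMne⟩ := hMS
  have hMsol : Group.IsSolvable M :=
    Group.isSolvable_of_isSolvable_injective (f := M.subtype) M.subtype_injective
  have hlt : ⁅M, M⁆ < M := by
    have h1 : Nontrivial M := (Subgroup.nontrivial_iff_ne_bot M).mpr hMne
    have := Group.IsSolvable.commutator_lt_top_of_nontrivial M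
    rw [← M.range_subtype, MonoidHom.range_eq_map, ← Subgroup.map_commutator,
      Subgroup.map_subtype_lt_map_subtype]
    exact this
  have hcomm : ⁅M, M⁆ = ⊥ := by
    by_contra hne
    exact hMmin ⁅M, M⁆ ⟨Subgroup.commutator_normal M M, hne⟩ hlt
  have hcen : M ≤ Subgroup.centralizer (M : Set G) :=
    Subgroup.commutator_eq_bot_iff_le_centralizer.mp hcomm
  have hc : ∀ x ∈ M, ∀ y ∈ M, Commute x y := by
    intro x hx y hy
    exact ((Subgroup.mem_centralizer_iff.mp (hcen hy)) x hx)
  have hcard : Nat.card M ≠ 1 := by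
    intro h
    exact hMne (Subgroup.card_eq_one.mp h)
  set p := (Nat.card M).minFac with hp
  have hpp : p.Prime := Nat.minFac_prime hcard
  have : Fact p.Prime := ⟨hpp⟩
  obtain ⟨x, hx⟩ := exists_prime_orderOf_dvd_card' (G := M) p (Nat.minFac_dvd _)
  let V : Subgroup G :=
    { carrier := {y | y ∈ M ∧ y ^ p = 1}
      mul_mem' := by
        rintro a b ⟨ha, ha'⟩ ⟨hb, hb'⟩
        exact ⟨M.mul_mem ha hb, by rw [(hc a ha b hb).mul_pow, ha', hb', one_mul]⟩
      one_mem' := ⟨M.one_mem, one_pow _⟩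
      inv_mem' := by
        rintro a ⟨ha, ha'⟩
        exact ⟨M.inv_mem ha, by rw [inv_pow, ha', inv_one]⟩ }
  refine ⟨p, V, hpp, ⟨?_⟩, ?_, ?_⟩
  · rintro n ⟨hn, hn'⟩ g
    exact ⟨hMn.conj_mem n hn g, by rw [conj_pow, hn', mul_one, mul_inv_cancel]⟩
  · intro hV
    have hxV : (x : G) ∈ V := ⟨x.2, by
      have := pow_orderOf_eq_one x
      rw [hx] at this
      simpa using congrArg Subtype.val this⟩
    rw [hV, Subgroup.mem_bot] at hxV
    have : x = 1 := Subtype.ext hxV
    rw [this, orderOf_one] at hx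
    exact hpp.one_lt.ne hx
  · rintro y ⟨hy, hy'⟩
    exact hy'

theorem aux (N : ℕ) : ∀ (G : Type u) [Group G] [Finite G] [Group.IsSolvable G], Nat.card G = N →
    ∀ n, n ∣ Nat.card G → Nat.card {x : G // x ^ n = 1} = n →
      ∃ H : Subgroup G, (H : Set G) = {x | x ^ n = 1} := by
  induction N using Nat.strong_induction_on with
  | _ N IH =>
  intro G _ _ _ hGN n hn hcount
  rcases subsingleton_or_nontrivial G with hsub | hnt
  · refine ⟨⊤, ?_⟩
    ext x
    simp [Subsingleton.elim x 1]
  obtain ⟨p, K, hp, hKn, hKne, hKexp⟩ := exists_normal_exponent_prime (G := G)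
  have : Fact p.Prime := ⟨hp⟩
  have hn0 : 0 < n := Nat.pos_of_dvd_of_pos hn Nat.card_pos
  have hKp : IsPGroup p K := by
    intro x
    exact ⟨1, by rw [pow_one]; exact Subtype.ext (hKexp x.1 x.2)⟩
  obtain ⟨i, hi⟩ := hKp.exists_card_eq
  have hKcard1 : 1 < Nat.card K := by
    rw [Finite.one_lt_card_iff_nontrivial]
    exact (Subgroup.nontrivial_iff_ne_bot K).mpr hKne
  have hi0 : i ≠ 0 := by
    rintro rfl
    rw [pow_zero] at hi
    omega
  have hcardQ : Nat.card G = Nat.card (G ⧸ K) * Nat.card K :=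
    Subgroup.card_eq_card_quotient_mul_card_subgroup K
  have hQpos : 0 < Nat.card (G ⧸ K) := Nat.card_pos
  have hQlt : Nat.card (G ⧸ K) < N := by
    rw [← hGN, hcardQ]
    nlinarith
  have hLfin : ({x : G | x ^ n = 1} : Set G).ncard = n := hcount
  by_cases hpn : p ∣ n
  · -- the case p ∣ n
    set d := Nat.gcd n (Nat.card K) with hd
    have hdpos : 0 < d := Nat.gcd_pos_of_pos_left _ hn0
    obtain ⟨m, hm⟩ : d ∣ n := Nat.gcd_dvd_left _ _
    have hpd : p ∣ d := Nat.dvd_gcd hpn (by rw [hi]; exact dvd_pow_self p hi0)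
    have hmQ : m ∣ Nat.card (G ⧸ K) := by
      obtain ⟨k', hk'⟩ : d ∣ Nat.card K := Nat.gcd_dvd_right _ _
      have hcop : Nat.Coprime m k' := by
        have := Nat.coprime_div_gcd_div_gcd (m := n) (n := Nat.card K) hdpos
        rw [← hd] at this
        rwa [hm, hk', Nat.mul_div_cancel_left _ hdpos, Nat.mul_div_cancel_left _ hdpos] at this
      have h1 : d * m ∣ d * (Nat.card (G ⧸ K) * k') := by
        rw [← hm]
        have : d * (Nat.card (G ⧸ K) * k') = Nat.card G := by rw [hcardQ, hk']; ring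
        rw [this]; exact hn
      have h2 : m ∣ Nat.card (G ⧸ K) * k' := Nat.dvd_of_mul_dvd_mul_left hdpos h1
      exact hcop.dvd_of_dvd_mul_right h2
    obtain ⟨c, hc⟩ := frobenius_dvd (G := G ⧸ K) m hmQ
    have hpre := QuotientGroup.card_preimage_mk K {w : G ⧸ K | w ^ m = 1}
    have hsub : (QuotientGroup.mk ⁻¹' {w : G ⧸ K | w ^ m = 1} : Set G) ⊆ {x : G | x ^ n = 1} := by
      intro x hx
      have hx' : ((x : G ⧸ K)) ^ m = 1 := hx
      rw [← QuotientGroup.mk_pow, QuotientGroup.eq_one_iff] at hx'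
      obtain ⟨d', hd'⟩ := hpd
      change x ^ n = 1
      rw [hm, hd', show p * d' * m = m * p * d' by ring, pow_mul, pow_mul, hKexp _ hx', one_pow]
    have hle : Nat.card K * (m * c) ≤ n := by
      have h1 := Set.ncard_le_ncard hsub (Set.toFinite _)
      rw [hLfin] at h1
      have h2 : (QuotientGroup.mk ⁻¹' {w : G ⧸ K | w ^ m = 1} : Set G).ncard =
          Nat.card K * (m * c) := by
        rw [← hc]; exact hpre
      rwa [h2] at h1
    have hm0 : 0 < m := by
      rcases Nat.eq_zero_or_pos m with h | h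
      · rw [h, mul_zero] at hm; omega
      · exact h
    have hc0 : 0 < c := by
      rcases Nat.eq_zero_or_pos c with h | h
      · rw [h, mul_zero] at hc
        have : Nonempty {x : G ⧸ K // x ^ m = 1} := ⟨⟨1, one_pow _⟩⟩
        have := Nat.card_pos (α := {x : G ⧸ K // x ^ m = 1})
        omega
      · exact h
    have hdK : d ≤ Nat.card K := Nat.le_of_dvd (by omega) (Nat.gcd_dvd_right _ _)
    have hc1 : c = 1 := by
      by_contra hne
      have hc2 : 2 ≤ c := by omega
      have : Nat.card K * (m * 2) ≤ Nat.card K * (m * c) :=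
        Nat.mul_le_mul_left _ (Nat.mul_le_mul_left _ hc2)
      have h3 : d * m ≤ Nat.card K * m := Nat.mul_le_mul_right _ hdK
      have h4 : 0 < Nat.card K * m := Nat.mul_pos (by omega) hm0
      nlinarith
    rw [hc1, mul_one] at hc hle
    obtain ⟨Hb, hHb⟩ := IH _ hQlt (G ⧸ K) rfl m hmQ hc
    refine ⟨Hb.comap (QuotientGroup.mk' K), ?_⟩
    have h5 : ((Hb.comap (QuotientGroup.mk' K) : Subgroup G) : Set G) =
        QuotientGroup.mk ⁻¹' {w : G ⧸ K | w ^ m = 1} := by
      rw [Subgroup.coe_comap, hHb]; rfl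
    rw [h5]
    apply Set.eq_of_subset_of_ncard_le hsub _ (Set.toFinite _)
    rw [hLfin]
    have h2 : (QuotientGroup.mk ⁻¹' {w : G ⧸ K | w ^ m = 1} : Set G).ncard = Nat.card K * m := by
      conv_rhs => rw [← hc]
      exact hpre
    rw [h2, hm]
    exact Nat.mul_le_mul_right _ hdK
  · have hcop : Nat.Coprime n p := ((Nat.Prime.coprime_iff_not_dvd hp).mpr hpn).symm
    have hcopK : Nat.Coprime n (Nat.card K) := by rw [hi]; exact hcop.pow_right i
    have hnQ : n ∣ Nat.card (G ⧸ K) := by
      rw [hcardQ] at hn; exact hcopK.dvd_of_dvd_mul_right hn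
    obtain ⟨c, hc⟩ := frobenius_dvd (G := G ⧸ K) n hnQ
    have hsurj : Function.Surjective (fun x : {x : G // x ^ n = 1} =>
        (⟨(x.1 : G ⧸ K), by rw [← QuotientGroup.mk_pow, x.2]; rfl⟩ : {w : G ⧸ K // w ^ n = 1})) := by
      rintro ⟨w, hw⟩
      obtain ⟨x, rfl⟩ := QuotientGroup.mk_surjective w
      have hxK : x ^ n ∈ K := by
        rw [← QuotientGroup.eq_one_iff, QuotientGroup.mk_pow]; exact hw
      have hb : (n : ℤ) * Nat.gcdA n p + p * Nat.gcdB n p = 1 := by
        have := Nat.gcd_eq_gcd_ab n p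
        rw [hcop] at this
        simpa using this.symm
      refine ⟨⟨x ^ ((p : ℤ) * Nat.gcdB n p), ?_⟩, ?_⟩
      · rw [← zpow_natCast, ← zpow_mul,
          show (p : ℤ) * Nat.gcdB n p * n = ((n : ℤ) * p) * Nat.gcdB n p by ring, zpow_mul, zpow_mul,
          zpow_natCast, zpow_natCast, hKexp _ hxK, one_zpow]
      · apply Subtype.ext
        change ((x ^ ((p : ℤ) * Nat.gcdB n p) : G) : G ⧸ K) = (x : G ⧸ K)
        rw [QuotientGroup.mk_zpow, show (p : ℤ) * Nat.gcdB n p = 1 - n * Nat.gcdA n p by linarith,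
          zpow_sub, zpow_one, zpow_mul, zpow_natCast, hw, one_zpow, inv_one, mul_one]
    have hle : n * c ≤ n := by
      have := Nat.card_le_card_of_surjective _ hsurj
      rwa [hc, hcount] at this
    have hc0 : 0 < c := by
      rcases Nat.eq_zero_or_pos c with h | h
      · rw [h, mul_zero] at hc
        have : Nonempty {x : G ⧸ K // x ^ n = 1} := ⟨⟨1, one_pow _⟩⟩
        have := Nat.card_pos (α := {x : G ⧸ K // x ^ n = 1})
        omega
      · exact h
    have hc1 : c = 1 := by
      by_contra hne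
      have hc2 : 2 ≤ c := by omega
      have : n * 2 ≤ n * c := Nat.mul_le_mul_left _ hc2
      omega
    rw [hc1, mul_one] at hc
    obtain ⟨Hb, hHb⟩ := IH _ hQlt (G ⧸ K) rfl n hnQ hc
    have hHbcard : Nat.card Hb = n := by
      have : Nat.card Hb = ({w : G ⧸ K | w ^ n = 1} : Set (G ⧸ K)).ncard := by
        rw [← hHb]; rfl
      rw [this]; exact hc
    set H1 := Hb.comap (QuotientGroup.mk' K) with hH1
    have hKH1 : K ≤ H1 := by
      intro x hx
      change (QuotientGroup.mk' K x) ∈ Hb
      rw [show QuotientGroup.mk' K x = 1 from (QuotientGroup.eq_one_iff x).mpr hx]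
      exact Hb.one_mem
    have hH1card : Nat.card H1 = Nat.card K * n := by
      have := QuotientGroup.card_preimage_mk K (Hb : Set (G ⧸ K))
      rw [← hHbcard]
      exact this
    have hNn : (K.subgroupOf H1).Normal := inferInstance
    have hNcard : Nat.card (K.subgroupOf H1) = Nat.card K :=
      Nat.card_congr (Subgroup.subgroupOfEquivOfLe hKH1).toEquiv
    have hNidx : (K.subgroupOf H1).index = n := by
      have := (K.subgroupOf H1).card_mul_index
      rw [hNcard, hH1card] at this
      exact Nat.eq_of_mul_eq_mul_left (by omega) this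
    obtain ⟨C', hC'⟩ := Subgroup.exists_right_complement'_of_coprime (N := K.subgroupOf H1)
      (by rw [hNcard, hNidx]; exact hcopK.symm)
    have hC'card : Nat.card C' = n := by
      have h1 := hC'.card_mul_card
      rw [hNcard, hH1card] at h1
      exact Nat.eq_of_mul_eq_mul_left (by omega) h1
    refine ⟨C'.map H1.subtype, ?_⟩
    have hCcard : Nat.card (C'.map H1.subtype) = n := by
      rw [Subgroup.card_map_of_injective H1.subtype_injective, hC'card]
    apply Set.eq_of_subset_of_ncard_le _ _ (Set.toFinite _)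
    · intro x hx
      have : (⟨x, hx⟩ : C'.map H1.subtype) ^ Nat.card (C'.map H1.subtype) = 1 := pow_card_eq_one'
      rw [hCcard] at this
      exact congrArg Subtype.val this
    · rw [hLfin]
      exact hCcard.ge

theorem final {G : Type u} [Group G] [Finite G] [Group.IsSolvable G] (n : ℕ) (hn : n ∣ Nat.card G)
    (hcount : Nat.card {x : G // x ^ n = 1} = n) :
    ∃ H : Subgroup G, H.Normal ∧ (H : Set G) = {x : G | x ^ n = 1} := by
  obtain ⟨H, hH⟩ := aux (Nat.card G) G rfl n hn hcount
  refine ⟨H, ⟨fun x hx g => ?_⟩, hH⟩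
  have hx' : x ∈ (H : Set G) := hx
  rw [hH] at hx'
  have : g * x * g⁻¹ ∈ (H : Set G) := by
    rw [hH]
    change (g * x * g⁻¹) ^ n = 1
    rw [conj_pow, show x ^ n = 1 from hx']; simp
  exact this

/-- If `G` is a finite solvable group and `n` divides the order of `G` and exactly `n` elements `x` of `G` satisfy `x^n = 1`, then these elements form a normal subgroup. -/
theorem result {G : Type*} [Group G] [Finite G] [Group.IsSolvable G] (n : ℕ) (hn : n ∣ Nat.card G) (hcount : Nat.card {x : G // x ^ n = 1} = n) : ∃ H : Subgroup G, H.Normal ∧ (H : Set G) = {x : G | x ^ n = 1} := by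
  exact final n hn hcount

end Cfsg.Agent.S4213
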