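import Cfsg.Statements.S4022
import Cfsg.Agent.Lib.Helper70.ConjQuot
import Cfsg.Agent.Lib.Helper70.ConjSub
import Cfsg.Agent.Lib.Helper70.Wielandt
import Cfsg.Agent.Lib.Helper1.Tools
import Cfsg.Agent.Lib.Lead.Hall
import Cfsg.Agent.S4213
-- import your own Cfsg.Agent.* helpers here

set_option autoImplicit false
open Cfsg

namespace Cfsg.Agent.S4022

universe u

open scoped Pointwise

/-- any two subgroups of equal order are conjugate -/
def AllConj (X : Type*) [Group X] : Prop :=
  ∀ H K : Subgroup X, Nat.card H = Nat.card K → ∃ g : X, MulAut.conj g • H = K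

/-- any two `p`-subgroups of equal order are conjugate, all `p` -/
def PConj (X : Type*) [Group X] : Prop :=
  ∀ p : ℕ, p.Prime → ∀ H K : Subgroup X, IsPGroup p H → IsPGroup p K → Nat.card H = Nat.card K →
    ∃ g : X, MulAut.conj g • H = K

theorem pconj_of_cyclic {X : Type*} [Group X] [Finite X]
    (h : ∀ p : ℕ, p.Prime → ∀ P : Sylow p X, IsCyclic P) : PConj X := by
  intro p hp A B hA hB hAB
  have : Fact p.Prime := ⟨hp⟩
  obtain ⟨P1, hP1⟩ := hA.exists_le_sylow
  obtain ⟨P2, hP2⟩ := hB.exists_le_sylow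
  obtain ⟨g, hg⟩ := MulAction.exists_smul_eq X P1 P2
  refine ⟨g, ?_⟩
  have h1 : MulAut.conj g • A ≤ (P2 : Subgroup X) := by
    rw [← hg, Sylow.coe_subgroup_smul]
    exact Subgroup.pointwise_smul_le_pointwise_smul_iff.mpr hP1
  have hcyc := h p hp P2
  have h2 := Cfsg.Agent.Lib.Helper70.eq_of_card_eq_of_isCyclic
    ((MulAut.conj g • A).subgroupOf (P2 : Subgroup X)) (B.subgroupOf (P2 : Subgroup X))
    (by rw [Cfsg.Agent.Lib.Helper1.card_subgroupOf_of_le h1,
      Cfsg.Agent.Lib.Helper1.card_subgroupOf_of_le hP2, Cfsg.Agent.Lib.Helper1.card_conj_smul, hAB])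
  have h3 := congrArg (Subgroup.map (P2 : Subgroup X).subtype) h2
  rwa [Subgroup.map_subgroupOf_eq_of_le h1, Subgroup.map_subgroupOf_eq_of_le hP2] at h3

theorem sylow_cyclic_of_injective {X Y : Type*} [Group X] [Group Y] [Finite X] (f : Y →* X)
    (hf : Function.Injective f) (p : ℕ) [Fact p.Prime] (h : ∀ P : Sylow p X, IsCyclic P)
    (S : Sylow p Y) : IsCyclic S := by
  obtain ⟨P, hP⟩ := (S.2.map f).exists_le_sylow
  have := h P
  have h1 : IsCyclic (((S : Subgroup Y).map f).subgroupOf (P : Subgroup X)) := inferInstance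
  have h2 : IsCyclic ((S : Subgroup Y).map f) := (Subgroup.subgroupOfEquivOfLe hP).isCyclic.mp h1
  exact ((S : Subgroup Y).equivMapOfInjective f hf).isCyclic.mpr h2

theorem sylow_cyclic_of_surjective {X Y : Type*} [Group X] [Group Y] [Finite X] (f : X →* Y)
    (hf : Function.Surjective f) (p : ℕ) [Fact p.Prime] (h : ∀ P : Sylow p X, IsCyclic P)
    (S : Sylow p Y) : IsCyclic S := by
  obtain ⟨P, rfl⟩ := Sylow.mapSurjective_surjective hf p S
  have := h P
  exact isCyclic_of_surjective (f.subgroupMap (P : Subgroup X)) (f.subgroupMap_surjective _)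

theorem sylow_cyclic_of_coprime {Y : Type*} [Group Y] [Finite Y] (q : ℕ) [Fact q.Prime]
    (h : (Nat.card Y).Coprime q) (S : Sylow q Y) : IsCyclic S := by
  have hq : q.Prime := Fact.out
  obtain ⟨k, hk⟩ := IsPGroup.iff_card.mp S.2
  have h1 : Nat.card S ∣ Nat.card Y := Subgroup.card_subgroup_dvd_card _
  have h2 : Nat.card S = 1 := by
    have h3 : (Nat.card S).Coprime (q ^ k) := (Nat.Coprime.of_dvd_left h1 h).pow_right k
    rw [← hk] at h3
    exact (Nat.coprime_self _).mp h3
  have : Subsingleton S := (Nat.card_eq_one_iff_unique.mp h2).1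
  exact isCyclic_of_subsingleton

/-- `q'`-subgroups of equal order are conjugate if this holds inside the `q'`-subgroups. -/
theorem conj_of_hall {N : Type u} [Group N] [Finite N] [Group.IsSolvable N] (q : ℕ) [Fact q.Prime]
    (hL : ∀ L : Subgroup N, (Nat.card L).Coprime q → AllConj L) (H1 K1 : Subgroup N)
    (hcard : Nat.card H1 = Nat.card K1) (hcop : (Nat.card H1).Coprime q) :
    ∃ g : N, MulAut.conj g • H1 = K1 := by
  have hq : q.Prime := Fact.out
  set a := (Nat.card N).factorization q with ha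
  set m := Nat.card N / q ^ a with hm
  have hN : Nat.card N = m * q ^ a := by
    rw [hm, ha, mul_comm]; exact (Nat.ordProj_mul_ordCompl_eq_self (Nat.card N) q).symm
  have hmq : m.Coprime q := by
    rw [hm, ha]; exact (Nat.coprime_ordCompl hq Nat.card_pos.ne').symm
  have hmn : m.Coprime (q ^ a) := hmq.pow_right a
  obtain ⟨L1, hL1, hH1⟩ := Cfsg.Agent.Lib.Lead.hall_dom m (q ^ a) hN hmn H1 (hcop.pow_right a)
  obtain ⟨L2, hL2, hK1⟩ := Cfsg.Agent.Lib.Lead.hall_dom m (q ^ a) hN hmn K1
    ((hcard ▸ hcop).pow_right a)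
  obtain ⟨g, hg⟩ := Cfsg.Agent.Lib.Lead.hall_conj m (q ^ a) hN hmn L1 L2 hL1 hL2
  have h1 : MulAut.conj g • H1 ≤ L2 := by
    rw [← hg]; exact Subgroup.pointwise_smul_le_pointwise_smul_iff.mpr hH1
  obtain ⟨l, hl⟩ := hL L2 (by rw [hL2]; exact hmq) ((MulAut.conj g • H1).subgroupOf L2)
    (K1.subgroupOf L2) (by rw [Cfsg.Agent.Lib.Helper1.card_subgroupOf_of_le h1,
      Cfsg.Agent.Lib.Helper1.card_subgroupOf_of_le hK1, Cfsg.Agent.Lib.Helper1.card_conj_smul, hcard])
  obtain ⟨x, -, hx⟩ := Cfsg.Agent.Lib.Helper1.conj_of_conj_subgroupOf h1 hK1 ⟨l, hl⟩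
  exact ⟨x * g, by rw [Cfsg.Agent.Lib.Helper1.conj_mul_smul, hx]⟩

theorem card_inf_normal_hall {G : Type*} [Group G] [Finite G] (q : ℕ) [Fact q.Prime]
    (V : Subgroup G) [V.Normal] (hV : IsPGroup q V) (hidx : ¬ q ∣ V.index) (H : Subgroup G) :
    Nat.card (H ⊓ V : Subgroup G) = q ^ (Nat.card H).factorization q := by
  have hq : q.Prime := Fact.out
  obtain ⟨a, ha⟩ := IsPGroup.iff_card.mp (hV.to_le (inf_le_right : H ⊓ V ≤ V))
  have h1 : Nat.card (H ⊓ V : Subgroup G) * (H ⊓ V).relIndex H = Nat.card H :=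
    Cfsg.Agent.Lib.Helper1.card_mul_relIndex inf_le_left
  rw [Subgroup.inf_relIndex_left] at h1
  have h2 : ¬ q ∣ V.relIndex H := fun h => hidx (h.trans (Subgroup.relIndex_dvd_index_of_normal V H))
  have h3 : V.relIndex H ≠ 0 := fun h => h2 (h ▸ dvd_zero q)
  rw [← h1, ha, Nat.factorization_mul (pow_pos hq.pos a).ne' h3, Nat.Prime.factorization_pow hq]
  simp [Nat.factorization_eq_zero_of_not_dvd h2]


theorem pconj_quotient {G : Type*} [Group G] [Finite G] (h : PConj G) (N : Subgroup G) [N.Normal] :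
    PConj (G ⧸ N) := by
  intro p hp A B hA hB hAB
  have : Fact p.Prime := ⟨hp⟩
  obtain ⟨g, hg⟩ := Cfsg.Agent.Lib.Helper70.conj_property_quotient (p := p)
    (fun H K hH hK hHK => by
      obtain ⟨g, hg⟩ := h p hp H K hH hK hHK
      exact ⟨g, hg.symm⟩) N A B hA hB hAB
  exact ⟨g, hg.symm⟩

theorem le_normalizer_inf_normal {G : Type*} [Group G] (X V : Subgroup G) [hV : V.Normal] :
    X ≤ Subgroup.normalizer ((X ⊓ V : Subgroup G) : Set G) := by
  intro x hx
  rw [Subgroup.mem_normalizer_iff]
  intro y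
  constructor
  · rintro ⟨h1, h2⟩
    exact ⟨X.mul_mem (X.mul_mem hx h1) (X.inv_mem hx), hV.conj_mem y h2 x⟩
  · rintro ⟨h1, h2⟩
    have e : y = x⁻¹ * (x * y * x⁻¹) * x := by group
    refine ⟨?_, ?_⟩
    · rw [SetLike.mem_coe, e]
      exact X.mul_mem (X.mul_mem (X.inv_mem hx) h1) hx
    · have := hV.conj_mem _ h2 x⁻¹
      rw [inv_inv] at this
      rw [SetLike.mem_coe, e]
      exact this

theorem main (n : ℕ) : ∀ (G : Type u) [Group G] [Finite G] [Group.IsSolvable G], Nat.card G = n →
    PConj G → ∀ r : ℕ, (∀ p : ℕ, p.Prime → p ≠ r → ∀ P : Sylow p G, IsCyclic P) → AllConj G := by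
  induction n using Nat.strong_induction_on with
  | _ n ih =>
  intro G _ _ _ hn hD r hcyc H K hHK
  by_cases hnt : Nontrivial G
  swap
  · rw [not_nontrivial_iff_subsingleton] at hnt
    exact ⟨1, Subsingleton.elim _ _⟩
  obtain ⟨q, V, hq, hVn, hVne, hVexp⟩ := Cfsg.Agent.S4213.exists_normal_exponent_prime (G := G)
  have : Fact q.Prime := ⟨hq⟩
  have hVp : IsPGroup q V := fun x => ⟨1, Subtype.ext (by simpa using hVexp x x.2)⟩
  obtain ⟨v, hvV, hv1⟩ := V.bot_or_exists_ne_one.resolve_left hVne
  have hvo : orderOf v = q := orderOf_eq_prime (hVexp v hvV) hv1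
  have hmem : ∀ x : G, orderOf x = q → x ∈ V := by
    intro x hx
    obtain ⟨g, hg⟩ := hD q hq (Subgroup.zpowers v) (Subgroup.zpowers x)
      (IsPGroup.of_card (n := 1) (by rw [Nat.card_zpowers, hvo, pow_one]))
      (IsPGroup.of_card (n := 1) (by rw [Nat.card_zpowers, hx, pow_one]))
      (by rw [Nat.card_zpowers, Nat.card_zpowers, hvo, hx])
    have h1 : x ∈ MulAut.conj g • Subgroup.zpowers v := by rw [hg]; exact Subgroup.mem_zpowers x
    have h2 : MulAut.conj g • Subgroup.zpowers v ≤ MulAut.conj g • V :=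
      Subgroup.pointwise_smul_le_pointwise_smul_iff.mpr (Subgroup.zpowers_le.mpr hvV)
    rw [Subgroup.Normal.conj_smul_eq_self g V] at h2
    exact h2 h1
  have hqn : q ∣ n := by
    rw [← hn, ← hvo]; exact orderOf_dvd_natCard v
  by_cases hVq : Nat.card V = q
  · -- Case I
    have hVcomm : IsMulCommutative V := by
      have : IsCyclic V := isCyclic_of_prime_card hVq
      exact ⟨⟨fun a b => IsCyclic.commGroup.mul_comm a b⟩⟩
    have hlt : Nat.card (G ⧸ V) < n := by
      have h1 := Cfsg.Agent.Lib.Helper1.card_quotient_mul_card V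
      rw [hn, hVq] at h1
      have h2 : 0 < Nat.card (G ⧸ V) := Nat.card_pos
      rw [← h1]
      exact lt_mul_of_one_lt_right h2 hq.one_lt
    have hIH : AllConj (G ⧸ V) := ih _ hlt (G ⧸ V) rfl (pconj_quotient hD V) r (by
      intro p hp hpr
      have : Fact p.Prime := ⟨hp⟩
      exact sylow_cyclic_of_surjective (QuotientGroup.mk' V) (QuotientGroup.mk'_surjective V) p
        (hcyc p hp hpr))
    have hle : ∀ X : Subgroup G, q ∣ Nat.card X → V ≤ X := by
      intro X hX
      obtain ⟨x, hx⟩ := exists_prime_orderOf_dvd_card' (G := X) q hX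
      have hx' : orderOf (x : G) = q := by rw [Subgroup.orderOf_coe, hx]
      have h1 : Subgroup.zpowers (x : G) = V :=
        Subgroup.eq_of_le_of_card_ge (Subgroup.zpowers_le.mpr (hmem _ hx'))
          (by rw [Nat.card_zpowers, hx', hVq])
      rw [← h1]
      exact Subgroup.zpowers_le.mpr x.2
    by_cases hqH : q ∣ Nat.card H
    · have hH := hle H hqH
      have hK := hle K (hHK ▸ hqH)
      apply Cfsg.Agent.Lib.Helper1.conj_of_conj_map_mk V hH hK
      apply hIH
      have h1 := Cfsg.Agent.Lib.Helper1.card_map_mk_of_le V hH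
      have h2 := Cfsg.Agent.Lib.Helper1.card_map_mk_of_le V hK
      rw [← hHK, ← h1] at h2
      exact (Nat.eq_of_mul_eq_mul_right Nat.card_pos h2).symm
    · have hH : (Nat.card H).Coprime (Nat.card V) := by
        rw [hVq]; exact ((Nat.Prime.coprime_iff_not_dvd hq).mpr hqH).symm
      have hK : (Nat.card K).Coprime (Nat.card V) := hHK ▸ hH
      apply Cfsg.Agent.Lib.Helper1.conj_of_conj_map_mk_coprime V hH hK
      apply hIH
      rw [Cfsg.Agent.Lib.Helper1.card_map_mk_of_coprime V hH,
        Cfsg.Agent.Lib.Helper1.card_map_mk_of_coprime V hK, hHK]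
  · -- Case II
    obtain ⟨k, hk⟩ := IsPGroup.iff_card.mp hVp
    have hk2 : 2 ≤ k := by
      by_contra hlt
      have hk01 : k = 0 ∨ k = 1 := by omega
      rcases hk01 with rfl | rfl
      · rw [pow_zero, Subgroup.card_eq_one] at hk
        exact hVne hk
      · rw [pow_one] at hk
        exact hVq hk
    obtain ⟨E, hE⟩ := Sylow.exists_subgroup_card_pow_prime (G := V) q (n := 2)
      (by rw [hk]; exact pow_dvd_pow q hk2)
    let e1 := E.equivMapOfInjective V.subtype V.subtype_injective
    have hE'card : Nat.card (E.map V.subtype) = q ^ 2 := by rw [← Nat.card_congr e1.toEquiv, hE]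
    have hE'exp : ∀ a ∈ E.map V.subtype, a ^ q = 1 := by
      rintro _ ⟨a, ha, rfl⟩
      exact hVexp _ a.2
    have hQV : ∀ Q : Sylow q G, (Q : Subgroup G) ≤ V := by
      intro Q x hx
      obtain ⟨t, ht⟩ := (IsPGroup.iff_orderOf.mp Q.2) ⟨x, hx⟩
      rw [Subgroup.orderOf_mk] at ht
      have hxq : x ^ q = 1 := Cfsg.Agent.Lib.Helper70.pow_prime_eq_one_of_rank_two
        (fun A B _ _ h1 h2 => by
          obtain ⟨g, hg⟩ := hD q hq A B (IsPGroup.of_card h1) (IsPGroup.of_card h2) (h1.trans h2.symm)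
          exact ⟨g, hg.symm⟩) _ hE'card hE'exp x t ht
      by_cases hx1 : x = 1
      · rw [hx1]; exact one_mem _
      · exact hmem x (orderOf_eq_prime hxq hx1)
    obtain ⟨Q⟩ : Nonempty (Sylow q G) := inferInstance
    have hVidx : ¬ q ∣ V.index := fun h =>
      Q.not_dvd_index (h.trans (Subgroup.index_dvd_of_le (hQV Q)))
    have hVQ : V = (Q : Subgroup G) := Q.is_maximal' hVp (hQV Q)
    have hqr : q = r := by
      by_contra hne
      have hc := hcyc q hq hne Q
      rw [← hVQ] at hc
      obtain ⟨g, hg⟩ := hc.exists_generator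
      have h1 : orderOf g = Nat.card V := orderOf_eq_card_of_forall_mem_zpowers hg
      have h2 : g ^ q = 1 := Subtype.ext (by simpa using hVexp g g.2)
      have h3 := Nat.le_of_dvd hq.pos (orderOf_dvd_of_pow_eq_one h2)
      rw [h1, hk] at h3
      have : q ^ 2 ≤ q ^ k := Nat.pow_le_pow_right hq.pos hk2
      have : q < q ^ 2 := by nlinarith [hq.one_lt]
      omega
    subst hqr
    have hAB : Nat.card (H ⊓ V : Subgroup G) = Nat.card (K ⊓ V : Subgroup G) := by
      rw [card_inf_normal_hall q V hVp hVidx H, card_inf_normal_hall q V hVp hVidx K, hHK]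
    obtain ⟨g, hg⟩ := hD q hq (H ⊓ V) (K ⊓ V) (hVp.to_le inf_le_right) (hVp.to_le inf_le_right) hAB
    set H' := MulAut.conj g • H with hH'
    have hH'V : H' ⊓ V = K ⊓ V := by
      rw [← hg, Subgroup.smul_inf, Subgroup.Normal.conj_smul_eq_self g V]
    have hH'card : Nat.card H' = Nat.card K := by
      rw [hH', Cfsg.Agent.Lib.Helper1.card_conj_smul, hHK]
    suffices hsuff : ∃ x : G, MulAut.conj x • H' = K by
      obtain ⟨x, hx⟩ := hsuff
      exact ⟨x * g, by rw [Cfsg.Agent.Lib.Helper1.conj_mul_smul, hx]⟩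
    set B := K ⊓ V with hB
    set N := Subgroup.normalizer (B : Set G) with hN
    have hKN : K ≤ N := le_normalizer_inf_normal K V
    have hH'N : H' ≤ N := by
      have := le_normalizer_inf_normal H' V
      rwa [hH'V] at this
    have hBN : B ≤ N := Subgroup.le_normalizer
    have hB'n : (B.subgroupOf N).Normal := Subgroup.normal_in_normalizer
    have hBK : B.subgroupOf N ≤ K.subgroupOf N := Subgroup.comap_mono inf_le_left
    have hBH' : B.subgroupOf N ≤ H'.subgroupOf N := Subgroup.comap_mono (hH'V ▸ inf_le_left)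
    obtain ⟨x, -, hx⟩ := Cfsg.Agent.Lib.Helper1.conj_of_conj_subgroupOf hH'N hKN
      (Cfsg.Agent.Lib.Helper1.conj_of_conj_map_mk (B.subgroupOf N) hBH' hBK (by
        have c1 := Cfsg.Agent.Lib.Helper1.card_map_mk_of_le (B.subgroupOf N) hBH'
        have c2 := Cfsg.Agent.Lib.Helper1.card_map_mk_of_le (B.subgroupOf N) hBK
        rw [Cfsg.Agent.Lib.Helper1.card_subgroupOf_of_le hBN,
          Cfsg.Agent.Lib.Helper1.card_subgroupOf_of_le hH'N] at c1
        rw [Cfsg.Agent.Lib.Helper1.card_subgroupOf_of_le hBN,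
          Cfsg.Agent.Lib.Helper1.card_subgroupOf_of_le hKN] at c2
        have c3 : Nat.card ((H'.subgroupOf N).map (QuotientGroup.mk' (B.subgroupOf N))) =
            Nat.card ((K.subgroupOf N).map (QuotientGroup.mk' (B.subgroupOf N))) := by
          rw [← hH'card, ← c1] at c2
          exact (Nat.eq_of_mul_eq_mul_right Nat.card_pos c2).symm
        apply conj_of_hall q _ _ _ c3
        · -- coprimality
          have c4 : Nat.card B = q ^ (Nat.card K).factorization q :=
            card_inf_normal_hall q V hVp hVidx K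
          rw [c3]
          have c5 : Nat.card ((K.subgroupOf N).map (QuotientGroup.mk' (B.subgroupOf N))) =
              Nat.card K / q ^ (Nat.card K).factorization q := by
            rw [← c4, ← c2, Nat.mul_div_cancel _ Nat.card_pos]
          rw [c5]
          exact (Nat.coprime_ordCompl hq Nat.card_pos.ne').symm
        · intro L hL
          have d1 : Nat.card L ∣ n := by
            rw [← hn]
            calc Nat.card L ∣ Nat.card (N ⧸ B.subgroupOf N) := Subgroup.card_subgroup_dvd_card L
              _ ∣ Nat.card N := Dvd.intro _ (Cfsg.Agent.Lib.Helper1.card_quotient_mul_card _)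
              _ ∣ Nat.card G := Subgroup.card_subgroup_dvd_card N
          have d2 : Nat.card L < n := by
            have hnpos : 0 < n := hn ▸ Nat.card_pos
            refine lt_of_le_of_ne (Nat.le_of_dvd hnpos d1) ?_
            intro heq
            rw [heq] at hL
            exact hq.one_lt.ne' (Nat.Coprime.eq_one_of_dvd hL.symm hqn)
          have d3 : ∀ p : ℕ, p.Prime → ∀ P : Sylow p L, IsCyclic P := by
            intro p hp
            have : Fact p.Prime := ⟨hp⟩
            by_cases hpq : p = q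
            · subst hpq
              exact sylow_cyclic_of_coprime p hL
            · apply sylow_cyclic_of_injective L.subtype L.subtype_injective p
              apply sylow_cyclic_of_surjective (QuotientGroup.mk' (B.subgroupOf N))
                (QuotientGroup.mk'_surjective _) p
              exact sylow_cyclic_of_injective N.subtype N.subtype_injective p (hcyc p hp hpq)
          exact ih _ d2 L rfl (pconj_of_cyclic d3) q (fun p hp _ => d3 p hp)))
    exact ⟨x, hx⟩

/-- Let G be a finite solvable group in which, for every prime p, any two p-subgroups of the same order are conjugate, and suppose the Sylow p-subgroups of G are cyclic for all primes p with at most one exception. Then any two subgroups of G of the same order are conjugate. -/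
theorem result {G : Type*} [Group G] [Finite G]
    [Group.IsSolvable G] (hD : ∀ p : ℕ, p.Prime → ∀ H K : Subgroup G, IsPGroup p H → IsPGroup p K → Nat.card H = Nat.card K →
      ∃ g : G, K = H.map (MulAut.conj g).toMonoidHom)
    (r : ℕ) (hcyc : ∀ p : ℕ, p.Prime → p ≠ r → ∀ P : Sylow p G, IsCyclic P) :
    ∀ H K : Subgroup G, Nat.card H = Nat.card K → ∃ g : G, K = H.map (MulAut.conj g).toMonoidHom := by
  intro H K hHK
  obtain ⟨g, hg⟩ := main _ G rfl (fun p hp A B hA hB hAB => by
    obtain ⟨g, hg⟩ := hD p hp A B hA hB hAB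
    exact ⟨g, hg.symm⟩) r hcyc H K hHK
  exact ⟨g, hg.symm⟩

end Cfsg.Agent.S4022
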