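import Cfsg.Statements.S4023
import Cfsg.Agent.Lib.Helper70.ConjSub
import Cfsg.Agent.Lib.Helper70.ConjSub2
import Cfsg.Agent.S0016
-- import your own Cfsg.Agent.* helpers here

set_option autoImplicit false
open Cfsg

namespace Cfsg.Agent.S4023

theorem comm_of_equiv {A B : Type*} [Group A] [Group B] (e : A ≃* B) (hA : IsMulCommutative A) :
    IsMulCommutative B :=
  ⟨⟨fun b1 b2 => by
    have := hA.is_comm.comm (e.symm b1) (e.symm b2)
    apply e.symm.injective
    simpa using this⟩⟩

theorem iso_of_card_eq {G : Type*} [Group G] {p : ℕ}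
    (hC : ∀ H K : Subgroup G, IsPGroup p H → IsPGroup p K → Nat.card H = Nat.card K →
      ∃ g : G, K = H.map (MulAut.conj g).toMonoidHom) (P : Sylow p G)
    (A B : Subgroup (P : Subgroup G)) (h : Nat.card A = Nat.card B) : Nonempty (A ≃* B) := by
  let eA := A.equivMapOfInjective (P : Subgroup G).subtype (P : Subgroup G).subtype_injective
  let eB := B.equivMapOfInjective (P : Subgroup G).subtype (P : Subgroup G).subtype_injective
  obtain ⟨g, hg⟩ := hC (A.map (P : Subgroup G).subtype) (B.map (P : Subgroup G).subtype)
    ((P.2.to_subgroup A).map _) ((P.2.to_subgroup B).map _)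
    (by rw [← Nat.card_congr eA.toEquiv, ← Nat.card_congr eB.toEquiv, h])
  let e2 := (A.map (P : Subgroup G).subtype).equivMapOfInjective (MulAut.conj g).toMonoidHom
    (MulAut.conj g).injective
  exact ⟨(eA.trans e2).trans ((MulEquiv.subgroupCongr hg.symm).trans eB.symm)⟩

/-- Let p be a prime and G a finite group in which any two p-subgroups of the same order are conjugate, with Sylow p-subgroup P. Then P is cyclic, or elementary abelian, or p = 2 and P is a quaternion group of order 8, or p is odd and P is non-abelian of order p³ and exponent p. -/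
theorem result {G : Type*} [Group G] [Finite G]
    {p : ℕ} [Fact p.Prime] (hC : ∀ H K : Subgroup G, IsPGroup p H → IsPGroup p K → Nat.card H = Nat.card K →
      ∃ g : G, K = H.map (MulAut.conj g).toMonoidHom) (P : Sylow p G) :
    IsCyclic P ∨ Cfsg.IsElementaryAbelian p (P : Subgroup G) ∨
      (p = 2 ∧ Nonempty ((P : Subgroup G) ≃* QuaternionGroup 2)) ∨
      (p ≠ 2 ∧ ¬ IsMulCommutative P ∧ Nat.card P = p ^ 3 ∧ Monoid.exponent P = p) := by
  have hp : p.Prime := Fact.out
  have hiso := iso_of_card_eq hC P
  have hconj : ∀ A B : Subgroup G, IsMulCommutative A → IsMulCommutative B → Nat.card A = p ^ 2 →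
      Nat.card B = p ^ 2 → ∃ g : G, B = A.map (MulAut.conj g).toMonoidHom :=
    fun A B _ _ h1 h2 => hC A B (IsPGroup.of_card h1) (IsPGroup.of_card h2) (h1.trans h2.symm)
  rcases Cfsg.Agent.Lib.Helper70.unique_or_exponent hconj P with huniq | hexp
  · rcases Cfsg.Agent.S0016.result p P.2 huniq with h1 | ⟨h2, n, ⟨e⟩⟩
    · exact Or.inl h1
    · rcases Nat.lt_or_ge n 2 with hn | hn
      · interval_cases n
        · left
          have : IsCyclic (QuaternionGroup (2 ^ 0)) := QuaternionGroup.quaternionGroup_one_isCyclic
          exact e.isCyclic.mpr this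
        · exact Or.inr (Or.inr (Or.inl ⟨h2, ⟨e⟩⟩))
      · exfalso
        obtain ⟨A, B, hAB, hA, hB⟩ := Cfsg.Agent.Lib.Helper70.quaternion_subgroups n hn
        let eA := A.equivMapOfInjective e.symm.toMonoidHom e.symm.injective
        let eB := B.equivMapOfInjective e.symm.toMonoidHom e.symm.injective
        obtain ⟨f⟩ := hiso (A.map e.symm.toMonoidHom) (B.map e.symm.toMonoidHom)
          (by rw [← Nat.card_congr eA.toEquiv, ← Nat.card_congr eB.toEquiv, hAB])
        exact hB (comm_of_equiv ((eA.trans f).trans eB.symm) hA)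
  · by_cases hcomm : IsMulCommutative (P : Subgroup G)
    · exact Or.inr (Or.inl ⟨hcomm, hexp⟩)
    · right; right; right
      have hexp' : ∀ x : (P : Subgroup G), x ^ p = 1 := fun x =>
        Subtype.ext (by simpa using hexp x x.2)
      obtain ⟨B, hBcard, hBnc⟩ := Cfsg.Agent.Lib.Helper70.exists_nonabelian_card_cube P.2 hexp' hcomm
      refine ⟨?_, hcomm, ?_, ?_⟩
      · rintro rfl
        apply hcomm
        refine ⟨⟨fun a b => ?_⟩⟩
        have ha : a * a = 1 := by rw [← pow_two]; exact hexp' a
        have hb : b * b = 1 := by rw [← pow_two]; exact hexp' b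
        have hab : (a * b) * (a * b) = 1 := by rw [← pow_two]; exact hexp' (a * b)
        calc a * b = a * ((a * b) * (a * b)) * b := by rw [hab, mul_one]
          _ = (a * a) * (b * a) * (b * b) := by group
          _ = b * a := by rw [ha, hb, one_mul, mul_one]
      · obtain ⟨k, hk⟩ := IsPGroup.iff_card.mp P.2
        have h3 : 3 ≤ k := by
          have h1 := Subgroup.card_subgroup_dvd_card B
          rw [hBcard, hk] at h1
          exact (Nat.pow_dvd_pow_iff_le_right hp.one_lt).mp h1
        have h4 : ¬ 4 ≤ k := by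
          intro h4
          obtain ⟨A, hAcard, hAc⟩ := Cfsg.Agent.Lib.Helper70.exists_abelian_card_cube P.2 hexp'
            (by rw [hk]; exact pow_dvd_pow p h4)
          obtain ⟨f⟩ := hiso A B (hAcard.trans hBcard.symm)
          exact hBnc (comm_of_equiv f hAc)
        rw [hk]; congr 1; omega
      · have h1 : Monoid.exponent (P : Subgroup G) ∣ p := Monoid.exponent_dvd_of_forall_pow_eq_one hexp'
        rcases (Nat.dvd_prime hp).mp h1 with h | h
        · exfalso
          apply hcomm
          have : Subsingleton (P : Subgroup G) := Monoid.exp_eq_one_iff.mp h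
          exact ⟨⟨fun a b => Subsingleton.elim _ _⟩⟩
        · exact h

end Cfsg.Agent.S4023
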