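import Cfsg.Statements.S4024
import Cfsg.Agent.Lib.Helper70.ConjQuot
import Cfsg.Agent.Lib.Helper70.Frobenius
import Cfsg.Agent.Lib.Helper28.Cores
import Cfsg.Agent.Lib.Helper80.PSolv
import Cfsg.Agent.S4023
-- import your own Cfsg.Agent.* helpers here

set_option autoImplicit false
open Cfsg

namespace Cfsg.Agent.S4024

universe u

theorem mem_of_orderOf_eq {G : Type*} [Group G] {p : ℕ}
    (hC : ∀ H K : Subgroup G, IsPGroup p H → IsPGroup p K → Nat.card H = Nat.card K →
      ∃ g : G, K = H.map (MulAut.conj g).toMonoidHom) (N : Subgroup G) [hN : N.Normal]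
    (r x : G) (hr : r ∈ N) (k : ℕ) (hro : orderOf r = p ^ k) (hxo : orderOf x = p ^ k) : x ∈ N := by
  obtain ⟨g, hg⟩ := hC (Subgroup.zpowers r) (Subgroup.zpowers x)
    (IsPGroup.of_card (n := k) (by rw [Nat.card_zpowers, hro]))
    (IsPGroup.of_card (n := k) (by rw [Nat.card_zpowers, hxo]))
    (by rw [Nat.card_zpowers, Nat.card_zpowers, hro, hxo])
  have h1 : x ∈ (Subgroup.zpowers r).map (MulAut.conj g).toMonoidHom := by
    rw [← hg]; exact Subgroup.mem_zpowers x
  obtain ⟨u, hu, rfl⟩ := h1
  exact hN.conj_mem u ((Subgroup.zpowers_le.mpr hr) hu) g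

theorem abelian_aux (p : ℕ) [Fact p.Prime] (hp2 : p ≠ 2) (n : ℕ) :
    ∀ (G : Type u) [Group G] [Finite G], Nat.card G = n →
    (∀ H K : Subgroup G, IsPGroup p H → IsPGroup p K → Nat.card H = Nat.card K →
      ∃ g : G, K = H.map (MulAut.conj g).toMonoidHom) →
    ∀ (H : Subgroup G) [H.Normal], Cfsg.IsPSolvable p H → p ∣ Nat.card H →
    ∀ P : Sylow p G, IsMulCommutative P := by
  induction n using Nat.strong_induction_on with
  | _ n ih =>
  intro G _ _ hn hC H hHn hsolv hdiv P
  have hp : p.Prime := Fact.out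
  have hKchar := Cfsg.Agent.Lib.Helper28.pPrimeCore_characteristic (G := G) p
  have hRchar := Cfsg.Agent.Lib.Helper28.pCore_characteristic (G := G) p
  set K := Cfsg.pPrimeCore p G ⊓ H with hK
  have hKn : K.Normal := inferInstance
  have hKcop : (Nat.card K).Coprime p :=
    Nat.Coprime.of_dvd_left (Subgroup.card_dvd_of_le inf_le_left)
      (Cfsg.Agent.Lib.Helper28.pPrimeCore_coprime p)
  by_cases hKbot : K = ⊥
  · -- `O_{p'}(H) = 1`
    have h1 : Cfsg.pPrimeCore p H = ⊥ := by
      have h2 := Cfsg.Agent.Lib.Helper28.pPrimeCore_inf_subnormal p hHn.isSubnormal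
      rw [← hK, hKbot] at h2
      exact (Subgroup.map_eq_bot_iff_of_injective _ H.subtype_injective).mp h2.symm
    have h3 := Cfsg.Agent.Lib.Helper80.centralizer_pCore_le hsolv h1
    set R := Cfsg.pCore p G ⊓ H with hR
    have hRn : R.Normal := inferInstance
    have hRmap : R = (Cfsg.pCore p H).map H.subtype :=
      Cfsg.Agent.Lib.Helper28.pCore_inf_subnormal p hHn.isSubnormal
    have hRp : IsPGroup p R := (Cfsg.Agent.Lib.Helper28.pCore_isPGroup p).to_le inf_le_left
    have hRne : R ≠ ⊥ := by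
      intro hbot
      rw [hRmap, Subgroup.map_eq_bot_iff_of_injective _ H.subtype_injective] at hbot
      rw [hbot] at h3
      have h4 : (⊤ : Subgroup H) ≤ ⊥ := by
        refine le_trans ?_ h3
        intro x _
        rw [Subgroup.mem_centralizer_iff]
        intro y hy
        have : y = 1 := hy
        rw [this]; simp
      have h5 : Nat.card H = 1 := by
        rw [← Subgroup.card_top, le_bot_iff.mp h4, Subgroup.card_bot]
      rw [h5] at hdiv
      exact hp.one_lt.ne' (Nat.dvd_one.mp hdiv)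
    have hRP : R ≤ (P : Subgroup G) := by
      have h1 : IsPGroup p ((P : Subgroup G) ⊔ R : Subgroup G) :=
        P.isPGroup'.to_sup_of_normal_right hRp
      have h2 := P.is_maximal' h1 le_sup_left
      rw [← h2]
      exact le_sup_right
    rcases Cfsg.Agent.S4023.result hC P with hc | he | ⟨h2, -⟩ | ⟨-, hnc, -, hexp⟩
    · exact ⟨⟨fun a b => IsCyclic.commGroup.mul_comm a b⟩⟩
    · exact he.1
    · exact absurd h2 hp2
    · exfalso
      have hexp' : ∀ x : (P : Subgroup G), x ^ p = 1 := fun x =>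
        (Monoid.exponent_dvd_iff_forall_pow_eq_one.mp (dvd_of_eq hexp)) x
      have hRdvd : p ∣ Nat.card R := by
        rcases hRp.card_eq_or_dvd with h | h
        · exact absurd (Subgroup.card_eq_one.mp h) hRne
        · exact h
      obtain ⟨r, hr⟩ := exists_prime_orderOf_dvd_card' (G := R) p hRdvd
      have hPR : (P : Subgroup G) ≤ R := by
        intro x hx
        by_cases hx1 : x = 1
        · rw [hx1]; exact one_mem _
        · have hxp : x ^ p = 1 := congrArg Subtype.val (hexp' ⟨x, hx⟩)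
          exact mem_of_orderOf_eq hC R r x r.2 1 (by rw [Subgroup.orderOf_coe, hr, pow_one])
            (by rw [pow_one]; exact orderOf_eq_prime hxp hx1)
      have hPconj : ∀ (g y : G), y ∈ (P : Subgroup G) → g⁻¹ * y * g ∈ (P : Subgroup G) := by
        intro g y hy
        have := hRn.conj_mem y (hPR hy) g⁻¹
        rw [inv_inv] at this
        exact hRP this
      have htop : (⊤ : Subgroup (P : Subgroup G)) ≠ ⊥ := by
        intro h
        apply hnc
        have : Subsingleton (P : Subgroup G) := by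
          constructor
          intro a b
          have ha : a ∈ (⊥ : Subgroup (P : Subgroup G)) := h ▸ Subgroup.mem_top a
          have hb : b ∈ (⊥ : Subgroup (P : Subgroup G)) := h ▸ Subgroup.mem_top b
          rw [Subgroup.mem_bot] at ha hb
          rw [ha, hb]
        exact ⟨⟨fun a b => Subsingleton.elim _ _⟩⟩
      obtain ⟨z, -, hzc, hzo⟩ := Cfsg.Agent.Lib.Helper3.exists_central_order_p P.2 ⊤ htop
      obtain ⟨x, hx⟩ : ∃ x : (P : Subgroup G), x ∉ Subgroup.center (P : Subgroup G) := by
        by_contra hcon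
        push Not at hcon
        exact hnc ⟨⟨fun a b => ((Subgroup.mem_center_iff.mp (hcon a)) b).symm⟩⟩
      have hx1 : x ≠ 1 := by
        rintro rfl
        exact hx (one_mem _)
      have hxo : orderOf x = p := orderOf_eq_prime (hexp' x) hx1
      obtain ⟨g, hg⟩ := hC (Subgroup.zpowers (z : G)) (Subgroup.zpowers (x : G))
        (IsPGroup.of_card (n := 1) (by rw [Nat.card_zpowers, Subgroup.orderOf_coe, hzo, pow_one]))
        (IsPGroup.of_card (n := 1) (by rw [Nat.card_zpowers, Subgroup.orderOf_coe, hxo, pow_one]))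
        (by rw [Nat.card_zpowers, Nat.card_zpowers, Subgroup.orderOf_coe, Subgroup.orderOf_coe, hzo, hxo])
      have h1 : (x : G) ∈ (Subgroup.zpowers (z : G)).map (MulAut.conj g).toMonoidHom := by
        rw [← hg]; exact Subgroup.mem_zpowers _
      obtain ⟨u, hu, hux⟩ := h1
      obtain ⟨i, rfl⟩ := Subgroup.mem_zpowers_iff.mp hu
      have hux' : g * (z : G) ^ i * g⁻¹ = x := hux
      apply hx
      rw [Subgroup.mem_center_iff]
      intro y
      apply Subtype.ext
      change (y : G) * x = x * y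
      have h2 : (⟨g⁻¹ * y * g, hPconj g y y.2⟩ : (P : Subgroup G)) * z ^ i =
          z ^ i * ⟨g⁻¹ * y * g, hPconj g y y.2⟩ :=
        Subgroup.mem_center_iff.mp (Subgroup.zpow_mem _ hzc i) _
      have h3 : g⁻¹ * y * g * (z : G) ^ i = (z : G) ^ i * (g⁻¹ * y * g) := by
        have := congrArg Subtype.val h2
        simpa using this
      rw [← hux']
      calc (y : G) * (g * (z : G) ^ i * g⁻¹) = g * (g⁻¹ * y * g * (z : G) ^ i) * g⁻¹ := by group
        _ = g * ((z : G) ^ i * (g⁻¹ * y * g)) * g⁻¹ := by rw [h3]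
        _ = g * (z : G) ^ i * g⁻¹ * y := by group
  · -- pass to `G ⧸ K`
    have hKcard : 1 < Nat.card K := by
      have h1 : Nat.card K ≠ 1 := fun h => hKbot (Subgroup.card_eq_one.mp h)
      have h2 : 0 < Nat.card K := Nat.card_pos
      omega
    have hlt : Nat.card (G ⧸ K) < n := by
      have h1 := Subgroup.card_eq_card_quotient_mul_card_subgroup K
      rw [hn] at h1
      have h2 : 0 < Nat.card (G ⧸ K) := Nat.card_pos
      rw [h1]
      exact lt_mul_of_one_lt_right h2 hKcard
    have hCQ := Cfsg.Agent.Lib.Helper70.conj_property_quotient hC K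
    set Hb := H.map (QuotientGroup.mk' K) with hHb
    have hHbn : Hb.Normal := hHn.map _ (QuotientGroup.mk'_surjective K)
    have hsolv' : Cfsg.IsPSolvable p Hb :=
      Cfsg.Agent.Lib.Helper80.isPSolvable_of_surjective hp ((QuotientGroup.mk' K).subgroupMap H)
        ((QuotientGroup.mk' K).subgroupMap_surjective H) hsolv
    have hdiv' : p ∣ Nat.card Hb := by
      have h1 := Cfsg.Agent.Lib.Helper3.card_comap_mk' K Hb
      have h2 : Hb.comap (QuotientGroup.mk' K) = H := by
        rw [hHb, Subgroup.comap_map_eq, QuotientGroup.ker_mk']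
        exact sup_eq_left.mpr inf_le_right
      rw [h2] at h1
      rw [h1] at hdiv
      exact (Nat.Coprime.dvd_mul_right hKcop.symm).mp hdiv
    have hcomm := ih _ hlt (G ⧸ K) rfl hCQ Hb hsolv' hdiv'
      (P.mapSurjective (QuotientGroup.mk'_surjective K))
    refine ⟨⟨fun a b => ?_⟩⟩
    have ha : QuotientGroup.mk' K (a : G) ∈
        ((P.mapSurjective (QuotientGroup.mk'_surjective K) : Sylow p (G ⧸ K)) : Subgroup (G ⧸ K)) :=
      ⟨a, a.2, rfl⟩
    have hb : QuotientGroup.mk' K (b : G) ∈
        ((P.mapSurjective (QuotientGroup.mk'_surjective K) : Sylow p (G ⧸ K)) : Subgroup (G ⧸ K)) :=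
      ⟨b, b.2, rfl⟩
    have h1 := congrArg Subtype.val (hcomm.is_comm.comm ⟨_, ha⟩ ⟨_, hb⟩)
    have h2 : QuotientGroup.mk' K ((a : G) * b) = QuotientGroup.mk' K ((b : G) * a) := by
      rw [map_mul, map_mul]; exact h1
    have h3 : ((b : G) * a)⁻¹ * ((a : G) * b) ∈ K := by
      rw [← QuotientGroup.eq_one_iff]
      change QuotientGroup.mk' K (((b : G) * a)⁻¹ * ((a : G) * b)) = 1
      rw [map_mul, map_inv, h2, inv_mul_cancel]
    have h4 : ((b : G) * a)⁻¹ * ((a : G) * b) ∈ (P : Subgroup G) :=
      ((b * a)⁻¹ * (a * b)).2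
    obtain ⟨j, hj⟩ := P.2 ⟨_, h4⟩
    have h5 : (((b : G) * a)⁻¹ * ((a : G) * b)) ^ (p ^ j) = 1 := congrArg Subtype.val hj
    have h6 : (((b : G) * a)⁻¹ * ((a : G) * b)) ^ (Nat.card K) = 1 :=
      congrArg Subtype.val (pow_card_eq_one' (G := K) (x := ⟨_, h3⟩))
    have h7 := Cfsg.Agent.Lib.Helper70.eq_one_of_pow_coprime (Nat.Coprime.pow_left j hKcop.symm) h5 h6
    apply Subtype.ext
    change (a : G) * b = b * a
    calc (a : G) * b = ((b : G) * a) * (((b : G) * a)⁻¹ * ((a : G) * b)) := by group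
      _ = b * a := by rw [h7, mul_one]

/-- Let p be an odd prime and G a finite group in which any two p-subgroups of the same order are conjugate, with Sylow p-subgroup P. If H is a normal p-solvable subgroup of G whose order is divisible by p, then P is abelian, and either P ≤ H or P is cyclic. -/
theorem result {G : Type*} [Group G] [Finite G]
    {p : ℕ} [Fact p.Prime] (hp : p ≠ 2) (hC : ∀ H K : Subgroup G, IsPGroup p H → IsPGroup p K → Nat.card H = Nat.card K →
      ∃ g : G, K = H.map (MulAut.conj g).toMonoidHom) (P : Sylow p G)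
    (H : Subgroup G) [H.Normal] (hsolv : Cfsg.IsPSolvable p H) (hdiv : p ∣ Nat.card H) :
    IsMulCommutative P ∧ ((P : Subgroup G) ≤ H ∨ IsCyclic P) := by
  have hpp : p.Prime := Fact.out
  refine ⟨abelian_aux p hp _ G rfl hC H hsolv hdiv P, ?_⟩
  rcases Cfsg.Agent.S4023.result hC P with hc | he | ⟨h2, -⟩ | ⟨-, -, -, hexp⟩
  · exact Or.inr hc
  · left
    obtain ⟨r, hr⟩ := exists_prime_orderOf_dvd_card' (G := H) p hdiv
    intro x hx
    by_cases hx1 : x = 1
    · rw [hx1]; exact one_mem _
    · exact mem_of_orderOf_eq hC H r x r.2 1 (by rw [Subgroup.orderOf_coe, hr, pow_one])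
        (by rw [pow_one]; exact orderOf_eq_prime (he.2 x hx) hx1)
  · exact absurd h2 hp
  · left
    obtain ⟨r, hr⟩ := exists_prime_orderOf_dvd_card' (G := H) p hdiv
    intro x hx
    by_cases hx1 : x = 1
    · rw [hx1]; exact one_mem _
    · have hxp : x ^ p = 1 := congrArg Subtype.val
        ((Monoid.exponent_dvd_iff_forall_pow_eq_one.mp (dvd_of_eq hexp)) ⟨x, hx⟩)
      exact mem_of_orderOf_eq hC H r x r.2 1 (by rw [Subgroup.orderOf_coe, hr, pow_one])
        (by rw [pow_one]; exact orderOf_eq_prime hxp hx1)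

end Cfsg.Agent.S4024
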