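import Cfsg.Statements.S4027
import Mathlib
import Cfsg.Agent.Lib.Helper71.TwoClosed

set_option autoImplicit false
open Cfsg

namespace Cfsg.Agent.S4027

open Cfsg.Agent.Lib.Helper71

/-- Let G be a finite group in which every element x of odd order satisfies N_G(⟨x⟩) = C_G(x). Then the Sylow 2-subgroups of G are normal. -/
theorem result {G : Type*} [Group G] [Finite G]
    (hirr : ∀ x : G, (∀ r : ℕ, r.Prime → r ∣ orderOf x → r ≠ 2) →
      Subgroup.normalizer ((Subgroup.zpowers x : Subgroup G) : Set G) ≤ Subgroup.centralizer {x}) (P : Sylow 2 G) :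
    (P : Subgroup G).Normal := by
  apply sylow_two_normal
  intro t y _ hodd hinv
  have h1 : t ∈ Subgroup.centralizer ({y} : Set G) := by
    apply hirr y
    · intro r _ hry h2
      rw [h2] at hry
      exact (Nat.not_even_iff_odd.mpr hodd) (even_iff_two_dvd.mpr hry)
    · rw [mem_normalizer_zpowers_iff, hinv]
      exact Subgroup.inv_mem _ (Subgroup.mem_zpowers y)
  rw [Subgroup.mem_centralizer_singleton_iff] at h1
  have h2 : y = y⁻¹ := by rw [← hinv, h1]; group
  have h3 : y ^ 2 = 1 := by
    rw [pow_two]; nth_rewrite 1 [h2]; group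
  have h4 := pow_gcd_eq_one.mpr ⟨h3, pow_orderOf_eq_one y⟩
  rwa [(Nat.coprime_two_left.mpr hodd).gcd_eq_one, pow_one] at h4

end Cfsg.Agent.S4027
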