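import Cfsg.Statements.S4028
import Mathlib
import Cfsg.Agent.Lib.Helper71.Basic
import Cfsg.Agent.Lib.Helper71.Irr

set_option autoImplicit false
open Cfsg

namespace Cfsg.Agent.S4028

open Cfsg.Agent.Lib.Helper71

theorem two_elt {G : Type*} [Group G] [Finite G] (P : Sylow 2 G)
    (hP : ∀ y : ↥(P : Subgroup G), Subgroup.normalizer ((Subgroup.zpowers y : Subgroup ↥(P : Subgroup G)) : Set ↥(P : Subgroup G)) ≤
        Subgroup.centralizer {y}) (x t : G) {n a : ℕ} (hx : orderOf x = 2 ^ n) (ht : orderOf t = 2 ^ a)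
    (hn : t * x * t⁻¹ ∈ Subgroup.zpowers x) : t * x = x * t := by
  have : Fact (Nat.Prime 2) := ⟨Nat.prime_two⟩
  have h1 : IsPGroup 2 (Subgroup.zpowers x) := IsPGroup.of_card (n := n) (by rw [Nat.card_zpowers, hx])
  have h2 : IsPGroup 2 (Subgroup.zpowers t) := IsPGroup.of_card (n := a) (by rw [Nat.card_zpowers, ht])
  have h3 : IsPGroup 2 (Subgroup.zpowers t ⊔ Subgroup.zpowers x : Subgroup G) := by
    apply h2.to_sup_of_normal_right' h1
    rw [Subgroup.zpowers_le]
    exact (mem_normalizer_zpowers_iff t x).mpr hn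
  obtain ⟨h, hh⟩ := exists_conj_mem_sylow P _ h3
  have hxP := hh x ((le_sup_right : Subgroup.zpowers x ≤ _) (Subgroup.mem_zpowers x))
  have htP := hh t ((le_sup_left : Subgroup.zpowers t ≤ _) (Subgroup.mem_zpowers t))
  have key := hP ⟨_, hxP⟩ (x := ⟨_, htP⟩) (by
    rw [mem_normalizer_zpowers_iff]
    obtain ⟨k, hk⟩ := Subgroup.mem_zpowers_iff.mp hn
    rw [Subgroup.mem_zpowers_iff]
    refine ⟨k, ?_⟩
    apply Subtype.ext
    simp only [Subgroup.coe_zpow, Subgroup.coe_mul, InvMemClass.coe_inv]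
    rw [conj_zpow, hk]
    group)
  rw [Subgroup.mem_centralizer_singleton_iff] at key
  have key' := congrArg Subtype.val key
  simp only [Subgroup.coe_mul] at key'
  have e1 : h * t * h⁻¹ * (h * x * h⁻¹) = h * (t * x) * h⁻¹ := by group
  have e2 : h * x * h⁻¹ * (h * t * h⁻¹) = h * (x * t) * h⁻¹ := by group
  rw [e1, e2] at key'
  exact conj_injective key'

/-- Let G be a finite group with Sylow 2-subgroup P. Then N_G(⟨x⟩) = C_G(x) holds for every 2-element x of G if and only if N_P(⟨y⟩) = C_P(y) holds for every y ∈ P (computed inside P). -/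
theorem result {G : Type*} [Group G] [Finite G] (P : Sylow 2 G) :
    (∀ x : G, (∀ r : ℕ, r.Prime → r ∣ orderOf x → r = 2) →
      Subgroup.normalizer ((Subgroup.zpowers x : Subgroup G) : Set G) ≤ Subgroup.centralizer {x}) ↔
    (∀ y : ↥(P : Subgroup G), Subgroup.normalizer ((Subgroup.zpowers y : Subgroup ↥(P : Subgroup G)) : Set ↥(P : Subgroup G)) ≤
        Subgroup.centralizer {y}) := by
  have : Fact (Nat.Prime 2) := ⟨Nat.prime_two⟩
  constructor
  · intro hG y g hg
    rw [mem_normalizer_zpowers_iff] at hg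
    obtain ⟨k, hk⟩ := (IsPGroup.iff_orderOf.mp P.isPGroup') y
    have h0 : (g : G) ∈ Subgroup.normalizer ((Subgroup.zpowers (y : G) : Subgroup G) : Set G) := by
      rw [mem_normalizer_zpowers_iff]
      obtain ⟨j, hj⟩ := Subgroup.mem_zpowers_iff.mp hg
      rw [Subgroup.mem_zpowers_iff]
      refine ⟨j, ?_⟩
      have := congrArg Subtype.val hj
      simpa using this
    have h1 := hG (y : G) (forall_prime_of_orderOf_eq_prime_pow Nat.prime_two (y : G) (k := k)
      (by rw [Subgroup.orderOf_coe, hk])) h0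
    rw [Subgroup.mem_centralizer_singleton_iff] at h1 ⊢
    exact Subtype.ext h1
  · intro hP x hx g hg
    rw [mem_normalizer_zpowers_iff] at hg
    obtain ⟨n, hn⟩ := orderOf_eq_prime_pow_of_forall x hx
    obtain ⟨k, hk⟩ := (mem_powers_iff_mem_zpowers.mpr hg)
    have hk' : g * x * g⁻¹ = x ^ k := hk.symm
    -- k is coprime to the order of x
    have hs : SemiconjBy g x (g * x * g⁻¹) := by unfold SemiconjBy; group
    have hcop : Nat.Coprime k (orderOf x) := by
      have h1 : orderOf (x ^ k) = orderOf x := by rw [← hk', ← hs.orderOf_eq]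
      rw [orderOf_pow] at h1
      have h2 := (Nat.div_eq_self.mp h1).resolve_left (orderOf_pos x).ne'
      rw [Nat.coprime_comm]; exact h2
    have htot : ∃ b : ℕ, Nat.totient (orderOf x) = 2 ^ b := by
      rw [hn]
      rcases n with _ | n
      · exact ⟨0, by simp⟩
      · exact ⟨n, by rw [Nat.totient_prime_pow_succ Nat.prime_two]; simp⟩
    obtain ⟨b, hb⟩ := htot
    have h1 : g ^ 2 ^ b ∈ Subgroup.centralizer ({x} : Set G) := by
      rw [Subgroup.mem_centralizer_singleton_iff]
      have h2 := conj_pow_eq_pow_pow hk' (2 ^ b)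
      have h3 : x ^ (k ^ 2 ^ b) = x ^ 1 := by
        rw [pow_eq_pow_iff_modEq, ← hb]
        exact Nat.ModEq.pow_totient hcop
      rw [h3, pow_one] at h2
      exact mul_inv_eq_iff_eq_mul.mp h2
    obtain ⟨a, m, hm, hgm⟩ := Nat.exists_eq_two_pow_mul_odd (orderOf_pos g).ne'
    have hm0 : m ≠ 0 := by rintro rfl; simp at hm
    have hord : orderOf (g ^ m) = 2 ^ a := by
      rw [orderOf_pow_of_dvd hm0 (by rw [hgm]; exact Dvd.intro_left _ rfl), hgm,
        Nat.mul_div_cancel _ (Nat.pos_of_ne_zero hm0)]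
    have h4 : g ^ m ∈ Subgroup.centralizer ({x} : Set G) := by
      rw [Subgroup.mem_centralizer_singleton_iff]
      apply two_elt P hP x (g ^ m) hn hord
      rw [conj_pow_eq_pow_pow hk' m]
      exact Subgroup.npow_mem_zpowers x _
    exact mem_of_pow_mem_of_coprime _ g (Nat.Coprime.pow_right _ (Nat.coprime_two_right.mpr hm)) h4 h1

end Cfsg.Agent.S4028
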