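import Cfsg.Statements.S4029
import Cfsg.Agent.Lib.Helper73.ClassCount
import Cfsg.Agent.S0012
import Cfsg.Agent.Lib.Helper71.Irr

set_option autoImplicit false
open Cfsg

namespace Cfsg.Agent.S4029

open Classical in
/-- Cauchy–Schwarz count: the number of pairs with equal squares is at least `|P|^2 / |Φ|`. -/
theorem card_sq_le {P : Type*} [Group P] [Fintype P] (Φ : Finset P) (hΦ : ∀ g : P, g * g ∈ Φ) :
    Fintype.card P ^ 2 ≤ Φ.card *
      (Finset.univ.filter (fun q : P × P => q.1 * q.1 = q.2 * q.2)).card := by
  classical
  set r : P → ℕ := fun z => (Finset.univ.filter (fun g : P => g * g = z)).card with hr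
  have h1 : Fintype.card P = ∑ z ∈ Φ, r z := by
    rw [← Finset.card_univ]
    exact Finset.card_eq_sum_card_fiberwise (f := fun g : P => g * g) (fun x _ => hΦ x)
  have h2 : (Finset.univ.filter (fun q : P × P => q.1 * q.1 = q.2 * q.2)).card
      = ∑ z ∈ Φ, r z ^ 2 := by
    rw [Finset.card_eq_sum_card_fiberwise (f := fun q : P × P => q.1 * q.1) (t := Φ)
      (fun x _ => hΦ x.1)]
    refine Finset.sum_congr rfl (fun z _ => ?_)
    rw [sq, hr]
    simp only
    rw [← Finset.card_product]
    congr 1
    ext ⟨a, b⟩
    simp only [Finset.mem_filter, Finset.mem_univ, true_and, Finset.mem_product]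
    constructor
    · rintro ⟨h, h'⟩
      exact ⟨h', h ▸ h'⟩
    · rintro ⟨h, h'⟩
      exact ⟨h.trans h'.symm, h⟩
  rw [h1, h2]
  exact sq_sum_le_card_mul_sum_sq

open Classical in
/-- Under the irrationality hypothesis the pairs with equal squares are counted by centralizers of
elements of square one. -/
theorem card_pairs_eq {P : Type*} [Group P] [Fintype P]
    (hirr : ∀ y : P, Subgroup.normalizer ((Subgroup.zpowers y : Subgroup P) : Set P) ≤
      Subgroup.centralizer {y}) :
    (Finset.univ.filter (fun q : P × P => q.1 * q.1 = q.2 * q.2)).card =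
      ∑ x : P, (if x * x = 1 then Nat.card (Subgroup.centralizer ({x} : Set P)) else 0) := by
  classical
  rw [Finset.card_eq_sum_card_fiberwise (f := fun q : P × P => q.1⁻¹ * q.2) (t := Finset.univ)
      (fun x _ => Finset.mem_coe.mpr (Finset.mem_univ _))]
  refine Finset.sum_congr rfl (fun x _ => ?_)
  have key : ∀ g : P, g * g = (g * x) * (g * x) ↔ (x * x = 1 ∧ g ∈ Subgroup.centralizer ({x} : Set P)) := by
    intro g
    constructor
    · intro h
      have h1 : g * x * g⁻¹ = x⁻¹ := by
        have : g = x * g * x := by
          have h' : g * g = g * (x * g * x) := by rw [h]; simp only [mul_assoc]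
          exact mul_left_cancel h'
        calc g * x * g⁻¹ = x⁻¹ * (x * g * x) * g⁻¹ := by simp only [mul_assoc, inv_mul_cancel_left]
          _ = x⁻¹ := by rw [← this]; simp
      have hN : g ∈ Subgroup.normalizer ((Subgroup.zpowers x : Subgroup P) : Set P) := by
        rw [Cfsg.Agent.Lib.Helper71.mem_normalizer_zpowers_iff, h1]
        exact inv_mem (Subgroup.mem_zpowers x)
      have hC := hirr x hN
      have hC' : g * x = x * g := Subgroup.mem_centralizer_singleton_iff.mp hC
      refine ⟨?_, hC⟩
      rw [hC', mul_inv_cancel_right] at h1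
      calc x * x = x * x⁻¹ := by rw [← h1]
        _ = 1 := mul_inv_cancel x
    · rintro ⟨h1, h2⟩
      have hC' : x * g = g * x := (Subgroup.mem_centralizer_singleton_iff.mp h2).symm
      calc g * g = g * g * (x * x) := by rw [h1, mul_one]
        _ = g * (g * x) * x := by simp only [mul_assoc]
        _ = g * (x * g) * x := by rw [hC']
        _ = (g * x) * (g * x) := by simp only [mul_assoc]
  have himg : (Finset.univ.filter (fun q : P × P => q.1 * q.1 = q.2 * q.2)).filter
      (fun q => q.1⁻¹ * q.2 = x) =
      (Finset.univ.filter (fun g : P => x * x = 1 ∧ g ∈ Subgroup.centralizer ({x} : Set P))).map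
        ⟨fun g => (g, g * x), fun a b h => (Prod.ext_iff.mp h).1⟩ := by
    ext ⟨a, b⟩
    simp only [Finset.mem_filter, Finset.mem_univ, true_and, Finset.mem_map]
    constructor
    · rintro ⟨h, h'⟩
      have hb : b = a * x := by rw [← h']; simp
      subst hb
      exact ⟨a, (key a).mp h, rfl⟩
    · rintro ⟨g, hg, hgg⟩
      have ha : g = a := (Prod.ext_iff.mp hgg).1
      have hb : g * x = b := (Prod.ext_iff.mp hgg).2
      subst ha
      subst hb
      exact ⟨(key g).mpr hg, inv_mul_cancel_left g x⟩
  rw [himg, Finset.card_map]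
  split_ifs with hx
  · rw [Nat.card_eq_fintype_card, Fintype.card_subtype]
    congr 1
    ext g
    simp [hx]
  · simp [hx]

/-- Let P be a finite 2-group in which N_P(⟨y⟩) = C_P(y) for every y ∈ P. If s is the number of conjugacy classes of involutions of P, then #(P/Φ(P)) ≤ s + 1; in particular the subgroup generated by the involutions of P has order at least #(P/Φ(P)). -/
theorem result {P : Type*} [Group P] [Finite P] (hP : IsPGroup 2 P)
    (hirr : ∀ y : P, Subgroup.normalizer ((Subgroup.zpowers y : Subgroup P) : Set P) ≤ Subgroup.centralizer {y}) :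
    Nat.card (P ⧸ frattini P) ≤ Nat.card {c : ConjClasses P // ∃ y : P, ConjClasses.mk y = c ∧ orderOf y = 2} + 1 ∧
    Nat.card (P ⧸ frattini P) ≤ Nat.card (Subgroup.closure {y : P | orderOf y = 2}) := by
  classical
  have : Fintype P := Fintype.ofFinite P
  have : Fact (Nat.Prime 2) := ⟨Nat.prime_two⟩
  set S := {c : ConjClasses P // ∃ y : P, ConjClasses.mk y = c ∧ orderOf y = 2} with hS
  have hfirst : Nat.card (P ⧸ frattini P) ≤ Nat.card S + 1 := by
    have h1 := card_sq_le ((frattini P : Set P).toFinset) (fun g => by
      rw [Set.mem_toFinset, ← sq]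
      exact (Cfsg.Agent.S0012.result 2 hP).2 g)
    rw [card_pairs_eq hirr, Cfsg.Agent.Lib.Helper73.sum_card_centralizer_eq (fun x : P => x * x = 1)
      (fun g x hx => by
        calc g * x * g⁻¹ * (g * x * g⁻¹) = g * (x * x) * g⁻¹ := by simp only [mul_assoc, inv_mul_cancel_left]
          _ = 1 := by rw [hx]; simp)] at h1
    have h2 : Nat.card {C : ConjClasses P // ∀ g : P, ConjClasses.mk g = C → g * g = 1} ≤
        Nat.card S + 1 := by
      rw [Nat.card_eq_fintype_card, Nat.card_eq_fintype_card, Fintype.card_subtype,
        Fintype.card_subtype]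
      refine le_trans (Finset.card_le_card (t := insert (ConjClasses.mk (1 : P))
        (Finset.univ.filter (fun c : ConjClasses P => ∃ y : P, ConjClasses.mk y = c ∧ orderOf y = 2))) ?_)
        (Finset.card_insert_le _ _)
      intro C hC
      obtain ⟨y, rfl⟩ := ConjClasses.exists_rep C
      have hy : y * y = 1 := (Finset.mem_filter.mp hC).2 y rfl
      by_cases hy1 : y = 1
      · rw [hy1]; exact Finset.mem_insert_self _ _
      · refine Finset.mem_insert_of_mem (Finset.mem_filter.mpr ⟨Finset.mem_univ _, y, rfl, ?_⟩)
        exact orderOf_eq_prime (by rw [sq]; exact hy) hy1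
    have h3 : ((frattini P : Set P).toFinset).card = Nat.card (frattini P) := by
      rw [Nat.card_eq_fintype_card, Set.toFinset_card]
      rfl
    have h4 := (frattini P).card_mul_index
    rw [h3, ← Nat.card_eq_fintype_card] at h1
    have h5 : Nat.card (P ⧸ frattini P) = (frattini P).index := rfl
    rw [h5]
    set k := Nat.card {C : ConjClasses P // ∀ g : P, ConjClasses.mk g = C → g * g = 1} with hk
    refine le_trans ?_ h2
    have hpos : 0 < Nat.card (frattini P) * Nat.card P := Nat.mul_pos Nat.card_pos Nat.card_pos
    refine Nat.le_of_mul_le_mul_left ?_ hpos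
    calc Nat.card (frattini P) * Nat.card P * (frattini P).index
        = Nat.card P ^ 2 := by rw [sq, ← h4]; ring
      _ ≤ Nat.card (frattini P) * (Nat.card P * k) := h1
      _ = Nat.card (frattini P) * Nat.card P * k := by ring
  refine ⟨hfirst, le_trans hfirst ?_⟩
  rw [← Finite.card_option]
  refine Nat.card_le_card_of_injective
    (fun o : Option S => (match o with
      | none => (1 : Subgroup.closure {y : P | orderOf y = 2})
      | some c => ⟨c.2.choose, Subgroup.subset_closure c.2.choose_spec.2⟩)) ?_
  intro a b hab
  match a, b with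
  | none, none => rfl
  | none, some c =>
    exfalso
    have h := congrArg Subtype.val hab
    have h' : (1 : P) = c.2.choose := h
    have h2 := c.2.choose_spec.2
    rw [← h', orderOf_one] at h2
    omega
  | some c, none =>
    exfalso
    have h := congrArg Subtype.val hab
    have h' : c.2.choose = (1 : P) := h
    have h2 := c.2.choose_spec.2
    rw [h', orderOf_one] at h2
    omega
  | some c, some d =>
    have h := congrArg Subtype.val hab
    have h' : c.2.choose = d.2.choose := h
    have hc := c.2.choose_spec.1
    have hd := d.2.choose_spec.1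
    congr 1
    apply Subtype.ext
    rw [← hc, ← hd, h']

end Cfsg.Agent.S4029
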