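import Cfsg.Statements.S4034
import Mathlib
import Cfsg.Agent.Lib.Helper71.PRegular

set_option autoImplicit false
open Cfsg

namespace Cfsg.Agent.S4034

open Cfsg.Agent.Lib.Helper71

/-- every `p`-regular element is conjugate into a given abelian `p`-complement -/
theorem conj_into_aux {p : ℕ} (hp : p.Prime) : ∀ (n : ℕ) (G : Type*) [Group G] [Finite G]
    (H : Subgroup G), IsMulCommutative H → (∃ k : ℕ, H.index = p ^ k) →
    ∀ x : G, orderOf x = n → n.Coprime p → ∃ g : G, g * x * g⁻¹ ∈ H := by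
  intro n
  induction n using Nat.strong_induction_on with
  | _ n ih =>
    intro G _ _ H hHc ⟨k, hk⟩ x hx hn
    by_cases hn1 : n = 1
    · rw [hn1, orderOf_eq_one_iff] at hx
      exact ⟨1, by rw [hx]; simp⟩
    have hn0 : n ≠ 0 := by rw [← hx]; exact (orderOf_pos x).ne'
    let q := n.minFac
    have hq : q.Prime := Nat.minFac_prime hn1
    have : Fact q.Prime := ⟨hq⟩
    have hqn : q ∣ n := Nat.minFac_dvd n
    have hqp : q ≠ p := by
      intro h
      have : p ∣ n := h ▸ hqn
      exact (Nat.Prime.coprime_iff_not_dvd hp).mp (Nat.coprime_comm.mp hn) this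
    obtain ⟨e, m, hm, hne⟩ := Nat.exists_eq_pow_mul_and_not_dvd hn0 q hq.ne_one
    have hm0 : m ≠ 0 := by rintro rfl; simp at hm
    have he0 : e ≠ 0 := by
      rintro rfl
      rw [pow_zero, one_mul] at hne
      exact hm (hne ▸ hqn)
    have ho1 : orderOf (x ^ m) = q ^ e := by
      rw [orderOf_pow_of_dvd hm0 (by rw [hx, hne]; exact Dvd.intro_left _ rfl), hx, hne,
        Nat.mul_div_cancel _ (Nat.pos_of_ne_zero hm0)]
    -- a Sylow q-subgroup of G inside H
    obtain ⟨QH⟩ : Nonempty (Sylow q H) := inferInstance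
    let Q : Subgroup G := (QH : Subgroup H).map H.subtype
    have hQq : IsPGroup q Q := QH.isPGroup'.map _
    have hQi : ¬ q ∣ Q.index := by
      rw [Subgroup.index_map_subtype]
      intro hd
      rcases (Nat.Prime.dvd_mul hq).mp hd with hd | hd
      · exact QH.not_dvd_index hd
      · rw [hk] at hd
        exact hqp ((Nat.prime_dvd_prime_iff_eq hq hp).mp (hq.dvd_of_dvd_pow hd))
    have hpg : IsPGroup q (Subgroup.zpowers (x ^ m)) :=
      IsPGroup.of_card (n := e) (by rw [Nat.card_zpowers, ho1])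
    obtain ⟨h, hh⟩ := exists_conj_mem_sylow (hQq.toSylow hQi) _ hpg
    have h1 : h * x ^ m * h⁻¹ ∈ H := by
      have : h * x ^ m * h⁻¹ ∈ Q := hh _ (Subgroup.mem_zpowers _)
      exact Subgroup.map_subtype_le _ this
    set y := h * x * h⁻¹ with hy
    have hym : y ^ m = h * x ^ m * h⁻¹ := by rw [hy, conj_pow]
    have hs : SemiconjBy h x y := by unfold SemiconjBy; rw [hy]; group
    have hyo : orderOf y = n := by rw [← hs.orderOf_eq, hx]
    have ho2 : orderOf (y ^ q ^ e) = m := by
      rw [orderOf_pow_of_dvd (pow_ne_zero _ hq.ne_zero) (by rw [hyo, hne]; exact Dvd.intro _ rfl), hyo,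
        hne, Nat.mul_div_cancel_left _ (pow_pos hq.pos _)]
    set C := Subgroup.centralizer ({y ^ m} : Set G) with hC
    have hHC : H ≤ C := by
      intro a ha
      rw [hC, Subgroup.mem_centralizer_singleton_iff]
      have := mul_comm' (⟨a, ha⟩ : H) ⟨y ^ m, by rw [hym]; exact h1⟩
      exact congrArg Subtype.val this
    have hy'C : y ^ q ^ e ∈ C := by
      rw [hC, Subgroup.mem_centralizer_singleton_iff, ← pow_add, ← pow_add, add_comm]
    have hmn : m < n := by
      rw [hne]
      have : 1 < q ^ e := Nat.one_lt_pow he0 hq.one_lt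
      nlinarith [Nat.pos_of_ne_zero hm0]
    have hmp : m.Coprime p := Nat.Coprime.coprime_dvd_left (by rw [hne]; exact Dvd.intro_left _ rfl) hn
    have hHCc : IsMulCommutative (H.subgroupOf C) := by
      rw [isMulCommutative_iff]
      rintro ⟨a, ha⟩ ⟨b, hb⟩
      apply Subtype.ext
      apply Subtype.ext
      have := mul_comm' (⟨(a : G), ha⟩ : H) ⟨(b : G), hb⟩
      exact congrArg (Subtype.val : H → G) this
    have hidx : ∃ j : ℕ, (H.subgroupOf C).index = p ^ j := by
      have h2 : H.relIndex C ∣ p ^ k := by rw [← hk]; exact Subgroup.relIndex_dvd_index_of_le hHC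
      obtain ⟨j, -, hj⟩ := (Nat.dvd_prime_pow hp).mp h2
      exact ⟨j, hj⟩
    obtain ⟨c, hc⟩ := ih m hmn C (H.subgroupOf C) hHCc hidx ⟨y ^ q ^ e, hy'C⟩
      (by rw [Subgroup.orderOf_mk, ho2]) hmp
    rw [Subgroup.mem_subgroupOf] at hc
    have hc' : (c : G) * y ^ q ^ e * (c : G)⁻¹ ∈ H := hc
    refine ⟨c * h, ?_⟩
    have e1 : (c : G) * h * x * ((c : G) * h)⁻¹ = c * y * (c : G)⁻¹ := by rw [hy]; group
    rw [e1]
    apply mem_of_pow_mem_of_coprime H _ (a := m) (b := q ^ e)
    · exact Nat.Coprime.pow_right _ (Nat.coprime_comm.mp ((Nat.Prime.coprime_iff_not_dvd hq).mpr hm))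
    · rw [conj_pow]
      have hcc : (c : G) * y ^ m = y ^ m * c := Subgroup.mem_centralizer_singleton_iff.mp c.2
      rw [hcc, mul_assoc, mul_inv_cancel, mul_one, hym]
      exact h1
    · rw [conj_pow]; exact hc'

/-- Let G be a finite group and p a prime. Every conjugacy class of p-regular elements of G (elements of order prime to p) has p-power size if and only if G has an abelian p-complement, i.e. an abelian subgroup of order prime to p and p-power index. -/
theorem result {G : Type*} [Group G] [Finite G] {p : ℕ} (hp : p.Prime) :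
    (∀ x : G, (orderOf x).Coprime p → ∃ k : ℕ, (ConjClasses.mk x).carrier.ncard = p ^ k) ↔
    (∃ H : Subgroup G, IsMulCommutative H ∧ ¬ p ∣ Nat.card H ∧ ∃ k : ℕ, H.index = p ^ k) := by
  constructor
  · intro h
    apply PRegPow.exists_abelian_complement hp
    intro x hx
    obtain ⟨k, hk⟩ := h x hx
    exact ⟨k, by rw [← ncard_carrier_eq_index, hk]⟩
  · rintro ⟨H, hHc, -, k, hk⟩ x hx
    obtain ⟨g, hg⟩ := conj_into_aux hp _ G H hHc ⟨k, hk⟩ x rfl hx
    have h1 : ConjClasses.mk x = ConjClasses.mk (g * x * g⁻¹) := by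
      rw [ConjClasses.mk_eq_mk_iff_isConj, isConj_iff]
      exact ⟨g, rfl⟩
    rw [h1, ncard_carrier_eq_index]
    have hle : H ≤ Subgroup.centralizer ({g * x * g⁻¹} : Set G) := by
      intro a ha
      rw [Subgroup.mem_centralizer_singleton_iff]
      have := mul_comm' (⟨a, ha⟩ : H) ⟨_, hg⟩
      exact congrArg Subtype.val this
    have h2 : (Subgroup.centralizer ({g * x * g⁻¹} : Set G)).index ∣ p ^ k := by
      rw [← hk]; exact Subgroup.index_dvd_of_le hle
    obtain ⟨j, -, hj⟩ := (Nat.dvd_prime_pow hp).mp h2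
    exact ⟨j, hj⟩

end Cfsg.Agent.S4034
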