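import Cfsg.Statements.S4035
import Mathlib
import Cfsg.Agent.Lib.Helper71.Basic
import Cfsg.Agent.Lib.Helper71.Conj

set_option autoImplicit false
open Cfsg

namespace Cfsg.Agent.S4035

open Cfsg.Agent.Lib.Helper71

theorem sup_eq_top {G : Type*} [Group G] [Finite G] {p : ℕ} [Fact p.Prime]
    (h : ∀ x : G, (orderOf x).Coprime p → ¬ p ∣ (ConjClasses.mk x).carrier.ncard) (P : Sylow p G) :
    (P : Subgroup G) ⊔ Subgroup.centralizer ((P : Subgroup G) : Set G) = ⊤ := by
  have hp : p.Prime := Fact.out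
  apply eq_top_of_forall_conj_mem
  intro g
  obtain ⟨e, m, hm, hgo⟩ := Nat.exists_eq_pow_mul_and_not_dvd (orderOf_pos g).ne' p hp.ne_one
  have hm0 : m ≠ 0 := by rintro rfl; simp at hm
  set u := g ^ m with hu
  set x := g ^ p ^ e with hx
  have huo : orderOf u = p ^ e := by
    rw [hu, orderOf_pow_of_dvd hm0 (by rw [hgo]; exact Dvd.intro_left _ rfl), hgo,
      Nat.mul_div_cancel _ (Nat.pos_of_ne_zero hm0)]
  have hxo : orderOf x = m := by
    rw [hx, orderOf_pow_of_dvd (pow_ne_zero _ hp.ne_zero) (by rw [hgo]; exact Dvd.intro _ rfl), hgo,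
      Nat.mul_div_cancel_left _ (pow_pos hp.pos _)]
  have hcop : Nat.Coprime m p := Nat.coprime_comm.mp ((Nat.Prime.coprime_iff_not_dvd hp).mpr hm)
  have hidx : ¬ p ∣ (Subgroup.centralizer ({x} : Set G)).index := by
    rw [← ncard_carrier_eq_index]
    exact h x (by rw [hxo]; exact hcop)
  set C := Subgroup.centralizer ({x} : Set G) with hC
  have huC : u ∈ C := by
    rw [hC, Subgroup.mem_centralizer_singleton_iff, hu, hx, ← pow_add, ← pow_add, add_comm]
  have hpg : IsPGroup p (Subgroup.zpowers (⟨u, huC⟩ : C)) :=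
    IsPGroup.of_card (n := e) (by rw [Nat.card_zpowers, Subgroup.orderOf_mk, huo])
  obtain ⟨QC, hQC⟩ := hpg.exists_le_sylow
  let Q : Subgroup G := (QC : Subgroup C).map C.subtype
  have hQp : IsPGroup p Q := QC.isPGroup'.map _
  have hQi : ¬ p ∣ Q.index := by
    rw [Subgroup.index_map_subtype]
    intro hd
    rcases (Nat.Prime.dvd_mul hp).mp hd with hd | hd
    · exact QC.not_dvd_index hd
    · exact hidx hd
  obtain ⟨a, ha⟩ := MulAction.exists_smul_eq G P (hQp.toSylow hQi)
  have hmem : ∀ y : G, y ∈ Q ↔ a⁻¹ * y * a ∈ P := by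
    intro y
    have h1 : y ∈ Q ↔ y ∈ ((a • P : Sylow p G) : Subgroup G) := by rw [ha]; rfl
    rw [h1, Sylow.coe_subgroup_smul, Subgroup.mem_pointwise_smul_iff_inv_smul_mem]
    simp only [MulAut.smul_def, MulAut.conj_inv_apply]
    exact Iff.rfl
  have huQ : u ∈ Q := ⟨⟨u, huC⟩, hQC (Subgroup.mem_zpowers _), rfl⟩
  refine ⟨a, ?_⟩
  apply mem_of_pow_mem_of_coprime _ _ (a := m) (b := p ^ e) (Nat.Coprime.pow_right _ hcop)
  · have : (a⁻¹ * g * a) ^ m = a⁻¹ * u * a := by
      have := conj_pow (a := a⁻¹) (b := g) (i := m)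
      rw [inv_inv] at this
      rw [this]
    rw [this]
    exact (le_sup_left : (P : Subgroup G) ≤ _) ((hmem u).mp huQ)
  · have : (a⁻¹ * g * a) ^ p ^ e = a⁻¹ * x * a := by
      have := conj_pow (a := a⁻¹) (b := g) (i := p ^ e)
      rw [inv_inv] at this
      rw [this]
    rw [this]
    apply (le_sup_right : Subgroup.centralizer ((P : Subgroup G) : Set G) ≤ _)
    rw [Subgroup.mem_centralizer_iff]
    intro s hs
    have hs' : a * s * a⁻¹ ∈ Q := by
      rw [hmem]
      have : a⁻¹ * (a * s * a⁻¹) * a = s := by group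
      rw [this]; exact hs
    obtain ⟨c, -, hc⟩ := hs'
    have hcx : (c : G) * x = x * c := by
      exact Subgroup.mem_centralizer_singleton_iff.mp c.2
    have hc' : (c : G) = a * s * a⁻¹ := hc
    rw [hc'] at hcx
    calc s * (a⁻¹ * x * a) = a⁻¹ * ((a * s * a⁻¹) * x) * a := by group
      _ = a⁻¹ * (x * (a * s * a⁻¹)) * a := by rw [hcx]
      _ = a⁻¹ * x * a * s := by group

/-- Let G be a finite group and p a prime such that p divides the size of no conjugacy class of p-regular elements (elements of order prime to p). Then G is the internal direct product of a Sylow p-subgroup P and a normal subgroup H of order prime to p: P is normal, P ⊓ H = 1 and PH = G. -/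
theorem result {G : Type*} [Group G] [Finite G] {p : ℕ} [Fact p.Prime]
    (h : ∀ x : G, (orderOf x).Coprime p → ¬ p ∣ (ConjClasses.mk x).carrier.ncard) (P : Sylow p G) :
    (P : Subgroup G).Normal ∧ ∃ H : Subgroup G, H.Normal ∧ ¬ p ∣ Nat.card H ∧
      (P : Subgroup G) ⊓ H = ⊥ ∧ (P : Subgroup G) ⊔ H = ⊤ := by
  have hp : p.Prime := Fact.out
  have htop := sup_eq_top h P
  have hPn : (P : Subgroup G).Normal := by
    rw [← Subgroup.normalizer_eq_top_iff, eq_top_iff, ← htop]
    apply sup_le Subgroup.le_normalizer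
    exact Subgroup.centralizer_le_normalizer _
  refine ⟨hPn, ?_⟩
  obtain ⟨H, hH⟩ := Subgroup.exists_right_complement'_of_coprime P.card_coprime_index
  have hcardH : Nat.card H = (P : Subgroup G).index := hH.symm.index_eq_card.symm
  have hpH : ¬ p ∣ Nat.card H := by rw [hcardH]; exact P.not_dvd_index
  have hHC : H ≤ Subgroup.centralizer ((P : Subgroup G) : Set G) := by
    intro y hy
    have hy' : y ∈ ((P : Subgroup G) ⊔ Subgroup.centralizer ((P : Subgroup G) : Set G) : Subgroup G) := by
      rw [htop]; trivial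
    rw [← SetLike.mem_coe, Subgroup.normal_mul] at hy'
    obtain ⟨s, hs, c, hc, hsc⟩ := Set.mem_mul.mp hy'
    have hcomm : Commute s c := by
      have := (Subgroup.mem_centralizer_iff.mp hc) s hs
      exact this
    apply Cfsg.Agent.Lib.Helper71.mem_of_pow_mem_of_coprime _ y (a := Nat.card P) (b := Nat.card H)
    · rw [hcardH]; exact P.card_coprime_index
    · rw [← hsc, hcomm.mul_pow]
      have h1 : s ^ Nat.card P = 1 := by
        have h0 : (⟨s, hs⟩ : P) ^ Nat.card P = 1 := pow_card_eq_one'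
        exact congrArg Subtype.val h0
      rw [h1, one_mul]
      exact Subgroup.pow_mem _ hc _
    · have h1 : y ^ Nat.card H = 1 := by
        have h0 : (⟨y, hy⟩ : H) ^ Nat.card H = 1 := pow_card_eq_one'
        exact congrArg Subtype.val h0
      rw [h1]; exact Subgroup.one_mem _
  refine ⟨H, ?_, hpH, hH.disjoint.eq_bot, hH.sup_eq_top⟩
  rw [← Subgroup.normalizer_eq_top_iff, eq_top_iff, ← hH.sup_eq_top]
  apply sup_le _ Subgroup.le_normalizer
  intro s hs
  rw [Subgroup.mem_normalizer_iff]
  intro y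
  constructor
  · intro hy
    have := (Subgroup.mem_centralizer_iff.mp (hHC hy)) s hs
    rw [this]; simpa using hy
  · intro hy
    have h1 := (Subgroup.mem_centralizer_iff.mp (hHC hy)) s hs
    have h2 : y = s * y * s⁻¹ := by
      have : s * (s * y * s⁻¹) = s * y := by rw [h1]; group
      exact (mul_left_cancel this).symm
    rw [h2]; exact hy

end Cfsg.Agent.S4035
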