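import Cfsg.Statements.S4036
import Mathlib

set_option autoImplicit false
open Cfsg

namespace Cfsg.Agent.S4036

/-- Let P be a finite abelian p-group and K a group of automorphisms of P (a subgroup of Aut P) whose order is divisible by p. If all non-identity elements of K have the same fixed-point subgroup on P, then K has no non-trivial normal subgroup of order prime to p. -/
theorem result {P : Type*} [CommGroup P] [Finite P] {p : ℕ}
    [Fact p.Prime] (hP : IsPGroup p P) (K : Subgroup (MulAut P)) (hK : p ∣ Nat.card K)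
    (hfix : ∀ x y : MulAut P, x ∈ K → y ∈ K → x ≠ 1 → y ≠ 1 → ∀ v : P, x v = v ↔ y v = v) :
    ∀ N : Subgroup ↥K, N.Normal → ¬ p ∣ Nat.card N → N = ⊥ := by
  classical
  intro N hN hpN
  by_contra hne
  have hp : p.Prime := Fact.out
  have := Fintype.ofFinite P
  have : Finite (MulAut P) := Finite.of_injective (fun f : MulAut P => (f : P → P)) DFunLike.coe_injective
  have := Fintype.ofFinite N
  obtain ⟨n0, hn0N, hn01⟩ : ∃ n0 : K, n0 ∈ N ∧ n0 ≠ 1 := by
    obtain ⟨a, ha⟩ := (Subgroup.ne_bot_iff_exists_ne_one).mp hne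
    exact ⟨(a : K), a.2, fun h => ha (Subtype.ext h)⟩
  obtain ⟨x, hx⟩ := exists_prime_orderOf_dvd_card' p hK
  let τ : P → P := fun v => ∏ n : N, ((n : K) : MulAut P) v
  have τmul : ∀ v w, τ (v * w) = τ v * τ w := by
    intro v w
    simp only [τ, map_mul, Finset.prod_mul_distrib]
  let τh : P →* P := MonoidHom.mk' τ τmul
  let W : Subgroup P := τh.ker
  have memW : ∀ w, w ∈ W ↔ τ w = 1 := fun w => Iff.rfl
  -- equivariance
  have τK : ∀ (k : K) (v : P), τ ((k : MulAut P) v) = (k : MulAut P) (τ v) := by
    intro k v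
    simp only [τ, map_prod]
    apply Fintype.prod_equiv (MulAut.conjNormal k⁻¹ : N ≃* N).toEquiv
    intro n
    have h1 : (((MulAut.conjNormal k⁻¹ : N ≃* N).toEquiv n : N) : K) = k⁻¹ * n * k := by
      have := MulAut.conjNormal_apply (H := N) k⁻¹ n
      rw [inv_inv] at this
      exact this
    rw [h1]
    simp only [Subgroup.coe_mul, InvMemClass.coe_inv, MulAut.mul_apply, MulAut.apply_inv_self]
  have τN : ∀ (m : N) (v : P), τ (((m : K) : MulAut P) v) = τ v := by
    intro m v
    simp only [τ]
    apply Fintype.prod_equiv (Equiv.mulRight m)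
    intro n
    simp only [Equiv.coe_mulRight, Subgroup.coe_mul, MulAut.mul_apply]
  have hWK : ∀ (k : K) (w : P), w ∈ W ↔ (k : MulAut P) w ∈ W := by
    intro k w
    rw [memW, memW, τK]
    exact (map_eq_one_iff _ (MulEquiv.injective _)).symm
  -- W is nontrivial
  have hWne : W ≠ ⊥ := by
    intro hW
    have hinj : Function.Injective τh := (MonoidHom.ker_eq_bot_iff τh).mp hW
    apply hn01
    apply Subtype.ext
    ext v
    exact hinj (τN ⟨n0, hn0N⟩ v)
  -- fixed vectors of N in W are trivial
  have hfixW : ∀ w ∈ W, (∀ n : N, ((n : K) : MulAut P) w = w) → w = 1 := by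
    intro w hw hfw
    have h1 : w ^ Nat.card N = 1 := by
      rw [memW] at hw
      simp only [τ, hfw, Finset.prod_const, Finset.card_univ] at hw
      rwa [Nat.card_eq_fintype_card]
    obtain ⟨k, hk⟩ := hP w
    have hcop : Nat.Coprime (p ^ k) (Nat.card N) :=
      Nat.Coprime.pow_left _ ((Nat.Prime.coprime_iff_not_dvd hp).mpr hpN)
    have := pow_gcd_eq_one.mpr ⟨hk, h1⟩
    rwa [hcop.gcd_eq_one, pow_one] at this
  -- the element of order p has a nontrivial fixed point on W
  let σ : Equiv.Perm W := ((x : MulAut P).toEquiv).subtypeEquiv (hWK x)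
  have hσpow : ∀ (k : ℕ) (w : W), (((σ ^ k) w : W) : P) = ((x : MulAut P) ^ k) w := by
    intro k
    induction k with
    | zero => intro w; simp
    | succ k ih =>
      intro w
      rw [pow_succ, pow_succ, Equiv.Perm.mul_apply, ih, MulAut.mul_apply]
      rfl
  have hσ : σ ^ p ^ 1 = 1 := by
    ext w
    rw [pow_one, hσpow]
    have : (x : MulAut P) ^ p = 1 := by
      have := pow_orderOf_eq_one x
      rw [hx] at this
      exact_mod_cast congrArg Subtype.val this
    rw [this]
    rfl
  have hWcard : p ∣ Fintype.card W := by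
    rw [← Nat.card_eq_fintype_card]
    obtain ⟨k, hk⟩ := IsPGroup.iff_card.mp (hP.to_subgroup W)
    rw [hk]
    apply dvd_pow_self
    rintro rfl
    apply hWne
    rw [pow_zero] at hk
    exact Subgroup.eq_bot_of_card_eq W hk
  obtain ⟨w, hw, hw1⟩ := Equiv.Perm.exists_fixed_point_of_prime' hWcard hσ (a := 1)
    (by apply Subtype.ext; exact map_one (x : MulAut P))
  have hxw : (x : MulAut P) (w : P) = w := congrArg Subtype.val hw
  have hx1 : (x : MulAut P) ≠ 1 := by
    intro h
    have : x = 1 := Subtype.ext h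
    rw [this, orderOf_one] at hx
    exact hp.one_lt.ne hx
  apply hw1
  apply Subtype.ext
  apply hfixW w w.2
  intro n
  by_cases hn : ((n : K) : MulAut P) = 1
  · rw [hn]; rfl
  · exact (hfix _ _ x.2 (n : K).2 hx1 hn w).mp hxw

end Cfsg.Agent.S4036
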