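import Cfsg.Statements.S4043
import Mathlib
import Cfsg.Agent.Lib.Helper30.SZ
import Cfsg.Agent.Lib.Helper31.PGroup

set_option autoImplicit false
open Cfsg

namespace Cfsg.Agent.S4043

open Cfsg.Agent.Lib.Helper30

/-- a `p`-group normalizing a nontrivial `p`-group centralizes a nontrivial element of it -/
theorem fixed_pt {G : Type*} [Group G] [Finite G] {p : ℕ} [Fact p.Prime] (S D : Subgroup G)
    (hS : IsPGroup p S) (hD : IsPGroup p D) (hSD : S ≤ Subgroup.normalizer (D : Set G)) (hne : D ≠ ⊥) :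
    ∃ d ∈ D, d ≠ 1 ∧ ∀ s ∈ S, s * d * s⁻¹ = d := by
  set T := S ⊔ D with hT
  have hTp : IsPGroup p T := hS.to_sup_of_normal_right' hD hSD
  have hDT : D ≤ T := le_sup_right
  have hn : (D.subgroupOf T).Normal := by
    rw [Subgroup.normal_subgroupOf_iff_le_normalizer hDT]
    exact sup_le hSD Subgroup.le_normalizer
  have hne' : D.subgroupOf T ≠ ⊥ := by
    intro h
    apply hne
    rw [Subgroup.subgroupOf_eq_bot] at h
    rw [← inf_of_le_left hDT]
    exact h.eq_bot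
  obtain ⟨z, hz, hzc, hz1⟩ := Cfsg.Agent.Lib.Helper31.exists_mem_center_of_normal hTp _ hne'
  refine ⟨z, hz, fun h => hz1 (Subtype.ext h), ?_⟩
  intro s hs
  have := Subgroup.mem_center_iff.mp hzc ⟨s, (le_sup_left : S ≤ T) hs⟩
  have h2 : s * (z : G) = z * s := congrArg Subtype.val this
  rw [h2]; group

/-- data extracted from a normal `p`-complement of a subgroup -/
theorem extract {G : Type*} [Group G] [Finite G] {p : ℕ} [Fact p.Prime] (A : Subgroup G)
    (hAp : Cfsg.HasNormalPComplement p A) :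
    ∃ K S : Subgroup G, K ≤ A ∧ S ≤ A ∧ IsPGroup p S ∧ A ≤ Subgroup.normalizer (K : Set G) ∧
      Nat.card S = p ^ (Nat.card A).factorization p ∧ Nat.card K * Nat.card S = Nat.card A ∧
      (∀ a ∈ A, ∃ k ∈ K, ∃ s ∈ S, a = k * s) ∧
      (∀ a ∈ A, a ^ Nat.card K = 1 → a ∈ K) := by
  obtain ⟨S, K, hKn, hKS⟩ := hAp
  have hcS : Nat.card ((S : Subgroup A).map A.subtype) = Nat.card S :=
    Subgroup.card_map_of_injective A.subtype_injective
  have hcK : Nat.card (K.map A.subtype) = Nat.card K :=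
    Subgroup.card_map_of_injective A.subtype_injective
  refine ⟨K.map A.subtype, (S : Subgroup A).map A.subtype, Subgroup.map_subtype_le _,
    Subgroup.map_subtype_le _, S.isPGroup'.map _, ?_, ?_, ?_, ?_, ?_⟩
  · rw [Subgroup.le_normalizer_iff]
    rintro a ha _ ⟨k, hk, rfl⟩
    exact ⟨⟨a, ha⟩ * k * ⟨a, ha⟩⁻¹, hKn.conj_mem k hk _, rfl⟩
  · rw [hcS]; exact S.card_eq_multiplicity
  · rw [hcS, hcK]; exact hKS.card_mul_card
  · intro a ha
    have : (⟨a, ha⟩ : A) ∈ (K ⊔ (S : Subgroup A) : Subgroup A) := by rw [hKS.sup_eq_top]; trivial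
    obtain ⟨k, hk, s, hs, h⟩ := mem_sup_normal_left.mp this
    exact ⟨k, ⟨k, hk, rfl⟩, s, ⟨s, hs, rfl⟩, congrArg Subtype.val h⟩
  · intro a ha hpow
    rw [hcK] at hpow
    refine ⟨⟨a, ha⟩, ?_, rfl⟩
    rw [SetLike.mem_coe, ← QuotientGroup.eq_one_iff]
    have h1 : ((⟨a, ha⟩ : A) : A ⧸ K) ^ Nat.card K = 1 := by
      rw [← QuotientGroup.mk_pow]
      have : (⟨a, ha⟩ : A) ^ Nat.card K = 1 := Subtype.ext hpow
      rw [this]; rfl
    have h2 : ((⟨a, ha⟩ : A) : A ⧸ K) ^ Nat.card (A ⧸ K) = 1 := pow_card_eq_one'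
    have hidx : Nat.card (A ⧸ K) = Nat.card S := hKS.symm.index_eq_card
    have hcop : Nat.Coprime (Nat.card K) (Nat.card (A ⧸ K)) := by
      rw [hidx, ← hKS.index_eq_card]
      exact S.card_coprime_index.symm
    have := pow_gcd_eq_one.mpr ⟨h1, h2⟩
    rwa [hcop.gcd_eq_one, pow_one] at this

/-- Let G be a finite group that is the semidirect product of a normal p-subgroup N by a subgroup A, and also of N by a subgroup A₁, where p is a prime and A and A₁ both have normal p-complements. If C_N(A) = C_N(A₁) = 1, then A₁ is conjugate to A by an element of N. -/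
theorem result {G : Type*} [Group G] [Finite G] {p : ℕ}
    [Fact p.Prime] (N : Subgroup G) [N.Normal] (hN : IsPGroup p N) (A A₁ : Subgroup G)
    (hA : A.IsComplement' N) (hA₁ : A₁.IsComplement' N)
    (hAp : Cfsg.HasNormalPComplement p A) (hA₁p : Cfsg.HasNormalPComplement p A₁)
    (hC : ∀ n : G, n ∈ N → (∀ a : G, a ∈ A → a * n * a⁻¹ = n) → n = 1)
    (hC₁ : ∀ n : G, n ∈ N → (∀ a : G, a ∈ A₁ → a * n * a⁻¹ = n) → n = 1) :
    ∃ n : G, n ∈ N ∧ A₁ = A.map (MulAut.conj n).toMonoidHom := by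
  have hp : p.Prime := Fact.out
  obtain ⟨K, S, hKA, hSA, hSp, hAK, hcS, hcKS, hprod, hpowK⟩ := extract A hAp
  obtain ⟨K₁, S₁, hKA₁, hSA₁, hSp₁, hAK₁, hcS₁, hcKS₁, hprod₁, hpowK₁⟩ := extract A₁ hA₁p
  have hcardA : Nat.card A = Nat.card A₁ := by
    have h1 := hA.card_mul_card
    have h2 := hA₁.card_mul_card
    exact Nat.eq_of_mul_eq_mul_right Nat.card_pos (h1.trans h2.symm)
  have hcardS : Nat.card S = Nat.card S₁ := by rw [hcS, hcS₁, hcardA]
  have hcardK : Nat.card K₁ = Nat.card K := by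
    rw [← hcardA, ← hcKS, hcardS] at hcKS₁
    exact Nat.eq_of_mul_eq_mul_right Nat.card_pos hcKS₁
  have hpK : ¬ p ∣ Nat.card K := by
    intro hd
    have h1 : p ^ ((Nat.card A).factorization p + 1) ∣ Nat.card A := by
      have h2 : Nat.card A = Nat.card K * p ^ (Nat.card A).factorization p := by rw [← hcS, hcKS]
      rw [pow_succ, mul_comm]
      nth_rewrite 2 [h2]
      exact Nat.mul_dvd_mul_right hd _
    exact Nat.pow_succ_factorization_not_dvd Nat.card_pos.ne' hp h1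
  have hAN : A ⊓ N = ⊥ := hA.disjoint.eq_bot
  have hAN₁ : A₁ ⊓ N = ⊥ := hA₁.disjoint.eq_bot
  have htop : N ⊔ A = ⊤ := by rw [sup_comm]; exact hA.sup_eq_top
  have htop₁ : N ⊔ A₁ = ⊤ := by rw [sup_comm]; exact hA₁.sup_eq_top
  -- K₁ ≤ N K
  have hle : K₁ ≤ N ⊔ K := by
    intro g hg
    have hgt : g ∈ N ⊔ A := by rw [htop]; trivial
    obtain ⟨n, hn, a, ha, rfl⟩ := mem_sup_normal_left.mp hgt
    have hgm : (n * a) ^ Nat.card K = 1 := by
      rw [← hcardK]
      have h0 : (⟨n * a, hg⟩ : K₁) ^ Nat.card K₁ = 1 := pow_card_eq_one'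
      exact congrArg Subtype.val h0
    have h1 : a ^ Nat.card K ∈ N := by
      rw [← QuotientGroup.eq_one_iff, QuotientGroup.mk_pow]
      have h2 : ((n * a : G) : G ⧸ N) = (a : G ⧸ N) := by
        rw [QuotientGroup.mk_mul, (QuotientGroup.eq_one_iff n).mpr hn, one_mul]
      rw [← h2, ← QuotientGroup.mk_pow, hgm]; rfl
    have h3 : a ^ Nat.card K = 1 := by
      have : a ^ Nat.card K ∈ A ⊓ N := ⟨A.pow_mem ha _, h1⟩
      rw [hAN] at this
      exact this
    exact Subgroup.mul_mem_sup hn (hpowK a ha h3)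
  have hsol : Group.IsSolvable N := by
    have := hN.isNilpotent
    infer_instance
  have hcop : (Nat.card N).Coprime (Nat.card K) := by
    obtain ⟨e, he⟩ := IsPGroup.iff_card.mp hN
    rw [he]
    exact Nat.Coprime.pow_left _ ((Nat.Prime.coprime_iff_not_dvd hp).mpr hpK)
  obtain ⟨x, hx, hK₁⟩ := sz_conj_solvable_normal N hsol K K₁ hcop hle hcardK
  refine ⟨x, hx, ?_⟩
  set B := Subgroup.normalizer (K₁ : Set G) with hB
  have hA'B : cj x A ≤ B := by
    rw [hB, Subgroup.le_normalizer_iff]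
    rintro _ ⟨a, ha, rfl⟩ k hk
    rw [hK₁] at hk ⊢
    obtain ⟨k0, hk0, rfl⟩ := hk
    refine ⟨a * k0 * a⁻¹, (Subgroup.le_normalizer_iff.mp hAK) a ha k0 hk0, ?_⟩
    simp only [MulEquiv.coe_toMonoidHom, MulAut.conj_apply]
    group
  -- N ∩ B is trivial
  have hD : N ⊓ B = ⊥ := by
    by_contra hne
    have hDp : IsPGroup p (N ⊓ B : Subgroup G) := hN.to_le inf_le_left
    have hSD : S₁ ≤ Subgroup.normalizer ((N ⊓ B : Subgroup G) : Set G) := by
      rw [Subgroup.le_normalizer_iff]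
      intro s hs d hd
      exact ⟨‹N.Normal›.conj_mem d hd.1 s,
        B.mul_mem (B.mul_mem (hAK₁ (hSA₁ hs)) hd.2) (B.inv_mem (hAK₁ (hSA₁ hs)))⟩
    obtain ⟨d, hd, hd1, hfix⟩ := fixed_pt S₁ _ hSp₁ hDp hSD hne
    apply hd1
    apply hC₁ d hd.1
    intro a ha
    obtain ⟨k, hk, s, hs, rfl⟩ := hprod₁ a ha
    have hkd : k * d * k⁻¹ = d := by
      have h1 : d * k * d⁻¹ * k⁻¹ ∈ A₁ ⊓ N := by
        constructor
        · apply hKA₁
          exact K₁.mul_mem ((Subgroup.mem_normalizer_iff.mp hd.2 k).mp hk) (K₁.inv_mem hk)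
        · have : d * k * d⁻¹ * k⁻¹ = d * (k * d⁻¹ * k⁻¹) := by group
          rw [this]
          exact N.mul_mem hd.1 (‹N.Normal›.conj_mem _ (N.inv_mem hd.1) k)
      rw [hAN₁] at h1
      have h2 : d * k * d⁻¹ * k⁻¹ = 1 := h1
      have h3 : d * k = k * d := by
        have := mul_inv_eq_one.mp h2
        exact mul_inv_eq_iff_eq_mul.mp this
      rw [← h3]; group
    calc k * s * d * (k * s)⁻¹ = k * (s * d * s⁻¹) * k⁻¹ := by group
      _ = d := by rw [hfix s hs, hkd]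
  symm
  apply Subgroup.eq_of_le_of_card_ge
  · intro b hb
    have hbt : b ∈ N ⊔ A₁ := by rw [htop₁]; trivial
    obtain ⟨n, hn, a, ha, rfl⟩ := mem_sup_normal_left.mp hbt
    have hnB : n ∈ B := by
      have : n = (n * a) * a⁻¹ := by group
      rw [this]
      exact B.mul_mem (hA'B hb) (B.inv_mem (hAK₁ ha))
    have : n ∈ N ⊓ B := ⟨hn, hnB⟩
    rw [hD] at this
    have hn1 : n = 1 := this
    rw [hn1, one_mul]; exact ha
  · rw [card_cj, hcardA]

end Cfsg.Agent.S4043
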