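import Cfsg.Statements.S4050
import Cfsg.Agent.Lib.Helper71.PiClosed

set_option autoImplicit false
open Cfsg

namespace Cfsg.Agent.S4050

open Cfsg.Agent.Lib.Helper71

/-- Let π be a set of primes and G a finite group. The π-elements of G (elements whose order is divisible only by primes of π) form a subgroup if and only if G is π-separable (it has a chain of normal subgroups from 1 to G with each successive index divisible only by primes in π or only by primes outside π) and N_G(H)/C_G(H) is a π'-group for every nontrivial π'-subgroup H of G. -/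
theorem result {G : Type*} [Group G] [Finite G] (π : Set ℕ)
    (hπ : ∀ p ∈ π, p.Prime) :
    (∃ K : Subgroup G, ∀ x : G, x ∈ K ↔ ∀ p : ℕ, p.Prime → p ∣ orderOf x → p ∈ π) ↔
    ((∃ (n : ℕ) (H : Fin (n + 1) → Subgroup G), H 0 = ⊥ ∧ H (Fin.last n) = ⊤ ∧ Monotone H ∧ (∀ i, (H i).Normal) ∧
      ∀ i : Fin n, (∀ q : ℕ, q.Prime → q ∣ (H i.castSucc).relIndex (H i.succ) → q ∈ π) ∨
        (∀ q : ℕ, q.Prime → q ∣ (H i.castSucc).relIndex (H i.succ) → q ∉ π)) ∧
     (∀ H : Subgroup G, H ≠ ⊥ → (∀ p : ℕ, p.Prime → p ∣ Nat.card ↥H → p ∉ π) →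
        ∀ p : ℕ, p.Prime → p ∣ (Subgroup.centralizer (H : Set G)).relIndex (Subgroup.normalizer (H : Set G)) → p ∉ π)) := by
  constructor
  · rintro ⟨K, hK⟩
    have hL : ∀ x : G, x ∈ K ↔ x ∈ (⊤ : Subgroup G) ∧ PiNum π (orderOf x) := by
      intro x
      rw [hK]
      exact ⟨fun h => ⟨Subgroup.mem_top x, h⟩, fun h => h.2⟩
    have hKn : K.Normal := piElements_normal K ⊤ hL
    refine ⟨⟨2, ![⊥, K, ⊤], rfl, rfl, ?_, ?_, ?_⟩, ?_⟩
    · intro i j hij
      fin_cases i <;> fin_cases j <;> first | exact le_rfl | exact bot_le | exact le_top | (exfalso; revert hij; decide)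
    · intro i
      fin_cases i
      · exact (inferInstance : (⊥ : Subgroup G).Normal)
      · exact hKn
      · exact (inferInstance : (⊤ : Subgroup G).Normal)
    · intro i
      fin_cases i
      · left
        have := piElements_card K ⊤ hL
        change PiNum π ((⊥ : Subgroup G).relIndex K)
        rwa [Subgroup.relIndex_bot_left]
      · right
        exact piElements_relIndex K ⊤ hL
    · intro H _ hH p hp hpd hpπ
      refine not_dvd_relIndex_of_forall _ _ p hp ?_ hpd
      rintro x hx ⟨k, hk⟩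
      have hxK : x ∈ K := by
        rw [hK, hk]
        exact piNum_prime_pow hpπ hp k
      rw [Subgroup.mem_centralizer_iff]
      intro y hy
      have h1 : x * y * x⁻¹ * y⁻¹ ∈ K := by
        have : x * y * x⁻¹ * y⁻¹ = x * (y * x⁻¹ * y⁻¹) := by group
        rw [this]
        exact mul_mem hxK (hKn.conj_mem _ (inv_mem hxK) y)
      have h2 : x * y * x⁻¹ * y⁻¹ ∈ H :=
        mul_mem ((Subgroup.mem_normalizer_iff.mp hx y).mp hy) (inv_mem hy)
      have h3 : orderOf (x * y * x⁻¹ * y⁻¹) = 1 :=
        Nat.eq_one_of_dvd_coprimes (PiNum.coprime ((hK _).mp h1) hH) dvd_rfl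
          (Subgroup.orderOf_dvd_natCard H h2)
      have h4 := orderOf_eq_one_iff.mp h3
      calc y * x = (x * y * x⁻¹ * y⁻¹) * (y * x) := by rw [h4, one_mul]
        _ = x * y := by group
  · rintro ⟨⟨n, H, h0, hlast, hmono, hnorm, hstep⟩, hhom⟩
    have h1 : Hom1 π G := hom1_of_hom π hhom
    have key : ∀ i : Fin (n + 1), ∃ N : Subgroup G, ∀ x : G, x ∈ N ↔ x ∈ H i ∧ PiNum π (orderOf x) := by
      intro i
      induction i using Fin.induction with
      | zero =>
        refine ⟨⊥, fun x => ?_⟩
        rw [h0, Subgroup.mem_bot]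
        constructor
        · rintro rfl
          refine ⟨rfl, ?_⟩
          rw [orderOf_one]
          intro p hp hp1
          exact absurd (Nat.dvd_one.mp hp1) hp.ne_one
        · exact fun h => h.1
      | succ i ih =>
        have := hnorm i.castSucc
        exact h1.step (H i.castSucc) (H i.succ) (hmono (Fin.castSucc_lt_succ).le) ih (hstep i)
    obtain ⟨N, hN⟩ := key (Fin.last n)
    refine ⟨N, fun x => ?_⟩
    rw [hN, hlast]
    exact ⟨fun h => h.2, fun h => ⟨Subgroup.mem_top x, h⟩⟩

end Cfsg.Agent.S4050
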