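import Cfsg.Statements.S4051
import Cfsg.Agent.Lib.Helper71.PiClosed

set_option autoImplicit false
open Cfsg

namespace Cfsg.Agent.S4051

open Cfsg.Agent.Lib.Helper71

/-- Let π be a set of primes and G a finite group such that N_G(H)/C_G(H) is a π'-group for every nontrivial π'-subgroup H of G. If K is a normal subgroup of G such that the π-elements of K form a subgroup and the π-elements of G/K form a subgroup, then the π-elements of G form a subgroup. -/
theorem result {G : Type*} [Group G] [Finite G] (π : Set ℕ)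
    (hπ : ∀ p ∈ π, p.Prime) (hhom : (∀ H : Subgroup G, H ≠ ⊥ → (∀ p : ℕ, p.Prime → p ∣ Nat.card ↥H → p ∉ π) →
        ∀ p : ℕ, p.Prime → p ∣ (Subgroup.centralizer (H : Set G)).relIndex (Subgroup.normalizer (H : Set G)) → p ∉ π))
    (K : Subgroup G) [K.Normal]
    (hK : ∃ L : Subgroup ↥K, ∀ x : ↥K, x ∈ L ↔ ∀ p : ℕ, p.Prime → p ∣ orderOf x → p ∈ π)
    (hQ : ∃ L : Subgroup (G ⧸ K), ∀ x : G ⧸ K, x ∈ L ↔ ∀ p : ℕ, p.Prime → p ∣ orderOf x → p ∈ π) :
    (∃ K : Subgroup G, ∀ x : G, x ∈ K ↔ ∀ p : ℕ, p.Prime → p ∣ orderOf x → p ∈ π) := by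
  have h1 : Hom1 π G := hom1_of_hom π hhom
  obtain ⟨L₀, hL₀⟩ := hK
  obtain ⟨M₀, hM₀⟩ := hQ
  have hK' : ∃ N : Subgroup G, ∀ x : G, x ∈ N ↔ x ∈ K ∧ PiNum π (orderOf x) := by
    refine ⟨L₀.map K.subtype, fun x => ?_⟩
    constructor
    · rintro ⟨y, hy, rfl⟩
      refine ⟨y.2, ?_⟩
      rw [Subgroup.coe_subtype, Subgroup.orderOf_coe]
      exact (hL₀ y).mp hy
    · rintro ⟨hx, hxπ⟩
      refine ⟨⟨x, hx⟩, (hL₀ _).mpr ?_, rfl⟩
      rw [Subgroup.orderOf_mk]
      exact hxπ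
  obtain ⟨L, hL⟩ := hK'
  have := piElements_normal L K hL
  obtain ⟨N, hN⟩ := h1.exists_piElements L K (M₀.comap (QuotientGroup.mk' K))
    (fun x hx => ((hL x).mp hx).1) (by
      intro x hx
      rw [Subgroup.mem_comap]
      have : QuotientGroup.mk' K x = 1 := (QuotientGroup.eq_one_iff x).mpr hx
      rw [this]
      exact one_mem _) (piElements_card L K hL)
      (piElements_relIndex L K hL) (by
      intro m hm
      refine ⟨orderOf (QuotientGroup.mk' K m), (hM₀ _).mp hm, ?_⟩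
      rw [← QuotientGroup.eq_one_iff]
      have := pow_orderOf_eq_one (QuotientGroup.mk' K m)
      rwa [← map_pow] at this)
  refine ⟨N, fun x => ?_⟩
  rw [hN]
  constructor
  · exact fun h => h.2
  · intro h
    refine ⟨?_, h⟩
    rw [Subgroup.mem_comap, hM₀]
    exact PiNum.of_dvd h (orderOf_map_dvd _ x)

end Cfsg.Agent.S4051
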