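import Cfsg.Statements.S4056
import Mathlib
import Cfsg.Agent.Lib.Helper71.Class2
import Cfsg.Agent.S0013

set_option autoImplicit false
open Cfsg

namespace Cfsg.Agent.S4056

open Cfsg.Agent.Lib.Helper71
open scoped commutatorElement

/-- computation in class two and exponent four -/
theorem comp {P : Type*} [Group P] (h4 : ∀ g : P, g ^ 4 = 1) (x y d : P)
    (hd : ∀ g : P, g * d = d * g) (hyx : y * x = d * (x * y)) :
    d ^ 2 = 1 ∧ y * x ^ 2 = x ^ 2 * y := by
  have hd2 : ∀ g : P, g * d ^ 2 = d ^ 2 * g := fun g =>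
    ((show Commute g d from hd g).pow_right 2).eq
  have hd4 : ∀ g : P, g * d ^ 4 = d ^ 4 * g := fun g =>
    ((show Commute g d from hd g).pow_right 4).eq
  have h2 : (x * y) ^ 2 = d * (x ^ 2 * y ^ 2) := by
    calc (x * y) ^ 2 = x * (y * x) * y := by simp only [pow_succ, pow_zero, one_mul, mul_assoc]
      _ = x * (d * (x * y)) * y := by rw [hyx]
      _ = (x * d) * (x * y * y) := by simp only [pow_succ, pow_zero, one_mul, mul_assoc]
      _ = (d * x) * (x * y * y) := by rw [hd x]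
      _ = d * (x ^ 2 * y ^ 2) := by simp only [pow_succ, pow_zero, one_mul, mul_assoc]
  have h3 : y * x ^ 2 = d ^ 2 * (x ^ 2 * y) := by
    calc y * x ^ 2 = (y * x) * x := by simp only [pow_succ, pow_zero, one_mul, mul_assoc]
      _ = d * (x * y) * x := by rw [hyx]
      _ = d * x * (y * x) := by simp only [pow_succ, pow_zero, one_mul, mul_assoc]
      _ = d * x * (d * (x * y)) := by rw [hyx]
      _ = d * (x * d) * (x * y) := by simp only [pow_succ, pow_zero, one_mul, mul_assoc]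
      _ = d * (d * x) * (x * y) := by rw [hd x]
      _ = d ^ 2 * (x ^ 2 * y) := by simp only [pow_succ, pow_zero, one_mul, mul_assoc]
  have h4' : y ^ 2 * x ^ 2 = d ^ 4 * (x ^ 2 * y ^ 2) := by
    calc y ^ 2 * x ^ 2 = y * (y * x ^ 2) := by simp only [pow_succ, pow_zero, one_mul, mul_assoc]
      _ = y * (d ^ 2 * (x ^ 2 * y)) := by rw [h3]
      _ = (y * d ^ 2) * (x ^ 2 * y) := by simp only [pow_succ, pow_zero, one_mul, mul_assoc]
      _ = (d ^ 2 * y) * (x ^ 2 * y) := by rw [hd2 y]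
      _ = d ^ 2 * (y * x ^ 2) * y := by simp only [pow_succ, pow_zero, one_mul, mul_assoc]
      _ = d ^ 2 * (d ^ 2 * (x ^ 2 * y)) * y := by rw [h3]
      _ = d ^ 4 * (x ^ 2 * y ^ 2) := by simp only [pow_succ, pow_zero, one_mul, mul_assoc]
  have h5 : (x * y) ^ 4 = d ^ 6 * (x ^ 4 * y ^ 4) := by
    calc (x * y) ^ 4 = (x * y) ^ 2 * (x * y) ^ 2 := by simp only [pow_succ, pow_zero, one_mul, mul_assoc]
      _ = d * (x ^ 2 * y ^ 2) * (d * (x ^ 2 * y ^ 2)) := by rw [h2]
      _ = d * ((x ^ 2 * y ^ 2) * d) * (x ^ 2 * y ^ 2) := by simp only [pow_succ, pow_zero, one_mul, mul_assoc]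
      _ = d * (d * (x ^ 2 * y ^ 2)) * (x ^ 2 * y ^ 2) := by rw [hd]
      _ = d ^ 2 * x ^ 2 * (y ^ 2 * x ^ 2) * y ^ 2 := by simp only [pow_succ, pow_zero, one_mul, mul_assoc]
      _ = d ^ 2 * x ^ 2 * (d ^ 4 * (x ^ 2 * y ^ 2)) * y ^ 2 := by rw [h4']
      _ = d ^ 2 * (x ^ 2 * d ^ 4) * (x ^ 2 * y ^ 2 * y ^ 2) := by simp only [pow_succ, pow_zero, one_mul, mul_assoc]
      _ = d ^ 2 * (d ^ 4 * x ^ 2) * (x ^ 2 * y ^ 2 * y ^ 2) := by rw [hd4]
      _ = d ^ 6 * (x ^ 4 * y ^ 4) := by simp only [pow_succ, pow_zero, one_mul, mul_assoc]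
  have h6 : d ^ 2 = 1 := by
    rw [h4, h4, h4, mul_one, mul_one] at h5
    have : d ^ 6 = d ^ 4 * d ^ 2 := by simp only [pow_succ, pow_zero, one_mul, mul_assoc]
    rw [this, h4, one_mul] at h5
    exact h5.symm
  refine ⟨h6, ?_⟩
  rw [h3, h6, one_mul]

/-- In a finite 2-group of nilpotency class at most 2 and exponent dividing 4, the Frattini subgroup lies in the centre and is elementary abelian. -/
theorem result {P : Type*} [Group P] [Finite P] (hP : IsPGroup 2 P)
    (hcl : Group.nilpotencyClass P ≤ 2) (hexp : Monoid.exponent P ∣ 4) :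
    frattini P ≤ Subgroup.center P ∧ Cfsg.IsElementaryAbelian 2 (frattini P) := by
  have : Fact (Nat.Prime 2) := ⟨Nat.prime_two⟩
  have hnil := hP.isNilpotent
  have h4 : ∀ g : P, g ^ 4 = 1 := by
    intro g
    obtain ⟨k, hk⟩ := hexp
    rw [hk, pow_mul, Monoid.pow_exponent_eq_one, one_pow]
  have key : ∀ x y : P, (y * x * y⁻¹ * x⁻¹) ^ 2 = 1 ∧ y * x ^ 2 = x ^ 2 * y := by
    intro x y
    apply comp h4 x y (y * x * y⁻¹ * x⁻¹)
    · intro g
      exact Subgroup.mem_center_iff.mp (commutator_mem_center_of_class_le_two hcl y x) g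
    · group
  let N : Subgroup P :=
    { carrier := {g | g ∈ Subgroup.center P ∧ g ^ 2 = 1}
      mul_mem' := by
        rintro a b ⟨ha, ha2⟩ ⟨hb, hb2⟩
        refine ⟨Subgroup.mul_mem _ ha hb, ?_⟩
        have hc : Commute a b := (Subgroup.mem_center_iff.mp hb a)
        rw [hc.mul_pow, ha2, hb2, one_mul]
      one_mem' := ⟨Subgroup.one_mem _, one_pow _⟩
      inv_mem' := by
        rintro a ⟨ha, ha2⟩
        exact ⟨Subgroup.inv_mem _ ha, by rw [inv_pow, ha2, inv_one]⟩ }
  have hNc : N ≤ Subgroup.center P := fun g hg => hg.1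
  have hNn : N.Normal := by
    constructor
    intro n hn g
    have : g * n * g⁻¹ = n := by
      rw [Subgroup.mem_center_iff.mp hn.1 g]; group
    rw [this]; exact hn
  have hle : frattini P ≤ N := by
    apply Cfsg.Agent.S0013.result 2 hP N
    · rw [commutator_def, Subgroup.commutator_le]
      intro a _ b _
      exact ⟨commutator_mem_center_of_class_le_two hcl a b, (key b a).1⟩
    · intro x
      refine ⟨?_, ?_⟩
      · rw [Subgroup.mem_center_iff]
        intro y
        exact (key x y).2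
      · rw [← pow_mul]; exact h4 x
  refine ⟨hle.trans hNc, ?_, fun a ha => (hle ha).2⟩
  rw [isMulCommutative_iff]
  rintro ⟨a, ha⟩ ⟨b, hb⟩
  apply Subtype.ext
  exact (Subgroup.mem_center_iff.mp (hle hb).1 a)

end Cfsg.Agent.S4056
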