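import Cfsg.Statements.S4058
import Cfsg.Agent.Lib.Helper78.FrobSchur3
import Cfsg.Agent.Lib.Helper82.Linear
import Cfsg.Agent.Lib.Helper3.PGroup
-- import your own Cfsg.Agent.* helpers here

set_option autoImplicit false
open Cfsg

namespace Cfsg.Agent.S4058

open scoped ComplexConjugate

section general

theorem dvd_sum_of_orbit {Λ X : Type*} [Group Λ] [MulAction Λ X] [Fintype X] (f : X → ℤ) (m : ℤ)
    (hinv : ∀ (l : Λ) (x : X), f (l • x) = f x)
    (h : ∀ x : X, m ∣ (Nat.card (MulAction.orbit Λ x) : ℤ) * f x) : m ∣ ∑ x, f x := by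
  classical
  have := Fintype.ofFinite (MulAction.orbitRel.Quotient Λ X)
  rw [← Finset.sum_fiberwise (s := Finset.univ)
    (g := fun x => (Quotient.mk'' x : MulAction.orbitRel.Quotient Λ X))]
  apply Finset.dvd_sum
  intro ω _
  induction ω using Quotient.inductionOn' with
  | h x₀ =>
    have h1 : ∀ x ∈ Finset.univ.filter
        (fun x => (Quotient.mk'' x : MulAction.orbitRel.Quotient Λ X) = Quotient.mk'' x₀),
        f x = f x₀ := by
      intro x hx
      rw [Finset.mem_filter] at hx
      have h2 : x ∈ MulAction.orbit Λ x₀ := by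
        have := Quotient.eq''.1 hx.2
        exact (MulAction.orbitRel_apply).1 this
      obtain ⟨l, rfl⟩ := h2
      exact hinv l x₀
    rw [Finset.sum_congr rfl h1, Finset.sum_const, nsmul_eq_mul]
    have h3 : (Finset.univ.filter
        (fun x => (Quotient.mk'' x : MulAction.orbitRel.Quotient Λ X) = Quotient.mk'' x₀)).card
        = Nat.card (MulAction.orbit Λ x₀) := by
      rw [Nat.card_eq_fintype_card, Fintype.card_subtype]
      congr 1
      ext x
      simp only [Finset.mem_filter, Finset.mem_univ, true_and]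
      rw [Quotient.eq'']
      exact MulAction.orbitRel_apply
    rw [h3]
    exact h x₀

theorem card_hom_of_comm {A : Type*} [Group A] [Finite A] (h : ∀ a b : A, a * b = b * a) :
    Nat.card (A →* ℂˣ) = Nat.card A := by
  let _ : CommGroup A := { ‹Group A› with mul_comm := h }
  have : NeZero (Monoid.exponent A) := ⟨Monoid.exponent_ne_zero_of_finite⟩
  exact CommGroup.card_monoidHom_of_hasEnoughRootsOfUnity A ℂ

end general

section chars

variable {G : Type*} [Group G]

/-- the linear character of `G` attached to a hom on the Frattini quotient -/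
noncomputable def lamFun (l : (G ⧸ frattini G) →* ℂˣ) : G → ℂ :=
  fun g => ((l (QuotientGroup.mk g) : ℂˣ) : ℂ)

theorem lamFun_isIrr (l : (G ⧸ frattini G) →* ℂˣ) : IsIrrCharacter G (lamFun l) :=
  Cfsg.Agent.Lib.Helper83.isIrr_of_hom (l.comp (QuotientGroup.mk' (frattini G)))

theorem lamFun_one_apply (l : (G ⧸ frattini G) →* ℂˣ) : lamFun l 1 = 1 := by
  simp [lamFun]

theorem lamFun_injective : Function.Injective (lamFun (G := G)) := by
  intro l l' h
  ext x
  exact congrFun h x

theorem lamFun_mul (l l' : (G ⧸ frattini G) →* ℂˣ) : lamFun (l * l') = lamFun l * lamFun l' := by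
  funext g
  simp [lamFun]

theorem lamFun_one : lamFun (1 : (G ⧸ frattini G) →* ℂˣ) = 1 := by
  funext g
  simp [lamFun]

noncomputable instance actIrr [Finite G] :
    MulAction ((G ⧸ frattini G) →* ℂˣ) (IrrCharacter G) where
  smul l χ := ⟨lamFun l * χ.1, Cfsg.Agent.Lib.Helper82.isIrr_linear_mul
    (Cfsg.Agent.Lib.Helper82.isIrr_isChar (lamFun_isIrr l)) (lamFun_one_apply l) χ.2⟩
  one_smul χ := by
    apply Subtype.ext
    change lamFun 1 * χ.1 = χ.1
    rw [lamFun_one, one_mul]
  mul_smul l l' χ := by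
    apply Subtype.ext
    change lamFun (l * l') * χ.1 = lamFun l * (lamFun l' * χ.1)
    rw [lamFun_mul, mul_assoc]

theorem smul_coe [Finite G] (l : (G ⧸ frattini G) →* ℂˣ) (χ : IrrCharacter G) :
    ((l • χ : IrrCharacter G) : G → ℂ) = lamFun l * χ.1 := rfl

theorem sum_normSq [Fintype G] (φ : G → ℂ) :
    ((∑ g, ‖φ g‖ ^ 2 : ℝ) : ℂ) = (Nat.card G : ℂ) * classInner φ φ := by
  unfold classInner
  rw [← mul_assoc, mul_inv_cancel₀ Cfsg.Agent.Lib.Helper20.card_ne_zero_complex, one_mul]
  push_cast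
  apply Finset.sum_congr rfl
  intro g _
  rw [Complex.mul_conj, Complex.normSq_eq_norm_sq]
  push_cast
  rfl

/-- stabiliser bound -/
theorem card_le_sq [Fintype G] {χ : G → ℂ} (hχ : IsIrrCharacter G χ)
    (S : Finset ((G ⧸ frattini G) →* ℂˣ)) (hS : ∀ l ∈ S, lamFun l * χ = χ) :
    S.card ≤ charDegree χ ^ 2 := by
  classical
  set σ : G → ℂ := ∑ l ∈ S, lamFun l with hσ
  have h1 : classInner σ σ = S.card := by
    rw [hσ, Cfsg.Agent.Lib.Helper20.classInner_sum_left]
    have : ∀ l ∈ S, classInner (lamFun l) (∑ l ∈ S, lamFun l) = 1 := by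
      intro l hl
      rw [Cfsg.Agent.Lib.Helper20.classInner_sum_right]
      rw [Finset.sum_eq_single l]
      · exact Cfsg.Agent.Lib.Helper20.classInner_irr_self (lamFun_isIrr l)
      · intro l' _ hne
        rw [Cfsg.Agent.Lib.Helper20.classInner_irr (lamFun_isIrr l) (lamFun_isIrr l'),
          if_neg (fun h => hne (lamFun_injective h).symm)]
      · intro h; exact absurd hl h
    rw [Finset.sum_congr rfl this]
    simp
  have h2 : classInner χ χ = 1 := Cfsg.Agent.Lib.Helper20.classInner_irr_self hχ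
  have h3 : (∑ g, ‖σ g‖ ^ 2 : ℝ) = (Nat.card G : ℝ) * S.card := by
    have := sum_normSq σ
    rw [h1] at this
    exact_mod_cast this
  have h4 : (∑ g, ‖χ g‖ ^ 2 : ℝ) = (Nat.card G : ℝ) := by
    have := sum_normSq χ
    rw [h2, mul_one] at this
    exact_mod_cast this
  have hd : (χ 1).re = (charDegree χ : ℝ) := by
    rw [Cfsg.Agent.Lib.Helper82.isChar_one_eq (Cfsg.Agent.Lib.Helper82.isIrr_isChar hχ)]
    simp
  have h5 : ∀ g : G, (S.card : ℝ) ^ 2 * ‖χ g‖ ^ 2 ≤ (charDegree χ : ℝ) ^ 2 * ‖σ g‖ ^ 2 := by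
    intro g
    by_cases h0 : χ g = 0
    · rw [h0]; simp; positivity
    · have h6 : σ g = S.card := by
        rw [hσ, Finset.sum_apply]
        have : ∀ l ∈ S, lamFun l g = 1 := by
          intro l hl
          have := congrFun (hS l hl) g
          rw [Pi.mul_apply] at this
          exact mul_right_cancel₀ h0 (this.trans (one_mul _).symm)
        rw [Finset.sum_congr rfl this]
        simp
      have h7 : ‖χ g‖ ≤ (charDegree χ : ℝ) := by
        rw [← hd]
        exact Cfsg.Agent.Lib.Helper20.isCharacter_norm_le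
          (Cfsg.Agent.Lib.Helper82.isIrr_isChar hχ) g
      rw [h6]
      have h8 : ‖((S.card : ℕ) : ℂ)‖ = (S.card : ℝ) := by simp
      rw [h8, mul_comm]
      have h9 : ‖χ g‖ ^ 2 ≤ (charDegree χ : ℝ) ^ 2 := by
        apply pow_le_pow_left₀ (norm_nonneg _) h7
      exact mul_le_mul_of_nonneg_right h9 (by positivity)
  have h10 : (S.card : ℝ) ^ 2 * (Nat.card G : ℝ) ≤
      (charDegree χ : ℝ) ^ 2 * ((Nat.card G : ℝ) * S.card) := by
    rw [← h3, ← h4, Finset.mul_sum, Finset.mul_sum]
    exact Finset.sum_le_sum (fun g _ => h5 g)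
  have hG : (0 : ℝ) < (Nat.card G : ℝ) := by
    exact_mod_cast Nat.card_pos
  rcases Nat.eq_zero_or_pos S.card with h0 | h0
  · rw [h0]; exact Nat.zero_le _
  · have hS0 : (0 : ℝ) < (S.card : ℝ) := by exact_mod_cast h0
    have h11 : (S.card : ℝ) ≤ (charDegree χ : ℝ) ^ 2 := by
      have h12 : (S.card : ℝ) * ((Nat.card G : ℝ) * S.card) ≤
          (charDegree χ : ℝ) ^ 2 * ((Nat.card G : ℝ) * S.card) := by
        calc (S.card : ℝ) * ((Nat.card G : ℝ) * S.card) = (S.card : ℝ) ^ 2 * (Nat.card G : ℝ) := by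
              ring
          _ ≤ _ := h10
      exact le_of_mul_le_mul_right h12 (by positivity)
    exact_mod_cast h11

end chars

/-- Let G be a finite 2-group with #(G/Φ(G)) ≥ 2^(2k+1). Then the number of elements x of G with x² = 1 is divisible by 2^(k+1). -/
theorem result {G : Type*} [Group G] [Finite G] (hG : IsPGroup 2 G) (k : ℕ)
    (hgen : 2 ^ (2 * k + 1) ≤ Nat.card (G ⧸ frattini G)) :
    2 ^ (k + 1) ∣ Nat.card {x : G // x ^ 2 = 1} := by
  classical
  have := Fintype.ofFinite G
  have : Fact (Nat.Prime 2) := ⟨Nat.prime_two⟩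
  have hfin : Finite (IrrCharacter G) := Cfsg.Agent.Lib.Helper20.finite_irrCharacter
  have := Fintype.ofFinite (IrrCharacter G)
  have hsq : ∀ s : G, s * s ∈ frattini G := fun s => by
    rw [← pow_two]; exact Cfsg.Agent.Lib.Helper3.pow_p_mem_frattini hG s
  have hlam : ∀ (l : (G ⧸ frattini G) →* ℂˣ) (s : G), lamFun l (s * s) = 1 := by
    intro l s
    unfold lamFun
    rw [(QuotientGroup.eq_one_iff _).2 (hsq s), map_one]; rfl
  have hcomm : ∀ a b : G ⧸ frattini G, a * b = b * a := by
    intro a b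
    induction a using QuotientGroup.induction_on with
    | H x =>
      induction b using QuotientGroup.induction_on with
      | H y =>
        rw [← QuotientGroup.mk_mul, ← QuotientGroup.mk_mul, QuotientGroup.eq]
        apply Cfsg.Agent.Lib.Helper3.commutator_le_frattini hG
        rw [commutator_def]
        have := Subgroup.commutator_mem_commutator (Subgroup.mem_top y⁻¹) (Subgroup.mem_top x⁻¹)
        rw [commutatorElement_def] at this
        simpa [mul_assoc] using this
  have hcardΛ : Nat.card ((G ⧸ frattini G) →* ℂˣ) = Nat.card (G ⧸ frattini G) :=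
    card_hom_of_comm hcomm
  have hfinΛ : Finite ((G ⧸ frattini G) →* ℂˣ) :=
    Nat.finite_of_card_ne_zero (by rw [hcardΛ]; exact Nat.card_pos.ne')
  have := Fintype.ofFinite ((G ⧸ frattini G) →* ℂˣ)
  obtain ⟨n, hn⟩ := IsPGroup.iff_card.1 hG
  obtain ⟨D, hD⟩ : ∃ D, Nat.card ((G ⧸ frattini G) →* ℂˣ) = 2 ^ D := by
    have h1 : Nat.card (G ⧸ frattini G) ∣ 2 ^ n := by
      rw [← hn, ← Subgroup.index_eq_card]; exact Subgroup.index_dvd_card _
    obtain ⟨D, _, hD⟩ := (Nat.dvd_prime_pow Nat.prime_two).1 h1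
    exact ⟨D, hcardΛ.trans hD⟩
  have hDk : 2 * k + 1 ≤ D := by
    rw [← hcardΛ, hD] at hgen
    exact (Nat.pow_le_pow_iff_right (by norm_num)).1 hgen
  have hcount := Cfsg.Agent.Lib.Helper78.fs_count_int (G := G)
  have hc2 : Nat.card {x : G // x ^ 2 = 1} = 1 + Nat.card {x : G // orderOf x = 2} := by
    rw [← Cfsg.Agent.Lib.Helper78.card_mul_self_eq_one]
    simp only [pow_two]
  rw [hc2]
  have key : ((2 ^ (k + 1) : ℕ) : ℤ) ∣ ((1 + Nat.card {x : G // orderOf x = 2} : ℕ) : ℤ) := by
    push_cast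
    rw [hcount]
    apply dvd_sum_of_orbit (Λ := (G ⧸ frattini G) →* ℂˣ)
    · intro l χ
      rw [smul_coe]
      have h1 : Cfsg.Agent.Lib.Helper78.fsNu (lamFun l * χ.1) =
          Cfsg.Agent.Lib.Helper78.fsNu χ.1 := by
        unfold Cfsg.Agent.Lib.Helper78.fsNu
        congr 1
        apply Finset.sum_congr rfl
        intro s _
        rw [Pi.mul_apply, hlam, one_mul]
      have h2 : Cfsg.Agent.Lib.Helper78.fsNuZ (lamFun l * χ.1) =
          Cfsg.Agent.Lib.Helper78.fsNuZ χ.1 := by
        unfold Cfsg.Agent.Lib.Helper78.fsNuZ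
        rw [h1]
      have h3 : charDegree (lamFun l * χ.1) = charDegree χ.1 := by
        unfold charDegree
        rw [Pi.mul_apply, lamFun_one_apply, one_mul]
      rw [h2, h3]
    · intro χ
      set St := MulAction.stabilizer ((G ⧸ frattini G) →* ℂˣ) χ with hSt
      have h1 : Nat.card (MulAction.orbit ((G ⧸ frattini G) →* ℂˣ) χ) = St.index := by
        rw [hSt, MulAction.index_stabilizer, Nat.card_coe_set_eq]
      have h2 : Nat.card St * St.index = 2 ^ D := by
        rw [Subgroup.card_mul_index, hD]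
      obtain ⟨s, hsD, hs⟩ := (Nat.dvd_prime_pow Nat.prime_two).1 (Dvd.intro _ h2)
      have h3 : St.index = 2 ^ (D - s) := by
        rw [hs] at h2
        have h4 : 2 ^ s * St.index = 2 ^ s * 2 ^ (D - s) := by
          rw [h2, ← pow_add]; congr 1; omega
        exact Nat.eq_of_mul_eq_mul_left (by positivity) h4
      obtain ⟨a, _, ha⟩ := (Nat.dvd_prime_pow Nat.prime_two).1
        (hn ▸ Cfsg.Agent.Lib.Helper82.isIrr_charDegree_dvd_card χ.2)
      have h5 : (Finset.univ.filter (fun l => l ∈ St)).card ≤ charDegree χ.1 ^ 2 := by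
        apply card_le_sq χ.2
        intro l hl
        rw [Finset.mem_filter] at hl
        have := MulAction.mem_stabilizer_iff.1 hl.2
        exact congrArg Subtype.val this
      have h6 : (Finset.univ.filter (fun l => l ∈ St)).card = Nat.card St := by
        rw [Nat.card_eq_fintype_card, Fintype.card_subtype]
      rw [h6, hs, ha, ← pow_mul] at h5
      have h7 : s ≤ a * 2 := (Nat.pow_le_pow_iff_right (by norm_num)).1 h5
      rw [h1, h3, ha]
      push_cast
      have h8 : (2 : ℤ) ^ (D - s) * (Cfsg.Agent.Lib.Helper78.fsNuZ χ.1 * 2 ^ a) =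
          Cfsg.Agent.Lib.Helper78.fsNuZ χ.1 * 2 ^ (D - s + a) := by
        rw [pow_add]; ring
      rw [h8]
      apply Dvd.dvd.mul_left
      apply pow_dvd_pow
      omega
  exact_mod_cast key

end Cfsg.Agent.S4058
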