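import Cfsg.Statements.S4065
import Mathlib

set_option autoImplicit false
open Cfsg

namespace Cfsg.Agent.S4065

/-- In a group where commuting is transitive on non-identity elements, centralizers are TI. -/
theorem ti_of_ct {Γ : Type*} [Group Γ]
    (hct : ∀ a b c : Γ, b ≠ 1 → a * b = b * a → b * c = c * b → a * c = c * a) (x : Γ) :
    Cfsg.IsTISubset (Subgroup.centralizer ({x} : Set Γ) : Set Γ) := by
  intro g hg y hy hgy
  by_contra hy1
  apply hg
  rw [SetLike.mem_coe, Subgroup.mem_centralizer_singleton_iff] at hy hgy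
  by_cases hx : x = 1
  · subst hx
    have : Subgroup.centralizer ({1} : Set Γ) = ⊤ := by
      ext w; simp [Subgroup.mem_centralizer_singleton_iff]
    rw [this]
    have h2 : Subgroup.normalizer (((⊤ : Subgroup Γ) : Set Γ)) = ⊤ := Subgroup.normalizer_eq_top _
    rw [h2]; trivial
  have hgy1 : g * y * g⁻¹ ≠ 1 := by
    intro h; exact hy1 (conj_eq_one_iff.mp h)
  -- x commutes with g x g⁻¹ related elements
  have key : ∀ w : Γ, w * x = x * w ↔ w * y = y * w := by
    intro w
    constructor
    · intro h; exact hct w x y hx h hy.symm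
    · intro h; exact hct w y x hy1 h hy
  have key2 : ∀ w : Γ, w * x = x * w ↔ w * (g * y * g⁻¹) = (g * y * g⁻¹) * w := by
    intro w
    constructor
    · intro h; exact hct w x _ hx h hgy.symm
    · intro h; exact hct w _ x hgy1 h hgy
  rw [Subgroup.mem_normalizer_iff]
  intro w
  rw [Subgroup.mem_centralizer_singleton_iff, Subgroup.mem_centralizer_singleton_iff, key w,
    key2 (g * w * g⁻¹)]
  constructor
  · intro h
    calc g * w * g⁻¹ * (g * y * g⁻¹) = g * (w * y) * g⁻¹ := by group
      _ = g * (y * w) * g⁻¹ := by rw [h]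
      _ = g * y * g⁻¹ * (g * w * g⁻¹) := by group
  · intro h
    have h3 : g * (w * y) * g⁻¹ = g * (y * w) * g⁻¹ := by
      calc g * (w * y) * g⁻¹ = g * w * g⁻¹ * (g * y * g⁻¹) := by group
        _ = g * y * g⁻¹ * (g * w * g⁻¹) := h
        _ = g * (y * w) * g⁻¹ := by group
    exact conj_injective h3

theorem mat_ct {F : Type*} [Field F] (A B C : Matrix (Fin 2) (Fin 2) F)
    (hB : B 0 1 ≠ 0 ∨ B 1 0 ≠ 0 ∨ B 0 0 ≠ B 1 1) (h1 : A * B = B * A) (h2 : B * C = C * B) :
    A * C = C * A := by
  have a00 := congrFun (congrFun h1 0) 0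
  have a01 := congrFun (congrFun h1 0) 1
  have a10 := congrFun (congrFun h1 1) 0
  have a11 := congrFun (congrFun h1 1) 1
  have c00 := congrFun (congrFun h2 0) 0
  have c01 := congrFun (congrFun h2 0) 1
  have c10 := congrFun (congrFun h2 1) 0
  have c11 := congrFun (congrFun h2 1) 1
  simp only [Matrix.mul_apply, Fin.sum_univ_two] at a00 a01 a10 a11 c00 c01 c10 c11
  ext i j
  simp only [Matrix.mul_apply, Fin.sum_univ_two]
  fin_cases i <;> fin_cases j <;> simp only [Fin.zero_eta, Fin.mk_one, Fin.isValue] <;>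
    rcases hB with hB | hB | hB <;> grind

/-- Let F be a finite field with 2ⁿ elements, n ≥ 2. In PSL₂(F) the centralizer of every element meets each of its conjugates by elements outside its normalizer trivially. -/
theorem result (n : ℕ) (hn : 2 ≤ n)
    (x : Matrix.ProjectiveSpecialLinearGroup (Fin 2) (GaloisField 2 n)) :
    Cfsg.IsTISubset (Subgroup.centralizer ({x} : Set (Matrix.ProjectiveSpecialLinearGroup (Fin 2) (GaloisField 2 n))) :
      Set (Matrix.ProjectiveSpecialLinearGroup (Fin 2) (GaloisField 2 n))) := by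
  have h2 : (2 : GaloisField 2 n) = 0 := CharTwo.two_eq_zero
  have hsq : ∀ r : GaloisField 2 n, r ^ 2 = 1 → r = 1 := by
    intro r hr
    have : (r - 1) ^ 2 = 0 := by linear_combination hr + (1 - r) * h2
    have := pow_eq_zero_iff (two_ne_zero) |>.mp this
    exact sub_eq_zero.mp this
  have hcenter : Subgroup.center (Matrix.SpecialLinearGroup (Fin 2) (GaloisField 2 n)) = ⊥ := by
    rw [eq_bot_iff]
    intro A hA
    obtain ⟨r, hr, hrA⟩ := Matrix.SpecialLinearGroup.mem_center_iff.mp hA
    rw [Fintype.card_fin] at hr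
    rw [hsq r hr] at hrA
    rw [Subgroup.mem_bot]
    apply Subtype.ext
    rw [← hrA]
    simp
  have hinj : ∀ A B : Matrix.SpecialLinearGroup (Fin 2) (GaloisField 2 n),
      (A : Matrix.ProjectiveSpecialLinearGroup (Fin 2) (GaloisField 2 n)) = B → A = B := by
    intro A B h
    rw [QuotientGroup.eq, hcenter, Subgroup.mem_bot] at h
    exact (inv_mul_eq_one.mp h)
  apply ti_of_ct
  intro a b c hb hab hbc
  obtain ⟨A, rfl⟩ := QuotientGroup.mk_surjective a
  obtain ⟨B, rfl⟩ := QuotientGroup.mk_surjective b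
  obtain ⟨C, rfl⟩ := QuotientGroup.mk_surjective c
  have hab' : A * B = B * A := hinj _ _ hab
  have hbc' : B * C = C * B := hinj _ _ hbc
  have hB1 : B ≠ 1 := by rintro rfl; exact hb rfl
  have hns : (B : Matrix (Fin 2) (Fin 2) (GaloisField 2 n)) 0 1 ≠ 0 ∨
      (B : Matrix (Fin 2) (Fin 2) (GaloisField 2 n)) 1 0 ≠ 0 ∨
      (B : Matrix (Fin 2) (Fin 2) (GaloisField 2 n)) 0 0 ≠
        (B : Matrix (Fin 2) (Fin 2) (GaloisField 2 n)) 1 1 := by
    by_contra hcon
    push Not at hcon
    obtain ⟨h01, h10, h00⟩ := hcon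
    apply hB1
    have hdet := B.2
    rw [Matrix.det_fin_two, h01, h10, ← h00] at hdet
    have hr : (B : Matrix (Fin 2) (Fin 2) (GaloisField 2 n)) 0 0 = 1 := by
      apply hsq; linear_combination hdet
    apply Subtype.ext
    ext i j
    fin_cases i <;> fin_cases j
    · simpa using hr
    · simpa using h01
    · simpa using h10
    · simpa using (h00 ▸ hr)
  have hmat := mat_ct (A : Matrix (Fin 2) (Fin 2) (GaloisField 2 n)) B C hns
    (congrArg Subtype.val hab') (congrArg Subtype.val hbc')
  have : A * C = C * A := Subtype.ext hmat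
  exact congrArg (QuotientGroup.mk) this

end Cfsg.Agent.S4065
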