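import Cfsg.Statements.S4066
import Mathlib

set_option autoImplicit false
open Cfsg

namespace Cfsg.Agent.S4066

theorem ti_subgroup {G : Type*} [Group G]
    (hTI : ∀ x : G, Cfsg.IsTISubset (Subgroup.centralizer ({x} : Set G) : Set G)) (K : Subgroup G) :
    ∀ x : K, Cfsg.IsTISubset (Subgroup.centralizer ({x} : Set K) : Set K) := by
  intro x g hg y hy hgy
  by_contra hy1
  apply hg
  have memc : ∀ w : K, w ∈ Subgroup.centralizer ({x} : Set K) ↔
      (w : G) ∈ Subgroup.centralizer ({(x : G)} : Set G) := by
    intro w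
    rw [Subgroup.mem_centralizer_singleton_iff, Subgroup.mem_centralizer_singleton_iff]
    exact ⟨fun h => congrArg Subtype.val h, fun h => Subtype.ext h⟩
  have hgN : (g : G) ∈ Subgroup.normalizer
      ((Subgroup.centralizer ({(x : G)} : Set G) : Subgroup G) : Set G) := by
    by_contra hc
    apply hy1
    apply Subtype.ext
    exact hTI (x : G) g hc y ((memc y).mp hy) ((memc _).mp hgy)
  rw [Subgroup.mem_normalizer_iff] at hgN ⊢
  intro w
  rw [memc, memc]
  exact hgN w

/-- if every element commutes with all of its conjugates, `p`-elements lie in every Sylow -/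
theorem mem_sylow_of_commute_conj {G : Type*} [Group G] [Finite G] {p : ℕ} [Fact p.Prime]
    (x : G) (hx : ∀ g : G, (g * x * g⁻¹) * x = x * (g * x * g⁻¹)) {k : ℕ} (hk : x ^ p ^ k = 1)
    (Q : Sylow p G) : x ∈ Q := by
  have hcomm : ∀ a ∈ Group.conjugatesOfSet ({x} : Set G), ∀ b ∈ Group.conjugatesOfSet ({x} : Set G),
      a * b = b * a := by
    intro a ha b hb
    obtain ⟨x1, hx1, ha1⟩ := Group.mem_conjugatesOfSet_iff.mp ha
    obtain ⟨x2, hx2, hb1⟩ := Group.mem_conjugatesOfSet_iff.mp hb
    rw [Set.mem_singleton_iff] at hx1 hx2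
    rw [hx1] at ha1
    rw [hx2] at hb1
    obtain ⟨c, rfl⟩ := isConj_iff.mp ha1
    obtain ⟨d, rfl⟩ := isConj_iff.mp hb1
    have h1 := hx (d⁻¹ * c)
    calc c * x * c⁻¹ * (d * x * d⁻¹) = d * ((d⁻¹ * c) * x * (d⁻¹ * c)⁻¹ * x) * d⁻¹ := by group
      _ = d * (x * ((d⁻¹ * c) * x * (d⁻¹ * c)⁻¹)) * d⁻¹ := by rw [h1]
      _ = d * x * d⁻¹ * (c * x * c⁻¹) := by group
  have hc := Subgroup.isMulCommutative_closure hcomm
  have hpg : IsPGroup p (Subgroup.normalClosure ({x} : Set G)) := by
    rintro ⟨w, hw⟩
    refine ⟨k, ?_⟩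
    apply Subtype.ext
    change w ^ p ^ k = 1
    have hw' : w ∈ Subgroup.closure (Group.conjugatesOfSet ({x} : Set G)) := hw
    induction hw' using Subgroup.closure_induction with
    | mem a ha =>
      obtain ⟨x1, hx1, ha1⟩ := Group.mem_conjugatesOfSet_iff.mp ha
      rw [Set.mem_singleton_iff] at hx1
      rw [hx1] at ha1
      obtain ⟨c, rfl⟩ := isConj_iff.mp ha1
      rw [conj_pow, hk]; group
    | one => simp
    | mul a b ha hb iha ihb =>
      have hab : Commute a b := by
        have := mul_comm' (⟨a, ha⟩ : Subgroup.closure (Group.conjugatesOfSet ({x} : Set G))) ⟨b, hb⟩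
        exact congrArg Subtype.val this
      rw [hab.mul_pow, iha ha, ihb hb, one_mul]
    | inv a ha iha => rw [inv_pow, iha ha, inv_one]
  exact hpg.le_sylow_of_normal Q (Subgroup.subset_normalClosure rfl)

theorem main {p : ℕ} [Fact p.Prime] : ∀ (n : ℕ) (G : Type*) [Group G] [Finite G], Nat.card G = n →
    (∀ x : G, Cfsg.IsTISubset (Subgroup.centralizer ({x} : Set G) : Set G)) →
    ∀ (P Q : Sylow p G) (y : G), y ∈ P → y ∈ Q → y ≠ 1 → P = Q := by
  intro n
  induction n using Nat.strong_induction_on with
  | _ n ih =>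
    intro G _ _ hn hTI P Q y hyP hyQ hy1
    have hnt : Nontrivial P := ⟨⟨⟨y, hyP⟩, 1, fun h => hy1 (congrArg Subtype.val h)⟩⟩
    have hcn : Nontrivial (Subgroup.center P) := P.isPGroup'.center_nontrivial
    obtain ⟨z, hz1⟩ := exists_ne (1 : Subgroup.center P)
    set z' : G := ((z : P) : G) with hz'
    have hz'1 : z' ≠ 1 := by
      intro h
      apply hz1
      apply Subtype.ext
      apply Subtype.ext
      exact h
    set C := Subgroup.centralizer ({z'} : Set G) with hC
    have hPC : (P : Subgroup G) ≤ C := by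
      intro a ha
      rw [hC, Subgroup.mem_centralizer_singleton_iff]
      have := Subgroup.mem_center_iff.mp z.2 ⟨a, ha⟩
      exact congrArg Subtype.val this
    obtain ⟨g, hg⟩ := MulAction.exists_smul_eq G P Q
    have hmemQ : ∀ w : G, w ∈ Q ↔ g⁻¹ * w * g ∈ P := by
      intro w
      have h1 : w ∈ Q ↔ w ∈ ((g • P : Sylow p G) : Subgroup G) := by rw [hg]; rfl
      rw [h1, Sylow.coe_subgroup_smul, Subgroup.mem_pointwise_smul_iff_inv_smul_mem]
      simp only [MulAut.smul_def, MulAut.conj_inv_apply]
      exact Iff.rfl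
    have hgN : g⁻¹ ∈ Subgroup.normalizer ((C : Subgroup G) : Set G) := by
      by_contra hc
      apply hy1
      apply hTI z' g⁻¹ hc y (hPC hyP)
      rw [inv_inv]
      exact hPC ((hmemQ y).mp hyQ)
    have hQC : (Q : Subgroup G) ≤ C := by
      intro w hw
      have h1 := hPC ((hmemQ w).mp hw)
      have h2 := (Subgroup.mem_normalizer_iff.mp hgN w).mpr (by rw [inv_inv]; exact h1)
      exact h2
    by_cases hCtop : C = ⊤
    · -- z' is central
      have hzc : ∀ a : G, a * z' = z' * a := by
        intro a
        have : a ∈ C := by rw [hCtop]; trivial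
        exact Subgroup.mem_centralizer_singleton_iff.mp this
      have hconj : ∀ x g : G, (g * x * g⁻¹) * x = x * (g * x * g⁻¹) := by
        intro x g
        have hgx : g ∈ Subgroup.normalizer
            ((Subgroup.centralizer ({x} : Set G) : Subgroup G) : Set G) := by
          by_contra hc
          apply hz'1
          apply hTI x g hc z'
          · rw [SetLike.mem_coe, Subgroup.mem_centralizer_singleton_iff]; exact (hzc x).symm
          · rw [SetLike.mem_coe, Subgroup.mem_centralizer_singleton_iff, hzc g]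
            have : z' * g * g⁻¹ = z' := by group
            rw [this]; exact (hzc x).symm
        have := (Subgroup.mem_normalizer_iff.mp hgx x).mp
          (Subgroup.mem_centralizer_singleton_iff.mpr rfl)
        exact Subgroup.mem_centralizer_singleton_iff.mp this
      have hle : (P : Subgroup G) ≤ Q := by
        intro a ha
        obtain ⟨k, hk⟩ := P.isPGroup' ⟨a, ha⟩
        exact mem_sylow_of_commute_conj a (hconj a) (k := k) (congrArg Subtype.val hk) Q
      exact Sylow.ext (P.is_maximal' Q.isPGroup' hle).symm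
    · have hlt : Nat.card C < n := by
        rw [← hn]
        by_contra hc
        exact hCtop (Subgroup.eq_top_of_le_card C (not_lt.mp hc))
      have := ih _ hlt C rfl (ti_subgroup hTI C) (P.subtype hPC) (Q.subtype hQC) ⟨y, hPC hyP⟩
        (by exact hyP) (by exact hyQ) (fun h => hy1 (congrArg Subtype.val h))
      exact Sylow.subtype_injective this

/-- Let G be a finite group in which the centralizer of every element meets each of its conjugates by elements outside its normalizer trivially. Then any two distinct Sylow p-subgroups of G, for any prime p, intersect trivially. -/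
theorem result {G : Type*} [Group G] [Finite G] (hTI : ∀ x : G, Cfsg.IsTISubset (Subgroup.centralizer ({x} : Set G) : Set G))
    {p : ℕ} [Fact p.Prime] (P Q : Sylow p G) (hPQ : P ≠ Q) : (P : Subgroup G) ⊓ (Q : Subgroup G) = ⊥ := by
  rw [eq_bot_iff]
  intro y hy
  rw [Subgroup.mem_bot]
  by_contra hy1
  exact hPQ (main _ G rfl hTI P Q y hy.1 hy.2 hy1)

end Cfsg.Agent.S4066
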