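import Cfsg.Statements.S4071
import Cfsg.Agent.Lib.Helper71.SelfNorm
import Cfsg.Agent.Lib.Helper71.SolvIndex
import Cfsg.Agent.Lib.Helper71.Basic

set_option autoImplicit false
open Cfsg

namespace Cfsg.Agent.S4071

open Cfsg.Agent.Lib.Helper71

theorem forward {G : Type*} [Group G] [Finite G] [Group.IsSolvable G]
    (hnn : ¬ Group.IsNilpotent G) (h : SN G) :
    ∃ (x : G) (A : Subgroup G) (p : ℕ), p.Prime ∧ A.Normal ∧ IsMulCommutative A ∧
      (∃ k : ℕ, orderOf x = p ^ k) ∧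
      ¬ p ∣ Nat.card A ∧ (Subgroup.zpowers x).IsComplement' A ∧ x ^ p ∈ Subgroup.center G ∧
      ∀ a : G, a ∈ A → a ≠ 1 → x * a * x⁻¹ ≠ a := by
  have hnt : Nontrivial G := by
    by_contra hcon
    have := not_nontrivial_iff_subsingleton.mp hcon
    exact hnn inferInstance
  obtain ⟨M, p, hp, hMn, hMi⟩ := exists_normal_index_prime G
  have : Fact p.Prime := ⟨hp⟩
  have hMtop : M ≠ ⊤ := by
    rintro rfl
    rw [Subgroup.index_top] at hMi
    exact hp.ne_one hMi.symm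
  have hMc := h.comm_of_normal M hMtop
  have hMcomm : ∀ a ∈ M, ∀ b ∈ M, a * b = b * a := fun a ha b hb =>
    congrArg Subtype.val (hMc.is_comm.comm (⟨a, ha⟩ : M) ⟨b, hb⟩)
  obtain ⟨k, n', hn', hcard⟩ :=
    Nat.exists_eq_pow_mul_and_not_dvd (Nat.card_pos (α := M)).ne' p hp.ne_one
  let A : Subgroup G :=
    { carrier := {m | m ∈ M ∧ m ^ n' = 1}
      mul_mem' := by
        rintro a b ⟨ha, ha'⟩ ⟨hb, hb'⟩
        refine ⟨mul_mem ha hb, ?_⟩
        rw [(show Commute a b from hMcomm a ha b hb).mul_pow, ha', hb', one_mul]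
      one_mem' := ⟨one_mem _, one_pow _⟩
      inv_mem' := by
        rintro a ⟨ha, ha'⟩
        exact ⟨inv_mem ha, by rw [inv_pow, ha', inv_one]⟩ }
  have hAM : A ≤ M := fun a ha => ha.1
  have hAn : A.Normal := by
    constructor
    rintro a ⟨ha, ha'⟩ g
    refine ⟨hMn.conj_mem a ha g, ?_⟩
    rw [conj_pow, ha']
    simp
  have hAc : IsMulCommutative A :=
    ⟨⟨fun a b => Subtype.ext (hMcomm a.1 (hAM a.2) b.1 (hAM b.2))⟩⟩
  have hpA : ¬ p ∣ Nat.card A := by
    intro hd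
    obtain ⟨a, ha⟩ := exists_prime_orderOf_dvd_card' p hd
    have h1 : (a : G) ^ n' = 1 := a.2.2
    have h2 : orderOf (a : G) ∣ n' := orderOf_dvd_of_pow_eq_one h1
    rw [Subgroup.orderOf_coe, ha] at h2
    exact hn' h2
  have hpowM : ∀ g : G, g ^ p ∈ M := by
    intro g
    rw [← hMi]
    exact Subgroup.pow_index_mem M g
  have hpowA : ∀ g : G, g ^ (p ^ (k + 1)) ∈ A := by
    intro g
    have h1 : g ^ (p ^ (k + 1)) = (g ^ p) ^ (p ^ k) := by rw [← pow_mul, pow_succ']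
    refine ⟨by rw [h1]; exact pow_mem (hpowM g) _, ?_⟩
    rw [h1, ← pow_mul, ← hcard]
    exact congrArg Subtype.val (pow_card_eq_one' (G := M) (x := ⟨_, hpowM g⟩))
  have hQp : IsPGroup p (G ⧸ A) := by
    intro d
    obtain ⟨g, rfl⟩ := QuotientGroup.mk'_surjective A d
    refine ⟨k + 1, ?_⟩
    rw [← map_pow]
    exact (QuotientGroup.eq_one_iff _).mpr (hpowA g)
  -- a `p`-element outside `M`
  obtain ⟨g, hgM⟩ : ∃ g : G, g ∉ M := by
    by_contra hcon
    push Not at hcon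
    exact hMtop (eq_top_iff.mpr fun g _ => hcon g)
  obtain ⟨j, m', hm', hm⟩ := Nat.exists_eq_pow_mul_and_not_dvd (orderOf_pos g).ne' p hp.ne_one
  set x := g ^ m' with hx
  have hxM : x ∉ M := by
    intro hxM
    apply hgM
    exact mem_of_pow_mem_of_coprime M g ((Nat.Prime.coprime_iff_not_dvd hp).mpr hm').symm hxM
      (hpowM g)
  obtain ⟨i, hi⟩ : ∃ i : ℕ, orderOf x = p ^ i := by
    have h1 : orderOf x ∣ p ^ j := by
      apply orderOf_dvd_of_pow_eq_one
      rw [hx, ← pow_mul, mul_comm, ← hm, pow_orderOf_eq_one]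
    obtain ⟨i, -, hi⟩ := (Nat.dvd_prime_pow hp).mp h1
    exact ⟨i, hi⟩
  have hcop : Nat.Coprime (orderOf x) (Nat.card A) := by
    rw [hi]
    exact Nat.Coprime.pow_left i ((Nat.Prime.coprime_iff_not_dvd hp).mpr hpA)
  have hsupM : ∀ C : Subgroup G, M ≤ C → x ∈ C → C = ⊤ := by
    intro C hMC hxC
    have h1 : C.index ∣ p := by
      rw [← hMi]; exact Subgroup.index_dvd_of_le hMC
    rcases (Nat.dvd_prime hp).mp h1 with h2 | h2
    · exact Subgroup.index_eq_one.mp h2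
    · exfalso
      apply hxM
      have h3 := Subgroup.relIndex_mul_index hMC
      rw [hMi, h2] at h3
      have h4 : M.relIndex C = 1 := by
        have hpos : 0 < p := hp.pos
        nlinarith [h3]
      exact Subgroup.relIndex_eq_one.mp h4 hxC
  have hxA : x ∉ Subgroup.centralizer (A : Set G) := by
    intro hxC
    apply hnn
    have h1 : Subgroup.centralizer (A : Set G) = ⊤ := by
      apply hsupM _ _ hxC
      intro m hm
      rw [Subgroup.mem_centralizer_iff]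
      intro a ha
      exact hMcomm a (hAM ha) m hm
    have h2 : A ≤ Subgroup.center G := Subgroup.centralizer_eq_top_iff_subset.mp h1
    have := hQp.isNilpotent
    exact Subgroup.isNilpotent_of_ker_le_center (QuotientGroup.mk' A)
      (by rw [QuotientGroup.ker_mk']; exact h2)
  have hxN : x ∈ Subgroup.normalizer (A : Set G) := by
    rw [Subgroup.normalizer_eq_top]; trivial
  have hfpf : ∀ a : G, a ∈ A → a ≠ 1 → x * a * x⁻¹ ≠ a := by
    intro a ha ha1 hxa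
    apply ha1
    apply h.key A x hxN hcop hxA a
    · calc a * x = (x * a * x⁻¹) * x := by rw [hxa]
        _ = x * a := by group
    · rw [Subgroup.mem_centralizer_iff]
      intro b hb
      exact hMcomm b (hAM hb) a (hAM ha)
    · exact congrArg Subtype.val (pow_card_eq_one' (G := A) (x := ⟨a, ha⟩))
  set T := Subgroup.zpowers x ⊔ A with hT
  have hTnc : ¬ IsMulCommutative T := by
    intro hc
    apply hxA
    rw [Subgroup.mem_centralizer_iff]
    intro a ha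
    exact congrArg Subtype.val (hc.is_comm.comm (⟨a, Subgroup.mem_sup_right ha⟩ : T)
      ⟨x, Subgroup.mem_sup_left (Subgroup.mem_zpowers x)⟩)
  have hTN := h T hTnc
  have hTtop : T = ⊤ := by
    by_contra hne
    have hnil := hQp.isNilpotent
    have hnc := Group.normalizerCondition_of_isNilpotent (G := G ⧸ A)
    set Tb := T.map (QuotientGroup.mk' A) with hTb
    have hcomap : Tb.comap (QuotientGroup.mk' A) = T := by
      rw [hTb, Subgroup.comap_map_eq, QuotientGroup.ker_mk', sup_eq_left]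
      exact le_sup_right
    have hTblt : Tb < ⊤ :=
      lt_top_iff_ne_top.mpr (fun h => hne (by rw [← hcomap, h, Subgroup.comap_top]))
    obtain ⟨yb, hyN, hyT⟩ := SetLike.exists_of_lt (hnc Tb hTblt)
    obtain ⟨y, rfl⟩ := QuotientGroup.mk'_surjective A yb
    have hy : y ∈ Subgroup.normalizer (T : Set G) := by
      rw [← hcomap, Subgroup.mem_normalizer_iff]
      intro z
      simp only [Subgroup.mem_comap, map_mul, map_inv]
      exact Subgroup.mem_normalizer_iff.mp hyN _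
    rw [hTN] at hy
    exact hyT (Subgroup.mem_map_of_mem _ hy)
  have hcompl : (Subgroup.zpowers x).IsComplement' A := by
    apply Subgroup.isComplement'_of_disjoint_and_mul_eq_univ
    · exact Subgroup.disjoint_of_coprime_natCard (by rw [Nat.card_zpowers]; exact hcop)
    · rw [← Subgroup.mul_normal, ← hT, hTtop]
      rfl
  have hxp : x ^ p ∈ Subgroup.center G := by
    have h1 : Subgroup.centralizer ({x ^ p} : Set G) = ⊤ := by
      apply hsupM
      · intro m hm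
        rw [Subgroup.mem_centralizer_singleton_iff]
        exact hMcomm m hm _ (hpowM x)
      · rw [Subgroup.mem_centralizer_singleton_iff, ← pow_succ, ← pow_succ']
    rw [Subgroup.mem_center_iff]
    intro g
    have h2 : g ∈ Subgroup.centralizer ({x ^ p} : Set G) := by rw [h1]; trivial
    exact Subgroup.mem_centralizer_singleton_iff.mp h2
  exact ⟨x, A, p, hp, hAn, hAc, ⟨i, hi⟩, hpA, hcompl, hxp, hfpf⟩

theorem fpf_inj {G : Type*} [Group G] (A : Subgroup G) (y : G)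
    (hfpf : ∀ a ∈ A, y * a * y⁻¹ = a → a = 1) (a b : G) (ha : a ∈ A) (hb : b ∈ A)
    (h : a * (y * a⁻¹ * y⁻¹) = b * (y * b⁻¹ * y⁻¹)) : a = b := by
  have h1 : y * (b⁻¹ * a) * y⁻¹ = b⁻¹ * a := by
    calc y * (b⁻¹ * a) * y⁻¹ = b⁻¹ * (b * (y * b⁻¹ * y⁻¹)) * (y * a * y⁻¹) := by group
      _ = b⁻¹ * (a * (y * a⁻¹ * y⁻¹)) * (y * a * y⁻¹) := by rw [h]
      _ = b⁻¹ * a := by group
  have h2 := hfpf _ (mul_mem (inv_mem hb) ha) h1
  exact (inv_mul_eq_one.mp h2).symm

theorem fpf_surj {G : Type*} [Group G] [Finite G] (A : Subgroup G) (y : G)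
    (hfpf : ∀ a ∈ A, y * a * y⁻¹ = a → a = 1)
    (B : Subgroup G) (hBA : B ≤ A) (hyB : ∀ b ∈ B, y * b * y⁻¹ ∈ B) (c : G) (hc : c ∈ B) :
    ∃ b ∈ B, b * (y * b⁻¹ * y⁻¹) = c := by
  let ψ : B → B := fun b => ⟨b.1 * (y * b.1⁻¹ * y⁻¹), mul_mem b.2 (hyB _ (inv_mem b.2))⟩
  have hinj : Function.Injective ψ := fun a b hab =>
    Subtype.ext (fpf_inj A y hfpf a.1 b.1 (hBA a.2) (hBA b.2) (congrArg Subtype.val hab))
  obtain ⟨b, hb⟩ := Finite.injective_iff_surjective.mp hinj ⟨c, hc⟩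
  exact ⟨b.1, b.2, congrArg Subtype.val hb⟩

theorem backward {G : Type*} [Group G] [Finite G] (x : G) (A : Subgroup G) (p : ℕ) (hp : p.Prime)
    (hAn : A.Normal) (hAc : IsMulCommutative A) (hx : ∃ k : ℕ, orderOf x = p ^ k)
    (hc : (Subgroup.zpowers x).IsComplement' A) (hxp : x ^ p ∈ Subgroup.center G)
    (hfpf : ∀ a : G, a ∈ A → a ≠ 1 → x * a * x⁻¹ ≠ a) : SN G := by
  intro H hH
  apply le_antisymm _ Subgroup.le_normalizer
  have hAcomm : ∀ a ∈ A, ∀ b ∈ A, a * b = b * a := fun a ha b hb =>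
    congrArg Subtype.val (hAc.is_comm.comm (⟨a, ha⟩ : A) ⟨b, hb⟩)
  have hdec : ∀ g : G, ∃ a ∈ A, ∃ i : ℕ, g = a * x ^ i := by
    intro g
    obtain ⟨⟨⟨a, ha⟩, ⟨y, hy⟩⟩, hg⟩ := hc.symm.2 g
    obtain ⟨i, hi⟩ := (mem_powers_iff_mem_zpowers.mpr hy)
    refine ⟨a, ha, i, ?_⟩
    rw [← hg]
    change a * y = a * x ^ i
    rw [← hi]
  have hf : ∀ a ∈ A, x * a * x⁻¹ = a → a = 1 := by
    intro a ha h1
    by_contra h2
    exact hfpf a ha h2 h1
  have hex : ∃ a ∈ A, ∃ i : ℕ, ¬ p ∣ i ∧ a * x ^ i ∈ H := by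
    by_contra hcon
    push Not at hcon
    apply hH
    have hform : ∀ h ∈ H, ∃ a ∈ A, ∃ z ∈ Subgroup.center G, h = a * z := by
      intro h hh
      obtain ⟨a, ha, i, rfl⟩ := hdec h
      obtain ⟨j, rfl⟩ : p ∣ i := by
        by_contra hpi
        exact hcon a ha i hpi hh
      exact ⟨a, ha, (x ^ p) ^ j, pow_mem hxp j, by rw [pow_mul]⟩
    refine ⟨⟨fun h₁ h₂ => Subtype.ext ?_⟩⟩
    obtain ⟨a₁, ha₁, z₁, hz₁, e₁⟩ := hform h₁.1 h₁.2
    obtain ⟨a₂, ha₂, z₂, hz₂, e₂⟩ := hform h₂.1 h₂.2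
    change h₁.1 * h₂.1 = h₂.1 * h₁.1
    rw [e₁, e₂]
    have c1 := Subgroup.mem_center_iff.mp hz₁
    have c2 := Subgroup.mem_center_iff.mp hz₂
    calc a₁ * z₁ * (a₂ * z₂) = a₁ * (z₁ * a₂) * z₂ := by group
      _ = a₁ * (a₂ * z₁) * z₂ := by rw [c1 a₂]
      _ = (a₁ * a₂) * (z₁ * z₂) := by group
      _ = (a₂ * a₁) * (z₂ * z₁) := by rw [hAcomm a₁ ha₁ a₂ ha₂, c2 z₁]
      _ = a₂ * (a₁ * z₂) * z₁ := by group
      _ = a₂ * (z₂ * a₁) * z₁ := by rw [c2 a₁]
      _ = a₂ * z₂ * (a₁ * z₁) := by group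
  obtain ⟨a, ha, i, hpi, haH⟩ := hex
  set y := x ^ i with hy
  obtain ⟨k, hk⟩ := hx
  obtain ⟨u, hu⟩ : ∃ u : ℕ, y ^ u = x := by
    apply exists_pow_eq_self_of_coprime
    rw [hk]
    exact Nat.Coprime.pow_right k ((Nat.Prime.coprime_iff_not_dvd hp).mpr hpi).symm
  have hfy : ∀ c ∈ A, y * c * y⁻¹ = c → c = 1 := by
    intro c hcA h1
    apply hf c hcA
    have h2 : Commute y c := by
      calc y * c = (y * c * y⁻¹) * y := by group
        _ = c * y := by rw [h1]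
    have h3 : Commute x c := by
      rw [← hu]; exact h2.pow_left u
    calc x * c * x⁻¹ = c * x * x⁻¹ := by rw [h3.eq]
      _ = c := by group
  obtain ⟨b, hb, hba⟩ := fpf_surj A y hfy A le_rfl (fun c hcA => hAn.conj_mem c hcA y) a ha
  have hbyH : b * y * b⁻¹ ∈ H := by
    have : b * y * b⁻¹ = a * y := by
      rw [← hba]; group
    rw [this]; exact haH
  set x' := b * x * b⁻¹ with hx'
  have hx'H : x' ∈ H := by
    have : x' = (b * y * b⁻¹) ^ u := by rw [conj_pow, hu]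
    rw [this]; exact pow_mem hbyH u
  have hfx' : ∀ c ∈ A, x' * c * x'⁻¹ = c → c = 1 := by
    intro c hcA h1
    have h2 : b⁻¹ * c * b = 1 := by
      apply hf
      · have := hAn.conj_mem c hcA b⁻¹
        rwa [inv_inv] at this
      · calc x * (b⁻¹ * c * b) * x⁻¹ = b⁻¹ * (x' * c * x'⁻¹) * b := by rw [hx']; group
          _ = b⁻¹ * c * b := by rw [h1]
    calc c = b * (b⁻¹ * c * b) * b⁻¹ := by group
      _ = 1 := by rw [h2]; group
  intro g hg
  obtain ⟨a₀, ha₀, i₀, rfl⟩ := hdec g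
  set a₁ := a₀ * x ^ i₀ * (x' ^ i₀)⁻¹ with ha₁
  have ha₁A : a₁ ∈ A := by
    have : a₁ = a₀ * (x ^ i₀ * b * (x ^ i₀)⁻¹) * b⁻¹ := by
      rw [ha₁, hx', conj_pow]; group
    rw [this]
    exact mul_mem (mul_mem ha₀ (hAn.conj_mem b hb _)) (inv_mem hb)
  have ha₁N : a₁ ∈ Subgroup.normalizer (H : Set G) :=
    mul_mem hg (inv_mem (Subgroup.le_normalizer (pow_mem hx'H i₀)))
  have hcB : a₁ * (x' * a₁⁻¹ * x'⁻¹) ∈ H ⊓ A := by
    refine Subgroup.mem_inf.mpr ⟨?_, mul_mem ha₁A (hAn.conj_mem _ (inv_mem ha₁A) x')⟩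
    have h1 : a₁ * x' * a₁⁻¹ ∈ H := (Subgroup.mem_normalizer_iff.mp ha₁N x').mp hx'H
    have h2 : a₁ * (x' * a₁⁻¹ * x'⁻¹) = (a₁ * x' * a₁⁻¹) * x'⁻¹ := by group
    rw [h2]
    exact mul_mem h1 (inv_mem hx'H)
  obtain ⟨b', hb', hb'e⟩ := fpf_surj A x' hfx' (H ⊓ A) inf_le_right (by
    intro c hcB
    obtain ⟨h1, h2⟩ := Subgroup.mem_inf.mp hcB
    exact Subgroup.mem_inf.mpr ⟨mul_mem (mul_mem hx'H h1) (inv_mem hx'H), hAn.conj_mem c h2 x'⟩) _ hcB
  have heq : b' = a₁ := fpf_inj A x' hfx' b' a₁ (Subgroup.mem_inf.mp hb').2 ha₁A hb'e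
  have ha₁H : a₁ ∈ H := by
    rw [← heq]; exact (Subgroup.mem_inf.mp hb').1
  have : a₀ * x ^ i₀ = a₁ * x' ^ i₀ := by rw [ha₁]; group
  rw [this]
  exact mul_mem ha₁H (pow_mem hx'H i₀)

/-- Let G be a finite solvable non-nilpotent group. Every non-abelian subgroup of G is self-normalizing if and only if G is a semidirect product ⟨x⟩ ⋉ A in which ⟨x⟩ is a p-group for some prime p, A is a normal abelian subgroup of order prime to p, x^p is central in G, and x acts fixed-point-freely on A (no non-identity element of A commutes with x). -/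
theorem result {G : Type*} [Group G] [Finite G]
    [Group.IsSolvable G] (hnn : ¬ Group.IsNilpotent G) :
    (∀ H : Subgroup G, ¬ IsMulCommutative H → Subgroup.normalizer (H : Set G) = H) ↔
    ∃ (x : G) (A : Subgroup G) (p : ℕ), p.Prime ∧ A.Normal ∧ IsMulCommutative A ∧ (∃ k : ℕ, orderOf x = p ^ k) ∧
      ¬ p ∣ Nat.card A ∧ (Subgroup.zpowers x).IsComplement' A ∧ x ^ p ∈ Subgroup.center G ∧
      ∀ a : G, a ∈ A → a ≠ 1 → x * a * x⁻¹ ≠ a := by
  constructor
  · intro h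
    exact forward hnn h
  · rintro ⟨x, A, p, hp, hAn, hAc, hx, -, hc, hxp, hfpf⟩
    exact backward x A p hp hAn hAc hx hc hxp hfpf

end Cfsg.Agent.S4071
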