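import Cfsg.Statements.S4074
import Mathlib

set_option autoImplicit false
open Cfsg

namespace Cfsg.Agent.S4074

open DihedralGroup in
/-- parity homomorphism for even `n` -/
noncomputable def par (n : ℕ) (h : 2 ∣ n) : DihedralGroup n →* Multiplicative (ZMod 2) :=
  MonoidHom.mk' (fun g => match g with
    | r i => Multiplicative.ofAdd (ZMod.castHom h (ZMod 2) i)
    | sr i => Multiplicative.ofAdd (ZMod.castHom h (ZMod 2) i)) (by
    have key : ∀ a b : ZMod 2, a - b = b + a := by decide
    rintro (i | i) (j | j)
    · simp only [r_mul_r, map_add, ofAdd_add]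
    · simp only [r_mul_sr, map_sub, key, ofAdd_add]
    · simp only [sr_mul_r, map_add, ofAdd_add]
    · simp only [sr_mul_sr, map_sub, key, ofAdd_add])

open DihedralGroup in
theorem odd_case (n : ℕ) (hodd : Odd n) (H : Subgroup (DihedralGroup n)) (hH : ¬ IsMulCommutative H) :
    Subgroup.normalizer (H : Set (DihedralGroup n)) = H := by
  apply le_antisymm _ Subgroup.le_normalizer
  have hsr : ∃ i, sr i ∈ H := by
    by_contra hc
    push Not at hc
    apply hH
    rw [isMulCommutative_iff]
    rintro ⟨a, ha⟩ ⟨b, hb⟩
    ext
    simp only [Subgroup.coe_mul]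
    rcases a with a | a
    · rcases b with b | b
      · simp only [r_mul_r, add_comm]
      · exact absurd hb (hc b)
    · exact absurd ha (hc a)
  obtain ⟨i, hi⟩ := hsr
  obtain ⟨m, hm⟩ := hodd
  have hr : ∀ j, r j ∈ Subgroup.normalizer (H : Set (DihedralGroup n)) → r j ∈ H := by
    intro j hj
    have h1 := (Subgroup.mem_normalizer_iff.mp hj (sr i)).mp hi
    have h2 : sr i * (r j * sr i * (r j)⁻¹) ∈ H := H.mul_mem hi h1
    have h3 : sr i * (r j * sr i * (r j)⁻¹) = r (-(2 * j)) := by
      simp only [inv_r, r_mul_sr, sr_mul_r, sr_mul_sr]
      congr 1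
      ring
    rw [h3] at h2
    have h4 := H.pow_mem h2 m
    rw [r_pow] at h4
    have h5 : -(2 * j) * (m : ZMod n) = j := by
      have : ((2 * m + 1 : ℕ) : ZMod n) = 0 := by rw [← hm]; simp
      push_cast at this
      linear_combination (-j) * this
    rwa [h5] at h4
  rintro (j | j) hj
  · exact hr j hj
  · have h1 : r (j - i) ∈ Subgroup.normalizer (H : Set (DihedralGroup n)) := by
      have : r (j - i) = sr i * sr j := by simp
      rw [this]
      exact Subgroup.mul_mem _ (Subgroup.le_normalizer hi) hj
    have h2 := H.mul_mem hi (hr _ h1)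
    simpa using h2

/-- For n > 2, every non-abelian subgroup of the dihedral group of order 2n is self-normalizing if and only if n = 4 or n is odd. -/
theorem result (n : ℕ) (hn : 2 < n) :
    (∀ H : Subgroup (DihedralGroup n), ¬ IsMulCommutative H → Subgroup.normalizer (H : Set (DihedralGroup n)) = H) ↔
    (n = 4 ∨ Odd n) := by
  constructor
  · intro hS
    by_contra hc
    push Not at hc
    obtain ⟨h4, hev⟩ := hc
    have h2 : 2 ∣ n := by
      rcases Nat.even_or_odd n with h | h
      · exact h.two_dvd
      · exact absurd h hev
    have hker := hS (par n h2).ker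
    have hnc : ¬ IsMulCommutative (par n h2).ker := by
      intro hcom
      have ha : DihedralGroup.r (2 : ZMod n) ∈ (par n h2).ker := by
        rw [MonoidHom.mem_ker]
        simp only [par, MonoidHom.mk'_apply, map_ofNat]
        rfl
      have hb : DihedralGroup.sr (0 : ZMod n) ∈ (par n h2).ker := by
        rw [MonoidHom.mem_ker]
        simp only [par, MonoidHom.mk'_apply, map_zero]
        rfl
      have h := mul_comm' (⟨_, ha⟩ : (par n h2).ker) ⟨_, hb⟩
      have h' := congrArg Subtype.val h
      simp only [Subgroup.coe_mul, DihedralGroup.r_mul_sr, DihedralGroup.sr_mul_r,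
        DihedralGroup.sr.injEq] at h'
      have h5 : ((4 : ℕ) : ZMod n) = 0 := by
        push_cast
        linear_combination -h'
      rw [ZMod.natCast_eq_zero_iff] at h5
      have := Nat.le_of_dvd (by norm_num) h5
      interval_cases n
      · omega
      · omega
    have h3 := hker hnc
    rw [Subgroup.normalizer_eq_top] at h3
    have h6 : DihedralGroup.r (1 : ZMod n) ∈ (par n h2).ker := by rw [← h3]; trivial
    rw [MonoidHom.mem_ker] at h6
    simp only [par, MonoidHom.mk'_apply, map_one] at h6
    exact absurd h6 (by decide)
  · rintro (rfl | hodd) H hH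
    · have hcard : Nat.card H ∣ 8 := by
        have := Subgroup.card_subgroup_dvd_card H
        rwa [DihedralGroup.nat_card] at this
      have hmem : Nat.card H ∈ Nat.divisors 8 := by simp [hcard]
      have hdiv : Nat.divisors 8 = {1, 2, 4, 8} := by decide
      rw [hdiv] at hmem
      simp only [Finset.mem_insert, Finset.mem_singleton] at hmem
      have : Fact (Nat.Prime 2) := ⟨Nat.prime_two⟩
      rcases hmem with h | h | h | h
      · exfalso
        apply hH
        have := (Nat.card_eq_one_iff_unique.mp h).1
        rw [isMulCommutative_iff]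
        intro a b
        exact Subsingleton.elim _ _
      · exfalso
        apply hH
        have := isCyclic_of_prime_card h
        rw [isMulCommutative_iff]
        intro a b
        exact IsCyclic.commGroup.mul_comm a b
      · exfalso
        apply hH
        exact IsPGroup.isMulCommutative_of_card_eq_prime_sq (p := 2) h
      · have : H = ⊤ := by
          apply Subgroup.eq_top_of_card_eq
          rw [h, DihedralGroup.nat_card]
        subst this
        exact top_le_iff.mp Subgroup.le_normalizer
    · exact odd_case n hodd H hH

end Cfsg.Agent.S4074
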