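import Cfsg.Statements.S4075
import Mathlib

set_option autoImplicit false
open Cfsg

namespace Cfsg.Agent.S4075

/-- Let G be a finite nilpotent group. Every non-abelian subgroup of G is self-normalizing if and only if G is abelian or G is a minimal non-abelian p-group for some prime p (non-abelian of prime-power order with every proper subgroup abelian). -/
theorem result {G : Type*} [Group G] [Finite G]
    [Group.IsNilpotent G] :
    (∀ H : Subgroup G, ¬ IsMulCommutative H → Subgroup.normalizer (H : Set G) = H) ↔
    (IsMulCommutative G ∨ (IsPrimePow (Nat.card G) ∧ ¬ IsMulCommutative G ∧ ∀ H : Subgroup G, H ≠ ⊤ → IsMulCommutative H)) := by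
  constructor
  · intro hS
    have hprop : ∀ H : Subgroup G, H ≠ ⊤ → IsMulCommutative H := by
      intro H hH
      by_contra hc
      exact hH ((normalizerCondition_iff_only_full_group_self_normalizing.mp
        Group.normalizerCondition_of_isNilpotent) H (hS H hc))
    by_cases hG : IsMulCommutative G
    · exact Or.inl hG
    · refine Or.inr ⟨?_, hG, hprop⟩
      obtain ⟨e⟩ := (Group.isNilpotent_of_finite_tfae (G := G)).out 0 4 rfl rfl |>.mp inferInstance
      by_cases hall : ∀ p : (Nat.card G).primeFactors, ∀ P : Sylow p G, (P : Subgroup G) ≠ ⊤
      · exfalso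
        apply hG
        rw [isMulCommutative_iff]
        intro a b
        apply e.symm.injective
        rw [map_mul, map_mul]
        funext p P
        have := hprop _ (hall p P)
        simp only [Pi.mul_apply]
        exact mul_comm' _ _
      · push Not at hall
        obtain ⟨p, P, hP⟩ := hall
        have hp : Nat.Prime (p : ℕ) := Nat.prime_of_mem_primeFactors p.2
        have : Fact (Nat.Prime (p : ℕ)) := ⟨hp⟩
        have hpg : IsPGroup (p : ℕ) G := by
          have h1 := P.isPGroup'
          rw [hP] at h1
          exact h1.of_equiv Subgroup.topEquiv
        obtain ⟨n, hn⟩ := IsPGroup.iff_card.mp hpg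
        rw [hn]
        have hn0 : n ≠ 0 := by
          rintro rfl
          have h2 : (p : ℕ) ∣ Nat.card G := Nat.dvd_of_mem_primeFactors p.2
          have h3 : Nat.card G = 1 := by simpa using hn
          generalize (p : ℕ) = q at *
          rw [h3] at h2
          exact hp.one_lt.ne' (Nat.dvd_one.mp h2)
        exact hp.isPrimePow.pow hn0
  · rintro (hG | ⟨-, -, hprop⟩) H hH
    · exfalso
      apply hH
      rw [isMulCommutative_iff]
      intro a b
      ext
      simp only [Subgroup.coe_mul]
      exact mul_comm' _ _
    · have : H = ⊤ := by
        by_contra hc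
        exact hH (hprop H hc)
      subst this
      exact top_le_iff.mp Subgroup.le_normalizer

end Cfsg.Agent.S4075
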