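import Cfsg.Statements.S4080

set_option autoImplicit false
open Cfsg

namespace Cfsg.Agent.S4080

open Matrix

theorem exists_mul_of_castHom_eq_zero {p : ℕ} [Fact p.Prime] (u : ZMod (p ^ 2))
    (h : ZMod.castHom (dvd_pow_self p two_ne_zero) (ZMod p) u = 0) :
    ∃ u' : ZMod (p ^ 2), u = (p : ZMod (p ^ 2)) * u' := by
  have hp : p.Prime := Fact.out
  have : NeZero (p ^ 2) := ⟨pow_ne_zero 2 hp.ne_zero⟩
  have h1 : u = ((u.val : ℕ) : ZMod (p ^ 2)) := (ZMod.natCast_zmod_val u).symm
  rw [h1, map_natCast, ZMod.natCast_eq_zero_iff] at h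
  obtain ⟨k, hk⟩ := h
  refine ⟨(k : ZMod (p ^ 2)), ?_⟩
  rw [h1, hk]
  push_cast
  rfl

theorem exists_mul_of_mul_eq_zero {p : ℕ} [Fact p.Prime] (u : ZMod (p ^ 2))
    (h : (p : ZMod (p ^ 2)) * u = 0) :
    ∃ u' : ZMod (p ^ 2), u = (p : ZMod (p ^ 2)) * u' := by
  have hp : p.Prime := Fact.out
  have : NeZero (p ^ 2) := ⟨pow_ne_zero 2 hp.ne_zero⟩
  have h1 : u = ((u.val : ℕ) : ZMod (p ^ 2)) := (ZMod.natCast_zmod_val u).symm
  rw [h1, ← Nat.cast_mul, ZMod.natCast_eq_zero_iff] at h
  have h' : p * p ∣ p * u.val := by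
    have e : p * p = p ^ 2 := (pow_two p).symm
    rw [e]; exact h
  obtain ⟨k, hk⟩ := Nat.dvd_of_mul_dvd_mul_left hp.pos h'
  refine ⟨(k : ZMod (p ^ 2)), ?_⟩
  rw [h1, hk]
  push_cast
  rfl

theorem key {p : ℕ} [Fact p.Prime] (hp : 3 < p) (A : Matrix (Fin 2) (Fin 2) (ZMod (p ^ 2)))
    (h : (A + 1) ^ p = 1) : (p : ZMod (p ^ 2)) • A = 0 := by
  have hpp : p.Prime := Fact.out
  have hpp0 : (p : ZMod (p ^ 2)) * (p : ZMod (p ^ 2)) = 0 := by
    rw [← Nat.cast_mul, ← pow_two]
    exact ZMod.natCast_self _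
  set φ : ZMod (p ^ 2) →+* ZMod p := ZMod.castHom (dvd_pow_self p two_ne_zero) (ZMod p) with hφ
  have hbar : (φ.mapMatrix A + 1) ^ p = 1 := by
    have := congrArg φ.mapMatrix h
    rwa [map_pow, map_add, map_one] at this
  have hnil : (φ.mapMatrix A) ^ p = 0 := by
    rw [add_pow_char_of_commute _ (Commute.one_right _), one_pow] at hbar
    exact add_eq_right.1 hbar
  have hsq : (φ.mapMatrix A) ^ 2 = 0 := by
    have h1 := Matrix.isNilpotent_charpoly_sub_pow_of_isNilpotent (M := φ.mapMatrix A) ⟨p, hnil⟩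
    have h2 : (φ.mapMatrix A).charpoly = Polynomial.X ^ 2 := by
      have := h1.eq_zero
      rw [Fintype.card_fin] at this
      exact sub_eq_zero.1 this
    have h3 := Matrix.aeval_self_charpoly (φ.mapMatrix A)
    rw [h2] at h3
    simpa using h3
  have hent : ∀ i j, ∃ b : ZMod (p ^ 2), (A ^ 2) i j = (p : ZMod (p ^ 2)) * b := by
    intro i j
    apply exists_mul_of_castHom_eq_zero
    have h1 : φ.mapMatrix (A ^ 2) = 0 := by rw [map_pow]; exact hsq
    exact congrFun (congrFun h1 i) j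
  choose B hB using hent
  have hA2 : A ^ 2 = (p : ZMod (p ^ 2)) • (Matrix.of B) := by
    ext i j
    rw [hB i j]
    simp
  have hpA2 : (p : ZMod (p ^ 2)) • A ^ 2 = 0 := by
    rw [hA2, smul_smul, hpp0, zero_smul]
  have hA4 : A ^ 4 = 0 := by
    have : A ^ 4 = A ^ 2 * A ^ 2 := by rw [← pow_add]
    rw [this, hA2, smul_mul_smul_comm, hpp0, zero_smul]
  rw [(Commute.one_right A).add_pow] at h
  rw [Finset.sum_eq_add 0 1 (by norm_num)] at h
  · simp only [pow_zero, one_pow, mul_one, Nat.choose_zero_right, Nat.cast_one, pow_one,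
      Nat.choose_one_right] at h
    have h5 : A * (p : Matrix (Fin 2) (Fin 2) (ZMod (p ^ 2))) = 0 := by
      have := add_eq_left.1 h
      exact this
    rw [← nsmul_eq_mul', ← Nat.cast_smul_eq_nsmul (ZMod (p ^ 2))] at h5
    exact h5
  · intro m hm hne
    rw [Finset.mem_range] at hm
    have hm2 : 2 ≤ m := by omega
    rw [one_pow, mul_one]
    by_cases hmp : m = p
    · have : A ^ m = A ^ 4 * A ^ (m - 4) := by
        rw [← pow_add]; congr 1; omega
      rw [this, hA4, zero_mul, zero_mul]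
    · have hdvd : p ∣ p.choose m := hpp.dvd_choose_self (by omega) (by omega)
      obtain ⟨c, hc⟩ := hdvd
      have h6 : A ^ m = A ^ 2 * A ^ (m - 2) := by
        rw [← pow_add]; congr 1; omega
      rw [hc, ← nsmul_eq_mul', mul_comm p c, mul_nsmul', ← Nat.cast_smul_eq_nsmul (ZMod (p ^ 2)) p,
        h6, ← smul_mul_assoc, hpA2, zero_mul, smul_zero]
  · intro h0
    exact absurd (Finset.mem_range.2 (by omega)) h0
  · intro h0
    exact absurd (Finset.mem_range.2 (by omega)) h0

/-- Let p > 3 be a prime and L the direct product of two cyclic groups of order p². Every automorphism of L of order p fixes every element of order p of L. -/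
theorem result {p : ℕ} [Fact p.Prime] (hp : 3 < p)
    (a : MulAut (Multiplicative (ZMod (p ^ 2) × ZMod (p ^ 2)))) (ha : orderOf a = p)
    (x : Multiplicative (ZMod (p ^ 2) × ZMod (p ^ 2))) (hx : orderOf x = p) : a x = x := by
  let f : (ZMod (p ^ 2) × ZMod (p ^ 2)) →+ (ZMod (p ^ 2) × ZMod (p ^ 2)) :=
    AddMonoidHom.mk' (fun v => Multiplicative.toAdd (a (Multiplicative.ofAdd v)))
      (by intro u v; rw [ofAdd_add, map_mul, toAdd_mul])
  let L : Module.End (ZMod (p ^ 2)) (ZMod (p ^ 2) × ZMod (p ^ 2)) := f.toZModLinearMap (p ^ 2)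
  have hL : ∀ v, L v = Multiplicative.toAdd (a (Multiplicative.ofAdd v)) := fun v => rfl
  have hLk : ∀ (k : ℕ) v, (L ^ k) v = Multiplicative.toAdd ((a ^ k) (Multiplicative.ofAdd v)) := by
    intro k
    induction k with
    | zero => intro v; simp
    | succ k ih =>
      intro v
      rw [pow_succ' L k, pow_succ' a k, Module.End.mul_apply, hL, ih]
      rfl
  have hap : a ^ p = 1 := by
    have := pow_orderOf_eq_one a
    rwa [ha] at this
  have hLp : L ^ p = 1 := by
    apply LinearMap.ext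
    intro v
    rw [hLk, hap]
    rfl
  let Φ := LinearMap.toMatrixAlgEquiv (Module.Basis.finTwoProd (ZMod (p ^ 2)))
  have h1 : (Φ (L - 1) + 1) ^ p = 1 := by
    rw [← map_one Φ, ← map_add, ← map_pow, sub_add_cancel, hLp]
  have h2 := key hp _ h1
  rw [← map_smul] at h2
  have h3 : (p : ZMod (p ^ 2)) • (L - 1) = 0 := by
    apply Φ.injective
    rw [h2, map_zero]
  have hxp : x ^ p = 1 := by
    have := pow_orderOf_eq_one x
    rwa [hx] at this
  have hv : p • Multiplicative.toAdd x = 0 := by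
    rw [← toAdd_pow, hxp]; rfl
  have hu : (p : ZMod (p ^ 2)) * (Multiplicative.toAdd x).1 = 0 := by
    have := congrArg Prod.fst hv
    rw [Prod.smul_fst, nsmul_eq_mul] at this
    exact this
  have hw : (p : ZMod (p ^ 2)) * (Multiplicative.toAdd x).2 = 0 := by
    have := congrArg Prod.snd hv
    rw [Prod.smul_snd, nsmul_eq_mul] at this
    exact this
  obtain ⟨u', hu'⟩ := exists_mul_of_mul_eq_zero _ hu
  obtain ⟨w', hw'⟩ := exists_mul_of_mul_eq_zero _ hw
  have hxy : Multiplicative.toAdd x = (p : ZMod (p ^ 2)) • ((u', w') : ZMod (p ^ 2) × ZMod (p ^ 2)) := by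
    apply Prod.ext
    · exact hu'
    · exact hw'
  have h4 : (L - 1) (Multiplicative.toAdd x) = 0 := by
    rw [hxy, map_smul, ← LinearMap.smul_apply, h3]
    rfl
  have h5 : L (Multiplicative.toAdd x) = Multiplicative.toAdd x := by
    rw [LinearMap.sub_apply] at h4
    exact sub_eq_zero.1 h4
  rw [hL] at h5
  exact h5

end Cfsg.Agent.S4080
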