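import Cfsg.Statements.S4081
import Cfsg.Agent.Lib.Helper64.Orb3Fwd
import Cfsg.Agent.Lib.Helper64.Orb3Bwd
import Cfsg.Agent.S0144

set_option autoImplicit false
open Cfsg

namespace Cfsg.Agent.S4081

open Cfsg.Agent.Lib.Helper64
open scoped commutatorElement

theorem exists_char_abelian {G : Type*} [Group G] [Nontrivial G] (hs : Group.IsSolvable G) :
    ∃ A : Subgroup G, A.Characteristic ∧ A ≠ ⊥ ∧ ∀ x ∈ A, ∀ y ∈ A, x * y = y * x := by
  classical
  obtain ⟨n, hn⟩ := hs.solvable
  let k := Nat.find (⟨n, hn⟩ : ∃ n, derivedSeries G n = ⊥)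
  have hk : derivedSeries G k = ⊥ := Nat.find_spec (⟨n, hn⟩ : ∃ n, derivedSeries G n = ⊥)
  have hk0 : k ≠ 0 := by
    intro h0
    rw [h0, derivedSeries_zero] at hk
    exact top_ne_bot hk
  obtain ⟨m, hm⟩ := Nat.exists_eq_succ_of_ne_zero hk0
  refine ⟨derivedSeries G m, derivedSeries_characteristic G m, ?_, ?_⟩
  · exact Nat.find_min (⟨n, hn⟩ : ∃ n, derivedSeries G n = ⊥) (m := m) (by omega)
  · intro x hx y hy
    have h1 : ⁅x, y⁆ ∈ derivedSeries G k := by
      rw [hm, Nat.succ_eq_add_one, derivedSeries_succ]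
      exact Subgroup.commutator_mem_commutator hx hy
    rw [hk, Subgroup.mem_bot, commutatorElement_eq_one_iff_mul_comm] at h1
    exact h1

theorem card_eq_of_cover {G : Type*} [Group G] [Finite G] {p q : ℕ} (hp : p.Prime) (hq : q.Prime)
    (hpq : p ≠ q) (hpd : p ∣ Nat.card G) (hqd : q ∣ Nat.card G)
    (hord : ∀ g : G, orderOf g = 1 ∨ orderOf g = p ∨ orderOf g = q) :
    Nat.card G = p ^ (Nat.card G).factorization p * q ^ (Nat.card G).factorization q := by
  have hG0 : Nat.card G ≠ 0 := Nat.card_pos.ne'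
  have hpf : (Nat.card G).primeFactors = {p, q} := by
    ext r
    rw [Nat.mem_primeFactors, Finset.mem_insert, Finset.mem_singleton]
    constructor
    · rintro ⟨hr, hrd, -⟩
      have : Fact r.Prime := ⟨hr⟩
      obtain ⟨g, hg⟩ := exists_prime_orderOf_dvd_card' (G := G) r hrd
      rcases hord g with h | h | h
      · rw [hg] at h; exact absurd h hr.one_lt.ne'
      · left; rw [← hg, h]
      · right; rw [← hg, h]
    · rintro (rfl | rfl)
      · exact ⟨hp, hpd, hG0⟩
      · exact ⟨hq, hqd, hG0⟩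
  conv_lhs => rw [← Nat.prod_factorization_pow_eq_self hG0]
  rw [Finsupp.prod, Nat.support_factorization, hpf, Finset.prod_pair hpq]

theorem finish {G : Type*} [Group G] [Finite G] {p q : ℕ} [hp : Fact p.Prime] [hq : Fact q.Prime]
    (hpq : p ≠ q) (A : Subgroup G) [hA : A.Characteristic]
    (hAcomm : ∀ x ∈ A, ∀ y ∈ A, x * y = y * x)
    (h : ∃ n : ℕ, 1 ≤ n ∧ Nat.card G = p ^ n * q ∧ (∀ P : Sylow p G, (P : Subgroup G) = A) ∧
      (∀ g ∈ A, g ^ p = 1) ∧ orderOf (p : ZMod q) = q - 1 ∧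
      ∀ x y : G, orderOf x = q → orderOf y = p → x * y * x⁻¹ ≠ y) :
    ∃ (p q n : ℕ) (_ : Fact p.Prime) (_ : Fact q.Prime), p ≠ q ∧ 1 ≤ n ∧ Nat.card G = p ^ n * q ∧
      (∀ P : Sylow p G, (P : Subgroup G).Normal ∧ Cfsg.IsElementaryAbelian p (P : Subgroup G)) ∧
      orderOf (p : ZMod q) = q - 1 ∧
      ∀ x y : G, orderOf x = q → orderOf y = p → x * y * x⁻¹ ≠ y := by
  obtain ⟨n, hn, hcard, hS, hexp, hord, hfpf⟩ := h
  refine ⟨p, q, n, hp, hq, hpq, hn, hcard, fun P => ?_, hord, hfpf⟩
  rw [hS P]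
  exact ⟨inferInstance, ⟨⟨fun x y => Subtype.ext (hAcomm x x.2 y y.2)⟩⟩, hexp⟩

/-- Let G be a finite group whose order is not a prime power. Then the automorphism group of G has exactly three orbits on G if and only if there are distinct primes p, q with #G = pⁿ·q (n ≥ 1) such that G has a normal elementary abelian Sylow p-subgroup P, p is a primitive root modulo q (the multiplicative order of p mod q is q − 1), and every element of order q of G acts on P without non-identity fixed points. -/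
theorem result {G : Type*} [Group G] [Finite G] (hnpp : ¬ IsPrimePow (Nat.card G)) (hnt : Nat.card G ≠ 1) :
    Nat.card (MulAction.orbitRel.Quotient (MulAut G) G) = 3 ↔
    ∃ (p q n : ℕ) (_ : Fact p.Prime) (_ : Fact q.Prime), p ≠ q ∧ 1 ≤ n ∧ Nat.card G = p ^ n * q ∧
      (∀ P : Sylow p G, (P : Subgroup G).Normal ∧ Cfsg.IsElementaryAbelian p (P : Subgroup G)) ∧
      orderOf (p : ZMod q) = q - 1 ∧
      ∀ x y : G, orderOf x = q → orderOf y = p → x * y * x⁻¹ ≠ y := by
  constructor
  · intro h3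
    have hG1 : Nat.card G ≠ 1 := hnt
    obtain ⟨p, hp, hpd⟩ := Nat.exists_prime_and_dvd hG1
    have hex : ∃ q, q.Prime ∧ q ∣ Nat.card G ∧ q ≠ p := by
      by_contra hcon
      push Not at hcon
      exact hnpp (isPrimePow_iff_unique_prime_dvd.2 ⟨p, ⟨hp, hpd⟩, fun r hr => hcon r hr.1 hr.2⟩)
    obtain ⟨q, hq, hqd, hqp⟩ := hex
    have hpq : p ≠ q := hqp.symm
    haveI : Fact p.Prime := ⟨hp⟩
    haveI : Fact q.Prime := ⟨hq⟩
    obtain ⟨a, ha⟩ := exists_prime_orderOf_dvd_card' (G := G) p hpd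
    obtain ⟨b, hb⟩ := exists_prime_orderOf_dvd_card' (G := G) q hqd
    have ha1 : a ≠ 1 := by
      rintro rfl
      rw [orderOf_one] at ha
      exact hp.one_lt.ne ha
    have hb1 : b ≠ 1 := by
      rintro rfl
      rw [orderOf_one] at hb
      exact hq.one_lt.ne hb
    have cover := (card_orbits_eq_three_iff a b ha1 hb1 (by rw [ha, hb]; exact hpq)).1 h3
    have hord : ∀ g : G, orderOf g = 1 ∨ orderOf g = p ∨ orderOf g = q := by
      intro g
      rcases cover g with rfl | ⟨φ, rfl⟩ | ⟨φ, rfl⟩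
      · simp
      · right; left; rw [MulEquiv.orderOf_eq, ha]
      · right; right; rw [MulEquiv.orderOf_eq, hb]
    have hsolv : Group.IsSolvable G :=
      Cfsg.Agent.S0144.result p q _ _ hp hq (card_eq_of_cover hp hq hpq hpd hqd hord)
    haveI : Nontrivial G := ⟨⟨a, 1, ha1⟩⟩
    obtain ⟨A, hAchar, hAbot, hAcomm⟩ := exists_char_abelian hsolv
    obtain ⟨⟨c, hcA⟩, hc1'⟩ := Subgroup.ne_bot_iff_exists_ne_one.1 hAbot
    have hc1 : c ≠ 1 := fun h => hc1' (Subtype.ext h)
    rcases cover c with rfl | ⟨φ, rfl⟩ | ⟨φ, rfl⟩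
    · exact absurd rfl hc1
    · have haA : a ∈ A := (mem_char_iff A φ a).1 hcA
      exact finish hpq A hAcomm (fwd_core hpq a b ha hb cover A hAcomm haA)
    · have hbA : b ∈ A := (mem_char_iff A φ b).1 hcA
      exact finish hpq.symm A hAcomm (fwd_core hpq.symm b a hb ha
        (fun g => (cover g).imp id Or.symm) A hAcomm hbA)
  · rintro ⟨p, q, n, hpF, hqF, hpq, hn, hcard, hS, hord, hfpf⟩
    have hp : p.Prime := hpF.out
    have hq : q.Prime := hqF.out
    obtain ⟨x, hx⟩ := exists_prime_orderOf_dvd_card' (G := G) q (hcard ▸ dvd_mul_left q _)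
    obtain ⟨y, hy⟩ := exists_prime_orderOf_dvd_card' (G := G) p
      (hcard ▸ Dvd.dvd.mul_right (dvd_pow_self p (by omega)) q)
    have hx1 : x ≠ 1 := by
      rintro rfl
      rw [orderOf_one] at hx
      exact hq.one_lt.ne hx
    have hy1 : y ≠ 1 := by
      rintro rfl
      rw [orderOf_one] at hy
      exact hp.one_lt.ne hy
    have hypg : IsPGroup p (Subgroup.zpowers y) := by
      apply IsPGroup.of_card (n := 1)
      rw [Nat.card_zpowers, hy, pow_one]
    obtain ⟨P, hP⟩ := hypg.exists_le_sylow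
    obtain ⟨hPn, hPc, hPe⟩ := hS P
    have hyP : y ∈ (P : Subgroup G) := hP (Subgroup.mem_zpowers y)
    have hcardP : Nat.card (P : Subgroup G) = p ^ n := by
      rw [Sylow.card_eq_multiplicity, hcard, Nat.factorization_mul (pow_ne_zero _ hp.ne_zero)
        hq.ne_zero, hp.factorization_pow, hq.factorization]
      simp [hpq.symm]
    have hc : (P : Subgroup G).IsComplement' (Subgroup.zpowers x) := by
      apply Subgroup.isComplement'_of_coprime
      · rw [hcardP, Nat.card_zpowers, hx, hcard]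
      · rw [hcardP, Nat.card_zpowers, hx]
        exact Nat.Coprime.pow_left _ ((Nat.coprime_primes hp hq).2 hpq)
    rw [card_orbits_eq_three_iff y x hy1 hx1 (by rw [hx, hy]; exact hpq)]
    apply cover_of_primitive_root hpq (P : Subgroup G) (fun a b => hPc.is_comm.comm a b)
      (fun a => Subtype.ext (hPe a a.2)) x hx hc hord _ y hyP hy1
    intro h hh hh1 k hk hhk
    by_contra hk1
    have hoh : orderOf h = q := by
      have hd : orderOf h ∣ q := by
        rw [← hx, ← Nat.card_zpowers x]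
        have := orderOf_dvd_natCard (⟨h, hh⟩ : Subgroup.zpowers x)
        rwa [Subgroup.orderOf_mk] at this
      rcases (Nat.dvd_prime hq).1 hd with h0 | h0
      · exact absurd (orderOf_eq_one_iff.1 h0) hh1
      · exact h0
    have hok : orderOf k = p := orderOf_eq_prime (hPe k hk) hk1
    apply hfpf h k hoh hok
    rw [hhk]; group

end Cfsg.Agent.S4081
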