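import Cfsg.Statements.S4082
import Cfsg.Agent.Lib.Helper71.PByCyclic
import Cfsg.Agent.Lib.Helper71.Basic
import Cfsg.Agent.Lib.Helper71.Irr
import Cfsg.Agent.Lib.Helper71.PiClosed
import Cfsg.Agent.Lib.Helper1.Coprime
import Cfsg.Agent.Lib.Helper59.TwoGroupRecog
import Cfsg.Agent.Lib.Helper11.TwoComplement
import Cfsg.Agent.Lib.Helper70.Wielandt
import Cfsg.Agent.S0086

set_option autoImplicit false
open Cfsg

namespace Cfsg.Agent.S4082

open Cfsg.Agent.Lib.Helper71

/-- restricted `p`-by-cyclic subgroups -/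
def Restr (p : ℕ) (G : Type*) [Group G] : Prop :=
  ∀ H : Subgroup G, (∀ S : Sylow p ↥H, (S : Subgroup ↥H).Normal) →
        (∀ (S : Sylow p ↥H) [(S : Subgroup ↥H).Normal], IsCyclic (↥H ⧸ (S : Subgroup ↥H))) →
        IsCyclic H ∨ (∃ n : ℕ, Nonempty (H ≃* DihedralGroup (p ^ n)))

theorem comm_of_isCyclic {A : Type*} [Group A] [IsCyclic A] (a b : A) : a * b = b * a := by
  obtain ⟨g, hg⟩ := IsCyclic.exists_generator (α := A)
  obtain ⟨i, rfl⟩ := Subgroup.mem_zpowers_iff.mp (hg a)
  obtain ⟨j, rfl⟩ := Subgroup.mem_zpowers_iff.mp (hg b)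
  rw [← zpow_add, ← zpow_add, add_comm]

theorem eq_one_of_sq_of_pGroup {G : Type*} [Group G] {p : ℕ} [Fact p.Prime] (hp : p ≠ 2)
    (N₀ : Subgroup G) (hN : IsPGroup p N₀) (y : G) (hy : y ∈ N₀) (h2 : y * y = 1) : y = 1 := by
  obtain ⟨k, hk⟩ := hN ⟨y, hy⟩
  have hk' : y ^ (p ^ k) = 1 := congrArg Subtype.val hk
  have hcop : Nat.Coprime 2 (p ^ k) := by
    apply Nat.Coprime.pow_right
    exact (Nat.coprime_primes Nat.prime_two Fact.out).mpr (Ne.symm hp)
  have := mem_of_pow_mem_of_coprime (⊥ : Subgroup G) y hcop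
    (by rw [sq, h2]; exact one_mem _) (by rw [hk']; exact one_mem _)
  exact Subgroup.mem_bot.mp this

theorem lemA {G : Type*} [Group G] [Finite G] {p : ℕ} [Fact p.Prime] (hp : p ≠ 2)
    (hR : Restr p G) (N₀ : Subgroup G) (hN : IsPGroup p N₀) (x : G)
    (hx : x ∈ Subgroup.normalizer (N₀ : Set G)) :
    x ∈ Subgroup.centralizer (N₀ : Set G) ∨ (x * x = 1 ∧ ∀ y ∈ N₀, x * y * x⁻¹ = y⁻¹) := by
  set H := Subgroup.zpowers x ⊔ N₀ with hH
  have hzN : Subgroup.zpowers x ≤ Subgroup.normalizer (N₀ : Set G) := by rwa [Subgroup.zpowers_le]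
  have hNH : N₀ ≤ H := le_sup_right
  have hxH : x ∈ H := Subgroup.mem_sup_left (Subgroup.mem_zpowers x)
  have hHN : H ≤ Subgroup.normalizer (N₀ : Set G) := sup_le hzN Subgroup.le_normalizer
  obtain ⟨h1, h2⟩ := pbc_sub H N₀ hNH hN hHN x hxH (by
    intro h hh
    obtain ⟨a, ha, n, hn, rfl⟩ := (Cfsg.Agent.Lib.Helper1.mem_sup_of_le_normalizer hzN).mp hh
    obtain ⟨k, rfl⟩ := Subgroup.mem_zpowers_iff.mp ha
    exact ⟨n, hn, k, rfl⟩)
  rcases hR H h1 h2 with hc | ⟨n, ⟨e⟩⟩
  · left
    rw [Subgroup.mem_centralizer_iff]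
    intro y hy
    exact congrArg Subtype.val (comm_of_isCyclic (⟨y, hNH hy⟩ : H) ⟨x, hxH⟩)
  · obtain ⟨A, hAc, -, hA⟩ := Cfsg.Agent.Lib.Helper11.dihedral_structure e.toMonoidHom e.injective
    have hNA : ∀ y (hy : y ∈ N₀), (⟨y, hNH hy⟩ : H) ∈ A := by
      intro y hy
      by_contra hcon
      have h3 := (hA _ hcon).1
      have h4 : y * y = 1 := congrArg Subtype.val h3
      have h5 := eq_one_of_sq_of_pGroup hp N₀ hN y hy h4
      apply hcon
      have : (⟨y, hNH hy⟩ : H) = 1 := Subtype.ext h5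
      rw [this]; exact one_mem _
    by_cases hxA : (⟨x, hxH⟩ : H) ∈ A
    · left
      rw [Subgroup.mem_centralizer_iff]
      intro y hy
      have := comm_of_isCyclic (⟨⟨y, hNH hy⟩, hNA y hy⟩ : A) ⟨⟨x, hxH⟩, hxA⟩
      exact congrArg (fun z : A => (z.1.1 : G)) this
    · right
      obtain ⟨h3, h4⟩ := hA _ hxA
      refine ⟨congrArg Subtype.val h3, fun y hy => ?_⟩
      exact congrArg Subtype.val (h4 _ (hNA y hy))

theorem forward {G : Type*} [Group G] [Finite G] {p : ℕ} [Fact p.Prime] (hp : p ≠ 2)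
    (P : Sylow p G) (hR : Restr p G) :
    (IsCyclic P ∧
      (Subgroup.normalizer ((P : Subgroup G) : Set G) = Subgroup.centralizer ((P : Subgroup G) : Set G) ∨
       ((Subgroup.centralizer ((P : Subgroup G) : Set G)).relIndex (Subgroup.normalizer ((P : Subgroup G) : Set G)) = 2 ∧
        ∀ Q : Subgroup G, Q ≤ P → Nat.card Q = p →
          IsMulCommutative ↥(Subgroup.centralizer (Q : Set G)) ∧
          ∀ x : G, x ∈ Subgroup.normalizer (Q : Set G) → x ∉ Subgroup.centralizer (Q : Set G) →
            orderOf x = 2 ∧ ∀ c : G, c ∈ Subgroup.centralizer (Q : Set G) → x * c * x⁻¹ = c⁻¹))) := by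
  have hpp : p.Prime := Fact.out
  constructor
  · obtain ⟨h1, h2⟩ := pbc_sub (P : Subgroup G) P le_rfl P.isPGroup' Subgroup.le_normalizer 1
      (one_mem _) (fun h hh => ⟨h, hh, 0, by simp⟩)
    rcases hR P h1 h2 with hc | ⟨n, ⟨e⟩⟩
    · exact hc
    · exfalso
      have hcard : Nat.card (P : Subgroup G) = 2 * p ^ n := by
        rw [Nat.card_congr e.toEquiv, DihedralGroup.nat_card]
      obtain ⟨k, hk⟩ := P.isPGroup'.exists_card_eq
      have h3 : 2 ∣ p ^ k := by
        rw [← hk, hcard]; exact dvd_mul_right _ _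
      exact hp ((Nat.prime_dvd_prime_iff_eq Nat.prime_two hpp).mp
        (Nat.prime_two.dvd_of_dvd_pow h3)).symm
  · by_cases hNC : Subgroup.normalizer ((P : Subgroup G) : Set G) =
        Subgroup.centralizer ((P : Subgroup G) : Set G)
    · left; exact hNC
    right
    have hCN : Subgroup.centralizer ((P : Subgroup G) : Set G) ≤
        Subgroup.normalizer ((P : Subgroup G) : Set G) := Subgroup.centralizer_le_normalizer _
    obtain ⟨t, htN, htC⟩ : ∃ t ∈ Subgroup.normalizer ((P : Subgroup G) : Set G),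
        t ∉ Subgroup.centralizer ((P : Subgroup G) : Set G) := by
      by_contra hcon
      push Not at hcon
      exact hNC (le_antisymm hcon hCN)
    have hA := lemA hp hR P P.isPGroup'
    have ht := (hA t htN).resolve_left htC
    constructor
    · rw [Subgroup.relIndex_eq_two_iff]
      refine ⟨t, htN, fun b hb => ?_⟩
      by_cases hbC : b ∈ Subgroup.centralizer ((P : Subgroup G) : Set G)
      · right
        exact ⟨hbC, fun h => htC (by simpa using mul_mem (inv_mem hbC) h)⟩
      · left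
        refine ⟨?_, hbC⟩
        have hb' := (hA b hb).resolve_left hbC
        rw [Subgroup.mem_centralizer_iff]
        intro y hy
        have h1 := ht.2 y hy
        have h2 := hb'.2 y⁻¹ (inv_mem hy)
        rw [inv_inv] at h2
        calc y * (b * t) = (b * y⁻¹ * b⁻¹) * (b * t) := by rw [h2]
          _ = b * (t * y * t⁻¹) * t := by rw [h1]; group
          _ = b * t * y := by group
    · intro Q hQP hQc
      have hQp : IsPGroup p Q := P.isPGroup'.to_le hQP
      have hAQ := lemA hp hR Q hQp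
      have hinv : ∀ x : G, x ∈ Subgroup.normalizer (Q : Set G) → x ∉ Subgroup.centralizer (Q : Set G) →
            orderOf x = 2 ∧ ∀ c : G, c ∈ Subgroup.centralizer (Q : Set G) → x * c * x⁻¹ = c⁻¹ := by
        intro x hxN hxC
        have hx2 := ((hAQ x hxN).resolve_left hxC).1
        have hx1 : x ≠ 1 := by
          rintro rfl
          exact hxC (one_mem _)
        refine ⟨orderOf_eq_prime (by rw [sq]; exact hx2) hx1, fun c hc => ?_⟩
        have hxcN : x * c ∈ Subgroup.normalizer (Q : Set G) :=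
          mul_mem hxN (Subgroup.centralizer_le_normalizer _ hc)
        have hxcC : x * c ∉ Subgroup.centralizer (Q : Set G) := by
          intro h
          apply hxC
          have := mul_mem h (inv_mem hc)
          simpa using this
        have h3 := ((hAQ _ hxcN).resolve_left hxcC).1
        have hxi : x⁻¹ = x := inv_eq_of_mul_eq_one_left hx2
        rw [hxi]
        calc x * c * x = (x * c * (x * c)) * c⁻¹ := by group
          _ = c⁻¹ := by rw [h3, one_mul]
      refine ⟨?_, hinv⟩
      have htQN : t ∈ Subgroup.normalizer (Q : Set G) := by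
        have hti : t⁻¹ = t := inv_eq_of_mul_eq_one_left ht.1
        rw [Subgroup.mem_normalizer_iff]
        intro y
        constructor
        · intro hy
          rw [ht.2 y (hQP hy)]
          exact inv_mem hy
        · intro hy
          have h1 := ht.2 _ (hQP hy)
          have h2 : t * (t * y * t⁻¹) * t⁻¹ = y := by
            rw [hti]
            calc t * (t * y * t) * t = (t * t) * y * (t * t) := by group
              _ = y := by rw [ht.1]; group
          rw [h2] at h1
          rw [h1]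
          exact inv_mem hy
      have htQC : t ∉ Subgroup.centralizer (Q : Set G) := by
        intro h
        have hQb : Q = ⊥ := by
          rw [Subgroup.eq_bot_iff_forall]
          intro y hy
          apply eq_one_of_sq_of_pGroup hp Q hQp y hy
          have h1 := ht.2 y (hQP hy)
          have h2 := Subgroup.mem_centralizer_iff.mp h y hy
          have h3 : t * y * t⁻¹ = y := by rw [← h2]; group
          rw [h3] at h1
          calc y * y = y * y⁻¹ := by rw [← h1]
            _ = 1 := mul_inv_cancel y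
        rw [hQb, Subgroup.card_bot] at hQc
        exact hpp.ne_one hQc.symm
      obtain ⟨-, ht3⟩ := hinv t htQN htQC
      refine ⟨⟨fun a b => Subtype.ext ?_⟩⟩
      have h1 := ht3 (a.1 * b.1) (mul_mem a.2 b.2)
      have h2 := ht3 a.1 a.2
      have h3 := ht3 b.1 b.2
      have h4 : t * (a.1 * b.1) * t⁻¹ = (t * a.1 * t⁻¹) * (t * b.1 * t⁻¹) := by group
      rw [h4, h2, h3] at h1
      have h5 : (a.1⁻¹ * b.1⁻¹)⁻¹ = ((a.1 * b.1)⁻¹)⁻¹ := by rw [h1]
      simp only [mul_inv_rev, inv_inv] at h5
      exact h5.symm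

theorem isCyclic_of_central_cyclic {H : Type*} [Group H] [Finite H] (S : Subgroup H) [S.Normal]
    [IsCyclic S] [IsCyclic (H ⧸ S)] (hcent : ∀ s ∈ S, ∀ h : H, h * s = s * h)
    (hcop : Nat.Coprime (Nat.card S) S.index) : IsCyclic H := by
  obtain ⟨s, hs⟩ := IsCyclic.exists_generator (α := S)
  obtain ⟨hb, hhb⟩ := IsCyclic.exists_generator (α := H ⧸ S)
  obtain ⟨h, rfl⟩ := QuotientGroup.mk'_surjective S hb
  have hos : orderOf (s : H) = Nat.card S := by
    rw [Subgroup.orderOf_coe, orderOf_eq_card_of_forall_mem_zpowers hs]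
  have hoh : orderOf (QuotientGroup.mk' S h) = S.index := orderOf_eq_card_of_forall_mem_zpowers hhb
  have hoh' : orderOf (h ^ Nat.card S) = S.index := by
    apply Nat.dvd_antisymm
    · apply orderOf_dvd_of_pow_eq_one
      rw [← pow_mul, S.card_mul_index, pow_card_eq_one']
    · have h1 : orderOf (QuotientGroup.mk' S (h ^ Nat.card S)) = S.index := by
        rw [map_pow, Nat.Coprime.orderOf_pow (by rw [hoh]; exact hcop.symm), hoh]
      rw [← h1]
      exact orderOf_map_dvd _ _
  have hcomm : Commute (s : H) (h ^ Nat.card S) := (hcent s s.2 _).symm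
  have h2 : orderOf ((s : H) * h ^ Nat.card S) = Nat.card S * S.index := by
    rw [hcomm.orderOf_mul_eq_mul_orderOf_of_coprime (by rw [hos, hoh']; exact hcop), hos, hoh']
  exact isCyclic_of_orderOf_eq_card _ (by rw [h2, S.card_mul_index])

theorem transport {G : Type*} [Group G] [Finite G] {p : ℕ} [Fact p.Prime] (P : Sylow p G)
    (h2 : ∀ Q : Subgroup G, Q ≤ P → Nat.card Q = p →
          IsMulCommutative ↥(Subgroup.centralizer (Q : Set G)) ∧
          ∀ x : G, x ∈ Subgroup.normalizer (Q : Set G) → x ∉ Subgroup.centralizer (Q : Set G) →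
            orderOf x = 2 ∧ ∀ c : G, c ∈ Subgroup.centralizer (Q : Set G) → x * c * x⁻¹ = c⁻¹)
    (Q' : Subgroup G) (hQ' : Nat.card Q' = p) :
    (∀ a ∈ Subgroup.centralizer (Q' : Set G), ∀ b ∈ Subgroup.centralizer (Q' : Set G), a * b = b * a) ∧
    ∀ x : G, x ∈ Subgroup.normalizer (Q' : Set G) → x ∉ Subgroup.centralizer (Q' : Set G) →
      x * x = 1 ∧ ∀ c : G, c ∈ Subgroup.centralizer (Q' : Set G) → x * c * x⁻¹ = c⁻¹ := by
  have hQp : IsPGroup p Q' := IsPGroup.of_card (n := 1) (by rw [hQ', pow_one])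
  obtain ⟨g, hg⟩ := exists_conj_mem_sylow P Q' hQp
  set Q := Q'.map (MulAut.conj g).toMonoidHom with hQ
  have hmem : ∀ z : G, z ∈ Q ↔ g⁻¹ * z * g ∈ Q' := by
    intro z
    constructor
    · rintro ⟨y, hy, rfl⟩
      have : g⁻¹ * ((MulAut.conj g).toMonoidHom y) * g = y := by
        change g⁻¹ * (g * y * g⁻¹) * g = y
        group
      rw [this]; exact hy
    · intro hz
      refine ⟨g⁻¹ * z * g, hz, ?_⟩
      change g * (g⁻¹ * z * g) * g⁻¹ = z
      group
  have hQP : Q ≤ P := by
    rintro _ ⟨y, hy, rfl⟩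
    exact hg y hy
  have hQc : Nat.card Q = p := by
    rw [hQ, Subgroup.card_map_of_injective (MulAut.conj g).injective, hQ']
  obtain ⟨hc, hn⟩ := h2 Q hQP hQc
  have hC : ∀ c : G, c ∈ Subgroup.centralizer (Q' : Set G) ↔
      g * c * g⁻¹ ∈ Subgroup.centralizer (Q : Set G) := by
    intro c
    rw [Subgroup.mem_centralizer_iff, Subgroup.mem_centralizer_iff]
    constructor
    · intro h z hz
      have h3 := h _ ((hmem z).mp hz)
      calc z * (g * c * g⁻¹) = g * ((g⁻¹ * z * g) * c) * g⁻¹ := by group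
        _ = g * (c * (g⁻¹ * z * g)) * g⁻¹ := by rw [h3]
        _ = g * c * g⁻¹ * z := by group
    · intro h y hy
      have hy' : g * y * g⁻¹ ∈ Q := by
        rw [hmem]
        have : g⁻¹ * (g * y * g⁻¹) * g = y := by group
        rw [this]; exact hy
      have h3 := h _ hy'
      calc y * c = g⁻¹ * ((g * y * g⁻¹) * (g * c * g⁻¹)) * g := by group
        _ = g⁻¹ * ((g * c * g⁻¹) * (g * y * g⁻¹)) * g := by rw [h3]
        _ = c * y := by group
  have hN : ∀ x : G, x ∈ Subgroup.normalizer (Q' : Set G) →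
      g * x * g⁻¹ ∈ Subgroup.normalizer (Q : Set G) := by
    intro x hx
    rw [Subgroup.mem_normalizer_iff]
    intro z
    rw [hmem, hmem, Subgroup.mem_normalizer_iff.mp hx]
    have : g⁻¹ * (g * x * g⁻¹ * z * (g * x * g⁻¹)⁻¹) * g = x * (g⁻¹ * z * g) * x⁻¹ := by group
    rw [this]
  constructor
  · intro a ha b hb
    have h3 := hc.is_comm.comm (⟨_, (hC a).mp ha⟩ : Subgroup.centralizer (Q : Set G)) ⟨_, (hC b).mp hb⟩
    have h4 : (g * a * g⁻¹) * (g * b * g⁻¹) = (g * b * g⁻¹) * (g * a * g⁻¹) := congrArg Subtype.val h3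
    calc a * b = g⁻¹ * ((g * a * g⁻¹) * (g * b * g⁻¹)) * g := by group
      _ = g⁻¹ * ((g * b * g⁻¹) * (g * a * g⁻¹)) * g := by rw [h4]
      _ = b * a := by group
  · intro x hxN hxC
    obtain ⟨h3, h4⟩ := hn _ (hN x hxN) (fun h => hxC ((hC x).mpr h))
    constructor
    · have h5 : (g * x * g⁻¹) * (g * x * g⁻¹) = 1 := by rw [← sq, ← h3, pow_orderOf_eq_one]
      calc x * x = g⁻¹ * ((g * x * g⁻¹) * (g * x * g⁻¹)) * g := by group
        _ = 1 := by rw [h5]; group
    · intro c hcC
      have h5 := h4 _ ((hC c).mp hcC)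
      calc x * c * x⁻¹ = g⁻¹ * ((g * x * g⁻¹) * (g * c * g⁻¹) * (g * x * g⁻¹)⁻¹) * g := by group
        _ = g⁻¹ * (g * c * g⁻¹)⁻¹ * g := by rw [h5]
        _ = c⁻¹ := by group

theorem backward {G : Type*} [Group G] [Finite G] {p : ℕ} [Fact p.Prime] (hp : p ≠ 2)
    (P : Sylow p G) (hPc : IsCyclic P)
    (hcase : Subgroup.normalizer ((P : Subgroup G) : Set G) = Subgroup.centralizer ((P : Subgroup G) : Set G) ∨
       ((Subgroup.centralizer ((P : Subgroup G) : Set G)).relIndex (Subgroup.normalizer ((P : Subgroup G) : Set G)) = 2 ∧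
        ∀ Q : Subgroup G, Q ≤ P → Nat.card Q = p →
          IsMulCommutative ↥(Subgroup.centralizer (Q : Set G)) ∧
          ∀ x : G, x ∈ Subgroup.normalizer (Q : Set G) → x ∉ Subgroup.centralizer (Q : Set G) →
            orderOf x = 2 ∧ ∀ c : G, c ∈ Subgroup.centralizer (Q : Set G) → x * c * x⁻¹ = c⁻¹)) :
    Restr p G := by
  have hpp : p.Prime := Fact.out
  intro H h1 h2
  obtain ⟨S⟩ : Nonempty (Sylow p H) := inferInstance
  have hSn := h1 S
  have hSq := h2 S
  set S₀ : Subgroup G := (S : Subgroup H).map H.subtype with hS₀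
  have hS₀p : IsPGroup p S₀ := S.isPGroup'.map _
  have hS₀H : S₀ ≤ H := Subgroup.map_subtype_le _
  have hmemS : ∀ (y : G) (hy : y ∈ H), y ∈ S₀ ↔ (⟨y, hy⟩ : H) ∈ (S : Subgroup H) := by
    intro y hy
    constructor
    · rintro ⟨z, hz, hzy⟩
      have : z = ⟨y, hy⟩ := Subtype.ext hzy
      rw [← this]; exact hz
    · intro h
      exact ⟨_, h, rfl⟩
  obtain ⟨g, hg⟩ := exists_conj_mem_sylow P S₀ hS₀p
  have hScyc : IsCyclic (S : Subgroup H) := by
    let f : (S : Subgroup H) →* (P : Subgroup G) :=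
      { toFun := fun y => ⟨g * (y.1.1 : G) * g⁻¹, hg _ ⟨y.1, y.2, rfl⟩⟩
        map_one' := by
          apply Subtype.ext
          simp
        map_mul' := by
          intro a b
          apply Subtype.ext
          simp }
    apply isCyclic_of_injective f
    intro a b hab
    have h3 : g * (a.1.1 : G) * g⁻¹ = g * (b.1.1 : G) * g⁻¹ := congrArg Subtype.val hab
    have h4 : (a.1.1 : G) = b.1.1 := by
      have := mul_right_cancel h3
      exact mul_left_cancel this
    exact Subtype.ext (Subtype.ext h4)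
  have hcop : Nat.Coprime (Nat.card (S : Subgroup H)) (S : Subgroup H).index := S.card_coprime_index
  have hS₀comm : ∀ a ∈ S₀, ∀ b ∈ S₀, a * b = b * a := by
    intro a ha b hb
    have ha' := (hmemS a (hS₀H ha)).mp ha
    have hb' := (hmemS b (hS₀H hb)).mp hb
    have := comm_of_isCyclic (⟨_, ha'⟩ : (S : Subgroup H)) ⟨_, hb'⟩
    exact congrArg (fun z : (S : Subgroup H) => (z.1.1 : G)) this
  have hHS₀ : H ≤ Subgroup.normalizer (S₀ : Set G) := by
    rw [Subgroup.le_normalizer_iff]
    intro h hh y hy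
    have := hSn.conj_mem _ ((hmemS y (hS₀H hy)).mp hy) ⟨h, hh⟩
    exact (hmemS _ _).mpr this
  -- it suffices that `S` is central, or to exhibit the dihedral structure
  have hU1 : (∀ s ∈ S₀, ∀ h ∈ H, h * s = s * h) → IsCyclic H := by
    intro hcent
    exact isCyclic_of_central_cyclic (S : Subgroup H)
      (fun s hs h => Subtype.ext (hcent s.1 ⟨s, hs, rfl⟩ h.1 h.2)) hcop
  rcases hcase with hNC | ⟨-, hQ⟩
  · left
    apply hU1
    have hcompl := MonoidHom.ker_transferSylow_isComplement' P hNC.le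
    set K := (MonoidHom.transferSylow P hNC.le).ker with hK
    have hKmem := fun x => Cfsg.Agent.S0086.result P K hcompl x
    have hdisj : S₀ ⊓ K = ⊥ := by
      rw [Subgroup.eq_bot_iff_forall]
      intro y hy
      obtain ⟨hy1, hy2⟩ := Subgroup.mem_inf.mp hy
      obtain ⟨k, hk⟩ := (IsPGroup.iff_orderOf.mp hS₀p) ⟨y, hy1⟩
      rw [Subgroup.orderOf_mk] at hk
      have h3 := (hKmem y).mp hy2
      rw [hk] at h3
      have hk0 : k = 0 := by
        by_contra hk0
        have := (Nat.coprime_pow_left_iff (Nat.pos_of_ne_zero hk0) p p).mp h3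
        rw [Nat.coprime_self] at this
        exact hpp.ne_one this
      rw [hk0, pow_zero, orderOf_eq_one_iff] at hk
      exact hk
    intro s hs
    have htop : (Subgroup.centralizer ({s} : Set G)).subgroupOf H = ⊤ := by
      apply eq_top_of_forall_sylow_le
      intro q _ hq
      by_cases hqp : q = p
      · subst hqp
        refine ⟨S, fun y hy => ?_⟩
        rw [Subgroup.mem_subgroupOf, Subgroup.mem_centralizer_singleton_iff]
        exact hS₀comm _ ⟨y, hy, rfl⟩ s hs
      · obtain ⟨R⟩ : Nonempty (Sylow q H) := inferInstance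
        refine ⟨R, fun y hy => ?_⟩
        rw [Subgroup.mem_subgroupOf, Subgroup.mem_centralizer_singleton_iff]
        obtain ⟨k, hk⟩ := (IsPGroup.iff_orderOf.mp R.isPGroup') ⟨y, hy⟩
        rw [Subgroup.orderOf_mk, ← Subgroup.orderOf_coe] at hk
        have hyK : (y : G) ∈ K := by
          rw [hKmem, hk]
          exact Nat.Coprime.pow_left k ((Nat.coprime_primes Fact.out hpp).mpr hqp)
        have h3 := Cfsg.Agent.Lib.Helper75.commute_of_mem_normalizer S₀ K hdisj y hyK (hHS₀ y.2) s hs
        calc (y : G) * s = (s * y * s⁻¹) * s := by rw [h3]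
          _ = s * y := by group
    intro h hh
    have : (⟨h, hh⟩ : H) ∈ (Subgroup.centralizer ({s} : Set G)).subgroupOf H := by
      rw [htop]; trivial
    rw [Subgroup.mem_subgroupOf, Subgroup.mem_centralizer_singleton_iff] at this
    exact this
  · by_cases hSb : S₀ = ⊥
    · left
      apply hU1
      intro s hs h _
      rw [hSb] at hs
      rw [Subgroup.mem_bot.mp hs]
      simp
    have hcard1 : Nat.card S₀ ≠ 1 := fun h => hSb (Subgroup.card_eq_one.mp h)
    obtain ⟨k, hk⟩ := hS₀p.exists_card_eq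
    have hpd : p ∣ Nat.card S₀ := by
      rw [hk]
      apply dvd_pow_self
      rintro rfl
      exact hcard1 (by rw [hk, pow_zero])
    obtain ⟨y₀', hy₀'⟩ := exists_prime_orderOf_dvd_card' p hpd
    set y₀ : G := y₀'.1 with hy₀
    have hy₀S : y₀ ∈ S₀ := y₀'.2
    have hy₀o : orderOf y₀ = p := by rw [hy₀, Subgroup.orderOf_coe, hy₀']
    set Q' := Subgroup.zpowers y₀ with hQ'
    have hQ'c : Nat.card Q' = p := by rw [Nat.card_zpowers, hy₀o]
    obtain ⟨hCcomm, hNinv⟩ := transport P hQ Q' hQ'c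
    have hQ'S : Q' ≤ S₀ := by
      rw [Subgroup.zpowers_le]; exact hy₀S
    have hS₀C : S₀ ≤ Subgroup.centralizer (Q' : Set G) := by
      intro s hs
      rw [Subgroup.mem_centralizer_iff]
      intro y hy
      exact hS₀comm y (hQ'S hy) s hs
    have hS₀cyc : IsCyclic S₀ :=
      isCyclic_of_surjective ((S : Subgroup H).equivMapOfInjective H.subtype
        H.subtype_injective).toMonoidHom
        ((S : Subgroup H).equivMapOfInjective H.subtype H.subtype_injective).surjective
    have hHN : H ≤ Subgroup.normalizer (Q' : Set G) := by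
      intro h hh
      rw [mem_normalizer_zpowers_iff]
      have h3 : h * y₀ * h⁻¹ ∈ S₀ := (Subgroup.le_normalizer_iff.mp hHS₀) h hh y₀ hy₀S
      have h4 := Cfsg.Agent.Lib.Helper70.eq_of_card_eq_of_isCyclic (C := S₀)
        (Subgroup.zpowers ⟨h * y₀ * h⁻¹, h3⟩) (Subgroup.zpowers ⟨y₀, hy₀S⟩)
        (by rw [Nat.card_zpowers, Nat.card_zpowers, Subgroup.orderOf_mk, Subgroup.orderOf_mk,
          orderOf_conj_eq])
      have h5 : (⟨h * y₀ * h⁻¹, h3⟩ : S₀) ∈ Subgroup.zpowers (⟨y₀, hy₀S⟩ : S₀) := by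
        rw [← h4]; exact Subgroup.mem_zpowers _
      obtain ⟨j, hj⟩ := Subgroup.mem_zpowers_iff.mp h5
      refine Subgroup.mem_zpowers_iff.mpr ⟨j, ?_⟩
      have := congrArg Subtype.val hj
      simpa using this
    by_cases hHC : H ≤ Subgroup.centralizer (Q' : Set G)
    · left
      apply hU1
      intro s hs h hh
      exact hCcomm h (hHC hh) s (hS₀C hs)
    right
    obtain ⟨x, hxH, hxC⟩ := SetLike.not_le_iff_exists.mp hHC
    obtain ⟨hx2, hxinv⟩ := hNinv x (hHN hxH) hxC
    have hxi : x⁻¹ = x := inv_eq_of_mul_eq_one_left hx2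
    have hxS : x ∉ S₀ := fun h => hxC (hS₀C h)
    have hcl : ∀ c ∈ H, c ∈ Subgroup.centralizer (Q' : Set G) → c ∈ S₀ := by
      intro c hcH hcC
      by_contra hcS
      have h3 : c * c ∈ S₀ := by
        have h4 := comm_of_isCyclic (QuotientGroup.mk' (S : Subgroup H) ⟨x, hxH⟩)
          (QuotientGroup.mk' (S : Subgroup H) ⟨c, hcH⟩)
        rw [← map_mul, ← map_mul] at h4
        have h5 := QuotientGroup.eq.mp h4
        have h6 : (x * c)⁻¹ * (c * x) ∈ S₀ := ⟨_, h5, rfl⟩
        have h7 : (x * c)⁻¹ * (c * x) = (c * c)⁻¹ := by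
          have h8 := hxinv c hcC
          rw [hxi] at h8
          calc (x * c)⁻¹ * (c * x) = c⁻¹ * (x⁻¹ * c * x) := by group
            _ = c⁻¹ * (x * c * x) := by rw [hxi]
            _ = c⁻¹ * c⁻¹ := by rw [h8]
            _ = (c * c)⁻¹ := by group
        rw [h7] at h6
        simpa using inv_mem h6
      have : Fact (Nat.Prime 2) := ⟨Nat.prime_two⟩
      have ho1 : orderOf (QuotientGroup.mk' (S : Subgroup H) ⟨c, hcH⟩) = 2 := by
        apply orderOf_eq_prime
        · rw [← map_pow]
          apply (QuotientGroup.eq_one_iff _).mpr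
          rw [sq]
          exact (hmemS _ _).mp h3
        · intro h9
          exact hcS ((hmemS _ _).mpr ((QuotientGroup.eq_one_iff _).mp h9))
      have ho2 : orderOf (QuotientGroup.mk' (S : Subgroup H) ⟨x, hxH⟩) = 2 := by
        apply orderOf_eq_prime
        · rw [← map_pow]
          apply (QuotientGroup.eq_one_iff _).mpr
          have : (⟨x, hxH⟩ : H) ^ 2 = 1 := by
            apply Subtype.ext
            rw [sq]; exact hx2
          rw [this]; exact one_mem _
        · intro h9
          exact hxS ((hmemS _ _).mpr ((QuotientGroup.eq_one_iff _).mp h9))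
      have h10 := Cfsg.Agent.Lib.Helper11.eq_of_orderOf_two_of_cyclic ho1 ho2
      have h11 := QuotientGroup.eq.mp h10
      have h12 : c⁻¹ * x ∈ S₀ := ⟨_, h11, rfl⟩
      apply hxC
      have := mul_mem hcC (hS₀C h12)
      simpa using this
    have hprod : ∀ b ∈ H, b ∉ S₀ → b * x ∈ S₀ := by
      intro b hbH hbS
      have hbC : b ∉ Subgroup.centralizer (Q' : Set G) := fun h => hbS (hcl b hbH h)
      obtain ⟨-, hbinv⟩ := hNinv b (hHN hbH) hbC
      apply hcl _ (mul_mem hbH hxH)
      rw [Subgroup.mem_centralizer_iff]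
      intro y hy
      have hyC : y ∈ Subgroup.centralizer (Q' : Set G) := hS₀C (hQ'S hy)
      have e1 := hxinv y hyC
      have e2 := hbinv y⁻¹ (inv_mem hyC)
      rw [inv_inv] at e2
      calc y * (b * x) = (b * y⁻¹ * b⁻¹) * (b * x) := by rw [e2]
        _ = b * (x * y * x⁻¹) * x := by rw [e1]; group
        _ = b * x * y := by group
    have hidx : (S : Subgroup H).index = 2 := by
      rw [Subgroup.index_eq_two_iff]
      refine ⟨⟨x, hxH⟩, fun b => ?_⟩
      by_cases hbS : b ∈ (S : Subgroup H)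
      · right
        refine ⟨hbS, fun h => ?_⟩
        apply hxS
        have := mul_mem (inv_mem hbS) h
        rw [inv_mul_cancel_left] at this
        exact (hmemS _ _).mpr this
      · left
        refine ⟨?_, hbS⟩
        have := hprod b.1 b.2 (fun h => hbS ((hmemS _ _).mp h))
        exact (hmemS _ (mul_mem b.2 hxH)).mp this
    obtain ⟨s, hs⟩ := IsCyclic.exists_generator (α := (S : Subgroup H))
    have hos : orderOf (s : H) = Nat.card (S : Subgroup H) := by
      rw [Subgroup.orderOf_coe, orderOf_eq_card_of_forall_mem_zpowers hs]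
    obtain ⟨k', hk'⟩ := S.isPGroup'.exists_card_eq
    refine ⟨k', ?_⟩
    apply Cfsg.Agent.Lib.Helper59.dihedral_recog (p ^ k') (pow_pos hpp.pos _) (s : H) ⟨x, hxH⟩
    · rw [hos, hk']
    · exact Subtype.ext hx2
    · apply Subtype.ext
      exact hxinv _ (hS₀C ⟨s.1, s.2, rfl⟩)
    · intro h
      apply hxS
      have hle : Subgroup.zpowers (s : H) ≤ (S : Subgroup H) := by
        rw [Subgroup.zpowers_le]; exact s.2
      exact (hmemS _ _).mpr (hle h)
    · rw [← (S : Subgroup H).card_mul_index, hidx, hk', mul_comm]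

/-- Let p be an odd prime and G a finite group with Sylow p-subgroup P. Say that G has restricted p-by-cyclic subgroups when every subgroup H of G whose Sylow p-subgroup is normal in H with cyclic quotient is itself cyclic or dihedral of order 2pⁿ for some n. Then G has restricted p-by-cyclic subgroups if and only if P is cyclic and one of the following holds: (1) N_G(P) = C_G(P); or (2) N_G(P)/C_G(P) has order 2 and, for the subgroup Q of order p of P, the centralizer C_G(Q) is abelian and every element of N_G(Q) outside C_G(Q) is an involution inverting every element of C_G(Q). -/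
theorem result {G : Type*} [Group G] [Finite G] {p : ℕ}
    [Fact p.Prime] (hp : p ≠ 2) (P : Sylow p G) :
    (∀ H : Subgroup G, (∀ S : Sylow p ↥H, (S : Subgroup ↥H).Normal) →
        (∀ (S : Sylow p ↥H) [(S : Subgroup ↥H).Normal], IsCyclic (↥H ⧸ (S : Subgroup ↥H))) →
        IsCyclic H ∨ (∃ n : ℕ, Nonempty (H ≃* DihedralGroup (p ^ n)))) ↔
    (IsCyclic P ∧
      (Subgroup.normalizer ((P : Subgroup G) : Set G) = Subgroup.centralizer ((P : Subgroup G) : Set G) ∨
       ((Subgroup.centralizer ((P : Subgroup G) : Set G)).relIndex (Subgroup.normalizer ((P : Subgroup G) : Set G)) = 2 ∧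
        ∀ Q : Subgroup G, Q ≤ P → Nat.card Q = p →
          IsMulCommutative ↥(Subgroup.centralizer (Q : Set G)) ∧
          ∀ x : G, x ∈ Subgroup.normalizer (Q : Set G) → x ∉ Subgroup.centralizer (Q : Set G) →
            orderOf x = 2 ∧ ∀ c : G, c ∈ Subgroup.centralizer (Q : Set G) → x * c * x⁻¹ = c⁻¹))) := by
  constructor
  · intro h
    exact forward hp P h
  · rintro ⟨h1, h2⟩
    exact backward hp P h1 h2

end Cfsg.Agent.S4082
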