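import Cfsg.Statements.S4084
import Mathlib

set_option autoImplicit false
open Cfsg

namespace Cfsg.Agent.S4084

theorem aux {G H : Type*} [Group G] [Finite G] [Group H] [Finite H] (e : G ≃ H)
    (he : ∀ x y : G, Commute x y ↔ Commute (e x) (e y))
    {p q : ℕ} (hp : p.Prime) (hq : q.Prime) (hpq : p ≠ q) :
    (∃ g : G, orderOf g = p * q) → (∃ h : H, orderOf h = p * q) := by
  rintro ⟨g, hg⟩
  let B : Subgroup G := Subgroup.centralizer (Subgroup.centralizer ({g} : Set G) : Set G)
  let B' : Subgroup H := Subgroup.centralizer (Subgroup.centralizer ({e g} : Set H) : Set H)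
  have memB : ∀ x : G, x ∈ B ↔ ∀ y : G, Commute y g → Commute y x := by
    intro x
    simp only [B, Subgroup.mem_centralizer_iff, Set.mem_singleton_iff, forall_eq, SetLike.mem_coe]
    constructor
    · intro h y hy
      exact h y hy.symm.eq
    · intro h y hy
      exact (h y (Commute.symm hy)).eq
  have memB' : ∀ x : H, x ∈ B' ↔ ∀ y : H, Commute y (e g) → Commute y x := by
    intro x
    simp only [B', Subgroup.mem_centralizer_iff, Set.mem_singleton_iff, forall_eq, SetLike.mem_coe]
    constructor
    · intro h y hy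
      exact h y hy.symm.eq
    · intro h y hy
      exact (h y (Commute.symm hy)).eq
  have hBB' : ∀ x : G, x ∈ B ↔ e x ∈ B' := by
    intro x
    rw [memB, memB']
    constructor
    · intro h y hy
      obtain ⟨y, rfl⟩ := e.surjective y
      exact (he _ _).1 (h y ((he _ _).2 hy))
    · intro h y hy
      exact (he _ _).2 (h (e y) ((he _ _).1 hy))
  have hcard : Nat.card B = Nat.card B' := by
    apply Nat.card_congr
    exact e.subtypeEquiv hBB'
  have hgB : g ∈ B := by
    rw [memB]; intro y hy; exact hy
  have hdvd : p * q ∣ Nat.card B' := by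
    rw [← hcard, ← hg]
    have := orderOf_dvd_natCard (⟨g, hgB⟩ : B)
    rwa [Subgroup.orderOf_mk] at this
  have hcomm : ∀ x ∈ B', ∀ y ∈ B', Commute x y := by
    intro x hx y hy
    rw [memB'] at hx hy
    have h1 : Commute x (e g) := (hx (e g) (Commute.refl _)).symm
    exact hy x h1
  haveI := Fact.mk hp
  haveI := Fact.mk hq
  obtain ⟨u, hu⟩ := exists_prime_orderOf_dvd_card' (G := B') p (Dvd.dvd.trans (Dvd.intro _ rfl) hdvd)
  obtain ⟨v, hv⟩ := exists_prime_orderOf_dvd_card' (G := B') q (Dvd.dvd.trans (Dvd.intro_left _ rfl) hdvd)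
  refine ⟨(u : H) * (v : H), ?_⟩
  have hc : Commute (u : H) (v : H) := hcomm _ u.2 _ v.2
  rw [hc.orderOf_mul_eq_mul_orderOf_of_coprime, Subgroup.orderOf_coe, Subgroup.orderOf_coe, hu, hv]
  rw [Subgroup.orderOf_coe, Subgroup.orderOf_coe, hu, hv]
  exact (Nat.coprime_primes hp hq).2 hpq

/-- Let G and H be finite groups whose commuting graphs are isomorphic: there is a bijection e : G → H with x, y commuting exactly when e(x), e(y) commute. Then G and H have the same prime graph: for distinct primes p, q, G has an element of order pq if and only if H does (and #G = #H, so the prime divisors agree). -/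
theorem result {G H : Type*} [Group G] [Finite G] [Group H] [Finite H] (e : G ≃ H)
    (he : ∀ x y : G, Commute x y ↔ Commute (e x) (e y))
    {p q : ℕ} (hp : p.Prime) (hq : q.Prime) (hpq : p ≠ q) :
    (∃ g : G, orderOf g = p * q) ↔ (∃ h : H, orderOf h = p * q) := by
  refine ⟨aux e he hp hq hpq, aux e.symm ?_ hp hq hpq⟩
  intro x y
  rw [he]
  simp

end Cfsg.Agent.S4084
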