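import Cfsg.Statements.S4086
import Mathlib
-- import your own Cfsg.Agent.* helpers here

set_option autoImplicit false
open Cfsg

namespace Cfsg.Agent.S4086

theorem pow_mem_zpowers_pow {G : Type*} [Group G] (z : G) (a b : ℤ)
    (h : (Int.gcd b (orderOf z) : ℤ) ∣ a) : z ^ a ∈ Subgroup.zpowers (z ^ b) := by
  obtain ⟨c, rfl⟩ := h
  rw [Int.gcd_eq_gcd_ab, zpow_mul]
  apply Subgroup.zpow_mem
  rw [zpow_add, zpow_mul, zpow_mul, zpow_natCast, pow_orderOf_eq_one, one_zpow, mul_one]
  exact Subgroup.zpow_mem _ (Subgroup.mem_zpowers _) _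

/-- For a finite group G the following are equivalent: every non-identity element has prime-power order; whenever two elements generate a cyclic subgroup, one of them is a power of the other (the enhanced power graph of G coincides with its power graph). -/
theorem result {G : Type*} [Group G] [Finite G] :
    (∀ g : G, g ≠ 1 → IsPrimePow (orderOf g)) ↔
    (∀ x y : G, IsCyclic ↥(Subgroup.closure ({x, y} : Set G)) → (x ∈ Subgroup.zpowers y ∨ y ∈ Subgroup.zpowers x)) := by
  constructor
  · intro h x y hc
    obtain ⟨z, hz⟩ := (Subgroup.isCyclic_iff_exists_zpowers_eq_top _).mp hc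
    have hx : x ∈ Subgroup.zpowers z := by
      rw [hz]; exact Subgroup.subset_closure (by simp)
    have hy : y ∈ Subgroup.zpowers z := by
      rw [hz]; exact Subgroup.subset_closure (by simp)
    obtain ⟨a, rfl⟩ := Subgroup.mem_zpowers_iff.mp hx
    obtain ⟨b, rfl⟩ := Subgroup.mem_zpowers_iff.mp hy
    by_cases hz1 : z = 1
    · left; subst hz1; simp
    obtain ⟨p, k, hp, _, hpk⟩ := h z hz1
    have hp' : p.Prime := hp.nat_prime
    have ha : Int.gcd a (orderOf z) ∣ p ^ k := by
      rw [hpk]; exact Int.gcd_dvd_natAbs_right _ _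
    have hb : Int.gcd b (orderOf z) ∣ p ^ k := by
      rw [hpk]; exact Int.gcd_dvd_natAbs_right _ _
    obtain ⟨i, _, hi⟩ := (Nat.dvd_prime_pow hp').mp ha
    obtain ⟨j, _, hj⟩ := (Nat.dvd_prime_pow hp').mp hb
    rcases le_total i j with hij | hij
    · right
      apply pow_mem_zpowers_pow
      have h1 : Int.gcd a (orderOf z) ∣ Int.gcd b (orderOf z) := by
        rw [hi, hj]; exact pow_dvd_pow _ hij
      exact (Int.natCast_dvd_natCast.mpr h1).trans (Int.gcd_dvd_left _ _)
    · left
      apply pow_mem_zpowers_pow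
      have h1 : Int.gcd b (orderOf z) ∣ Int.gcd a (orderOf z) := by
        rw [hi, hj]; exact pow_dvd_pow _ hij
      exact (Int.natCast_dvd_natCast.mpr h1).trans (Int.gcd_dvd_left _ _)
  · intro h g hg
    have hn0 : orderOf g ≠ 0 := (orderOf_pos g).ne'
    have hn1 : orderOf g ≠ 1 := by
      rw [Ne, orderOf_eq_one_iff]; exact hg
    rw [exists_ordCompl_eq_one_iff_isPrimePow hn1]
    obtain ⟨p, hp, hpn⟩ := Nat.exists_prime_and_dvd hn1
    refine ⟨p, hp, ?_⟩
    set n := orderOf g with hn
    set a := ordProj[p] n with ha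
    set b := ordCompl[p] n with hb
    have hab : a * b = n := Nat.ordProj_mul_ordCompl_eq_self n p
    have ha0 : a ≠ 0 := by
      intro h0; rw [h0, zero_mul] at hab; exact hn0 hab.symm
    have hb0 : b ≠ 0 := by
      intro h0; rw [h0, mul_zero] at hab; exact hn0 hab.symm
    have hcop : Nat.Coprime a b := by
      rw [ha]
      exact Nat.Coprime.pow_left _ (Nat.coprime_ordCompl hp hn0)
    have ha1 : a ≠ 1 := by
      intro h1
      have : p ∣ a := by
        rw [ha]
        exact dvd_pow_self p ((hp.factorization_pos_of_dvd hn0 hpn).ne')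
      rw [h1] at this
      exact hp.one_lt.ne' (Nat.dvd_one.mp this)
    have hoa : orderOf (g ^ a) = b := by
      rw [orderOf_pow_of_dvd ha0 (Dvd.intro _ hab), ← hn, ← hab]
      exact Nat.mul_div_cancel_left _ (Nat.pos_of_ne_zero ha0)
    have hob : orderOf (g ^ b) = a := by
      rw [orderOf_pow_of_dvd hb0 (Dvd.intro_left _ hab), ← hn, ← hab]
      exact Nat.mul_div_cancel _ (Nat.pos_of_ne_zero hb0)
    have hcyc : IsCyclic ↥(Subgroup.closure ({g ^ a, g ^ b} : Set G)) := by
      apply Subgroup.isCyclic_of_le (H' := Subgroup.zpowers g)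
      rw [Subgroup.closure_le]
      rintro x (rfl | rfl)
      · exact Subgroup.pow_mem _ (Subgroup.mem_zpowers g) _
      · exact Subgroup.pow_mem _ (Subgroup.mem_zpowers g) _
    rcases h _ _ hcyc with h1 | h1
    · have := orderOf_dvd_of_mem_zpowers h1
      rw [hoa, hob] at this
      exact Nat.eq_one_of_dvd_coprimes hcop.symm (dvd_refl b) this
    · have := orderOf_dvd_of_mem_zpowers h1
      rw [hoa, hob] at this
      exact absurd (Nat.eq_one_of_dvd_coprimes hcop (dvd_refl a) this) ha1

end Cfsg.Agent.S4086
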