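import Cfsg.Statements.S4089
import Cfsg.Agent.Lib.Helper72.Subnormalizer

set_option autoImplicit false
open Cfsg

namespace Cfsg.Agent.S4089

open Cfsg.Agent.Lib.Helper52 Cfsg.Agent.Lib.Helper72

theorem sInf_le_radical {G : Type*} [Group G] [Finite G] (p : ℕ) [Fact p.Prime]
    (H R : Subgroup G) (hHR : H ≤ R)
    (hR : Cfsg.pCoreOf p (Subgroup.normalizer (R : Set G)) = R) :
    sInf {K : Subgroup G | ∃ Q : Sylow p G, H ≤ (Q : Subgroup G) ∧ K = (Q : Subgroup G)} ≤ R := by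
  have hRp : IsPGroup p R := by
    rw [← hR]; exact pCoreOf_isPGroup _
  set I := sInf {K : Subgroup G | ∃ Q : Sylow p G, R ≤ (Q : Subgroup G) ∧ K = (Q : Subgroup G)}
    with hI
  have h1 : sInf {K : Subgroup G | ∃ Q : Sylow p G, H ≤ (Q : Subgroup G) ∧ K = (Q : Subgroup G)}
      ≤ I := by
    apply sInf_le_sInf
    rintro K ⟨Q, hQ, rfl⟩
    exact ⟨Q, hHR.trans hQ, rfl⟩
  refine h1.trans ?_
  have hRI : R ≤ I := by
    apply le_sInf
    rintro K ⟨Q, hQ, rfl⟩
    exact hQ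
  have hIp : IsPGroup p I := by
    obtain ⟨Q, hQ⟩ := hRp.exists_le_sylow
    exact Q.isPGroup'.to_le (sInf_le ⟨Q, hQ, rfl⟩)
  have hconj : ∀ n ∈ Subgroup.normalizer (R : Set G), ∀ x ∈ I, n * x * n⁻¹ ∈ I := by
    intro n hn x hx
    rw [hI, Subgroup.mem_sInf]
    rintro K ⟨Q, hQ, rfl⟩
    have hmem : x ∈ ((n⁻¹ • Q : Sylow p G) : Subgroup G) := by
      rw [hI, Subgroup.mem_sInf] at hx
      apply hx
      refine ⟨n⁻¹ • Q, ?_, rfl⟩
      intro r hr
      rw [Sylow.coe_subgroup_smul, Subgroup.mem_pointwise_smul_iff_inv_smul_mem]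
      have h3 : n * r * n⁻¹ ∈ R := (Subgroup.mem_normalizer_iff.mp hn r).mp hr
      have h4 : (MulAut.conj n⁻¹)⁻¹ • r = n * r * n⁻¹ := by
        simp [MulAut.smul_def]
      rw [h4]
      exact hQ h3
    rw [Sylow.coe_subgroup_smul, Subgroup.mem_pointwise_smul_iff_inv_smul_mem] at hmem
    have h4 : (MulAut.conj n⁻¹)⁻¹ • x = n * x * n⁻¹ := by
      simp [MulAut.smul_def]
    rw [h4] at hmem
    exact hmem
  have h2 : I ⊓ Subgroup.normalizer (R : Set G) ≤ R := by
    conv_rhs => rw [← hR]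
    apply le_pCoreOf inf_le_right
    · apply le_normalizer_of_conj_mem
      intro n hn x hx
      exact ⟨hconj n hn x hx.1, Subgroup.mul_mem _ (Subgroup.mul_mem _ hn hx.2) (Subgroup.inv_mem _ hn)⟩
    · exact hIp.to_le inf_le_left
  by_contra hne
  have hlt : R < I := lt_of_le_of_ne hRI (fun h => hne h.ge)
  exact absurd (lt_of_lt_of_le (lt_inf_normalizer' hIp hlt) h2) (lt_irrefl _)

theorem radical_iff {G : Type*} [Group G] [Finite G] (p : ℕ) [Fact p.Prime]
    (H : Subgroup G) (hH : IsPGroup p H) (g : G) :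
    ((H).subgroupOf (H ⊔ Subgroup.zpowers g)).IsSubnormal ↔
      ∃ R : Subgroup G, H ≤ R ∧ Cfsg.pCoreOf p (Subgroup.normalizer (R : Set G)) = R ∧
        g ∈ Subgroup.normalizer (R : Set G) := by
  rw [subN_iff hH]
  constructor
  · rintro ⟨V, hHV, hV, hg⟩
    obtain ⟨R, h1, h2, h3⟩ := exists_radical V hV
    exact ⟨R, hHV.trans h1, h2, h3 hg⟩
  · rintro ⟨R, h1, h2, h3⟩
    refine ⟨R, h1, ?_, h3⟩
    rw [← h2]; exact pCoreOf_isPGroup _

/-- Let G be a finite group, p a prime and H a p-subgroup of G. Then the set of elements g of G such that H is subnormal in the subgroup generated by H and g is the union of the normalizers N_G(R) over the subgroups R of G containing H with R = O_p(N_G(R)); and this set does not change when H is replaced by the intersection of all Sylow p-subgroups of G containing H. -/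
theorem result {G : Type*} [Group G] [Finite G] (p : ℕ) [Fact p.Prime]
    (H : Subgroup G) (hH : IsPGroup p H) :
    {g : G | ((H).subgroupOf (H ⊔ Subgroup.zpowers g)).IsSubnormal} =
      {g : G | ∃ R : Subgroup G, H ≤ R ∧ (Cfsg.pCore p (Subgroup.normalizer (R : Set G))).map (Subgroup.normalizer (R : Set G)).subtype = R ∧ g ∈ Subgroup.normalizer (R : Set G)} ∧
    ∀ g : G, (((H).subgroupOf (H ⊔ Subgroup.zpowers g)).IsSubnormal ↔
      (((sInf {K : Subgroup G | ∃ Q : Sylow p G, H ≤ (Q : Subgroup G) ∧ K = (Q : Subgroup G)})).subgroupOf ((sInf {K : Subgroup G | ∃ Q : Sylow p G, H ≤ (Q : Subgroup G) ∧ K = (Q : Subgroup G)}) ⊔ Subgroup.zpowers g)).IsSubnormal) := by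
  refine ⟨?_, ?_⟩
  · ext g
    exact radical_iff p H hH g
  · intro g
    have hle : H ≤ sInf {K : Subgroup G | ∃ Q : Sylow p G, H ≤ (Q : Subgroup G) ∧ K = (Q : Subgroup G)} := by
      apply le_sInf
      rintro K ⟨Q, hQ, rfl⟩
      exact hQ
    have hp : IsPGroup p (sInf {K : Subgroup G | ∃ Q : Sylow p G, H ≤ (Q : Subgroup G) ∧ K = (Q : Subgroup G)} : Subgroup G) := by
      obtain ⟨Q, hQ⟩ := hH.exists_le_sylow
      exact Q.isPGroup'.to_le (sInf_le ⟨Q, hQ, rfl⟩)
    constructor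
    · intro h
      obtain ⟨R, h1, h2, h3⟩ := (radical_iff p H hH g).mp h
      exact (radical_iff p _ hp g).mpr ⟨R, sInf_le_radical p H R h1 h2, h2, h3⟩
    · intro h
      obtain ⟨V, h1, h2, h3⟩ := (subN_iff hp g).mp h
      exact (subN_iff hH g).mpr ⟨V, hle.trans h1, h2, h3⟩

end Cfsg.Agent.S4089
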