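import Cfsg.Statements.S4092
import Cfsg.Agent.Lib.Helper77.Frobenius

set_option autoImplicit false
open Cfsg

namespace Cfsg.Agent.S4092

theorem lt_card {X : Type*} [Group X] [Finite X] {p : ℕ} [Fact p.Prime]
    {H K : Subgroup X} (hK : IsPGroup p K) (h : H < K) : p * Nat.card H ≤ Nat.card K := by
  have hp : p.Prime := Fact.out
  have h1 : Nat.card H * H.relIndex K = Nat.card K := by
    have := Subgroup.relIndex_mul_relIndex ⊥ H K bot_le h.le
    rwa [Subgroup.relIndex_bot_left, Subgroup.relIndex_bot_left] at this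
  obtain ⟨n, hn⟩ := IsPGroup.iff_card.mp hK
  have h2 : H.relIndex K ∣ p ^ n := hn ▸ Dvd.intro_left _ h1
  obtain ⟨j, _, hj⟩ := (Nat.dvd_prime_pow hp).mp h2
  have hj0 : j ≠ 0 := by
    rintro rfl
    rw [pow_zero, Subgroup.relIndex_eq_one] at hj
    exact absurd h (not_lt_of_ge hj)
  have h3 : p ≤ H.relIndex K := by
    rw [hj]
    calc p = p ^ 1 := (pow_one p).symm
      _ ≤ p ^ j := Nat.pow_le_pow_right hp.pos (Nat.one_le_iff_ne_zero.mpr hj0)
  calc p * Nat.card H ≤ H.relIndex K * Nat.card H := Nat.mul_le_mul_right _ h3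
    _ = Nat.card K := by rw [mul_comm, h1]

theorem normal_pgroup_le_sylow {G : Type*} [Group G] {p : ℕ} (K : Subgroup G) [K.Normal]
    (hK : IsPGroup p K) (Q : Sylow p G) : K ≤ Q := by
  have h1 : IsPGroup p (↑((Q : Subgroup G) ⊔ K) : Subgroup G) := Q.2.to_sup_of_normal_right hK
  have h2 := Q.3 h1 le_sup_left
  calc K ≤ (Q : Subgroup G) ⊔ K := le_sup_right
    _ = Q := h2

/-- Let G be a finite group, p a prime and P a Sylow p-subgroup of G that is not normal in G. Then G has at least p·#P elements of p-power order (the identity included). -/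
theorem result {G : Type*} [Group G] [Finite G] (p : ℕ) [Fact p.Prime]
    (P : Sylow p G) (hP : ¬ (P : Subgroup G).Normal) :
    p * Nat.card (P : Subgroup G) ≤ Nat.card {g : G // ∃ k : ℕ, orderOf g = p ^ k} := by
  classical
  have hp : p.Prime := Fact.out
  have : Fintype G := Fintype.ofFinite G
  have : Fintype (Sylow p G) := Fintype.ofFinite _
  have hcardS : ∀ Q : Sylow p G, Nat.card (Q : Subgroup G) = Nat.card (P : Subgroup G) :=
    fun Q => by rw [Q.card_eq_multiplicity, P.card_eq_multiplicity]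
  -- two distinct Sylow subgroups
  obtain ⟨P', hPP'⟩ : ∃ P' : Sylow p G, P' ≠ P := by
    by_contra h
    push Not at h
    apply hP
    rw [← Subgroup.normalizer_eq_top_iff, eq_top_iff]
    intro g _
    exact Sylow.smul_eq_iff_mem_normalizer.mp (h (g • P))
  obtain ⟨⟨Q1, Q2⟩, hq, hmax⟩ := Finset.exists_max_image
    (Finset.univ.filter (fun q : Sylow p G × Sylow p G => q.1 ≠ q.2))
    (fun q => Nat.card ↥((q.1 : Subgroup G) ⊓ (q.2 : Subgroup G))) ⟨(P', P), by simpa using hPP'⟩
  simp only [Finset.mem_filter, Finset.mem_univ, true_and] at hq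
  have hmax' : ∀ R1 R2 : Sylow p G, R1 ≠ R2 →
      Nat.card ↥((R1 : Subgroup G) ⊓ (R2 : Subgroup G)) ≤ Nat.card ↥((Q1 : Subgroup G) ⊓ (Q2 : Subgroup G)) := by
    intro R1 R2 h
    exact hmax (R1, R2) (by simpa using h)
  set D : Subgroup G := (Q1 : Subgroup G) ⊓ (Q2 : Subgroup G) with hD
  have hDp : IsPGroup p D := Q1.2.to_le inf_le_left
  have hDQ : ∀ Q : Sylow p G, D ≤ Q → D ≠ Q → D < (Q : Subgroup G) := fun Q h1 h2 => lt_of_le_of_ne h1 h2
  have hD1 : D < (Q1 : Subgroup G) := by
    refine lt_of_le_of_ne inf_le_left ?_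
    intro h
    have h1 : (Q1 : Subgroup G) ≤ Q2 := by rw [← h]; exact inf_le_right
    exact hq (Sylow.ext (Q1.3 Q2.2 h1).symm)
  have hD2 : D < (Q2 : Subgroup G) := by
    refine lt_of_le_of_ne inf_le_right ?_
    intro h
    have h1 : (Q2 : Subgroup G) ≤ Q1 := by rw [← h]; exact inf_le_left
    exact hq (Sylow.ext (Q2.3 Q1.2 h1))
  set M : Subgroup G := Subgroup.normalizer (D : Set G) with hM
  have hDM : D ≤ M := Subgroup.le_normalizer
  -- choice of a Sylow subgroup of G above each Sylow subgroup of M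
  have hR : ∀ T : Sylow p M, ∃ R : Sylow p G, (T : Subgroup M).map M.subtype ≤ R :=
    fun T => (T.2.map _).exists_le_sylow
  choose R hRT using hR
  have hRM : ∀ T : Sylow p M, ((R T : Subgroup G)).subgroupOf M = T := by
    intro T
    apply T.3
    · exact (R T).2.comap_of_injective M.subtype M.subtype_injective
    · intro x hx
      rw [Subgroup.mem_subgroupOf]
      exact hRT T (Subgroup.mem_map_of_mem _ hx)
  have hRinj : Function.Injective R := by
    intro T T' h
    apply Sylow.ext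
    rw [← hRM T, ← hRM T', h]
  have hDR : ∀ T : Sylow p M, D ≤ R T := by
    intro T x hx
    apply hRT T
    have h1 : (D.subgroupOf M) ≤ T :=
      normal_pgroup_le_sylow (D.subgroupOf M) (hDp.comap_of_injective M.subtype M.subtype_injective) T
    exact Subgroup.mem_map.mpr ⟨⟨x, hDM hx⟩, h1 (Subgroup.mem_subgroupOf.mpr hx), rfl⟩
  have hpair : ∀ T T' : Sylow p M, T ≠ T' → (R T : Subgroup G) ⊓ (R T' : Subgroup G) = D := by
    intro T T' h
    exact (Subgroup.eq_of_le_of_card_ge (le_inf (hDR T) (hDR T')) (hmax' _ _ (hRinj.ne h))).symm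
  -- at least p + 1 Sylow subgroups in M
  have hbig : ∀ (Q : Sylow p G), D < (Q : Subgroup G) → ∃ T : Sylow p M, R T = Q := by
    intro Q hDQ'
    obtain ⟨x, hxQ, hxM, hxD⟩ := Cfsg.Agent.Lib.Helper77.exists_normalizer_notMem (Q : Subgroup G) Q.2 D hDQ'
    have hU : IsPGroup p ((Subgroup.zpowers x).subgroupOf M) :=
      (Q.2.to_le (by rwa [Subgroup.zpowers_le] : Subgroup.zpowers x ≤ Q)).comap_of_injective M.subtype
        M.subtype_injective
    obtain ⟨T, hT⟩ := hU.exists_le_sylow
    refine ⟨T, ?_⟩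
    by_contra hne
    have h1 := hmax' _ _ hne
    have h2 : D < (R T : Subgroup G) ⊓ (Q : Subgroup G) := by
      refine lt_of_le_of_ne (le_inf (hDR T) hDQ'.le) ?_
      intro h
      apply hxD
      rw [h]
      refine ⟨hRT T (Subgroup.mem_map.mpr ⟨⟨x, hxM⟩, hT ?_, rfl⟩), hxQ⟩
      exact Subgroup.mem_subgroupOf.mpr (Subgroup.mem_zpowers x)
    have h3 := lt_card ((R T).2.to_le inf_le_left) h2
    have h4 : 0 < Nat.card D := Nat.card_pos
    have h5 : 2 ≤ p := hp.two_le
    nlinarith
  obtain ⟨T1, hT1⟩ := hbig Q1 hD1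
  obtain ⟨T2, hT2⟩ := hbig Q2 hD2
  have hT12 : T1 ≠ T2 := by
    intro h
    apply hq
    change Q1 = Q2
    rw [← hT1, ← hT2, h]
  have : Fintype (Sylow p M) := Fintype.ofFinite _
  have hnum : p + 1 ≤ Fintype.card (Sylow p M) := by
    have h1 : Nat.card (Sylow p M) ≡ 1 [MOD p] := card_sylow_modEq_one p M
    rw [Nat.card_eq_fintype_card] at h1
    have h2 : 1 < Fintype.card (Sylow p M) := Fintype.one_lt_card_iff.mpr ⟨T1, T2, hT12⟩
    have h3 : p ∣ Fintype.card (Sylow p M) - 1 := (Nat.modEq_iff_dvd' h2.le).mp h1.symm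
    have h4 := Nat.le_of_dvd (by omega) h3
    omega
  -- counting
  set Df : Finset G := Finset.univ.filter (fun x => x ∈ D) with hDf
  let A : Sylow p M → Finset G := fun T => (Finset.univ.filter (fun x => x ∈ (R T : Subgroup G))) \ Df
  have hDfcard : Df.card = Nat.card D := by
    rw [Nat.card_eq_fintype_card, Fintype.card_subtype]
  have hAcard : ∀ T, (A T).card = Nat.card (P : Subgroup G) - Nat.card D := by
    intro T
    have hsub : Df ⊆ Finset.univ.filter (fun x => x ∈ (R T : Subgroup G)) := by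
      intro x hx
      simp only [hDf, Finset.mem_filter, Finset.mem_univ, true_and] at hx ⊢
      exact hDR T hx
    have hRc : (Finset.univ.filter (fun x => x ∈ (R T : Subgroup G))).card = Nat.card (R T : Subgroup G) := by
      rw [Nat.card_eq_fintype_card, Fintype.card_subtype]
    rw [Finset.card_sdiff_of_subset hsub, hDfcard, ← hcardS (R T), hRc]
  have hAdisj : ∀ T ∈ (Finset.univ : Finset (Sylow p M)), ∀ T' ∈ (Finset.univ : Finset (Sylow p M)),
      T ≠ T' → Disjoint (A T) (A T') := by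
    intro T _ T' _ h
    rw [Finset.disjoint_left]
    intro x hx hx'
    simp only [A, hDf, Finset.mem_sdiff, Finset.mem_filter, Finset.mem_univ, true_and] at hx hx'
    apply hx.2
    rw [← hpair T T' h]
    exact ⟨hx.1, hx'.1⟩
  set U : Finset G := Finset.univ.biUnion A with hU
  have hUcard : U.card = Fintype.card (Sylow p M) * (Nat.card (P : Subgroup G) - Nat.card D) := by
    rw [hU, Finset.card_biUnion hAdisj, Finset.sum_congr rfl (fun T _ => hAcard T), Finset.sum_const,
      Finset.card_univ, smul_eq_mul]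
  have hUD : Disjoint U Df := by
    rw [Finset.disjoint_left]
    intro x hx hx'
    obtain ⟨T, _, hT⟩ := Finset.mem_biUnion.mp hx
    simp only [A, Finset.mem_sdiff] at hT
    exact hT.2 hx'
  have hsubE : U ∪ Df ⊆ Finset.univ.filter (fun g : G => ∃ k : ℕ, orderOf g = p ^ k) := by
    intro x hx
    simp only [Finset.mem_filter, Finset.mem_univ, true_and]
    rcases Finset.mem_union.mp hx with hx | hx
    · obtain ⟨T, _, hT⟩ := Finset.mem_biUnion.mp hx
      simp only [A, Finset.mem_sdiff, Finset.mem_filter, Finset.mem_univ, true_and] at hT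
      obtain ⟨k, hk⟩ := (IsPGroup.iff_orderOf.mp (R T).2) ⟨x, hT.1⟩
      exact ⟨k, by rw [← hk, Subgroup.orderOf_mk]⟩
    · simp only [hDf, Finset.mem_filter, Finset.mem_univ, true_and] at hx
      obtain ⟨k, hk⟩ := (IsPGroup.iff_orderOf.mp hDp) ⟨x, hx⟩
      exact ⟨k, by rw [← hk, Subgroup.orderOf_mk]⟩
  have hfinal := Finset.card_le_card hsubE
  rw [Finset.card_union_of_disjoint hUD, hUcard, hDfcard] at hfinal
  rw [Nat.card_eq_fintype_card (α := {g : G // ∃ k : ℕ, orderOf g = p ^ k}), Fintype.card_subtype]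
  refine le_trans ?_ hfinal
  have h6 := lt_card Q1.2 hD1
  rw [hcardS Q1] at h6
  have h7 : Nat.card D ≤ Nat.card (P : Subgroup G) := by
    have h5 : 1 ≤ p := hp.one_lt.le
    nlinarith
  obtain ⟨e, he⟩ := Nat.exists_eq_add_of_le h7
  rw [he] at h6 ⊢
  have h8 : Nat.card D + e - Nat.card D = e := by omega
  rw [h8]
  have h9 : (p + 1) * e ≤ Fintype.card (Sylow p M) * e := Nat.mul_le_mul_right _ hnum
  nlinarith

end Cfsg.Agent.S4092
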