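import Cfsg.Statements.S4093
-- import your own Cfsg.Agent.* helpers here

set_option autoImplicit false
open scoped BigOperators
open Cfsg

namespace Cfsg.Agent.S4093

theorem orderOf_conj' {G : Type*} [Group G] (a y : G) : orderOf (a * y * a⁻¹) = orderOf y := by
  have hsc : SemiconjBy a y (a * y * a⁻¹) := by
    rw [SemiconjBy]; group
  exact (hsc.orderOf_eq a).symm

/-- Let G be a finite group with a normal subgroup N complementing a Sylow p-subgroup P (a normal p-complement). Then the number of elements of G of p-power order equals the sum over x ∈ P of the index of C_N(x) in N. -/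
theorem result {G : Type*} [Group G] [Finite G] (p : ℕ) [Fact p.Prime]
    (P : Sylow p G) (N : Subgroup G) [N.Normal] (hNP : N.IsComplement' (P : Subgroup G)) :
    Nat.card {g : G // ∃ k : ℕ, orderOf g = p ^ k} =
      ∑ᶠ x : (P : Subgroup G), Nat.card N / Nat.card ↥(N ⊓ Subgroup.centralizer ({(x : G)} : Set G)) := by
  classical
  have hp : p.Prime := Fact.out
  have hdisj : ∀ g, g ∈ N → g ∈ (P : Subgroup G) → g = 1 := by
    intro g h1 h2
    exact Subgroup.disjoint_def.mp hNP.disjoint h1 h2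
  let S : ↥(P : Subgroup G) → Subgroup N :=
    fun x => (Subgroup.centralizer ({(x : G)} : Set G)).subgroupOf N
  have hord : ∀ (x : (P : Subgroup G)) (m : N), ∃ k : ℕ, orderOf ((m : G) * x * (m : G)⁻¹) = p ^ k := by
    intro x m
    obtain ⟨k, hk⟩ := (IsPGroup.iff_orderOf.mp P.2) x
    exact ⟨k, by rw [orderOf_conj', Subgroup.orderOf_coe, hk]⟩
  let fx : ∀ x : (P : Subgroup G), N ⧸ S x → {g : G // ∃ k : ℕ, orderOf g = p ^ k} := fun x =>
    Quotient.lift (fun m : N => ⟨(m : G) * x * (m : G)⁻¹, hord x m⟩) (by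
      intro a b hab
      have h1 : a⁻¹ * b ∈ S x := QuotientGroup.leftRel_apply.mp hab
      rw [Subgroup.mem_subgroupOf, Subgroup.mem_centralizer_singleton_iff] at h1
      simp only [Subgroup.coe_mul, Subgroup.coe_inv] at h1
      apply Subtype.ext
      change (a : G) * x * (a : G)⁻¹ = (b : G) * x * (b : G)⁻¹
      calc (a : G) * x * (a : G)⁻¹ = a * (x * ((a : G)⁻¹ * b)) * (b : G)⁻¹ := by group
        _ = a * ((a : G)⁻¹ * b * x) * (b : G)⁻¹ := by rw [h1]
        _ = (b : G) * x * (b : G)⁻¹ := by group)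
  let f : (Σ x : (P : Subgroup G), N ⧸ S x) → {g : G // ∃ k : ℕ, orderOf g = p ^ k} :=
    fun a => fx a.1 a.2
  have hinj : Function.Injective f := by
    rintro ⟨x, q⟩ ⟨x', q'⟩ h
    induction q using Quotient.inductionOn with | _ m =>
    induction q' using Quotient.inductionOn with | _ m' =>
    have h1 : (m : G) * x * (m : G)⁻¹ = (m' : G) * x' * (m' : G)⁻¹ := congrArg Subtype.val h
    have hxx : x = x' := by
      have h2 : (x' : G) * (x : G)⁻¹ = 1 := by
        apply hdisj
        · have e : (x' : G) * (x : G)⁻¹ =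
              ((x' : G) * (m' : G)⁻¹ * (x' : G)⁻¹)⁻¹ * ((m' : G)⁻¹ * m) * ((x : G) * (m : G)⁻¹ * (x : G)⁻¹) := by
            have e2 : (x' : G) = (m' : G)⁻¹ * ((m : G) * x * (m : G)⁻¹) * m' := by rw [h1]; group
            calc (x' : G) * (x : G)⁻¹ = (x' : G) * m' * (x' : G)⁻¹ * (x' : G) * (m' : G)⁻¹ * (x : G)⁻¹ := by group
              _ = (x' : G) * m' * (x' : G)⁻¹ * ((m' : G)⁻¹ * ((m : G) * x * (m : G)⁻¹) * m') * (m' : G)⁻¹ * (x : G)⁻¹ := by
                  nth_rewrite 3 [e2]; rfl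
              _ = _ := by group
          rw [e]
          refine N.mul_mem (N.mul_mem (N.inv_mem ?_) (N.mul_mem (N.inv_mem m'.2) m.2)) ?_
          · exact Subgroup.Normal.conj_mem inferInstance _ (N.inv_mem m'.2) _
          · exact Subgroup.Normal.conj_mem inferInstance _ (N.inv_mem m.2) _
        · exact Subgroup.mul_mem _ x'.2 (Subgroup.inv_mem _ x.2)
      rw [mul_inv_eq_one] at h2
      exact Subtype.ext h2.symm
    subst hxx
    congr 1
    apply Quotient.sound
    apply QuotientGroup.leftRel_apply.mpr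
    rw [Subgroup.mem_subgroupOf, Subgroup.mem_centralizer_singleton_iff]
    simp only [Subgroup.coe_mul, Subgroup.coe_inv]
    calc (m : G)⁻¹ * m' * x = (m : G)⁻¹ * ((m' : G) * x * (m' : G)⁻¹) * m' := by group
      _ = (m : G)⁻¹ * ((m : G) * x * (m : G)⁻¹) * m' := by rw [h1]
      _ = x * ((m : G)⁻¹ * m') := by group
  have hsurj : Function.Surjective f := by
    rintro ⟨g, k, hk⟩
    have hup : IsPGroup p (Subgroup.zpowers g) := by
      rw [IsPGroup.iff_card, Nat.card_zpowers]
      exact ⟨k, hk⟩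
    obtain ⟨Q, hQ⟩ := hup.exists_le_sylow
    obtain ⟨h, hh⟩ := MulAction.exists_smul_eq G Q P
    have hxP : h * g * h⁻¹ ∈ (P : Subgroup G) := by
      rw [← hh, Sylow.coe_subgroup_smul]
      have := Subgroup.smul_mem_pointwise_smul g (MulAut.conj h) (Q : Subgroup G)
        (hQ (Subgroup.mem_zpowers g))
      simpa using this
    have htop : h⁻¹ ∈ N ⊔ (P : Subgroup G) := by rw [hNP.sup_eq_top]; trivial
    obtain ⟨m, hm, u, hu, hmu⟩ := Subgroup.mem_sup_of_normal_left.mp htop
    refine ⟨⟨⟨u * (h * g * h⁻¹) * u⁻¹, Subgroup.mul_mem _ (Subgroup.mul_mem _ hu hxP) (Subgroup.inv_mem _ hu)⟩,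
      Quotient.mk _ ⟨m, hm⟩⟩, ?_⟩
    apply Subtype.ext
    change m * (u * (h * g * h⁻¹) * u⁻¹) * m⁻¹ = g
    have : m * (u * (h * g * h⁻¹) * u⁻¹) * m⁻¹ = (m * u) * h * g * h⁻¹ * (m * u)⁻¹ := by group
    rw [this, hmu]; group
  have : Fintype (P : Subgroup G) := Fintype.ofFinite _
  rw [← Nat.card_congr (Equiv.ofBijective f ⟨hinj, hsurj⟩), Nat.card_sigma, finsum_eq_sum_of_fintype]
  apply Finset.sum_congr rfl
  intro x _
  have h1 := (S x).card_mul_index
  have h2 : Nat.card (S x) = Nat.card ↥(N ⊓ Subgroup.centralizer ({(x : G)} : Set G)) := by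
    rw [← Subgroup.card_map_of_injective N.subtype_injective, Subgroup.subgroupOf_map_subtype, inf_comm]
  rw [← h2, ← h1]
  change (S x).index = _
  rw [Nat.mul_div_cancel_left _ Nat.card_pos]

end Cfsg.Agent.S4093
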