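import Cfsg.Statements.S4097
import Mathlib
import Cfsg.Agent.S0034
import Cfsg.Agent.S0035
import Cfsg.Agent.Lib.Helper27.Signalizer
import Cfsg.Agent.Lib.Helper30.Coprime

set_option autoImplicit false
open Cfsg

namespace Cfsg.Agent.S4097

open Subgroup
open scoped Pointwise

universe u

/-- the hypothesis of the statement -/
def Hyp {G : Type*} [Group G] (A : Subgroup G) : Prop :=
  Group.IsSolvable A ∧
    ∀ S : Subgroup G, A ≤ S → Group.IsSolvable S → ∀ a ∈ A, ∀ s ∈ S, a * s = s * a

theorem le_center_of_le_normal {G : Type*} [Group G] {A : Subgroup G} (h : Hyp A)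
    (T : Subgroup G) [T.Normal] (hT : Group.IsSolvable T) (hAT : A ≤ T) : A ≤ center G := by
  intro a ha
  rw [mem_center_iff]
  intro g
  have hs : Group.IsSolvable (T ⊔ zpowers g : Subgroup G) :=
    Cfsg.Agent.Lib.Helper27.isSolvable_sup hT
      (Group.isSolvable_of_comm (fun x y => by
        obtain ⟨x, i, rfl⟩ := x
        obtain ⟨y, j, rfl⟩ := y
        apply Subtype.ext
        show g ^ i * g ^ j = g ^ j * g ^ i
        rw [← zpow_add, ← zpow_add, add_comm]))
      (by rw [normalizer_eq_top]; exact le_top)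
  exact (h.2 _ (hAT.trans le_sup_left) hs a ha g
    ((le_sup_right : zpowers g ≤ T ⊔ zpowers g) (mem_zpowers g))).symm

theorem hyp_subgroupOf {G : Type*} [Group G] {A : Subgroup G} (h : Hyp A) (H : Subgroup G)
    (hAH : A ≤ H) : Hyp (A.subgroupOf H) := by
  have hA := h.1
  refine ⟨Group.isSolvable_of_surjective (f := (subgroupOfEquivOfLe hAH).symm.toMonoidHom)
    (MulEquiv.surjective _), ?_⟩
  intro S hS hSs a ha s hs
  have h1 : Group.IsSolvable (S.map H.subtype) :=
    Group.isSolvable_of_surjective
      (f := (S.equivMapOfInjective _ H.subtype_injective).toMonoidHom) (MulEquiv.surjective _)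
  have h2 : A ≤ S.map H.subtype := by
    intro x hx
    exact ⟨⟨x, hAH hx⟩, hS (mem_subgroupOf.2 hx), rfl⟩
  have := h.2 _ h2 h1 a (mem_subgroupOf.1 ha) s ⟨s, hs, rfl⟩
  exact Subtype.ext this

theorem isSolvable_comap_mk {G : Type*} [Group G] (N : Subgroup G) [N.Normal]
    (hN : Group.IsSolvable N) (S : Subgroup (G ⧸ N)) (hS : Group.IsSolvable S) :
    Group.IsSolvable (S.comap (QuotientGroup.mk' N)) := by
  have hle : N ≤ S.comap (QuotientGroup.mk' N) := by
    intro x hx
    rw [mem_comap]
    have : QuotientGroup.mk' N x = 1 := by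
      rw [QuotientGroup.mk'_apply, QuotientGroup.eq_one_iff]; exact hx
    rw [this]; exact S.one_mem
  refine Group.isSolvable_of_ker_le_range (inclusion hle)
    ((QuotientGroup.mk' N).subgroupComap S) ?_
  intro x hx
  rw [MonoidHom.mem_ker] at hx
  have h1 : QuotientGroup.mk' N (x : G) = 1 := congrArg Subtype.val hx
  rw [QuotientGroup.mk'_apply, QuotientGroup.eq_one_iff] at h1
  exact ⟨⟨x, h1⟩, rfl⟩

theorem hyp_map_mk {G : Type*} [Group G] {A : Subgroup G} (h : Hyp A) (N : Subgroup G)
    [N.Normal] (hN : Group.IsSolvable N) : Hyp (A.map (QuotientGroup.mk' N)) := by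
  have hA := h.1
  refine ⟨Group.isSolvable_of_surjective (f := (QuotientGroup.mk' N).subgroupMap A)
    ((QuotientGroup.mk' N).subgroupMap_surjective A), ?_⟩
  intro S hS hSs a ha s hs
  have h1 := isSolvable_comap_mk N hN S hSs
  obtain ⟨a, ha, rfl⟩ := ha
  obtain ⟨s, rfl⟩ := QuotientGroup.mk'_surjective N s
  have h2 := h.2 _ (map_le_iff_le_comap.1 hS) h1 a ha s hs
  rw [← map_mul, ← map_mul, h2]

theorem main : ∀ (n : ℕ) (G : Type u) [Group G] [Finite G] (A : Subgroup G),
    Nat.card G = n → Hyp A → A ≤ center G := by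
  intro n
  induction n using Nat.strong_induction_on with
  | _ n ih =>
  intro G _ _ A hn h
  by_contra hcon
  have hab : ∀ a ∈ A, ∀ b ∈ A, a * b = b * a := h.2 A le_rfl h.1
  have step1 : ∀ H : Subgroup G, A ≤ H → H ≠ ⊤ → H ≤ centralizer (A : Set G) := by
    intro H hAH hH
    have hlt : Nat.card H < n := by
      rw [← hn, ← card_top (G := G)]
      exact Cfsg.Agent.Lib.Helper30.card_lt_of_lt (lt_top_iff_ne_top.2 hH)
    have h0 := ih _ hlt H (A.subgroupOf H) rfl (hyp_subgroupOf h H hAH)
    intro x hx
    rw [mem_centralizer_iff]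
    intro a ha
    have h1 := h0 (mem_subgroupOf.2 (show ((⟨a, hAH ha⟩ : H) : G) ∈ A from ha))
    rw [mem_center_iff] at h1
    have h2 := h1 ⟨x, hx⟩
    exact (congrArg Subtype.val h2).symm
  have step2 : ∀ N : Subgroup G, N.Normal → Group.IsSolvable N → N = ⊥ := by
    intro N hN hNs
    by_contra hne
    have hlt : Nat.card (G ⧸ N) < n := by
      rw [← hn, card_eq_card_quotient_mul_card_subgroup N]
      have h1 : 1 < Nat.card N := by
        rw [Finite.one_lt_card_iff_nontrivial]
        exact (nontrivial_iff_ne_bot N).2 hne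
      have h2 : 0 < Nat.card (G ⧸ N) := Nat.card_pos
      nlinarith
    have h1 := ih _ hlt (G ⧸ N) (A.map (QuotientGroup.mk' N)) rfl (hyp_map_mk h N hNs)
    have h2 : (A.map (QuotientGroup.mk' N)).Normal := by
      constructor
      intro x hx g
      have := mem_center_iff.1 (h1 hx) g
      rw [this, mul_inv_cancel_right]
      exact hx
    have h3 : ((A.map (QuotientGroup.mk' N)).comap (QuotientGroup.mk' N)).Normal := h2.comap _
    exact hcon (le_center_of_le_normal h _
      (isSolvable_comap_mk N hNs _ (hyp_map_mk h N hNs).1) (le_comap_map _ _))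
  set M := centralizer (A : Set G) with hMdef
  have hAM : A ≤ M := by
    intro a ha
    rw [hMdef, mem_centralizer_iff]
    intro b hb
    exact hab b hb a ha
  have hM : M ≠ ⊤ := by
    intro hM
    apply hcon
    intro a ha
    rw [mem_center_iff]
    intro g
    have hg : g ∈ M := by rw [hM]; trivial
    rw [hMdef, mem_centralizer_iff] at hg
    exact (hg a ha).symm
  have hAbot : A ≠ ⊥ := by
    intro hA
    apply hcon
    rw [hA]; exact bot_le
  have hMbot : M ≠ ⊥ := by
    intro hMb
    apply hAbot
    rw [eq_bot_iff, ← hMb]; exact hAM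
  have hcenter : center G = ⊥ := step2 _ inferInstance
    (Group.isSolvable_of_comm (fun x y => Subtype.ext ((mem_center_iff.1 x.2 y).symm)))
  -- weak closure type claim
  have hW : ∀ g : G, MulAut.conj g • A ≤ M → g ∈ M := by
    intro g hg
    have h3 : A ≤ MulAut.conj g⁻¹ • M := by
      have := Cfsg.Agent.Lib.Helper30.cj_le_iff.1 hg
      exact this
    have h4 : MulAut.conj g⁻¹ • M ≠ ⊤ := by
      intro h4
      apply hM
      have h5 : Nat.card (MulAut.conj g⁻¹ • M : Subgroup G) = Nat.card M :=
        Cfsg.Agent.Lib.Helper30.card_cj g⁻¹ M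
      rw [h4, card_top] at h5
      exact (card_eq_iff_eq_top M).1 h5.symm
    have h5 : MulAut.conj g⁻¹ • M ≤ M := step1 _ h3 h4
    have h6 : MulAut.conj g⁻¹ • M = M :=
      eq_of_le_of_card_ge h5 (Cfsg.Agent.Lib.Helper30.card_cj g⁻¹ M).ge
    have h7 : g⁻¹ ∈ normalizer (M : Set G) := Cfsg.Agent.Lib.Helper30.mem_normalizer_of_cj_eq h6
    have h8 : g ∈ normalizer (M : Set G) := by
      have := inv_mem h7
      rwa [inv_inv] at this
    by_cases hN : normalizer (M : Set G) = ⊤
    · exfalso
      have hMn : M.Normal := normalizer_eq_top_iff.1 hN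
      have hCs : Group.IsSolvable (centralizer (M : Set G)) := by
        apply Group.isSolvable_of_comm
        intro x y
        have hy : (y : G) ∈ M := centralizer_le (show (A : Set G) ⊆ M from hAM) y.2
        have := mem_centralizer_iff.1 x.2 y hy
        exact Subtype.ext this.symm
      have hAC : A ≤ centralizer (M : Set G) := by
        intro a ha
        rw [mem_centralizer_iff]
        intro m hm
        exact (mem_centralizer_iff.1 hm a ha).symm
      exact hcon (le_center_of_le_normal h _ hCs hAC)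
    · exact step1 _ (hAM.trans le_normalizer) hN h8
  have hTI : ∀ g : G, g ∉ M → M ⊓ (MulAut.conj g • M) = ⊥ := by
    intro g hg
    rw [eq_bot_iff]
    intro x hx
    rw [mem_bot]
    by_contra hx1
    apply hg
    apply hW
    have hC : centralizer {x} ≠ (⊤ : Subgroup G) := by
      intro hC
      apply hx1
      have : x ∈ center G := by
        rw [mem_center_iff]
        intro y
        have hy : y ∈ centralizer ({x} : Set G) := by rw [hC]; trivial
        exact (mem_centralizer_singleton_iff.1 hy)
      rw [hcenter] at this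
      exact this
    have hAC : A ≤ centralizer {x} := by
      intro a ha
      rw [mem_centralizer_singleton_iff]
      exact (mem_centralizer_iff.1 hx.1 a ha)
    refine le_trans ?_ (step1 _ hAC hC)
    intro y hy
    rw [mem_centralizer_singleton_iff]
    have hx2 := Cfsg.Agent.Lib.Helper30.mem_cj.1 hx.2
    have hy2 := Cfsg.Agent.Lib.Helper30.mem_cj.1 hy
    have := mem_centralizer_iff.1 hx2 _ hy2
    have e : y * x = g * ((g⁻¹ * y * g) * (g⁻¹ * x * g)) * g⁻¹ := by group
    rw [e, this]; group
  have hF : Cfsg.IsFrobeniusComplement M := ⟨hMbot, hM, hTI⟩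
  obtain ⟨K, hKset, hKn, hKM⟩ := Cfsg.Agent.S0035.result M hF
  have hcard := Cfsg.Agent.S0034.result M hF
  have hK1 : Nat.card K = M.index := by
    rw [← hcard.1, ← hKset]; rfl
  have hcop : (Nat.card M).Coprime (Nat.card K) := by
    rw [hK1]
    have h1 : M.index ≡ 1 [MOD Nat.card M] := hcard.2
    have h2 := h1.gcd_eq
    rw [Nat.gcd_one_left] at h2
    exact (Nat.coprime_comm.1 h2)
  have hKbot : K ≠ ⊥ := by
    rintro rfl
    exact hM (isComplement'_bot_left.1 hKM)
  have hK2 : Nat.card K ≠ 1 := by
    intro h1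
    exact hKbot ((card_eq_one).1 h1)
  obtain ⟨r, hr, hrK⟩ := Nat.exists_prime_and_dvd hK2
  have := Fact.mk hr
  obtain ⟨P, hP, hAP⟩ := Cfsg.Agent.Lib.Helper30.exists_invariant_isSylowIn (A := A) (K := K)
    (by rw [normalizer_eq_top]; exact le_top)
    (Nat.Coprime.coprime_dvd_left (card_dvd_of_le hAM) hcop) (Or.inl h.1) r
  have hPs : Group.IsSolvable P := by
    have := hP.isPGroup.isNilpotent
    infer_instance
  have hS := Cfsg.Agent.Lib.Helper27.isSolvable_sup hPs h.1 hAP
  have h1 := h.2 _ le_sup_right hS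
  have hPM : P ≤ M := by
    intro x hx
    rw [hMdef, mem_centralizer_iff]
    intro a ha
    exact h1 a ha x ((le_sup_left : P ≤ P ⊔ A) hx)
  have hPbot : P = ⊥ := by
    rw [eq_bot_iff, ← hKM.disjoint.eq_bot]
    exact le_inf hP.le hPM
  apply hP.not_dvd
  rw [hPbot, relIndex_bot_left]
  exact hrK


/-- Let A be a solvable subgroup of a finite group G such that A lies in the centre of every solvable subgroup of G containing A. Then A lies in the centre of G. -/
theorem result {G : Type*} [Group G] [Finite G]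
    (A : Subgroup G) (hA : Group.IsSolvable A)
    (hc : ∀ S : Subgroup G, A ≤ S → Group.IsSolvable S → ∀ a ∈ A, ∀ s ∈ S, a * s = s * a) : A ≤ Subgroup.center G := by
  exact main _ G A rfl ⟨hA, hc⟩

end Cfsg.Agent.S4097
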