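import Cfsg.Statements.S4106
-- import your own Cfsg.Agent.* helpers here

set_option autoImplicit false
open Cfsg

namespace Cfsg.Agent.S4106

/-- decomposition of an element into commuting `p`-part and `p'`-part -/
theorem decomp {G : Type*} [Group G] [Finite G] (p : ℕ) (hp : p.Prime) (g : G) :
    ∃ u y : G, g = u * y ∧ u * y = y * u ∧ (∃ k : ℕ, u ^ p ^ k = 1) ∧
      orderOf y ∣ orderOf g ∧ ¬ p ∣ orderOf y := by
  have hn0 : orderOf g ≠ 0 := (orderOf_pos g).ne'
  set n := orderOf g with hn
  set a := ordProj[p] n with ha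
  set b := ordCompl[p] n with hb
  have hab : a * b = n := Nat.ordProj_mul_ordCompl_eq_self n p
  have hcop : Nat.Coprime a b := by
    rw [ha]
    exact Nat.Coprime.pow_left _ (Nat.coprime_ordCompl hp hn0)
  obtain ⟨A, B, hAB⟩ := Nat.isCoprime_iff_coprime.mpr hcop
  refine ⟨g ^ (B * b), g ^ (A * a), ?_, ?_, ⟨n.factorization p, ?_⟩, ?_, ?_⟩
  · rw [← zpow_add, add_comm, hAB, zpow_one]
  · rw [← zpow_add, ← zpow_add, add_comm]
  · change (g ^ (B * b)) ^ a = 1
    rw [← zpow_natCast, ← zpow_mul]
    have : B * (b : ℤ) * (a : ℤ) = B * (n : ℤ) := by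
      rw [← hab]; push_cast; ring
    rw [this, zpow_mul', zpow_natCast, hn, pow_orderOf_eq_one, one_zpow]
  · exact orderOf_dvd_of_mem_zpowers (Subgroup.zpow_mem _ (Subgroup.mem_zpowers g) _)
  · intro hpd
    have h1 : orderOf (g ^ (A * a)) ∣ b := by
      apply orderOf_dvd_of_pow_eq_one
      rw [← zpow_natCast, ← zpow_mul]
      have : A * (a : ℤ) * (b : ℤ) = A * (n : ℤ) := by
        rw [← hab]; push_cast; ring
      rw [this, zpow_mul', zpow_natCast, hn, pow_orderOf_eq_one, one_zpow]
    exact Nat.not_dvd_ordCompl hp hn0 (hpd.trans h1)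

theorem cover : ∀ (s : Finset ℕ), (∀ q ∈ s, q.Prime) → ∀ (G : Type*) [Group G] [Finite G],
    ∃ T : Finset G, T.card ≤ ∏ q ∈ s, q ^ (Nat.card G).factorization q ∧
      ∀ g : G, (∀ q : ℕ, q.Prime → q ∣ orderOf g → q ∈ s) → ∃ t ∈ T, IsConj g t := by
  classical
  intro s
  induction s using Finset.induction_on with
  | empty =>
    intro _ G _ _
    refine ⟨{1}, by simp, ?_⟩
    intro g hg
    refine ⟨1, by simp, ?_⟩
    have : orderOf g = 1 := by
      by_contra h
      obtain ⟨q, hq, hqd⟩ := Nat.exists_prime_and_dvd h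
      exact absurd (hg q hq hqd) (by simp)
    rw [orderOf_eq_one_iff] at this
    rw [this]
  | insert p s hps ih =>
    intro hs G _ _
    have hp : p.Prime := hs p (Finset.mem_insert_self _ _)
    have hs' : ∀ q ∈ s, q.Prime := fun q hq => hs q (Finset.mem_insert_of_mem hq)
    have : Fact p.Prime := ⟨hp⟩
    obtain ⟨P⟩ : Nonempty (Sylow p G) := inferInstance
    have hch : ∀ x : G, ∃ T : Finset (Subgroup.centralizer ({x} : Set G)),
        T.card ≤ ∏ q ∈ s, q ^ (Nat.card (Subgroup.centralizer ({x} : Set G))).factorization q ∧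
        ∀ g : Subgroup.centralizer ({x} : Set G), (∀ q : ℕ, q.Prime → q ∣ orderOf g → q ∈ s) →
          ∃ t ∈ T, IsConj g t := fun x => ih hs' (Subgroup.centralizer ({x} : Set G))
    choose T hT1 hT2 using hch
    have : Fintype (P : Subgroup G) := Fintype.ofFinite _
    refine ⟨(Finset.univ : Finset (P : Subgroup G)).biUnion
      (fun x => (T x).image (fun t : Subgroup.centralizer ({(x : G)} : Set G) => (x : G) * (t : G))), ?_, ?_⟩
    · rw [Finset.prod_insert hps]
      calc _ ≤ ∑ x : (P : Subgroup G), ((T x).image (fun t : Subgroup.centralizer ({(x : G)} : Set G) => (x : G) * (t : G))).card :=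
            Finset.card_biUnion_le
        _ ≤ ∑ _x : (P : Subgroup G), ∏ q ∈ s, q ^ (Nat.card G).factorization q := by
            apply Finset.sum_le_sum
            intro x _
            refine Finset.card_image_le.trans ((hT1 x).trans ?_)
            apply Finset.prod_le_prod'
            intro q hq
            apply Nat.pow_le_pow_right (hs' q hq).pos
            exact (Nat.factorization_le_iff_dvd Nat.card_pos.ne' Nat.card_pos.ne').mpr
              (Subgroup.card_subgroup_dvd_card _) q
        _ = _ := by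
            rw [Finset.sum_const, Finset.card_univ, smul_eq_mul, ← Nat.card_eq_fintype_card,
              P.card_eq_multiplicity]
    · intro g hg
      obtain ⟨u, y, rfl, hcomm, ⟨k, hk⟩, hyd, hyp⟩ := decomp p hp g
      have hup : IsPGroup p (Subgroup.zpowers u) := by
        rw [IsPGroup.iff_card, Nat.card_zpowers]
        obtain ⟨j, _, hj⟩ := (Nat.dvd_prime_pow hp).mp (orderOf_dvd_of_pow_eq_one hk)
        exact ⟨j, hj⟩
      obtain ⟨Q, hQ⟩ := hup.exists_le_sylow
      obtain ⟨h, hh⟩ := MulAction.exists_smul_eq G Q P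
      have hxP : h * u * h⁻¹ ∈ (P : Subgroup G) := by
        rw [← hh, Sylow.coe_subgroup_smul]
        have := Subgroup.smul_mem_pointwise_smul u (MulAut.conj h) (Q : Subgroup G)
          (hQ (Subgroup.mem_zpowers u))
        simpa using this
      obtain ⟨x, hx⟩ : ∃ x, x = h * u * h⁻¹ := ⟨_, rfl⟩
      rw [← hx] at hxP
      have hy' : h * y * h⁻¹ ∈ Subgroup.centralizer ({x} : Set G) := by
        rw [Subgroup.mem_centralizer_singleton_iff, hx]
        calc h * y * h⁻¹ * (h * u * h⁻¹) = h * (y * u) * h⁻¹ := by group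
          _ = h * (u * y) * h⁻¹ := by rw [hcomm]
          _ = h * u * h⁻¹ * (h * y * h⁻¹) := by group
      have hord : orderOf (⟨h * y * h⁻¹, hy'⟩ : Subgroup.centralizer ({x} : Set G)) = orderOf y := by
        rw [← Subgroup.orderOf_coe]
        have hsc : SemiconjBy h y (h * y * h⁻¹) := by
          rw [SemiconjBy]; group
        exact (hsc.orderOf_eq h).symm
      obtain ⟨t, ht, htc⟩ := hT2 x ⟨h * y * h⁻¹, hy'⟩ (by
        intro q hq hqd
        rw [hord] at hqd
        have h1 := hg q hq (hqd.trans hyd)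
        rcases Finset.mem_insert.mp h1 with rfl | h2
        · exact absurd hqd hyp
        · exact h2)
      obtain ⟨c, hc⟩ := isConj_iff.mp htc
      refine ⟨x * t, ?_, ?_⟩
      · rw [Finset.mem_biUnion]
        exact ⟨⟨x, hxP⟩, Finset.mem_univ _, Finset.mem_image.mpr ⟨t, ht, rfl⟩⟩
      · rw [isConj_iff]
        refine ⟨c * h, ?_⟩
        have hc' : (c : G) * (h * y * h⁻¹) * (c : G)⁻¹ = t := by
          have := congrArg Subtype.val hc
          simpa using this
        have hcx : (c : G) * x = x * c := Subgroup.mem_centralizer_singleton_iff.mp c.2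
        have hxh : h * u = x * h := by rw [hx]; group
        calc (c : G) * h * (u * y) * (c * h)⁻¹ = c * (h * u) * y * h⁻¹ * (c : G)⁻¹ := by group
          _ = (c * x) * (h * y * h⁻¹) * (c : G)⁻¹ := by rw [hxh]; group
          _ = x * (c * (h * y * h⁻¹) * (c : G)⁻¹) := by rw [hcx]; group
          _ = x * t := by rw [hc']

/-- Let G be a finite group, π a set of primes and m the π-part of the order of G. Then the number of conjugacy classes of G consisting of π-elements (elements whose order is divisible only by primes in π) is at most m. -/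
theorem result {G : Type*} [Group G] [Finite G]
    (π : Set ℕ) (hπ : ∀ q ∈ π, q.Prime)
    (m : ℕ) (hm : m ∣ Nat.card G) (hmπ : ∀ q : ℕ, q.Prime → q ∣ m → q ∈ π)
    (hm' : ∀ q ∈ π, ¬ q ∣ Nat.card G / m) :
    Nat.card {C : ConjClasses G // ∀ q : ℕ, q.Prime → (∃ g : G, ConjClasses.mk g = C ∧ q ∣ orderOf g) → q ∈ π} ≤ m := by
  classical
  have hn0 : Nat.card G ≠ 0 := Nat.card_pos.ne'
  have hm0 : m ≠ 0 := by
    rintro rfl
    exact hn0 (Nat.eq_zero_of_zero_dvd hm)
  obtain ⟨r, hr⟩ := hm
  have hr0 : r ≠ 0 := by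
    rintro rfl
    exact hn0 (by rw [hr, mul_zero])
  have hdiv : Nat.card G / m = r := by
    rw [hr]; exact Nat.mul_div_cancel_left _ (Nat.pos_of_ne_zero hm0)
  obtain ⟨T, hT1, hT2⟩ := cover m.primeFactors (fun q hq => Nat.prime_of_mem_primeFactors hq) G
  have hprod : ∏ q ∈ m.primeFactors, q ^ (Nat.card G).factorization q = m := by
    conv_rhs => rw [← Nat.prod_factorization_pow_eq_self hm0]
    rw [Finsupp.prod, Nat.support_factorization]
    apply Finset.prod_congr rfl
    intro q hq
    have hqp := Nat.prime_of_mem_primeFactors hq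
    have hqm := Nat.dvd_of_mem_primeFactors hq
    have h1 : ¬ q ∣ r := hdiv ▸ hm' q (hmπ q hqp hqm)
    rw [hr, Nat.factorization_mul hm0 hr0, Finsupp.add_apply,
      Nat.factorization_eq_zero_of_not_dvd h1, add_zero]
  rw [hprod] at hT1
  have hch : ∀ C : {C : ConjClasses G // ∀ q : ℕ, q.Prime → (∃ g : G, ConjClasses.mk g = C ∧ q ∣ orderOf g) → q ∈ π},
      ∃ t : T, ConjClasses.mk (t : G) = C.1 := by
    rintro ⟨C, hC⟩
    obtain ⟨g, rfl⟩ := ConjClasses.exists_rep C
    obtain ⟨t, ht, htc⟩ := hT2 g (by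
      intro q hq hqd
      have h1 : q ∈ π := hC q hq ⟨g, rfl, hqd⟩
      have h2 : ¬ q ∣ r := hdiv ▸ hm' q h1
      have h3 : q ∣ m * r := hr ▸ hqd.trans (orderOf_dvd_natCard g)
      rw [Nat.mem_primeFactors]
      exact ⟨hq, (hq.dvd_mul.mp h3).resolve_right h2, hm0⟩)
    exact ⟨⟨t, ht⟩, (ConjClasses.mk_eq_mk_iff_isConj.mpr htc).symm⟩
  choose f hf using hch
  have hinj : Function.Injective f := by
    intro C D hCD
    apply Subtype.ext
    rw [← hf C, ← hf D, hCD]
  calc _ ≤ Nat.card T := Nat.card_le_card_of_injective f hinj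
    _ = T.card := by rw [Nat.card_eq_fintype_card, Fintype.card_coe]
    _ ≤ m := hT1

end Cfsg.Agent.S4106
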