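import Cfsg.Statements.S4107
-- import your own Cfsg.Agent.* helpers here

set_option autoImplicit false
open Cfsg

namespace Cfsg.Agent.S4107

theorem normal_pgroup_le_sylow {G : Type*} [Group G] {p : ℕ} (K : Subgroup G) [K.Normal]
    (hK : IsPGroup p K) (Q : Sylow p G) : K ≤ Q := by
  have h1 : IsPGroup p (↑((Q : Subgroup G) ⊔ K) : Subgroup G) := Q.2.to_sup_of_normal_right hK
  have h2 := Q.3 h1 le_sup_left
  calc K ≤ (Q : Subgroup G) ⊔ K := le_sup_right
    _ = Q := h2

theorem lemA {G : Type*} [Group G] [Finite G] (N : Subgroup G) [N.Normal]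
    (heq : ∀ x : G, x ∉ N → ∀ n ∈ N, orderOf (x * n) = orderOf x)
    (p : ℕ) [Fact p.Prime] (R : Subgroup G) [R.Normal] (hR : IsPGroup p R) (hRN : ¬ R ≤ N) :
    IsPGroup p N := by
  obtain ⟨x, hxR, hxN⟩ := SetLike.not_le_iff_exists.mp hRN
  obtain ⟨k, hk⟩ := hR ⟨x, hxR⟩
  have hk' : x ^ p ^ k = 1 := by
    have := congrArg Subtype.val hk
    simpa using this
  rintro ⟨y, hy⟩
  have hxy : (x * y) ^ p ^ k = 1 := by
    have h1 : orderOf (x * y) ∣ p ^ k := by
      rw [heq x hxN y hy]; exact orderOf_dvd_of_pow_eq_one hk'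
    exact orderOf_dvd_iff_pow_eq_one.mp h1
  have hcomm : Commute (QuotientGroup.mk x : G ⧸ (R ⊓ N)) (QuotientGroup.mk y) := by
    change (QuotientGroup.mk x : G ⧸ (R ⊓ N)) * QuotientGroup.mk y = QuotientGroup.mk y * QuotientGroup.mk x
    rw [← QuotientGroup.mk_mul, ← QuotientGroup.mk_mul, QuotientGroup.eq]
    constructor
    · have h1 : (x * y)⁻¹ * (y * x) = (y⁻¹ * x⁻¹ * y) * x := by group
      rw [h1]
      exact R.mul_mem (Subgroup.Normal.conj_mem' inferInstance _ (R.inv_mem hxR) _) hxR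
    · have h1 : (x * y)⁻¹ * (y * x) = y⁻¹ * (x⁻¹ * y * x) := by group
      rw [h1]
      exact N.mul_mem (N.inv_mem hy) (Subgroup.Normal.conj_mem' inferInstance _ hy _)
  have h2 : (QuotientGroup.mk (y ^ p ^ k) : G ⧸ (R ⊓ N)) = 1 := by
    have h3 : (QuotientGroup.mk ((x * y) ^ p ^ k) : G ⧸ (R ⊓ N)) = 1 := by rw [hxy]; rfl
    rw [QuotientGroup.mk_pow, QuotientGroup.mk_mul, hcomm.mul_pow, ← QuotientGroup.mk_pow, hk'] at h3
    rw [QuotientGroup.mk_pow]
    simpa using h3
  rw [QuotientGroup.eq_one_iff] at h2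
  obtain ⟨j, hj⟩ := hR ⟨y ^ p ^ k, h2.1⟩
  have hj' : (y ^ p ^ k) ^ p ^ j = 1 := by
    have := congrArg Subtype.val hj
    simpa using this
  refine ⟨k + j, ?_⟩
  apply Subtype.ext
  simp only [Subgroup.coe_pow, Subgroup.coe_one]
  rw [pow_add, pow_mul]
  exact hj'

theorem lemB {G : Type*} [Group G] [Finite G] (K : Subgroup G) [K.Normal]
    (hK : Group.IsNilpotent K) (p : ℕ) [Fact p.Prime] (P : Sylow p K) :
    ((P : Subgroup K).map K.subtype).Normal ∧ IsPGroup p ((P : Subgroup K).map K.subtype) := by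
  have : (P : Subgroup K).Normal := inferInstance
  have : (P : Subgroup K).Characteristic := P.characteristic_of_normal inferInstance
  exact ⟨ConjAct.normal_of_characteristic_of_normal, P.2.map _⟩

theorem lemB' {G : Type*} [Group G] [Finite G] (N K : Subgroup G) [K.Normal]
    (hK : Group.IsNilpotent K) (hKN : ¬ K ≤ N) :
    ∃ (p : ℕ) (_ : Fact p.Prime) (R : Subgroup G), R.Normal ∧ IsPGroup p R ∧ ¬ R ≤ N := by
  have h1 : (N.subgroupOf K).index ≠ 1 := by
    rw [Ne, Subgroup.index_eq_one, Subgroup.subgroupOf_eq_top]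
    exact hKN
  obtain ⟨p, hp, hpd⟩ := Nat.exists_prime_and_dvd h1
  have : Fact p.Prime := ⟨hp⟩
  obtain ⟨P⟩ : Nonempty (Sylow p K) := inferInstance
  refine ⟨p, ⟨hp⟩, (P : Subgroup K).map K.subtype, (lemB K hK p P).1, (lemB K hK p P).2, ?_⟩
  intro hle
  have h2 : (P : Subgroup K) ≤ N.subgroupOf K := by
    intro x hx
    rw [Subgroup.mem_subgroupOf]
    exact hle (Subgroup.mem_map_of_mem _ hx)
  exact P.not_dvd_index (hpd.trans (Subgroup.index_dvd_of_le h2))

theorem pgroup_le_fitting {G : Type*} [Group G] [Finite G] (p : ℕ) [Fact p.Prime] (R : Subgroup G)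
    [R.Normal] (hR : IsPGroup p R) : R ≤ Cfsg.fittingSubgroup G :=
  le_sSup ⟨inferInstance, hR.isNilpotent⟩

/-- Let G be a finite group and N a proper non-trivial normal subgroup such that for every x outside N all elements of the coset xN have the same order as x. Then N ≤ F(G) or F(G) ≤ N, where F(G) is the Fitting subgroup; and if N is properly contained in F(G) then F(G) has prime-power order. -/
theorem result {G : Type*} [Group G] [Finite G] (N : Subgroup G) [N.Normal] (hN1 : N ≠ ⊥) (hN2 : N ≠ ⊤)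
    (heq : ∀ x : G, x ∉ N → ∀ n ∈ N, orderOf (x * n) = orderOf x) :
    (N ≤ Cfsg.fittingSubgroup G ∨ Cfsg.fittingSubgroup G ≤ N) ∧
    (N < Cfsg.fittingSubgroup G → IsPrimePow (Nat.card (Cfsg.fittingSubgroup G))) := by
  have main : ¬ Cfsg.fittingSubgroup G ≤ N → ∃ (p : ℕ) (_ : Fact p.Prime), IsPGroup p N := by
    intro h
    have : ∃ K : Subgroup G, (K.Normal ∧ Group.IsNilpotent K) ∧ ¬ K ≤ N := by
      by_contra hcon
      push Not at hcon
      exact h (sSup_le fun K hK => hcon K hK)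
    obtain ⟨K, ⟨hKn, hKnil⟩, hKN⟩ := this
    obtain ⟨p, hp, R, hRn, hRp, hRN⟩ := lemB' N K hKnil hKN
    exact ⟨p, hp, lemA N heq p R hRp hRN⟩
  constructor
  · by_cases h : Cfsg.fittingSubgroup G ≤ N
    · exact Or.inr h
    · obtain ⟨p, hp, hNp⟩ := main h
      exact Or.inl (pgroup_le_fitting p N hNp)
  · intro hlt
    have h : ¬ Cfsg.fittingSubgroup G ≤ N := fun hle => absurd hlt (not_lt_of_ge hle)
    obtain ⟨p, hp, hNp⟩ := main h
    obtain ⟨P⟩ : Nonempty (Sylow p G) := inferInstance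
    have hall : ∀ K : Subgroup G, K.Normal ∧ Group.IsNilpotent K → K ≤ P := by
      rintro K ⟨hKn, hKnil⟩
      apply normal_pgroup_le_sylow K
      rw [IsPGroup.iff_card]
      have hK0 : Nat.card K ≠ 0 := Nat.card_pos.ne'
      refine ⟨_, Nat.eq_prime_pow_of_unique_prime_dvd hK0 ?_⟩
      intro q hq hqd
      by_contra hqp
      have : Fact q.Prime := ⟨hq⟩
      obtain ⟨Q⟩ : Nonempty (Sylow q K) := inferInstance
      obtain ⟨hQn, hQq⟩ := lemB K hKnil q Q
      have hQne : (Q : Subgroup K) ≠ ⊥ := Q.ne_bot_of_dvd_card hqd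
      have hcop : ∀ (L : Subgroup G), IsPGroup p L → IsPGroup q L → L = ⊥ := by
        intro L h1 h2
        obtain ⟨a, ha⟩ := IsPGroup.iff_card.mp h1
        obtain ⟨b, hb⟩ := IsPGroup.iff_card.mp h2
        have hc : Nat.Coprime (p ^ a) (q ^ b) :=
          Nat.Coprime.pow _ _ ((Nat.coprime_primes hp.out hq).mpr (Ne.symm hqp))
        rw [← ha, ← hb] at hc
        have : Nat.card L = 1 := (Nat.coprime_self _).mp hc
        exact Subgroup.card_eq_one.mp this
      by_cases hQN : (Q : Subgroup K).map K.subtype ≤ N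
      · have := hcop _ (hNp.to_le hQN) hQq
        rw [Subgroup.map_eq_bot_iff_of_injective _ K.subtype_injective] at this
        exact hQne this
      · exact hN1 (hcop N hNp (lemA N heq q _ hQq hQN))
    have hFP : Cfsg.fittingSubgroup G ≤ P := sSup_le fun K hK => hall K hK
    have hFp : IsPGroup p (Cfsg.fittingSubgroup G) := P.2.to_le hFP
    obtain ⟨n, hn⟩ := IsPGroup.iff_card.mp hFp
    rw [hn]
    refine ⟨p, n, hp.out.prime, ?_, rfl⟩
    rcases Nat.eq_zero_or_pos n with h0 | h0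
    · exfalso
      rw [h0, pow_zero, Subgroup.card_eq_one] at hn
      rw [hn] at hlt
      exact not_lt_bot hlt
    · exact h0

end Cfsg.Agent.S4107
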