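import Cfsg.Statements.S4108
import Cfsg.Agent.S0039
import Cfsg.Agent.Lib.Helper82.Frob

set_option autoImplicit false
open Cfsg

namespace Cfsg.Agent.S4108

/-- Let G be a finite group, p a prime and N a proper non-trivial normal p-subgroup such that for every x outside N all elements of the coset xN have the same order as x. Then every non-trivial subgroup H of G of order prime to p acts fixed-point-freely on N: NH is a Frobenius group with complement H and kernel N. -/
theorem result {G : Type*} [Group G] [Finite G] (N : Subgroup G) [N.Normal] (hN1 : N ≠ ⊥) (hN2 : N ≠ ⊤)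
    (heq : ∀ x : G, x ∉ N → ∀ n ∈ N, orderOf (x * n) = orderOf x)
    (p : ℕ) [Fact p.Prime] (hNp : IsPGroup p N) :
    ∀ H : Subgroup G, H ≠ ⊥ → (Nat.card H).Coprime p →
      Cfsg.IsFrobeniusComplement (H.subgroupOf (N ⊔ H)) ∧ Cfsg.frobeniusKernel (H.subgroupOf (N ⊔ H)) = (N.subgroupOf (N ⊔ H) : Set ↥(N ⊔ H)) := by
  intro H hH hcop
  have hp : p.Prime := Fact.out
  have hcopo : ∀ h ∈ H, ∀ k ∈ N, (orderOf h).Coprime (orderOf k) := by
    intro h hh k hk
    obtain ⟨j, hj⟩ := (IsPGroup.iff_orderOf.mp hNp) ⟨k, hk⟩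
    rw [Subgroup.orderOf_mk] at hj
    rw [hj]
    exact Nat.Coprime.pow_right _ (Nat.Coprime.coprime_dvd_left (Subgroup.orderOf_dvd_natCard H hh) hcop)
  have hdisj : ∀ g, g ∈ N → g ∈ H → g = 1 := by
    intro g h1 h2
    have := hcopo g h2 g h1
    rw [Nat.coprime_self] at this
    exact orderOf_eq_one_iff.mp this
  have hfpfG : ∀ h ∈ H, h ≠ 1 → ∀ k ∈ N, h * k = k * h → k = 1 := by
    intro h hh h1 k hk hcomm
    have hhN : h ∉ N := fun hN => h1 (hdisj h hN hh)
    have e1 := heq h hhN k hk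
    have e2 := Commute.orderOf_mul_eq_mul_orderOf_of_coprime (show Commute h k from hcomm) (hcopo h hh k hk)
    rw [e1] at e2
    have e3 : orderOf k = 1 := by
      have hpos : 0 < orderOf h := orderOf_pos h
      nlinarith [Nat.eq_of_mul_eq_mul_left hpos (show orderOf h * 1 = orderOf h * orderOf k by rw [mul_one]; exact e2)]
    exact orderOf_eq_one_iff.mp e3
  have hc : Subgroup.IsComplement' (N.subgroupOf (N ⊔ H)) (H.subgroupOf (N ⊔ H)) := by
    apply Subgroup.isComplement'_of_disjoint_and_mul_eq_univ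
    · rw [Subgroup.disjoint_def]
      intro x hx1 hx2
      rw [Subgroup.mem_subgroupOf] at hx1 hx2
      exact Subtype.ext (hdisj x hx1 hx2)
    · rw [Set.eq_univ_iff_forall]
      rintro ⟨x, hx⟩
      obtain ⟨n, hn, h, hh, rfl⟩ := Subgroup.mem_sup_of_normal_left.mp hx
      refine Set.mem_mul.mpr ⟨⟨n, (le_sup_left : N ≤ N ⊔ H) hn⟩, ?_, ⟨h, (le_sup_right : H ≤ N ⊔ H) hh⟩, ?_, rfl⟩
      · exact Subgroup.mem_subgroupOf.mpr hn
      · exact Subgroup.mem_subgroupOf.mpr hh
  have hfpf : ∀ h ∈ H.subgroupOf (N ⊔ H), h ≠ 1 → ∀ k ∈ N.subgroupOf (N ⊔ H), h * k = k * h → k = 1 := by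
    intro h hh h1 k hk hcomm
    rw [Subgroup.mem_subgroupOf] at hh hk
    apply Subtype.ext
    exact hfpfG h hh (fun e => h1 (Subtype.ext e)) k hk (congrArg Subtype.val hcomm)
  refine ⟨?_, Cfsg.Agent.Lib.Helper82.frobeniusKernel_eq _ _ hc hfpf⟩
  rw [Cfsg.Agent.S0039.result _ _ hc]
  · intro h hh h1
    rw [eq_bot_iff]
    rintro k ⟨hk1, hk2⟩
    rw [Subgroup.mem_bot]
    apply hfpf h hh h1 k hk1
    exact (Subgroup.mem_centralizer_singleton_iff.mp hk2).symm
  · intro h
    apply hN1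
    rw [Subgroup.subgroupOf_eq_bot, disjoint_iff, inf_eq_left.mpr le_sup_left] at h
    exact h
  · intro h
    apply hH
    rw [Subgroup.subgroupOf_eq_bot, disjoint_iff, inf_eq_left.mpr le_sup_right] at h
    exact h

end Cfsg.Agent.S4108
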