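import Cfsg.Statements.S4115
import Cfsg.Agent.Lib.Helper24.FrobWielandt
import Cfsg.Agent.Lib.Helper24.FrobSection
import Cfsg.Agent.Lib.Helper24.TIConj
import Cfsg.Agent.Lib.Helper1.Coprime3

set_option autoImplicit false
set_option linter.unusedSectionVars false
universe u
open Cfsg

namespace Cfsg.Agent.S4115

open Subgroup Cfsg.Agent.Lib.Helper1 Cfsg.Agent.Lib.Helper24
open scoped Pointwise

theorem mem_of_pow_mem_coprime {X : Type*} [Group X] (K : Subgroup X) {a b : ℕ} (hab : a.Coprime b)
    {x : X} (ha : x ^ a ∈ K) (hb : x ^ b ∈ K) : x ∈ K := by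
  have h := Nat.gcd_eq_gcd_ab a b
  rw [hab.gcd_eq_one] at h
  have h1 : x = (x ^ a) ^ (a.gcdA b) * (x ^ b) ^ (a.gcdB b) := by
    rw [← zpow_natCast x a, ← zpow_natCast x b, ← zpow_mul, ← zpow_mul, ← zpow_add, ← h]
    simp
  rw [h1]
  exact K.mul_mem (K.zpow_mem ha _) (K.zpow_mem hb _)

/-- invariant Sylow subgroups from conjugacy of the complements -/
theorem inv_sylow {G : Type*} [Group G] [Finite G] (A K : Subgroup G) [hKn : K.Normal]
    (hcop : (Nat.card A).Coprime (Nat.card K))
    (hconjB : ∀ B : Subgroup G, Nat.card B = Nat.card A → ∃ g : G, MulAut.conj g • A = B)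
    (p : ℕ) [Fact p.Prime] :
    ∃ Q, IsSylowIn p Q K ∧ A ≤ normalizer (Q : Set G) := by
  have hNK : normalizer (K : Set G) = ⊤ := normalizer_eq_top_iff.mpr hKn
  have hAK : A ≤ normalizer (K : Set G) := by rw [hNK]; exact le_top
  obtain ⟨P, hP⟩ := exists_isSylowIn p K
  set Γ := A ⊔ K with hΓ
  set L := normalizer (P : Set G) ⊓ Γ with hL
  have hΓn : Γ ≤ normalizer (K : Set G) := sup_le hAK le_normalizer
  have hLK : L ⊔ K = Γ := by
    apply le_antisymm (sup_le inf_le_right le_sup_right)
    apply sup_le _ le_sup_right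
    intro a ha
    obtain ⟨k, hk, hconj⟩ := (hP.conj (hAK ha)).exists_conj hP
    have h4 : k * a ∈ L := mem_inf.mpr
      ⟨mem_normalizer_iff_conj_smul.mpr (by rw [conj_mul_smul, hconj]),
        Γ.mul_mem (mem_sup_right hk) (mem_sup_left ha)⟩
    have : a = k⁻¹ * (k * a) := by group
    rw [this]
    exact (L ⊔ K).mul_mem (mem_sup_right (K.inv_mem hk)) (mem_sup_left h4)
  have hLn : L ≤ normalizer (K : Set G) := inf_le_right.trans hΓn
  have hrel : K.relIndex L = Nat.card A := by
    rw [← relIndex_sup_right_of_le_normalizer hLn, hLK, hΓ,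
      relIndex_sup_right_of_le_normalizer hAK]
    have h1 := card_mul_relIndex (inf_le_right : K ⊓ A ≤ A)
    rwa [inf_relIndex_right, (disjoint_of_coprime_natCard hcop.symm).eq_bot,
      card_bot, one_mul] at h1
  have hcardL : Nat.card L = Nat.card A * Nat.card (K ⊓ L : Subgroup G) := by
    have h1 := card_mul_relIndex (inf_le_right : K ⊓ L ≤ L)
    rw [inf_relIndex_right, hrel] at h1
    rw [← h1, mul_comm]
  have hMn : L ≤ normalizer ((K ⊓ L : Subgroup G) : Set G) :=
    (le_inf hLn le_normalizer).trans inf_normalizer_le_normalizer_inf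
  obtain ⟨B, hBL, hBc⟩ := exists_complement_rel' (K ⊓ L) L inf_le_right hMn (Nat.card A) hcardL
    (Nat.Coprime.of_dvd_right (card_dvd_of_le inf_le_left) hcop)
  obtain ⟨g, hg⟩ := hconjB B hBc
  refine ⟨MulAut.conj g⁻¹ • P, hP.conj (by rw [hNK]; trivial), ?_⟩
  have h1 := conj_smul_le_normalizer (hBL.trans inf_le_left) g⁻¹
  rw [← hg, map_inv, inv_smul_smul] at h1
  rw [map_inv]
  exact h1

section

variable {G : Type u} [Group G] [Finite G] (H : Subgroup G)

theorem bwd (N : Subgroup G) (hNn : N.Normal) (hN : N.IsComplement' H) :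
    ∃ K : Subgroup (normalizer (H : Set G)), K.Normal ∧
      K.IsComplement' (H.subgroupOf (normalizer (H : Set G))) := by
  refine ⟨N.subgroupOf _, inferInstance, ?_⟩
  apply isComplement'_of_disjoint_and_mul_eq_univ
  · rw [disjoint_def]
    intro x hx1 hx2
    apply Subtype.ext
    exact (disjoint_def.mp hN.disjoint) hx1 hx2
  · rw [Set.eq_univ_iff_forall]
    intro x
    obtain ⟨⟨n, h⟩, e⟩ := hN.2 (x : G)
    have e' : (n : G) * (h : G) = x := e
    have hh : (h : G) ∈ normalizer (H : Set G) := le_normalizer h.2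
    have hn : (n : G) ∈ normalizer (H : Set G) := by
      have : (n : G) = x * (h : G)⁻¹ := by rw [← e']; group
      rw [this]
      exact mul_mem x.2 (inv_mem hh)
    exact ⟨⟨n, hn⟩, n.2, ⟨h, hh⟩, h.2, Subtype.ext e'⟩

theorem fwd (hTI : Cfsg.IsTISubset (H : Set G))
    (hHall : (Nat.card H).Coprime (H.subgroupOf (normalizer (H : Set G))).index)
    (K : Subgroup (normalizer (H : Set G))) (hKn : K.Normal)
    (hK : K.IsComplement' (H.subgroupOf (normalizer (H : Set G)))) :
    ∃ M : Subgroup G, M.Normal ∧ M.IsComplement' H ∧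
      (∀ x : normalizer (H : Set G), (x : G) ∈ M ↔ x ∈ K) ∧
      FW.kerSet (normalizer (H : Set G)) K ⊆ (M : Set G) := by
  have hH'n : (H.subgroupOf (normalizer (H : Set G))).Normal := normal_in_normalizer
  have hcardH' : Nat.card (H.subgroupOf (normalizer (H : Set G))) = Nat.card H :=
    card_subgroupOf_of_le le_normalizer
  have hKidx : K.index = Nat.card H := by rw [hK.symm.index_eq_card, hcardH']
  have hTI' : ∀ g : G, g ∉ normalizer (H : Set G) → ∀ x : normalizer (H : Set G),
      g⁻¹ * (x : G) * g ∈ normalizer (H : Set G) → x ∈ K := by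
    intro g hg x hx
    have h1 : (x : G) ^ (H.subgroupOf (normalizer (H : Set G))).index ∈ H := by
      have := pow_index_mem (H.subgroupOf (normalizer (H : Set G))) x
      exact this
    have h2 : (g⁻¹ * (x : G) * g) ^ (H.subgroupOf (normalizer (H : Set G))).index ∈ H := by
      have := pow_index_mem (H.subgroupOf (normalizer (H : Set G)))
        (⟨g⁻¹ * (x : G) * g, hx⟩ : normalizer (H : Set G))
      exact this
    have h3 : (g⁻¹ * (x : G) * g) ^ (H.subgroupOf (normalizer (H : Set G))).index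
        = g⁻¹ * (x : G) ^ (H.subgroupOf (normalizer (H : Set G))).index * g⁻¹⁻¹ := by
      rw [← conj_pow, inv_inv]
    rw [h3] at h2
    have h4 := hTI g⁻¹ (fun h => hg (by simpa using inv_mem h)) _ h1 h2
    apply mem_of_pow_mem_coprime K hHall
    · rw [← hKidx]; exact pow_index_mem K x
    · have : x ^ (H.subgroupOf (normalizer (H : Set G))).index = 1 := Subtype.ext (by
        push_cast; exact h4)
      rw [this]; exact K.one_mem
  obtain ⟨M, hMn, hMK, hsup, hker⟩ := FW.frobenius_wielandt (normalizer (H : Set G)) K hTI'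
  refine ⟨M, hMn, ?_, hMK, hker⟩
  apply isComplement'_of_disjoint_and_mul_eq_univ
  · rw [disjoint_def]
    intro x hx1 hx2
    have h1 : (⟨x, le_normalizer hx2⟩ : normalizer (H : Set G)) ∈ K := (hMK _).1 hx1
    have h2 := (disjoint_def.mp hK.disjoint) h1 hx2
    exact congrArg Subtype.val h2
  · rw [← normal_mul]
    have : M ⊔ H = ⊤ := by
      rw [eq_top_iff, ← hsup]
      apply sup_le le_sup_left
      intro x hx
      obtain ⟨⟨k, h⟩, e⟩ := hK.2 (⟨x, hx⟩ : normalizer (H : Set G))
      have e' : ((k : normalizer (H : Set G)) : G) * ((h : normalizer (H : Set G)) : G) = x :=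
        congrArg Subtype.val e
      rw [← e']
      exact mul_mem (mem_sup_left ((hMK _).2 k.2)) (mem_sup_right h.2)
    rw [this]; rfl

theorem part2 (hTI : Cfsg.IsTISubset (H : Set G))
    (hHall : (Nat.card H).Coprime (H.subgroupOf (normalizer (H : Set G))).index)
    (hnn : ¬ H.Normal)
    (K : Subgroup (normalizer (H : Set G))) (hKn : K.Normal)
    (hK : K.IsComplement' (H.subgroupOf (normalizer (H : Set G)))) :
    ∃ (F : Type u) (_ : Group F) (_ : Finite F) (C : Subgroup F),
      Cfsg.IsFrobeniusComplement C ∧ Nonempty (H ≃* C) := by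
  obtain ⟨M, hMn, hMH, hMK, hker⟩ := fwd H hTI hHall K hKn hK
  have hH'n : (H.subgroupOf (normalizer (H : Set G))).Normal := normal_in_normalizer
  have hcardH' : Nat.card (H.subgroupOf (normalizer (H : Set G))) = Nat.card H :=
    card_subgroupOf_of_le le_normalizer
  have hcardK : (H.subgroupOf (normalizer (H : Set G))).index = Nat.card K := hK.index_eq_card
  have hcopK : (Nat.card H).Coprime (Nat.card K) := hcardK ▸ hHall
  have hH1 : H ≠ ⊥ := by
    rintro rfl
    exact hnn inferInstance
  -- F3 : `M ⊓ N(H)` centralizes `H`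
  have F3 : ∀ k ∈ M, k ∈ normalizer (H : Set G) → ∀ h ∈ H, k * h = h * k := by
    intro k hkM hkN h hh
    have h1 : (⟨k, hkN⟩ : normalizer (H : Set G)) ∈ K := (hMK _).1 hkM
    have h2 : (⟨h, le_normalizer hh⟩ : normalizer (H : Set G)) ∈
      H.subgroupOf (normalizer (H : Set G)) := hh
    have := commute_of_normal_of_disjoint K _ hKn hH'n hK.disjoint _ _ h1 h2
    exact congrArg Subtype.val this.eq
  -- hT
  have hT : ∀ g : G, ∀ y ∈ H, y ≠ 1 → g * y * g⁻¹ ∈ H → g ∈ normalizer (H : Set G) := by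
    intro g y hy hy1 hg
    by_contra hgn
    exact hy1 (hTI g hgn y hy hg)
  have F4 : ∀ h ∈ H, h ≠ 1 → ∀ m : G, m * h = h * m → m ∈ normalizer (H : Set G) := by
    intro h hh h1 m hm
    apply hT m h hh h1
    rw [hm]; simpa using hh
  have hP : ∀ x ∈ normalizer (H : Set G), x ^ Nat.card H = 1 → x ∈ H := by
    intro x hx hx1
    have : (⟨x, hx⟩ : normalizer (H : Set G)) ∈ H.subgroupOf (normalizer (H : Set G)) := by
      apply mem_of_pow_mem_coprime _ hHall
      · have : (⟨x, hx⟩ : normalizer (H : Set G)) ^ Nat.card H = 1 := Subtype.ext (by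
          push_cast; exact hx1)
        rw [this]; exact one_mem _
      · exact pow_index_mem _ _
    exact this
  -- Step 1 : coprimality
  have hcop : (Nat.card H).Coprime (Nat.card M) := by
    apply Nat.Coprime.symm
    apply Nat.coprime_of_dvd
    intro p hp hpM hpH
    have : Fact p.Prime := ⟨hp⟩
    obtain ⟨h, hh⟩ := exists_prime_orderOf_dvd_card' (G := H) p hpH
    have hh1 : (h : G) ≠ 1 := by
      intro e
      have : h = 1 := Subtype.ext e
      rw [this, orderOf_one] at hh
      exact hp.one_lt.ne hh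
    let f : zpowers (h : G) →* MulAut M := (MulAut.conjNormal).comp (zpowers (h : G)).subtype
    let _ : MulAction (zpowers (h : G)) M := MulAction.compHom M f
    have hsm : ∀ (z : zpowers (h : G)) (m : M), ((z • m : M) : G) = (z : G) * m * (z : G)⁻¹ :=
      fun z m => rfl
    have hpg : IsPGroup p (zpowers (h : G)) := by
      apply IsPGroup.of_card (n := 1)
      rw [Nat.card_zpowers, Subgroup.orderOf_coe, hh, pow_one]
    have hmod := hpg.card_modEq_card_fixedPoints M
    have hfix : Nat.card (MulAction.fixedPoints (zpowers (h : G)) M) = Nat.card K := by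
      refine Nat.card_congr ⟨fun m => ⟨⟨m.1.1, ?_⟩, ?_⟩, fun k => ⟨⟨k.1.1, (hMK _).2 k.2⟩, ?_⟩,
        fun m => rfl, fun k => rfl⟩
      · apply F4 h h.2 hh1
        have := congrArg Subtype.val (m.2 ⟨(h : G), mem_zpowers _⟩)
        rw [hsm] at this
        have h2 : (h : G) * (m.1 : G) = (m.1 : G) * (h : G) := by
          calc (h : G) * (m.1 : G) = ((h : G) * (m.1 : G) * (h : G)⁻¹) * (h : G) := by group
            _ = (m.1 : G) * (h : G) := by rw [this]
        exact h2.symm
      · exact (hMK _).1 m.1.2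
      · intro z
        apply Subtype.ext
        rw [hsm]
        have hz : (z : G) ∈ H := (zpowers_le.mpr h.2) z.2
        have := F3 k.1.1 ((hMK _).2 k.2) k.1.2 z hz
        show (z : G) * (k.1.1) * (z : G)⁻¹ = k.1.1
        rw [← this]; group
    rw [hfix] at hmod
    have h3 : p ∣ Nat.card K := (Nat.modEq_zero_iff_dvd.mp
      (hmod.symm.trans (Nat.modEq_zero_iff_dvd.mpr hpM)))
    exact (Nat.Prime.coprime_iff_not_dvd hp).mp
      (Nat.Coprime.of_dvd_left hpH hcopK) h3
  have hC : ∀ b : G, b ≠ 1 → b ^ Nat.card H = 1 → ∃ x : G, x⁻¹ * b * x ∈ H := by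
    intro b hb1 hb
    have hbM : b ∉ M := by
      intro hbM
      apply hb1
      have h1 : (⟨b, hbM⟩ : M) ^ Nat.card M = 1 := pow_card_eq_one'
      have h2 : b ^ Nat.card M = 1 := by
        have h3 := congrArg Subtype.val h1
        rw [Subgroup.coe_pow] at h3
        exact h3
      have := mem_of_pow_mem_coprime (⊥ : Subgroup G) hcop (x := b) (by rw [hb]; exact one_mem _)
        (by rw [h2]; exact one_mem _)
      exact mem_bot.mp this
    have h1 : b ∉ FW.kerSet (normalizer (H : Set G)) K := fun h => hbM (hker h)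
    unfold FW.kerSet at h1
    simp only [Set.mem_ofPred_eq, not_forall] at h1
    obtain ⟨x, hx, -⟩ := h1
    refine ⟨x, hP _ hx ?_⟩
    have : x⁻¹ * b * x = x⁻¹ * b * x⁻¹⁻¹ := by rw [inv_inv]
    rw [this, conj_pow, hb]; simp
  have hconjB := TIConj.exists_conj_eq H hT hP hC
  -- Step 4 : a suitable prime
  have hMN : ¬ M ≤ normalizer (H : Set G) := by
    intro h
    apply hnn
    rw [← normalizer_eq_top_iff, eq_top_iff, ← hMH.sup_eq_top]
    exact sup_le h le_normalizer
  have hex : ∃ (r : ℕ) (_ : r.Prime) (R : Subgroup G), IsSylowIn r R M ∧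
      H ≤ normalizer (R : Set G) ∧ ¬ R ≤ normalizer (H : Set G) := by
    by_contra hcon
    push Not at hcon
    apply hMN
    have h1 : (M ⊓ normalizer (H : Set G)).relIndex M = 1 := by
      rw [Nat.eq_one_iff_not_exists_prime_dvd]
      intro r hr hdvd
      have : Fact r.Prime := ⟨hr⟩
      obtain ⟨R, hR, hHR⟩ := inv_sylow H M hcop hconjB r
      have h2 := hcon r hr R hR hHR
      have h3 := relIndex_mul_relIndex R (M ⊓ normalizer (H : Set G)) M (le_inf hR.1 h2) inf_le_left
      exact hR.2.2 (h3 ▸ Dvd.dvd.mul_left hdvd _)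
    have h2 := relIndex_eq_one.mp h1
    exact h2.trans inf_le_right
  obtain ⟨r, hr, R, hR, hHR, hRN⟩ := hex
  have : Fact r.Prime := ⟨hr⟩
  set R0 : Subgroup G := R ⊓ normalizer (H : Set G) with hR0
  set Y : Subgroup G := R ⊓ normalizer (R0 : Set G) with hY
  have hHR0 : H ≤ normalizer (R0 : Set G) :=
    (le_inf hHR (le_normalizer.trans le_normalizer)).trans inf_normalizer_le_normalizer_inf
  have hHY : H ≤ normalizer (Y : Set G) :=
    (le_inf hHR (hHR0.trans le_normalizer)).trans inf_normalizer_le_normalizer_inf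
  have hne : ¬ Y ≤ R0 := by
    intro hle
    have hnil : Group.IsNilpotent R := hR.2.1.isNilpotent
    have hlt : R0.subgroupOf R < ⊤ := by
      rw [lt_top_iff_ne_top]
      intro h
      rw [subgroupOf_eq_top] at h
      exact hRN (h.trans inf_le_right)
    have h2 := Group.normalizerCondition_of_isNilpotent (G := R) _ hlt
    obtain ⟨y, hy1, hy2⟩ := SetLike.exists_of_lt h2
    apply hy2
    show (y : G) ∈ R0
    apply hle
    refine ⟨y.2, ?_⟩
    show (y : G) ∈ normalizer (R0 : Set G)
    rw [mem_normalizer_iff]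
    intro x
    rw [mem_normalizer_iff] at hy1
    constructor
    · intro hx
      exact (hy1 ⟨x, hx.1⟩).mp hx
    · intro hx
      have hxR : x ∈ R := by
        have : x = (y : G)⁻¹ * ((y : G) * x * (y : G)⁻¹) * (y : G) := by group
        rw [this]
        exact R.mul_mem (R.mul_mem (R.inv_mem y.2) hx.1) y.2
      exact (hy1 ⟨x, hxR⟩).mpr hx
  apply FrobSection.exists_frob_of_section H Y R0 (le_inf inf_le_left le_normalizer) inf_le_right
    hHY hHR0 hne hH1
  intro h hh h1 y hy hyh
  -- the stabilizer of the coset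
  let T : Subgroup G :=
    { carrier := {a | a ∈ normalizer (R0 : Set G) ∧ y⁻¹ * a * y * a⁻¹ ∈ R0}
      one_mem' := ⟨one_mem _, by simp⟩
      mul_mem' := by
        rintro a b ⟨ha1, ha2⟩ ⟨hb1, hb2⟩
        refine ⟨mul_mem ha1 hb1, ?_⟩
        have : y⁻¹ * (a * b) * y * (a * b)⁻¹ = (y⁻¹ * a * y * a⁻¹) * (a * (y⁻¹ * b * y * b⁻¹) * a⁻¹) := by
          group
        rw [this]
        exact R0.mul_mem ha2 (((mem_normalizer_iff.mp ha1) _).mp hb2)
      inv_mem' := by
        rintro a ⟨ha1, ha2⟩
        refine ⟨inv_mem ha1, ?_⟩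
        have : y⁻¹ * a⁻¹ * y * a⁻¹⁻¹ = a⁻¹ * (y⁻¹ * a * y * a⁻¹)⁻¹ * a⁻¹⁻¹ := by group
        rw [this]
        exact ((mem_normalizer_iff.mp (inv_mem ha1)) _).mp (R0.inv_mem ha2) }
  have hhT : h ∈ T := ⟨hHR0 hh, by
    have : y⁻¹ * h * y * h⁻¹ = y⁻¹ * (h * y * h⁻¹) := by group
    rw [this]; exact hyh⟩
  have hzT : zpowers h ≤ T := zpowers_le.mpr hhT
  have hcop2 : (Nat.card (zpowers h)).Coprime (Nat.card R0) :=
    Nat.Coprime.of_dvd (card_dvd_of_le (zpowers_le.mpr hh))
      (card_dvd_of_le (inf_le_left.trans hR.1)) hcop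
  obtain ⟨c, hc, hyc⟩ := coprime_fixed_point_coset (zpowers h) R0
    (fun a ha => (hzT ha).1) hcop2 (Or.inl inferInstance) y (fun a ha => (hzT ha).2)
  have hcR : c ∈ R := by
    have : c = y * (y⁻¹ * c) := by group
    rw [this]
    exact R.mul_mem hy.1 hyc.1
  have hch : c * h = h * c := ((mem_centralizer_iff.mp hc) h (mem_zpowers h)).symm
  have hcR0 : c ∈ R0 := ⟨hcR, F4 h hh h1 c hch⟩
  have : y = c * (y⁻¹ * c)⁻¹ := by group
  rw [this]
  exact R0.mul_mem hcR0 (R0.inv_mem hyc)

end

/-- Let G be a finite group and H a subgroup that meets each of its conjugates by elements outside N_G(H) trivially and whose order is coprime to its index in N_G(H). Then H has a normal complement in N_G(H) if and only if H has a normal complement in G. Moreover, if H is not normal in G and has a normal complement in N_G(H), then H is isomorphic to a Frobenius complement of some finite Frobenius group. -/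
theorem result {G : Type u} [Group G] [Finite G] (H : Subgroup G)
    (hTI : Cfsg.IsTISubset (H : Set G)) (hHall : (Nat.card H).Coprime (H.subgroupOf (Subgroup.normalizer (H : Set G))).index) :
    ((∃ K : Subgroup (Subgroup.normalizer (H : Set G)), K.Normal ∧ K.IsComplement' (H.subgroupOf (Subgroup.normalizer (H : Set G)))) ↔
      (∃ N : Subgroup G, N.Normal ∧ N.IsComplement' H)) ∧
    (¬ H.Normal → (∃ K : Subgroup (Subgroup.normalizer (H : Set G)), K.Normal ∧ K.IsComplement' (H.subgroupOf (Subgroup.normalizer (H : Set G)))) →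
      ∃ (F : Type u) (_ : Group F) (_ : Finite F) (C : Subgroup F), Cfsg.IsFrobeniusComplement C ∧ Nonempty (H ≃* C)) := by
  refine ⟨⟨?_, ?_⟩, ?_⟩
  · rintro ⟨K, hKn, hK⟩
    obtain ⟨M, hMn, hMH, -, -⟩ := fwd H hTI hHall K hKn hK
    exact ⟨M, hMn, hMH⟩
  · rintro ⟨N, hNn, hN⟩
    exact bwd H N hNn hN
  · rintro hnn ⟨K, hKn, hK⟩
    exact part2 H hTI hHall hnn K hKn hK

end Cfsg.Agent.S4115
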