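import Cfsg.Statements.S4116
import Cfsg.Agent.Lib.Helper71.Conj

set_option autoImplicit false
open Cfsg

namespace Cfsg.Agent.S4116

theorem malnormal_count {K : Type*} [Group K] [Fintype K] [DecidableEq K] (A : Subgroup K)
    [DecidablePred (· ∈ A)]
    (hmal : ∀ k : K, k ∉ A → ∀ w ∈ A, k * w * k⁻¹ ∈ A → w = 1) :
    Fintype.card K * (Nat.card A - 1) ≤
      Nat.card A * (Finset.univ.filter (fun y : K => y ≠ 1 ∧ ∃ k : K, k⁻¹ * y * k ∈ A)).card := by
  classical
  have hA : Nat.card A = (Finset.univ.filter (fun w : K => w ∈ A)).card := by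
    rw [Nat.card_eq_fintype_card, Fintype.card_subtype]
  set s : Finset (K × K) := Finset.univ ×ˢ (Finset.univ.filter (fun w : K => w ∈ A ∧ w ≠ 1)) with hs
  have hs_card : s.card = Fintype.card K * (Nat.card A - 1) := by
    rw [hs, Finset.card_product, Finset.card_univ, hA]
    congr 1
    have : Finset.univ.filter (fun w : K => w ∈ A ∧ w ≠ 1) =
        (Finset.univ.filter (fun w : K => w ∈ A)).erase 1 := by
      ext w; simp [and_comm]
    rw [this, Finset.card_erase_of_mem (by simp [A.one_mem])]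
  set f : K × K → K := fun a => a.1 * a.2 * a.1⁻¹ with hf
  have himg : s.image f ⊆ Finset.univ.filter (fun y : K => y ≠ 1 ∧ ∃ k : K, k⁻¹ * y * k ∈ A) := by
    intro y hy
    obtain ⟨⟨k, w⟩, hkw, rfl⟩ := Finset.mem_image.mp hy
    simp only [hs, Finset.mem_product, Finset.mem_univ, Finset.mem_filter, true_and] at hkw
    simp only [Finset.mem_filter, Finset.mem_univ, true_and, hf]
    refine ⟨?_, k, ?_⟩
    · intro h
      apply hkw.2
      have : w = k⁻¹ * (k * w * k⁻¹) * k := by group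
      rw [this, h]; group
    · have : k⁻¹ * (k * w * k⁻¹) * k = w := by group
      rw [this]; exact hkw.1
  rw [← hs_card]
  refine (Finset.card_le_mul_card_image s (Nat.card A) ?_).trans
    (Nat.mul_le_mul_left _ (Finset.card_le_card himg))
  intro b hb
  obtain ⟨⟨k0, w0⟩, hkw0, hb0⟩ := Finset.mem_image.mp hb
  simp only [hs, Finset.mem_product, Finset.mem_univ, Finset.mem_filter, true_and] at hkw0
  rw [hA]
  apply Finset.card_le_card_of_injOn (fun a => k0⁻¹ * a.1)
  · rintro ⟨k, w⟩ hkw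
    simp only [hs, Finset.coe_filter, Finset.mem_product, Finset.mem_univ, Finset.mem_filter,
      true_and, Set.mem_ofPred_eq] at hkw
    simp only [Finset.coe_filter, Finset.mem_univ, true_and, Set.mem_ofPred_eq]
    by_contra hc
    apply hkw.1.2
    apply hmal _ hc w hkw.1.1
    have h1 : k * w * k⁻¹ = k0 * w0 * k0⁻¹ := hkw.2.trans hb0.symm
    have : k0⁻¹ * k * w * (k0⁻¹ * k)⁻¹ = k0⁻¹ * (k * w * k⁻¹) * k0 := by group
    rw [this, h1]
    have : k0⁻¹ * (k0 * w0 * k0⁻¹) * k0 = w0 := by group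
    rw [this]; exact hkw0.1
  · rintro ⟨k, w⟩ hkw ⟨k', w'⟩ hkw' h
    simp only [hs, Finset.coe_filter, Finset.mem_product, Finset.mem_univ, Finset.mem_filter,
      true_and, Set.mem_ofPred_eq] at hkw hkw'
    have hk : k = k' := mul_left_cancel h
    subst hk
    have h1 : k * w * k⁻¹ = k * w' * k⁻¹ := hkw.2.trans hkw'.2.symm
    have h2 : w = w' := by
      have := mul_right_cancel h1
      exact mul_left_cancel this
    rw [h2]

theorem mem_of_mem_normalizer {G : Type*} [Group G] [Finite G] (H : Subgroup G) (y : G)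
    (hy : y ∈ Subgroup.normalizer (H : Set G)) (hc : (orderOf y).Coprime H.index) : y ∈ H := by
  have h1 : y ^ (H.relIndex (Subgroup.normalizer (H : Set G))) ∈ H := by
    have := Subgroup.pow_index_mem (H.subgroupOf (Subgroup.normalizer (H : Set G))) ⟨y, hy⟩
    rw [Subgroup.mem_subgroupOf] at this
    simpa [Subgroup.relIndex] using this
  have h2 : H.relIndex (Subgroup.normalizer (H : Set G)) ∣ H.index :=
    Subgroup.relIndex_dvd_index_of_le Subgroup.le_normalizer
  have h3 : (H.relIndex (Subgroup.normalizer (H : Set G))).Coprime (orderOf y) :=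
    Nat.Coprime.coprime_dvd_left h2 hc.symm
  obtain ⟨m, hm⟩ := exists_pow_eq_self_of_coprime h3
  rw [← hm]; exact H.pow_mem h1 m

theorem orderOf_conj' {G : Type*} [Group G] (a y : G) : orderOf (a⁻¹ * y * a) = orderOf y := by
  have hsc : SemiconjBy a⁻¹ y (a⁻¹ * y * a) := by
    rw [SemiconjBy]; group
  exact (hsc.orderOf_eq a⁻¹).symm

theorem exists_conj_mem {G : Type*} [Group G] [Finite G] (H : Subgroup G)
    (hTI : Cfsg.IsTISubset (H : Set G)) (y : G) (hy1 : y ≠ 1)
    (hc : (orderOf y).Coprime H.index) : ∃ a : G, a⁻¹ * y * a ∈ H := by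
  have hn1 : orderOf y ≠ 1 := by rwa [Ne, orderOf_eq_one_iff]
  obtain ⟨q, hq, hqd⟩ := Nat.exists_prime_and_dvd hn1
  have : Fact q.Prime := ⟨hq⟩
  set z := y ^ (orderOf y / q) with hz
  have hzo : orderOf z = q := orderOf_pow_orderOf_div (orderOf_pos y).ne' hqd
  have hzp : IsPGroup q (Subgroup.zpowers z) := by
    rw [IsPGroup.iff_card, Nat.card_zpowers, hzo]; exact ⟨1, (pow_one q).symm⟩
  have hqi : ¬ q ∣ Nat.card (G ⧸ H) := by
    intro h
    exact hq.one_lt.ne' (Nat.eq_one_of_dvd_coprimes hc hqd h)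
  obtain ⟨x, hx⟩ := hzp.nonempty_fixed_point_of_prime_not_dvd_card (G ⧸ H) hqi
  induction x using QuotientGroup.induction_on with | H a =>
  have hza : a⁻¹ * z * a ∈ H := by
    have := hx ⟨z, Subgroup.mem_zpowers z⟩
    have h2 : ((z * a : G) : G ⧸ H) = (a : G ⧸ H) := this
    rw [eq_comm, QuotientGroup.eq, ← mul_assoc] at h2
    exact h2
  refine ⟨a, ?_⟩
  apply mem_of_mem_normalizer H
  · by_contra hnot
    have hyz : y * z * y⁻¹ = z := by
      rw [hz, mul_inv_eq_iff_eq_mul, ← pow_succ, ← pow_succ']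
    have h1 := hTI (a⁻¹ * y * a) hnot (a⁻¹ * z * a) hza (by
      have : a⁻¹ * y * a * (a⁻¹ * z * a) * (a⁻¹ * y * a)⁻¹ = a⁻¹ * (y * z * y⁻¹) * a := by group
      rw [this, hyz]; exact hza)
    have h2 : orderOf (a⁻¹ * z * a) = q := by rw [orderOf_conj', hzo]
    rw [h1, orderOf_one] at h2
    exact hq.one_lt.ne h2
  · rw [orderOf_conj']; exact hc

/-- Let G be a finite group with a subgroup H whose order is coprime to its index (a Hall subgroup) and which meets each of its conjugates by elements outside N_G(H) trivially. Then every subgroup of G whose order is divisible only by primes dividing the order of H lies in a conjugate of H. -/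
theorem result {G : Type*} [Group G] [Finite G] (H : Subgroup G)
    (hHall : (Nat.card H).Coprime H.index) (hTI : Cfsg.IsTISubset (H : Set G))
    (K : Subgroup G) (hK : ∀ q : ℕ, q.Prime → q ∣ Nat.card K → q ∣ Nat.card H) :
    ∃ g : G, K ≤ H.map (MulAut.conj g).toMonoidHom := by
  classical
  by_contra hcon
  push Not at hcon
  have hcop : ∀ k ∈ K, (orderOf k).Coprime H.index := by
    intro k hk
    by_contra h
    obtain ⟨q, hq, h1, h2⟩ := Nat.Prime.not_coprime_iff_dvd.mp h
    have h3 : q ∣ Nat.card K := h1.trans (Subgroup.orderOf_dvd_natCard K hk)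
    exact hq.one_lt.ne' (Nat.eq_one_of_dvd_coprimes hHall (hK q hq h3) h2)
  have hmem : ∀ (a y : G), y ∈ H.map (MulAut.conj a).toMonoidHom ↔ a⁻¹ * y * a ∈ H := by
    intro a y
    rw [Subgroup.mem_map_equiv, MulAut.conj_symm_apply]
  have hex : ∀ y : K, y ≠ 1 → ∃ a : G, a⁻¹ * (y : G) * a ∈ H := by
    intro y hy
    exact exists_conj_mem H hTI y (by simpa using hy) (hcop y y.2)
  have hmemA : ∀ (a : G) (y : K), y ∈ (H.map (MulAut.conj a).toMonoidHom).subgroupOf K ↔
      a⁻¹ * (y : G) * a ∈ H := by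
    intro a y
    rw [Subgroup.mem_subgroupOf, hmem]
  have hmal : ∀ (a : G) (k : K), k ∉ (H.map (MulAut.conj a).toMonoidHom).subgroupOf K →
      ∀ w ∈ (H.map (MulAut.conj a).toMonoidHom).subgroupOf K,
        k * w * k⁻¹ ∈ (H.map (MulAut.conj a).toMonoidHom).subgroupOf K → w = 1 := by
    intro a k hk w hw hkw
    rw [hmemA] at hk hw hkw
    by_contra hw1
    apply hk
    apply mem_of_mem_normalizer H
    · by_contra hnot
      have h1 := hTI (a⁻¹ * (k : G) * a) hnot (a⁻¹ * (w : G) * a) hw (by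
        have : a⁻¹ * (k : G) * a * (a⁻¹ * (w : G) * a) * (a⁻¹ * (k : G) * a)⁻¹ =
            a⁻¹ * ((k * w * k⁻¹ : K) : G) * a := by
          simp only [Subgroup.coe_mul, Subgroup.coe_inv]; group
        rw [this]; exact hkw)
      apply hw1
      have h2 : (w : G) = a * (a⁻¹ * (w : G) * a) * a⁻¹ := by group
      rw [h1] at h2
      apply Subtype.ext
      rw [h2]; simp
    · rw [orderOf_conj']; exact hcop k k.2
  have hne : ∃ y1 : K, y1 ≠ 1 := by
    by_contra h
    push Not at h
    apply hcon 1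
    intro y hy
    have := h ⟨y, hy⟩
    have h2 : y = 1 := congrArg Subtype.val this
    rw [h2]; exact Subgroup.one_mem _
  obtain ⟨y1, hy1⟩ := hne
  obtain ⟨a1, ha1⟩ := hex y1 hy1
  set A1 := (H.map (MulAut.conj a1).toMonoidHom).subgroupOf K with hA1
  have hA1top : A1 ≠ ⊤ := by
    intro h
    rw [hA1, Subgroup.subgroupOf_eq_top] at h
    exact hcon a1 h
  have hy2 : ∃ y2 : K, ∀ k : K, k⁻¹ * y2 * k ∉ A1 := by
    by_contra h
    push Not at h
    exact hA1top (Cfsg.Agent.Lib.Helper71.eq_top_of_forall_conj_mem A1 h)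
  obtain ⟨y2, hy2⟩ := hy2
  have hy21 : y2 ≠ 1 := by
    rintro rfl
    apply hy2 1
    simp [A1.one_mem]
  obtain ⟨a2, ha2⟩ := hex y2 hy21
  set A2 := (H.map (MulAut.conj a2).toMonoidHom).subgroupOf K with hA2
  have : Fintype K := Fintype.ofFinite K
  have c1 := malnormal_count A1 (hmal a1)
  have c2 := malnormal_count A2 (hmal a2)
  set U1 := Finset.univ.filter (fun y : K => y ≠ 1 ∧ ∃ k : K, k⁻¹ * y * k ∈ A1) with hU1
  set U2 := Finset.univ.filter (fun y : K => y ≠ 1 ∧ ∃ k : K, k⁻¹ * y * k ∈ A2) with hU2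
  have hdisj : Disjoint U1 U2 := by
    rw [Finset.disjoint_left]
    intro v hv1 hv2
    simp only [hU1, hU2, Finset.mem_filter, Finset.mem_univ, true_and] at hv1 hv2
    obtain ⟨hv, k1, hk1⟩ := hv1
    obtain ⟨_, k2, hk2⟩ := hv2
    rw [hA1, hmemA] at hk1
    rw [hA2, hmemA] at hk2
    simp only [Subgroup.coe_mul, Subgroup.coe_inv] at hk1 hk2
    set g : G := a1⁻¹ * (k1 : G)⁻¹ * k2 * a2 with hg
    have hgn : g ∈ Subgroup.normalizer (H : Set G) := by
      by_contra hnot
      have h1 := hTI g hnot _ hk2 (by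
        have : g * (a2⁻¹ * ((k2 : G)⁻¹ * v * k2) * a2) * g⁻¹ = a1⁻¹ * ((k1 : G)⁻¹ * v * k1) * a1 := by
          rw [hg]; group
        rw [this]; exact hk1)
      apply hv
      have h2 : (v : G) = (k2 * a2) * (a2⁻¹ * ((k2 : G)⁻¹ * v * k2) * a2) * (k2 * a2)⁻¹ := by group
      rw [h1] at h2
      apply Subtype.ext
      rw [h2]; simp
    apply hy2 (k2⁻¹ * k1)
    rw [hA1, hmemA]
    have h3 := (Subgroup.mem_normalizer_iff.mp hgn (a2⁻¹ * (y2 : G) * a2)).mp ha2
    have : g * (a2⁻¹ * (y2 : G) * a2) * g⁻¹ =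
        a1⁻¹ * (((k2⁻¹ * k1)⁻¹ * y2 * (k2⁻¹ * k1) : K) : G) * a1 := by
      simp only [Subgroup.coe_mul, Subgroup.coe_inv, hg]; group
    rw [this] at h3
    exact h3
  have hsub : U1 ∪ U2 ⊆ (Finset.univ : Finset K).erase 1 := by
    intro v hv
    rw [Finset.mem_union] at hv
    simp only [hU1, hU2, Finset.mem_filter, Finset.mem_univ, true_and] at hv
    rw [Finset.mem_erase]
    rcases hv with hv | hv
    · exact ⟨hv.1, Finset.mem_univ _⟩
    · exact ⟨hv.1, Finset.mem_univ _⟩
  have hcard := Finset.card_le_card hsub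
  rw [Finset.card_union_of_disjoint hdisj, Finset.card_erase_of_mem (Finset.mem_univ _),
    Finset.card_univ] at hcard
  have hA1two : 2 ≤ Nat.card A1 := by
    have : A1 ≠ ⊥ := by
      intro h
      have h1 : y1 ∈ A1 := by rw [hA1, hmemA]; exact ha1
      rw [h, Subgroup.mem_bot] at h1
      exact hy1 h1
    exact (Subgroup.one_lt_card_iff_ne_bot A1).mpr this
  have hA2two : 2 ≤ Nat.card A2 := by
    have : A2 ≠ ⊥ := by
      intro h
      have h1 : y2 ∈ A2 := by rw [hA2, hmemA]; exact ha2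
      rw [h, Subgroup.mem_bot] at h1
      exact hy21 h1
    exact (Subgroup.one_lt_card_iff_ne_bot A2).mpr this
  have hn : 0 < Fintype.card K := Fintype.card_pos
  obtain ⟨b1, hb1⟩ := Nat.exists_eq_add_of_le hA1two
  obtain ⟨b2, hb2⟩ := Nat.exists_eq_add_of_le hA2two
  rw [hb1] at c1
  rw [hb2] at c2
  have e1 : 2 + b1 - 1 = b1 + 1 := by omega
  have e2 : 2 + b2 - 1 = b2 + 1 := by omega
  rw [e1] at c1
  rw [e2] at c2
  have key : ∀ n b u : ℕ, n * (b + 1) ≤ (2 + b) * u → n ≤ 2 * u := by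
    intro n b u h
    by_contra hlt
    push Not at hlt
    have h1 : 2 * u + 1 ≤ n := hlt
    nlinarith [Nat.mul_le_mul_left (b + 2) h1]
  have k1 := key _ _ _ c1
  have k2 := key _ _ _ c2
  omega

end Cfsg.Agent.S4116
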