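import Cfsg.Statements.S4117
import Cfsg.Agent.Lib.Helper65.ZGroupCoprime
import Cfsg.Agent.Lib.Helper1.Coprime

set_option autoImplicit false
open Cfsg

namespace Cfsg.Agent.S4117

open Cfsg.Agent.Lib.Helper65 Cfsg.Agent.Lib.Helper1
open scoped commutatorElement

/-- Let A be a finite group acting on the finite group G by automorphisms with the orders of A and G coprime, and suppose every Sylow subgroup of G is cyclic. Then the fixed-point subgroup C_G(A) is a Hall subgroup of G (its order is coprime to its index), the subgroup [G, A] generated by the elements g⁻¹·a(g) is cyclic and normal with [G, A] ∩ C_G(A) = 1 and [G, A]·C_G(A) = G. -/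
theorem result {G A : Type*} [Group G] [Finite G] [Group A] [Finite A]
    [MulDistribMulAction A G] (hcop : (Nat.card A).Coprime (Nat.card G))
    (hcyc : ∀ (p : ℕ) [Fact p.Prime] (P : Sylow p G), IsCyclic (P : Subgroup G)) :
    (Nat.card (MulAction.fixedPoints A G : Set G)).Coprime (Nat.card G / Nat.card (MulAction.fixedPoints A G : Set G)) ∧
    IsCyclic (Subgroup.closure {y : G | ∃ (a : A) (g : G), y = g⁻¹ * a • g}) ∧
    (Subgroup.closure {y : G | ∃ (a : A) (g : G), y = g⁻¹ * a • g}).Normal ∧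
    (Subgroup.closure {y : G | ∃ (a : A) (g : G), y = g⁻¹ * a • g} : Set G) ∩ MulAction.fixedPoints A G = {1} ∧
    Subgroup.closure {y : G | ∃ (a : A) (g : G), y = g⁻¹ * a • g} ⊔ Subgroup.closure (MulAction.fixedPoints A G) = ⊤ := by
  set K0 : Subgroup G := Subgroup.closure {y : G | ∃ (a : A) (g : G), y = g⁻¹ * a • g} with hK0
  set C0 : Subgroup G := FixedPoints.subgroup A G with hC0
  have hC0set : (C0 : Set G) = MulAction.fixedPoints A G := rfl
  have hclC : Subgroup.closure (MulAction.fixedPoints A G) = C0 := by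
    rw [← hC0set, Subgroup.closure_eq]
  have hZG : IsZGroup G := ⟨fun p hp P => by have : Fact p.Prime := ⟨hp⟩; exact hcyc p P⟩
  let φ : A →* MulAut G := MulDistribMulAction.toMulAut A G
  let i : G →* G ⋊[φ] A := SemidirectProduct.inl
  let j : A →* G ⋊[φ] A := SemidirectProduct.inr
  have hi : Function.Injective i := SemidirectProduct.inl_injective
  have hj : Function.Injective j := SemidirectProduct.inr_injective
  have hconj : ∀ (a : A) (g : G), j a * i g * (j a)⁻¹ = i (a • g) := by
    intro a g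
    have := SemidirectProduct.inl_aut (φ := φ) a g
    rw [map_inv] at this
    exact this.symm
  set N : Subgroup (G ⋊[φ] A) := i.range with hN
  set B : Subgroup (G ⋊[φ] A) := j.range with hB
  have hZN : IsZGroup N := IsZGroup.of_surjective (f := i.rangeRestrict) i.rangeRestrict_surjective
  have hcardN : Nat.card N = Nat.card G :=
    (Nat.card_congr (MonoidHom.ofInjective hi).toEquiv).symm
  have hcardB : Nat.card B = Nat.card A :=
    (Nat.card_congr (MonoidHom.ofInjective hj).toEquiv).symm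
  have hBN : B ≤ Subgroup.normalizer (N : Set (G ⋊[φ] A)) := by
    rw [Subgroup.le_normalizer_iff]
    rintro _ ⟨a, rfl⟩ _ ⟨g, rfl⟩
    exact ⟨a • g, (hconj a g).symm⟩
  have hcop' : (Nat.card B).Coprime (Nat.card N) := by rw [hcardN, hcardB]; exact hcop
  have hfin : Finite (G ⋊[φ] A) := Finite.of_equiv _ SemidirectProduct.equivProd.symm
  obtain ⟨h1, h2, h3, h4⟩ := zgroup_coprime_action N B hBN hcop'
  have hKmap : K0.map i = ⁅N, B⁆ := by
    apply le_antisymm
    · rw [hK0, MonoidHom.map_closure, Subgroup.closure_le]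
      rintro _ ⟨_, ⟨a, g, rfl⟩, rfl⟩
      have : i (g⁻¹ * a • g) = ⁅i g⁻¹, j a⁆ := by
        rw [commutatorElement_def, map_mul, ← hconj, map_inv, inv_inv]
        group
      rw [this]
      exact Subgroup.commutator_mem_commutator ⟨g⁻¹, rfl⟩ ⟨a, rfl⟩
    · rw [Subgroup.commutator_le]
      rintro _ ⟨g, rfl⟩ _ ⟨a, rfl⟩
      refine ⟨(g⁻¹)⁻¹ * a • g⁻¹, Subgroup.subset_closure ⟨a, g⁻¹, rfl⟩, ?_⟩
      rw [commutatorElement_def, map_mul, ← hconj, map_inv, map_inv, inv_inv]
      group
  have hCmap : C0.map i = N ⊓ Subgroup.centralizer (B : Set (G ⋊[φ] A)) := by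
    apply le_antisymm
    · rintro _ ⟨g, hg, rfl⟩
      refine ⟨⟨g, rfl⟩, ?_⟩
      show _ ∈ Subgroup.centralizer (B : Set (G ⋊[φ] A))
      rw [Subgroup.mem_centralizer_iff]
      rintro _ ⟨a, rfl⟩
      have h5 := hconj a g
      rw [show a • g = g from hg a] at h5
      rw [mul_inv_eq_iff_eq_mul] at h5
      exact h5
    · rintro _ ⟨⟨g, rfl⟩, hg⟩
      refine ⟨g, ?_, rfl⟩
      intro a
      apply hi
      rw [← hconj, mul_inv_eq_iff_eq_mul]
      exact (Subgroup.mem_centralizer_iff.mp hg) (j a) ⟨a, rfl⟩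
  have hcardK : Nat.card (⁅N, B⁆ : Subgroup (G ⋊[φ] A)) = Nat.card K0 := by
    rw [← hKmap]; exact Subgroup.card_map_of_injective hi
  have hcardC : Nat.card (N ⊓ Subgroup.centralizer (B : Set (G ⋊[φ] A)) : Subgroup (G ⋊[φ] A))
      = Nat.card C0 := by
    rw [← hCmap]; exact Subgroup.card_map_of_injective hi
  have hnorm := sup_le_normalizer_commutator N B
  have hprod : Nat.card G = Nat.card C0 * Nat.card K0 := by
    have h5 := card_sup_of_coprime_le_normalizer
      (H := N ⊓ Subgroup.centralizer (B : Set (G ⋊[φ] A))) (N := ⁅N, B⁆)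
      (inf_le_left.trans (le_sup_left.trans hnorm)) h4.symm
    rw [sup_comm, h3, hcardN, hcardK, hcardC] at h5
    exact h5
  have hcardset : Nat.card (MulAction.fixedPoints A G : Set G) = Nat.card C0 := rfl
  refine ⟨?_, ?_, ?_, ?_, ?_⟩
  · rw [hcardset, hprod, Nat.mul_div_cancel_left _ Nat.card_pos, ← hcardK, ← hcardC]
    exact h4.symm
  · rw [← hKmap] at h1
    exact isCyclic_of_surjective (K0.equivMapOfInjective i hi).symm
      (K0.equivMapOfInjective i hi).symm.surjective
  · refine ⟨fun k hk g => ?_⟩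
    have h5 : i k ∈ ⁅N, B⁆ := by rw [← hKmap]; exact ⟨k, hk, rfl⟩
    have h6 := (Subgroup.le_normalizer_iff.mp (le_sup_left.trans hnorm)) (i g) ⟨g, rfl⟩ _ h5
    rw [← hKmap] at h6
    obtain ⟨k', hk', hk''⟩ := h6
    have : k' = g * k * g⁻¹ := by
      apply hi
      rw [hk'', map_mul, map_mul, map_inv]
    rw [← this]; exact hk'
  · ext x
    simp only [Set.mem_inter_iff, SetLike.mem_coe, Set.mem_singleton_iff]
    constructor
    · rintro ⟨hx1, hx2⟩
      have h5 : i x ∈ ⁅N, B⁆ ⊓ Subgroup.centralizer (B : Set (G ⋊[φ] A)) := by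
        refine ⟨by rw [← hKmap]; exact ⟨x, hx1, rfl⟩, ?_⟩
        have : i x ∈ C0.map i := ⟨x, hx2, rfl⟩
        rw [hCmap] at this
        exact this.2
      rw [h2, Subgroup.mem_bot] at h5
      apply hi
      rw [h5, map_one]
    · rintro rfl
      exact ⟨K0.one_mem, C0.one_mem⟩
  · rw [hclC]
    apply Subgroup.map_injective hi
    rw [Subgroup.map_sup, hKmap, hCmap, h3, hN, MonoidHom.range_eq_map]

end Cfsg.Agent.S4117
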