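import Cfsg.Statements.S4126
import Cfsg.Agent.S0071
import Cfsg.Agent.Lib.Helper11.OmegaAut
import Cfsg.Agent.Lib.Helper11.AxB
import Cfsg.Agent.Lib.Helper63.PGroupFixed

set_option autoImplicit false
open Cfsg

namespace Cfsg.Agent.S4126

open Cfsg.Agent.Lib.Helper11
open scoped commutatorElement

/-- A subgroup of `p`-power index and a Sylow `p`-subgroup factorize the group. -/
theorem exists_mul_of_index_pow {G : Type*} [Group G] [Finite G] {p a : ℕ} [Fact p.Prime]
    (C : Subgroup G) (hC : C.index = p ^ a) (P : Sylow p G) (h : G) :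
    ∃ u ∈ (P : Subgroup G), u⁻¹ * h ∈ C := by
  have hcard : Nat.card (G ⧸ C) = p ^ a := by rw [← Subgroup.index_eq_card, hC]
  have hpt := Cfsg.Agent.Lib.Helper63.sylow_isPretransitive (G := G) (Ω := G ⧸ C) hcard P
  obtain ⟨u, hu⟩ := hpt.exists_smul_eq ((1 : G) : G ⧸ C) ((h : G) : G ⧸ C)
  refine ⟨u, u.2, ?_⟩
  have h1 : (((u : G) * 1 : G) : G ⧸ C) = (h : G ⧸ C) := hu
  rw [mul_one, QuotientGroup.eq] at h1
  exact h1

/-- The elements concerned. -/
def E {G : Type*} [Group G] (p : ℕ) (x : G) : Prop := orderOf x = p ∨ (p = 2 ∧ orderOf x = 4)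

theorem E_or_one {G : Type*} [Group G] {p : ℕ} [hp : Fact p.Prime] {x : G}
    (hx : x ^ p = 1 ∨ (p = 2 ∧ x ^ 4 = 1)) : x = 1 ∨ E p x := by
  rcases hx with hx | ⟨h2, hx⟩
  · rcases (Nat.dvd_prime hp.out).1 (orderOf_dvd_of_pow_eq_one hx) with h | h
    · left; exact orderOf_eq_one_iff.1 h
    · right; left; exact h
  · have h4 : orderOf x ∣ 2 ^ 2 := orderOf_dvd_of_pow_eq_one (by simpa using hx)
    obtain ⟨k, hk, hk2⟩ := (Nat.dvd_prime_pow Nat.prime_two).1 h4
    interval_cases k
    · left; exact orderOf_eq_one_iff.1 (by simpa using hk2)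
    · right; left; rw [h2]; simpa using hk2
    · right; right; exact ⟨h2, by simpa using hk2⟩

theorem main {G : Type*} [Group G] [Finite G] (p : ℕ) [Fact p.Prime]
    (h : ∀ x : G, E p x → ∃ a : ℕ, (Subgroup.centralizer ({x} : Set G)).index = p ^ a)
    (g : G) (hg : (orderOf g).Coprime p) (n : ℕ) :
    ∀ x : G, Nat.card (Subgroup.normalClosure ({x} : Set G)) = n → E p x → g * x = x * g := by
  have hp : p.Prime := Fact.out
  induction n using Nat.strong_induction_on with
  | _ n ih =>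
  intro x hn hx
  obtain ⟨a, ha⟩ := h x hx
  have hxp : ∃ k : ℕ, orderOf x = p ^ k := by
    rcases hx with hx | ⟨h2, hx⟩
    · exact ⟨1, by rw [hx, pow_one]⟩
    · exact ⟨2, by rw [hx, h2]; norm_num⟩
  obtain ⟨k, hk⟩ := hxp
  have hx1 : x ≠ 1 := by
    rintro rfl
    rcases hx with hx | ⟨h2, hx⟩
    · rw [orderOf_one] at hx; exact hp.one_lt.ne hx
    · rw [orderOf_one] at hx; omega
  have hZ : IsPGroup p (Subgroup.zpowers x) :=
    IsPGroup.of_card (n := k) (by rw [Nat.card_zpowers, hk])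
  obtain ⟨P, hZP⟩ := hZ.exists_le_sylow
  have hxP : x ∈ (P : Subgroup G) := hZP (Subgroup.mem_zpowers x)
  -- every conjugate is a `P`-conjugate
  have hconj : ∀ t : G, ∃ u ∈ (P : Subgroup G), t * x * t⁻¹ = u * x * u⁻¹ := by
    intro t
    obtain ⟨u, hu, hc⟩ := exists_mul_of_index_pow _ ha P t
    refine ⟨u, hu, ?_⟩
    rw [Subgroup.mem_centralizer_singleton_iff] at hc
    have : t = u * (u⁻¹ * t) := by group
    rw [this]
    calc u * (u⁻¹ * t) * x * (u * (u⁻¹ * t))⁻¹ = u * ((u⁻¹ * t) * x) * (u⁻¹ * t)⁻¹ * u⁻¹ := by group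
      _ = u * (x * (u⁻¹ * t)) * (u⁻¹ * t)⁻¹ * u⁻¹ := by rw [hc]
      _ = u * x * u⁻¹ := by group
  set M := Subgroup.normalClosure ({x} : Set G) with hM
  have hMP : M ≤ (P : Subgroup G) := by
    rw [hM, Subgroup.normalClosure, Subgroup.closure_le]
    intro y hy
    rw [Group.mem_conjugatesOfSet_iff] at hy
    obtain ⟨b, hb, hby⟩ := hy
    rw [Set.mem_singleton_iff] at hb
    subst hb
    rw [isConj_iff] at hby
    obtain ⟨c, rfl⟩ := hby
    obtain ⟨u, hu, hc⟩ := hconj c
    rw [hc]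
    exact (P : Subgroup G).mul_mem ((P : Subgroup G).mul_mem hu hxP) ((P : Subgroup G).inv_mem hu)
  have hxM : x ∈ M := Subgroup.subset_normalClosure (Set.mem_singleton x)
  have hMp : IsPGroup p M := P.isPGroup'.to_le hMP
  have hMn : M.Normal := Subgroup.normalClosure_normal
  have hM1 : M ≠ ⊥ := by
    intro hb
    rw [hb, Subgroup.mem_bot] at hxM
    exact hx1 hxM
  have hlt : ⁅M, (P : Subgroup G)⁆ < M :=
    commutator_lt_of_isPGroup M P hMp P.isPGroup' (by rw [Subgroup.normalizer_eq_top]; exact le_top) hM1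
  -- the subgroup `[x, G]`
  let N : Subgroup G := Subgroup.closure {y | ∃ t : G, y = x⁻¹ * (t * x * t⁻¹)}
  have hNle : N ≤ ⁅M, (P : Subgroup G)⁆ := by
    rw [Subgroup.closure_le]
    rintro y ⟨t, rfl⟩
    obtain ⟨u, hu, hc⟩ := hconj t
    rw [hc]
    have : x⁻¹ * (u * x * u⁻¹) = ⁅x⁻¹, u⁆ := by rw [commutatorElement_def]; group
    rw [this]
    exact Subgroup.commutator_mem_commutator (M.inv_mem hxM) hu
  have hNn : N.Normal := by
    constructor
    intro y hy s
    induction hy using Subgroup.closure_induction with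
    | mem y hy =>
      obtain ⟨t, rfl⟩ := hy
      have : s * (x⁻¹ * (t * x * t⁻¹)) * s⁻¹
          = (x⁻¹ * (s * x * s⁻¹))⁻¹ * (x⁻¹ * ((s * t) * x * (s * t)⁻¹)) := by group
      rw [this]
      exact N.mul_mem (N.inv_mem (Subgroup.subset_closure ⟨s, rfl⟩))
        (Subgroup.subset_closure ⟨s * t, rfl⟩)
    | one => simp
    | mul y z _ _ hy hz =>
      have : s * (y * z) * s⁻¹ = (s * y * s⁻¹) * (s * z * s⁻¹) := by group
      rw [this]; exact N.mul_mem hy hz
    | inv y _ hy =>
      have : s * y⁻¹ * s⁻¹ = (s * y * s⁻¹)⁻¹ := by group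
      rw [this]; exact N.inv_mem hy
  have hNlt : Nat.card N < n := by
    rw [← hn]
    have hlt' : N < M := lt_of_le_of_lt hNle hlt
    refine lt_of_le_of_ne (Subgroup.card_le_of_le hlt'.le) ?_
    intro heq
    exact hlt'.ne (Subgroup.eq_of_le_of_card_ge hlt'.le heq.ge)
  have hNp : IsPGroup p N := hMp.to_le (hNle.trans hlt.le)
  have hgN : g ∈ Subgroup.centralizer (N : Set G) := by
    apply mem_centralizer_of_fix_omega N hNp g (by rw [Subgroup.normalizer_eq_top]; trivial) hg
    intro y hyN hy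
    rcases E_or_one hy with rfl | hyE
    · simp
    · have hle : Subgroup.normalClosure ({y} : Set G) ≤ N :=
        Subgroup.normalClosure_le_normal (by simpa using hyN)
      exact ih _ (lt_of_le_of_lt (Subgroup.card_le_of_le hle) hNlt) y rfl hyE
  have hcN : ⁅g, x⁆ ∈ N := by
    have : ⁅g, x⁆ = x * (x⁻¹ * (g * x * g⁻¹)) * x⁻¹ := by rw [commutatorElement_def]; group
    rw [this]
    exact hNn.conj_mem _ (Subgroup.subset_closure ⟨g, rfl⟩) x
  apply commute_of_commute_commutator (p := p) g x _ hg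
  · obtain ⟨j, hj⟩ := hNp ⟨_, hcN⟩
    refine ⟨j, ?_⟩
    have := congrArg Subtype.val hj
    simpa using this
  · exact (Subgroup.mem_centralizer_iff.1 hgN _ hcN).symm

/-- Let G be a finite group and p a prime. Suppose every element of order p, and when p = 2 also every element of order 4, has a conjugacy class of p-power size. Then G has a normal p-complement. -/
theorem result {G : Type*} [Group G] [Finite G] (p : ℕ) [Fact p.Prime]
    (h : ∀ x : G, (orderOf x = p ∨ (p = 2 ∧ orderOf x = 4)) → ∃ a : ℕ, (Subgroup.centralizer ({x} : Set G)).index = p ^ a) :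
    Cfsg.HasNormalPComplement p G := by
  obtain ⟨P⟩ : Nonempty (Sylow p G) := inferInstance
  have key : ∃ N : Subgroup G, N.Normal ∧ N.IsComplement' (P : Subgroup G) := by
    rw [Cfsg.Agent.S0071.result P]
    intro Q hQP g hgN hgp
    have hQp : IsPGroup p Q := P.isPGroup'.to_le hQP
    apply mem_centralizer_of_fix_omega Q hQp g hgN hgp
    intro x _ hx
    rcases E_or_one hx with rfl | hxE
    · simp
    · exact main p h g hgp _ x rfl hxE
  obtain ⟨N, hN, hc⟩ := key
  exact ⟨P, N, hN, hc⟩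

end Cfsg.Agent.S4126
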