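import Cfsg.Statements.S4127
-- import your own Cfsg.Agent.* helpers here
import Mathlib
import Cfsg.Agent.Lib.Helper58.PRegularCentral
import Cfsg.Agent.Lib.Helper58.NormalComplement
import Cfsg.Agent.Lib.Helper11.AxB
import Cfsg.Agent.Lib.Helper12.Card

set_option autoImplicit false
open Cfsg

namespace Cfsg.Agent.S4127

open scoped Pointwise

/-- Let G be a finite group, p a prime and p^a the largest power of p dividing the size of any conjugacy class of G. If some element of p-power order has a conjugacy class of size exactly p^a, then G has a normal p-complement. -/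
theorem result {G : Type*} [Group G] [Finite G] (p : ℕ) [Fact p.Prime]
    (a : ℕ) (hmax : ∀ y : G, ¬ p ^ (a + 1) ∣ (Subgroup.centralizer ({y} : Set G)).index)
    (hx : ∃ x : G, (∃ k : ℕ, orderOf x = p ^ k) ∧ (Subgroup.centralizer ({x} : Set G)).index = p ^ a) :
    Cfsg.HasNormalPComplement p G := by

  have hp : p.Prime := Fact.out
  obtain ⟨x, ⟨k, hk⟩, hxa⟩ := hx
  set C := Subgroup.centralizer ({x} : Set G) with hC
  -- Step 1: p-regular elements of C have class size in C prime to p
  have h1 : ∀ y : C, (orderOf y).Coprime p → ¬ p ∣ (Subgroup.centralizer ({y} : Set C)).index := by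
    intro y hy hdiv
    apply hmax (x * y)
    have hcomm : Commute x (y : G) := by
      have : (y : G) ∈ Subgroup.centralizer ({x} : Set G) := y.2
      rw [Subgroup.mem_centralizer_singleton_iff] at this
      exact this.symm
    have hy' : (orderOf (y : G)).Coprime p := by rwa [Subgroup.orderOf_coe]
    have hle : Subgroup.centralizer ({x * (y : G)} : Set G) ≤
        Subgroup.centralizer ({(y : G)} : Set G) ⊓ C := by
      intro g hg
      rw [Subgroup.mem_centralizer_singleton_iff] at hg
      have hg' : Commute g (x * y) := hg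
      have h2 : Commute g (x ^ orderOf (y : G)) := by
        have := hg'.pow_right (orderOf (y : G))
        rwa [hcomm.mul_pow, pow_orderOf_eq_one, mul_one] at this
      have hcop : Nat.Coprime (orderOf (y : G)) (orderOf x) := by
        rw [hk]; exact Nat.Coprime.pow_right k hy'
      obtain ⟨m, hm⟩ := exists_pow_eq_self_of_coprime hcop
      have h3 : Commute g x := by
        have := h2.pow_right m
        rwa [hm] at this
      have h4 : Commute g (y : G) := by
        have := h3.inv_right.mul_right hg'
        rwa [inv_mul_cancel_left] at this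
      refine Subgroup.mem_inf.mpr ⟨?_, ?_⟩
      · rw [Subgroup.mem_centralizer_singleton_iff]; exact h4
      · rw [hC, Subgroup.mem_centralizer_singleton_iff]; exact h3
    have heq : Subgroup.centralizer ({y} : Set C) =
        (Subgroup.centralizer ({(y : G)} : Set G)).subgroupOf C := by
      ext z
      rw [Subgroup.mem_subgroupOf, Subgroup.mem_centralizer_singleton_iff,
        Subgroup.mem_centralizer_singleton_iff, Subtype.ext_iff]
      rfl
    have hidx : (Subgroup.centralizer ({(y : G)} : Set G) ⊓ C).index =
        (Subgroup.centralizer ({y} : Set C)).index * p ^ a := by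
      rw [← Subgroup.relIndex_mul_index (inf_le_right : _ ≤ C), Subgroup.inf_relIndex_right, hxa, heq]
      rfl
    refine dvd_trans ?_ (Subgroup.index_dvd_of_le hle)
    rw [hidx, pow_succ, mul_comm]
    exact Nat.mul_dvd_mul_right hdiv _
  obtain ⟨S⟩ : Nonempty (Sylow p C) := inferInstance
  obtain ⟨H', hH'n, hH'c, hH'i, -⟩ :=
    Cfsg.Agent.Lib.Helper58.exists_central_complement_of_pregular_index h1 S
  obtain ⟨j, hj⟩ := S.2.exists_card_eq
  have hH'i' : H'.index = p ^ j := by rw [hH'i]; exact hj
  set H := H'.map C.subtype with hH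
  have hHC : H ≤ C := Subgroup.map_subtype_le H'
  have hHcard : (Nat.card H).Coprime p := by
    rw [hH, Subgroup.card_map_of_injective (Subgroup.subtype_injective C)]; exact hH'c
  -- Step 3: the normal closure of x is a p-group
  have hT : IsPGroup p (Subgroup.zpowers x) := IsPGroup.of_card (n := k) (by rw [Nat.card_zpowers, hk])
  obtain ⟨P, hP⟩ := hT.exists_le_sylow
  have hxP : x ∈ (P : Subgroup G) := hP (Subgroup.mem_zpowers x)
  have hPC : ((P : Subgroup G) : Set G) * (C : Set G) = Set.univ := by
    apply Cfsg.Agent.Lib.Helper12.mul_eq_univ_of_coprime_index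
    rw [hxa]
    exact Nat.Coprime.pow_right a ((Nat.Prime.coprime_iff_not_dvd hp).mpr P.not_dvd_index).symm
  set Q := Subgroup.normalClosure ({x} : Set G) with hQ
  have hQP : Q ≤ (P : Subgroup G) := by
    rw [hQ, Subgroup.normalClosure, Subgroup.closure_le]
    intro z hz
    rw [Group.mem_conjugatesOfSet_iff] at hz
    obtain ⟨w, hw, hwz⟩ := hz
    rw [Set.mem_singleton_iff] at hw
    subst hw
    rw [isConj_iff] at hwz
    obtain ⟨c, rfl⟩ := hwz
    have hc : c ∈ ((P : Subgroup G) : Set G) * (C : Set G) := by rw [hPC]; trivial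
    obtain ⟨u, hu, c', hc', rfl⟩ := Set.mem_mul.mp hc
    have hc'' : c' * w = w * c' := by
      have : c' ∈ C := hc'
      rwa [hC, Subgroup.mem_centralizer_singleton_iff] at this
    have : u * c' * w * (u * c')⁻¹ = u * w * u⁻¹ := by
      calc u * c' * w * (u * c')⁻¹ = u * (c' * w) * c'⁻¹ * u⁻¹ := by group
        _ = u * (w * c') * c'⁻¹ * u⁻¹ := by rw [hc'']
        _ = u * w * u⁻¹ := by group
    rw [this]
    exact (P : Subgroup G).mul_mem ((P : Subgroup G).mul_mem hu hxP) ((P : Subgroup G).inv_mem hu)
  have hQp : IsPGroup p Q := P.2.to_le hQP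
  have hQn : Q.Normal := Subgroup.normalClosure_normal
  have hxQ : x ∈ Q := Subgroup.subset_normalClosure (Set.mem_singleton x)
  -- Step 4: A x B
  have hHQ : H ≤ Subgroup.centralizer (Q : Set G) := by
    refine Cfsg.Agent.Lib.Helper11.thompson_AxB (Subgroup.zpowers x) H hT hHcard ?_ Q hQp ?_ ?_ ?_
    · rw [Subgroup.le_centralizer_iff, Subgroup.zpowers_le, Subgroup.mem_centralizer_iff]
      intro h hh
      have := hHC hh
      rwa [hC, Subgroup.mem_centralizer_singleton_iff] at this
    · rw [Subgroup.normalizer_eq_top_iff.mpr hQn]; exact le_top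
    · rw [Subgroup.normalizer_eq_top_iff.mpr hQn]; exact le_top
    · intro h hh
      rw [Subgroup.mem_centralizer_iff]
      intro z hz
      obtain ⟨hzQ, hzT⟩ := Subgroup.mem_inf.mp hz
      have hzC : z ∈ C := by
        rw [hC, Subgroup.mem_centralizer_singleton_iff]
        exact ((Subgroup.mem_centralizer_iff.mp hzT) x (Subgroup.mem_zpowers x)).symm
      obtain ⟨h', hh', rfl⟩ := hh
      have hord : (orderOf h').Coprime p := by
        have : orderOf h' ∣ Nat.card H' := by
          have := orderOf_dvd_natCard (⟨h', hh'⟩ : H')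
          rwa [Subgroup.orderOf_mk] at this
        exact Nat.Coprime.coprime_dvd_left this hH'c
      have hzp : IsPGroup p (Subgroup.zpowers (⟨z, hzC⟩ : C)) := by
        obtain ⟨i, hi⟩ := (IsPGroup.iff_orderOf.mp hQp) ⟨z, hzQ⟩
        rw [Subgroup.orderOf_mk] at hi
        exact IsPGroup.of_card (n := i) (by rw [Nat.card_zpowers, Subgroup.orderOf_mk, hi])
      have := Cfsg.Agent.Lib.Helper58.commute_of_pregular_index h1 h' ⟨z, hzC⟩ hord hzp
      exact (congrArg Subtype.val this.eq).symm
  have hKC : Subgroup.centralizer (Q : Set G) ≤ C := by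
    intro g hg
    rw [hC, Subgroup.mem_centralizer_singleton_iff]
    exact ((Subgroup.mem_centralizer_iff.mp hg) x hxQ).symm
  have hKn : (Subgroup.centralizer (Q : Set G)).Normal := inferInstance
  have hHn : H.Normal := by
    constructor
    intro h hh g
    have h2 : g * h * g⁻¹ ∈ C := hKC (hKn.conj_mem h (hHQ hh) g)
    refine ⟨⟨g * h * g⁻¹, h2⟩, ?_, rfl⟩
    apply Cfsg.Agent.Lib.Helper58.mem_of_coprime_order H' j hH'i'
    rw [Subgroup.orderOf_mk]
    have h3 : orderOf (g * h * g⁻¹) = orderOf h := by
      have := orderOf_injective (MulAut.conj g).toMonoidHom (MulAut.conj g).injective h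
      simpa using this
    rw [h3]
    have : orderOf h ∣ Nat.card H := by
      have := orderOf_dvd_natCard (⟨h, hh⟩ : H)
      rwa [Subgroup.orderOf_mk] at this
    exact Nat.Coprime.coprime_dvd_left this hHcard
  have hHidx : H.index = p ^ (j + a) := by
    rw [hH, Subgroup.index_map_subtype, hH'i', hxa, pow_add]
  exact Cfsg.Agent.Lib.Helper58.hasNormalPComplement_of_card H (j + a) hHidx hHcard

end Cfsg.Agent.S4127
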