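import Cfsg.Statements.S4134
-- import your own Cfsg.Agent.* helpers here
import Cfsg.Agent.Lib.Helper73.TwoClass

set_option autoImplicit false
open Cfsg

namespace Cfsg.Agent.S4134


open Cfsg.Agent.Lib.Helper73 Cfsg.Agent.Lib.Helper77 Cfsg.Agent.Lib.Helper58 Cfsg.Agent.Lib.Helper31

theorem fgrp_sylow {G : Type*} [Group G] [Finite G] (hF : FGrp G) (p : ℕ) [Fact p.Prime]
    (P : Sylow p G) [hPn : (P : Subgroup G).Normal]
    (hreg : ∀ y : G, (orderOf y).Coprime p → y ∈ Subgroup.center G) :
    FGrp (P : Subgroup G) := by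
  intro a b hb hab
  have hbG : (b : G) ∉ Subgroup.center G := by
    intro h
    apply hb
    rw [Subgroup.mem_center_iff]
    intro g
    exact Subtype.ext ((Subgroup.mem_center_iff.mp h) g)
  have hG : Subgroup.centralizer ({(a : G)} : Set G) ≤ Subgroup.centralizer ({(b : G)} : Set G) := by
    intro g hg
    obtain ⟨u, hu, v, _, hguv, huk, hvc⟩ := exists_prime_decomp p g (isOfFinOrder_of_finite g)
    have huP : u ∈ (P : Subgroup G) := mem_sylow_of_normal P u huk
    have hvZ : v ∈ Subgroup.center G := hreg v hvc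
    have hau : (a : G) ∈ Subgroup.centralizer ({u} : Set G) :=
      cn_le_cn_of_mem_zpowers g u hu (by rw [mem_cn]; exact (mem_cn.mp hg).symm)
    have hua : (⟨u, huP⟩ : (P : Subgroup G)) ∈ Subgroup.centralizer ({a} : Set (P : Subgroup G)) := by
      rw [mem_cn]
      exact Subtype.ext (mem_cn.mp hau).symm
    have hub := mem_cn.mp (hab hua)
    have hub' : u * (b : G) = b * u := congrArg Subtype.val hub
    rw [mem_cn, hguv, mul_assoc, ← (Subgroup.mem_center_iff.mp hvZ) b, ← mul_assoc, hub', mul_assoc]
  have hG' := hF _ _ hbG hG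
  intro w hw
  rw [mem_cn] at hw ⊢
  have : (w : G) ∈ Subgroup.centralizer ({(b : G)} : Set G) := by
    rw [mem_cn]; exact congrArg Subtype.val hw
  exact Subtype.ext (mem_cn.mp (hG' this))

/-- Let G be a finite group whose conjugacy classes have exactly two sizes, 1 and n > 1. Then n is a power of a prime p and G is the direct product of a p-group and an abelian group of order prime to p: its Sylow p-subgroup P is normal with an abelian normal complement centralizing it; moreover P has an abelian normal subgroup A with P/A of exponent dividing p. -/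
theorem result {G : Type*} [Group G] [Finite G] (n : ℕ) (hn : 1 < n)
    (h : ∀ x : G, (Subgroup.centralizer ({x} : Set G)).index = 1 ∨ (Subgroup.centralizer ({x} : Set G)).index = n) (hex : ∃ x : G, (Subgroup.centralizer ({x} : Set G)).index = n) :
    ∃ (p : ℕ) (_ : Fact p.Prime) (a : ℕ), n = p ^ a ∧ ∀ P : Sylow p G, (P : Subgroup G).Normal ∧
      (∃ N : Subgroup G, N.Normal ∧ N.IsComplement' (P : Subgroup G) ∧ IsMulCommutative N ∧
        ∀ x ∈ N, ∀ y ∈ (P : Subgroup G), x * y = y * x) ∧
      ∃ A : Subgroup (P : Subgroup G), A.Normal ∧ IsMulCommutative A ∧ ∀ y : (P : Subgroup G), y ^ p ∈ A := by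
  classical
  have hF := fgrp_of_two_class n hn h
  obtain ⟨x₀, hx₀⟩ := hex
  have hidx1 : (Subgroup.center G).index ≠ 1 := by
    intro h1
    have hd : (Subgroup.centralizer ({x₀} : Set G)).index ∣ (Subgroup.center G).index :=
      Subgroup.index_dvd_of_le (center_le_cn x₀)
    rw [h1, hx₀] at hd
    exact hn.ne' (Nat.dvd_one.mp hd)
  obtain ⟨p, hp, hpd⟩ := Nat.exists_prime_and_dvd hidx1
  have := Fact.mk hp
  have key : ∀ s : ℕ, s.Prime → s ∣ (Subgroup.center G).index →
      ∃ w, w ∉ Subgroup.center G ∧ ∃ k : ℕ, orderOf w = s ^ k := by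
    intro s hs hsd
    have := Fact.mk hs
    let S : Sylow s G := default
    by_contra hcon
    push Not at hcon
    have hle : (S : Subgroup G) ≤ Subgroup.center G := by
      intro u hu
      by_contra hu'
      obtain ⟨k, hk⟩ := (IsPGroup.iff_orderOf.mp S.2) ⟨u, hu⟩
      exact hcon u hu' k (by rw [← hk, Subgroup.orderOf_mk])
    exact S.not_dvd_index (hsd.trans (Subgroup.index_dvd_of_le hle))
  obtain ⟨x, hx, hxp⟩ := key p hp hpd
  have huniq : ∀ s : ℕ, s.Prime → s ∣ (Subgroup.center G).index → s = p := by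
    intro s hs hsd
    obtain ⟨w, hw, hws⟩ := key s hs hsd
    have := Fact.mk hs
    exact (two_class_unique_prime n hn h p s x w hx hw hxp hws).symm
  have hZidx : (Subgroup.center G).index = p ^ ((Subgroup.center G).index).primeFactorsList.length :=
    Nat.eq_prime_pow_of_unique_prime_dvd Subgroup.index_ne_zero_of_finite
      (fun {d} hd hdd => huniq d hd hdd)
  have hnd : n ∣ (Subgroup.center G).index := by
    rw [← hx₀]; exact Subgroup.index_dvd_of_le (center_le_cn x₀)
  rw [hZidx] at hnd
  obtain ⟨a, _, ha⟩ := (Nat.dvd_prime_pow hp).mp hnd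
  refine ⟨p, inferInstance, a, ha, ?_⟩
  intro P
  have hreg : ∀ y : G, (orderOf y).Coprime p → y ∈ Subgroup.center G := fun y hy =>
    mem_of_coprime_of_index_pow (Subgroup.center G) hZidx y hy
  have hreg' : ∀ y : G, (orderOf y).Coprime p →
      ¬ p ∣ (Subgroup.centralizer ({y} : Set G)).index := by
    intro y hy
    have htop : Subgroup.centralizer ({y} : Set G) = ⊤ := by
      rw [eq_top_iff]
      intro g _
      rw [mem_cn]
      exact (Subgroup.mem_center_iff.mp (hreg y hy)) g
    rw [htop, Subgroup.index_top]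
    exact fun hd => hp.one_lt.ne' (Nat.dvd_one.mp hd)
  obtain ⟨hPn, hPc⟩ := sylow_normal_of_pregular_index hreg' P
  obtain ⟨H, hHn, hHc, hHi, hHle⟩ := exists_central_complement_of_pregular_index hreg' P
  have hHZ : H ≤ Subgroup.center G := by
    intro u hu
    apply hreg
    have : orderOf u ∣ Nat.card H := by
      have := orderOf_dvd_natCard (⟨u, hu⟩ : H)
      rwa [Subgroup.orderOf_mk] at this
    exact Nat.Coprime.coprime_dvd_left this hHc
  refine ⟨hPn, ⟨H, hHn, ?_, ?_, ?_⟩, ?_⟩
  · apply Subgroup.isComplement'_of_coprime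
    · rw [← hHi]; exact Subgroup.card_mul_index H
    · obtain ⟨j, hj⟩ := (IsPGroup.iff_card).mp P.2
      rw [hj]; exact Nat.Coprime.pow_right j hHc
  · exact ⟨⟨fun u v => Subtype.ext ((Subgroup.mem_center_iff.mp (hHZ v.2)) u)⟩⟩
  · intro u hu y _
    exact ((Subgroup.mem_center_iff.mp (hHZ hu)) y).symm
  · exact (fgrp_sylow hF p P hreg).exists_abelian_normal_exponent p P.2

end Cfsg.Agent.S4134
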