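import Cfsg.Statements.S4142
-- import your own Cfsg.Agent.* helpers here

set_option autoImplicit false
open Cfsg

namespace Cfsg.Agent.S4142

theorem key {G : Type*} [Group G] [Finite G] (N : Subgroup G) [N.Normal] (g : G) :
    (∀ n ∈ N, ∃ x : G, x * g * x⁻¹ = g * n) ↔
      Nat.card (Subgroup.centralizer ({g} : Set G)) =
        Nat.card (Subgroup.centralizer ({(QuotientGroup.mk g : G ⧸ N)} : Set (G ⧸ N))) := by
  set C := Subgroup.centralizer ({g} : Set G) with hC
  set Cbar := Subgroup.centralizer ({(QuotientGroup.mk g : G ⧸ N)} : Set (G ⧸ N)) with hCbar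
  set D := Cbar.comap (QuotientGroup.mk' N) with hD
  have memD : ∀ x, x ∈ D ↔ g⁻¹ * (x * g * x⁻¹) ∈ N := by
    intro x
    rw [hD, Subgroup.mem_comap, hCbar, Subgroup.mem_centralizer_singleton_iff]
    simp only [QuotientGroup.mk'_apply]
    rw [← QuotientGroup.mk_mul, ← QuotientGroup.mk_mul, eq_comm, QuotientGroup.eq]
    constructor
    · intro h
      have := Subgroup.Normal.conj_mem (inferInstance : N.Normal) _ h x
      convert this using 1
      group
    · intro h
      have := Subgroup.Normal.conj_mem (inferInstance : N.Normal) _ h x⁻¹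
      convert this using 1
      group
  have hCD : C ≤ D := by
    intro x hx
    rw [memD]
    rw [hC, Subgroup.mem_centralizer_singleton_iff] at hx
    rw [hx]
    simp
  have cardD : Nat.card D = Nat.card N * Nat.card Cbar := by
    have h1 : D.index = Cbar.index :=
      Subgroup.index_comap_of_surjective _ (QuotientGroup.mk'_surjective N)
    have h2 := D.card_mul_index
    have h3 := Cbar.card_mul_index
    have h4 := N.card_eq_card_quotient_mul_card_subgroup
    have h5 : D.index ≠ 0 := Subgroup.index_ne_zero_of_finite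
    apply Nat.eq_of_mul_eq_mul_right (Nat.pos_of_ne_zero h5)
    rw [h2, h4, ← h3, h1]
    ring
  have cardD' : Nat.card C * C.relIndex D = Nat.card D := by
    have := Subgroup.relIndex_mul_relIndex ⊥ C D bot_le hCD
    rwa [Subgroup.relIndex_bot_left, Subgroup.relIndex_bot_left] at this
  have hCpos : 0 < Nat.card C := Nat.card_pos
  let ψ : D → N := fun x => ⟨g⁻¹ * (x * g * (x : G)⁻¹), (memD x).mp x.2⟩
  have hψ : ∀ x y : D, ψ x = ψ y ↔ x⁻¹ * y ∈ C.subgroupOf D := by
    intro x y
    rw [Subgroup.mem_subgroupOf, hC, Subgroup.mem_centralizer_singleton_iff, Subtype.ext_iff]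
    simp only [ψ, Subgroup.coe_mul, Subgroup.coe_inv]
    constructor
    · intro h
      have h' : (x : G) * g * (x : G)⁻¹ = y * g * (y : G)⁻¹ := mul_left_cancel h
      calc (x : G)⁻¹ * y * g = (x : G)⁻¹ * (y * g * (y : G)⁻¹) * y := by group
        _ = (x : G)⁻¹ * (x * g * (x : G)⁻¹) * y := by rw [h']
        _ = g * ((x : G)⁻¹ * y) := by group
    · intro h
      congr 1
      calc (x : G) * g * (x : G)⁻¹ = x * (g * ((x : G)⁻¹ * y)) * (y : G)⁻¹ := by group
        _ = x * ((x : G)⁻¹ * y * g) * (y : G)⁻¹ := by rw [h]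
        _ = y * g * (y : G)⁻¹ := by group
  let f : D ⧸ C.subgroupOf D → N := Quotient.lift ψ (by
    intro x y hxy
    exact (hψ x y).mpr (QuotientGroup.leftRel_apply.mp hxy))
  have hf : Function.Injective f := by
    intro a b
    induction a using Quotient.inductionOn with | _ x =>
    induction b using Quotient.inductionOn with | _ y =>
    intro h
    apply Quotient.sound
    exact QuotientGroup.leftRel_apply.mpr ((hψ x y).mp h)
  have hcard : Nat.card (D ⧸ C.subgroupOf D) = C.relIndex D := rfl
  constructor
  · intro hcam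
    have hsurj : Function.Surjective f := by
      rintro ⟨n, hn⟩
      obtain ⟨x, hx⟩ := hcam n hn
      have hxD : x ∈ D := by
        rw [memD, hx]; simpa using hn
      refine ⟨Quotient.mk _ ⟨x, hxD⟩, ?_⟩
      apply Subtype.ext
      change g⁻¹ * (x * g * x⁻¹) = n
      rw [hx]; simp
    have h1 : Nat.card (D ⧸ C.subgroupOf D) = Nat.card N := Nat.card_congr (Equiv.ofBijective f ⟨hf, hsurj⟩)
    rw [hcard] at h1
    rw [h1, cardD, mul_comm] at cardD'
    exact Nat.eq_of_mul_eq_mul_left Nat.card_pos cardD'
  · intro hcc n hn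
    have h1 : Nat.card (D ⧸ C.subgroupOf D) = Nat.card N := by
      rw [hcard]
      rw [cardD, hcc, mul_comm] at cardD'
      exact Nat.eq_of_mul_eq_mul_right (hcc ▸ hCpos) cardD'
    have hbij := (Nat.bijective_iff_injective_and_card f).mpr ⟨hf, h1⟩
    obtain ⟨a, ha⟩ := hbij.2 ⟨n, hn⟩
    induction a using Quotient.inductionOn with | _ x =>
    refine ⟨x, ?_⟩
    have : g⁻¹ * (x * g * (x : G)⁻¹) = n := congrArg Subtype.val ha
    rw [← this]; group

/-- Let G be a finite group and N a normal subgroup. Then the conjugacy class of every element g outside N is a union of cosets of N (gn is conjugate to g for all n ∈ N) if and only if for every g outside N the centralizer of g in G has the same order as the centralizer of gN in G/N. -/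
theorem result {G : Type*} [Group G] [Finite G] (N : Subgroup G) [N.Normal] :
    (∀ g : G, g ∉ N → ∀ n ∈ N, ∃ x : G, x * g * x⁻¹ = g * n) ↔
      ∀ g : G, g ∉ N → Nat.card (Subgroup.centralizer ({g} : Set G)) =
        Nat.card (Subgroup.centralizer ({(QuotientGroup.mk g : G ⧸ N)} : Set (G ⧸ N))) := by
  constructor
  · intro h g hg
    exact (key N g).mp (h g hg)
  · intro h g hg
    exact (key N g).mpr (h g hg)

end Cfsg.Agent.S4142
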