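import Cfsg.Statements.S4149
-- import your own Cfsg.Agent.* helpers here

set_option autoImplicit false
open Cfsg

namespace Cfsg.Agent.S4149

theorem exists_sylow_le {G : Type*} [Group G] [Finite G] (p : ℕ) [Fact p.Prime] (C : Subgroup G)
    (h : ¬ p ∣ C.index) : ∃ Q : Sylow p G, (Q : Subgroup G) ≤ C := by
  obtain ⟨S⟩ : Nonempty (Sylow p C) := inferInstance
  have hp : p.Prime := Fact.out
  have hcard : Nat.card ((S : Subgroup C).map C.subtype) = p ^ (Nat.card G).factorization p := by
    rw [Subgroup.card_map_of_injective C.subtype_injective, S.card_eq_multiplicity]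
    congr 1
    rw [← C.card_mul_index, Nat.factorization_mul Nat.card_pos.ne' C.index_ne_zero_of_finite]
    simp [Nat.factorization_eq_zero_of_not_dvd h]
  refine ⟨Sylow.ofCard _ hcard, ?_⟩
  rw [Sylow.coe_ofCard]
  exact Subgroup.map_subtype_le _

/-- If `G` has no normal `p`-complement, then at most half of the elements have class size
prime to `p`. -/
theorem half_bound {G : Type*} [Group G] [Finite G] (p : ℕ) [Fact p.Prime]
    (h : ¬ Cfsg.HasNormalPComplement p G) :
    2 * Nat.card {x : G | ¬ p ∣ (Subgroup.centralizer ({x} : Set G)).index} ≤ Nat.card G := by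
  obtain ⟨P⟩ : Nonempty (Sylow p G) := inferInstance
  set N := Subgroup.normalizer ((P : Subgroup G) : Set G) with hN
  set C := Subgroup.centralizer ((P : Subgroup G) : Set G) with hC
  have hnot : ¬ N ≤ C := by
    intro hle
    exact h ⟨P, _, inferInstance, MonoidHom.ker_transferSylow_isComplement' P hle⟩
  have hCN : C ≤ N := Subgroup.centralizer_le_normalizer _
  have hlt : C < N := lt_of_le_of_ne hCN (fun e => hnot e.ge)
  -- cardinalities
  have h2 : 2 * Nat.card C ≤ Nat.card N := by
    have h1 : C.relIndex N * Nat.card C = Nat.card N := by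
      have e1 := Subgroup.relIndex_mul_relIndex ⊥ C N bot_le hCN
      rw [Subgroup.relIndex_bot_left, Subgroup.relIndex_bot_left] at e1
      rw [mul_comm]; exact e1
    have h3 : C.relIndex N ≠ 1 := by
      intro e
      exact hnot (Subgroup.relIndex_eq_one.mp e)
    have h4 : C.relIndex N ≠ 0 := by
      intro e
      rw [e, zero_mul] at h1
      exact (Nat.card_pos (α := N)).ne h1
    rw [← h1]
    exact Nat.mul_le_mul_right _ (by omega)
  -- the covering map
  let f : (G ⧸ N) × C → G := fun qc => qc.1.out * qc.2 * qc.1.out⁻¹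
  have hsub : {x : G | ¬ p ∣ (Subgroup.centralizer ({x} : Set G)).index} ⊆ Set.range f := by
    intro x hx
    obtain ⟨Q, hQ⟩ := exists_sylow_le p _ hx
    obtain ⟨g, rfl⟩ := MulAction.exists_smul_eq G P Q
    set q : G ⧸ N := (g : G ⧸ N) with hq
    have hout : q.out⁻¹ * g ∈ N := by
      have : (q.out : G ⧸ N) = (g : G ⧸ N) := q.out_eq'
      exact QuotientGroup.eq.mp this
    refine ⟨(q, ⟨q.out⁻¹ * x * q.out, ?_⟩), ?_⟩
    · rw [hC, Subgroup.mem_centralizer_iff]
      intro y hy
      -- y ∈ P; q.out y q.out⁻¹ = g (n⁻¹ y n) g⁻¹ ∈ g • P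
      have hy' : q.out * y * q.out⁻¹ ∈ ((g • P : Sylow p G) : Subgroup G) := by
        rw [Sylow.coe_subgroup_smul, Subgroup.mem_pointwise_smul_iff_inv_smul_mem]
        have h5 := (Subgroup.mem_normalizer_iff.mp (N.inv_mem hout) y).mp hy
        simp only [MulAut.smul_def, ← map_inv, MulAut.conj_apply]
        convert h5 using 1
        group
      have h6 := hQ hy'
      rw [Subgroup.mem_centralizer_iff] at h6
      have h7 := h6 x rfl
      -- x * (q y q⁻¹) = (q y q⁻¹) * x
      calc y * (q.out⁻¹ * x * q.out) = q.out⁻¹ * ((q.out * y * q.out⁻¹) * x) * q.out := by group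
        _ = q.out⁻¹ * (x * (q.out * y * q.out⁻¹)) * q.out := by rw [h7]
        _ = q.out⁻¹ * x * q.out * y := by group
    · simp only [f]
      group
  have hle : Nat.card {x : G | ¬ p ∣ (Subgroup.centralizer ({x} : Set G)).index}
      ≤ N.index * Nat.card C := by
    calc Nat.card {x : G | ¬ p ∣ (Subgroup.centralizer ({x} : Set G)).index}
        ≤ Nat.card (Set.range f) := Nat.card_mono (Set.toFinite _) hsub
      _ ≤ Nat.card ((G ⧸ N) × C) := Nat.card_le_card_of_surjective _ Set.rangeFactorization_surjective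
      _ = N.index * Nat.card C := by rw [Nat.card_prod]; rfl
  calc 2 * Nat.card {x : G | ¬ p ∣ (Subgroup.centralizer ({x} : Set G)).index}
      ≤ 2 * (N.index * Nat.card C) := Nat.mul_le_mul_left _ hle
    _ = N.index * (2 * Nat.card C) := by ring
    _ ≤ N.index * Nat.card N := Nat.mul_le_mul_left _ h2
    _ = Nat.card G := by rw [mul_comm]; exact N.card_mul_index

/-- Let G be a finite group that has a normal p-complement for at most one prime p dividing its order, and let σ be a natural number such that every conjugacy class size of G has at most σ distinct prime divisors. Then the number of primes dividing at least one conjugacy class size of G is at most 2σ. -/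
theorem result {G : Type*} [Group G] [Finite G] (σ : ℕ)
    (hσ : ∀ x : G, ((Subgroup.centralizer ({x} : Set G)).index).primeFactors.card ≤ σ)
    (hnil : ∀ p q : ℕ, p.Prime → q.Prime → p ∣ Nat.card G → q ∣ Nat.card G →
      Cfsg.HasNormalPComplement p G → Cfsg.HasNormalPComplement q G → p = q) :
    Nat.card {p : ℕ | p.Prime ∧ ∃ x : G, p ∣ (Subgroup.centralizer ({x} : Set G)).index} ≤ 2 * σ := by
  classical
  haveI : Fintype G := Fintype.ofFinite G
  set idx : G → ℕ := fun x => (Subgroup.centralizer ({x} : Set G)).index with hidx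
  have hidx0 : ∀ x, idx x ≠ 0 := fun x => Subgroup.index_ne_zero_of_finite
  let R : Finset ℕ := (Nat.card G).primeFactors.filter (fun p => ∃ x, p ∣ idx x)
  have hR : {p : ℕ | p.Prime ∧ ∃ x : G, p ∣ idx x} = (R : Set ℕ) := by
    ext p
    simp only [Set.mem_setOf_eq, R, Finset.coe_filter, Nat.mem_primeFactors]
    constructor
    · rintro ⟨hp, x, hx⟩
      exact ⟨⟨hp, hx.trans (Subgroup.index_dvd_card _), Nat.card_pos.ne'⟩, x, hx⟩
    · rintro ⟨⟨hp, _, _⟩, x, hx⟩
      exact ⟨hp, x, hx⟩
  have hgoal : Nat.card {p : ℕ | p.Prime ∧ ∃ x : G, p ∣ idx x} = R.card := by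
    rw [hR, Nat.card_coe_set_eq, Set.ncard_coe_finset]
  change Nat.card {p : ℕ | p.Prime ∧ ∃ x : G, p ∣ idx x} ≤ 2 * σ
  rw [hgoal]
  set n := Fintype.card G with hn
  have hn1 : 1 ≤ n := Fintype.card_pos
  have hdc : ∑ p ∈ R, (Finset.univ.filter (fun x : G => p ∣ idx x)).card
      = ∑ x : G, (R.filter (fun p => p ∣ idx x)).card := by
    simp only [Finset.card_filter]
    exact Finset.sum_comm
  have hub : ∑ x : G, (R.filter (fun p => p ∣ idx x)).card ≤ σ * (n - 1) := by
    rw [← Finset.add_sum_erase Finset.univ _ (Finset.mem_univ (1 : G))]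
    have h1 : (R.filter (fun p => p ∣ idx 1)).card = 0 := by
      rw [Finset.card_eq_zero, Finset.filter_eq_empty_iff]
      intro p hp hdvd
      have hp' : p.Prime := (Nat.mem_primeFactors.mp (Finset.mem_filter.mp hp).1).1
      have : idx 1 = 1 := by
        simp only [hidx]
        rw [Subgroup.index_eq_one, eq_top_iff]
        intro y _
        rw [Subgroup.mem_centralizer_iff]
        intro z hz
        rw [Set.mem_singleton_iff.mp hz]; simp
      rw [this] at hdvd
      exact hp'.one_lt.ne' (Nat.dvd_one.mp hdvd)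
    rw [h1, zero_add]
    calc ∑ x ∈ Finset.univ.erase (1 : G), (R.filter (fun p => p ∣ idx x)).card
        ≤ ∑ x ∈ Finset.univ.erase (1 : G), σ := by
          apply Finset.sum_le_sum
          intro x _
          refine le_trans (Finset.card_le_card ?_) (hσ x)
          intro p hp
          rw [Finset.mem_filter] at hp
          have hp' : p.Prime := (Nat.mem_primeFactors.mp (Finset.mem_filter.mp hp.1).1).1
          exact Nat.mem_primeFactors.mpr ⟨hp', hp.2, hidx0 x⟩
      _ = σ * (n - 1) := by
          rw [Finset.sum_const, Finset.card_erase_of_mem (Finset.mem_univ _), Finset.card_univ,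
            smul_eq_mul, mul_comm]
  have hlb : ∀ p ∈ R, ¬ Cfsg.HasNormalPComplement p G →
      n ≤ 2 * (Finset.univ.filter (fun x : G => p ∣ idx x)).card := by
    intro p hp hnc
    have hp' : p.Prime := (Nat.mem_primeFactors.mp (Finset.mem_filter.mp hp).1).1
    haveI : Fact p.Prime := ⟨hp'⟩
    have hb := half_bound p hnc
    have e1 : Nat.card {x : G | ¬ p ∣ (Subgroup.centralizer ({x} : Set G)).index}
        = (Finset.univ.filter (fun x : G => ¬ p ∣ idx x)).card := by
      rw [Nat.card_eq_fintype_card, Fintype.card_subtype]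
      rfl
    have e2 := Finset.card_filter_add_card_filter_not (s := (Finset.univ : Finset G))
      (fun x : G => p ∣ idx x)
    rw [Finset.card_univ] at e2
    rw [e1, Nat.card_eq_fintype_card] at hb
    omega
  let E : Finset ℕ := R.filter (fun p => Cfsg.HasNormalPComplement p G)
  have hE : E.card ≤ 1 := by
    rw [Finset.card_le_one]
    intro a ha b hb
    rw [Finset.mem_filter] at ha hb
    have ha' := Nat.mem_primeFactors.mp (Finset.mem_filter.mp ha.1).1
    have hb' := Nat.mem_primeFactors.mp (Finset.mem_filter.mp hb.1).1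
    exact hnil a b ha'.1 hb'.1 ha'.2.1 hb'.2.1 ha.2 hb.2
  have hsum : (R.card - 1) * n ≤ 2 * ∑ p ∈ R, (Finset.univ.filter (fun x : G => p ∣ idx x)).card := by
    have e3 := Finset.card_filter_add_card_filter_not (s := R)
      (fun p => Cfsg.HasNormalPComplement p G)
    calc (R.card - 1) * n ≤ (R.filter (fun p => ¬ Cfsg.HasNormalPComplement p G)).card * n := by
          apply Nat.mul_le_mul_right
          have : (R.filter (fun p => Cfsg.HasNormalPComplement p G)).card ≤ 1 := hE
          omega
      _ = ∑ p ∈ R.filter (fun p => ¬ Cfsg.HasNormalPComplement p G), n := by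
          rw [Finset.sum_const, smul_eq_mul]
      _ ≤ ∑ p ∈ R.filter (fun p => ¬ Cfsg.HasNormalPComplement p G),
            2 * (Finset.univ.filter (fun x : G => p ∣ idx x)).card := by
          apply Finset.sum_le_sum
          intro p hp
          rw [Finset.mem_filter] at hp
          exact hlb p hp.1 hp.2
      _ ≤ ∑ p ∈ R, 2 * (Finset.univ.filter (fun x : G => p ∣ idx x)).card :=
          Finset.sum_le_sum_of_subset (Finset.filter_subset _ _)
      _ = 2 * ∑ p ∈ R, (Finset.univ.filter (fun x : G => p ∣ idx x)).card := by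
          rw [Finset.mul_sum]
  rw [hdc] at hsum
  have hfin : (R.card - 1) * n ≤ 2 * (σ * (n - 1)) := hsum.trans (Nat.mul_le_mul_left _ hub)
  by_contra hcon
  push Not at hcon
  have h3 : 2 * σ * n ≤ (R.card - 1) * n := Nat.mul_le_mul_right _ (by omega)
  have h4 : 2 * σ * n ≤ 2 * (σ * (n - 1)) := h3.trans hfin
  have hσ0 : σ = 0 := by
    by_contra hne
    have hpos : 0 < σ := Nat.pos_of_ne_zero hne
    have : 2 * (σ * (n - 1)) < 2 * σ * n := by
      rw [mul_assoc]
      apply Nat.mul_lt_mul_of_pos_left _ (by norm_num)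
      exact Nat.mul_lt_mul_of_pos_left (by omega) hpos
    omega
  have hRne : R.Nonempty := Finset.card_pos.mp (by omega)
  obtain ⟨p, hp⟩ := hRne
  have hp1 := Finset.mem_filter.mp hp
  obtain ⟨x, hx⟩ := hp1.2
  have hp' : p.Prime := (Nat.mem_primeFactors.mp hp1.1).1
  have h5 := hσ x
  rw [hσ0, Nat.le_zero, Finset.card_eq_zero] at h5
  have : p ∈ (idx x).primeFactors := Nat.mem_primeFactors.mpr ⟨hp', hx, hidx0 x⟩
  rw [show (idx x).primeFactors = ∅ from h5] at this
  exact absurd this (Finset.notMem_empty _)

end Cfsg.Agent.S4149
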