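import Cfsg.Statements.S4152
-- import your own Cfsg.Agent.* helpers here
import Cfsg.Agent.Lib.Helper73.PiClasses

set_option autoImplicit false
open Cfsg

namespace Cfsg.Agent.S4152

open Cfsg.Agent.Lib.Helper73

theorem conv {X : Type*} [Group X] (π : Set ℕ) (a b : ℕ) (hab : a.Coprime b)
    (ha : ∀ q : ℕ, q.Prime → q ∣ a → q ∈ π) (hb : ∀ q : ℕ, q.Prime → q ∣ b → q ∉ π)
    (hX : ∀ x : X, x ^ (a * b) = 1) :
    Nat.card {C : ConjClasses X // ∀ q : ℕ, q.Prime → (∃ g : X, ConjClasses.mk g = C ∧ q ∣ orderOf g) → q ∈ π} =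
      Nat.card {C : ConjClasses X // ∀ g : X, ConjClasses.mk g = C → g ^ a = 1} := by
  apply Nat.card_congr
  apply Equiv.subtypeEquivRight
  intro C
  constructor
  · intro h g hg
    rw [← piElement_iff π a b hab ha hb g (hX g)]
    intro q hq hqd
    exact h q hq ⟨g, hg, hqd⟩
  · rintro h q hq ⟨g, hg, hqd⟩
    exact (piElement_iff π a b hab ha hb g (hX g)).mpr (h g hg) q hq hqd

/-- Let G be a finite group, N a normal subgroup and π a set of primes. Then the number of conjugacy classes of π-elements of G (elements whose order is divisible only by primes in π) is at most the number of conjugacy classes of π-elements of N (under conjugation by N) times the number of conjugacy classes of π-elements of G/N. -/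
theorem result {G : Type*} [Group G] [Finite G] (N : Subgroup G) [N.Normal] (π : Set ℕ) :
    Nat.card {C : ConjClasses G // ∀ q : ℕ, q.Prime → (∃ g : G, ConjClasses.mk g = C ∧ q ∣ orderOf g) → q ∈ π} ≤ Nat.card {C : ConjClasses N // ∀ q : ℕ, q.Prime → (∃ g : N, ConjClasses.mk g = C ∧ q ∣ orderOf g) → q ∈ π} * Nat.card {C : ConjClasses (G ⧸ N) // ∀ q : ℕ, q.Prime → (∃ g : (G ⧸ N), ConjClasses.mk g = C ∧ q ∣ orderOf g) → q ∈ π} := by
  classical
  have := Fintype.ofFinite G
  obtain ⟨a, b, hn, hab, ha, hb⟩ := exists_pi_decomp (Nat.card G) Nat.card_pos.ne' π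
  obtain ⟨k, k', hk1, hk2, hk1', hk2'⟩ := exists_pi_exponents a b hab
  have hG : ∀ g : G, g ^ (a * b) = 1 := by
    intro g
    rw [← hn]
    exact pow_card_eq_one'
  have hNn : ∀ g : N, g ^ (a * b) = 1 := by
    intro g
    apply Subtype.ext
    simpa using hG g
  have hQ : ∀ g : G ⧸ N, g ^ (a * b) = 1 := by
    intro g
    induction g using QuotientGroup.induction_on with
    | H g =>
      rw [← QuotientGroup.mk_pow, hG g]
      rfl
  rw [conv π a b hab ha hb hG, conv π a b hab ha hb hNn, conv π a b hab ha hb hQ]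
  exact pi_classes_le N a k k' (fun g => pi_pow_pow hk2 g (hG g)) (fun g hg => pi_pow_eq_self hk1 g hg)
    (fun g => pi_pow_mul_pow hab hk1 hk2 hk1' hk2' g (hG g)) (fun g => pi_pow_pow' hk2 hk1' g (hG g))

end Cfsg.Agent.S4152
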