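import Cfsg.Statements.S4153
-- import your own Cfsg.Agent.* helpers here
import Cfsg.Agent.Lib.Helper67.SylowAux

set_option autoImplicit false
open Cfsg

namespace Cfsg.Agent.S4153

/-- Let G be a finite group, p a prime, N a normal subgroup, P a Sylow p-subgroup of G and P̄ a Sylow p-subgroup of G/N. Count the elements of p-power order, the identity included. Then (number of such elements of G/N)/#P̄ ≤ (number of such elements of G)/#P, stated as a cross-multiplied inequality, with equality when N is central. -/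
theorem result {G : Type*} [Group G] [Finite G] (p : ℕ) [Fact p.Prime] (N : Subgroup G) [N.Normal]
    (P : Sylow p G) (Pbar : Sylow p (G ⧸ N)) :
    Nat.card {g : (G ⧸ N) // ∃ k : ℕ, orderOf g = p ^ k} * Nat.card (P : Subgroup G) ≤ Nat.card {g : G // ∃ k : ℕ, orderOf g = p ^ k} * Nat.card (Pbar : Subgroup (G ⧸ N)) ∧
    (N ≤ Subgroup.center G → Nat.card {g : (G ⧸ N) // ∃ k : ℕ, orderOf g = p ^ k} * Nat.card (P : Subgroup G) = Nat.card {g : G // ∃ k : ℕ, orderOf g = p ^ k} * Nat.card (Pbar : Subgroup (G ⧸ N))) := by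
  classical
  have hp : p.Prime := Fact.out
  have hs := QuotientGroup.mk'_surjective N
  -- order of elements of p-subgroups
  have hpel : ∀ (Q : Subgroup G), IsPGroup p ↥Q → ∀ x ∈ Q, ∃ k : ℕ, orderOf x = p ^ k := by
    intro Q hQ x hx
    obtain ⟨k, hk⟩ := (IsPGroup.iff_orderOf.mp hQ) ⟨x, hx⟩
    exact ⟨k, by rw [← hk, Subgroup.orderOf_mk]⟩
  -- lifting
  have hlift : ∀ y : {g : (G ⧸ N) // ∃ k : ℕ, orderOf g = p ^ k},
      ∃ xg : G × G, QuotientGroup.mk' N xg.1 = y.1 ∧ xg.2⁻¹ * xg.1 * xg.2 ∈ (P : Subgroup G) := by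
    rintro ⟨y, k, hk⟩
    have hz : IsPGroup p ↥(Subgroup.zpowers y) := IsPGroup.of_card (n := k) (by rw [Nat.card_zpowers, hk])
    obtain ⟨Qb, hQb⟩ := hz.exists_le_sylow
    obtain ⟨Q, rfl⟩ := Sylow.mapSurjective_surjective hs p Qb
    have hy : y ∈ (Q : Subgroup G).map (QuotientGroup.mk' N) := hQb (Subgroup.mem_zpowers y)
    obtain ⟨x, hx, rfl⟩ := hy
    obtain ⟨g, hg⟩ := MulAction.exists_smul_eq G P Q
    refine ⟨(x, g), rfl, ?_⟩
    have hx' : x ∈ Cfsg.Agent.Lib.Helper67.cj g (P : Subgroup G) := by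
      have : (Q : Subgroup G) = Cfsg.Agent.Lib.Helper67.cj g (P : Subgroup G) := by rw [← hg]; rfl
      rw [← this]; exact hx
    exact Cfsg.Agent.Lib.Helper67.mem_cj.mp hx'
  choose L hL1 hL2 using hlift
  let f : {g : (G ⧸ N) // ∃ k : ℕ, orderOf g = p ^ k} × ↥((P : Subgroup G) ⊓ N) →
      {g : G // ∃ k : ℕ, orderOf g = p ^ k} := fun yn =>
    ⟨(L yn.1).1 * ((L yn.1).2 * yn.2 * (L yn.1).2⁻¹), by
      apply hpel (Cfsg.Agent.Lib.Helper67.cj (L yn.1).2 (P : Subgroup G)) (P.2.map _)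
      apply Subgroup.mul_mem
      · exact Cfsg.Agent.Lib.Helper67.mem_cj.mpr (hL2 yn.1)
      · exact Cfsg.Agent.Lib.Helper67.conj_mem_cj yn.2.2.1⟩
  have hfπ : ∀ yn, QuotientGroup.mk' N (f yn).1 = yn.1.1 := by
    intro yn
    change QuotientGroup.mk' N ((L yn.1).1 * ((L yn.1).2 * yn.2 * (L yn.1).2⁻¹)) = _
    rw [map_mul, hL1]
    have : QuotientGroup.mk' N ((L yn.1).2 * yn.2 * (L yn.1).2⁻¹) = 1 :=
      (QuotientGroup.eq_one_iff _).mpr (‹N.Normal›.conj_mem _ yn.2.2.2 _)
    rw [this, mul_one]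
  have hinj : Function.Injective f := by
    intro yn yn' h
    have h1 : yn.1 = yn'.1 := Subtype.ext (by rw [← hfπ yn, ← hfπ yn', h])
    have h2 : (L yn.1).1 * ((L yn.1).2 * yn.2 * (L yn.1).2⁻¹)
        = (L yn'.1).1 * ((L yn'.1).2 * yn'.2 * (L yn'.1).2⁻¹) := congrArg Subtype.val h
    rw [← h1] at h2
    have h3 : (yn.2 : G) = yn'.2 := by
      have := mul_left_cancel h2
      exact mul_left_cancel (mul_right_cancel this)
    exact Prod.ext h1 (Subtype.ext h3)
  have hcardP : Nat.card ↥((P : Subgroup G) ⊓ N) * Nat.card (Pbar : Subgroup (G ⧸ N)) = Nat.card (P : Subgroup G) := by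
    have e1 := Cfsg.Agent.Lib.Helper67.card_mul_relIndex (inf_le_left : (P : Subgroup G) ⊓ N ≤ (P : Subgroup G))
    rw [Subgroup.inf_relIndex_left] at e1
    have e2 := Subgroup.relIndex_ker (K := (P : Subgroup G)) (QuotientGroup.mk' N)
    rw [QuotientGroup.ker_mk'] at e2
    have e3 : Nat.card (Pbar : Subgroup (G ⧸ N)) = Nat.card ↥((P : Subgroup G).map (QuotientGroup.mk' N)) := by
      have h1 := Pbar.card_eq_multiplicity
      have h2 := (P.mapSurjective hs).card_eq_multiplicity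
      exact h1.trans h2.symm
    rw [e3, ← e2, e1]
  constructor
  · have h1 := Nat.card_le_card_of_injective f hinj
    rw [Nat.card_prod] at h1
    rw [← hcardP, ← mul_assoc]
    exact Nat.mul_le_mul_right _ h1
  · intro hcen
    have hsurj : Function.Surjective f := by
      rintro ⟨u, k, hk⟩
      have hyo : ∃ j : ℕ, orderOf (QuotientGroup.mk' N u) = p ^ j := by
        have h1 : orderOf (QuotientGroup.mk' N u) ∣ p ^ k := hk ▸ orderOf_map_dvd _ u
        obtain ⟨j, -, hj⟩ := (Nat.dvd_prime_pow hp).mp h1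
        exact ⟨j, hj⟩
      set y : {g : (G ⧸ N) // ∃ k : ℕ, orderOf g = p ^ k} := ⟨QuotientGroup.mk' N u, hyo⟩ with hy
      set x := (L y).1 with hx
      set g := (L y).2 with hg
      have hn₀N : x⁻¹ * u ∈ N := by
        rw [← QuotientGroup.eq_one_iff]
        change QuotientGroup.mk' N (x⁻¹ * u) = 1
        rw [map_mul, map_inv, hx, hL1 y]
        exact inv_mul_cancel _
      have hn₀c := Subgroup.mem_center_iff.mp (hcen hn₀N)
      have hxo : ∃ j : ℕ, orderOf x = p ^ j :=
        hpel (Cfsg.Agent.Lib.Helper67.cj g (P : Subgroup G)) (P.2.map _) x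
          (Cfsg.Agent.Lib.Helper67.mem_cj.mpr (hL2 y))
      obtain ⟨j, hj⟩ := hxo
      have hcomm : Commute x⁻¹ u := by
        have h1 : u = x * (x⁻¹ * u) := by group
        have h2 : Commute x u := by
          change x * u = u * x
          calc x * u = x * (x * (x⁻¹ * u)) := by rw [← h1]
            _ = x * ((x⁻¹ * u) * x) := by rw [hn₀c x]
            _ = u * x := by group
        exact h2.inv_left
      have hn₀p : (x⁻¹ * u) ^ (p ^ (j + k)) = 1 := by
        rw [hcomm.mul_pow, inv_pow, pow_add, pow_mul, ← hj, pow_orderOf_eq_one, one_pow, inv_one, one_mul,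
          mul_comm, pow_mul, ← hk, pow_orderOf_eq_one, one_pow]
      have hn₀P : x⁻¹ * u ∈ (P : Subgroup G) := by
        obtain ⟨i, -, hi⟩ := (Nat.dvd_prime_pow hp).mp (orderOf_dvd_of_pow_eq_one hn₀p)
        have hz : IsPGroup p ↥(Subgroup.zpowers (x⁻¹ * u)) :=
          IsPGroup.of_card (n := i) (by rw [Nat.card_zpowers, hi])
        have hle : Subgroup.zpowers (x⁻¹ * u) ≤ Subgroup.normalizer ((P : Subgroup G) : Set G) := by
          rw [Subgroup.zpowers_le]
          exact Subgroup.centralizer_le_normalizer _ (Subgroup.center_le_centralizer _ (hcen hn₀N))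
        have hsup : IsPGroup p ↥(Subgroup.zpowers (x⁻¹ * u) ⊔ (P : Subgroup G)) :=
          IsPGroup.to_sup_of_normal_right' hz P.2 hle
        have hmax : Subgroup.zpowers (x⁻¹ * u) ⊔ (P : Subgroup G) = (P : Subgroup G) :=
          P.is_maximal' hsup le_sup_right
        rw [← hmax]
        exact Subgroup.mem_sup_left (Subgroup.mem_zpowers _)
      refine ⟨(y, ⟨x⁻¹ * u, Subgroup.mem_inf.mpr ⟨hn₀P, hn₀N⟩⟩), Subtype.ext ?_⟩
      change x * (g * (x⁻¹ * u) * g⁻¹) = u
      rw [hn₀c g, mul_inv_cancel_right, mul_inv_cancel_left]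
    have h1 := Nat.card_congr (Equiv.ofBijective f ⟨hinj, hsurj⟩)
    rw [Nat.card_prod] at h1
    rw [← hcardP, ← mul_assoc, h1]

end Cfsg.Agent.S4153
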