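import Cfsg.Statements.S4154
-- import your own Cfsg.Agent.* helpers here

set_option autoImplicit false
open Cfsg

namespace Cfsg.Agent.S4154

theorem uniq {G : Type*} [Group G] [Finite G] (β : G →* G)
    (hccp : ∀ x : G, ∃ c g : G, β c = c ∧ x = c * (g⁻¹ * β g)) :
    ∀ g : G, β (g⁻¹ * β g) = g⁻¹ * β g → g⁻¹ * β g = 1 := by
  classical
  let C : Subgroup G :=
    { carrier := {x | β x = x}
      mul_mem' := by
        intro a b ha hb
        show β (a * b) = a * b
        rw [map_mul, ha, hb]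
      one_mem' := map_one β
      inv_mem' := by
        intro a ha
        show β a⁻¹ = a⁻¹
        rw [map_inv, ha] }
  let K : Set G := Set.range (fun g : G => g⁻¹ * β g)
  have hK : Nat.card K ≤ C.index := by
    let f : G ⧸ C → K := fun q => ⟨(q.out⁻¹)⁻¹ * β (q.out⁻¹), ⟨q.out⁻¹, rfl⟩⟩
    apply Nat.card_le_card_of_surjective f
    rintro ⟨_, g, rfl⟩
    refine ⟨QuotientGroup.mk g⁻¹, ?_⟩
    obtain ⟨c, hc⟩ := QuotientGroup.mk_out_eq_mul C g⁻¹
    apply Subtype.ext
    simp only [f]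
    rw [hc]
    have hc' : β (c : G) = c := c.2
    simp only [mul_inv_rev, inv_inv, map_mul, map_inv, hc']
    group
  let μ : C × K → G := fun z => z.1 * z.2
  have hsurj : Function.Surjective μ := by
    intro x
    obtain ⟨c, g, hc, hx⟩ := hccp x
    exact ⟨(⟨c, hc⟩, ⟨g⁻¹ * β g, g, rfl⟩), hx.symm⟩
  have hcard : Nat.card (C × K) ≤ Nat.card G := by
    rw [Nat.card_prod, ← C.card_mul_index]
    exact Nat.mul_le_mul_left _ hK
  have hbij := hsurj.bijective_of_nat_card_le hcard
  intro g hg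
  have h1 : μ (⟨g⁻¹ * β g, hg⟩, ⟨1, 1, by simp⟩) = μ (1, ⟨g⁻¹ * β g, g, rfl⟩) := by
    simp [μ]
  have h2 := hbij.1 h1
  have h3 := congrArg (fun z : C × K => (z.1 : G)) h2
  simpa using h3

/-- Let G be a finite group and α an automorphism of G such that every element of G is the product of an element fixed by α and an element of the form g⁻¹α(g). If N is a normal α-invariant subgroup, then the automorphism ᾱ induced on G/N has the same property, and every coset fixed by ᾱ contains an element fixed by α (so the fixed points of ᾱ are the images of the fixed points of α). -/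
theorem result {G : Type*} [Group G] [Finite G] (α : MulAut G)
    (hccp : ∀ x : G, ∃ c g : G, α c = c ∧ x = c * (g⁻¹ * α g))
    (N : Subgroup G) [N.Normal] (hN : ∀ n ∈ N, α n ∈ N) :
    (∀ x : G, ∃ c g : G, c⁻¹ * α c ∈ N ∧ x⁻¹ * (c * (g⁻¹ * α g)) ∈ N) ∧
    (∀ x : G, x⁻¹ * α x ∈ N → ∃ c : G, α c = c ∧ c⁻¹ * x ∈ N) := by
  constructor
  · intro x
    obtain ⟨c, g, hc, hx⟩ := hccp x
    refine ⟨c, g, ?_, ?_⟩
    · rw [hc]; simp [N.one_mem]
    · rw [← hx]; simp [N.one_mem]
  · intro x hx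
    obtain ⟨c, g, hc, hxc⟩ := hccp x
    refine ⟨c, hc, ?_⟩
    let β : G ⧸ N →* G ⧸ N := QuotientGroup.map N N α.toMonoidHom (fun n hn => hN n hn)
    have hβ : ∀ y : G, β (y : G ⧸ N) = ((α y : G) : G ⧸ N) := fun y => rfl
    have hccp' : ∀ y : G ⧸ N, ∃ c g : G ⧸ N, β c = c ∧ y = c * (g⁻¹ * β g) := by
      intro y
      induction y using QuotientGroup.induction_on with
      | H y =>
        obtain ⟨c, g, hc, hy⟩ := hccp y
        refine ⟨(c : G ⧸ N), (g : G ⧸ N), ?_, ?_⟩
        · rw [hβ, hc]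
        · rw [hβ, hy]; rfl
    have h1 := uniq β hccp' (g : G ⧸ N)
    have hk : c⁻¹ * x = g⁻¹ * α g := by rw [hxc]; group
    rw [hk]
    have h2 : ((g : G ⧸ N))⁻¹ * β (g : G ⧸ N) = ((g⁻¹ * α g : G) : G ⧸ N) := by
      rw [hβ]; rfl
    rw [h2, hβ] at h1
    rw [← QuotientGroup.eq_one_iff]
    apply h1
    -- fixed modulo N
    symm
    rw [QuotientGroup.eq]
    have h3 : x⁻¹ * α x = (g⁻¹ * α g)⁻¹ * α (g⁻¹ * α g) := by
      rw [hxc]
      simp only [map_mul, map_inv, hc, mul_inv_rev, inv_inv]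
      group
    rw [← h3]
    exact hx

end Cfsg.Agent.S4154
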