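import Cfsg.Statements.S4155
-- import your own Cfsg.Agent.* helpers here
import Cfsg.Agent.S0016
import Cfsg.Agent.Lib.Helper31.Nilpotent
import Cfsg.Agent.Lib.Helper74.Fitting

set_option autoImplicit false
open Cfsg

namespace Cfsg.Agent.S4155


open scoped IsMulCommutative

theorem pow_eq_one_of_traces {W : Type*} [CommGroup W] (q : ℕ) (hq : 0 < q) (X Y : MulAut W)
    (hXY : Commute X Y) (w : W)
    (h1 : ∀ j < q, ∏ i ∈ Finset.range q, ((X * Y ^ j) ^ i) w = 1)
    (h2 : ∀ i, 0 < i → i < q → ∏ j ∈ Finset.range q, ((Y ^ i) ^ j) w = 1) : w ^ q = 1 := by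
  have e : ∏ j ∈ Finset.range q, ∏ i ∈ Finset.range q, ((X * Y ^ j) ^ i) w = 1 :=
    Finset.prod_eq_one (fun j hj => h1 j (Finset.mem_range.mp hj))
  rw [Finset.prod_comm] at e
  have e2 : ∀ i ∈ Finset.range q, ∏ j ∈ Finset.range q, ((X * Y ^ j) ^ i) w
      = (X ^ i) (∏ j ∈ Finset.range q, ((Y ^ i) ^ j) w) := by
    intro i _
    rw [map_prod]
    apply Finset.prod_congr rfl
    intro j _
    rw [(hXY.pow_right j).mul_pow, ← pow_mul, ← pow_mul, mul_comm j i]
    rfl
  rw [Finset.prod_congr rfl e2, Finset.prod_eq_single 0] at e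
  · simpa using e
  · intro i hi h0
    rw [h2 i (Nat.pos_of_ne_zero h0) (Finset.mem_range.mp hi), map_one]
  · intro h; exact absurd (Finset.mem_range.mpr hq) h

theorem exists_q_elt {G : Type*} [Group G] [Finite G] (N : Subgroup G) [N.Normal] (q : ℕ)
    (hq : q.Prime) (g : G) (hg : g ∉ N) (hgq : g ^ q ∈ N) :
    ∃ m e : ℕ, g ^ m ∉ N ∧ orderOf (g ^ m) = q ^ e := by
  have hn0 : orderOf g ≠ 0 := (orderOf_pos g).ne'
  obtain ⟨e, m, hm, hnm⟩ := Nat.exists_eq_pow_mul_and_not_dvd hn0 q hq.ne_one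
  refine ⟨m, e, ?_, ?_⟩
  · intro h
    have := Fact.mk hq
    have h1 : (QuotientGroup.mk g : G ⧸ N) ≠ 1 := by
      rw [Ne, QuotientGroup.eq_one_iff]; exact hg
    have h2 : (QuotientGroup.mk g : G ⧸ N) ^ q = 1 := by
      rw [← QuotientGroup.mk_pow, QuotientGroup.eq_one_iff]; exact hgq
    have h3 : orderOf (QuotientGroup.mk g : G ⧸ N) = q := orderOf_eq_prime h2 h1
    have h4 : (QuotientGroup.mk g : G ⧸ N) ^ m = 1 := by
      rw [← QuotientGroup.mk_pow, QuotientGroup.eq_one_iff]; exact h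
    apply hm
    rw [← h3]
    exact orderOf_dvd_of_pow_eq_one h4
  · have hm0 : m ≠ 0 := by
      rintro rfl
      exact hm (dvd_zero _)
    rw [orderOf_pow_of_dvd hm0 (by rw [hnm]; exact dvd_mul_left _ _), hnm,
      Nat.mul_div_cancel _ (Nat.pos_of_ne_zero hm0)]

theorem no_fixed {G : Type*} [Group G] [Finite G] (N : Subgroup G) [N.Normal]
    (heq : ∀ x : G, x ∉ N → ∀ n ∈ N, orderOf (x * n) = orderOf x) (q : ℕ) (hq : q.Prime)
    (g : G) (hg : g ∉ N) (hgq : g ^ q ∈ N) (w : G) (hw : w ∈ N) (hwq : (orderOf w).Coprime q)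
    (hc : Commute g w) : w = 1 := by
  obtain ⟨m, e, hmN, hme⟩ := exists_q_elt N q hq g hg hgq
  have h1 : Commute (g ^ m) w := hc.pow_left m
  have h2 : (orderOf (g ^ m)).Coprime (orderOf w) := by
    rw [hme]; exact (Nat.Coprime.pow_right e hwq).symm
  have h3 := h1.orderOf_mul_eq_mul_orderOf_of_coprime h2
  rw [heq _ hmN w hw] at h3
  have h4 : 0 < orderOf (g ^ m) := orderOf_pos _
  have h5 : orderOf w = 1 := by
    have : orderOf (g ^ m) * 1 = orderOf (g ^ m) * orderOf w := by rw [mul_one]; exact h3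
    exact (Nat.eq_of_mul_eq_mul_left h4 this).symm
  exact orderOf_eq_one_iff.mp h5

theorem trace_eq_one {G : Type*} [Group G] [Finite G] (N : Subgroup G) [N.Normal]
    (heq : ∀ x : G, x ∉ N → ∀ n ∈ N, orderOf (x * n) = orderOf x) (q : ℕ) (hq : q.Prime)
    (W : Subgroup G) [W.Normal] [IsMulCommutative W] (hWN : W ≤ N)
    (hcent : ∀ n ∈ N, ∀ w ∈ W, n * w = w * n)
    (g : G) (hg : g ∉ N) (hgq : g ^ q ∈ N) (w : W) (hw : (orderOf w).Coprime q) :
    ∏ i ∈ Finset.range q, ((MulAut.conjNormal g : MulAut W) ^ i) w = 1 := by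
  set T : W := ∏ i ∈ Finset.range q, ((MulAut.conjNormal g : MulAut W) ^ i) w with hT
  have hfix : (MulAut.conjNormal g : MulAut W) T = T := by
    rw [hT, map_prod]
    have e1 : ∀ i ∈ Finset.range q, (MulAut.conjNormal g : MulAut W)
        (((MulAut.conjNormal g : MulAut W) ^ i) w) = ((MulAut.conjNormal g : MulAut W) ^ (i + 1)) w := by
      intro i _
      rw [pow_succ']; rfl
    rw [Finset.prod_congr rfl e1]
    have e2 := Finset.prod_range_succ (fun i => ((MulAut.conjNormal g : MulAut W) ^ i) w) q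
    have e3 := Finset.prod_range_succ' (fun i => ((MulAut.conjNormal g : MulAut W) ^ i) w) q
    have e4 : ((MulAut.conjNormal g : MulAut W) ^ q) w = w := by
      rw [← map_pow]
      apply Subtype.ext
      rw [MulAut.conjNormal_apply]
      rw [hcent _ hgq _ w.2]; group
    rw [e2, e4] at e3
    simp only [pow_zero, MulAut.one_apply] at e3
    exact (mul_right_cancel e3).symm
  have hTo : (orderOf T).Coprime q := by
    have : T ^ orderOf w = 1 := by
      rw [hT, ← Finset.prod_pow]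
      apply Finset.prod_eq_one
      intro i _
      rw [← map_pow, pow_orderOf_eq_one, map_one]
    exact Nat.Coprime.coprime_dvd_left (orderOf_dvd_of_pow_eq_one this) hw
  have h1 : (T : G) = 1 := by
    apply no_fixed N heq q hq g hg hgq (T : G) (hWN T.2)
    · rw [Subgroup.orderOf_coe]; exact hTo
    · have := congrArg Subtype.val hfix
      rw [MulAut.conjNormal_apply] at this
      change g * (T : G) = (T : G) * g
      calc g * (T : G) = g * T * g⁻¹ * g := by group
        _ = _ := by rw [this]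
  exact Subtype.ext h1

theorem exists_prime_ne (n : ℕ) (hn1 : n ≠ 1) (hn0 : n ≠ 0) (hnpp : ¬ IsPrimePow n) (q : ℕ)
    (hq : q.Prime) : ∃ r : ℕ, r.Prime ∧ r ≠ q ∧ r ∣ n := by
  by_contra hcon
  push Not at hcon
  apply hnpp
  have h1 : n = q ^ n.primeFactorsList.length := by
    apply Nat.eq_prime_pow_of_unique_prime_dvd hn0
    intro d hd hdn
    by_contra hne
    exact hcon d hd hne hdn
  rw [isPrimePow_nat_iff]
  refine ⟨q, n.primeFactorsList.length, hq, ?_, h1.symm⟩
  rcases Nat.eq_zero_or_pos n.primeFactorsList.length with h0 | h0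
  · rw [h0, pow_zero] at h1; exact absurd h1 hn1
  · exact h0

theorem exists_central_elt {G : Type*} [Group G] [Finite G] (N : Subgroup G)
    (hnil : Group.IsNilpotent N) (r : ℕ) (hr : r.Prime) (hrN : r ∣ Nat.card N) :
    ∃ w ∈ N, w ≠ 1 ∧ (∀ n ∈ N, n * w = w * n) ∧ ∃ k : ℕ, orderOf w ∣ r ^ k := by
  have := Fact.mk hr
  let P : Sylow r N := default
  have hP : (P : Subgroup N) ≠ ⊥ := P.ne_bot_of_dvd_card hrN
  obtain ⟨z, hzP, hzc, hz1⟩ :=
    Cfsg.Agent.Lib.Helper31.exists_mem_center_of_normal_of_nilpotent (P : Subgroup N) hP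
  refine ⟨z, z.2, ?_, ?_, ?_⟩
  · intro h; apply hz1; exact Subtype.ext h
  · intro n hn
    have := (Subgroup.mem_center_iff.mp hzc) ⟨n, hn⟩
    exact congrArg Subtype.val this
  · obtain ⟨k, hk⟩ := P.2 ⟨z, hzP⟩
    refine ⟨k, ?_⟩
    rw [Subgroup.orderOf_coe]
    apply orderOf_dvd_of_pow_eq_one
    have := congrArg Subtype.val hk
    simpa using this

theorem no_klein {G : Type*} [Group G] [Finite G] (N : Subgroup G) [N.Normal]
    (heq : ∀ x : G, x ∉ N → ∀ n ∈ N, orderOf (x * n) = orderOf x) (q : ℕ) (hq : q.Prime)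
    (w₀ : G) (hw₀N : w₀ ∈ N) (hw₀c : ∀ n ∈ N, n * w₀ = w₀ * n) (hw₀1 : w₀ ≠ 1)
    (hw₀q : (orderOf w₀).Coprime q)
    (x' y' : G ⧸ N) (hc : Commute x' y') (hxq : x' ^ q = 1) (hyq : y' ^ q = 1) (hy1 : y' ≠ 1)
    (hxy : x' ∉ Subgroup.zpowers y') : False := by
  have := Fact.mk hq
  obtain ⟨x, rfl⟩ := QuotientGroup.mk_surjective x'
  obtain ⟨y, rfl⟩ := QuotientGroup.mk_surjective y'
  let W : Subgroup G := N ⊓ Subgroup.centralizer (N : Set G)
  have hWc : IsMulCommutative W := ⟨⟨fun a b => Subtype.ext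
    ((Subgroup.mem_centralizer_iff.mp b.2.2) a a.2.1)⟩⟩
  have hWN : W ≤ N := inf_le_left
  have hcent : ∀ n ∈ N, ∀ w ∈ W, n * w = w * n := fun n hn w hw =>
    (Subgroup.mem_centralizer_iff.mp hw.2) n hn
  let ρ : G →* MulAut W := MulAut.conjNormal
  have hρ : ∀ n ∈ N, ρ n = 1 := by
    intro n hn
    ext w
    change ((MulAut.conjNormal n : MulAut W) w : G) = w
    rw [MulAut.conjNormal_apply, hcent n hn w w.2]; group
  have hmem : ∀ g : G, g ∈ N ↔ (QuotientGroup.mk g : G ⧸ N) = 1 :=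
    fun g => (QuotientGroup.eq_one_iff g).symm
  let w : W := ⟨w₀, hw₀N, Subgroup.mem_centralizer_iff.mpr hw₀c⟩
  have hwq : (orderOf w).Coprime q := by
    rw [← Subgroup.orderOf_coe]; exact hw₀q
  have hXY : Commute (ρ x) (ρ y) := by
    have h1 : x * y * x⁻¹ * y⁻¹ ∈ N := by
      rw [hmem]
      simp only [QuotientGroup.mk_mul, QuotientGroup.mk_inv]
      rw [hc.eq]; group
    have h2 := hρ _ h1
    simp only [map_mul, map_inv] at h2
    change ρ x * ρ y = ρ y * ρ x
    calc ρ x * ρ y = (ρ x * ρ y * (ρ x)⁻¹ * (ρ y)⁻¹) * (ρ y * ρ x) := by group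
      _ = _ := by rw [h2, one_mul]
  have hyo : orderOf (QuotientGroup.mk y : G ⧸ N) = q := orderOf_eq_prime hyq hy1
  have key : w ^ q = 1 := by
    apply pow_eq_one_of_traces q hq.pos (ρ x) (ρ y) hXY w
    · intro j _
      rw [← map_pow, ← map_mul]
      apply trace_eq_one N heq q hq W hWN hcent _ _ _ w hwq
      · rw [hmem]
        intro h
        apply hxy
        rw [QuotientGroup.mk_mul, QuotientGroup.mk_pow] at h
        rw [eq_inv_of_mul_eq_one_left h]
        exact Subgroup.inv_mem _ (Subgroup.npow_mem_zpowers _ _)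
      · rw [hmem, QuotientGroup.mk_pow, QuotientGroup.mk_mul, QuotientGroup.mk_pow,
          (hc.pow_right j).mul_pow, hxq, ← pow_mul, mul_comm, pow_mul, hyq, one_pow, one_mul]
    · intro i hi0 hiq
      rw [← map_pow]
      apply trace_eq_one N heq q hq W hWN hcent _ _ _ w hwq
      · rw [hmem, QuotientGroup.mk_pow]
        intro h
        have := orderOf_dvd_of_pow_eq_one h
        rw [hyo] at this
        exact absurd (Nat.le_of_dvd hi0 this) (not_le.mpr hiq)
      · rw [hmem, QuotientGroup.mk_pow, QuotientGroup.mk_pow, ← pow_mul, mul_comm, pow_mul, hyq,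
          one_pow]
  have h1 : orderOf w ∣ q := orderOf_dvd_of_pow_eq_one key
  have h2 : orderOf w = 1 := hwq.eq_one_of_dvd h1
  apply hw₀1
  have := orderOf_eq_one_iff.mp h2
  exact congrArg Subtype.val this

theorem exists_pair {P : Type*} [Group P] [Finite P] (q : ℕ) [Fact q.Prime] (hP : IsPGroup q P)
    (H K : Subgroup P) (hH : Nat.card H = q) (hK : Nat.card K = q) (hHK : H ≠ K) :
    ∃ x y : P, Commute x y ∧ x ^ q = 1 ∧ y ^ q = 1 ∧ y ≠ 1 ∧ x ∉ Subgroup.zpowers y := by
  have hq : q.Prime := Fact.out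
  have hnt : Nontrivial P := by
    by_contra h
    rw [not_nontrivial_iff_subsingleton] at h
    exact hHK (Subsingleton.elim _ _)
  have hcn : Nontrivial (Subgroup.center P) := hP.center_nontrivial
  have hdvd : q ∣ Nat.card (Subgroup.center P) := by
    rcases (hP.to_subgroup (Subgroup.center P)).card_eq_or_dvd with h | h
    · exact absurd h (Finite.one_lt_card).ne'
    · exact h
  obtain ⟨z, hz⟩ := exists_prime_orderOf_dvd_card' q hdvd
  have hzo : orderOf (z : P) = q := by rw [Subgroup.orderOf_coe]; exact hz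
  have hZ : Nat.card (Subgroup.zpowers (z : P)) = q := by rw [Nat.card_zpowers, hzo]
  have main : ∀ L : Subgroup P, Nat.card L = q → L ≠ Subgroup.zpowers (z : P) →
      ∃ x y : P, Commute x y ∧ x ^ q = 1 ∧ y ^ q = 1 ∧ y ≠ 1 ∧ x ∉ Subgroup.zpowers y := by
    intro L hL hLZ
    have : ¬ L ≤ Subgroup.zpowers (z : P) := by
      intro hle
      exact hLZ (Subgroup.eq_of_le_of_card_ge hle (by rw [hL, hZ]))
    obtain ⟨x, hxL, hxZ⟩ := SetLike.not_le_iff_exists.mp this
    refine ⟨x, z, ?_, ?_, ?_, ?_, hxZ⟩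
    · exact (Subgroup.mem_center_iff.mp z.2 x)
    · have := pow_card_eq_one' (x := (⟨x, hxL⟩ : L))
      rw [hL] at this
      exact congrArg Subtype.val this
    · rw [← hzo]; exact pow_orderOf_eq_one _
    · intro h
      rw [h, orderOf_one] at hzo
      exact hq.one_lt.ne hzo
  by_cases hHZ : H = Subgroup.zpowers (z : P)
  · exact main K hK (fun h => hHK (hHZ.trans h.symm))
  · exact main H hH hHZ

/-- Let G be a finite group and N a proper non-trivial normal nilpotent subgroup whose order is not a prime power, such that for every x outside N all elements of the coset xN have the same order as x. Then N is the Fitting subgroup of G, and for every prime q every Sylow q-subgroup of G/N is cyclic or generalized quaternion. -/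
theorem result {G : Type*} [Group G] [Finite G] (N : Subgroup G) [N.Normal] (hN1 : N ≠ ⊥) (hN2 : N ≠ ⊤)
    (heq : ∀ x : G, x ∉ N → ∀ n ∈ N, orderOf (x * n) = orderOf x)
    (hnil : Group.IsNilpotent N) (hnpp : ¬ IsPrimePow (Nat.card N)) :
    N = Cfsg.fittingSubgroup G ∧
    ∀ (q : ℕ) [Fact q.Prime] (Q : Sylow q (G ⧸ N)), IsCyclic (Q : Subgroup (G ⧸ N)) ∨ ∃ n : ℕ, Nonempty ((Q : Subgroup (G ⧸ N)) ≃* QuaternionGroup (2 ^ n)) := by
  have hcard1 : Nat.card N ≠ 1 := by
    intro h; exact hN1 (Subgroup.card_eq_one.mp h)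
  have hcard0 : Nat.card N ≠ 0 := Nat.card_pos.ne'
  constructor
  · apply le_antisymm
    · exact le_sSup ⟨inferInstance, hnil⟩
    · by_contra hcon
      obtain ⟨g, hgF, hgN⟩ := SetLike.not_le_iff_exists.mp hcon
      have hFnil : Group.IsNilpotent (Cfsg.fittingSubgroup G) :=
        Cfsg.Agent.Lib.Helper74.fittingSubgroup_isNilpotent G
      have hg1 : (QuotientGroup.mk g : G ⧸ N) ≠ 1 := by
        rw [Ne, QuotientGroup.eq_one_iff]; exact hgN
      set n := orderOf (QuotientGroup.mk g : G ⧸ N) with hn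
      have hn1 : n ≠ 1 := by
        rw [hn, Ne, orderOf_eq_one_iff]; exact hg1
      have hq : n.minFac.Prime := Nat.minFac_prime hn1
      set q := n.minFac with hqdef
      have ho : orderOf ((QuotientGroup.mk g : G ⧸ N) ^ (n / q)) = q :=
        orderOf_pow_orderOf_div (orderOf_pos _).ne' (Nat.minFac_dvd n)
      have hg'N : g ^ (n / q) ∉ N := by
        rw [← QuotientGroup.eq_one_iff, QuotientGroup.mk_pow]
        intro h
        rw [h, orderOf_one] at ho
        exact hq.one_lt.ne ho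
      have hg'q : (g ^ (n / q)) ^ q ∈ N := by
        rw [← QuotientGroup.eq_one_iff, QuotientGroup.mk_pow, QuotientGroup.mk_pow]
        have := pow_orderOf_eq_one ((QuotientGroup.mk g : G ⧸ N) ^ (n / q))
        rwa [ho] at this
      obtain ⟨m, e, hmN, hme⟩ := exists_q_elt N q hq _ hg'N hg'q
      obtain ⟨r, hr, hrq, hrN⟩ := exists_prime_ne _ hcard1 hcard0 hnpp q hq
      have := Fact.mk hr
      obtain ⟨w, hw⟩ := exists_prime_orderOf_dvd_card' r hrN
      have hwo : orderOf (w : G) = r := by rw [Subgroup.orderOf_coe]; exact hw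
      have hwF : (w : G) ∈ Cfsg.fittingSubgroup G :=
        (le_sSup (a := N) ⟨inferInstance, hnil⟩ : N ≤ Cfsg.fittingSubgroup G) w.2
      have hhF : (g ^ (n / q)) ^ m ∈ Cfsg.fittingSubgroup G :=
        Subgroup.pow_mem _ (Subgroup.pow_mem _ hgF _) _
      have hcop : (orderOf (w : G)).Coprime q := by
        rw [hwo]; exact (Nat.coprime_primes hr hq).mpr hrq
      have hcomm := Cfsg.Agent.Lib.Helper31.commute_of_coprime_orderOf (Cfsg.fittingSubgroup G)
        ⟨(g ^ (n / q)) ^ m, hhF⟩ ⟨(w : G), hwF⟩ (by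
          rw [Subgroup.orderOf_mk, Subgroup.orderOf_mk, hme]
          exact (Nat.Coprime.pow_right e hcop).symm)
      have hcomm' : Commute ((g ^ (n / q)) ^ m) (w : G) := congrArg Subtype.val hcomm
      have hw1 := no_fixed N heq q hq _ hmN (by
        rw [← pow_mul, mul_comm, pow_mul]; exact Subgroup.pow_mem _ hg'q _) (w : G) w.2 hcop hcomm'
      rw [hw1, orderOf_one] at hwo
      exact hr.one_lt.ne hwo
  · intro q _ Q
    have hq : q.Prime := Fact.out
    by_cases huniq : ∀ H K : Subgroup (Q : Subgroup (G ⧸ N)), Nat.card H = q → Nat.card K = q → H = K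
    · rcases Cfsg.Agent.S0016.result q Q.2 huniq with h | ⟨_, h⟩
      · exact Or.inl h
      · exact Or.inr h
    · exfalso
      push Not at huniq
      obtain ⟨H, K, hH, hK, hHK⟩ := huniq
      obtain ⟨x, y, hc, hxq, hyq, hy1, hxy⟩ := exists_pair q Q.2 H K hH hK hHK
      obtain ⟨r, hr, hrq, hrN⟩ := exists_prime_ne _ hcard1 hcard0 hnpp q hq
      obtain ⟨w, hwN, hw1, hwc, k, hk⟩ := exists_central_elt N hnil r hr hrN
      have hcop : (orderOf w).Coprime q :=
        Nat.Coprime.coprime_dvd_left hk (Nat.Coprime.pow_left k ((Nat.coprime_primes hr hq).mpr hrq))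
      apply no_klein N heq q hq w hwN hwc hw1 hcop (x : G ⧸ N) (y : G ⧸ N)
      · exact congrArg Subtype.val hc
      · exact congrArg Subtype.val hxq
      · exact congrArg Subtype.val hyq
      · intro h; exact hy1 (Subtype.ext h)
      · rintro ⟨k, hk⟩
        apply hxy
        refine ⟨k, Subtype.ext ?_⟩
        simpa using hk

end Cfsg.Agent.S4155
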