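import Cfsg.Statements.S4160
-- import your own Cfsg.Agent.* helpers here
import Cfsg.Agent.Lib.Helper73.ConjCover

set_option autoImplicit false
open Cfsg

namespace Cfsg.Agent.S4160

theorem normalizer_le_normalizer_centralizer {G : Type*} [Group G] (H : Subgroup G) :
    Subgroup.normalizer (H : Set G) ≤
      Subgroup.normalizer ((Subgroup.centralizer (H : Set G) : Subgroup G) : Set G) := by
  have key : ∀ n ∈ Subgroup.normalizer (H : Set G), ∀ c ∈ Subgroup.centralizer (H : Set G),
      n * c * n⁻¹ ∈ Subgroup.centralizer (H : Set G) := by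
    intro n hn c hc
    rw [Subgroup.mem_centralizer_iff] at hc ⊢
    intro y hy
    have h1 : n⁻¹ * y * n⁻¹⁻¹ ∈ H := ((Subgroup.mem_normalizer_iff.mp (Subgroup.inv_mem _ hn)) y).mp hy
    have h2 := hc _ h1
    calc y * (n * c * n⁻¹) = n * ((n⁻¹ * y * n⁻¹⁻¹) * c) * n⁻¹ := by group
      _ = n * (c * (n⁻¹ * y * n⁻¹⁻¹)) * n⁻¹ := by rw [h2]
      _ = n * c * n⁻¹ * y := by group
  intro n hn
  rw [Subgroup.mem_normalizer_iff]
  intro c
  constructor
  · exact key n hn c
  · intro h
    have := key n⁻¹ (Subgroup.inv_mem _ hn) _ h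
    simpa [mul_assoc] using this

theorem two_mul_index_mul_card_le {G : Type*} [Group G] [Finite G] (C N : Subgroup G) (hCN : C ≤ N)
    (hNC : ¬ N ≤ C) : 2 * (N.index * Nat.card C) ≤ Nat.card G := by
  obtain ⟨k, hk⟩ := Subgroup.card_dvd_of_le hCN
  have hCpos : 0 < Nat.card C := Nat.card_pos
  have hNpos : 0 < Nat.card N := Nat.card_pos
  have hk2 : 2 ≤ k := by
    rcases k with _ | _ | k
    · simp at hk; omega
    · exfalso
      apply hNC
      have : C = N := Subgroup.eq_of_le_of_card_ge hCN (by omega)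
      rw [this]
    · omega
  rw [← N.index_mul_card, hk]
  nlinarith [Nat.zero_le (N.index * Nat.card C)]

/-- Let G be a finite group and p ≠ q primes each dividing the size of some conjugacy class of G, such that no conjugacy class size is divisible by pq. Then G has a normal p-complement or a normal q-complement. -/
theorem result {G : Type*} [Group G] [Finite G] (p q : ℕ) (hp : p.Prime) (hq : q.Prime) (hpq : p ≠ q)
    (hp' : ∃ x : G, p ∣ (Subgroup.centralizer ({x} : Set G)).index) (hq' : ∃ x : G, q ∣ (Subgroup.centralizer ({x} : Set G)).index) (h : ∀ x : G, ¬ p * q ∣ (Subgroup.centralizer ({x} : Set G)).index) :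
    Cfsg.HasNormalPComplement p G ∨ Cfsg.HasNormalPComplement q G := by
  classical
  have := Fact.mk hp
  have := Fact.mk hq
  obtain ⟨P⟩ : Nonempty (Sylow p G) := inferInstance
  obtain ⟨Q⟩ : Nonempty (Sylow q G) := inferInstance
  by_cases hP : Subgroup.normalizer ((P : Subgroup G) : Set G) ≤ Subgroup.centralizer ((P : Subgroup G) : Set G)
  · left
    exact ⟨P, _, inferInstance, MonoidHom.ker_transferSylow_isComplement' P hP⟩
  by_cases hQ : Subgroup.normalizer ((Q : Subgroup G) : Set G) ≤ Subgroup.centralizer ((Q : Subgroup G) : Set G)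
  · right
    exact ⟨Q, _, inferInstance, MonoidHom.ker_transferSylow_isComplement' Q hQ⟩
  exfalso
  have hA := Cfsg.Agent.Lib.Helper73.card_conj_cover_le _ _ (normalizer_le_normalizer_centralizer (P : Subgroup G))
  have hB := Cfsg.Agent.Lib.Helper73.card_conj_cover_le _ _ (normalizer_le_normalizer_centralizer (Q : Subgroup G))
  have hA2 := two_mul_index_mul_card_le _ _ (Subgroup.centralizer_le_normalizer ((P : Subgroup G) : Set G)) hP
  have hB2 := two_mul_index_mul_card_le _ _ (Subgroup.centralizer_le_normalizer ((Q : Subgroup G) : Set G)) hQ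
  set a := (Subgroup.normalizer ((P : Subgroup G) : Set G)).index with ha
  set b := (Subgroup.normalizer ((Q : Subgroup G) : Set G)).index with hb
  set c := Nat.card (Subgroup.centralizer ((P : Subgroup G) : Set G)) with hc
  set d := Nat.card (Subgroup.centralizer ((Q : Subgroup G) : Set G)) with hd
  have hapos : 0 < a := Nat.pos_of_ne_zero (Subgroup.index_ne_zero_of_finite)
  have hbpos : 0 < b := Nat.pos_of_ne_zero (Subgroup.index_ne_zero_of_finite)
  have hcpos : 0 < c := Nat.card_pos
  have hdpos : 0 < d := Nat.card_pos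
  have hcover : Nat.card {x : G // x ≠ 1} ≤
      Nat.card {x : G // x ≠ 1 ∧ ∃ g : G, g * x * g⁻¹ ∈ Subgroup.centralizer ((P : Subgroup G) : Set G)} +
      Nat.card {x : G // x ≠ 1 ∧ ∃ g : G, g * x * g⁻¹ ∈ Subgroup.centralizer ((Q : Subgroup G) : Set G)} := by
    have hsub : {x : G | x ≠ 1} ⊆
        {x : G | x ≠ 1 ∧ ∃ g : G, g * x * g⁻¹ ∈ Subgroup.centralizer ((P : Subgroup G) : Set G)} ∪
        {x : G | x ≠ 1 ∧ ∃ g : G, g * x * g⁻¹ ∈ Subgroup.centralizer ((Q : Subgroup G) : Set G)} := by
      intro x hx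
      by_cases hxp : p ∣ (Subgroup.centralizer ({x} : Set G)).index
      · right
        refine ⟨hx, Cfsg.Agent.Lib.Helper73.exists_conj_mem_centralizer_sylow Q x ?_⟩
        intro hxq
        exact h x (Nat.Coprime.mul_dvd_of_dvd_of_dvd ((Nat.coprime_primes hp hq).mpr hpq) hxp hxq)
      · left
        exact ⟨hx, Cfsg.Agent.Lib.Helper73.exists_conj_mem_centralizer_sylow P x hxp⟩
    have h1 := Set.ncard_le_ncard hsub (Set.toFinite _)
    have h2 := Set.ncard_union_le
        {x : G | x ≠ 1 ∧ ∃ g : G, g * x * g⁻¹ ∈ Subgroup.centralizer ((P : Subgroup G) : Set G)}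
        {x : G | x ≠ 1 ∧ ∃ g : G, g * x * g⁻¹ ∈ Subgroup.centralizer ((Q : Subgroup G) : Set G)}
    simp only [← Nat.card_coe_set_eq] at h1 h2
    exact h1.trans h2
  have hG1 : Nat.card {x : G // x ≠ 1} = Nat.card G - 1 := by
    have := Fintype.ofFinite G
    rw [Nat.card_eq_fintype_card, Nat.card_eq_fintype_card, Fintype.card_subtype_compl,
      Fintype.card_subtype_eq]
  have hGpos : 0 < Nat.card G := Nat.card_pos
  have h5 : Nat.card G - 1 ≤ a * (c - 1) + b * (d - 1) := by
    rw [← hG1]; exact hcover.trans (Nat.add_le_add hA hB)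
  clear_value a b c d
  obtain ⟨c', rfl⟩ : ∃ c', c = c' + 1 := ⟨c - 1, by omega⟩
  obtain ⟨d', rfl⟩ : ∃ d', d = d' + 1 := ⟨d - 1, by omega⟩
  simp only [Nat.add_sub_cancel] at h5
  have h6 : Nat.card G ≤ a * c' + b * d' + 1 := by omega
  nlinarith

end Cfsg.Agent.S4160
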