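import Cfsg.Statements.S4163
-- import your own Cfsg.Agent.* helpers here
import Cfsg.Agent.Lib.Helper73.MinClass

set_option autoImplicit false
open Cfsg

namespace Cfsg.Agent.S4163


open scoped commutatorElement in
theorem class_three_of {G : Type*} [Group G] (A M : Subgroup G)
    (hCA : Subgroup.centralizer (A : Set G) = A)
    (h : ∀ g ∈ M, ∀ a ∈ A, ⁅a, g⁆ ∈ Subgroup.center G) :
    Subgroup.upperCentralSeries ↥M 3 = ⊤ := by
  have h1 : ⁅A, M⁆ ≤ Subgroup.center G := by
    rw [Subgroup.commutator_le]
    intro a ha g hg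
    exact h g hg a ha
  have hZ : ∀ H : Subgroup G, H ≤ Subgroup.center G → ⁅H, M⁆ = ⊥ := by
    intro H hH
    rw [Subgroup.commutator_eq_bot_iff_le_centralizer]
    exact hH.trans (Subgroup.center_le_centralizer _)
  have h2 : ⁅⁅A, M⁆, M⁆ = ⊥ := hZ _ h1
  have h3 : ⁅⁅M, A⁆, M⁆ = ⊥ := by rw [Subgroup.commutator_comm M A]; exact h2
  have h4 : ⁅⁅M, M⁆, A⁆ = ⊥ := Subgroup.commutator_commutator_eq_bot_of_rotate h3 h2
  have h5 : ⁅M, M⁆ ≤ A := by
    rw [Subgroup.commutator_eq_bot_iff_le_centralizer, hCA] at h4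
    exact h4
  have h6 : ⁅⁅M, M⁆, M⁆ ≤ Subgroup.center G :=
    (Subgroup.commutator_mono h5 le_rfl).trans h1
  have h7 : ⁅⁅⁅M, M⁆, M⁆, M⁆ = ⊥ := hZ _ h6
  rw [← Subgroup.lowerCentralSeries_eq_bot_iff_upperCentralSeries_eq_top,
    ← Subgroup.map_subtype_inj, Subgroup.map_bot, Subgroup.top_subtype_lowerCentralSeries]
  exact h7

/-- Let G be a finite group with a normal abelian subgroup A satisfying C_G(A) = A. Suppose some conjugacy class of G has size greater than 1, let m be the smallest such size, and let M be the subgroup generated by the elements whose class has size 1 or m. Then M is nilpotent of class at most 3. -/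
theorem result {G : Type*} [Group G] [Finite G]
    (A : Subgroup G) [A.Normal] (hA : IsMulCommutative A) (hCA : Subgroup.centralizer (A : Set G) = A)
    (m : ℕ) (hm1 : 1 < m) (hm : ∃ x : G, (Subgroup.centralizer ({x} : Set G)).index = m) (hmin : ∀ x : G, 1 < (Subgroup.centralizer ({x} : Set G)).index → m ≤ (Subgroup.centralizer ({x} : Set G)).index) :
    Subgroup.upperCentralSeries ↥(Subgroup.closure {x : G | (Subgroup.centralizer ({x} : Set G)).index = 1 ∨ (Subgroup.centralizer ({x} : Set G)).index = m}) 3 = ⊤ := by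
  open scoped commutatorElement in
  apply class_three_of A _ hCA
  intro g hg
  induction hg using Subgroup.closure_induction with
  | mem y hy =>
    intro a ha
    rcases hy with hy | hy
    · rw [Subgroup.index_eq_one] at hy
      have hyc : a * y = y * a := by
        have : a ∈ Subgroup.centralizer ({y} : Set G) := by rw [hy]; trivial
        exact Subgroup.mem_centralizer_singleton_iff.mp this
      have : ⁅a, y⁆ = 1 := by rw [commutatorElement_eq_one_iff_mul_comm]; exact hyc
      rw [this]; exact Subgroup.one_mem _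
    · exact Cfsg.Agent.Lib.Helper73.commutator_mem_center_of_min_class A hA m hmin y hy a ha
  | one =>
    intro a _
    have : ⁅a, (1 : G)⁆ = 1 := by simp
    rw [this]; exact Subgroup.one_mem _
  | mul y z _ _ ihy ihz =>
    intro a ha
    have : ⁅a, y * z⁆ = ⁅a, y⁆ * (y * ⁅a, z⁆ * y⁻¹) := by
      simp only [commutatorElement_def]; group
    rw [this]
    exact Subgroup.mul_mem _ (ihy a ha) (Subgroup.Normal.conj_mem inferInstance _ (ihz a ha) y)
  | inv y _ ihy =>
    intro a ha
    have : ⁅a, y⁻¹⁆ = y⁻¹ * ⁅a, y⁆⁻¹ * y⁻¹⁻¹ := by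
      simp only [commutatorElement_def]; group
    rw [this]
    exact Subgroup.Normal.conj_mem inferInstance _ (Subgroup.inv_mem _ (ihy a ha)) y⁻¹

end Cfsg.Agent.S4163
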