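import Cfsg.Statements.S4168
-- import your own Cfsg.Agent.* helpers here

set_option autoImplicit false
open Cfsg

namespace Cfsg.Agent.S4168

/-- Let L be a finite quasisimple group (perfect with L/Z(L) simple). Then every prime dividing the order of the centre Z(L) also divides the order of L/Z(L). -/
theorem result {L : Type*} [Group L] [Finite L] (hL : Cfsg.IsQuasisimple L)
    (p : ℕ) (hp : p.Prime) (hdiv : p ∣ Nat.card (Subgroup.center L)) : p ∣ (Subgroup.center L).index := by
  have h1 := Subgroup.card_commutator_dvd_index_center_pow L
  have h2 : commutator L = ⊤ := by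
    have := hL.1
    exact Group.IsPerfect.commutator_eq_top
  rw [h2, Subgroup.card_top] at h1
  have h3 : p ∣ Nat.card L := hdiv.trans (Subgroup.card_subgroup_dvd_card _)
  exact hp.dvd_of_dvd_pow (h3.trans h1)

end Cfsg.Agent.S4168
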