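import Cfsg.Statements.S4169
-- import your own Cfsg.Agent.* helpers here
import Cfsg.Agent.Lib.Helper73.MinClass
import Cfsg.Agent.Lib.Helper31.PGroup

set_option autoImplicit false
open Cfsg

namespace Cfsg.Agent.S4169


open scoped commutatorElement in
theorem class_three_top {G : Type*} [Group G] (A : Subgroup G)
    (hCA : Subgroup.centralizer (A : Set G) ≤ A)
    (h : ∀ g : G, ∀ a ∈ A, ⁅a, g⁆ ∈ Subgroup.center G) :
    Subgroup.upperCentralSeries G 3 = ⊤ := by
  have h1 : ⁅A, (⊤ : Subgroup G)⁆ ≤ Subgroup.center G := by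
    rw [Subgroup.commutator_le]
    intro a ha g _
    exact h g a ha
  have hZ : ∀ H : Subgroup G, H ≤ Subgroup.center G → ⁅H, (⊤ : Subgroup G)⁆ = ⊥ := by
    intro H hH
    rw [Subgroup.commutator_eq_bot_iff_le_centralizer]
    exact hH.trans (Subgroup.center_le_centralizer _)
  have h2 : ⁅⁅A, (⊤ : Subgroup G)⁆, (⊤ : Subgroup G)⁆ = ⊥ := hZ _ h1
  have h3 : ⁅⁅(⊤ : Subgroup G), A⁆, (⊤ : Subgroup G)⁆ = ⊥ := by
    rw [Subgroup.commutator_comm ⊤ A]; exact h2
  have h4 : ⁅⁅(⊤ : Subgroup G), (⊤ : Subgroup G)⁆, A⁆ = ⊥ :=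
    Subgroup.commutator_commutator_eq_bot_of_rotate h3 h2
  have h5 : ⁅(⊤ : Subgroup G), (⊤ : Subgroup G)⁆ ≤ A := by
    rw [Subgroup.commutator_eq_bot_iff_le_centralizer] at h4
    exact h4.trans hCA
  have h6 : ⁅⁅(⊤ : Subgroup G), (⊤ : Subgroup G)⁆, (⊤ : Subgroup G)⁆ ≤ Subgroup.center G :=
    (Subgroup.commutator_mono h5 le_rfl).trans h1
  have h7 : ⁅⁅⁅(⊤ : Subgroup G), (⊤ : Subgroup G)⁆, (⊤ : Subgroup G)⁆, (⊤ : Subgroup G)⁆ = ⊥ :=
    hZ _ h6
  rw [← Subgroup.lowerCentralSeries_eq_bot_iff_upperCentralSeries_eq_top]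
  exact h7

/-- Let P be a finite p-group whose conjugacy classes have exactly two sizes (1 and one other value). Then P has nilpotency class at most 3. -/
theorem result {P : Type*} [Group P] [Finite P] {p : ℕ} [Fact p.Prime] (hP : IsPGroup p P)
    (m : ℕ) (hm : 1 < m) (h : ∀ x : P, (Subgroup.centralizer ({x} : Set P)).index = 1 ∨ (Subgroup.centralizer ({x} : Set P)).index = m) :
    upperCentralSeries P 3 = ⊤ := by
  open scoped commutatorElement in
  obtain ⟨A, hAn, hAc, hCA⟩ := Cfsg.Agent.Lib.Helper31.exists_normal_abelian_self_centralizing hP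
  apply class_three_top A hCA
  intro y a ha
  rcases h y with hy | hy
  · rw [Subgroup.index_eq_one] at hy
    have hyc : a * y = y * a := by
      have : a ∈ Subgroup.centralizer ({y} : Set P) := by rw [hy]; trivial
      exact Subgroup.mem_centralizer_singleton_iff.mp this
    have : ⁅a, y⁆ = 1 := by rw [commutatorElement_eq_one_iff_mul_comm]; exact hyc
    rw [this]; exact Subgroup.one_mem _
  · refine Cfsg.Agent.Lib.Helper73.commutator_mem_center_of_min_class A hAc m ?_ y hy a ha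
    intro x hx
    rcases h x with h1 | h1
    · omega
    · exact h1.ge

end Cfsg.Agent.S4169
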