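import Cfsg.Statements.S4176
-- import your own Cfsg.Agent.* helpers here
import Cfsg.Agent.Lib.Helper73.OrbitSpan
import Cfsg.Agent.Lib.Helper73.PSolvSub
import Cfsg.Agent.Lib.Helper12.Card
import Cfsg.Agent.S3744

set_option autoImplicit false
open Cfsg

namespace Cfsg.Agent.S4176

open Cfsg.Agent.Lib.Helper73
open scoped Pointwise

theorem key {k V H' : Type*} [Field k] (p : ℕ) [hp : Fact p.Prime] [CharP k p] [AddCommGroup V]
    [Module k V] [Group H'] [Finite H'] (hsol : Cfsg.IsPSolvable p H') (ρ' : Representation k H' V)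
    (a : V) (hm : ¬ p ∣ (stab ρ' a).index) :
    ∃ Q : Subgroup H', (Nat.card Q : k) ≠ 0 ∧ ∀ h : H', ∃ g ∈ Q, ρ' g a = ρ' h a := by
  obtain ⟨Q, hQc, n, hQi⟩ := (Cfsg.Agent.S3744.result hsol).1
  refine ⟨Q, ?_, ?_⟩
  · intro h
    have h1 := (CharP.cast_eq_zero_iff k p _).mp h
    exact hp.out.one_lt.ne' (hQc.symm.eq_one_of_dvd h1)
  · have hcop : (Q.index).Coprime (stab ρ' a).index := by
      rw [hQi]
      exact Nat.Coprime.pow_left n ((Nat.Prime.coprime_iff_not_dvd hp.out).mpr hm)
    have hmul := Cfsg.Agent.Lib.Helper12.mul_eq_univ_of_coprime_index Q (stab ρ' a) hcop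
    intro h
    have hh : h ∈ ((Q : Set H') * (stab ρ' a : Set H')) := by rw [hmul]; trivial
    obtain ⟨g, hg, s, hs, rfl⟩ := Set.mem_mul.mp hh
    refine ⟨g, hg, ?_⟩
    rw [map_mul]
    show ρ' g a = ρ' g (ρ' s a)
    rw [(mem_stab ρ' a s).mp hs]

/-- Let k be a field of prime characteristic p, H a finite p-soluble group and ρ a k-linear representation of H on V. Let a be a vector that is fixed by some Sylow p-subgroup of H and whose H-orbit spans V. Then the space of H-fixed vectors has dimension at most 1, and every vector b whose H-orbit has size coprime to the size of the orbit of a is fixed by H. -/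
theorem result {k V H : Type*} [Field k] (p : ℕ) [Fact p.Prime] [CharP k p] [AddCommGroup V] [Module k V]
    [Group H] [Finite H] (hsol : Cfsg.IsPSolvable p H) (ρ : Representation k H V) (a : V)
    (hfix : ∃ P : Sylow p H, ∀ x : H, x ∈ (P : Subgroup H) → ρ x a = a)
    (hspan : Submodule.span k {u : V | ∃ h : H, ρ h a = u} = ⊤) :
    Module.finrank k ρ.invariants ≤ 1 ∧
    ∀ b : V, (Nat.card {u : V | ∃ h : H, ρ h a = u}).Coprime (Nat.card {u : V | ∃ h : H, ρ h b = u}) → ∀ h : H, ρ h b = b := by
  classical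
  have := Fintype.ofFinite H
  obtain ⟨P, hP⟩ := hfix
  have hPa : (P : Subgroup H) ≤ stab ρ a := fun x hx => hP x hx
  have hm : ¬ p ∣ (stab ρ a).index := fun h => P.not_dvd_index (h.trans (Subgroup.index_dvd_of_le hPa))
  constructor
  · obtain ⟨Q, hQ, htrans⟩ := key p hsol ρ a hm
    have hle : ρ.invariants ≤ Submodule.span k {orbSum ρ a} := by
      intro b hb
      exact fixed_mem_span_orbSum ρ a hspan Q hQ htrans b (fun g _ => hb g)
    calc Module.finrank k ρ.invariants ≤ Module.finrank k (Submodule.span k {orbSum ρ a}) :=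
          Submodule.finrank_mono hle
      _ ≤ 1 := by
          have := finrank_span_le_card (R := k) ({orbSum ρ a} : Set V)
          simpa using this
  · intro b hcop h
    rw [card_orbit_eq_index, card_orbit_eq_index] at hcop
    have hmul := Cfsg.Agent.Lib.Helper12.mul_eq_univ_of_coprime_index (stab ρ b) (stab ρ a) hcop.symm
    have htransB : ∀ h : H, ∃ g ∈ stab ρ b, ρ g a = ρ h a := by
      intro h
      have hh : h ∈ ((stab ρ b : Set H) * (stab ρ a : Set H)) := by rw [hmul]; trivial
      obtain ⟨g, hg, s, hs, rfl⟩ := Set.mem_mul.mp hh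
      refine ⟨g, hg, ?_⟩
      rw [map_mul]
      show ρ g a = ρ g (ρ s a)
      rw [(mem_stab ρ a s).mp hs]
    let ρ' : Representation k (stab ρ b) V := ρ.comp (stab ρ b).subtype
    have horb : {u : V | ∃ h : stab ρ b, ρ' h a = u} = {u : V | ∃ h : H, ρ h a = u} := by
      ext u
      constructor
      · rintro ⟨h, rfl⟩
        exact ⟨h, rfl⟩
      · rintro ⟨h, rfl⟩
        obtain ⟨g, hg, hga⟩ := htransB h
        exact ⟨⟨g, hg⟩, hga⟩
    have hidx : (stab ρ' a).index = (stab ρ a).index := by
      rw [← card_orbit_eq_index, ← card_orbit_eq_index, horb]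
    obtain ⟨Q', hQ', htrans'⟩ := key p (isPSolvable_subgroup hsol (stab ρ b)) ρ' a (by rw [hidx]; exact hm)
    have hmem := fixed_mem_span_orbSum ρ a hspan (Q'.map (stab ρ b).subtype)
      (by rw [Subgroup.card_map_of_injective (Subgroup.subtype_injective _)]; exact hQ')
      (by
        intro h
        obtain ⟨g, hg, hga⟩ := htransB h
        obtain ⟨q, hq, hqa⟩ := htrans' ⟨g, hg⟩
        exact ⟨q, ⟨q, hq, rfl⟩, hqa.trans hga⟩) b
      (by
        rintro _ ⟨q, -, rfl⟩
        exact q.2)
    obtain ⟨c, rfl⟩ := Submodule.mem_span_singleton.mp hmem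
    rw [map_smul, orbSum_invariant]

end Cfsg.Agent.S4176
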