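import Cfsg.Statements.S4177
-- import your own Cfsg.Agent.* helpers here
import Cfsg.Agent.Lib.Helper73.OrbitSpan
import Cfsg.Agent.Lib.Helper12.Card

set_option autoImplicit false
open Cfsg

namespace Cfsg.Agent.S4177

open Cfsg.Agent.Lib.Helper73
open scoped Pointwise

/-- Let k be a field whose characteristic does not divide the order of the finite group H (for instance a field of characteristic zero), and ρ a k-linear representation of H on V. Let a be a vector whose H-orbit spans V. Then the space of H-fixed vectors has dimension at most 1, and every vector b whose H-orbit has size coprime to the size of the orbit of a is fixed by H. -/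
theorem result {k V H : Type*} [Field k] [AddCommGroup V] [Module k V] [Group H] [Finite H]
    (hchar : ¬ ringChar k ∣ Nat.card H) (ρ : Representation k H V) (a : V)
    (hspan : Submodule.span k {u : V | ∃ h : H, ρ h a = u} = ⊤) :
    Module.finrank k ρ.invariants ≤ 1 ∧
    ∀ b : V, (Nat.card {u : V | ∃ h : H, ρ h a = u}).Coprime (Nat.card {u : V | ∃ h : H, ρ h b = u}) → ∀ h : H, ρ h b = b := by
  classical
  have := Fintype.ofFinite H
  have hsub : ∀ Q : Subgroup H, (Nat.card Q : k) ≠ 0 := by
    intro Q h
    apply hchar
    exact ((ringChar.spec k _).mp h).trans (Subgroup.card_subgroup_dvd_card Q)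
  constructor
  · have hle : ρ.invariants ≤ Submodule.span k {orbSum ρ a} := by
      intro b hb
      exact fixed_mem_span_orbSum ρ a hspan ⊤ (hsub ⊤) (fun h => ⟨h, trivial, rfl⟩) b (fun g _ => hb g)
    calc Module.finrank k ρ.invariants ≤ Module.finrank k (Submodule.span k {orbSum ρ a}) :=
          Submodule.finrank_mono hle
      _ ≤ 1 := by
          have := finrank_span_le_card (R := k) ({orbSum ρ a} : Set V)
          simpa using this
  · intro b hcop h
    rw [card_orbit_eq_index, card_orbit_eq_index] at hcop
    have hmul := Cfsg.Agent.Lib.Helper12.mul_eq_univ_of_coprime_index (stab ρ b) (stab ρ a) hcop.symm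
    have htrans : ∀ h : H, ∃ g ∈ stab ρ b, ρ g a = ρ h a := by
      intro h
      have hh : h ∈ ((stab ρ b : Set H) * (stab ρ a : Set H)) := by rw [hmul]; trivial
      obtain ⟨g, hg, s, hs, rfl⟩ := Set.mem_mul.mp hh
      refine ⟨g, hg, ?_⟩
      rw [map_mul]
      show ρ g a = ρ g (ρ s a)
      rw [(mem_stab ρ a s).mp hs]
    have hmem := fixed_mem_span_orbSum ρ a hspan (stab ρ b) (hsub _) htrans b (fun g hg => hg)
    obtain ⟨c, rfl⟩ := Submodule.mem_span_singleton.mp hmem
    rw [map_smul, orbSum_invariant]

end Cfsg.Agent.S4177
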