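import Cfsg.Statements.S4178
-- import your own Cfsg.Agent.* helpers here

set_option autoImplicit false
open Cfsg

namespace Cfsg.Agent.S4178

theorem index_le_card_range {G X : Type*} [Group G] [Finite X] (R : Subgroup G) (φ : G → X)
    (h : ∀ g₁ g₂ : G, φ g₁ = φ g₂ → g₁⁻¹ * g₂ ∈ R) : R.index ≤ Nat.card (Set.range φ) := by
  classical
  let ψ : Set.range φ → G ⧸ R := fun x => QuotientGroup.mk (Classical.choose x.2)
  apply Nat.card_le_card_of_surjective ψ
  intro q
  induction q using QuotientGroup.induction_on with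
  | H g =>
    refine ⟨⟨φ g, g, rfl⟩, ?_⟩
    have hs : φ (Classical.choose (⟨φ g, g, rfl⟩ : Set.range φ).2) = φ g :=
      Classical.choose_spec (⟨φ g, g, rfl⟩ : Set.range φ).2
    exact QuotientGroup.eq.mpr (h _ _ hs)

theorem index_le_pow_sub_one {G F U : Type*} [Group G] [Field F] [Fintype F] [AddCommGroup U]
    [Module F U] [FiniteDimensional F U] (R : Subgroup G) (φ : G → U)
    (h : ∀ g₁ g₂ : G, φ g₁ = φ g₂ → g₁⁻¹ * g₂ ∈ R) (h0 : ∀ g, φ g ≠ 0) :
    R.index ≤ Fintype.card F ^ Module.finrank F U - 1 := by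
  classical
  have : Finite U := Module.finite_of_finite F
  have := Fintype.ofFinite U
  refine (index_le_card_range R φ h).trans ?_
  rw [← Module.card_eq_pow_finrank (K := F) (V := U)]
  have hsub : Set.range φ ⊆ ({0}ᶜ : Set U) := by
    rintro _ ⟨g, rfl⟩
    exact h0 g
  have h1 := Set.ncard_le_ncard hsub (Set.toFinite _)
  rw [Set.ncard_compl, Set.ncard_singleton, Nat.card_eq_fintype_card] at h1
  rwa [Nat.card_coe_set_eq]

theorem exists_fixed_of_quotient_fixed {F V : Type*} [Field F] [AddCommGroup V] [Module F V]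
    [FiniteDimensional F V] (W : Submodule F V) (h : V ≃ₗ[F] V) (hW : ∀ w ∈ W, h w ∈ W)
    (v : V) (hv : v ∉ W) (hvW : h v - v ∈ W) : ∃ u : V, u ≠ 0 ∧ h u = u := by
  by_contra hcon
  push Not at hcon
  let N : V →ₗ[F] V := (h : V →ₗ[F] V) - LinearMap.id
  have hNinj : Function.Injective N := by
    rw [← LinearMap.ker_eq_bot, LinearMap.ker_eq_bot']
    intro u hu
    by_contra hu0
    apply hcon u hu0
    have : h u - u = 0 := hu
    exact sub_eq_zero.mp this
  have hNW : ∀ w ∈ W, N w ∈ W := fun w hw => W.sub_mem (hW w hw) hw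
  let NW : W →ₗ[F] W := N.restrict hNW
  have hNWinj : Function.Injective NW := by
    intro x y hxy
    apply Subtype.ext
    apply hNinj
    exact congrArg Subtype.val hxy
  have hNWsurj : Function.Surjective NW := LinearMap.injective_iff_surjective.mp hNWinj
  obtain ⟨w, hw⟩ := hNWsurj ⟨h v - v, hvW⟩
  have h1 : N w = N v := congrArg Subtype.val hw
  have h2 : (w : V) = v := hNinj h1
  exact hv (h2 ▸ w.2)

/-- Let F be a finite field with q elements, V a non-zero finite-dimensional F-space of dimension d, H a group of invertible linear maps of V, and R the subgroup of H generated by the elements of H that fix some non-zero vector (have eigenvalue 1). Then the index of R in H is at most q^d − 1; and if H leaves invariant some proper non-zero subspace, the index is at most q^(d/2) − 1. -/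
theorem result {F V : Type*} [Field F] [Fintype F] [AddCommGroup V] [Module F V] [FiniteDimensional F V] [Nontrivial V]
    (H : Subgroup (V ≃ₗ[F] V)) :
    (Subgroup.closure {h : ↥H | ∃ v : V, v ≠ 0 ∧ (h : V ≃ₗ[F] V) v = v}).index ≤ Fintype.card F ^ Module.finrank F V - 1 ∧
    ((∃ W : Submodule F V, W ≠ ⊥ ∧ W ≠ ⊤ ∧ ∀ h ∈ H, ∀ w ∈ W, h w ∈ W) →
      ((Subgroup.closure {h : ↥H | ∃ v : V, v ≠ 0 ∧ (h : V ≃ₗ[F] V) v = v}).index : ℝ) ≤ Real.sqrt ((Fintype.card F : ℝ) ^ Module.finrank F V) - 1) := by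
  classical
  set R := Subgroup.closure {h : ↥H | ∃ v : V, v ≠ 0 ∧ (h : V ≃ₗ[F] V) v = v} with hR
  have hmemR : ∀ g : ↥H, (∃ v : V, v ≠ 0 ∧ (g : V ≃ₗ[F] V) v = v) → g ∈ R :=
    fun g hg => Subgroup.subset_closure hg
  have hfix : ∀ (g₁ g₂ : ↥H) (v : V), (g₁ : V ≃ₗ[F] V) v = (g₂ : V ≃ₗ[F] V) v →
      ((g₁⁻¹ * g₂ : ↥H) : V ≃ₗ[F] V) v = v := by
    intro g₁ g₂ v hv
    simp only [Subgroup.coe_mul, Subgroup.coe_inv, LinearEquiv.mul_apply]
    rw [← hv]
    exact (g₁ : V ≃ₗ[F] V).symm_apply_apply v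
  constructor
  · obtain ⟨v, hv⟩ := exists_ne (0 : V)
    apply index_le_pow_sub_one R (fun g : ↥H => (g : V ≃ₗ[F] V) v)
    · intro g₁ g₂ h12
      exact hmemR _ ⟨v, hv, hfix g₁ g₂ v h12⟩
    · intro g h0
      exact hv ((LinearEquiv.map_eq_zero_iff _).mp h0)
  · rintro ⟨W, hWbot, hWtop, hWinv⟩
    have hq1 : (1 : ℝ) ≤ (Fintype.card F : ℝ) := by
      exact_mod_cast Fintype.card_pos
    have hfinal : ∀ e : ℕ, 2 * e ≤ Module.finrank F V → R.index ≤ Fintype.card F ^ e - 1 →
        (R.index : ℝ) ≤ Real.sqrt ((Fintype.card F : ℝ) ^ Module.finrank F V) - 1 := by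
      intro e he hle
      have h1 : (1 : ℕ) ≤ Fintype.card F ^ e := Nat.one_le_pow _ _ Fintype.card_pos
      have h2 : (R.index : ℝ) ≤ (Fintype.card F : ℝ) ^ e - 1 := by
        have : (R.index : ℝ) ≤ ((Fintype.card F ^ e - 1 : ℕ) : ℝ) := by exact_mod_cast hle
        rw [Nat.cast_sub h1] at this
        simpa using this
      have h3 : (Fintype.card F : ℝ) ^ e ≤ Real.sqrt ((Fintype.card F : ℝ) ^ Module.finrank F V) := by
        apply Real.le_sqrt_of_sq_le
        rw [← pow_mul, mul_comm]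
        exact pow_le_pow_right₀ hq1 he
      linarith
    have hdim := Submodule.finrank_quotient_add_finrank W
    by_cases hcase : 2 * Module.finrank F W ≤ Module.finrank F V
    · apply hfinal _ hcase
      obtain ⟨v, hvW, hv0⟩ := Submodule.exists_mem_ne_zero_of_ne_bot hWbot
      apply index_le_pow_sub_one R (fun g : ↥H => (⟨(g : V ≃ₗ[F] V) v, hWinv g g.2 v hvW⟩ : W))
      · intro g₁ g₂ h12
        exact hmemR _ ⟨v, hv0, hfix g₁ g₂ v (congrArg Subtype.val h12)⟩
      · intro g h0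
        apply hv0
        have : (g : V ≃ₗ[F] V) v = 0 := congrArg Subtype.val h0
        exact (LinearEquiv.map_eq_zero_iff _).mp this
    · apply hfinal (Module.finrank F (V ⧸ W)) (by omega)
      obtain ⟨v, hv⟩ : ∃ v : V, v ∉ W := by
        by_contra hall
        push Not at hall
        exact hWtop (eq_top_iff.mpr fun x _ => hall x)
      apply index_le_pow_sub_one R (fun g : ↥H => W.mkQ ((g : V ≃ₗ[F] V) v))
      · intro g₁ g₂ h12
        apply hmemR
        apply exists_fixed_of_quotient_fixed W _ (fun w hw => hWinv _ (g₁⁻¹ * g₂ : ↥H).2 w hw) v hv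
        have h1 : (g₁ : V ≃ₗ[F] V) v - (g₂ : V ≃ₗ[F] V) v ∈ W := by
          rw [← Submodule.Quotient.mk_eq_zero, Submodule.Quotient.mk_sub, sub_eq_zero]
          exact h12
        have h2 := hWinv _ (g₁⁻¹ : ↥H).2 _ h1
        have h3 : ((g₁⁻¹ * g₂ : ↥H) : V ≃ₗ[F] V) v - v =
            -(((g₁⁻¹ : ↥H) : V ≃ₗ[F] V) ((g₁ : V ≃ₗ[F] V) v - (g₂ : V ≃ₗ[F] V) v)) := by
          simp only [Subgroup.coe_mul, Subgroup.coe_inv, LinearEquiv.mul_apply, map_sub]
          have : (g₁ : V ≃ₗ[F] V)⁻¹ ((g₁ : V ≃ₗ[F] V) v) = v := (g₁ : V ≃ₗ[F] V).symm_apply_apply v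
          rw [this]
          abel
        rw [h3]
        exact W.neg_mem h2
      · intro g h0
        apply hv
        have h1 : (g : V ≃ₗ[F] V) v ∈ W := (Submodule.Quotient.mk_eq_zero W).mp h0
        have h2 := hWinv _ (g⁻¹ : ↥H).2 _ h1
        have h3 : ((g⁻¹ : ↥H) : V ≃ₗ[F] V) ((g : V ≃ₗ[F] V) v) = v := (g : V ≃ₗ[F] V).symm_apply_apply v
        rwa [h3] at h2

end Cfsg.Agent.S4178
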