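import Cfsg.Statements.S4182
-- import your own Cfsg.Agent.* helpers here

set_option autoImplicit false
open Cfsg

namespace Cfsg.Agent.S4182

universe u v

/-- A `p`-group is not the union of at most `p` proper subgroups. -/
theorem pgroup_cover {G : Type u} [Group G] [Finite G] {p : ℕ} [hp : Fact p.Prime] (hG : IsPGroup p G)
    {ι : Type v} [Fintype ι] (hι : Fintype.card ι ≤ p) (K : ι → Subgroup G)
    (hcov : ∀ g : G, ∃ i, g ∈ K i) : ∃ i, K i = ⊤ := by
  classical
  by_contra hcon
  push Not at hcon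
  have := Fintype.ofFinite G
  obtain ⟨n, hn⟩ := IsPGroup.iff_card.mp hG
  have hidx : ∀ i, p * Nat.card (K i) ≤ Nat.card G := by
    intro i
    have h1 : (K i).index ∣ p ^ n := hn ▸ (K i).index_dvd_card
    obtain ⟨j, -, hj⟩ := (Nat.dvd_prime_pow hp.out).mp h1
    have hj0 : j ≠ 0 := by
      rintro rfl
      exact hcon i (Subgroup.index_eq_one.mp (by simpa using hj))
    have h2 : p ∣ (K i).index := hj ▸ dvd_pow_self p hj0
    have h3 : p ≤ (K i).index := Nat.le_of_dvd (Nat.pos_of_ne_zero Subgroup.index_ne_zero_of_finite) h2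
    rw [← (K i).index_mul_card]
    exact Nat.mul_le_mul_right _ h3
  have hsub : (Finset.univ.erase (1 : G)) ⊆
      Finset.univ.biUnion (fun i => (Finset.univ.filter (fun g => g ∈ K i)).erase (1 : G)) := by
    intro g hg
    obtain ⟨i, hi⟩ := hcov g
    simp only [Finset.mem_biUnion, Finset.mem_univ, true_and]
    exact ⟨i, Finset.mem_erase.mpr ⟨(Finset.mem_erase.mp hg).1, by simpa using hi⟩⟩
  have h1 := (Finset.card_le_card hsub).trans Finset.card_biUnion_le
  have hcardK : ∀ i, ((Finset.univ.filter (fun g => g ∈ K i)).erase (1 : G)).card = Nat.card (K i) - 1 := by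
    intro i
    rw [Finset.card_erase_of_mem (by simp [(K i).one_mem]), Nat.card_eq_fintype_card,
      Fintype.card_subtype]
  simp only [hcardK] at h1
  rw [Finset.card_erase_of_mem (Finset.mem_univ _), Finset.card_univ, ← Nat.card_eq_fintype_card] at h1
  obtain ⟨i0, -⟩ := hcov 1
  have hp2 : 2 ≤ p := hp.out.two_le
  have hKpos : ∀ i, 0 < Nat.card (K i) := fun i => Nat.card_pos
  have hGp : p ≤ Nat.card G := le_trans (by nlinarith [hKpos i0]) (hidx i0)
  have h2 : p * ∑ i : ι, (Nat.card (K i) - 1) ≤ ∑ _i : ι, (Nat.card G - p) := by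
    rw [Finset.mul_sum]
    apply Finset.sum_le_sum
    intro i _
    have := hidx i
    have := hKpos i
    rw [Nat.mul_sub, mul_one]
    omega
  rw [Finset.sum_const, Finset.card_univ, smul_eq_mul] at h2
  have h3 : Fintype.card ι * (Nat.card G - p) ≤ p * (Nat.card G - p) := Nat.mul_le_mul_right _ hι
  have h4 : p * (Nat.card G - 1) ≤ p * (Nat.card G - p) :=
    (Nat.mul_le_mul_left p h1).trans (h2.trans h3)
  have h5 : Nat.card G - 1 ≤ Nat.card G - p := Nat.le_of_mul_le_mul_left h4 (by omega)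
  omega

/-- the subgroup generated by the `p`-elements of `M` -/
def Op {G : Type u} [Group G] (p : ℕ) (M : Subgroup G) : Subgroup G :=
  Subgroup.closure {g : G | g ∈ M ∧ ∃ k : ℕ, orderOf g = p ^ k}

theorem Op_le {G : Type u} [Group G] (p : ℕ) (M : Subgroup G) : Op p M ≤ M := by
  rw [Op, Subgroup.closure_le]
  exact fun g hg => hg.1

theorem Op_Op {G : Type u} [Group G] (p : ℕ) (M : Subgroup G) : Op p (Op p M) = Op p M := by
  apply le_antisymm (Op_le p _)
  conv_lhs => rw [Op]
  apply Subgroup.closure_mono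
  intro g hg
  exact ⟨Subgroup.subset_closure hg, hg.2⟩

theorem closure_pelts_eq_top {G : Type u} [Group G] (p : ℕ) (M : Subgroup G) (hM : Op p M = M) :
    Subgroup.closure {g : M | ∃ k : ℕ, orderOf g = p ^ k} = ⊤ := by
  apply Subgroup.map_injective M.subtype_injective
  rw [MonoidHom.map_closure, ← MonoidHom.range_eq_map, Subgroup.range_subtype]
  conv_rhs => rw [← hM, Op]
  congr 1
  ext g
  constructor
  · rintro ⟨y, ⟨k, hk⟩, rfl⟩
    exact ⟨y.2, k, by rw [← hk]; exact Subgroup.orderOf_coe y⟩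
  · rintro ⟨hg, k, hk⟩
    exact ⟨⟨g, hg⟩, ⟨k, by rw [← hk]; exact Subgroup.orderOf_mk g hg⟩, rfl⟩

theorem orderOf_conj' {G : Type u} [Group G] (g y : G) : orderOf (g * y * g⁻¹) = orderOf y :=
  (MulAut.conj g).orderOf_eq y

theorem main (p : ℕ) [hp : Fact p.Prime] {ι : Type v} [Fintype ι] (hι : Fintype.card ι ≤ p) :
    ∀ (n : ℕ) (G : Type u) [Group G] [Finite G], Nat.card G = n →
      Subgroup.closure {g : G | ∃ k : ℕ, orderOf g = p ^ k} = ⊤ →
      ∀ K : ι → Subgroup G, (∀ g : G, (∃ k : ℕ, orderOf g = p ^ k) → ∃ i, g ∈ K i) → ∃ i, K i = ⊤ := by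
  intro n
  induction n using Nat.strong_induction_on with
  | _ n IH =>
  intro G _ _ hn hgen K hcov
  classical
  by_cases hG : IsPGroup p G
  · exact pgroup_cover hG hι K (fun g => hcov g (IsPGroup.iff_orderOf.mp hG g))
  by_contra hcon
  push Not at hcon
  -- the family of candidates
  let 𝓜 : Set (Subgroup G) := {M | M ≠ ⊤ ∧ Op p M = M ∧ ∃ P : Sylow p G, (P : Subgroup G) ≤ M}
  obtain ⟨P0⟩ : Nonempty (Sylow p G) := inferInstance
  have hP0 : (P0 : Subgroup G) ∈ 𝓜 := by
    refine ⟨?_, ?_, P0, le_rfl⟩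
    · intro h
      apply hG
      have := P0.isPGroup'
      rw [h] at this
      exact this.of_equiv Subgroup.topEquiv
    · apply le_antisymm (Op_le p _)
      intro g hg
      apply Subgroup.subset_closure
      refine ⟨hg, ?_⟩
      obtain ⟨k, hk⟩ := IsPGroup.iff_orderOf.mp P0.isPGroup' ⟨g, hg⟩
      exact ⟨k, by rw [← hk]; exact (Subgroup.orderOf_mk g hg).symm⟩
  have : Nonempty 𝓜 := ⟨⟨_, hP0⟩⟩
  obtain ⟨⟨L, hL⟩, hLmax⟩ := Finite.exists_max (fun M : 𝓜 => Nat.card (M : Subgroup G))
  obtain ⟨hLtop, hLop, P, hPL⟩ := hL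
  have hLcard : Nat.card L < n := by
    rw [← hn]
    by_contra hge
    push Not at hge
    exact hLtop (Subgroup.eq_top_of_card_eq L (le_antisymm (Subgroup.card_le_card_group L) hge))
  -- claim 1
  have claim1 : ∀ g : G, ∃ i, L.map (MulAut.conj g).toMonoidHom = Op p (K i) := by
    intro g
    obtain ⟨i, hi⟩ := IH (Nat.card L) hLcard L rfl (closure_pelts_eq_top p L hLop)
      (fun i => (K i).comap ((MulAut.conj g).toMonoidHom.comp L.subtype)) (by
        rintro y ⟨k, hk⟩
        obtain ⟨i, hi⟩ := hcov (g * y * g⁻¹) ⟨k, by rw [orderOf_conj', Subgroup.orderOf_coe, hk]⟩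
        exact ⟨i, by simpa using hi⟩)
    refine ⟨i, ?_⟩
    have hmem : ∀ y ∈ L, g * y * g⁻¹ ∈ K i := by
      intro y hy
      have : (⟨y, hy⟩ : L) ∈ (K i).comap ((MulAut.conj g).toMonoidHom.comp L.subtype) := by
        rw [hi]; trivial
      simpa using this
    have hle : L.map (MulAut.conj g).toMonoidHom ≤ Op p (K i) := by
      conv_lhs => rw [← hLop, Op]
      rw [MonoidHom.map_closure, Subgroup.closure_le]
      rintro _ ⟨y, ⟨hyL, k, hk⟩, rfl⟩
      apply Subgroup.subset_closure
      exact ⟨hmem y hyL, k, by simpa [orderOf_conj'] using hk⟩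
    have hin : Op p (K i) ∈ 𝓜 := by
      refine ⟨?_, Op_Op p _, g • P, ?_⟩
      · intro h
        exact hcon i (top_le_iff.mp (h ▸ Op_le p (K i)))
      · refine le_trans ?_ hle
        rw [Sylow.smul_def, Sylow.pointwise_smul_def]
        intro y hy
        rw [Subgroup.mem_pointwise_smul_iff_inv_smul_mem] at hy
        refine ⟨g⁻¹ * y * g, hPL (by simpa using hy), ?_⟩
        simp [mul_assoc]
    have hcard := hLmax ⟨_, hin⟩
    apply Subgroup.eq_of_le_of_card_ge hle
    rw [Subgroup.card_map_of_injective (MulAut.conj g).injective]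
    exact hcard
  choose ψ hψ using claim1
  set N := Subgroup.normalizer (L : Set G) with hN
  have hinj : Function.Injective (fun q : G ⧸ N => ψ q.out) := by
    intro q q' hqq
    simp only at hqq
    have h1 : L.map (MulAut.conj q.out).toMonoidHom = L.map (MulAut.conj q'.out).toMonoidHom := by
      rw [hψ, hψ, hqq]
    have h2 : q.out⁻¹ * q'.out ∈ N := by
      apply Subgroup.mem_normalizer_iff_map_conj_eq.mpr
      have h3 : L.map (MulAut.conj (q.out⁻¹ * q'.out)).toMonoidHom =
          (L.map (MulAut.conj q'.out).toMonoidHom).map (MulAut.conj q.out⁻¹).toMonoidHom := by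
        rw [Subgroup.map_map]
        congr 1
        ext y
        simp [mul_assoc]
      have h4 : (L.map (MulAut.conj q.out).toMonoidHom).map (MulAut.conj q.out⁻¹).toMonoidHom = L := by
        rw [Subgroup.map_map]
        convert Subgroup.map_id L
        ext y
        simp [mul_assoc]
      change L.map (MulAut.conj (q.out⁻¹ * q'.out)).toMonoidHom = L
      rw [h3, ← h1, h4]
    have := QuotientGroup.eq.mpr h2
    simpa using this
  have hidx : N.index ≤ p := by
    have := Fintype.ofFinite (G ⧸ N)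
    have h1 := Fintype.card_le_of_injective _ hinj
    rw [Subgroup.index, Nat.card_eq_fintype_card]
    exact h1.trans hι
  have hLN : L ≤ N := Subgroup.le_normalizer
  have hidx2 : ¬ p ∣ N.index := fun h =>
    P.not_dvd_index (h.trans (Subgroup.index_dvd_of_le (hPL.trans hLN)))
  have hidx3 : N.index < p := lt_of_le_of_ne hidx (fun h => hidx2 (h ▸ dvd_rfl))
  have hNtop : N = ⊤ := by
    rw [← top_le_iff, ← hgen, Subgroup.closure_le]
    rintro x ⟨k, hk⟩
    have hpg : IsPGroup p (Subgroup.zpowers x) := by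
      rw [IsPGroup.iff_card]
      exact ⟨k, by rw [Nat.card_zpowers, hk]⟩
    obtain ⟨j, hj⟩ := hpg.card_orbit ((1 : G) : G ⧸ N)
    have hle : Nat.card (MulAction.orbit (Subgroup.zpowers x) ((1 : G) : G ⧸ N)) ≤ N.index := by
      rw [Subgroup.index]
      exact Nat.card_le_card_of_injective _ Subtype.val_injective
    have hj0 : j = 0 := by
      by_contra hj0
      have : p ≤ p ^ j := Nat.le_self_pow hj0 p
      omega
    rw [hj0, pow_zero] at hj
    have hfix : ((1 : G) : G ⧸ N) ∈ MulAction.fixedPoints (Subgroup.zpowers x) (G ⧸ N) := by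
      have := Fintype.ofFinite (MulAction.orbit (Subgroup.zpowers x) ((1 : G) : G ⧸ N))
      rw [MulAction.mem_fixedPoints_iff_card_orbit_eq_one, ← Nat.card_eq_fintype_card]
      exact hj
    have h1 := hfix ⟨x, Subgroup.mem_zpowers x⟩
    have h2 : ((x * 1 : G) : G ⧸ N) = ((1 : G) : G ⧸ N) := h1
    rw [QuotientGroup.eq] at h2
    have h3 : x⁻¹ ∈ N := by simpa using h2
    simpa using N.inv_mem h3
  have hLnormal : L.Normal := Subgroup.normalizer_eq_top_iff.mp hNtop
  apply hLtop
  rw [← top_le_iff, ← hgen, Subgroup.closure_le]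
  rintro x ⟨k, hk⟩
  have hpg : IsPGroup p (Subgroup.zpowers x) := by
    rw [IsPGroup.iff_card]
    exact ⟨k, by rw [Nat.card_zpowers, hk]⟩
  obtain ⟨Q, hQ⟩ := hpg.exists_le_sylow
  obtain ⟨g, hg⟩ := MulAction.exists_smul_eq G P Q
  have hxQ : x ∈ (Q : Subgroup G) := hQ (Subgroup.mem_zpowers x)
  rw [← hg, Sylow.smul_def, Sylow.pointwise_smul_def, Subgroup.mem_pointwise_smul_iff_inv_smul_mem] at hxQ
  have h1 : g⁻¹ * x * g ∈ L := hPL (by simpa using hxQ)
  have h2 := hLnormal.conj_mem _ h1 g
  simpa [mul_assoc] using h2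

/-- Let p be a prime and G a finite group generated by its p-elements. If a finite family of proper subgroups of G covers the set of p-elements of G (every element of p-power order lies in one of them), then the family has at least p + 1 members. -/
theorem result {G : Type*} [Group G] [Finite G] (p : ℕ) [Fact p.Prime] (hgen : Subgroup.closure {g : G | ∃ k : ℕ, orderOf g = p ^ k} = ⊤)
    {ι : Type*} [Fintype ι] (K : ι → Subgroup G) (hK : ∀ i, K i ≠ ⊤)
    (hcov : ∀ g : G, (∃ k : ℕ, orderOf g = p ^ k) → ∃ i, g ∈ K i) :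
    p + 1 ≤ Fintype.card ι := by
  by_contra hlt
  push Not at hlt
  obtain ⟨i, hi⟩ := main p (by omega) (Nat.card G) G rfl hgen K hcov
  exact hK i hi

end Cfsg.Agent.S4182
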