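import Cfsg.Statements.S4184
import Mathlib

set_option autoImplicit false
open Cfsg

namespace Cfsg.Agent.S4184

/-- class size -/
noncomputable abbrev cs {G : Type*} [Group G] (g : G) : ℕ := (Subgroup.centralizer ({g} : Set G)).index

/-- `n` has full `S`-part in `m` -/
def Full (m : ℕ) (S : Set ℕ) (n : ℕ) : Prop := ∀ s ∈ S, s.Prime → n.factorization s = m.factorization s

lemma cs_ne_zero {G : Type*} [Group G] [Finite G] (g : G) : cs g ≠ 0 := Subgroup.index_ne_zero_of_finite

lemma card_cent_mul {G : Type*} [Group G] (g : G) :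
    Nat.card (Subgroup.centralizer ({g} : Set G)) * cs g = Nat.card G := Subgroup.card_mul_index _

lemma cs_conj {G : Type*} [Group G] (g x : G) : cs (g * x * g⁻¹) = cs x := by
  have : Subgroup.centralizer ({x} : Set G) =
      (Subgroup.centralizer ({g * x * g⁻¹} : Set G)).comap (MulAut.conj g).toMonoidHom := by
    ext h
    simp only [Subgroup.mem_centralizer_iff, Set.mem_singleton_iff, forall_eq, Subgroup.mem_comap,
      MulEquiv.coe_toMonoidHom, MulAut.conj_apply]
    constructor
    · intro hh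
      calc g * x * g⁻¹ * (g * h * g⁻¹) = g * (x * h) * g⁻¹ := by group
        _ = g * (h * x) * g⁻¹ := by rw [hh]
        _ = _ := by group
    · intro hh
      have : g * (x * h) * g⁻¹ = g * (h * x) * g⁻¹ := by
        calc g * (x * h) * g⁻¹ = g * x * g⁻¹ * (g * h * g⁻¹) := by group
          _ = g * h * g⁻¹ * (g * x * g⁻¹) := hh
          _ = _ := by group
      simpa using this
  unfold cs
  rw [this, Subgroup.index_comap_of_surjective _ (MulAut.conj g).surjective]

lemma Full.mono {m : ℕ} {S : Set ℕ} {n n' : ℕ} (hm : m ≠ 0) (h : Full m S n) (h1 : n ∣ n') (h2 : n' ∣ m) :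
    Full m S n' := by
  intro s hs hp
  have hn' : n' ≠ 0 := fun h0 => hm (by simpa [h0] using h2)
  have a1 := (Nat.factorization_le_iff_dvd (fun h0 => hn' (by simpa [h0] using h1)) hn').2 h1 s
  have a2 := (Nat.factorization_le_iff_dvd hn' hm).2 h2 s
  have := h s hs hp
  omega

/-- commuting elements of coprime order: both centralizers contain that of the product -/
lemma cs_dvd_mul {G : Type*} [Group G] (u y : G) (hc : Commute u y)
    (hco : (orderOf u).Coprime (orderOf y)) : cs u ∣ cs (u * y) ∧ cs y ∣ cs (u * y) := by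
  have key : ∀ (a b : G), Commute a b → (orderOf a).Coprime (orderOf b) → a ∈ Subgroup.zpowers (a * b) := by
    intro a b hab hcop
    obtain ⟨k, hk1, hk2⟩ := Nat.chineseRemainder hcop 1 0
    refine ⟨(k : ℤ), ?_⟩
    simp only [zpow_natCast]
    rw [hab.mul_pow]
    have e1 : a ^ k = a := by
      have := (pow_eq_pow_iff_modEq (x := a) (n := k) (m := 1)).2 hk1
      simpa using this
    have e2 : b ^ k = 1 := by
      have := (pow_eq_pow_iff_modEq (x := b) (n := k) (m := 0)).2 hk2
      simpa using this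
    rw [e1, e2, mul_one]
  have le : ∀ (a w : G), a ∈ Subgroup.zpowers w →
      Subgroup.centralizer ({w} : Set G) ≤ Subgroup.centralizer ({a} : Set G) := by
    intro a w ⟨k, hk⟩ h hh
    simp only [Subgroup.mem_centralizer_iff, Set.mem_singleton_iff, forall_eq] at hh ⊢
    subst hk
    exact ((Commute.zpow_left (show Commute w h from hh) k)).eq
  constructor
  · exact Subgroup.index_dvd_of_le (le _ _ (key u y hc hco))
  · have := key y u hc.symm hco.symm
    rw [hc.symm.eq] at this
    exact Subgroup.index_dvd_of_le (le _ _ this)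


lemma type_prop {G : Type*} [Group G] [Finite G] {m : ℕ} (hm : m ≠ 0) {S T : Set ℕ}
    (H1 : ∀ g : G, g ≠ 1 → cs g ∣ m)
    (H2 : ∀ g : G, g ≠ 1 → Full m S (cs g) ∨ Full m T (cs g))
    (H3 : ∀ g : G, g ≠ 1 → ¬ (Full m S (cs g) ∧ Full m T (cs g)))
    (u y : G) (hu : u ≠ 1) (hc : Commute u y) (hco : (orderOf u).Coprime (orderOf y))
    (hyS : Full m S (cs y)) : Full m S (cs u) := by
  have hw : u * y ≠ 1 := by
    intro h
    have h1 := hc.orderOf_mul_eq_mul_orderOf_of_coprime hco
    rw [h, orderOf_one] at h1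
    have : orderOf u = 1 := Nat.eq_one_of_mul_eq_one_right h1.symm
    exact hu (orderOf_eq_one_iff.1 this)
  obtain ⟨d1, d2⟩ := cs_dvd_mul u y hc hco
  have hwS : Full m S (cs (u * y)) := hyS.mono hm d2 (H1 _ hw)
  rcases H2 u hu with h | h
  · exact h
  · exact absurd ⟨hwS, h.mono hm d1 (H1 _ hw)⟩ (H3 _ hw)

lemma exists_central {G : Type*} [Group G] [Finite G] (p : ℕ) [Fact p.Prime] (P : Sylow p G)
    (hP : (P : Subgroup G) ≠ ⊥) :
    ∃ z ∈ (P : Subgroup G), z ≠ 1 ∧ (∀ x ∈ (P : Subgroup G), Commute z x) ∧ ¬ p ∣ cs z := by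
  have : Nontrivial (P : Subgroup G) := (Subgroup.nontrivial_iff_ne_bot _).2 hP
  have : Nontrivial (Subgroup.center (P : Subgroup G)) := P.isPGroup'.center_nontrivial
  obtain ⟨z, hz⟩ := exists_ne (1 : Subgroup.center (P : Subgroup G))
  have hzc : ∀ x ∈ (P : Subgroup G), Commute ((z : (P : Subgroup G)) : G) x := by
    intro x hx
    have := Subgroup.mem_center_iff.1 z.2 ⟨x, hx⟩
    have h2 := congrArg (Subtype.val) this
    have h3 : ((z : (P : Subgroup G)) : G) * x = x * ((z : (P : Subgroup G)) : G) := by simpa using h2.symm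
    exact h3
  refine ⟨((z : (P : Subgroup G)) : G), (z : (P : Subgroup G)).2, ?_, hzc, ?_⟩
  · intro h
    apply hz
    ext
    simpa using h
  · intro hd
    have hle : (P : Subgroup G) ≤ Subgroup.centralizer ({((z : (P : Subgroup G)) : G)} : Set G) := by
      intro x hx
      simp only [Subgroup.mem_centralizer_iff, Set.mem_singleton_iff, forall_eq]
      exact (hzc x hx).eq
    exact P.not_dvd_index (hd.trans (Subgroup.index_dvd_of_le hle))


lemma key {G : Type*} [Group G] [Finite G] {m : ℕ} (hm : m ≠ 0) {S T : Set ℕ}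
    (H1 : ∀ g : G, g ≠ 1 → cs g ∣ m)
    (H2 : ∀ g : G, g ≠ 1 → Full m S (cs g) ∨ Full m T (cs g))
    (H3 : ∀ g : G, g ≠ 1 → ¬ (Full m S (cs g) ∧ Full m T (cs g)))
    (p : ℕ) [Fact p.Prime] (hp : m.factorization p < (Nat.card G).factorization p)
    (hpS : ∀ n, n ∣ m → Full m S n → n.factorization p = m.factorization p)
    (y : G) (hy : y ≠ 1) (hyp : (orderOf y).Coprime p) (hyS : Full m S (cs y)) :
    ∃ U : Subgroup G, Nat.card U = p ^ ((Nat.card G).factorization p - m.factorization p) ∧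
      (∀ u ∈ U, u ≠ 1 → Full m S (cs u)) ∧ ∃ z ∈ U, z ≠ 1 ∧ ¬ p ∣ cs z := by
  have hpp : p.Prime := Fact.out
  -- valuation of centralizers of type S elements
  have hval : ∀ g : G, g ≠ 1 → Full m S (cs g) →
      (Nat.card (Subgroup.centralizer ({g} : Set G))).factorization p
        = (Nat.card G).factorization p - m.factorization p := by
    intro g hg hgS
    have h1 := card_cent_mul g
    have h2 : (Nat.card (Subgroup.centralizer ({g} : Set G)) * cs g).factorization p
        = (Nat.card (Subgroup.centralizer ({g} : Set G))).factorization p + (cs g).factorization p := by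
      rw [Nat.factorization_mul Nat.card_pos.ne' (cs_ne_zero g)]; rfl
    rw [h1, hpS _ (H1 g hg) hgS] at h2
    omega
  set C := Subgroup.centralizer ({y} : Set G) with hC
  let U0 : Sylow p C := default
  set U : Subgroup G := (U0 : Subgroup C).map C.subtype with hU
  have hUcard : Nat.card U = p ^ ((Nat.card G).factorization p - m.factorization p) := by
    rw [hU, Subgroup.card_map_of_injective C.subtype_injective, U0.card_eq_multiplicity, hval y hy hyS]
  have hUp : IsPGroup p U := IsPGroup.of_card hUcard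
  have hUC : U ≤ C := by
    rw [hU]; exact Subgroup.map_subtype_le _
  have hUS : ∀ u ∈ U, u ≠ 1 → Full m S (cs u) := by
    intro u hu hu1
    have hcomm : Commute u y := by
      have := hUC hu
      simp only [hC, Subgroup.mem_centralizer_iff, Set.mem_singleton_iff, forall_eq] at this
      exact this.symm
    obtain ⟨k, hk⟩ := (IsPGroup.iff_orderOf.1 hUp) ⟨u, hu⟩
    have hk' : orderOf u = p ^ k := by simpa using hk
    refine type_prop hm H1 H2 H3 u y hu1 hcomm ?_ hyS
    rw [hk']
    exact (Nat.Coprime.pow_left k hyp.symm)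
  have hUne : U ≠ ⊥ := by
    intro h
    rw [h, Subgroup.card_bot] at hUcard
    have : 1 < p ^ ((Nat.card G).factorization p - m.factorization p) :=
      Nat.one_lt_pow (by omega) hpp.one_lt
    omega
  -- central element of U
  have : Nontrivial U := (Subgroup.nontrivial_iff_ne_bot _).2 hUne
  have : Nontrivial (Subgroup.center U) := hUp.center_nontrivial
  obtain ⟨u0, hu0⟩ := exists_ne (1 : Subgroup.center U)
  have hu0c : ∀ x ∈ U, ((u0 : U) : G) * x = x * ((u0 : U) : G) := by
    intro x hx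
    have := Subgroup.mem_center_iff.1 u0.2 ⟨x, hx⟩
    have h2 := congrArg (Subtype.val) this
    simpa using h2.symm
  have hu01 : ((u0 : U) : G) ≠ 1 := by
    intro h
    apply hu0
    ext
    simpa using h
  obtain ⟨P, hUP⟩ := hUp.exists_le_sylow
  have hPne : (P : Subgroup G) ≠ ⊥ := fun h => hUne (le_bot_iff.1 (h ▸ hUP))
  obtain ⟨z, hzP, hz1, hzc, hzp⟩ := exists_central p P hPne
  refine ⟨U, hUcard, hUS, z, ?_, hz1, hzp⟩
  -- z ∈ U
  set W : Subgroup G := U ⊔ Subgroup.zpowers z with hW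
  have hWP : W ≤ P := sup_le hUP (by simpa using hzP)
  have hWp : IsPGroup p W := P.isPGroup'.to_le hWP
  have hWC : W ≤ Subgroup.centralizer ({((u0 : U) : G)} : Set G) := by
    refine sup_le ?_ ?_
    · intro x hx
      simp only [Subgroup.mem_centralizer_iff, Set.mem_singleton_iff, forall_eq]
      exact hu0c x hx
    · rw [Subgroup.zpowers_le]
      simp only [Subgroup.mem_centralizer_iff, Set.mem_singleton_iff, forall_eq]
      exact (hzc _ (hUP (u0 : U).2)).eq.symm
  obtain ⟨j, hj⟩ := IsPGroup.iff_card.1 hWp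
  have hdvd : p ^ j ∣ Nat.card (Subgroup.centralizer ({((u0 : U) : G)} : Set G)) := by
    rw [← hj]; exact Subgroup.card_dvd_of_le hWC
  have hjle : j ≤ (Nat.card G).factorization p - m.factorization p := by
    rw [← hval _ hu01 (hUS _ (u0 : U).2 hu01)]
    exact (hpp.pow_dvd_iff_le_factorization Nat.card_pos.ne').1 hdvd
  have hWU : Nat.card W ≤ Nat.card U := by
    rw [hj, hUcard]; exact Nat.pow_le_pow_right hpp.pos hjle
  have hEq : U = W := Subgroup.eq_of_le_of_card_ge le_sup_left hWU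
  rw [hEq]
  exact (le_sup_right : Subgroup.zpowers z ≤ W) (Subgroup.mem_zpowers z)


lemma exists_central_elt {G : Type*} [Group G] [Finite G] (b : ℕ) [Fact b.Prime] (hb : b ∣ Nat.card G) :
    ∃ y : G, y ≠ 1 ∧ (∃ k, orderOf y = b ^ k) ∧ ¬ b ∣ cs y := by
  let Q : Sylow b G := default
  have hQ : (Q : Subgroup G) ≠ ⊥ := Q.ne_bot_of_dvd_card hb
  obtain ⟨y, hyQ, hy1, -, hyb⟩ := exists_central b Q hQ
  refine ⟨y, hy1, ?_, hyb⟩
  obtain ⟨k, hk⟩ := (IsPGroup.iff_orderOf.1 Q.isPGroup') ⟨y, hyQ⟩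
  exact ⟨k, by simpa using hk⟩

lemma le_val {G : Type*} [Group G] [Finite G] {m : ℕ} (hm : m ≠ 0) {S T : Set ℕ}
    (H1 : ∀ g : G, g ≠ 1 → cs g ∣ m)
    (H2 : ∀ g : G, g ≠ 1 → Full m S (cs g) ∨ Full m T (cs g))
    (H3 : ∀ g : G, g ≠ 1 → ¬ (Full m S (cs g) ∧ Full m T (cs g)))
    (hS : ∃ a ∈ S, a.Prime ∧ a ∣ m) (hT : ∃ b ∈ T, b.Prime ∧ b ∣ m) (hmG : m ∣ Nat.card G)
    (hdisj : ∀ s, s ∈ S → s ∈ T → False)
    (p : ℕ) (hpp : p.Prime) (hpS : p ∈ S) : (Nat.card G).factorization p ≤ m.factorization p := by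
  by_contra hlt
  rw [not_le] at hlt
  have : Fact p.Prime := ⟨hpp⟩
  obtain ⟨b, hbT, hbp, hbm⟩ := hT
  have : Fact b.Prime := ⟨hbp⟩
  obtain ⟨y, hy1, ⟨k, hyk⟩, hyb⟩ := exists_central_elt (G := G) b (hbm.trans hmG)
  have hbne : b ≠ p := fun h => hdisj p hpS (h ▸ hbT)
  have hyS : Full m S (cs y) := by
    rcases H2 y hy1 with h | h
    · exact h
    · exfalso
      have h1 := h b hbT hbp
      rw [Nat.factorization_eq_zero_of_not_dvd hyb] at h1
      have : 0 < m.factorization b := hbp.factorization_pos_of_dvd hm hbm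
      omega
  have hyp : (orderOf y).Coprime p := by
    rw [hyk]; exact Nat.Coprime.pow_left k ((Nat.coprime_primes hbp hpp).2 hbne)
  obtain ⟨U, hUcard, hUS, z, hzU, hz1, hzp⟩ := key hm H1 H2 H3 p hlt
    (fun n _ h => h p hpS hpp) y hy1 hyp hyS
  have hmp : m.factorization p = 0 := by
    rw [← hUS z hzU hz1 p hpS hpp]; exact Nat.factorization_eq_zero_of_not_dvd hzp
  -- now p does not divide m
  obtain ⟨a, haS, hap, ham⟩ := hS
  have : Fact a.Prime := ⟨hap⟩
  have hane : a ≠ p := by
    intro h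
    have : 0 < m.factorization a := hap.factorization_pos_of_dvd hm ham
    rw [h] at this; omega
  obtain ⟨y', hy1', ⟨k', hyk'⟩, hya'⟩ := exists_central_elt (G := G) a (ham.trans hmG)
  have hyT : Full m T (cs y') := by
    rcases H2 y' hy1' with h | h
    · exfalso
      have h1 := h a haS hap
      rw [Nat.factorization_eq_zero_of_not_dvd hya'] at h1
      have : 0 < m.factorization a := hap.factorization_pos_of_dvd hm ham
      omega
    · exact h
  have hyp' : (orderOf y').Coprime p := by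
    rw [hyk']; exact Nat.Coprime.pow_left k' ((Nat.coprime_primes hap hpp).2 hane)
  obtain ⟨U', hUcard', hUS', -⟩ := key hm H1 (fun g hg => (H2 g hg).symm)
    (fun g hg h => H3 g hg h.symm) p hlt
    (fun n hn _ => by
      have hn0 : n ≠ 0 := fun h0 => hm (by simpa [h0] using hn)
      have := (Nat.factorization_le_iff_dvd hn0 hm).2 hn p
      omega) y' hy1' hyp' hyT
  rw [hmp, Nat.sub_zero] at hUcard hUcard'
  let P1 : Sylow p G := Sylow.ofCard U hUcard
  let P2 : Sylow p G := Sylow.ofCard U' hUcard'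
  obtain ⟨g, hg⟩ := MulAction.exists_smul_eq G P1 P2
  have hmem : g * z * g⁻¹ ∈ U' := by
    have h1 : g * z * g⁻¹ ∈ ((g • P1 : Sylow p G) : Subgroup G) := by
      rw [Sylow.coe_subgroup_smul]
      exact ⟨z, hzU, rfl⟩
    rw [hg] at h1
    exact h1
  have hne : g * z * g⁻¹ ≠ 1 := by
    intro h
    apply hz1
    have : z = g⁻¹ * (g * z * g⁻¹) * g := by group
    rw [this, h]; group
  have h2 := hUS' _ hmem hne
  rw [cs_conj] at h2
  exact H3 z hz1 ⟨hUS z hzU hz1, h2⟩

lemma M_type {M : Type*} [Group M] [Finite M] {S T : Set ℕ}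
    (hno : ∀ a ∈ S, ∀ b ∈ T, a.Prime → b.Prime → ¬ ∃ x : M, orderOf x = a * b)
    (hdisj : ∀ s, s ∈ S → s ∈ T → False)
    (x : M) (s : ℕ) (hs : s.Prime) (hsx : s ∣ orderOf x) (hsS : s ∈ S) :
    Full (Nat.card M) T (cs x) := by
  intro b hbT hbp
  have h1 := card_cent_mul x
  have h2 : (Nat.card (Subgroup.centralizer ({x} : Set M)) * cs x).factorization b
      = (Nat.card (Subgroup.centralizer ({x} : Set M))).factorization b + (cs x).factorization b := by
    rw [Nat.factorization_mul Nat.card_pos.ne' (cs_ne_zero x)]; rfl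
  rw [h1] at h2
  have h3 : (Nat.card (Subgroup.centralizer ({x} : Set M))).factorization b = 0 := by
    apply Nat.factorization_eq_zero_of_not_dvd
    intro hd
    have : Fact b.Prime := ⟨hbp⟩
    obtain ⟨w, hw⟩ := exists_prime_orderOf_dvd_card' b hd
    have hw' : orderOf (w : M) = b := by simpa using hw
    have hx' : orderOf (x ^ (orderOf x / s)) = s := orderOf_pow_orderOf_div (orderOf_pos x).ne' hsx
    have hcomm : Commute (x ^ (orderOf x / s)) (w : M) := by
      have := w.2
      simp only [Subgroup.mem_centralizer_iff, Set.mem_singleton_iff, forall_eq] at this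
      exact Commute.pow_left this _
    have hne : s ≠ b := fun h => hdisj s hsS (h ▸ hbT)
    have := hcomm.orderOf_mul_eq_mul_orderOf_of_coprime
      (by rw [hx', hw']; exact (Nat.coprime_primes hs hbp).2 hne)
    rw [hx', hw'] at this
    exact hno s hsS b hbT hs hbp ⟨_, this⟩
  omega


/-- Let G and M be finite groups with trivial centres and the same set of conjugacy class sizes, and suppose the prime graph of M is disconnected: the prime divisors of #M split into two non-empty parts such that M has no element of order pq with p in one part and q in the other. Then #G = #M. -/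
theorem result {G M : Type*}
    [Group G] [Finite G] [Group M] [Finite M] (hZG : Subgroup.center G = ⊥) (hZM : Subgroup.center M = ⊥)
    (h : Set.range (fun g : G => (Subgroup.centralizer ({g} : Set G)).index) = Set.range (fun g : M => (Subgroup.centralizer ({g} : Set M)).index))
    (hdisc : ∃ A : Set ℕ, (∃ a ∈ A, a.Prime ∧ a ∣ Nat.card M) ∧ (∃ b ∉ A, b.Prime ∧ b ∣ Nat.card M) ∧
      ∀ a ∈ A, ∀ b ∉ A, a.Prime → b.Prime → a ∣ Nat.card M → b ∣ Nat.card M → ¬ ∃ x : M, orderOf x = a * b) :
    Nat.card G = Nat.card M := by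
  classical
  obtain ⟨A, ⟨a, haA, hap, haM⟩, ⟨b, hbA, hbp, hbM⟩, hd⟩ := hdisc
  set m := Nat.card M with hmdef
  have hm : m ≠ 0 := Nat.card_pos.ne'
  have hno : ∀ a ∈ A, ∀ b ∈ Aᶜ, a.Prime → b.Prime → ¬ ∃ x : M, orderOf x = a * b := by
    rintro a ha b hb pa pb ⟨x, hx⟩
    have h1 : a * b ∣ Nat.card M := hx ▸ orderOf_dvd_natCard x
    exact hd a ha b hb pa pb ((Dvd.intro _ rfl).trans h1) ((Dvd.intro_left _ rfl).trans h1) ⟨x, hx⟩
  have hno' : ∀ a ∈ Aᶜ, ∀ b ∈ A, a.Prime → b.Prime → ¬ ∃ x : M, orderOf x = a * b := by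
    rintro a ha b hb pa pb ⟨x, hx⟩
    exact hno b hb a ha pb pa ⟨x, by rw [hx, mul_comm]⟩
  have hdj : ∀ s, s ∈ A → s ∈ Aᶜ → False := fun s h1 h2 => h2 h1
  have hdj' : ∀ s, s ∈ Aᶜ → s ∈ A → False := fun s h1 h2 => h1 h2
  -- facts in M
  have M1 : ∀ x : M, cs x ∣ m := fun x => Subgroup.index_dvd_card _
  have M2 : ∀ x : M, x ≠ 1 → Full m A (cs x) ∨ Full m Aᶜ (cs x) := by
    intro x hx
    have h1 : orderOf x ≠ 1 := fun h => hx (orderOf_eq_one_iff.1 h)
    obtain ⟨s, hs, hsx⟩ := Nat.exists_prime_and_dvd h1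
    by_cases hsA : s ∈ A
    · exact Or.inr (M_type hno hdj x s hs hsx hsA)
    · exact Or.inl (M_type hno' hdj' x s hs hsx hsA)
  have M3 : ∀ x : M, x ≠ 1 → ¬ (Full m A (cs x) ∧ Full m Aᶜ (cs x)) := by
    rintro x hx ⟨h1, h2⟩
    have heq : cs x = m := by
      apply Nat.eq_of_factorization_eq (cs_ne_zero x) hm
      intro p
      by_cases hp : p.Prime
      · by_cases hpA : p ∈ A
        · exact h1 p hpA hp
        · exact h2 p hpA hp
      · rw [Nat.factorization_eq_zero_of_not_prime _ hp, Nat.factorization_eq_zero_of_not_prime _ hp]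
    have h3 := card_cent_mul x
    rw [heq] at h3
    have h4 : Nat.card (Subgroup.centralizer ({x} : Set M)) = 1 := by
      have : Nat.card (Subgroup.centralizer ({x} : Set M)) * m = 1 * m := by rw [h3, one_mul]
      exact Nat.eq_of_mul_eq_mul_right (Nat.pos_of_ne_zero hm) this
    have h5 : Subgroup.centralizer ({x} : Set M) = ⊥ := Subgroup.card_eq_one.1 h4
    have h6 : x ∈ Subgroup.centralizer ({x} : Set M) := by
      simp [Subgroup.mem_centralizer_iff]
    rw [h5, Subgroup.mem_bot] at h6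
    exact hx h6
  -- transfer
  have tr : ∀ g : G, g ≠ 1 → ∃ x : M, x ≠ 1 ∧ cs x = cs g := by
    intro g hg
    have : cs g ∈ Set.range (fun g : M => (Subgroup.centralizer ({g} : Set M)).index) := by
      rw [← h]; exact ⟨g, rfl⟩
    obtain ⟨x, hx⟩ := this
    refine ⟨x, ?_, hx⟩
    rintro rfl
    have h1 : cs g = 1 := by
      rw [← hx]
      have : Subgroup.centralizer ({1} : Set M) = ⊤ := by
        ext y; simp [Subgroup.mem_centralizer_iff]
      simp [this]
    have h2 : Subgroup.centralizer ({g} : Set G) = ⊤ := Subgroup.index_eq_one.1 h1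
    have h3 : g ∈ Subgroup.center G := by
      rw [Subgroup.mem_center_iff]
      intro y
      have : y ∈ Subgroup.centralizer ({g} : Set G) := h2 ▸ Subgroup.mem_top y
      simp only [Subgroup.mem_centralizer_iff, Set.mem_singleton_iff, forall_eq] at this
      exact this.symm
    rw [hZG, Subgroup.mem_bot] at h3
    exact hg h3
  have H1 : ∀ g : G, g ≠ 1 → cs g ∣ m := by
    intro g hg; obtain ⟨x, -, hx⟩ := tr g hg; rw [← hx]; exact M1 x
  have H2 : ∀ g : G, g ≠ 1 → Full m A (cs g) ∨ Full m Aᶜ (cs g) := by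
    intro g hg; obtain ⟨x, hx1, hx⟩ := tr g hg; rw [← hx]; exact M2 x hx1
  have H3 : ∀ g : G, g ≠ 1 → ¬ (Full m A (cs g) ∧ Full m Aᶜ (cs g)) := by
    intro g hg; obtain ⟨x, hx1, hx⟩ := tr g hg; rw [← hx]; exact M3 x hx1
  -- existence of both types in G
  have tr' : ∀ x : M, ∃ g : G, cs g = cs x := by
    intro x
    have : cs x ∈ Set.range (fun g : G => (Subgroup.centralizer ({g} : Set G)).index) := by
      rw [h]; exact ⟨x, rfl⟩
    exact this
  have exA : ∃ g : G, Full m A (cs g) := by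
    have : Fact b.Prime := ⟨hbp⟩
    obtain ⟨y, hy⟩ := exists_prime_orderOf_dvd_card' (G := M) b hbM
    obtain ⟨g, hg⟩ := tr' y
    exact ⟨g, hg ▸ M_type hno' hdj' y b hbp (hy ▸ dvd_rfl) hbA⟩
  have exA' : ∃ g : G, Full m Aᶜ (cs g) := by
    have : Fact a.Prime := ⟨hap⟩
    obtain ⟨y, hy⟩ := exists_prime_orderOf_dvd_card' (G := M) a haM
    obtain ⟨g, hg⟩ := tr' y
    exact ⟨g, hg ▸ M_type hno hdj y a hap (hy ▸ dvd_rfl) haA⟩
  have hG0 : Nat.card G ≠ 0 := Nat.card_pos.ne'
  have ge : ∀ p, p.Prime → m.factorization p ≤ (Nat.card G).factorization p := by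
    intro p hp
    by_cases hpA : p ∈ A
    · obtain ⟨g, hg⟩ := exA
      rw [← hg p hpA hp]
      exact (Nat.factorization_le_iff_dvd (cs_ne_zero g) hG0).2 (Subgroup.index_dvd_card _) p
    · obtain ⟨g, hg⟩ := exA'
      rw [← hg p hpA hp]
      exact (Nat.factorization_le_iff_dvd (cs_ne_zero g) hG0).2 (Subgroup.index_dvd_card _) p
  have hmG : m ∣ Nat.card G := by
    rw [← Nat.factorization_le_iff_dvd hm hG0]
    intro p
    by_cases hp : p.Prime
    · exact ge p hp
    · rw [Nat.factorization_eq_zero_of_not_prime _ hp]; exact Nat.zero_le _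
  apply Nat.eq_of_factorization_eq hG0 hm
  intro p
  by_cases hp : p.Prime
  · apply le_antisymm _ (ge p hp)
    by_cases hpA : p ∈ A
    · exact le_val hm H1 H2 H3 ⟨a, haA, hap, haM⟩ ⟨b, hbA, hbp, hbM⟩ hmG hdj p hp hpA
    · exact le_val hm H1 (fun g hg => (H2 g hg).symm) (fun g hg h => H3 g hg h.symm)
        ⟨b, hbA, hbp, hbM⟩ ⟨a, haA, hap, haM⟩ hmG hdj' p hp hpA
  · rw [Nat.factorization_eq_zero_of_not_prime _ hp, Nat.factorization_eq_zero_of_not_prime _ hp]

end Cfsg.Agent.S4184
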