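import Cfsg.Statements.S4186
-- import your own Cfsg.Agent.* helpers here

set_option autoImplicit false
open Cfsg

namespace Cfsg.Agent.S4186

/-- Let T and X be subgroups of a group with T a finite 2-group normalizing X but not centralizing it. Then some element of T inverts some non-identity element of X under conjugation. -/
theorem result {G : Type*} [Group G] (T X : Subgroup G) [Finite ↥T] (hT : IsPGroup 2 ↥T) (hTN : T ≤ Subgroup.normalizer (X : Set G)) (hTC : ¬ T ≤ Subgroup.centralizer (X : Set G)) : ∃ t ∈ T, ∃ x ∈ X, x ≠ 1 ∧ t * x * t⁻¹ = x⁻¹ := by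
  classical
  obtain ⟨t, htT, htC⟩ := SetLike.not_le_iff_exists.mp hTC
  obtain ⟨k, hk⟩ := hT ⟨t, htT⟩
  have hk' : t ^ (2 ^ k) = 1 := by
    have := congrArg Subtype.val hk
    simpa using this
  have hex : ∃ j : ℕ, t ^ (2 ^ j) ∈ Subgroup.centralizer (X : Set G) := ⟨k, by rw [hk']; exact Subgroup.one_mem _⟩
  set j := Nat.find hex with hj
  have hjspec : t ^ (2 ^ j) ∈ Subgroup.centralizer (X : Set G) := Nat.find_spec hex
  have hj0 : j ≠ 0 := by
    intro h0
    rw [h0] at hjspec
    simp at hjspec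
    exact htC hjspec
  obtain ⟨i, hi⟩ := Nat.exists_eq_succ_of_ne_zero hj0
  have hnot : t ^ (2 ^ i) ∉ Subgroup.centralizer (X : Set G) := Nat.find_min hex (by omega)
  set s := t ^ (2 ^ i) with hs
  have hsT : s ∈ T := Subgroup.pow_mem _ htT _
  have hs2 : s * s ∈ Subgroup.centralizer (X : Set G) := by
    have : s * s = t ^ (2 ^ j) := by
      rw [hi, hs, ← pow_add, Nat.succ_eq_add_one, pow_succ]; congr 1; omega
    rw [this]; exact hjspec
  rw [Subgroup.mem_centralizer_iff] at hnot
  push Not at hnot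
  obtain ⟨x, hxX, hx⟩ := hnot
  have hsN := hTN hsT
  rw [Subgroup.mem_normalizer_iff] at hsN
  refine ⟨s, hsT, x⁻¹ * (s * x * s⁻¹), Subgroup.mul_mem _ (Subgroup.inv_mem _ hxX) ((hsN x).mp hxX), ?_, ?_⟩
  · intro h
    apply hx
    have h1 : s * x * s⁻¹ = x := by
      have := congrArg (fun z => x * z) h
      simpa using this
    have := congrArg (fun z => z * s) h1
    simpa using this.symm
  · have h2 := (Subgroup.mem_centralizer_iff.mp hs2) x hxX
    have h3 : s * s * x * s⁻¹ * s⁻¹ = x := by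
      rw [← h2]; group
    calc s * (x⁻¹ * (s * x * s⁻¹)) * s⁻¹ = (s * x * s⁻¹)⁻¹ * (s * s * x * s⁻¹ * s⁻¹) := by group
      _ = (s * x * s⁻¹)⁻¹ * x := by rw [h3]
      _ = (x⁻¹ * (s * x * s⁻¹))⁻¹ := by group

end Cfsg.Agent.S4186
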