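import Cfsg.Statements.S4189
import Cfsg.Agent.Lib.Helper59.TausskyClassify
import Cfsg.Agent.Lib.Helper59.TwoGroupRecog
import Cfsg.Agent.S3116

set_option autoImplicit false
open Cfsg

namespace Cfsg.Agent.S4189

open Cfsg.Agent.Lib.Helper59

/-- Let P be a finite non-abelian 2-group whose commutator subgroup has index 4 and whose automorphism group is not a 2-group (some automorphism has order that is not a power of 2). Then P is isomorphic to the quaternion group of order 8. -/
theorem result {P : Type*} [Group P] [Finite P] (hP : IsPGroup 2 P) (hna : ¬ IsMulCommutative P) (h4 : (commutator P).index = 4) (haut : ¬ IsPGroup 2 (MulAut P)) : Nonempty (P ≃* QuaternionGroup 2) := by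
  have hna' : ∃ x y : P, x * y ≠ y * x := by
    by_contra hcon
    push Not at hcon
    exact hna ⟨⟨hcon⟩⟩
  obtain ⟨n, a, b, hn3, hn, ha, hb, hcase⟩ := taussky_classify hP h4 hna'
  obtain ⟨k, rfl⟩ : ∃ k, n = k + 3 := ⟨n - 3, by omega⟩
  have ha' : orderOf a = 2 ^ (k + 2) := ha
  have hidxa : (Subgroup.zpowers a).index = 2 := by
    have := (Subgroup.zpowers a).card_mul_index
    rw [Nat.card_zpowers, ha', hn] at this
    have e : 2 ^ (k + 3) = 2 ^ (k + 2) * 2 := by ring
    rw [e] at this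
    exact Nat.eq_of_mul_eq_mul_left (by positivity) this
  have hcover : ∀ g : P, g ∈ Subgroup.zpowers a ∨ ∃ j : ℕ, g = b * a ^ j := by
    intro g
    by_cases hg : g ∈ Subgroup.zpowers a
    · exact Or.inl hg
    right
    have h1 : b⁻¹ * g ∈ Subgroup.zpowers a := (Subgroup.mul_mem_iff_of_index_two hidxa).mpr
      ⟨fun h => absurd (by simpa using Subgroup.inv_mem _ h) hb, fun h => absurd h hg⟩
    rw [← mem_powers_iff_mem_zpowers] at h1
    obtain ⟨j, hj⟩ := h1
    simp only at hj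
    exact ⟨j, by rw [hj]; group⟩
  have hsq : ∀ j : ℕ, (b * a ^ j) ^ 2 = (b * a * b⁻¹) ^ j * b ^ 2 * a ^ j := by
    intro j
    rw [conj_pow, pow_two, pow_two]
    group
  have hfin : ∀ e : ℕ, e < k + 2 → (∀ j : ℕ, (b * a ^ j) ^ (2 ^ e) = 1) → False := by
    intro e he h
    apply haut
    apply Cfsg.Agent.S3116.aut_two_group a b (k + 2) ha' hcover hb
    intro g hg hog
    obtain ⟨j, rfl⟩ := (hcover g).resolve_left hg
    have h1 := orderOf_dvd_of_pow_eq_one (h j)
    rw [hog] at h1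
    have := (Nat.pow_dvd_pow_iff_le_right (by norm_num)).mp h1
    omega
  have hapow : a ^ (2 ^ (k + 2)) = 1 := by rw [← ha', pow_orderOf_eq_one]
  rcases hcase with ⟨hbb, hba⟩ | ⟨hbb, hba⟩ | ⟨h4', hbb, hba⟩
  · exfalso
    apply hfin 1 (by omega)
    intro j
    rw [pow_one, hsq, hba, hbb, mul_one, inv_pow, inv_mul_cancel]
  · have hbb' : b ^ 2 = a ^ (2 ^ (k + 1)) := hbb
    rcases Nat.eq_zero_or_pos k with rfl | hk
    · apply quaternion_recog 2 (by norm_num) a b (by rw [ha']; norm_num)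
        (by rw [← pow_two, hbb']; norm_num) hba hb (by rw [hn]; norm_num)
    · exfalso
      apply hfin 2 (by omega)
      intro j
      have e : (2 : ℕ) ^ 2 = 2 * 2 := by norm_num
      rw [e, pow_mul, hsq, hba, hbb', inv_pow]
      have h1 : (a ^ j)⁻¹ * a ^ 2 ^ (k + 1) * a ^ j = a ^ 2 ^ (k + 1) := by
        rw [mul_assoc, ← pow_add, add_comm, pow_add, inv_mul_cancel_left]
      rw [h1, ← pow_mul]
      have e2 : 2 ^ (k + 1) * 2 = 2 ^ (k + 2) := by ring
      rw [e2, hapow]
  · exfalso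
    have hba' : b * a * b⁻¹ = a ^ (2 ^ (k + 1) - 1) := hba
    apply hfin 2 (by omega)
    intro j
    have e : (2 : ℕ) ^ 2 = 2 * 2 := by norm_num
    rw [e, pow_mul, hsq, hba', hbb, mul_one, ← pow_mul, ← pow_add, ← pow_mul]
    have hpos : 1 ≤ 2 ^ (k + 1) := Nat.one_le_two_pow
    have e2 : ((2 ^ (k + 1) - 1) * j + j) * 2 = 2 ^ (k + 2) * j := by
      obtain ⟨m, hm⟩ : ∃ m, 2 ^ (k + 1) = m + 1 := ⟨2 ^ (k + 1) - 1, by omega⟩
      have : 2 ^ (k + 2) = 2 * (m + 1) := by rw [← hm]; ring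
      rw [this, hm]
      simp only [Nat.add_sub_cancel]
      ring
    rw [e2, pow_mul, hapow, one_pow]

end Cfsg.Agent.S4189
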