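import Cfsg.Statements.S4194
-- import your own Cfsg.Agent.* helpers here
import Cfsg.Agent.Lib.Helper38.TwoCentralE

set_option autoImplicit false
open Cfsg

namespace Cfsg.Agent.S4194

/-- A finite group G has commutative Sylow 2-subgroups if and only if every 2-element of G (element of order a power of 2) is 2-central, that is, its centralizer contains a Sylow 2-subgroup of G. -/
theorem result {G : Type*} [Group G] [Finite G] (P : Sylow 2 G) :
    IsMulCommutative (P : Subgroup G) ↔ ∀ x : G, (∃ k : ℕ, orderOf x = 2 ^ k) → (∃ Q : Sylow 2 G, (Q : Subgroup G) ≤ Subgroup.centralizer ({x} : Set G)) := by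
  constructor
  · intro hc x hx
    have : Fact (Nat.Prime 2) := ⟨Nat.prime_two⟩
    obtain ⟨Q, hQ⟩ := (Cfsg.Agent.Lib.Helper38.TwoCentral.isPGroup_zpowers hx).exists_le_sylow
    refine ⟨Q, ?_⟩
    obtain ⟨g, hg⟩ := MulAction.exists_smul_eq G P Q
    have hxQ : x ∈ (Q : Subgroup G) := hQ (Subgroup.mem_zpowers x)
    intro q hq
    rw [Subgroup.mem_centralizer_singleton_iff]
    rw [← hg, Cfsg.Agent.Lib.Helper38.TwoCentral.coe_smul_sylow, Cfsg.Agent.Lib.Helper39.mem_cj] at hxQ hq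
    have h1 : (⟨_, hq⟩ : (P : Subgroup G)) * ⟨_, hxQ⟩ = ⟨_, hxQ⟩ * ⟨_, hq⟩ := hc.is_comm.comm _ _
    have h2 : (g⁻¹ * q * g) * (g⁻¹ * x * g) = (g⁻¹ * x * g) * (g⁻¹ * q * g) := congrArg Subtype.val h1
    have h3 : g * ((g⁻¹ * q * g) * (g⁻¹ * x * g)) * g⁻¹ = g * ((g⁻¹ * x * g) * (g⁻¹ * q * g)) * g⁻¹ := by
      rw [h2]
    have e1 : g * ((g⁻¹ * q * g) * (g⁻¹ * x * g)) * g⁻¹ = q * x := by group
    have e2 : g * ((g⁻¹ * x * g) * (g⁻¹ * q * g)) * g⁻¹ = x * q := by group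
    rw [e1, e2] at h3
    exact h3
  · intro h
    refine ⟨⟨fun a b => ?_⟩⟩
    apply Subtype.ext
    exact Cfsg.Agent.Lib.Helper38.TwoCentral.commute_of_H2 h P a.2 b.2

end Cfsg.Agent.S4194
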