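import Cfsg.Statements.S4195
-- import your own Cfsg.Agent.* helpers here
import Cfsg.Agent.Lib.Helper73.ClassSize

set_option autoImplicit false
open Cfsg

namespace Cfsg.Agent.S4195

/-- Let x be a non-identity element of a finite group G whose centralizer contains a Sylow 2-subgroup of G. If x is conjugate to its inverse, then x has order 2. -/
theorem result {G : Type*} [Group G] [Finite G] (x : G) (hx : x ≠ 1) (P : Sylow 2 G) (hP : (P : Subgroup G) ≤ Subgroup.centralizer ({x} : Set G)) (hreal : IsConj x x⁻¹) : orderOf x = 2 := by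
  classical
  have hodd : ¬ 2 ∣ (Subgroup.centralizer ({x} : Set G)).index := by
    intro h
    exact P.not_dvd_index (h.trans (Subgroup.index_dvd_of_le hP))
  rw [← Cfsg.Agent.Lib.Helper73.card_isConj_eq_index_centralizer] at hodd
  haveI : Fintype {y : G // IsConj x y} := Fintype.ofFinite _
  rw [Nat.card_eq_fintype_card] at hodd
  let σ : Equiv.Perm {y : G // IsConj x y} :=
    { toFun := fun y => ⟨y.1⁻¹, hreal.trans (by
        obtain ⟨c, hc⟩ := isConj_iff.mp y.2
        exact isConj_iff.mpr ⟨c, by rw [← hc]; group⟩)⟩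
      invFun := fun y => ⟨y.1⁻¹, hreal.trans (by
        obtain ⟨c, hc⟩ := isConj_iff.mp y.2
        exact isConj_iff.mpr ⟨c, by rw [← hc]; group⟩)⟩
      left_inv := fun y => by simp
      right_inv := fun y => by simp }
  have hσ : σ ^ 2 ^ 1 = 1 := by
    ext y
    simp [σ, pow_two]
  obtain ⟨y, hy⟩ := Equiv.Perm.exists_fixed_point_of_prime (p := 2) hodd hσ
  have hy1 : y.1⁻¹ = y.1 := congrArg Subtype.val hy
  obtain ⟨c, hc⟩ := isConj_iff.mp y.2
  have hx2 : x⁻¹ = x := by
    rw [← hc] at hy1
    have : c * x⁻¹ * c⁻¹ = c * x * c⁻¹ := by rw [← hy1]; group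
    simpa using this
  have hx3 : x ^ 2 = 1 := by
    rw [pow_two]; nth_rewrite 1 [← hx2]; simp
  exact orderOf_eq_prime hx3 hx

end Cfsg.Agent.S4195
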