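import Cfsg.Statements.S4196
-- import your own Cfsg.Agent.* helpers here
import Cfsg.Agent.S4195

set_option autoImplicit false
open Cfsg

namespace Cfsg.Agent.S4196

/-- A finite group G has elementary abelian Sylow 2-subgroups (commutative with every element squaring to the identity) if and only if every 2-element of G has a Sylow 2-subgroup in its centralizer and is conjugate to its inverse. -/
theorem result {G : Type*} [Group G] [Finite G] (P : Sylow 2 G) :
    (IsMulCommutative (P : Subgroup G) ∧ ∀ x ∈ (P : Subgroup G), x ^ 2 = 1) ↔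
      ∀ x : G, (∃ k : ℕ, orderOf x = 2 ^ k) → (∃ Q : Sylow 2 G, (Q : Subgroup G) ≤ Subgroup.centralizer ({x} : Set G)) ∧ IsConj x x⁻¹ := by
  classical
  constructor
  · rintro ⟨hcomm, hexp⟩ x ⟨k, hk⟩
    have hpg : IsPGroup 2 (Subgroup.zpowers x) := by
      rw [IsPGroup.iff_card]
      exact ⟨k, by rw [Nat.card_zpowers, hk]⟩
    obtain ⟨Q, hQ⟩ := hpg.exists_le_sylow
    obtain ⟨g, hg⟩ := MulAction.exists_smul_eq G P Q
    have hmem : ∀ y, y ∈ (Q : Subgroup G) → g⁻¹ * y * g ∈ (P : Subgroup G) := by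
      intro y hy
      rw [← hg, Sylow.smul_def, Sylow.pointwise_smul_def, Subgroup.mem_pointwise_smul_iff_inv_smul_mem] at hy
      simpa using hy
    have hxQ : x ∈ (Q : Subgroup G) := hQ (Subgroup.mem_zpowers x)
    refine ⟨⟨Q, ?_⟩, ?_⟩
    · intro y hy
      rw [Subgroup.mem_centralizer_singleton_iff]
      have h1 := hcomm.is_comm.comm ⟨_, hmem y hy⟩ ⟨_, hmem x hxQ⟩
      have h2 : (g⁻¹ * y * g) * (g⁻¹ * x * g) = (g⁻¹ * x * g) * (g⁻¹ * y * g) := congrArg Subtype.val h1
      have h3 : g⁻¹ * (y * x) * g = g⁻¹ * (x * y) * g := by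
        calc g⁻¹ * (y * x) * g = (g⁻¹ * y * g) * (g⁻¹ * x * g) := by group
          _ = (g⁻¹ * x * g) * (g⁻¹ * y * g) := h2
          _ = g⁻¹ * (x * y) * g := by group
      simpa using h3
    · have h1 := hexp _ (hmem x hxQ)
      have h2 : x ^ 2 = 1 := by
        have : g⁻¹ * x ^ 2 * g = 1 := by
          rw [← h1, pow_two, pow_two]; group
        have h3 : x ^ 2 = g * 1 * g⁻¹ := by rw [← this]; group
        simpa using h3
      have h3 : x⁻¹ = x := by
        rw [inv_eq_iff_mul_eq_one, ← pow_two]; exact h2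
      rw [h3]
  · intro h
    have hexp : ∀ x ∈ (P : Subgroup G), x ^ 2 = 1 := by
      intro x hx
      by_cases hx1 : x = 1
      · simp [hx1]
      · obtain ⟨k, hk⟩ := (IsPGroup.iff_orderOf.mp P.isPGroup') ⟨x, hx⟩
        rw [Subgroup.orderOf_mk] at hk
        obtain ⟨⟨Q, hQ⟩, hreal⟩ := h x ⟨k, hk⟩
        have := Cfsg.Agent.S4195.result x hx1 Q hQ hreal
        rw [← this]; exact pow_orderOf_eq_one x
    refine ⟨⟨⟨fun a b => ?_⟩⟩, hexp⟩
    apply Subtype.ext
    have ha := hexp a.1 a.2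
    have hb := hexp b.1 b.2
    have hab := hexp (a.1 * b.1) (Subgroup.mul_mem _ a.2 b.2)
    show a.1 * b.1 = b.1 * a.1
    have ha' : a.1⁻¹ = a.1 := by rw [inv_eq_iff_mul_eq_one, ← pow_two]; exact ha
    have hb' : b.1⁻¹ = b.1 := by rw [inv_eq_iff_mul_eq_one, ← pow_two]; exact hb
    have hab' : (a.1 * b.1)⁻¹ = a.1 * b.1 := by rw [inv_eq_iff_mul_eq_one, ← pow_two]; exact hab
    rw [← hab', mul_inv_rev, ha', hb']

end Cfsg.Agent.S4196
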