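import Cfsg.Statements.S4250
-- import your own Cfsg.Agent.* helpers here
import Cfsg.Agent.Lib.Helper40.Alperin

set_option autoImplicit false
open Cfsg

namespace Cfsg.Agent.S4250

open Cfsg.Agent.Lib.Helper40
open scoped commutatorElement

theorem dec_mul_inv_mem {G : Type*} [Group G] [Finite G] {p : ℕ} [Fact p.Prime] (P : Sylow p G)
    (R : Subgroup G)
    (hR : ∀ (Q : Sylow p G) (x : G), AStep P Q x →
      ⁅(P : Subgroup G) ⊓ (Q : Subgroup G), Subgroup.zpowers x⁆ ≤ R)
    {A : Set G} {g : G} (h : Dec (adom P) (AStep P) A g) :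
    ∀ a ∈ A, a * (g⁻¹ * a * g)⁻¹ ∈ R := by
  induction h with
  | nil A =>
    intro a _
    simp
  | @cons A Q x g hs hA _ ih =>
    intro a ha
    have h1 : x⁻¹ * a * x ∈ rc x A := ⟨a, ha, rfl⟩
    have h2 := ih _ h1
    have h3 : a * (x⁻¹ * a * x)⁻¹ ∈ R := by
      apply hR Q x hs
      have : a * (x⁻¹ * a * x)⁻¹ = ⁅a, x⁻¹⁆ := by
        rw [commutatorElement_def]; group
      rw [this]
      exact Subgroup.commutator_mem_commutator (hA ha)
        (Subgroup.inv_mem _ (Subgroup.mem_zpowers x))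
    have h4 := R.mul_mem h3 h2
    have h5 : a * (x⁻¹ * a * x)⁻¹ * (x⁻¹ * a * x * (g⁻¹ * (x⁻¹ * a * x) * g)⁻¹) =
        a * ((x * g)⁻¹ * a * (x * g))⁻¹ := by group
    rwa [h5] at h4

theorem inf_commutator_le {G : Type*} [Group G] [Finite G] {p : ℕ} [Fact p.Prime] (P : Sylow p G)
    (R : Subgroup G)
    (hR : ∀ (Q : Sylow p G) (x : G), AStep P Q x →
      ⁅(P : Subgroup G) ⊓ (Q : Subgroup G), Subgroup.zpowers x⁆ ≤ R) :
    (P : Subgroup G) ⊓ commutator G ≤ R := by
  rw [inf_comm, Subgroup.commutator_inf_eq_focalSubgroup P, Subgroup.focalSubgroup_def,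
    Subgroup.closure_le]
  rintro g ⟨hgP, a, haP, u, rfl⟩
  have hconj : u * a * u⁻¹ ∈ (P : Subgroup G) := by
    have h1 : (⁅a, u⁆)⁻¹ * a ∈ (P : Subgroup G) :=
      (P : Subgroup G).mul_mem ((P : Subgroup G).inv_mem hgP) haP
    have h2 : (⁅a, u⁆)⁻¹ * a = u * a * u⁻¹ := by
      rw [commutatorElement_def]; group
    rwa [h2] at h1
  have hA1 : ({a} : Set G) ⊆ (P : Set G) := by
    rintro _ rfl
    exact haP
  have hA2 : (fun b => u⁻¹⁻¹ * b * u⁻¹) '' ({a} : Set G) ⊆ (P : Set G) := by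
    rintro _ ⟨_, rfl, rfl⟩
    rw [inv_inv]
    exact hconj
  have hdec := alperin_dec P {a} u⁻¹ hA1 hA2
  have hkey := dec_mul_inv_mem P R hR hdec a rfl
  have h3 : a * (u⁻¹⁻¹ * a * u⁻¹)⁻¹ = ⁅a, u⁆ := by
    rw [commutatorElement_def]; group
  rw [h3] at hkey
  exact hkey

/-- Let P be a Sylow p-subgroup of a finite group G. Call an intersection H = P ∩ Q with a Sylow p-subgroup Q tame when N_P(H) and N_Q(H) are Sylow p-subgroups of N_G(H). Then P ∩ G′ is generated by [P, N_G(P)] together with the commutator subgroups [P ∩ Q, ⟨x⟩] for all tame intersections P ∩ Q and all p-elements x of N_G(P ∩ Q). -/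
theorem result {G : Type*} [Group G] [Finite G] (p : ℕ) [Fact p.Prime] (P : Sylow p G) :
    (P : Subgroup G) ⊓ commutator G =
      ⁅(P : Subgroup G), Subgroup.normalizer ((P : Subgroup G) : Set G)⁆ ⊔
        ⨆ (Q : Sylow p G) (_ : (¬ p ∣ ((P : Subgroup G) ⊓ Subgroup.normalizer (((P : Subgroup G) ⊓ (Q : Subgroup G) : Subgroup G) : Set G)).relIndex (Subgroup.normalizer (((P : Subgroup G) ⊓ (Q : Subgroup G) : Subgroup G) : Set G)) ∧ ¬ p ∣ ((Q : Subgroup G) ⊓ Subgroup.normalizer (((P : Subgroup G) ⊓ (Q : Subgroup G) : Subgroup G) : Set G)).relIndex (Subgroup.normalizer (((P : Subgroup G) ⊓ (Q : Subgroup G) : Subgroup G) : Set G))))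
          (x : G) (_ : x ∈ Subgroup.normalizer (((P : Subgroup G) ⊓ (Q : Subgroup G) : Subgroup G) : Set G) ∧ ∃ k : ℕ, orderOf x = p ^ k),
          ⁅(P : Subgroup G) ⊓ (Q : Subgroup G), Subgroup.zpowers x⁆ := by
  apply le_antisymm
  · apply inf_commutator_le P
    intro Q x hs
    obtain ⟨hx, ht1, ht2, hQ | hk⟩ := hs
    · refine le_trans ?_ le_sup_left
      rw [hQ, inf_idem] at hx ⊢
      apply Subgroup.commutator_mono le_rfl
      rw [Subgroup.zpowers_le]
      exact hx
    · refine le_trans ?_ le_sup_right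
      exact le_iSup_of_le Q (le_iSup_of_le ⟨ht1, ht2⟩ (le_iSup_of_le x (le_iSup_of_le ⟨hx, hk⟩ le_rfl)))
  · have hgen : ∀ (D N : Subgroup G), D ≤ (P : Subgroup G) → N ≤ Subgroup.normalizer (D : Set G) →
        ⁅D, N⁆ ≤ (P : Subgroup G) ⊓ commutator G := by
      intro D N hD hN
      apply le_inf
      · refine le_trans ?_ hD
        rw [Subgroup.commutator_le]
        intro a ha n hn
        rw [commutatorElement_def, mul_assoc, mul_assoc]
        apply D.mul_mem ha
        rw [← mul_assoc]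
        exact (Subgroup.mem_normalizer_iff.mp (hN hn) a⁻¹).mp (D.inv_mem ha)
      · exact Subgroup.commutator_mono le_top le_top
    apply sup_le
    · exact hgen _ _ le_rfl le_rfl
    · apply iSup_le
      intro Q
      apply iSup_le
      intro _
      apply iSup_le
      intro x
      apply iSup_le
      intro hx
      apply hgen _ _ inf_le_left
      rw [Subgroup.zpowers_le]
      exact hx.1

end Cfsg.Agent.S4250
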