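import Cfsg.Statements.S4216
-- import your own Cfsg.Agent.* helpers here
import Cfsg.Agent.S4250

set_option autoImplicit false
open Cfsg

namespace Cfsg.Agent.S4216

open Cfsg.Agent.Lib.Helper40
open scoped commutatorElement Pointwise

/-- Grün's first Theorem: if `P` is a Sylow `p`-subgroup of the finite group `G`, then `P ∩ G'` is the subgroup generated by `P ∩ N_G(P)'` together with the subgroups `P ∩ z P' z⁻¹` for all `z ∈ G`, where `'` denotes the derived subgroup and `N_G(P)` the normalizer of `P`. -/
theorem result {G : Type*} [Group G] [Finite G] {p : ℕ} [Fact p.Prime] (P : Sylow p G) : (P : Subgroup G) ⊓ commutator G = ((P : Subgroup G) ⊓ ⁅Subgroup.normalizer ((P : Subgroup G) : Set G), Subgroup.normalizer ((P : Subgroup G) : Set G)⁆) ⊔ ⨆ z : G, (P : Subgroup G) ⊓ (⁅(P : Subgroup G), (P : Subgroup G)⁆).map (MulAut.conj z).toMonoidHom := by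
  have hnorm : ∀ (D N : Subgroup G), N ≤ Subgroup.normalizer (D : Set G) → ⁅D, N⁆ ≤ D := by
    intro D N hN
    rw [Subgroup.commutator_le]
    intro a ha n hn
    rw [commutatorElement_def, mul_assoc, mul_assoc]
    apply D.mul_mem ha
    rw [← mul_assoc]
    exact (Subgroup.mem_normalizer_iff.mp (hN hn) a⁻¹).mp (D.inv_mem ha)
  apply le_antisymm
  · apply Cfsg.Agent.S4250.inf_commutator_le P
    intro Q x hs
    obtain ⟨hx, -, -, hQ | ⟨k, hk⟩⟩ := hs
    · refine le_trans ?_ le_sup_left
      rw [hQ, inf_idem] at hx ⊢
      have hz : Subgroup.zpowers x ≤ Subgroup.normalizer ((P : Subgroup G) : Set G) := by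
        rw [Subgroup.zpowers_le]; exact hx
      exact le_inf (hnorm _ _ hz) (Subgroup.commutator_mono Subgroup.le_normalizer hz)
    · refine le_trans ?_ le_sup_right
      have hz : Subgroup.zpowers x ≤
          Subgroup.normalizer (((P : Subgroup G) ⊓ (Q : Subgroup G) : Subgroup G) : Set G) := by
        rw [Subgroup.zpowers_le]; exact hx
      have hpx : IsPGroup p (Subgroup.zpowers x) := by
        apply IsPGroup.of_card (n := k)
        rw [Nat.card_zpowers, hk]
      have hpD : IsPGroup p ((P : Subgroup G) ⊓ (Q : Subgroup G) : Subgroup G) :=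
        P.2.to_le inf_le_left
      have hpT := IsPGroup.to_sup_of_normal_right' hpx hpD hz
      obtain ⟨S, hS⟩ := hpT.exists_le_sylow
      obtain ⟨z, hzS⟩ := MulAction.exists_smul_eq G P S
      have hSmap : (S : Subgroup G) = (P : Subgroup G).map (MulAut.conj z).toMonoidHom := by
        rw [← hzS, Sylow.smul_def, Sylow.pointwise_smul_def]
        rfl
      refine le_iSup_of_le z (le_inf (le_trans (hnorm _ _ hz) inf_le_left) ?_)
      rw [Subgroup.map_commutator, ← hSmap]
      exact Subgroup.commutator_mono (le_trans le_sup_right hS) (le_trans le_sup_left hS)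
  · apply sup_le
    · exact inf_le_inf_left _ (Subgroup.commutator_mono le_top le_top)
    · apply iSup_le
      intro z
      apply inf_le_inf_left
      rw [Subgroup.map_commutator]
      exact Subgroup.commutator_mono le_top le_top

end Cfsg.Agent.S4216
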