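import Cfsg.Statements.S4230
-- import your own Cfsg.Agent.* helpers here

set_option autoImplicit false
open Cfsg

namespace Cfsg.Agent.S4230

/-- Let p be an odd prime, q a natural number not divisible by p, and e the multiplicative order of q modulo p. For a natural number f, p divides the value at q of the f-th cyclotomic polynomial if and only if f = e·p^j for some j ≥ 0. -/
theorem result (p q f : ℕ) (hp : p.Prime) (hp2 : p ≠ 2) (hpq : ¬ p ∣ q) :
    ((p : ℤ) ∣ (Polynomial.cyclotomic f ℤ).eval (q : ℤ)) ↔ ∃ j : ℕ, f = orderOf (q : ZMod p) * p ^ j := by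
  have : Fact p.Prime := ⟨hp⟩
  have hq0 : (q : ZMod p) ≠ 0 := by
    rw [Ne, ZMod.natCast_eq_zero_iff]
    exact hpq
  have hedvd : orderOf (q : ZMod p) ∣ p - 1 := ZMod.orderOf_dvd_card_sub_one hq0
  have hp1 : 0 < p - 1 := by have := hp.two_le; omega
  have hepos : 0 < orderOf (q : ZMod p) := Nat.pos_of_dvd_of_pos hedvd hp1
  have hpe : ¬ p ∣ orderOf (q : ZMod p) := by
    intro h
    have := Nat.le_of_dvd hp1 (dvd_trans h hedvd)
    omega
  have hiff : ((p : ℤ) ∣ (Polynomial.cyclotomic f ℤ).eval (q : ℤ)) ↔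
      (Polynomial.cyclotomic f (ZMod p)).IsRoot (q : ZMod p) := by
    rw [← ZMod.intCast_zmod_eq_zero_iff_dvd, Polynomial.IsRoot.def,
      ← Polynomial.map_cyclotomic_int f (ZMod p)]
    have h1 := Polynomial.eval_intCast_map (Int.castRingHom (ZMod p)) (Polynomial.cyclotomic f ℤ) (q : ℤ)
    have h2 : (((q : ℤ) : ZMod p)) = (q : ZMod p) := by push_cast; rfl
    rw [h2] at h1
    rw [h1]
    simp
  rw [hiff]
  constructor
  · intro hroot
    rcases Nat.eq_zero_or_pos f with hf0 | hfpos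
    · rw [hf0, Polynomial.cyclotomic_zero] at hroot
      simp [Polynomial.IsRoot.def] at hroot
    · obtain ⟨j, m, hm, hf⟩ := Nat.exists_eq_pow_mul_and_not_dvd hfpos.ne' p hp.ne_one
      have : NeZero (m : ZMod p) := ⟨by rw [Ne, ZMod.natCast_eq_zero_iff]; exact hm⟩
      rw [hf, Polynomial.isRoot_cyclotomic_prime_pow_mul_iff_of_charP] at hroot
      refine ⟨j, ?_⟩
      rw [hf, ← hroot.eq_orderOf, mul_comm]
  · rintro ⟨j, hf⟩
    have : NeZero ((orderOf (q : ZMod p) : ℕ) : ZMod p) :=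
      ⟨by rw [Ne, ZMod.natCast_eq_zero_iff]; exact hpe⟩
    rw [hf, mul_comm, Polynomial.isRoot_cyclotomic_prime_pow_mul_iff_of_charP]
    exact IsPrimitiveRoot.orderOf _

end Cfsg.Agent.S4230
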