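import Cfsg.Statements.S4236
import Cfsg.Agent.S4304

set_option autoImplicit false
open Cfsg

namespace Cfsg.Agent.S4236

open Subgroup MulAction Cfsg.Agent.Lib.Helper75 Cfsg.Agent.S4304

instance fact17 : Fact (Nat.Prime 17) := ⟨by norm_num⟩

theorem arith35 (m : ℕ) (h1 : m ∣ 35) (h2 : m ≡ 1 [MOD 17]) (h3 : m ≠ 1) : m = 35 := by
  have h4 : m ≤ 35 := Nat.le_of_dvd (by norm_num) h1
  unfold Nat.ModEq at h2
  interval_cases m <;> omega

section Fifteen
variable {S : Type*} [Group S] [Finite S]

omit [Finite S] in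
theorem fixed_unique (P Q : Sylow 17 S) (h : ∀ x ∈ (P : Subgroup S), x • Q = Q) : Q = P := by
  have h1 : Q ∈ fixedPoints (P : Subgroup S) (Sylow 17 S) := fun x => h x.1 x.2
  rw [P.2.sylow_mem_fixedPoints_iff] at h1
  exact Sylow.ext (P.3 Q.2 h1)

omit [Finite S] in
theorem smul_self_of_mem (P : Sylow 17 S) (x : S) (hx : x ∈ (P : Subgroup S)) : x • P = P :=
  Sylow.smul_eq_iff_mem_normalizer.2 (le_normalizer hx)

variable [IsSimpleGroup S] (h35 : Nat.card (Sylow 17 S) = 35)
include h35

theorem faithful (g : S) (hg : ∀ Q : Sylow 17 S, g • Q = Q) : g = 1 := by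
  rcases IsSimpleGroup.eq_bot_or_eq_top_of_normal (MulAction.toPermHom S (Sylow 17 S)).ker inferInstance
    with h | h
  · have : g ∈ (MulAction.toPermHom S (Sylow 17 S)).ker := by
      rw [MonoidHom.mem_ker]
      exact Equiv.ext fun Q => hg Q
    rw [h, mem_bot] at this
    exact this
  · exfalso
    have hsub : Subsingleton (Sylow 17 S) := by
      refine ⟨fun P Q => ?_⟩
      obtain ⟨x, hx⟩ := MulAction.exists_smul_eq S P Q
      have : x ∈ (MulAction.toPermHom S (Sylow 17 S)).ker := by rw [h]; trivial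
      rw [MonoidHom.mem_ker] at this
      have h2 : x • P = P := by
        have := congrArg (fun σ : Equiv.Perm (Sylow 17 S) => σ P) this
        exact this
      rw [← hx, h2]
    have := Finite.card_le_one_iff_subsingleton.2 hsub
    omega

omit [IsSimpleGroup S] in
theorem primitive : IsPreprimitive S (Sylow 17 S) := by
  have hnt : Nontrivial (Sylow 17 S) := by
    rw [← Finite.one_lt_card_iff_nontrivial]; omega
  obtain ⟨P⟩ : Nonempty (Sylow 17 S) := inferInstance
  rw [← isCoatom_stabilizer_iff_preprimitive S P, Sylow.stabilizer_eq_normalizer]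
  have hidx : (normalizer ((P : Subgroup S) : Set S)).index = 35 := by
    rw [← card_sylow_eq_index P, h35]
  refine ⟨?_, ?_⟩
  · intro h
    have : (normalizer ((P : Subgroup S) : Set S)).index = 1 := index_eq_one.2 h
    omega
  · intro K hK
    have hK' : normalizer ((P : Subgroup S) : Set S) < K := hK
    have h1 := card_sylow_of_le P K (le_normalizer.trans hK'.le)
    have h2 : Nat.card (Sylow 17 K) ≡ 1 [MOD 17] := card_sylow_modEq_one 17 K
    have h3 := relIndex_mul_index hK'.le
    rw [hidx, ← h1] at h3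
    have h4 : Nat.card (Sylow 17 K) ≠ 1 := by
      rw [h1]
      intro h
      exact absurd (relIndex_eq_one.1 h) (not_le_of_gt hK')
    have h5 : Nat.card (Sylow 17 K) ∣ 35 := ⟨_, h3.symm⟩
    have h7 : Nat.card (Sylow 17 K) = 35 := arith35 _ h5 h2 h4
    rw [h7] at h3
    have h8 : K.index = 1 := by omega
    exact index_eq_one.1 h8

end Fifteen

section Fifteen2
variable {S : Type*} [Group S] [Finite S] [IsSimpleGroup S] (h35 : Nat.card (Sylow 17 S) = 35)
include h35

theorem toPermHom_injective : Function.Injective (MulAction.toPermHom S (Sylow 17 S)) := by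
  rw [injective_iff_map_eq_one]
  intro g hg
  apply faithful h35
  intro Q
  exact congrArg (fun σ : Equiv.Perm (Sylow 17 S) => σ Q) hg

open Classical in
theorem dichotomy (y : S) (hy : orderOf y = 17) :
    ((MulAction.toPerm y : Equiv.Perm (Sylow 17 S)).IsCycle ∧
      ∀ [Fintype (Sylow 17 S)], (MulAction.toPerm y : Equiv.Perm (Sylow 17 S)).support.card = 17) ∨
    (∀ Q Q' : Sylow 17 S, y • Q = Q → y • Q' = Q' → Q = Q') := by
  have : Fintype (Sylow 17 S) := Fintype.ofFinite _
  set σ : Equiv.Perm (Sylow 17 S) := MulAction.toPerm y with hσ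
  have ho : orderOf σ = 17 := by
    exact (orderOf_injective (MulAction.toPermHom S (Sylow 17 S)) (toPermHom_injective h35) y).trans hy
  obtain ⟨n, hn⟩ := Equiv.Perm.cycleType_prime_order (σ := σ) (by rw [ho]; norm_num)
  rw [ho] at hn
  have hsum := Equiv.Perm.sum_cycleType σ
  rw [hn, Multiset.sum_replicate, smul_eq_mul] at hsum
  have hle : σ.support.card ≤ 35 := by
    rw [← h35, Nat.card_eq_fintype_card]
    exact Finset.card_le_univ _
  have hn01 : n = 0 ∨ n = 1 := by omega
  rcases hn01 with rfl | rfl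
  · left
    refine ⟨?_, ?_⟩
    · rw [← Equiv.Perm.card_cycleType_eq_one, hn]
      simp
    · intro inst
      have : inst = this := Subsingleton.elim _ _
      subst this
      omega
  · right
    intro Q Q' hQ hQ'
    have hc : σ.supportᶜ.card = 1 := by
      rw [Finset.card_compl, ← Nat.card_eq_fintype_card, h35]
      omega
    have h1 : Q ∈ σ.supportᶜ := by
      rw [Finset.mem_compl, Equiv.Perm.notMem_support]; exact hQ
    have h2 : Q' ∈ σ.supportᶜ := by
      rw [Finset.mem_compl, Equiv.Perm.notMem_support]; exact hQ'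
    exact Finset.card_le_one.1 hc.le Q h1 Q' h2

end Fifteen2

theorem pow17_le (k : ℕ) (h : 17 ^ k ≤ 35) : 17 ^ k ≤ 17 := by
  rcases k with _ | _ | k
  · norm_num
  · norm_num
  · exfalso
    have : 17 ^ 2 ≤ 17 ^ (k + 1 + 1) := Nat.pow_le_pow_right (by norm_num) (by omega)
    omega

section Fifteen3
variable {S : Type*} [Group S] [Finite S] (h35 : Nat.card (Sylow 17 S) = 35)
include h35

theorem not_three_trans (h3 : IsMultiplyPretransitive S (Sylow 17 S) 3) : False := by
  obtain ⟨P⟩ : Nonempty (Sylow 17 S) := inferInstance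
  have hnt : Nontrivial (Sylow 17 S) := by
    rw [← Finite.one_lt_card_iff_nontrivial]; omega
  obtain ⟨Q₁, hQ₁⟩ := exists_ne P
  have hx : ∃ x ∈ (P : Subgroup S), x • Q₁ ≠ Q₁ := by
    by_contra hcon
    push Not at hcon
    exact hQ₁ (fixed_unique P Q₁ hcon)
  obtain ⟨x, hxP, hxQ⟩ := hx
  obtain ⟨k, hk⟩ := P.2.card_orbit Q₁
  have hle : Nat.card (orbit (P : Subgroup S) Q₁) ≤ 35 := by
    rw [← h35]
    exact Finite.card_subtype_le _
  have hle7 : Nat.card (orbit (P : Subgroup S) Q₁) ≤ 17 := by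
    rw [hk] at hle ⊢
    exact pow17_le k hle
  have hex : ∃ Q₃ : Sylow 17 S, Q₃ ∉ insert P (orbit (P : Subgroup S) Q₁) := by
    by_contra hcon
    push Not at hcon
    have huniv : insert P (orbit (P : Subgroup S) Q₁) = Set.univ := Set.eq_univ_iff_forall.2 hcon
    have h1 := Set.ncard_insert_le P (orbit (P : Subgroup S) Q₁)
    rw [huniv, Set.ncard_univ, h35] at h1
    have h2 : (orbit (P : Subgroup S) Q₁).ncard = Nat.card (orbit (P : Subgroup S) Q₁) := rfl
    omega
  obtain ⟨Q₃, hQ₃⟩ := hex
  rw [Set.mem_insert_iff, not_or] at hQ₃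
  obtain ⟨g, hg1, hg2, hg3⟩ := exists_of_three_trans h3 P Q₁ (x • Q₁) Q₃ hQ₁.symm
    (by
      intro h
      apply hQ₁
      have h4 : x⁻¹ • P = Q₁ := by rw [h, inv_smul_smul]
      rw [← h4]
      exact smul_self_of_mem P x⁻¹ (inv_mem hxP))
    (fun h => hxQ h.symm) (fun h => hQ₃.1 h.symm)
    (fun h => hQ₃.2 (h ▸ mem_orbit_self _))
  apply hQ₃.2
  have hgN : g ∈ normalizer ((P : Subgroup S) : Set S) := Sylow.smul_eq_iff_mem_normalizer.1 hg1
  have hconj : g * x * g⁻¹ ∈ (P : Subgroup S) := (mem_normalizer_iff.1 hgN x).1 hxP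
  refine ⟨⟨g * x * g⁻¹, hconj⟩, ?_⟩
  change (g * x * g⁻¹) • Q₁ = Q₃
  rw [← hg3]
  conv_lhs => rw [← hg2]
  simp [mul_smul]

end Fifteen3

section Fifteen4
variable {S : Type*} [Group S] [Finite S] (h35 : Nat.card (Sylow 17 S) = 35)
include h35

open Classical in
theorem caseA (y : S) (hc : (MulAction.toPerm y : Equiv.Perm (Sylow 17 S)).IsCycle)
    (hcard : ∀ [Fintype (Sylow 17 S)],
      (MulAction.toPerm y : Equiv.Perm (Sylow 17 S)).support.card = 17) : False := by
  have : Fintype (Sylow 17 S) := Fintype.ofFinite _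
  have h9 := jordan_prime_cycle (primitive h35) y hc 17 17 (by norm_num) hcard (by rw [h35])
  have h9' : IsMultiplyPretransitive S (Sylow 17 S) 19 := h9.isMultiplyPretransitive
  have h3 : IsMultiplyPretransitive S (Sylow 17 S) 3 :=
    isMultiplyPretransitive_of_le (n := 19) (by norm_num) (by rw [h35]; norm_num)
  exact not_three_trans h35 h3

end Fifteen4

section CaseB
variable {S : Type*} [Group S] [Finite S] (h35 : Nat.card (Sylow 17 S) = 35)
  (hB : ∀ y : S, orderOf y = 17 → ∀ Q Q' : Sylow 17 S, y • Q = Q → y • Q' = Q' → Q = Q')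
include h35 hB

theorem card_sylow17 (P : Sylow 17 S) : Nat.card P = 17 := by
  have hnt : Nontrivial (Sylow 17 S) := by
    rw [← Finite.one_lt_card_iff_nontrivial]; omega
  obtain ⟨Q₁, hQ₁⟩ := exists_ne P
  have hx : ∃ x ∈ (P : Subgroup S), x • Q₁ ≠ Q₁ := by
    by_contra hcon
    push Not at hcon
    exact hQ₁ (fixed_unique P Q₁ hcon)
  obtain ⟨x, hxP, hxQ⟩ := hx
  have hstab : stabilizer (P : Subgroup S) Q₁ = ⊥ := by
    by_contra hne
    have hp : IsPGroup 17 (stabilizer (P : Subgroup S) Q₁) := P.2.to_subgroup _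
    obtain ⟨k, hk⟩ := IsPGroup.iff_card.1 hp
    have hk0 : k ≠ 0 := by
      rintro rfl
      rw [pow_zero] at hk
      exact hne ((stabilizer (P : Subgroup S) Q₁).card_eq_one.1 hk)
    have h7 : 17 ∣ Nat.card (stabilizer (P : Subgroup S) Q₁) := by
      rw [hk]; exact dvd_pow_self 17 hk0
    obtain ⟨w, hw⟩ := exists_prime_orderOf_dvd_card' 17 h7
    have hw' : orderOf ((w : (P : Subgroup S)) : S) = 17 := by
      rw [Subgroup.orderOf_coe, Subgroup.orderOf_coe, hw]
    have h1 : ((w : (P : Subgroup S)) : S) • Q₁ = Q₁ := w.2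
    have h2 : ((w : (P : Subgroup S)) : S) • P = P := smul_self_of_mem P _ (w : (P : Subgroup S)).2
    exact hQ₁ (hB _ hw' _ _ h1 h2)
  have hidx := index_stabilizer (P : Subgroup S) Q₁
  rw [hstab, index_bot] at hidx
  obtain ⟨k, hk⟩ := P.2.card_orbit Q₁
  have hle : Nat.card (orbit (P : Subgroup S) Q₁) ≤ 35 := by
    rw [← h35]
    exact Finite.card_subtype_le _
  have h2 : (orbit (P : Subgroup S) Q₁).ncard = Nat.card (orbit (P : Subgroup S) Q₁) := rfl
  rw [h2, hk] at hidx
  rw [hk] at hle
  have h7 := pow17_le k hle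
  rw [hidx]
  rcases k with _ | k
  · exfalso
    rw [pow_zero] at hidx
    have hb := (P : Subgroup S).card_eq_one.1 hidx
    rw [hb, mem_bot] at hxP
    rw [hxP, one_smul] at hxQ
    exact hxQ rfl
  · have : 17 ^ 1 ≤ 17 ^ (k + 1) := Nat.pow_le_pow_right (by norm_num) (by omega)
    omega

end CaseB

section FixedBy
variable {S : Type*} [Group S] [Finite S]

theorem card_fixedBy_modEq_seventeen (P : Sylow 17 S) (g : S)
    (hg : g ∈ centralizer ((P : Subgroup S) : Set S)) :
    Nat.card (fixedBy (Sylow 17 S) g) ≡ 1 [MOD 17] := by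
  let F : SubMulAction (P : Subgroup S) (Sylow 17 S) :=
    { carrier := fixedBy (Sylow 17 S) g
      smul_mem' := by
        intro x Q hQ
        have hQ' : g • Q = Q := hQ
        change g • ((x : S) • Q) = (x : S) • Q
        have hcomm : g * (x : S) = (x : S) * g := ((mem_centralizer_iff.1 hg) x x.2).symm
        rw [← mul_smul, hcomm, mul_smul, hQ'] }
  have h1 : Nat.card F ≡ Nat.card (fixedPoints (P : Subgroup S) F) [MOD 17] :=
    P.2.card_modEq_card_fixedPoints F
  have h2 : Nat.card (fixedPoints (P : Subgroup S) F) = 1 := by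
    rw [Nat.card_eq_one_iff_unique]
    refine ⟨⟨?_⟩, ⟨⟨⟨P, ?_⟩, ?_⟩⟩⟩
    · rintro ⟨⟨Q, hQ⟩, hfix⟩ ⟨⟨Q', hQ'⟩, hfix'⟩
      have e1 : Q = P := fixed_unique P Q fun x hx =>
        congrArg (fun z : F => (z : Sylow 17 S)) (hfix ⟨x, hx⟩)
      have e2 : Q' = P := fixed_unique P Q' fun x hx =>
        congrArg (fun z : F => (z : Sylow 17 S)) (hfix' ⟨x, hx⟩)
      subst e1 e2
      rfl
    · exact Sylow.smul_eq_iff_mem_normalizer.2 (centralizer_le_normalizer _ hg)
    · intro x
      apply Subtype.ext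
      exact smul_self_of_mem P x x.2
  rw [h2] at h1
  exact h1

theorem card_fixedBy_modEq (g : S) (r : ℕ) [Fact r.Prime] (hg : orderOf g = r) :
    Nat.card (Sylow 17 S) ≡ Nat.card (fixedBy (Sylow 17 S) g) [MOD r] := by
  have hp : IsPGroup r (zpowers g) := IsPGroup.of_card (n := 1) (by rw [Nat.card_zpowers, hg, pow_one])
  have h1 := hp.card_modEq_card_fixedPoints (Sylow 17 S)
  have h2 : fixedPoints (zpowers g) (Sylow 17 S) = fixedBy (Sylow 17 S) g := by
    ext Q
    constructor
    · intro h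
      exact h ⟨g, mem_zpowers g⟩
    · intro h x
      have h3 : g ∈ stabilizer S Q := h
      have h4 : zpowers g ≤ stabilizer S Q := (zpowers_le).2 h3
      exact h4 x.2
  rw [h2] at h1
  exact h1

end FixedBy

theorem arith_fixed (r f : ℕ) (hr : r = 2 ∨ r = 5 ∨ r = 7) (hf : f ≤ 35) (h7 : f ≡ 1 [MOD 17])
    (hrf : 35 ≡ f [MOD r]) : f = 35 ∨ (r = 2 ∧ f = 1) := by
  unfold Nat.ModEq at h7 hrf
  rcases hr with rfl | rfl | rfl <;> interval_cases f <;> omega

section Centralizer
variable {S : Type*} [Group S] [Finite S] [IsSimpleGroup S] (h35 : Nat.card (Sylow 17 S) = 35)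
include h35

omit [IsSimpleGroup S] in
theorem thirtyfive_dvd_card : 35 ∣ Nat.card S := by
  obtain ⟨P⟩ : Nonempty (Sylow 17 S) := inferInstance
  rw [← h35, card_sylow_eq_index P]
  exact index_dvd_card _

open Classical in
theorem odd_perm_false (g : S) (hg : orderOf g = 2)
    (hf : Nat.card (fixedBy (Sylow 17 S) g) = 1) : False := by
  have : Fintype (Sylow 17 S) := Fintype.ofFinite _
  set σ : Equiv.Perm (Sylow 17 S) := MulAction.toPerm g with hσ
  have ho : orderOf σ = 2 :=
    (orderOf_injective (MulAction.toPermHom S (Sylow 17 S)) (toPermHom_injective h35) g).trans hg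
  obtain ⟨n, hn⟩ := Equiv.Perm.cycleType_prime_order (σ := σ) (by rw [ho]; norm_num)
  rw [ho] at hn
  have hfp := Equiv.Perm.card_fixedPoints σ
  have hf' : Nat.card (Function.fixedPoints σ) = 1 := hf
  rw [Nat.card_eq_fintype_card] at hf'
  rw [hf', ← Nat.card_eq_fintype_card, h35, hn, Multiset.sum_replicate, smul_eq_mul] at hfp
  have hn6 : n = 16 := by omega
  subst hn6
  have hsign : Equiv.Perm.sign σ = -1 := by
    rw [Equiv.Perm.sign_of_cycleType, hn]
    simp
    decide
  let φ : S →* ℤˣ := Equiv.Perm.sign.comp (MulAction.toPermHom S (Sylow 17 S))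
  have hφg : φ g = -1 := hsign
  rcases IsSimpleGroup.eq_bot_or_eq_top_of_normal φ.ker inferInstance with h | h
  · have hinj : Function.Injective φ := (MonoidHom.ker_eq_bot_iff φ).1 h
    have h1 := Nat.card_le_card_of_injective φ hinj
    rw [Nat.card_eq_fintype_card (α := ℤˣ), Fintype.card_units_int] at h1
    have h2 := Nat.le_of_dvd Nat.card_pos (thirtyfive_dvd_card h35)
    omega
  · have : g ∈ φ.ker := by rw [h]; trivial
    rw [MonoidHom.mem_ker, hφg] at this
    exact absurd this (by decide)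

theorem not_dvd_card_centralizer (P : Sylow 17 S) (r : ℕ) (hr : r = 2 ∨ r = 5 ∨ r = 7) :
    ¬ r ∣ Nat.card (centralizer ((P : Subgroup S) : Set S)) := by
  intro hdvd
  have hrp : Fact r.Prime := ⟨by rcases hr with rfl | rfl | rfl <;> norm_num⟩
  obtain ⟨g, hg⟩ := exists_prime_orderOf_dvd_card' r hdvd
  have hg' : orderOf (g : S) = r := by rw [Subgroup.orderOf_coe, hg]
  have h1 := card_fixedBy_modEq_seventeen P (g : S) g.2
  have h2 := card_fixedBy_modEq (g : S) r hg'
  rw [h35] at h2
  have hle : Nat.card (fixedBy (Sylow 17 S) (g : S)) ≤ 35 := by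
    rw [← h35]
    exact Finite.card_subtype_le _
  rcases arith_fixed r _ hr hle h1 h2 with h | ⟨rfl, h⟩
  · have huniv : fixedBy (Sylow 17 S) (g : S) = Set.univ := by
      rw [Set.eq_univ_iff_ncard, h35]
      exact h
    have hg1 : (g : S) = 1 := faithful h35 _ fun Q => by
      have : Q ∈ fixedBy (Sylow 17 S) (g : S) := by rw [huniv]; trivial
      exact this
    rw [hg1, orderOf_one] at hg'
    exact hrp.out.one_lt.ne hg'
  · exact odd_perm_false h35 _ hg' h

end Centralizer

theorem arith_order (n d c : ℕ) (hn : n = 35 * (c * d)) (hd : d ∣ 16) (h5 : ¬ 5 ∣ c) :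
    ¬ 5 ^ 2 ∣ n := by
  have hd6 : d ≤ 16 := Nat.le_of_dvd (by norm_num) hd
  subst hn
  interval_cases d <;> omega

theorem arith_odd_dvd_four (m n : ℕ) (h1 : m ∣ 4) (h2 : m ∣ n) (h3 : ¬ 2 ∣ n) : m = 1 := by
  have h4 : m ≤ 4 := Nat.le_of_dvd (by norm_num) h1
  have h5 : ¬ 2 ∣ m := fun h => h3 (h.trans h2)
  interval_cases m <;> omega

section Final
variable {S : Type*} [Group S] [Finite S]

/-- for an abelian Sylow subgroup, the automizer has order prime to `q`. -/
theorem not_dvd_relIndex_centralizer_normalizer {q : ℕ} [Fact q.Prime] (T : Sylow q S)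
    (hT : (T : Subgroup S) ≤ centralizer ((T : Subgroup S) : Set S)) :
    ¬ q ∣ (centralizer ((T : Subgroup S) : Set S)).relIndex
      (normalizer ((T : Subgroup S) : Set S)) := by
  intro h
  have h1 := relIndex_mul_relIndex (T : Subgroup S) (centralizer ((T : Subgroup S) : Set S))
    (normalizer ((T : Subgroup S) : Set S)) hT (centralizer_le_normalizer _)
  have h2 := relIndex_mul_index (le_normalizer (H := (T : Subgroup S)))
  apply T.not_dvd_index
  rw [← h2, ← h1]
  exact (h.mul_left _).mul_right _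

theorem cyclic_sylow_two_false [IsSimpleGroup S] [Fact (Nat.Prime 2)] (T : Sylow 2 S)
    (hc : IsCyclic (T : Subgroup S)) (h1 : Nat.card T ≠ 1) : Nat.card S = Nat.card T := by
  have hd := relIndex_centralizer_normalizer_dvd (T : Subgroup S) hc
  have hcomm : (T : Subgroup S) ≤ centralizer ((T : Subgroup S) : Set S) := by
    have := hc.isMulCommutative
    intro x hx
    rw [mem_centralizer_iff]
    intro y hy
    exact congrArg Subtype.val (this.is_comm.comm ⟨y, hy⟩ ⟨x, hx⟩)
  have hnd := not_dvd_relIndex_centralizer_normalizer T hcomm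
  obtain ⟨k, hk⟩ := IsPGroup.iff_card.1 T.2
  rw [hk] at hd
  have h3 : (centralizer ((T : Subgroup S) : Set S)).relIndex
      (normalizer ((T : Subgroup S) : Set S)) = 1 := by
    rcases k with _ | k
    · simpa using hd
    · rw [Nat.totient_prime_pow_succ (by norm_num)] at hd
      simp only [Nat.add_one_sub_one, mul_one] at hd
      obtain ⟨j, _, hj⟩ := (Nat.dvd_prime_pow (by norm_num)).1 hd
      rcases j with _ | j
      · simpa using hj
      · exfalso
        apply hnd
        rw [hj]
        exact dvd_pow_self 2 (by omega)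
  exact card_eq_of_simple_of_normalizer_le_centralizer T (relIndex_eq_one.1 h3) h1

theorem caseB [IsSimpleGroup S] (h35 : Nat.card (Sylow 17 S) = 35)
    (hB : ∀ y : S, orderOf y = 17 → ∀ Q Q' : Sylow 17 S, y • Q = Q → y • Q' = Q' → Q = Q') :
    False := by
  have h35d := thirtyfive_dvd_card h35
  by_cases h2 : 2 ∣ Nat.card S
  · have : Fact (Nat.Prime 2) := ⟨by norm_num⟩
    obtain ⟨T⟩ : Nonempty (Sylow 2 S) := inferInstance
    have hfix : (fixedPoints (T : Subgroup S) (Sylow 17 S)).Nonempty :=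
      T.2.nonempty_fixed_point_of_prime_not_dvd_card (Sylow 17 S) (by rw [h35]; norm_num)
    obtain ⟨P, hP⟩ := hfix
    have hTN : (T : Subgroup S) ≤ normalizer ((P : Subgroup S) : Set S) := by
      intro x hx
      exact Sylow.smul_eq_iff_mem_normalizer.1 (hP ⟨x, hx⟩)
    have hP17 := card_sylow17 h35 hB P
    have hcyc : IsCyclic (P : Subgroup S) := isCyclic_of_prime_card hP17
    let φ : (T : Subgroup S) →* MulAut (P : Subgroup S) :=
      (P : Subgroup S).normalizerMonoidHom.comp (inclusion hTN)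
    have hφ : Function.Injective φ := by
      rw [injective_iff_map_eq_one]
      intro x hx
      have hx1 : inclusion hTN x ∈ (P : Subgroup S).normalizerMonoidHom.ker := hx
      rw [normalizerMonoidHom_ker, mem_subgroupOf] at hx1
      have hx2 : (x : S) ∈ centralizer ((P : Subgroup S) : Set S) := hx1
      by_contra hne
      obtain ⟨k, hk⟩ := (IsPGroup.iff_orderOf.1 T.2) x
      have hk0 : k ≠ 0 := by
        rintro rfl
        rw [pow_zero, orderOf_eq_one_iff] at hk
        exact hne hk
      apply not_dvd_card_centralizer h35 P 2 (by simp)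
      have h3 : orderOf (⟨(x : S), hx2⟩ : centralizer ((P : Subgroup S) : Set S)) = 2 ^ k := by
        rw [← hk, ← Subgroup.orderOf_coe, ← Subgroup.orderOf_coe]
      exact (dvd_pow_self 2 hk0).trans (by rw [← h3]; exact orderOf_dvd_natCard _)
    have hAut : IsCyclic (MulAut (P : Subgroup S)) := by
      have e := hcyc.mulAutMulEquiv
      rw [hP17] at e
      exact isCyclic_of_surjective e.symm e.symm.surjective
    have hTc : IsCyclic (T : Subgroup S) := isCyclic_of_injective φ hφ
    have hT1 : Nat.card T ≠ 1 := by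
      intro h
      have := T.dvd_card_of_dvd_card h2
      rw [h] at this
      omega
    have hST := cyclic_sylow_two_false T hTc hT1
    obtain ⟨k, hk⟩ := IsPGroup.iff_card.1 T.2
    rw [hST, hk] at h35d
    have h5 : 5 ∣ 2 ^ k := (by norm_num : 5 ∣ 35).trans h35d
    have := (Nat.Prime.dvd_of_dvd_pow (by norm_num) h5)
    omega
  · obtain ⟨P⟩ : Nonempty (Sylow 17 S) := inferInstance
    have hP17 := card_sylow17 h35 hB P
    have hcyc : IsCyclic (P : Subgroup S) := isCyclic_of_prime_card hP17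
    have hd := relIndex_centralizer_normalizer_dvd (P : Subgroup S) hcyc
    rw [hP17, Nat.totient_prime (by norm_num)] at hd
    have hN : 35 * Nat.card (normalizer ((P : Subgroup S) : Set S)) = Nat.card S := by
      rw [← h35, card_sylow_eq_index P]; exact index_mul_card _
    have hC := relIndex_mul_relIndex ⊥ (centralizer ((P : Subgroup S) : Set S))
      (normalizer ((P : Subgroup S) : Set S)) bot_le (centralizer_le_normalizer _)
    rw [relIndex_bot_left, relIndex_bot_left] at hC
    rw [← hC] at hN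
    have h25 := arith_order _ _ _ hN.symm hd (not_dvd_card_centralizer h35 P 5 (by simp))
    have : Fact (Nat.Prime 5) := ⟨by norm_num⟩
    obtain ⟨T⟩ : Nonempty (Sylow 5 S) := inferInstance
    have hT := sylow_card_eq_prime T (by omega) h25
    have hTc : IsCyclic (T : Subgroup S) := isCyclic_of_prime_card hT
    have hd2 := relIndex_centralizer_normalizer_dvd (T : Subgroup S) hTc
    rw [hT, Nat.totient_prime (by norm_num)] at hd2
    have hd3 : (centralizer ((T : Subgroup S) : Set S)).relIndex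
        (normalizer ((T : Subgroup S) : Set S)) ∣ Nat.card S :=
      (relIndex_dvd_card _ _).trans (card_subgroup_dvd_card _)
    have h1 := relIndex_eq_one.1 (arith_odd_dvd_four _ _ hd2 hd3 h2)
    have := card_eq_of_simple_of_normalizer_le_centralizer T h1 (by rw [hT]; norm_num)
    rw [this, hT] at h35d
    omega

theorem simple_false [IsSimpleGroup S] (h35 : Nat.card (Sylow 17 S) = 35) : False := by
  by_cases hA : ∃ y : S, orderOf y = 17 ∧
      ¬ (∀ Q Q' : Sylow 17 S, y • Q = Q → y • Q' = Q' → Q = Q')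
  · obtain ⟨y, hy, hny⟩ := hA
    rcases dichotomy h35 y hy with ⟨h1, h2⟩ | h
    · exact caseA h35 y h1 h2
    · exact hny h
  · push Not at hA
    exact caseB h35 hA

end Final

theorem not_isPrimePow_thirtyfive : ¬ IsPrimePow 35 := by
  rintro ⟨p, k, hp, _, h⟩
  have hp' : p.Prime := hp.nat_prime
  have h3 : 7 ∣ p ^ k := by rw [h]; norm_num
  have h5 : 5 ∣ p ^ k := by rw [h]; norm_num
  have e3 := (Nat.prime_dvd_prime_iff_eq (by norm_num) hp').1 ((Nat.Prime.dvd_of_dvd_pow (by norm_num)) h3)
  have e5 := (Nat.prime_dvd_prime_iff_eq (by norm_num) hp').1 ((Nat.Prime.dvd_of_dvd_pow (by norm_num)) h5)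
  omega

/-- No finite group has exactly 35 Sylow 17-subgroups. -/
theorem result {G : Type*} [Group G] [Finite G] : Nat.card (Sylow 17 G) ≠ 35 := by
  intro h
  obtain ⟨l, hl, hm⟩ := Cfsg.Agent.S4303.result (G := G) 17
  rw [h] at hl
  have hex : ∃ m ∈ l, m ≠ 1 := by
    by_contra hcon
    push Not at hcon
    rw [List.prod_eq_one hcon] at hl
    omega
  obtain ⟨m, hml, hm1⟩ := hex
  have hdvd : m ∣ 35 := hl ▸ List.dvd_prod hml
  rcases hm m hml with ⟨hpp, hmod⟩ | ⟨S, _, _, hS, hmS⟩
  · have h35 : m = 35 := arith35 m hdvd hmod hm1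
    subst h35
    exact not_isPrimePow_thirtyfive hpp
  · have hmod : m ≡ 1 [MOD 17] := by rw [hmS]; exact card_sylow_modEq_one 17 S
    have h35 : m = 35 := arith35 m hdvd hmod hm1
    exact simple_false (h35 ▸ hmS).symm

end Cfsg.Agent.S4236
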