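import Cfsg.Statements.S4237
-- import your own Cfsg.Agent.* helpers here
import Cfsg.Agent.Lib.Helper28.Kul.FORM
import Cfsg.Agent.Lib.Helper28.Kul.MILLER
import Cfsg.Agent.Lib.Helper28.Kul.SYLRED

set_option autoImplicit false
open Cfsg

namespace Cfsg.Agent.S4237

/-- Let G be a finite group, p a prime and a a natural number such that p^(a+1) divides the order of G. Then the number of subgroups of G of order p^a is congruent to 1 or to 1 + p modulo p². -/
theorem result {G : Type*} [Group G] [Finite G] (p a : ℕ) (hp : p.Prime) (hdvd : p ^ (a + 1) ∣ Nat.card G) :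
    Nat.card {H : Subgroup G // Nat.card H = p ^ a} ≡ 1 [MOD p ^ 2] ∨
      Nat.card {H : Subgroup G // Nat.card H = p ^ a} ≡ 1 + p [MOD p ^ 2] := by
  haveI : Fact p.Prime := ⟨hp⟩
  have hF := Cfsg.Agent.Lib.Helper28.Kul.form hp hdvd
  -- it suffices to know the number of cyclic subgroups modulo `p`
  suffices h : p ∣ Cfsg.Agent.Lib.Helper28.Kul.cyc G (p ^ (a + 1)) ∨
      Cfsg.Agent.Lib.Helper28.Kul.cyc G (p ^ (a + 1)) ≡ 1 [MOD p] by
    rcases h with h | h
    · exact Or.inr (hF.1 h)
    · exact Or.inl (hF.2 h)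
  obtain ⟨P⟩ : Nonempty (Sylow p G) := inferInstance
  have hred := Cfsg.Agent.Lib.Helper28.Kul.sylred P (a + 1)
  obtain ⟨m, hm⟩ := IsPGroup.iff_card.mp P.isPGroup'
  have hPd : p ^ (a + 1) ∣ Nat.card ↥(P : Subgroup G) := by
    rw [P.card_eq_multiplicity]
    exact pow_dvd_pow p ((Nat.Prime.pow_dvd_iff_le_factorization hp Nat.card_pos.ne').mp hdvd)
  by_cases hcyc : IsCyclic ↥(P : Subgroup G)
  · -- cyclic Sylow subgroup: exactly one subgroup of each order
    right
    refine hred.trans ?_
    have : Cfsg.Agent.Lib.Helper28.Kul.cyc ↥(P : Subgroup G) (p ^ (a + 1)) = 1 := by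
      unfold Cfsg.Agent.Lib.Helper28.Kul.cyc
      rw [Nat.card_eq_one_iff_unique]
      constructor
      · constructor
        intro H K
        exact Subtype.ext (Cfsg.Agent.Lib.Helper70.eq_of_card_eq_of_isCyclic H.1 K.1
          (H.2.1.trans K.2.1.symm))
      · obtain ⟨K, hK⟩ := Sylow.exists_subgroup_card_pow_prime (G := ↥(P : Subgroup G)) p
          (n := a + 1) hPd
        exact ⟨⟨K, hK, inferInstance⟩⟩
    rw [this]
  · rcases Nat.eq_zero_or_pos a with rfl | ha
    · -- order `p`: all subgroups of order `p` are cyclic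
      right
      have h1 := Cfsg.Agent.Lib.Helper70.card_subgroups_prime_pow_modEq_one (G := G) p 1 hp
        (by simpa using hdvd)
      have h2 : Cfsg.Agent.Lib.Helper28.Kul.cyc G (p ^ (0 + 1)) =
          Nat.card {H : Subgroup G // Nat.card H = p ^ 1} := by
        unfold Cfsg.Agent.Lib.Helper28.Kul.cyc
        apply Nat.card_congr
        refine Equiv.subtypeEquivRight ?_
        intro H
        constructor
        · intro h; simpa using h.1
        · intro h
          refine ⟨by simpa using h, ?_⟩
          exact isCyclic_of_prime_card (p := p) (by simpa using h)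
      rw [h2]
      exact h1
    · by_cases hp2 : p = 2
      · subst hp2
        rcases Nat.even_or_odd (Cfsg.Agent.Lib.Helper28.Kul.cyc G (2 ^ (a + 1))) with h | h
        · exact Or.inl h.two_dvd
        · exact Or.inr (Nat.odd_iff.mp h)
      · left
        have := Cfsg.Agent.Lib.Helper28.Kul.miller hm hcyc (fun h => absurd h hp2) (a + 1)
          (by omega)
        exact (Nat.modEq_zero_iff_dvd.mp (hred.trans (Nat.modEq_zero_iff_dvd.mpr this)))

end Cfsg.Agent.S4237
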