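import Cfsg.Statements.S4238
-- import your own Cfsg.Agent.* helpers here
import Cfsg.Agent.Lib.Helper14.PConstrained
import Cfsg.Agent.Lib.Helper77.CoprimeAut
import Cfsg.Agent.Lib.Helper77.Frobenius

set_option autoImplicit false
open Cfsg

namespace Cfsg.Agent.S4238


open Cfsg.Agent.Lib.Helper14 Cfsg.Agent.Lib.Helper77
open scoped commutatorElement

universe u

/-- The section property, phrased with surjective images of subgroups. -/
def Sec (p : ℕ) (G : Type u) [Group G] : Prop :=
  ∀ (H : Subgroup G) (K : Type u) [Group K] (f : H →* K), Function.Surjective f →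
    Cfsg.pPrimeCore p K = ⊥ → ∃ k : K, orderOf k = Monoid.exponent K

theorem Sec.subgroup {p : ℕ} {G : Type u} [Group G] (h : Sec p G) (L : Subgroup G) : Sec p L := by
  intro H K _ f hf hK
  let e := H.equivMapOfInjective L.subtype L.subtype_injective
  exact h (H.map L.subtype) K (f.comp e.symm.toMonoidHom) (hf.comp e.symm.surjective) hK

theorem Sec.of_surjective {p : ℕ} {G G' : Type u} [Group G] [Group G'] (h : Sec p G) (π : G →* G')
    (hπ : Function.Surjective π) : Sec p G' := by
  intro H K _ f hf hK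
  exact h (H.comap π) K (f.comp (π.subgroupComap H))
    (hf.comp (π.subgroupComap_surjective_of_surjective H hπ)) hK

theorem NPC.of_surjective {p : ℕ} [hp : Fact p.Prime] {G G' : Type*} [Group G] [Group G'] [Finite G]
    (h : NPC p G) (π : G →* G') (hπ : Function.Surjective π) : NPC p G' := by
  obtain ⟨K, hKn, hKc, k, hk⟩ := h
  refine ⟨K.map π, hKn.map π hπ, Nat.Coprime.coprime_dvd_left (Subgroup.card_map_dvd K π) hKc, ?_⟩
  have h1 : (K.map π).index ∣ p ^ k := hk ▸ Subgroup.index_map_dvd K hπ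
  obtain ⟨j, _, hj⟩ := (Nat.dvd_prime_pow hp.out).1 h1
  exact ⟨j, hj⟩

theorem exists_orderOf_eq_exponent_of_isPGroup {p : ℕ} [hp : Fact p.Prime] {K : Type*} [Group K]
    [Finite K] (hK : IsPGroup p K) : ∃ k : K, orderOf k = Monoid.exponent K := by
  obtain ⟨n, hn⟩ := IsPGroup.iff_card.1 hK
  have h1 : Monoid.exponent K ∣ p ^ n := hn ▸ Group.exponent_dvd_nat_card
  obtain ⟨j, _, hj⟩ := (Nat.dvd_prime_pow hp.out).1 h1
  obtain ⟨g, hg⟩ := hp.out.exists_orderOf_eq_pow_factorization_exponent (G := K)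
  refine ⟨g, ?_⟩
  rw [hg, hj, Nat.Prime.factorization_pow hp.out]
  simp

theorem centralizes_of_frobCond_subgroup {G : Type*} [Group G] {p : ℕ} (L : Subgroup G)
    (hL : FrobCond p L) {Q : Subgroup G} (hQL : Q ≤ L) (hQ : IsPGroup p Q) {g : G} (hgL : g ∈ L)
    (hg : g ∈ Subgroup.normalizer (Q : Set G)) (hgo : (orderOf g).Coprime p) :
    g ∈ Subgroup.centralizer (Q : Set G) := by
  have h1 := hL (Q.subgroupOf L) hQ.comap_subtype ⟨g, hgL⟩ (by
    rw [Subgroup.mem_normalizer_iff] at hg ⊢
    intro h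
    rw [Subgroup.mem_subgroupOf, Subgroup.mem_subgroupOf]
    exact hg h) (by rwa [Subgroup.orderOf_mk])
  rw [Subgroup.mem_centralizer_iff] at h1 ⊢
  intro q hq
  exact congrArg Subtype.val (h1 ⟨q, hQL hq⟩ (Subgroup.mem_subgroupOf.2 hq))

theorem comm_mem_of_frobCond_quotient {G : Type*} [Group G] {p : ℕ} (N : Subgroup G) [N.Normal]
    (hN : FrobCond p (G ⧸ N)) {Q : Subgroup G} (hQn : Q.Normal) (hQ : IsPGroup p Q) {g : G}
    (hgo : (orderOf g).Coprime p) : ∀ q ∈ Q, g * q * g⁻¹ * q⁻¹ ∈ N := by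
  have hmapn : (Q.map (QuotientGroup.mk' N)).Normal := hQn.map _ (QuotientGroup.mk'_surjective N)
  have h1 := hN (Q.map (QuotientGroup.mk' N)) (hQ.map _) (QuotientGroup.mk' N g)
    (by rw [Subgroup.normalizer_eq_top]; trivial)
    (Nat.Coprime.coprime_dvd_left (orderOf_map_dvd _ g) hgo)
  rw [Subgroup.mem_centralizer_iff] at h1
  intro q hq
  have h2 := h1 _ ⟨q, hq, rfl⟩
  rw [← QuotientGroup.eq_one_iff]
  change QuotientGroup.mk' N (g * q * g⁻¹ * q⁻¹) = 1
  rw [map_mul, map_mul, map_mul, map_inv, map_inv, ← h2]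
  group

theorem index_eq_card_of_normal {G : Type*} [Group G] {Z K : Subgroup G} [Z.Normal]
    (hZK : Z ⊓ K = ⊥) (hs : Z ⊔ K = ⊤) : Z.index = Nat.card K := by
  rw [← Subgroup.relIndex_top_right, ← hs, sup_comm, Subgroup.relIndex_sup_right,
    ← Subgroup.inf_relIndex_right, hZK, Subgroup.relIndex_bot_left]

theorem npc_of_sec (p : ℕ) [hp : Fact p.Prime] :
    ∀ (n : ℕ) (G : Type u) [Group G] [Finite G], Nat.card G = n → Sec p G → NPC p G := by
  intro n
  induction n using Nat.strong_induction_on with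
  | _ n ih =>
  intro G _ _ hcard hsec
  by_contra hnpc
  have hsub : ∀ L : Subgroup G, L ≠ ⊤ → NPC p L := by
    intro L hL
    refine ih (Nat.card L) ?_ L rfl (hsec.subgroup L)
    rw [← hcard]
    have := card_lt_card_of_lt (lt_top_iff_ne_top.2 hL)
    rwa [Subgroup.card_top] at this
  have hquo : ∀ (N : Subgroup G) [N.Normal], N ≠ ⊥ → NPC p (G ⧸ N) := by
    intro N _ hN
    refine ih (Nat.card (G ⧸ N)) ?_ (G ⧸ N) rfl
      (hsec.of_surjective (QuotientGroup.mk' N) (QuotientGroup.mk'_surjective N))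
    rw [← hcard, Subgroup.card_eq_card_quotient_mul_card_subgroup N]
    exact lt_mul_of_one_lt_right Nat.card_pos ((Subgroup.one_lt_card_iff_ne_bot N).2 hN)
  have hpp : ∀ N : Subgroup G, N.Normal → (Nat.card N).Coprime p → N = ⊥ := by
    intro N hN hc
    by_contra hne
    obtain ⟨T, hTn, hTc, k, hk⟩ := hquo N hne
    apply hnpc
    refine ⟨T.comap (QuotientGroup.mk' N), inferInstance, ?_, k, ?_⟩
    · rw [← card_mul_relIndex (le_comap_mk' N T), relIndex_comap_mk']
      exact Nat.Coprime.mul_left hc hTc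
    · rw [Subgroup.index_comap_of_surjective _ (QuotientGroup.mk'_surjective N), hk]
  have hcore : Cfsg.pPrimeCore p G = ⊥ :=
    eq_bot_iff.2 (sSup_le fun N hN => (hpp N hN.1 hN.2).le)
  obtain ⟨k, hk⟩ := hsec ⊤ G (⊤ : Subgroup G).subtype (fun x => ⟨⟨x, trivial⟩, rfl⟩) hcore
  have hnf : ¬ FrobCond p G := fun h => hnpc (npc_iff_frobCond.2 h)
  unfold FrobCond at hnf
  push Not at hnf
  obtain ⟨Q, hQ, g0, hg0N, hg0o, hg0C⟩ := hnf
  have hex : ∃ m : ℕ, ∃ g : G, (g ∈ Subgroup.normalizer (Q : Set G) ∧ (orderOf g).Coprime p ∧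
      g ∉ Subgroup.centralizer (Q : Set G)) ∧ orderOf g = m := ⟨_, g0, ⟨hg0N, hg0o, hg0C⟩, rfl⟩
  classical
  obtain ⟨g, ⟨hgN, hgo, hgC⟩, hgm⟩ := Nat.find_spec hex
  have hmin : ∀ g' : G, g' ∈ Subgroup.normalizer (Q : Set G) → (orderOf g').Coprime p →
      g' ∉ Subgroup.centralizer (Q : Set G) → orderOf g ≤ orderOf g' := fun g' h1 h2 h3 =>
    hgm ▸ Nat.find_min' hex ⟨g', ⟨h1, h2, h3⟩, rfl⟩
  have hg1 : orderOf g ≠ 1 := by
    intro h
    rw [orderOf_eq_one_iff] at h
    exact hgC (h ▸ Subgroup.one_mem _)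
  set r := (orderOf g).minFac with hr
  have hrp : r.Prime := Nat.minFac_prime hg1
  have : Fact r.Prime := ⟨hrp⟩
  have hrd : r ∣ orderOf g := Nat.minFac_dvd _
  have hrne : r ≠ p := by
    intro h
    have h1 : p ∣ orderOf g := h ▸ hrd
    exact hp.out.one_lt.ne' (Nat.Coprime.eq_one_of_dvd hgo.symm h1)
  have hgrC : g ^ r ∈ Subgroup.centralizer (Q : Set G) := by
    by_contra hc
    have h1 : orderOf (g ^ r) = orderOf g / r := orderOf_pow_of_dvd hrp.ne_zero hrd
    have h2 := hmin (g ^ r) (Subgroup.pow_mem _ hgN r)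
      (Nat.Coprime.coprime_dvd_left (h1 ▸ Nat.div_dvd_of_dvd hrd) hgo) hc
    rw [h1] at h2
    exact absurd h2 (not_le.2 (Nat.div_lt_self (orderOf_pos g) hrp.one_lt))
  have hgn : Subgroup.zpowers g ≤ Subgroup.normalizer (Q : Set G) := by
    rwa [Subgroup.zpowers_le]
  have hL : Q ⊔ Subgroup.zpowers g = ⊤ := by
    by_contra hL
    exact hgC (centralizes_of_frobCond_subgroup _ (frobCond_of_npc (hsub _ hL)) le_sup_left hQ
      (Subgroup.mem_sup_right (Subgroup.mem_zpowers g)) hgN hgo)
  have hQn : Q.Normal := by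
    rw [← Subgroup.normalizer_eq_top_iff, eq_top_iff, ← hL]
    exact sup_le Subgroup.le_normalizer hgn
  have hcen : ∀ z : G, (∀ q ∈ Q, q * z = z * q) → g * z = z * g → ∀ y : G, y * z = z * y := by
    intro z h1 h2 y
    have h3 : Q ⊔ Subgroup.zpowers g ≤ Subgroup.centralizer ({z} : Set G) := by
      apply sup_le
      · intro q hq
        rw [Subgroup.mem_centralizer_iff]
        intro z' hz'
        rw [Set.mem_singleton_iff] at hz'
        subst hz'
        exact (h1 q hq).symm
      · rw [Subgroup.zpowers_le, Subgroup.mem_centralizer_iff]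
        intro z' hz'
        rw [Set.mem_singleton_iff] at hz'
        subst hz'
        exact h2.symm
    rw [hL] at h3
    have h4 := h3 (Subgroup.mem_top y)
    rw [Subgroup.mem_centralizer_iff] at h4
    exact (h4 z rfl).symm
  have hnormal_of_central : ∀ D : Subgroup G, (∀ d ∈ D, ∀ y : G, y * d = d * y) → D.Normal := by
    intro D hD
    refine ⟨fun d hd y => ?_⟩
    rw [hD d hd y, mul_inv_cancel_right]
    exact hd
  -- the order of `g` is `r`
  have hgr : orderOf g = r := by
    have h1 : ∀ d ∈ Subgroup.zpowers (g ^ r), ∀ y : G, y * d = d * y := by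
      intro d hd y
      obtain ⟨i, rfl⟩ := Subgroup.mem_zpowers_iff.1 hd
      have h2 : ∀ y : G, y * g ^ r = g ^ r * y := by
        apply hcen
        · intro q hq
          exact (Subgroup.mem_centralizer_iff.1 hgrC) q hq
        · exact ((Commute.refl g).pow_right r).eq
      exact (Commute.zpow_right (h2 y) i).eq
    have h2 := hpp _ (hnormal_of_central _ h1) (by
      rw [Nat.card_zpowers]
      exact Nat.Coprime.coprime_dvd_left (orderOf_pow_dvd r) hgo)
    rw [Subgroup.zpowers_eq_bot] at h2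
    exact ((Nat.dvd_prime hrp).1 (orderOf_dvd_of_pow_eq_one h2)).resolve_left hg1
  -- the Frattini subgroup of `Q` is trivial
  have hfrat : frattini Q = ⊥ := by
    by_contra hne
    set Φ : Subgroup G := (frattini Q).map Q.subtype with hΦ
    have hΦn : Φ.Normal := ConjAct.normal_of_characteristic_of_normal
    have hΦne : Φ ≠ ⊥ := by
      intro h
      exact hne ((Subgroup.map_eq_bot_iff_of_injective _ Q.subtype_injective).1 h)
    have hF := frobCond_of_npc (hquo Φ hΦne)
    set β : MulAut Q := MulAut.conjNormal g with hβ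
    have hR : IsPGroup r (Subgroup.zpowers β) := by
      have h1 : IsPGroup r (Subgroup.zpowers g) :=
        IsPGroup.of_card (n := 1) (by rw [Nat.card_zpowers, hgr, pow_one])
      have h2 := h1.map (MulAut.conjNormal (H := Q))
      rwa [MonoidHom.map_zpowers] at h2
    have htriv : ∀ β' ∈ Subgroup.zpowers β, ∀ q : Q, q⁻¹ * β' q ∈ frattini Q := by
      intro β' hβ' q
      obtain ⟨i, rfl⟩ := Subgroup.mem_zpowers_iff.1 hβ'
      have h0 : (orderOf (g ^ i)).Coprime p :=
        Nat.Coprime.coprime_dvd_left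
          (orderOf_dvd_of_mem_zpowers (Subgroup.zpow_mem_zpowers g i)) hgo
      have h1 := comm_mem_of_frobCond_quotient Φ hF hQn hQ h0 q q.2
      have h2 := hΦn.conj_mem _ h1 (q : G)⁻¹
      obtain ⟨f, hf, hfe⟩ := h2
      have : f = q⁻¹ * (β ^ i) q := by
        apply Subtype.ext
        rw [hβ, ← map_zpow, Subgroup.coe_mul, Subgroup.coe_inv, MulAut.conjNormal_apply]
        rw [Subgroup.subtype_apply] at hfe
        rw [hfe]
        group
      rw [← this]
      exact hf
    have h1 := aut_trivial_of_trivial_on_frattini_quotient hQ _ hR hrne htriv β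
      (Subgroup.mem_zpowers β)
    apply hgC
    rw [Subgroup.mem_centralizer_iff]
    intro q hq
    have h2 : β ⟨q, hq⟩ = ⟨q, hq⟩ := by rw [h1]; rfl
    have h3 : g * q * g⁻¹ = q := by
      have := congrArg Subtype.val h2
      simpa [hβ] using this
    rw [mul_inv_eq_iff_eq_mul] at h3
    exact h3.symm
  have hQab : ∀ a ∈ Q, ∀ b ∈ Q, a * b = b * a := by
    intro a ha b hb
    have h1 : ⁅(⟨a, ha⟩ : Q), ⟨b, hb⟩⁆ ∈ commutator Q := by
      rw [commutator_def]
      exact Subgroup.commutator_mem_commutator (Subgroup.mem_top _) (Subgroup.mem_top _)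
    have h2 := Cfsg.Agent.Lib.Helper3.commutator_le_frattini hQ h1
    rw [hfrat, Subgroup.mem_bot, commutatorElement_eq_one_iff_mul_comm] at h2
    exact congrArg Subtype.val h2
  -- `g` has no nontrivial fixed point on `Q`
  have hD : ∀ d ∈ Q, g * d = d * g → d = 1 := by
    set D : Subgroup G := Q ⊓ Subgroup.centralizer ({g} : Set G) with hDdef
    have hDmem : ∀ d, d ∈ D ↔ d ∈ Q ∧ g * d = d * g := by
      intro d
      rw [hDdef, Subgroup.mem_inf, Subgroup.mem_centralizer_iff]
      constructor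
      · rintro ⟨h1, h2⟩
        exact ⟨h1, h2 g rfl⟩
      · rintro ⟨h1, h2⟩
        refine ⟨h1, fun z hz => ?_⟩
        rw [Set.mem_singleton_iff] at hz
        subst hz
        exact h2
    have hDc : ∀ d ∈ D, ∀ y : G, y * d = d * y := by
      intro d hd
      obtain ⟨h1, h2⟩ := (hDmem d).1 hd
      exact hcen d (fun q hq => hQab q hq d h1) h2
    have hDn : D.Normal := hnormal_of_central D hDc
    have hDbot : D = ⊥ := by
      by_contra hne
      have hF := frobCond_of_npc (hquo D hne)
      apply hgC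
      rw [Subgroup.mem_centralizer_iff]
      intro q hq
      have hc := comm_mem_of_frobCond_quotient D hF hQn hQ hgo q hq
      set c := g * q * g⁻¹ * q⁻¹ with hcdef
      have hcc := hDc c hc
      have hpow : ∀ n : ℕ, g ^ n * q * (g ^ n)⁻¹ = c ^ n * q := by
        intro n
        induction n with
        | zero => simp
        | succ n ihn =>
          have h1 : g ^ (n + 1) * q * (g ^ (n + 1))⁻¹ = g * (g ^ n * q * (g ^ n)⁻¹) * g⁻¹ := by
            rw [pow_succ']; group
          have h2 : g * c ^ n = c ^ n * g := (Commute.pow_right (hcc g) n).eq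
          rw [h1, ihn, ← mul_assoc, h2, pow_succ, hcdef]
          group
      have h1 := hpow r
      rw [← hgr, pow_orderOf_eq_one] at h1
      have h2 : c ^ orderOf g = 1 := by
        have : c ^ orderOf g * q = 1 * q := by rw [← h1]; group
        exact mul_right_cancel this
      obtain ⟨j, hj⟩ := hQ ⟨c, ((hDmem c).1 hc).1⟩
      have hj' : c ^ p ^ j = 1 := by simpa using congrArg Subtype.val hj
      have h3 : orderOf c = 1 := Nat.eq_one_of_dvd_coprimes (Nat.Coprime.pow_right j hgo)
        (orderOf_dvd_of_pow_eq_one h2) (orderOf_dvd_of_pow_eq_one hj')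
      rw [orderOf_eq_one_iff] at h3
      have h4 : g * q = c * (q * g) := by rw [hcdef]; group
      rw [h3, one_mul] at h4
      exact h4.symm
    intro d hd1 hd2
    have : d ∈ D := (hDmem d).2 ⟨hd1, hd2⟩
    rwa [hDbot, Subgroup.mem_bot] at this
  -- the final contradiction
  have hQne : Q ≠ ⊥ := by
    rintro rfl
    apply hgC
    rw [Subgroup.mem_centralizer_iff]
    intro q hq
    have : q = 1 := by simpa using hq
    subst this
    simp
  have hpQ : p ∣ Nat.card Q := by
    rcases hQ.card_eq_or_dvd with h1 | h1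
    · exact absurd (Subgroup.card_eq_one.1 h1) hQne
    · exact h1
  obtain ⟨x, hx⟩ := exists_prime_orderOf_dvd_card' p hpQ
  have hpk : p ∣ orderOf k := by
    rw [hk, ← hx, ← Subgroup.orderOf_coe]
    exact Monoid.order_dvd_exponent _
  have hrk : r ∣ orderOf k := by
    rw [hk, ← hgr]
    exact Monoid.order_dvd_exponent _
  have hu : orderOf (k ^ (orderOf k / p)) = p := orderOf_pow_orderOf_div (orderOf_pos k).ne' hpk
  have hw : orderOf (k ^ (orderOf k / r)) = r := orderOf_pow_orderOf_div (orderOf_pos k).ne' hrk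
  set u := k ^ (orderOf k / p) with hudef
  set w := k ^ (orderOf k / r) with hwdef
  have huw : u * w = w * u := ((Commute.refl k).pow_pow _ _).eq
  have hQg : Q ⊓ Subgroup.zpowers g = ⊥ := by
    obtain ⟨a, ha⟩ := IsPGroup.iff_card.1 hQ
    have : Disjoint Q (Subgroup.zpowers g) := Subgroup.disjoint_of_coprime_natCard
      (by rw [ha, Nat.card_zpowers]; exact (Nat.Coprime.pow_right a hgo).symm)
    exact this.eq_bot
  have hidx : Q.index = r ^ 1 := by
    rw [index_eq_card_of_normal hQg hL, Nat.card_zpowers, hgr, pow_one]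
  have hpr : p.Coprime r := (Nat.coprime_primes hp.out hrp).2 hrne.symm
  have huQ : u ∈ Q := mem_of_coprime_of_index_pow Q hidx u (by rw [hu]; exact hpr)
  have hwG : w ∈ Q ⊔ Subgroup.zpowers g := by rw [hL]; trivial
  rw [Subgroup.mem_sup_of_normal_left] at hwG
  obtain ⟨q, hq, z, hz, hqz⟩ := hwG
  have hz1 : z ≠ 1 := by
    rintro rfl
    rw [mul_one] at hqz
    obtain ⟨j, hj⟩ := hQ ⟨q, hq⟩
    have hj' : q ^ p ^ j = 1 := by simpa using congrArg Subtype.val hj
    have h1 : r ∣ p ^ j := by
      rw [← hw, ← hqz]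
      exact orderOf_dvd_of_pow_eq_one hj'
    exact hrne ((Nat.prime_dvd_prime_iff_eq hrp hp.out).1 (hrp.dvd_of_dvd_pow h1))
  have huz : u * z = z * u := by
    have h1 : u * (q * z) = q * z * u := by rw [hqz]; exact huw
    rw [← mul_assoc, hQab u huQ q hq, mul_assoc, mul_assoc] at h1
    exact mul_left_cancel h1
  have hzo : orderOf z = r := by
    have h1 : orderOf z ∣ r := hgr ▸ orderOf_dvd_of_mem_zpowers hz
    exact ((Nat.dvd_prime hrp).1 h1).resolve_left (fun h => hz1 (orderOf_eq_one_iff.1 h))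
  have hzg : Subgroup.zpowers z = Subgroup.zpowers g := by
    apply Subgroup.eq_of_le_of_card_ge
    · rwa [Subgroup.zpowers_le]
    · rw [Nat.card_zpowers, Nat.card_zpowers, hzo, hgr]
  have hgz : g ∈ Subgroup.zpowers z := hzg ▸ Subgroup.mem_zpowers g
  obtain ⟨i, hi⟩ := Subgroup.mem_zpowers_iff.1 hgz
  have hug : g * u = u * g := by
    rw [← hi]
    exact (Commute.zpow_right (show Commute u z from huz) i).eq.symm
  have hu1 := hD u huQ hug
  rw [hu1, orderOf_one] at hu
  exact hp.out.one_lt.ne hu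

/-- Let G be a finite group and p a prime. Then G has a normal p-complement if and only if every section K = H/N of G (N a normal subgroup of a subgroup H) whose largest normal subgroup of order prime to p is trivial contains an element whose order equals the exponent of K. -/
theorem result {G : Type*} [Group G] [Finite G] (p : ℕ) [Fact p.Prime] :
    Cfsg.HasNormalPComplement p G ↔
      ∀ (H : Subgroup G) (N : Subgroup H) [N.Normal], Cfsg.pPrimeCore p (H ⧸ N) = ⊥ →
        ∃ k : H ⧸ N, orderOf k = Monoid.exponent (H ⧸ N) := by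
  have hiff : Cfsg.HasNormalPComplement p G ↔ NPC p G := by
    constructor
    · rintro ⟨P, N, hN, hc⟩
      obtain ⟨h1, h2⟩ := npc_of_isComplement' P hc
      exact ⟨N, hN, h1, h2⟩
    · rintro ⟨K, hKn, hKc, k, hk⟩
      obtain ⟨P⟩ : Nonempty (Sylow p G) := inferInstance
      exact ⟨P, K, hKn, isComplement'_of_npc hKc hk P⟩
  rw [hiff]
  constructor
  · intro h H N _ hcore
    obtain ⟨T, hTn, hTc, k, hk⟩ := NPC.of_surjective (NPC.subgroup h H) (QuotientGroup.mk' N)
      (QuotientGroup.mk'_surjective N)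
    have hT : T = ⊥ := by
      have := le_pPrimeCore hTn hTc
      rwa [hcore, le_bot_iff] at this
    apply exists_orderOf_eq_exponent_of_isPGroup (p := p)
    apply IsPGroup.of_card (n := k)
    rw [← hk, hT, Subgroup.index_bot]
  · intro h
    refine npc_of_sec p _ G rfl ?_
    intro H K _ f hf hK
    let e : H ⧸ f.ker ≃* K := QuotientGroup.quotientKerEquivOfSurjective f hf
    have h1 : Cfsg.pPrimeCore p (H ⧸ f.ker) = ⊥ := by
      rw [← map_pPrimeCore e.symm, hK, Subgroup.map_bot]
    obtain ⟨k, hk⟩ := h H f.ker h1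
    exact ⟨e k, by rw [MulEquiv.orderOf_eq, hk, Monoid.exponent_eq_of_mulEquiv e]⟩

end Cfsg.Agent.S4238
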