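import Cfsg.Statements.S4242
-- import your own Cfsg.Agent.* helpers here
import Cfsg.Agent.Lib.Helper74.Fitting
import Cfsg.Agent.Lib.Helper31.Nilpotent
import Cfsg.Agent.Lib.Helper77.Frobenius

set_option autoImplicit false
open Cfsg

namespace Cfsg.Agent.S4242


open Cfsg.Agent.Lib.Helper74 Cfsg.Agent.Lib.Helper31 Cfsg.Agent.Lib.Helper77
open scoped Pointwise

theorem isNilpotent_of_injective {A B : Type*} [Group A] [Group B] (f : A →* B)
    (hf : Function.Injective f) (hB : Group.IsNilpotent B) : Group.IsNilpotent A :=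
  Subgroup.isNilpotent_of_ker_le_center f
    (by rw [(MonoidHom.ker_eq_bot_iff f).2 hf]; exact bot_le)

theorem isNilpotent_of_le {G : Type*} [Group G] {H M : Subgroup G} (h : H ≤ M)
    (hM : Group.IsNilpotent M) : Group.IsNilpotent H :=
  isNilpotent_of_injective (Subgroup.inclusion h) (Subgroup.inclusion_injective h) hM

theorem nil_map {G : Type*} [Group G] {K : Subgroup G} (H : Subgroup K) :
    Group.IsNilpotent H ↔ Group.IsNilpotent (H.map K.subtype) :=
  Group.isNilpotent_congr (H.equivMapOfInjective K.subtype K.subtype_injective)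

theorem nil_subgroupOf {G : Type*} [Group G] (H K : Subgroup G) :
    Group.IsNilpotent (H.subgroupOf K) ↔ Group.IsNilpotent ↥(H ⊓ K) := by
  rw [nil_map, Subgroup.subgroupOf_map_subtype]

theorem commute_of_mem_nilpotent {G : Type*} [Group G] {L : Subgroup G} (hL : Group.IsNilpotent L)
    {a b : G} (ha : a ∈ L) (hb : b ∈ L) (hab : (orderOf a).Coprime (orderOf b)) :
    a * b = b * a := by
  have h := commute_of_coprime_orderOf L ⟨a, ha⟩ ⟨b, hb⟩
    (by rwa [Subgroup.orderOf_mk, Subgroup.orderOf_mk])
  exact congrArg Subtype.val h.eq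

theorem le_of_sup_eq_top {G : Type*} [Group G] {Z K H : Subgroup G} (hZK : Z ⊓ K = ⊥)
    (hHK : H ≤ K) (hn : Z ≤ Subgroup.normalizer (H : Set G)) (hs : H ⊔ Z = ⊤) : K ≤ H := by
  intro k hk
  have h1 : k ∈ ((H ⊔ Z : Subgroup G) : Set G) := by rw [hs]; trivial
  rw [Subgroup.coe_mul_of_right_le_normalizer_left H Z hn] at h1
  obtain ⟨a, ha, z, hz, rfl⟩ := h1
  have hzK : z ∈ K := by
    have := K.mul_mem (K.inv_mem (hHK ha)) hk
    simpa using this
  have : z ∈ Z ⊓ K := ⟨hz, hzK⟩
  rw [hZK, Subgroup.mem_bot] at this
  subst this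
  simpa using ha

theorem index_eq_card_of_normal {G : Type*} [Group G] {Z K : Subgroup G} [Z.Normal]
    (hZK : Z ⊓ K = ⊥) (hs : Z ⊔ K = ⊤) : Z.index = Nat.card K := by
  rw [← Subgroup.relIndex_top_right, ← hs, sup_comm, Subgroup.relIndex_sup_right,
    ← Subgroup.inf_relIndex_right, hZK, Subgroup.relIndex_bot_left]

/-- Let G be a finite group and p a prime dividing its order. Every maximal subgroup of G of order divisible by p is nilpotent if and only if G is nilpotent, or G is a minimal non-nilpotent group, or G is the internal direct product of a normal subgroup of order p and a normal minimal non-nilpotent subgroup of order prime to p. -/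
theorem result {G : Type*} [Group G] [Finite G] (p : ℕ) (hp : p.Prime) (hpG : p ∣ Nat.card G) :
    (∀ M : Subgroup G, IsCoatom M → p ∣ Nat.card M → Group.IsNilpotent M) ↔
      (Group.IsNilpotent G ∨ Cfsg.IsMinimalNonNilpotent G ∨
        ∃ Z K : Subgroup G, Z.Normal ∧ K.Normal ∧ Z ⊓ K = ⊥ ∧ Z ⊔ K = ⊤ ∧ Nat.card Z = p ∧
          Cfsg.IsMinimalNonNilpotent K ∧ ¬ p ∣ Nat.card K) := by
  have : Fact p.Prime := ⟨hp⟩
  constructor
  · intro h
    by_cases hG : Group.IsNilpotent G
    · exact Or.inl hG
    by_cases hmin : Cfsg.IsMinimalNonNilpotent G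
    · exact Or.inr (Or.inl hmin)
    refine Or.inr (Or.inr ?_)
    have hex : ∃ H : Subgroup G, H ≠ ⊤ ∧ ¬ Group.IsNilpotent H := by
      by_contra hcon
      push Not at hcon
      exact hmin ⟨hG, hcon⟩
    obtain ⟨H, hH, hHn⟩ := hex
    obtain ⟨K, hK, hHK⟩ := (eq_top_or_exists_le_coatom H).resolve_left hH
    have hKn : ¬ Group.IsNilpotent K := fun hc => hHn (isNilpotent_of_le hHK hc)
    have hpK : ¬ p ∣ Nat.card K := fun hc => hKn (h K hK hc)
    have hcop : (Nat.card K).Coprime p := ((Nat.Prime.coprime_iff_not_dvd hp).2 hpK).symm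
    have claimA : ∀ L : Subgroup G, L ≠ ⊤ → p ∣ Nat.card L → Group.IsNilpotent L := by
      intro L hL hpL
      obtain ⟨M, hM, hLM⟩ := (eq_top_or_exists_le_coatom L).resolve_left hL
      exact isNilpotent_of_le hLM (h M hM (hpL.trans (Subgroup.card_dvd_of_le hLM)))
    have hfrob : FrobCond p G := by
      intro Q hQ g hg hgo
      by_cases hQ1 : Q = ⊥
      · subst hQ1
        rw [Subgroup.mem_centralizer_iff]
        intro q hq
        have : q = 1 := by simpa using hq
        subst this
        simp
      have hpQ : p ∣ Nat.card Q := by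
        rcases hQ.card_eq_or_dvd with h1 | h1
        · exact absurd (Subgroup.card_eq_one.1 h1) hQ1
        · exact h1
      have hgn : Subgroup.zpowers g ≤ Subgroup.normalizer (Q : Set G) := by
        rwa [Subgroup.zpowers_le]
      by_cases hL : Q ⊔ Subgroup.zpowers g = ⊤
      · exfalso
        have hQn : Q.Normal := by
          rw [← Subgroup.normalizer_eq_top_iff, eq_top_iff, ← hL]
          exact sup_le Subgroup.le_normalizer hgn
        have hcyc : IsCyclic (G ⧸ Q) := by
          refine ⟨QuotientGroup.mk' Q g, fun y => ?_⟩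
          obtain ⟨a, rfl⟩ := QuotientGroup.mk'_surjective Q y
          have h1 : a ∈ ((Q ⊔ Subgroup.zpowers g : Subgroup G) : Set G) := by rw [hL]; trivial
          rw [Subgroup.coe_mul_of_right_le_normalizer_left Q _ hgn] at h1
          obtain ⟨q, hq, z, hz, rfl⟩ := h1
          obtain ⟨i, rfl⟩ := Subgroup.mem_zpowers_iff.1 hz
          refine Subgroup.mem_zpowers_iff.2 ⟨i, ?_⟩
          rw [map_mul, map_zpow]
          have : QuotientGroup.mk' Q q = 1 := (QuotientGroup.eq_one_iff q).2 hq
          rw [this, one_mul]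
        have hnilq : Group.IsNilpotent (G ⧸ Q) := by
          letI := IsCyclic.commGroup (α := G ⧸ Q)
          exact CommGroup.isNilpotent
        apply hKn
        refine isNilpotent_of_injective ((QuotientGroup.mk' Q).comp K.subtype) ?_ hnilq
        rw [injective_iff_map_eq_one]
        intro k hk
        have hkQ : (k : G) ∈ Q := (QuotientGroup.eq_one_iff (k : G)).1 hk
        obtain ⟨n, hn⟩ := IsPGroup.iff_card.1 hQ
        have hdis : Disjoint K Q := Subgroup.disjoint_of_coprime_natCard
          (by rw [hn]; exact Nat.Coprime.pow_right n hcop)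
        have := hdis.le_bot ⟨k.2, hkQ⟩
        exact Subtype.ext (by simpa using this)
      · have hLnil := claimA _ hL (hpQ.trans (Subgroup.card_dvd_of_le le_sup_left))
        rw [Subgroup.mem_centralizer_iff]
        intro q hq
        apply commute_of_mem_nilpotent hLnil (Subgroup.mem_sup_left hq)
          (Subgroup.mem_sup_right (Subgroup.mem_zpowers g))
        obtain ⟨k, hk⟩ := hQ ⟨q, hq⟩
        have hk' : q ^ p ^ k = 1 := by simpa using congrArg Subtype.val hk
        exact Nat.Coprime.coprime_dvd_left (orderOf_dvd_of_pow_eq_one hk')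
          (Nat.Coprime.pow_left k hgo.symm)
    obtain ⟨T, hTn, hTc, k, hk⟩ := npc_iff_frobCond.2 hfrob
    have hKT : K ≤ T := by
      intro y hy
      exact mem_of_coprime_of_index_pow T hk y
        (Nat.Coprime.coprime_dvd_left (Subgroup.orderOf_dvd_natCard K hy) hcop)
    have hT : T ≠ ⊤ := by
      rintro rfl
      rw [Subgroup.card_top] at hTc
      exact (Nat.Prime.coprime_iff_not_dvd hp).1 hTc.symm hpG
    have hTK : T = K := (hK.le_iff.1 hKT).resolve_left hT
    subst hTK
    obtain ⟨x, hx⟩ := exists_prime_orderOf_dvd_card' p hpG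
    have hxK : x ∉ T := fun hc => hpK (hx ▸ Subgroup.orderOf_dvd_natCard T hc)
    have hZc : Nat.card (Subgroup.zpowers x) = p := by rw [Nat.card_zpowers, hx]
    have hZK : Subgroup.zpowers x ⊓ T = ⊥ := by
      have : Disjoint (Subgroup.zpowers x) T := Subgroup.disjoint_of_coprime_natCard
        (by rw [hZc]; exact hcop.symm)
      exact this.eq_bot
    have hs : Subgroup.zpowers x ⊔ T = ⊤ := by
      apply hK.2
      refine lt_of_le_of_ne le_sup_right ?_
      intro hc
      apply hxK
      rw [hc]
      exact Subgroup.mem_sup_left (Subgroup.mem_zpowers x)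
    have hord : ∀ y ∈ T, (orderOf y).Coprime (orderOf x) := by
      intro y hy
      rw [hx]
      exact Nat.Coprime.coprime_dvd_left (Subgroup.orderOf_dvd_natCard T hy) hcop
    have hsyl : ∀ r : ℕ, r.Prime → ∃ R : Sylow r T, ∀ y ∈ R, (y : G) * x = x * y := by
      intro r hr
      have : Fact r.Prime := ⟨hr⟩
      set φ : MulAut T := MulAut.conjNormal x with hφ
      have hA : IsPGroup p (Subgroup.zpowers φ) := by
        have h1 : IsPGroup p (Subgroup.zpowers x) := IsPGroup.of_card (n := 1) (by rw [hZc, pow_one])
        have h2 := h1.map (MulAut.conjNormal (H := T))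
        rwa [MonoidHom.map_zpowers] at h2
      have hnd : ¬ p ∣ Nat.card (Sylow r T) := by
        intro hc
        obtain R0 : Sylow r T := default
        exact hpK ((hc.trans (Sylow.card_dvd_index R0)).trans (Subgroup.index_dvd_card _))
      obtain ⟨R, hR⟩ := hA.nonempty_fixed_point_of_prime_not_dvd_card (Sylow r T) hnd
      have hR1 : φ • R = R := hR ⟨φ, Subgroup.mem_zpowers φ⟩
      have hR2 : φ • (R : Subgroup T) = R := by
        rw [← Sylow.pointwise_smul_def, hR1]
      have hφR : ∀ y : T, φ y ∈ (R : Subgroup T) ↔ y ∈ (R : Subgroup T) := by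
        intro y
        conv_lhs => rw [← hR2]
        exact Subgroup.smul_mem_pointwise_smul_iff
      refine ⟨R, ?_⟩
      set R' : Subgroup G := (R : Subgroup T).map T.subtype with hR'
      have hxn : x ∈ Subgroup.normalizer (R' : Set G) := by
        rw [Subgroup.mem_normalizer_iff]
        intro y
        constructor
        · rintro ⟨y, hy, rfl⟩
          exact ⟨φ y, (hφR y).2 hy, by simp [hφ]⟩
        · rintro ⟨z, hz, hzy⟩
          have hyT : y ∈ T := by
            have h1 := hTn.conj_mem _ z.2 x⁻¹
            have h2 : (z : G) = x * y * x⁻¹ := hzy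
            rw [h2] at h1
            simpa [mul_assoc] using h1
          refine ⟨⟨y, hyT⟩, (hφR _).1 ?_, rfl⟩
          have : φ ⟨y, hyT⟩ = z := Subtype.ext (by simp [hφ]; exact hzy.symm)
          rw [this]; exact hz
      have hZn : Subgroup.zpowers x ≤ Subgroup.normalizer (R' : Set G) := by
        rwa [Subgroup.zpowers_le]
      have hR'T : R' ≤ T := by
        rintro _ ⟨y, _, rfl⟩; exact y.2
      have hL : R' ⊔ Subgroup.zpowers x ≠ ⊤ := by
        intro hc
        have h1 := le_of_sup_eq_top hZK hR'T hZn hc
        apply hKn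
        have h2 : IsPGroup r T := by
          intro y
          obtain ⟨z, hz, hzy⟩ := h1 y.2
          have hzy' : z = y := Subtype.ext hzy
          subst hzy'
          obtain ⟨n, hn⟩ := R.2 ⟨z, hz⟩
          exact ⟨n, by simpa using congrArg Subtype.val hn⟩
        exact h2.isNilpotent
      have hLnil := claimA _ hL (hx ▸ Subgroup.orderOf_dvd_natCard _
        (Subgroup.mem_sup_right (Subgroup.mem_zpowers x)))
      intro y hy
      exact commute_of_mem_nilpotent hLnil (Subgroup.mem_sup_left ⟨y, hy, rfl⟩)
        (Subgroup.mem_sup_right (Subgroup.mem_zpowers x)) (hord y y.2)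
    have hcent : ∀ y ∈ T, y * x = x * y := by
      set C : Subgroup T := (Subgroup.centralizer ({x} : Set G)).subgroupOf T with hC
      have hCi : C.index = 1 := by
        by_contra hne
        obtain ⟨r, hr, hrd⟩ := Nat.exists_prime_and_dvd hne
        have : Fact r.Prime := ⟨hr⟩
        obtain ⟨R, hR⟩ := hsyl r hr
        have hRC : (R : Subgroup T) ≤ C := by
          intro y hy
          rw [hC, Subgroup.mem_subgroupOf, Subgroup.mem_centralizer_iff]
          intro z hz
          rw [Set.mem_singleton_iff] at hz
          subst hz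
          exact (hR y hy).symm
        exact R.not_dvd_index (hrd.trans (Subgroup.index_dvd_of_le hRC))
      rw [Subgroup.index_eq_one] at hCi
      intro y hy
      have h1 : (⟨y, hy⟩ : T) ∈ C := by rw [hCi]; trivial
      rw [hC, Subgroup.mem_subgroupOf, Subgroup.mem_centralizer_iff] at h1
      exact (h1 x rfl).symm
    have hcentG : ∀ g : G, g * x = x * g := by
      intro g
      have h1 : g ∈ Subgroup.centralizer ({x} : Set G) := by
        have h2 : Subgroup.zpowers x ⊔ T ≤ Subgroup.centralizer ({x} : Set G) := by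
          apply sup_le
          · rw [Subgroup.zpowers_le, Subgroup.mem_centralizer_iff]
            intro z hz
            rw [Set.mem_singleton_iff] at hz
            subst hz; rfl
          · intro y hy
            rw [Subgroup.mem_centralizer_iff]
            intro z hz
            rw [Set.mem_singleton_iff] at hz
            subst hz
            exact (hcent y hy).symm
        rw [hs] at h2
        exact h2 trivial
      rw [Subgroup.mem_centralizer_iff] at h1
      exact (h1 x rfl).symm
    have hcentZ : ∀ z ∈ Subgroup.zpowers x, ∀ g : G, g * z * g⁻¹ = z := by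
      intro z hz g
      obtain ⟨i, rfl⟩ := Subgroup.mem_zpowers_iff.1 hz
      have : Commute g (x ^ i) := Commute.zpow_right (hcentG g) i
      rw [this.eq, mul_inv_cancel_right]
    have hZn : (Subgroup.zpowers x).Normal := ⟨fun z hz g => by rw [hcentZ z hz g]; exact hz⟩
    refine ⟨Subgroup.zpowers x, T, hZn, hTn, hZK, hs, hZc, ⟨hKn, ?_⟩, hpK⟩
    intro H' hH'
    rw [nil_map]
    have hle : H'.map T.subtype ≤ T := by
      rintro _ ⟨y, _, rfl⟩; exact y.2
    have hL : H'.map T.subtype ⊔ Subgroup.zpowers x ≠ ⊤ := by
      intro hc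
      have hn : Subgroup.zpowers x ≤ Subgroup.normalizer ((H'.map T.subtype : Subgroup G) : Set G) := by
        intro z hz
        rw [Subgroup.mem_normalizer_iff]
        intro y
        have : z * y * z⁻¹ = y := by
          have h1 := hcentZ z hz y
          calc z * y * z⁻¹ = (y * z * y⁻¹) * y * z⁻¹ := by rw [h1]
            _ = y := by group
        rw [this]
      have h1 := le_of_sup_eq_top hZK hle hn hc
      apply hH'
      rw [eq_top_iff]
      intro y _
      obtain ⟨z, hz, hzy⟩ := h1 y.2
      have hzy' : z = y := Subtype.ext hzy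
      exact hzy' ▸ hz
    exact isNilpotent_of_le le_sup_left (claimA _ hL (hx ▸ Subgroup.orderOf_dvd_natCard _
        (Subgroup.mem_sup_right (Subgroup.mem_zpowers x))))
  · rintro (hG | hG | ⟨Z, K, hZn, hKn, hZK, hs, hZc, hKm, hpK⟩) M hM hpM
    · exact inferInstance
    · exact hG.2 M hM.1
    · obtain ⟨y, hy⟩ := exists_prime_orderOf_dvd_card' p hpM
      have hyo : orderOf (y : G) = p := by rw [Subgroup.orderOf_coe, hy]
      have hyZ : (y : G) ∈ Z := by
        have h1 : (y : G) ^ Z.index ∈ Z := Z.pow_index_mem _
        have h2 : (Z.index).Coprime (orderOf (y : G)) := by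
          rw [index_eq_card_of_normal hZK hs, hyo]
          exact ((Nat.Prime.coprime_iff_not_dvd hp).2 hpK).symm
        obtain ⟨m, hm⟩ := exists_pow_eq_self_of_coprime h2
        rw [← hm]
        exact Z.pow_mem h1 m
      have hZeq : Subgroup.zpowers (y : G) = Z := by
        apply Subgroup.eq_of_le_of_card_ge
        · rwa [Subgroup.zpowers_le]
        · rw [Nat.card_zpowers, hyo, hZc]
      have hZM : Z ≤ M := by
        rw [← hZeq, Subgroup.zpowers_le]; exact y.2
      have hZ'nil : Group.IsNilpotent (Z.subgroupOf M) := by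
        have : IsPGroup p Z := IsPGroup.of_card (n := 1) (by rw [hZc, pow_one])
        exact (this.comap_subtype).isNilpotent
      have hK'nil : Group.IsNilpotent (K.subgroupOf M) := by
        rw [nil_subgroupOf, inf_comm, ← nil_subgroupOf]
        apply hKm.2
        intro htop
        rw [Subgroup.subgroupOf_eq_top] at htop
        exact hM.1 (top_le_iff.1 (hs ▸ sup_le hZM htop))
      have hsup : Z.subgroupOf M ⊔ K.subgroupOf M = ⊤ := by
        rw [eq_top_iff]
        intro m _
        have h1 : (m : G) ∈ Z ⊔ K := by rw [hs]; trivial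
        rw [Subgroup.mem_sup_of_normal_left] at h1
        obtain ⟨z, hz, k, hk, hzk⟩ := h1
        have hkM : k ∈ M := by
          have := M.mul_mem (M.inv_mem (hZM hz)) m.2
          rw [← hzk] at this
          simpa using this
        have : m = (⟨z, hZM hz⟩ : M) * ⟨k, hkM⟩ := Subtype.ext hzk.symm
        rw [this]
        exact Subgroup.mul_mem_sup (Subgroup.mem_subgroupOf.2 hz) (Subgroup.mem_subgroupOf.2 hk)
      exact isNilpotent_of_normal_sup_eq_top_aux _ M rfl (Z.subgroupOf M) (K.subgroupOf M)
        inferInstance inferInstance hZ'nil hK'nil hsup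

end Cfsg.Agent.S4242
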