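import Cfsg.Statements.S4244
-- import your own Cfsg.Agent.* helpers here

set_option autoImplicit false
open Cfsg

namespace Cfsg.Agent.S4244

theorem relIndex_dvd_index_of_normal_right {G : Type*} [Group G] [Finite G] (K N : Subgroup G)
    [N.Normal] : K.relIndex N ∣ K.index := by
  have h1 : K.relIndex N * N.index = (N ⊓ K).index := by
    rw [← Subgroup.inf_relIndex_left N K]
    exact Subgroup.relIndex_mul_index inf_le_left
  have h2 : N.relIndex K * K.index = (N ⊓ K).index := by
    rw [← Subgroup.inf_relIndex_right N K]
    exact Subgroup.relIndex_mul_index inf_le_right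
  have h3 : N.relIndex K * (K ⊔ N).index = N.index := by
    rw [← Subgroup.relIndex_sup_right K N]
    exact Subgroup.relIndex_mul_index le_sup_right
  have h0 : N.relIndex K ≠ 0 := Subgroup.index_ne_zero_of_finite
  refine ⟨(K ⊔ N).index, ?_⟩
  apply Nat.eq_of_mul_eq_mul_left (Nat.pos_of_ne_zero h0)
  rw [h2, ← h1, ← h3]
  ring

theorem relIndex_dvd_index_of_isSubnormal {G : Type*} [Group G] [Finite G] (K : Subgroup G)
    {H : Subgroup G} (hH : H.IsSubnormal) : K.relIndex H ∣ K.index := by
  induction hH with
  | top => simp
  | step H L hle _ hN ih =>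
    refine dvd_trans ?_ ih
    have := relIndex_dvd_index_of_normal_right (K.subgroupOf L) (H.subgroupOf L)
    rwa [Subgroup.relIndex_subgroupOf hle] at this

/-- Let H be a subnormal subgroup of a finite group G. Then for every subgroup K of G the index of H ∩ K in H divides the index of K in G. -/
theorem result {G : Type*} [Group G] [Finite G] (H : Subgroup G) (hH : H.IsSubnormal) (K : Subgroup G) :
    (H ⊓ K).relIndex H ∣ K.index := by
  rw [Subgroup.inf_relIndex_left]
  exact relIndex_dvd_index_of_isSubnormal K hH

end Cfsg.Agent.S4244
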