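import Cfsg.Statements.S4251
-- import your own Cfsg.Agent.* helpers here
import Cfsg.Agent.Lib.Helper40.Alperin
import Cfsg.Agent.S0071

set_option autoImplicit false
open Cfsg

namespace Cfsg.Agent.S4251

open Cfsg.Agent.Lib.Helper40

theorem exists_mul_of_pGroup_automizer {G : Type*} [Group G] [Finite G] {p : ℕ} [Fact p.Prime]
    (S D : Subgroup G)
    (ht : ¬ p ∣ (S ⊓ Subgroup.normalizer (D : Set G)).relIndex (Subgroup.normalizer (D : Set G)))
    (hp : IsPGroup p (Subgroup.normalizer (D : Set G) ⧸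
      (Subgroup.centralizer (D : Set G)).subgroupOf (Subgroup.normalizer (D : Set G))))
    {x : G} (hx : x ∈ Subgroup.normalizer (D : Set G)) :
    ∃ c ∈ Subgroup.centralizer (D : Set G), ∃ s ∈ S, c * s = x := by
  set N := Subgroup.normalizer (D : Set G) with hN
  set C' := (Subgroup.centralizer (D : Set G)).subgroupOf N with hC'
  set S' := (S ⊓ N).subgroupOf N with hS'
  have htop : C' ⊔ S' = ⊤ := by
    rw [← Subgroup.index_eq_one]
    obtain ⟨j, hj⟩ := hp.exists_card_eq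
    have h1 : (C' ⊔ S').index ∣ p ^ j := by
      rw [← hj, ← Subgroup.index_eq_card]
      exact Subgroup.index_dvd_of_le le_sup_left
    have h2 : (C' ⊔ S').index ∣ S'.index := Subgroup.index_dvd_of_le le_sup_right
    have hcop : Nat.Coprime (p ^ j) S'.index :=
      Nat.Coprime.pow_left j ((Nat.Prime.coprime_iff_not_dvd (Fact.out : p.Prime)).mpr ht)
    exact Nat.eq_one_of_dvd_coprimes hcop h1 h2
  have hxm : (⟨x, hx⟩ : N) ∈ C' ⊔ S' := by rw [htop]; trivial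
  obtain ⟨c, hc, s, hs, hcs⟩ := Subgroup.mem_sup_of_normal_left.mp hxm
  refine ⟨c, Subgroup.mem_subgroupOf.mp hc, s, (Subgroup.mem_subgroupOf.mp hs).1, ?_⟩
  exact congrArg Subtype.val hcs

theorem dec_exists_conj {G : Type*} [Group G] [Finite G] {p : ℕ} [Fact p.Prime] (P : Sylow p G)
    (h : ∀ (Q : Sylow p G) (x : G), (P : Subgroup G) ⊓ (Q : Subgroup G) ≠ ⊥ → AStep P Q x →
      ∃ c ∈ Subgroup.centralizer (((P : Subgroup G) ⊓ (Q : Subgroup G) : Subgroup G) : Set G),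
        ∃ s ∈ (P : Subgroup G), c * s = x)
    {A : Set G} {g : G} (hd : Dec (adom P) (AStep P) A g) (hA : ∃ a ∈ A, a ≠ 1) :
    ∃ y ∈ (P : Subgroup G), ∀ a ∈ A, g⁻¹ * a * g = y⁻¹ * a * y := by
  induction hd with
  | nil A => exact ⟨1, Subgroup.one_mem _, fun a _ => rfl⟩
  | @cons A Q x g hs hAD _ ih =>
    obtain ⟨a₀, ha₀, ha₀1⟩ := hA
    have hne : (P : Subgroup G) ⊓ (Q : Subgroup G) ≠ ⊥ := by
      intro hbot
      have : a₀ ∈ (P : Subgroup G) ⊓ (Q : Subgroup G) := hAD ha₀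
      rw [hbot, Subgroup.mem_bot] at this
      exact ha₀1 this
    obtain ⟨c, hc, s, hsP, hcs⟩ := h Q x hne hs
    have hconj : ∀ a ∈ A, x⁻¹ * a * x = s⁻¹ * a * s := by
      intro a ha
      have hca : a * c = c * a := (Subgroup.mem_centralizer_iff.mp hc) a (hAD ha)
      rw [← hcs]
      calc (c * s)⁻¹ * a * (c * s) = s⁻¹ * (c⁻¹ * (a * c)) * s := by group
        _ = s⁻¹ * a * s := by rw [hca]; group
    obtain ⟨y, hy, hyc⟩ := ih ⟨x⁻¹ * a₀ * x, ⟨a₀, ha₀, rfl⟩, by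
      intro h1
      apply ha₀1
      have : a₀ = x * (x⁻¹ * a₀ * x) * x⁻¹ := by group
      rw [this, h1]; group⟩
    refine ⟨s * y, Subgroup.mul_mem _ hsP hy, fun a ha => ?_⟩
    have h1 := hyc (x⁻¹ * a * x) ⟨a, ha, rfl⟩
    calc (x * g)⁻¹ * a * (x * g) = g⁻¹ * (x⁻¹ * a * x) * g := by group
      _ = y⁻¹ * (x⁻¹ * a * x) * y := h1
      _ = y⁻¹ * (s⁻¹ * a * s) * y := by rw [hconj a ha]
      _ = (s * y)⁻¹ * a * (s * y) := by group

/-- Let P be a Sylow p-subgroup of a finite group G. Call an intersection H = P ∩ Q with a Sylow p-subgroup Q tame when N_P(H) and N_Q(H) are Sylow p-subgroups of N_G(H). If N_G(H)/C_G(H) is a p-group for every nontrivial tame intersection H = P ∩ Q, then G has a normal p-complement. -/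
theorem result {G : Type*} [Group G] [Finite G] (p : ℕ) [Fact p.Prime] (P : Sylow p G)
    (h : ∀ Q : Sylow p G, (P : Subgroup G) ⊓ (Q : Subgroup G) ≠ ⊥ → (¬ p ∣ ((P : Subgroup G) ⊓ Subgroup.normalizer (((P : Subgroup G) ⊓ (Q : Subgroup G) : Subgroup G) : Set G)).relIndex (Subgroup.normalizer (((P : Subgroup G) ⊓ (Q : Subgroup G) : Subgroup G) : Set G)) ∧ ¬ p ∣ ((Q : Subgroup G) ⊓ Subgroup.normalizer (((P : Subgroup G) ⊓ (Q : Subgroup G) : Subgroup G) : Set G)).relIndex (Subgroup.normalizer (((P : Subgroup G) ⊓ (Q : Subgroup G) : Subgroup G) : Set G))) →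
      IsPGroup p (Subgroup.normalizer (((P : Subgroup G) ⊓ (Q : Subgroup G) : Subgroup G) : Set G) ⧸
        (Subgroup.centralizer (((P : Subgroup G) ⊓ (Q : Subgroup G) : Subgroup G) : Set G)).subgroupOf
          (Subgroup.normalizer (((P : Subgroup G) ⊓ (Q : Subgroup G) : Subgroup G) : Set G)))) :
    Cfsg.HasNormalPComplement p G := by
  refine ⟨P, (Cfsg.Agent.S0071.result P).mpr ?_⟩
  intro Q₀ hQ₀ g hg hcop
  rw [Subgroup.mem_centralizer_iff]
  by_cases hbot : Q₀ = ⊥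
  · intro a ha
    rw [SetLike.mem_coe, hbot, Subgroup.mem_bot] at ha
    rw [ha, one_mul, mul_one]
  have hginv : ∀ a ∈ Q₀, g⁻¹ * a * g ∈ Q₀ := by
    intro a ha
    exact (Subgroup.mem_normalizer_iff''.mp hg a).mp ha
  have hA1 : (Q₀ : Set G) ⊆ (P : Set G) := hQ₀
  have hA2 : (fun a => g⁻¹ * a * g) '' (Q₀ : Set G) ⊆ (P : Set G) := by
    rintro _ ⟨a, ha, rfl⟩
    exact hQ₀ (hginv a ha)
  have hdec := alperin_dec P (Q₀ : Set G) g hA1 hA2
  obtain ⟨a₀, ha₀⟩ := (Subgroup.ne_bot_iff_exists_ne_one).mp hbot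
  obtain ⟨y, hy, hyc⟩ := dec_exists_conj P (fun Q x hne hs =>
    exists_mul_of_pGroup_automizer (P : Subgroup G) _ hs.2.1 (h Q hne ⟨hs.2.1, hs.2.2.1⟩) hs.1)
    hdec ⟨a₀, a₀.2, fun h1 => ha₀ (Subtype.ext h1)⟩
  have hpow : ∀ n : ℕ, ∀ a ∈ Q₀, (g ^ n)⁻¹ * a * g ^ n = (y ^ n)⁻¹ * a * y ^ n ∧
      (g ^ n)⁻¹ * a * g ^ n ∈ Q₀ := by
    intro n
    induction n with
    | zero => intro a ha; simpa using ha
    | succ n ih =>
      intro a ha
      obtain ⟨h1, h2⟩ := ih a ha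
      have h3 : (g ^ (n + 1))⁻¹ * a * g ^ (n + 1) = g⁻¹ * ((g ^ n)⁻¹ * a * g ^ n) * g := by
        rw [pow_succ]; group
      have h4 : (y ^ (n + 1))⁻¹ * a * y ^ (n + 1) = y⁻¹ * ((y ^ n)⁻¹ * a * y ^ n) * y := by
        rw [pow_succ]; group
      refine ⟨?_, ?_⟩
      · rw [h3, h4, hyc _ h2, h1]
      · rw [h3]; exact hginv _ h2
  obtain ⟨k, hk⟩ := (P.2.to_subgroup (Subgroup.zpowers (⟨y, hy⟩ : (P : Subgroup G)))) ⟨⟨y, hy⟩, Subgroup.mem_zpowers _⟩
  have hyk : y ^ p ^ k = 1 := by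
    have := congrArg (fun t => ((t : (P : Subgroup G)) : G)) (congrArg Subtype.val hk)
    simpa using this
  obtain ⟨m, hm⟩ := exists_pow_eq_self_of_coprime (Nat.Coprime.pow_left k hcop.symm)
  intro a ha
  have h5 := (hpow (p ^ k * m) a ha).1
  rw [pow_mul, pow_mul, hm, hyk, one_pow] at h5
  have h6 : g⁻¹ * a * g = a := by simpa using h5
  calc a * g = g * (g⁻¹ * a * g) := by group
    _ = g * a := by rw [h6]

end Cfsg.Agent.S4251
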