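import Cfsg.Statements.S4261
-- import your own Cfsg.Agent.* helpers here
import Cfsg.Agent.Lib.Helper74.MaxSolvable

set_option autoImplicit false
open Cfsg

namespace Cfsg.Agent.S4261

open Cfsg.Agent.Lib.Helper74

/-- Let M be a maximal subgroup of a finite solvable group G such that x^[G : M] lies in M for every x in G. Then M is normal in G. -/
theorem result {G : Type*} [Group G] [Finite G] (hG : Group.IsSolvable G) (M : Subgroup G) (hM : IsCoatom M)
    (hexp : ∀ x : G, x ^ M.index ∈ M) : M.Normal := by
  obtain ⟨q, k, hq, hk⟩ := index_eq_prime_pow_of_isCoatom hG hM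
  have : Fact q.Prime := ⟨hq⟩
  set S : Set G := {g : G | (orderOf g).Coprime q} with hS
  set K : Subgroup G := Subgroup.closure S with hK
  have hKM : K ≤ M := by
    rw [hK, Subgroup.closure_le]
    intro g hg
    have hg' : (orderOf g).Coprime M.index := by
      rw [hk]
      exact Nat.Coprime.pow_right k hg
    obtain ⟨m, hm⟩ := exists_pow_eq_self_of_coprime hg'.symm
    rw [SetLike.mem_coe, ← hm]
    exact M.pow_mem (hexp g) m
  have hKn : K.Normal := by
    refine ⟨fun n hn g => ?_⟩
    have hmap : K.map (MulAut.conj g).toMonoidHom ≤ K := by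
      rw [hK, MonoidHom.map_closure, Subgroup.closure_le]
      rintro _ ⟨s, hs, rfl⟩
      apply Subgroup.subset_closure
      have : orderOf ((MulAut.conj g) s) = orderOf s := (MulAut.conj g).orderOf_eq s
      show (orderOf ((MulAut.conj g) s)).Coprime q
      rw [this]
      exact hs
    have := hmap ⟨n, hn, rfl⟩
    simpa using this
  have hpg : IsPGroup q (G ⧸ K) := by
    intro x
    induction x using QuotientGroup.induction_on with
    | H x =>
    obtain ⟨a, m, hm, hx⟩ := Nat.exists_eq_pow_mul_and_not_dvd (orderOf_pos x).ne' q hq.ne_one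
    refine ⟨a, ?_⟩
    rw [← QuotientGroup.mk_pow, QuotientGroup.eq_one_iff]
    apply Subgroup.subset_closure
    have h1 : orderOf (x ^ q ^ a) ∣ m := by
      apply orderOf_dvd_of_pow_eq_one
      rw [← pow_mul, ← hx, pow_orderOf_eq_one]
    exact Nat.Coprime.coprime_dvd_left h1 ((Nat.Prime.coprime_iff_not_dvd hq).mpr hm).symm
  have hnil : Group.IsNilpotent (G ⧸ K) := hpg.isNilpotent
  have hsurj : Function.Surjective (QuotientGroup.mk' K) := QuotientGroup.mk'_surjective _
  have hker : (QuotientGroup.mk' K).ker ≤ M := by rwa [QuotientGroup.ker_mk']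
  have hco := isCoatom_map_of_ker_le _ hsurj hker hM
  have htfae : Group.IsNilpotent (G ⧸ K) ↔ ∀ H : Subgroup (G ⧸ K), IsCoatom H → H.Normal :=
    (Group.isNilpotent_of_finite_tfae (G := G ⧸ K)).out 0 2
  have hnorm : (M.map (QuotientGroup.mk' K)).Normal := htfae.mp hnil _ hco
  rw [← Subgroup.comap_map_eq_self hker]
  exact hnorm.comap _

end Cfsg.Agent.S4261
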