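import Cfsg.Statements.S4262
-- import your own Cfsg.Agent.* helpers here

set_option autoImplicit false
open Cfsg

namespace Cfsg.Agent.S4262

open Subgroup
open scoped commutatorElement

section
variable {G : Type*} [Group G]

local notation "C" g => centralizer ({g} : Set G)

theorem cent_eq_of_le (h : ∀ g : G, g ∉ center G → IsCoatom (centralizer ({g} : Set G)))
    {u v : G} (hu : u ∉ center G) (hv : v ∉ center G)
    (hle : centralizer ({u} : Set G) ≤ centralizer ({v} : Set G)) :
    centralizer ({u} : Set G) = centralizer ({v} : Set G) :=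
  (((h u hu).le_iff_eq (h v hv).1).mp hle).symm

theorem cent_le_cent_pow (u : G) (k : ℕ) :
    centralizer ({u} : Set G) ≤ centralizer ({u ^ k} : Set G) := by
  intro t ht
  rw [mem_centralizer_singleton_iff] at ht ⊢
  have hc : Commute t u := ht
  exact hc.pow_right k

theorem pow_mem_center_of_pow_mem_center
    (h : ∀ g : G, g ∉ center G → IsCoatom (centralizer ({g} : Set G)))
    {u v : G} (hu : u ∉ center G) (hv : v ∉ center G) (huv : u * v = v * u)
    (hne : centralizer ({u} : Set G) ≠ centralizer ({v} : Set G)) (k : ℕ)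
    (huk : u ^ k ∈ center G) : v ^ k ∈ center G := by
  by_contra hvk
  have h1 : centralizer ({v} : Set G) = centralizer ({v ^ k} : Set G) :=
    cent_eq_of_le h hv hvk (cent_le_cent_pow v k)
  have huvZ : u * v ∉ center G := by
    intro hc
    apply hne
    ext t
    rw [mem_centralizer_singleton_iff, mem_centralizer_singleton_iff]
    have h2 := (mem_center_iff.mp hc) t
    constructor
    · intro h3
      have : u * (t * v) = u * (v * t) := by
        rw [← mul_assoc, ← h3, mul_assoc, h2, mul_assoc]
      exact mul_left_cancel this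
    · intro h3
      have : (t * u) * v = (u * t) * v := by
        rw [mul_assoc, h2, mul_assoc, mul_assoc, h3]
      exact mul_right_cancel this
  have hpow : (u * v) ^ k = u ^ k * v ^ k := (show Commute u v from huv).mul_pow k
  have huvk : (u * v) ^ k ∉ center G := by
    intro hc
    apply hvk
    rw [hpow] at hc
    have := (center G).mul_mem ((center G).inv_mem huk) hc
    simpa using this
  have h2 : centralizer ({u * v} : Set G) = centralizer ({(u * v) ^ k} : Set G) :=
    cent_eq_of_le h huvZ huvk (cent_le_cent_pow _ k)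
  have h3 : centralizer ({(u * v) ^ k} : Set G) = centralizer ({v ^ k} : Set G) := by
    ext t
    rw [mem_centralizer_singleton_iff, mem_centralizer_singleton_iff, hpow]
    have hz := (mem_center_iff.mp huk) t
    constructor
    · intro h4
      have : u ^ k * (t * v ^ k) = u ^ k * (v ^ k * t) := by
        rw [← mul_assoc, ← hz, mul_assoc, h4, mul_assoc]
      exact mul_left_cancel this
    · intro h4
      rw [← mul_assoc, hz, mul_assoc, h4, mul_assoc]
  have h4 : centralizer ({v} : Set G) ≤ centralizer ({u} : Set G) := by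
    intro t ht
    have ht2 : t ∈ centralizer ({u * v} : Set G) := by rw [h2, h3, ← h1]; exact ht
    rw [mem_centralizer_singleton_iff] at ht ht2 ⊢
    have : (t * u) * v = (u * t) * v := by
      rw [mul_assoc, ht2, mul_assoc, mul_assoc, ht]
    exact mul_right_cancel this
  exact hne (cent_eq_of_le h hv hu h4).symm

theorem exists_prime_pow_mem_center [Finite G]
    (h : ∀ g : G, g ∉ center G → IsCoatom (centralizer ({g} : Set G)))
    {u v : G} (hu : u ∉ center G) (hv : v ∉ center G) (huv : u * v = v * u)
    (hne : centralizer ({u} : Set G) ≠ centralizer ({v} : Set G)) :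
    ∃ p : ℕ, p.Prime ∧ u ^ p ∈ center G := by
  set k := orderOf (u : G ⧸ center G) with hk
  have hk1 : k ≠ 1 := by
    rw [hk, Ne, orderOf_eq_one_iff, QuotientGroup.eq_one_iff]
    exact hu
  have hkpos : 0 < k := orderOf_pos _
  obtain ⟨p, hp, k', hk'⟩ := Nat.exists_prime_and_dvd hk1
  refine ⟨p, hp, ?_⟩
  by_contra hup
  have h1 : centralizer ({u} : Set G) = centralizer ({u ^ p} : Set G) :=
    cent_eq_of_le h hu hup (cent_le_cent_pow u p)
  have hukZ : u ^ k ∈ center G := by
    rw [← QuotientGroup.eq_one_iff, QuotientGroup.mk_pow, hk, pow_orderOf_eq_one]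
  have h2 : v ^ k' ∈ center G := by
    apply pow_mem_center_of_pow_mem_center h hup hv _ (h1 ▸ hne) k'
    · rw [← pow_mul, ← hk']; exact hukZ
    · exact ((show Commute u v from huv).pow_left p)
  have h3 : u ^ k' ∈ center G :=
    pow_mem_center_of_pow_mem_center h hv hu huv.symm hne.symm k' h2
  have h4 : k ∣ k' := by
    rw [hk]
    apply orderOf_dvd_of_pow_eq_one
    rw [← QuotientGroup.mk_pow, QuotientGroup.eq_one_iff]
    exact h3
  have hk'pos : 0 < k' := by
    rcases Nat.eq_zero_or_pos k' with h0 | h0
    · rw [h0, mul_zero] at hk'; omega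
    · exact h0
  have h5 := Nat.le_of_dvd hk'pos h4
  have h6 : k' < k := by
    rw [hk']
    have := hp.two_le
    nlinarith
  omega

theorem exists_prime_forall_pow_mem_center [Finite G]
    (h : ∀ g : G, g ∉ center G → IsCoatom (centralizer ({g} : Set G)))
    {g : G} (hg : g ∉ center G) {x y : G} (hx : x ∈ centralizer ({g} : Set G))
    (hy : y ∈ centralizer ({g} : Set G)) (hxy : x * y ≠ y * x) :
    ∃ p : ℕ, p.Prime ∧ ∀ t ∈ centralizer ({g} : Set G), t ^ p ∈ center G := by
  have hxZ : x ∉ center G := fun hc => hxy ((mem_center_iff.mp hc) y).symm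
  have hne : centralizer ({g} : Set G) ≠ centralizer ({x} : Set G) := by
    intro he
    rw [he, mem_centralizer_singleton_iff] at hy
    exact hxy hy.symm
  have hgx : g * x = x * g := (mem_centralizer_singleton_iff.mp hx).symm
  obtain ⟨p, hp, hgp⟩ := exists_prime_pow_mem_center h hg hxZ hgx hne
  have hxp : x ^ p ∈ center G := pow_mem_center_of_pow_mem_center h hg hxZ hgx hne p hgp
  refine ⟨p, hp, fun t ht => ?_⟩
  by_cases htZ : t ∈ center G
  · exact (center G).pow_mem htZ p
  by_cases hct : centralizer ({g} : Set G) = centralizer ({t} : Set G)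
  · have hxt : x * t = t * x := by
      rw [hct] at hx
      exact mem_centralizer_singleton_iff.mp hx
    exact pow_mem_center_of_pow_mem_center h hxZ htZ hxt (fun he => hne (hct.trans he.symm)) p hxp
  · have hgt : g * t = t * g := (mem_centralizer_singleton_iff.mp ht).symm
    exact pow_mem_center_of_pow_mem_center h hg htZ hgt hct p hgp

theorem centralizer_isNilpotent [Finite G]
    (h : ∀ g : G, g ∉ center G → IsCoatom (centralizer ({g} : Set G)))
    {g : G} (hg : g ∉ center G) : Group.IsNilpotent (centralizer ({g} : Set G)) := by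
  by_cases hab : ∀ x ∈ centralizer ({g} : Set G), ∀ y ∈ centralizer ({g} : Set G), x * y = y * x
  · refine ⟨1, ?_⟩
    rw [Subgroup.upperCentralSeries_one, eq_top_iff]
    intro x _
    rw [mem_center_iff]
    intro y
    exact Subtype.ext (hab y y.2 x x.2)
  · push Not at hab
    obtain ⟨x, hx, y, hy, hxy⟩ := hab
    obtain ⟨p, hp, hpow⟩ := exists_prime_forall_pow_mem_center h hg hx hy hxy
    have : Fact p.Prime := ⟨hp⟩
    set M := centralizer ({g} : Set G) with hM
    have hpg : IsPGroup p (M ⧸ (center G).subgroupOf M) := by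
      intro t
      induction t using QuotientGroup.induction_on with
      | H t =>
      refine ⟨1, ?_⟩
      rw [pow_one, ← QuotientGroup.mk_pow, QuotientGroup.eq_one_iff, mem_subgroupOf]
      exact hpow t t.2
    have hnil : Group.IsNilpotent (M ⧸ (center G).subgroupOf M) := hpg.isNilpotent
    apply Subgroup.isNilpotent_of_ker_le_center (QuotientGroup.mk' ((center G).subgroupOf M))
    rw [QuotientGroup.ker_mk']
    intro t ht
    rw [mem_subgroupOf] at ht
    rw [mem_center_iff]
    intro s
    exact Subtype.ext ((mem_center_iff.mp ht) s)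

theorem isSolvable_of_normal_not_le_center [Finite G]
    (h : ∀ g : G, g ∉ center G → IsCoatom (centralizer ({g} : Set G)))
    (N : Subgroup G) [hN : N.Normal] (hsol : Group.IsSolvable N) (hNZ : ¬ N ≤ center G) :
    Group.IsSolvable G := by
  obtain ⟨n, hnN, hnZ⟩ := SetLike.not_le_iff_exists.mp hNZ
  rw [mem_center_iff] at hnZ
  push Not at hnZ
  obtain ⟨w, hw⟩ := hnZ
  have hwZ : w ∉ center G := fun hc => hw ((mem_center_iff.mp hc) n).symm
  have hnC : n ∉ centralizer ({w} : Set G) := by
    rw [mem_centralizer_singleton_iff]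
    exact fun hc => hw hc.symm
  have hsup : centralizer ({w} : Set G) ⊔ N = ⊤ := by
    apply (h w hwZ).2
    refine lt_of_le_of_ne le_sup_left (fun he => hnC ?_)
    rw [he]
    exact (le_sup_right : N ≤ _) hnN
  have hnil : Group.IsNilpotent (centralizer ({w} : Set G)) := centralizer_isNilpotent h hwZ
  have hsolC : Group.IsSolvable (centralizer ({w} : Set G)) := IsNilpotent.to_isSolvable
  have hsurj : Function.Surjective
      ((QuotientGroup.mk' N).comp (centralizer ({w} : Set G)).subtype) := by
    intro t
    induction t using QuotientGroup.induction_on with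
    | H t =>
    have ht : t ∈ centralizer ({w} : Set G) ⊔ N := by rw [hsup]; trivial
    obtain ⟨c, hc, m, hm, rfl⟩ := mem_sup_of_normal_right.mp ht
    refine ⟨⟨c, hc⟩, ?_⟩
    simp only [MonoidHom.coe_comp, Function.comp_apply, Subgroup.coe_subtype,
      QuotientGroup.mk'_apply]
    rw [QuotientGroup.eq]
    simpa using hm
  have hq : Group.IsSolvable (G ⧸ N) := Group.isSolvable_of_surjective hsurj
  exact Group.isSolvable_of_ker_le_range N.subtype (QuotientGroup.mk' N)
    (by rw [QuotientGroup.ker_mk', Subgroup.range_subtype])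

theorem centralizer_not_normal [Finite G]
    (h : ∀ g : G, g ∉ center G → IsCoatom (centralizer ({g} : Set G)))
    (hns : ¬ Group.IsSolvable G) {g : G} (hg : g ∉ center G) :
    ¬ (centralizer ({g} : Set G)).Normal := by
  intro hn
  apply hns
  have hnil : Group.IsNilpotent (centralizer ({g} : Set G)) := centralizer_isNilpotent h hg
  apply isSolvable_of_normal_not_le_center h (centralizer ({g} : Set G)) IsNilpotent.to_isSolvable
  intro hle
  exact hg (hle (mem_centralizer_singleton_iff.mpr rfl))

theorem centralizer_abelian [Finite G]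
    (h : ∀ g : G, g ∉ center G → IsCoatom (centralizer ({g} : Set G)))
    (hns : ¬ Group.IsSolvable G) {g : G} (hg : g ∉ center G) :
    ∀ x ∈ centralizer ({g} : Set G), ∀ y ∈ centralizer ({g} : Set G), x * y = y * x := by
  by_contra hab
  apply hns
  set M := centralizer ({g} : Set G) with hM
  have hnil : Group.IsNilpotent M := centralizer_isNilpotent h hg
  have hcne : center M ≠ ⊤ := by
    intro hc
    apply hab
    intro x hx y hy
    have : (⟨x, hx⟩ : M) ∈ center M := by rw [hc]; trivial
    exact (congrArg Subtype.val ((mem_center_iff.mp this) ⟨y, hy⟩)).symm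
  have hne12 : Subgroup.upperCentralSeries M 1 ≠ Subgroup.upperCentralSeries M 2 := by
    intro he
    have := Subgroup.upperCentralSeries.eq_top (by norm_num : (1 : ℕ) ≠ 2) he
    rw [Subgroup.upperCentralSeries_one] at this
    exact hcne this
  have hle12 : Subgroup.upperCentralSeries M 1 ≤ Subgroup.upperCentralSeries M 2 :=
    Subgroup.upperCentralSeries_mono M (by norm_num)
  obtain ⟨y, hy2, hy1⟩ := SetLike.exists_of_lt (lt_of_le_of_ne hle12 hne12)
  rw [Subgroup.upperCentralSeries_one] at hy1
  have hy2' : ∀ m : M, ⁅y, m⁆ ∈ center M := by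
    intro m
    have := (Subgroup.mem_upperCentralSeries_succ_iff (n := 1)).mp hy2 m
    rwa [Subgroup.upperCentralSeries_one] at this
  have hyZ : (y : G) ∉ center G := by
    intro hc
    apply hy1
    rw [mem_center_iff]
    intro s
    exact Subtype.ext ((mem_center_iff.mp hc) s)
  set M' := centralizer ({(y : G)} : Set G) with hM'
  have hMM' : M' ≠ M := by
    intro he
    apply hy1
    rw [mem_center_iff]
    intro s
    have hs : (s : G) ∈ M' := by rw [he]; exact s.2
    rw [hM', mem_centralizer_singleton_iff] at hs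
    exact Subtype.ext hs
  set D := M ⊓ M' with hD
  have hMD : M ≤ normalizer (D : Set G) := by
    rw [le_normalizer_iff]
    intro m hm d hd
    have hdM : d ∈ M := hd.1
    have hdy : d * (y : G) = (y : G) * d := mem_centralizer_singleton_iff.mp hd.2
    have heM : m * d * m⁻¹ ∈ M := M.mul_mem (M.mul_mem hm hdM) (M.inv_mem hm)
    refine mem_inf.mpr ⟨heM, ?_⟩
    rw [hM', mem_centralizer_singleton_iff]
    have ha := hy2' ⟨m, hm⟩
    have hae := congrArg Subtype.val ((mem_center_iff.mp ha) ⟨m * d * m⁻¹, heM⟩)
    simp only [Subgroup.coe_mul, commutatorElement_def, Subgroup.coe_inv] at hae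
    have h1 : (y : G) * (m * d * m⁻¹) * (y : G)⁻¹ =
        ((y : G) * m * (y : G)⁻¹ * m⁻¹) * (m * ((y : G) * d * (y : G)⁻¹) * m⁻¹) *
          ((y : G) * m * (y : G)⁻¹ * m⁻¹)⁻¹ := by group
    have h2 : (y : G) * d * (y : G)⁻¹ = d := by rw [← hdy]; group
    rw [h2, ← hae, mul_inv_cancel_right] at h1
    calc m * d * m⁻¹ * (y : G) = ((y : G) * (m * d * m⁻¹) * (y : G)⁻¹) * (y : G) := by rw [h1]
      _ = (y : G) * (m * d * m⁻¹) := by group
  have hnil' : Group.IsNilpotent M' := centralizer_isNilpotent h hyZ
  have hDlt : D.subgroupOf M' < ⊤ := by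
    rw [lt_top_iff_ne_top, Ne, Subgroup.subgroupOf_eq_top]
    intro hle
    have hle' : M' ≤ M := le_trans hle inf_le_left
    exact hMM' (((h _ hyZ).le_iff_eq (h g hg).1).mp hle').symm
  have hnc := Group.normalizerCondition_of_isNilpotent (G := M') _ hDlt
  obtain ⟨t, htn, htD⟩ := SetLike.exists_of_lt hnc
  rw [← Subgroup.subgroupOf_normalizer_eq (inf_le_right : D ≤ M'), mem_subgroupOf] at htn
  rw [mem_subgroupOf] at htD
  have htM : (t : G) ∉ M := fun hc => htD ⟨hc, t.2⟩
  have htop : normalizer (D : Set G) = ⊤ := by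
    apply (h g hg).2
    refine lt_of_le_of_ne hMD (fun he => htM ?_)
    rw [hM, he]
    exact htn
  have hDn : D.Normal := normalizer_eq_top_iff.mp htop
  have hsolM : Group.IsSolvable M := IsNilpotent.to_isSolvable
  have hsolD : Group.IsSolvable D :=
    Group.isSolvable_of_isSolvable_injective (f := Subgroup.inclusion (inf_le_left : D ≤ M))
      (Subgroup.inclusion_injective _)
  apply isSolvable_of_normal_not_le_center h D hsolD
  intro hle
  apply hg
  apply hle
  refine mem_inf.mpr ⟨mem_centralizer_singleton_iff.mpr rfl, ?_⟩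
  rw [hM', mem_centralizer_singleton_iff]
  exact (mem_centralizer_singleton_iff.mp y.2).symm

theorem mem_centralizer_of_conj_mem [Finite G]
    (h : ∀ g : G, g ∉ center G → IsCoatom (centralizer ({g} : Set G)))
    (hns : ¬ Group.IsSolvable G) {u : G} (hu : u ∉ center G) {t : G}
    (ht : t * u * t⁻¹ ∈ centralizer ({u} : Set G)) : t ∈ centralizer ({u} : Set G) := by
  have hab := centralizer_abelian h hns hu
  have hu' : t * u * t⁻¹ ∉ center G := by
    intro hc
    apply hu
    have := (inferInstance : (center G).Normal).conj_mem _ hc t⁻¹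
    simpa [mul_assoc] using this
  have hle : centralizer ({u} : Set G) ≤ centralizer ({t * u * t⁻¹} : Set G) := by
    intro m hm
    rw [mem_centralizer_singleton_iff]
    exact hab m hm _ ht
  have heq := cent_eq_of_le h hu hu' hle
  have htn : t ∈ normalizer ((centralizer ({u} : Set G) : Subgroup G) : Set G) := by
    rw [mem_normalizer_iff]
    intro x
    conv_rhs => rw [heq]
    rw [mem_centralizer_singleton_iff, mem_centralizer_singleton_iff]
    constructor
    · intro hx
      calc t * x * t⁻¹ * (t * u * t⁻¹) = t * (x * u) * t⁻¹ := by group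
        _ = t * (u * x) * t⁻¹ := by rw [hx]
        _ = t * u * t⁻¹ * (t * x * t⁻¹) := by group
    · intro hx
      calc x * u = t⁻¹ * (t * x * t⁻¹ * (t * u * t⁻¹)) * t := by group
        _ = t⁻¹ * (t * u * t⁻¹ * (t * x * t⁻¹)) * t := by rw [hx]
        _ = u * x := by group
  by_contra htM
  apply centralizer_not_normal h hns hu
  rw [← normalizer_eq_top_iff]
  apply (h u hu).2
  exact lt_of_le_of_ne le_normalizer (fun he => htM (by rw [he]; exact htn))

theorem not_mem_commutator_of_pElement [Finite G]
    (h : ∀ g : G, g ∉ center G → IsCoatom (centralizer ({g} : Set G)))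
    (hns : ¬ Group.IsSolvable G) {u : G} (hu : u ∉ center G) {p : ℕ} [Fact p.Prime] {a : ℕ}
    (hua : u ^ p ^ a = 1) : u ∉ commutator G := by
  have hab := centralizer_abelian h hns hu
  have hpz : IsPGroup p (zpowers u) := by
    rintro ⟨y, hy⟩
    obtain ⟨i, rfl⟩ := mem_zpowers_iff.mp hy
    refine ⟨a, Subtype.ext ?_⟩
    simp only [Subgroup.coe_pow, Subgroup.coe_one]
    rw [← zpow_natCast, ← zpow_mul, mul_comm, zpow_mul, zpow_natCast, hua, one_zpow]
  obtain ⟨P, hP⟩ := hpz.exists_le_sylow
  have huP : u ∈ (P : Subgroup G) := hP (mem_zpowers u)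
  have hPM : (P : Subgroup G) ≤ centralizer ({u} : Set G) := by
    by_contra hle
    have hlt : (centralizer ({u} : Set G)).subgroupOf (P : Subgroup G) < ⊤ := by
      rw [lt_top_iff_ne_top, Ne, Subgroup.subgroupOf_eq_top]
      exact hle
    have hnil : Group.IsNilpotent (P : Subgroup G) := P.2.isNilpotent
    obtain ⟨t, htn, htM⟩ := SetLike.exists_of_lt
      (Group.normalizerCondition_of_isNilpotent (G := (P : Subgroup G)) _ hlt)
    have h1 : (⟨u, huP⟩ : (P : Subgroup G)) ∈
        (centralizer ({u} : Set G)).subgroupOf (P : Subgroup G) := by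
      rw [mem_subgroupOf]
      exact mem_centralizer_singleton_iff.mpr rfl
    have h2 := (mem_normalizer_iff.mp htn _).mp h1
    rw [mem_subgroupOf] at h2 htM
    exact htM (mem_centralizer_of_conj_mem h hns hu h2)
  have hNC : normalizer ((P : Subgroup G) : Set G) ≤ centralizer ((P : Subgroup G) : Set G) := by
    intro t ht
    have h1 : t * u * t⁻¹ ∈ (P : Subgroup G) := (mem_normalizer_iff.mp ht u).mp huP
    have h2 := mem_centralizer_of_conj_mem h hns hu (hPM h1)
    rw [mem_centralizer_iff]
    intro y hy
    exact hab y (hPM hy) t h2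
  have hdisj := MonoidHom.ker_transferSylow_disjoint P hNC (P : Subgroup G) P.2
  have hle : commutator G ≤ (MonoidHom.transferSylow P hNC).ker := by
    rw [commutator_def, commutator_le]
    intro x _ y _
    rw [MonoidHom.mem_ker, map_commutatorElement, commutatorElement_eq_one_iff_mul_comm]
    apply Subtype.ext
    exact hab _ (hPM (Subtype.property _)) _ (hPM (Subtype.property _))
  intro huc
  have h1 : u ∈ (MonoidHom.transferSylow P hNC).ker ⊓ (P : Subgroup G) := ⟨hle huc, huP⟩
  rw [disjoint_iff.mp hdisj, mem_bot] at h1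
  apply hu
  rw [h1]
  exact (center G).one_mem

end

/-- Let G be a finite group in which the centralizer of every non-central element is a maximal subgroup of G. Then G is solvable. -/
theorem result {G : Type*} [Group G] [Finite G]
    (h : ∀ g : G, g ∉ Subgroup.center G → IsCoatom (Subgroup.centralizer ({g} : Set G))) :
    Group.IsSolvable G := by
  by_contra hns
  have hle : commutator G ≤ Subgroup.center G := by
    intro x hx
    by_contra hxZ
    have hk1 : orderOf (x : G ⧸ Subgroup.center G) ≠ 1 := by
      rw [Ne, orderOf_eq_one_iff, QuotientGroup.eq_one_iff]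
      exact hxZ
    obtain ⟨p, hp, hpk⟩ := Nat.exists_prime_and_dvd hk1
    have : Fact p.Prime := ⟨hp⟩
    obtain ⟨a, m, hm, hxo⟩ := Nat.exists_eq_pow_mul_and_not_dvd (orderOf_pos x).ne' p hp.ne_one
    have hu : x ^ m ∉ Subgroup.center G := by
      intro hc
      apply hm
      apply dvd_trans hpk
      apply orderOf_dvd_of_pow_eq_one
      rw [← QuotientGroup.mk_pow, QuotientGroup.eq_one_iff]
      exact hc
    have hua : (x ^ m) ^ p ^ a = 1 := by
      rw [← pow_mul, mul_comm, ← hxo, pow_orderOf_eq_one]
    exact not_mem_commutator_of_pElement h hns hu hua ((commutator G).pow_mem hx m)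
  apply hns
  refine ⟨2, ?_⟩
  rw [derivedSeries_succ, derivedSeries_one, eq_bot_iff, Subgroup.commutator_le]
  intro a ha b _
  rw [Subgroup.mem_bot, commutatorElement_eq_one_iff_mul_comm]
  exact ((Subgroup.mem_center_iff.mp (hle ha)) b).symm

end Cfsg.Agent.S4262
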