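import Cfsg.Statements.S4263
-- import your own Cfsg.Agent.* helpers here
import Cfsg.Agent.Lib.Helper74.Fitting

set_option autoImplicit false
open Cfsg

namespace Cfsg.Agent.S4263

open Cfsg.Agent.Lib.Helper74

theorem relIndex_dvd_index_of_normal_right {G : Type*} [Group G] [Finite G] (K N : Subgroup G)
    [N.Normal] : K.relIndex N ∣ K.index := by
  have h1 : K.relIndex N * N.index = (N ⊓ K).index := by
    rw [← Subgroup.inf_relIndex_left N K]
    exact Subgroup.relIndex_mul_index inf_le_left
  have h2 : N.relIndex K * K.index = (N ⊓ K).index := by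
    rw [← Subgroup.inf_relIndex_right N K]
    exact Subgroup.relIndex_mul_index inf_le_right
  have h3 : N.relIndex K * (K ⊔ N).index = N.index := by
    rw [← Subgroup.relIndex_sup_right K N]
    exact Subgroup.relIndex_mul_index le_sup_right
  have h0 : N.relIndex K ≠ 0 := Subgroup.index_ne_zero_of_finite
  refine ⟨(K ⊔ N).index, ?_⟩
  apply Nat.eq_of_mul_eq_mul_left (Nat.pos_of_ne_zero h0)
  rw [h2, ← h1, ← h3]
  ring

/-- Let G be a finite group. An element x lies in the Fitting subgroup F(G) if and only if, for every subgroup H of G, the power x^[G : H] lies in H. -/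
theorem result {G : Type*} [Group G] [Finite G] (x : G) :
    x ∈ Cfsg.fittingSubgroup G ↔ ∀ H : Subgroup G, x ^ H.index ∈ H := by
  have hFn : (Cfsg.fittingSubgroup G).Normal := fittingSubgroup_normal G
  have hFnil : Group.IsNilpotent (Cfsg.fittingSubgroup G) := fittingSubgroup_isNilpotent G
  constructor
  · intro hx H
    have h1 := pow_index_mem_of_isNilpotent (H.subgroupOf (Cfsg.fittingSubgroup G)) ⟨x, hx⟩
    rw [Subgroup.mem_subgroupOf] at h1
    obtain ⟨c, hc⟩ := relIndex_dvd_index_of_normal_right H (Cfsg.fittingSubgroup G)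
    rw [hc, pow_mul]
    apply H.pow_mem
    simpa [Subgroup.relIndex] using h1
  · intro h
    by_contra hx
    have hne : orderOf (x : G ⧸ Cfsg.fittingSubgroup G) ≠ 1 := by
      rw [Ne, orderOf_eq_one_iff, QuotientGroup.eq_one_iff]
      exact hx
    obtain ⟨p, hp, hpdvd⟩ := Nat.exists_prime_and_dvd hne
    have : Fact p.Prime := ⟨hp⟩
    obtain ⟨P⟩ : Nonempty (Sylow p G) := inferInstance
    have hcore : x ^ (P : Subgroup G).index ∈ (P : Subgroup G).normalCore := by
      rw [Subgroup.normalCore, Subgroup.mem_mk]
      intro b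
      have h1 := h ((P : Subgroup G).map (MulAut.conj b⁻¹).toMonoidHom)
      have hidx : ((P : Subgroup G).map (MulAut.conj b⁻¹).toMonoidHom).index = (P : Subgroup G).index :=
        Subgroup.index_map_equiv (P : Subgroup G) (MulAut.conj b⁻¹)
      rw [hidx] at h1
      obtain ⟨y, hy, hyx⟩ := h1
      have : b * x ^ (P : Subgroup G).index * b⁻¹ = y := by
        rw [← hyx]
        simp [mul_assoc]
      rw [this]
      exact hy
    have hle : (P : Subgroup G).normalCore ≤ Cfsg.fittingSubgroup G := by
      apply le_sSup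
      refine ⟨Subgroup.normalCore_normal _, ?_⟩
      exact (P.2.to_le (Subgroup.normalCore_le _)).isNilpotent
    have hone : (x : G ⧸ Cfsg.fittingSubgroup G) ^ (P : Subgroup G).index = 1 := by
      rw [← QuotientGroup.mk_pow, QuotientGroup.eq_one_iff]
      exact hle hcore
    exact P.not_dvd_index (dvd_trans hpdvd (orderOf_dvd_of_pow_eq_one hone))

end Cfsg.Agent.S4263
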