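import Cfsg.Statements.S4269
import Cfsg.Agent.Lib.Helper75.Pronormal

set_option autoImplicit false
open Cfsg

namespace Cfsg.Agent.S4269

open Subgroup Cfsg.Agent.Lib.Helper75
open scoped commutatorElement

section
variable {G : Type*} [Group G]

theorem cj_eq_of_comm {v : G} {W : Subgroup G} (h : ∀ w ∈ W, v * w = w * v) : cj v W = W := by
  ext x
  rw [mem_cj]
  constructor
  · intro hx
    have h1 := h _ hx
    have h2 : x = v * (v⁻¹ * x * v) * v⁻¹ := by group
    rw [h2, h1]
    simpa using hx
  · intro hx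
    have h1 := h _ hx
    have h2 : v⁻¹ * x * v = v⁻¹ * (x * v) := by group
    rw [h2, ← h1]
    simpa using hx

theorem comm_le (H U : Subgroup G) (hU : ∀ h ∈ H, cj h U = U) : ⁅H, U⁆ ≤ U := by
  rw [commutator_le]
  intro h hh u hu
  rw [commutatorElement_def]
  refine mul_mem ?_ (inv_mem hu)
  rw [← hU h hh]
  exact conj_mem_cj hu

theorem comm_normal (V : Subgroup G) (hV : IsMulCommutative ↥V) (H : Subgroup G)
    (hHV : H ⊔ V = ⊤) (U : Subgroup G) (hUV : U ≤ V) (hU : ∀ h ∈ H, cj h U = U) :
    (⁅H, U⁆ : Subgroup G).Normal := by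
  rw [← normalizer_eq_top_iff, eq_top_iff, ← hHV, sup_le_iff]
  constructor
  · intro h hh
    rw [← cj_eq_self_iff, cj, map_commutator]
    have h1 : cj h H = H := cj_of_mem hh
    have h2 : cj h U = U := hU h hh
    unfold cj at h1 h2
    rw [h1, h2]
  · intro v hv
    rw [← cj_eq_self_iff]
    apply cj_eq_of_comm
    intro w hw
    have hwV : w ∈ V := hUV (comm_le H U hU hw)
    exact congrArg Subtype.val (hV.is_comm.comm ⟨v, hv⟩ ⟨w, hwV⟩)

end

/-- Let G be a finite group, V an abelian normal subgroup and H a subgroup with HV = G. Then H is pronormal in G (H and gHg⁻¹ are conjugate inside the subgroup they generate, for every g) if and only if every H-invariant subgroup U of V satisfies U = N_U(H)·[H, U], that is, U is the join of U ∩ N_G(H) and the commutator subgroup [H, U]. -/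
theorem result {G : Type*} [Group G] [Finite G]
    (V : Subgroup G) [V.Normal] (hV : IsMulCommutative ↥V) (H : Subgroup G) (hHV : H ⊔ V = ⊤) :
    Cfsg.IsPronormal H ↔
      ∀ U : Subgroup G, U ≤ V → (∀ h ∈ H, U.map (MulAut.conj h).toMonoidHom = U) →
        U = (U ⊓ Subgroup.normalizer (H : Set G)) ⊔ ⁅H, U⁆ := by
  constructor
  · intro hP U hUV hU
    have hWU := comm_le H U hU
    have hWn := comm_normal V hV H hHV U hUV hU
    apply le_antisymm
    · intro u hu
      obtain ⟨x, hx, hxe⟩ := hP u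
      have h1 : H ⊔ cj u H ≤ ⁅H, U⁆ ⊔ H := by
        refine sup_le le_sup_right ?_
        intro y hy
        rw [mem_cj] at hy
        have h2 : y = ⁅u⁻¹ * y * u, u⁆⁻¹ * (u⁻¹ * y * u) := by
          rw [commutatorElement_def]; group
        rw [h2]
        exact mul_mem (mem_sup_left (inv_mem (commutator_mem_commutator hy hu))) (mem_sup_right hy)
      obtain ⟨w, hw, h, hh, rfl⟩ := mem_sup_of_normal_left.1 (h1 hx)
      change cj u H = cj (w * h) H at hxe
      rw [cj_mul, cj_of_mem hh, cj_eq_cj_iff] at hxe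
      have h3 : u = (w⁻¹ * u) * ⁅(w⁻¹ * u)⁻¹, w⁆ * w := by
        rw [commutatorElement_def]; group
      have h4 : u = w * (w⁻¹ * u) := by group
      rw [h4, sup_comm]
      exact mul_mem (mem_sup_left hw)
        (mem_sup_right (mem_inf.2 ⟨mul_mem (inv_mem (hWU hw)) hu, hxe⟩))
    · exact sup_le inf_le_left hWU
  · intro hcond g
    have hg : g ∈ V ⊔ H := by rw [sup_comm, hHV]; trivial
    obtain ⟨v, hv, h, hh, rfl⟩ := mem_sup_of_normal_left.1 hg
    apply prnAt_mul_right (le_normalizer hh)
    -- the `H`-invariant subgroup generated by `v`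
    set S : Set G := {x | ∃ h ∈ H, x = h * v * h⁻¹} with hS
    set U : Subgroup G := closure S with hUdef
    have hvU : v ∈ U := Subgroup.subset_closure ⟨1, one_mem _, by simp⟩
    have hSV : S ⊆ V := by
      rintro x ⟨k, -, rfl⟩
      exact (inferInstance : V.Normal).conj_mem v hv k
    have hUV : U ≤ V := (closure_le V).2 hSV
    have hUle : ∀ k ∈ H, cj k U ≤ U := by
      intro k hk
      rw [cj, map_le_iff_le_comap, hUdef, closure_le]
      rintro x ⟨l, hl, rfl⟩
      apply Subgroup.subset_closure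
      refine ⟨k * l, mul_mem hk hl, ?_⟩
      simp [mul_assoc]
    have hU : ∀ k ∈ H, cj k U = U := by
      intro k hk
      apply le_antisymm (hUle k hk)
      have := cj_mono k (hUle k⁻¹ (inv_mem hk))
      rwa [cj_cj_inv] at this
    have hWn := comm_normal V hV H hHV U hUV hU
    have hdec := hcond U hUV hU
    have hcomm : ∀ a ∈ V, ∀ b ∈ V, a * b = b * a := fun a ha b hb =>
      congrArg Subtype.val (hV.is_comm.comm ⟨a, ha⟩ ⟨b, hb⟩)
    have hVn : ∀ a ∈ V, ∀ k : G, k * a * k⁻¹ ∈ V := fun a ha k =>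
      (inferInstance : V.Normal).conj_mem a ha k
    -- `[H, U] ≤ ⟨H, H^v⟩`
    have hbasic : ∀ a ∈ H, a * v * a⁻¹ * v⁻¹ ∈ H ⊔ cj v H := by
      intro a ha
      have : a * v * a⁻¹ * v⁻¹ = a * (v * a⁻¹ * v⁻¹) := by group
      rw [this]
      exact mul_mem (mem_sup_left ha) (mem_sup_right (conj_mem_cj (inv_mem ha)))
    have hWM : ⁅H, U⁆ ≤ H ⊔ cj v H := by
      rw [commutator_le]
      intro k hk u hu
      have key : u ∈ V ∧ ∀ k ∈ H, ⁅k, u⁆ ∈ H ⊔ cj v H := by
        induction hu using closure_induction with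
        | mem x hx =>
          refine ⟨hSV hx, ?_⟩
          obtain ⟨l, hl, rfl⟩ := hx
          intro k hk
          have e : ⁅k, l * v * l⁻¹⁆ = ((k * l) * v * (k * l)⁻¹ * v⁻¹) * (l * v * l⁻¹ * v⁻¹)⁻¹ := by
            rw [commutatorElement_def]; group
          rw [e]
          exact mul_mem (hbasic _ (mul_mem hk hl)) (inv_mem (hbasic _ hl))
        | one =>
          refine ⟨one_mem _, fun k _ => ?_⟩
          rw [commutatorElement_one_right]
          exact one_mem _
        | mul x y _ _ hx hy =>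
          refine ⟨mul_mem hx.1 hy.1, fun k hk => ?_⟩
          have e : ⁅k, x * y⁆ = ⁅k, x⁆ * ⁅k, y⁆ := by
            have h1 : ⁅k, y⁆ ∈ V := by
              rw [commutatorElement_def]
              exact mul_mem (hVn y hy.1 k) (inv_mem hy.1)
            have h2 := hcomm _ h1 _ (inv_mem hx.1)
            calc ⁅k, x * y⁆ = k * x * k⁻¹ * (⁅k, y⁆ * x⁻¹) := by
                  rw [commutatorElement_def, commutatorElement_def]; group
              _ = k * x * k⁻¹ * (x⁻¹ * ⁅k, y⁆) := by rw [h2]
              _ = _ := by rw [commutatorElement_def k x]; group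
          rw [e]
          exact mul_mem (hx.2 k hk) (hy.2 k hk)
        | inv x _ hx =>
          refine ⟨inv_mem hx.1, fun k hk => ?_⟩
          have e : ⁅k, x⁻¹⁆ = ⁅k, x⁆⁻¹ := by
            have h2 := hcomm _ (inv_mem (hVn x hx.1 k)) _ hx.1
            calc ⁅k, x⁻¹⁆ = (k * x * k⁻¹)⁻¹ * x := by rw [commutatorElement_def]; group
              _ = x * (k * x * k⁻¹)⁻¹ := h2
              _ = _ := by rw [commutatorElement_def]; group
          rw [e]
          exact inv_mem (hx.2 k hk)
      exact key.2 k hk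
    rw [hdec, sup_comm] at hvU
    obtain ⟨w, hw, n, hn, hwn⟩ := mem_sup_of_normal_left.1 hvU
    refine ⟨w, hWM hw, ?_⟩
    rw [← hwn, cj_mul, cj_eq_self_iff.2 (mem_inf.1 hn).2]

end Cfsg.Agent.S4269
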