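import Cfsg.Statements.S4270
import Cfsg.Agent.Lib.Helper75.Pronormal2
import Cfsg.Agent.Lib.Helper75.SylowCount

set_option autoImplicit false
open Cfsg

namespace Cfsg.Agent.S4270

open Subgroup Cfsg.Agent.Lib.Helper75

section Core
variable {G : Type*} [Group G] [Finite G] {p : ℕ} [Fact p.Prime]

omit [Finite G] in
theorem relIndex_cj (g : G) (H K : Subgroup G) : (cj g H).relIndex (cj g K) = H.relIndex K :=
  relIndex_map_map_of_injective H K (MulAut.conj g).injective

omit [Finite G] in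
theorem index_cj (g : G) (H : Subgroup G) : (cj g H).index = H.index :=
  index_map_of_bijective (f := (MulAut.conj g).toMonoidHom) (MulAut.conj g).bijective H

omit [Finite G] [Fact p.Prime] in
theorem isPGroup_cj (g : G) {H : Subgroup G} (h : IsPGroup p H) : IsPGroup p (cj g H) := h.map _

/-- `N_H(T)` has index prime to `p` if `H` has and `T ≤ H` is a Sylow subgroup of the normal `A`. -/
theorem not_dvd_index_inf_normalizer (A : Subgroup G) [A.Normal] (T : Subgroup G) (hTA : T ≤ A)
    (hTp : IsPGroup p T) (hTi : ¬ p ∣ T.relIndex A) (H : Subgroup G) (hTH : T ≤ H)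
    (hH : ¬ p ∣ H.index) : ¬ p ∣ (H ⊓ normalizer (T : Set G)).index := by
  obtain ⟨S, hTS, hSH, hSp, hSi⟩ := exists_sylow_in_ge hTp hTH
  have h1 : S ⊓ A ≤ T := le_of_sylow_in (le_inf hTS hTA) inf_le_right (hSp.to_le inf_le_left) hTi
  have h2 : S ⊓ A = T := le_antisymm h1 (le_inf hTS hTA)
  have h3 : S ≤ normalizer (T : Set G) := by
    intro s hs
    rw [← cj_eq_self_iff, ← h2, cj_inf, cj_of_mem hs, cj_normal]
  have h4 : ¬ p ∣ S.index := by
    rw [← relIndex_mul_index hSH]
    exact Nat.Prime.not_dvd_mul Fact.out hSi hH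
  exact fun h => h4 (h.trans (index_dvd_of_le (le_inf hSH h3)))

theorem frattini_aux (D H T : Subgroup G) (hD : ∀ h ∈ H, cj h D = D) (hTD : T ≤ D)
    (hTp : IsPGroup p T) (hTi : ¬ p ∣ T.relIndex D) :
    H ≤ D ⊔ (H ⊓ normalizer (T : Set G)) ∨ ¬ D ≤ H := by
  by_cases hDH : D ≤ H
  · left
    intro h hh
    have h1 : cj h T ≤ D := by
      have := cj_mono h hTD
      rwa [hD h hh] at this
    have h2 : ¬ p ∣ (cj h T).relIndex D := by
      have := relIndex_cj h T D
      rw [hD h hh] at this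
      rwa [this]
    obtain ⟨y, hy, hye⟩ := exists_cj_eq_of_sylow_in hTD h1 hTp (isPGroup_cj h hTp) hTi h2
    rw [cj_eq_cj_iff] at hye
    have e : h = y * (y⁻¹ * h) := by group
    rw [e]
    exact mul_mem (mem_sup_left hy)
      (mem_sup_right (mem_inf.2 ⟨mul_mem (inv_mem (hDH hy)) hh, hye⟩))
  · right; exact hDH

variable (A : Subgroup G) [A.Normal] (T : Subgroup G) (hTA : T ≤ A) (hTp : IsPGroup p T)
  (hTi : ¬ p ∣ T.relIndex A)
  (hA' : ∀ K : Subgroup G, K ≤ A → ¬ p ∣ K.relIndex A → ∀ a ∈ A, PrnAt K a)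
  (hQ' : ∀ K : Subgroup G, A ≤ K → ¬ p ∣ K.index → ∀ g, PrnAt K g)
  (hN' : ∀ K : Subgroup G, T ≤ K → K ≤ normalizer (T : Set G) →
    ¬ p ∣ K.relIndex (normalizer (T : Set G)) → ∀ g ∈ normalizer (T : Set G), PrnAt K g)
  (hii : ∀ K : Subgroup G, ¬ p ∣ K.index →
    normalizer ((K ⊔ A : Subgroup G) : Set G) ≤ normalizer (K : Set G) ⊔ A)
include hTA hTp hTi hA' hQ' hN' hii

theorem core_of_le (H : Subgroup G) (hH : ¬ p ∣ H.index) (hTH : T ≤ H) : Cfsg.IsPronormal H := by
  rw [isPronormal_iff]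
  intro g
  -- Step 1: reduce to `a ∈ A`
  have hHA : ¬ p ∣ (H ⊔ A).index := fun h => hH (h.trans (index_dvd_of_le le_sup_left))
  obtain ⟨x, hx, hxe⟩ := hQ' (H ⊔ A) le_sup_right hHA g
  have e1 : H ⊔ A ⊔ cj g (H ⊔ A) = (H ⊔ cj g H) ⊔ A := by
    rw [cj_sup, cj_normal g A]
    apply le_antisymm
    · refine sup_le (sup_le (le_sup_left.trans le_sup_left) le_sup_right)
        (sup_le (le_sup_right.trans le_sup_left) le_sup_right)
    · refine sup_le (sup_le (le_sup_left.trans le_sup_left) (le_sup_left.trans le_sup_right))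
        (le_sup_right.trans le_sup_left)
  rw [e1] at hx
  obtain ⟨y, hy, a0, ha0, rfl⟩ := mem_sup_of_normal_right.1 hx
  rw [cj_mul y a0, cj_of_mem (mem_sup_right ha0 : a0 ∈ H ⊔ A), cj_eq_cj_iff] at hxe
  have h2 := hii H hH hxe
  rw [sup_comm] at h2
  obtain ⟨a, ha, n, hn, han⟩ := mem_sup_of_normal_left.1 h2
  apply prnAt_of_mul_left hy
  rw [← han]
  apply prnAt_mul_right hn
  clear han hxe h2 hx hy e1 hn
  -- Step 2: reduce to `a ∈ N_A(D)`
  set D := H ⊓ A with hD
  have hDi : ¬ p ∣ D.relIndex A := by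
    rw [hD, inf_relIndex_right]
    exact fun h => hH (h.trans (relIndex_dvd_index_of_normal_right' H A))
  obtain ⟨x, hx, hxe⟩ := hA' D inf_le_right hDi a ha
  have hxA : x ∈ A := (sup_le inf_le_right (cj_le_of_mem ha inf_le_right) : D ⊔ cj a D ≤ A) hx
  have hxM : x ∈ H ⊔ cj a H := (sup_le_sup inf_le_left (cj_mono a inf_le_left)) hx
  apply prnAt_of_mul_left hxM
  rw [cj_eq_cj_iff] at hxe
  have ha1 : x⁻¹ * a ∈ A := mul_mem (inv_mem hxA) ha
  generalize x⁻¹ * a = a1 at hxe ha1
  clear hxM hxA hx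
  -- Step 3: reduce to `a ∈ N_A(D) ∩ N(T)`
  have hTD : T ≤ D := le_inf hTH hTA
  have hTiD : ¬ p ∣ T.relIndex D := by
    have := relIndex_mul_relIndex T D A hTD inf_le_right
    exact fun h => hTi (this ▸ Dvd.dvd.mul_right h _)
  have h3 : cj a1 T ≤ D := by
    have := cj_mono a1 hTD
    rwa [cj_eq_self_iff.2 hxe] at this
  have h4 : ¬ p ∣ (cj a1 T).relIndex D := by
    have := relIndex_cj a1 T D
    rw [cj_eq_self_iff.2 hxe] at this
    rwa [this]
  obtain ⟨y, hy, hye⟩ := exists_cj_eq_of_sylow_in hTD h3 hTp (isPGroup_cj a1 hTp) hTiD h4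
  apply prnAt_of_mul_left (mem_sup_left (inf_le_left (a := H) (b := A) hy) : y ∈ H ⊔ cj a1 H)
  rw [cj_eq_cj_iff] at hye
  have ha2D : y⁻¹ * a1 ∈ normalizer (D : Set G) := mul_mem (inv_mem (le_normalizer hy)) hxe
  generalize y⁻¹ * a1 = a2 at hye ha2D
  -- Step 4
  set E := H ⊓ normalizer (T : Set G) with hE
  have hEi : ¬ p ∣ E.index := not_dvd_index_inf_normalizer A T hTA hTp hTi H hTH hH
  have hEr : ¬ p ∣ E.relIndex (normalizer (T : Set G)) := by
    have := relIndex_mul_index (inf_le_right : E ≤ normalizer (T : Set G))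
    exact fun h => hEi (this ▸ Dvd.dvd.mul_right h _)
  obtain ⟨z, hz, hze⟩ := hN' E (le_inf hTH le_normalizer) inf_le_right hEr a2 hye
  refine ⟨z, (sup_le_sup inf_le_left (cj_mono a2 inf_le_left)) hz, ?_⟩
  -- Step 5
  have hDn : ∀ h ∈ H, cj h D = D := by
    intro h hh
    rw [hD, cj_inf, cj_of_mem hh, cj_normal]
  have hHDE : H = D ⊔ E := by
    apply le_antisymm
    · rcases frattini_aux D H T hDn hTD hTp hTiD with h | h
      · exact h
      · exact absurd inf_le_left h
    · exact sup_le inf_le_left inf_le_left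
  have hzD : z ∈ normalizer (D : Set G) := by
    have h5 : E ≤ normalizer (D : Set G) := fun e he => cj_eq_self_iff.1 (hDn e (mem_inf.1 he).1)
    have h6 : cj a2 E ≤ normalizer (D : Set G) := by
      have := cj_mono a2 h5
      rwa [← normalizer_cj, cj_eq_self_iff.2 ha2D] at this
    exact (sup_le h5 h6) hz
  rw [hHDE, cj_sup, cj_sup, cj_eq_self_iff.2 ha2D, cj_eq_self_iff.2 hzD, hze]

theorem core (H : Subgroup G) (hH : ¬ p ∣ H.index) : Cfsg.IsPronormal H := by
  have hDi : ¬ p ∣ (H ⊓ A).relIndex A := by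
    rw [inf_relIndex_right]
    exact fun h => hH (h.trans (relIndex_dvd_index_of_normal_right' H A))
  obtain ⟨T₂, -, hT₂, hT₂p, hT₂i⟩ := exists_sylow_in_ge (p := p) (T := ⊥) (H := H ⊓ A)
    IsPGroup.of_bot bot_le
  have hT₂A : ¬ p ∣ T₂.relIndex A := by
    rw [← relIndex_mul_relIndex T₂ (H ⊓ A) A hT₂ inf_le_right]
    exact Nat.Prime.not_dvd_mul Fact.out hT₂i hDi
  obtain ⟨b, hb, hbe⟩ := exists_cj_eq_of_sylow_in (hT₂.trans inf_le_right) hTA hT₂p hTp hT₂A hTi
  apply isPronormal_of_cj b
  apply core_of_le A T hTA hTp hTi hA' hQ' hN' hii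
  · rwa [index_cj]
  · rw [hbe]
    exact cj_mono b (hT₂.trans inf_le_left)

end Core

section Translate
variable {G : Type*} [Group G] [Finite G] {p : ℕ} [Fact p.Prime]

omit [Finite G] in
theorem normalizer_sup_le_of_map_eq (A : Subgroup G) [A.Normal] (K : Subgroup G)
    (h : (normalizer (K : Set G)).map (QuotientGroup.mk' A) =
      normalizer ((K.map (QuotientGroup.mk' A) : Subgroup (G ⧸ A)) : Set (G ⧸ A))) :
    normalizer ((K ⊔ A : Subgroup G) : Set G) ≤ normalizer (K : Set G) ⊔ A := by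
  intro g hg
  have h1 : QuotientGroup.mk' A g ∈ (normalizer ((K ⊔ A : Subgroup G) : Set G)).map
      (QuotientGroup.mk' A) := mem_map_of_mem _ hg
  have h2 := le_normalizer_map (QuotientGroup.mk' A) h1
  rw [Subgroup.map_sup, QuotientGroup.map_mk'_self, sup_bot_eq, ← h] at h2
  obtain ⟨n, hn, hne⟩ := h2
  have h3 : n⁻¹ * g ∈ A := by
    rw [← QuotientGroup.ker_mk' A, MonoidHom.mem_ker, map_mul, map_inv, hne, inv_mul_cancel]
  have e : g = n * (n⁻¹ * g) := by group
  rw [e]
  exact mul_mem (mem_sup_left hn) (mem_sup_right h3)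

omit [Finite G] in
theorem map_normalizer_eq_of_pronormal (A : Subgroup G) [A.Normal] (K : Subgroup G)
    (hK : Cfsg.IsPronormal K) :
    (normalizer (K : Set G)).map (QuotientGroup.mk' A) =
      normalizer ((K.map (QuotientGroup.mk' A) : Subgroup (G ⧸ A)) : Set (G ⧸ A)) := by
  apply le_antisymm (le_normalizer_map _)
  intro y hy
  obtain ⟨g, rfl⟩ := QuotientGroup.mk'_surjective A y
  rw [← cj_eq_self_iff, ← map_cj] at hy
  have h1 : cj g K ≤ K ⊔ A := by
    have h2 : cj g K ≤ ((cj g K).map (QuotientGroup.mk' A)).comap (QuotientGroup.mk' A) :=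
      le_comap_map _ _
    rwa [hy, comap_map_eq, QuotientGroup.ker_mk'] at h2
  obtain ⟨x, hx, hxe⟩ := isPronormal_iff.1 hK g
  have hx' : x ∈ A ⊔ K := by
    rw [sup_comm]
    exact (sup_le le_sup_left h1) hx
  obtain ⟨a, ha, k, hk, rfl⟩ := mem_sup_of_normal_left.1 hx'
  rw [cj_mul a k, cj_of_mem hk, cj_eq_cj_iff] at hxe
  refine ⟨a⁻¹ * g, hxe, ?_⟩
  rw [map_mul, map_inv]
  have : QuotientGroup.mk' A a = 1 := by
    rw [← MonoidHom.mem_ker, QuotientGroup.ker_mk']; exact ha
  rw [this, inv_one, one_mul]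

end Translate

/-- Let p be a prime and G a finite group with a normal subgroup A such that, both in A and in G/A, every subgroup containing a Sylow p-subgroup of that group is pronormal in that group. Let T be a Sylow p-subgroup of A. Then every subgroup of G containing a Sylow p-subgroup of G is pronormal in G if and only if (i) every subgroup of N_G(T)/T containing a Sylow p-subgroup of N_G(T)/T is pronormal there, and (ii) for every subgroup H of G containing a Sylow p-subgroup of G, the image of N_G(H) in G/A is the full normalizer of the image of H. (Pronormal: H and gHg⁻¹ are conjugate inside the subgroup they generate, for every g.) -/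
theorem result {G : Type*} [Group G] [Finite G] {p : ℕ} [Fact p.Prime]
    (A : Subgroup G) [A.Normal] (hA : (∀ K : Subgroup ↥A, (∃ P : Sylow p ↥A, (P : Subgroup ↥A) ≤ K) → Cfsg.IsPronormal K)) (hQ : (∀ K : Subgroup (G ⧸ A), (∃ P : Sylow p (G ⧸ A), (P : Subgroup (G ⧸ A)) ≤ K) → Cfsg.IsPronormal K))
    (T : Subgroup G) (hT : ∃ P : Sylow p ↥A, (P : Subgroup ↥A).map A.subtype = T) [(T.subgroupOf (Subgroup.normalizer (T : Set G))).Normal] :
    (∀ K : Subgroup G, (∃ P : Sylow p G, (P : Subgroup G) ≤ K) → Cfsg.IsPronormal K) ↔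
      ((∀ K : Subgroup (↥(Subgroup.normalizer (T : Set G)) ⧸ T.subgroupOf (Subgroup.normalizer (T : Set G))), (∃ P : Sylow p (↥(Subgroup.normalizer (T : Set G)) ⧸ T.subgroupOf (Subgroup.normalizer (T : Set G))), (P : Subgroup (↥(Subgroup.normalizer (T : Set G)) ⧸ T.subgroupOf (Subgroup.normalizer (T : Set G)))) ≤ K) → Cfsg.IsPronormal K) ∧
        ∀ K : Subgroup G, (∃ P : Sylow p G, (P : Subgroup G) ≤ K) →
          (Subgroup.normalizer (K : Set G)).map (QuotientGroup.mk' A) = Subgroup.normalizer ((K.map (QuotientGroup.mk' A) : Subgroup (G ⧸ A)) : Set (G ⧸ A))) := by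
  obtain ⟨P, hP⟩ := hT
  have hTA : T ≤ A := hP ▸ map_subtype_le _
  have hTp : IsPGroup p T := hP ▸ P.2.map _
  have hTi : ¬ p ∣ T.relIndex A := by
    rw [← hP, relIndex, subgroupOf, comap_map_eq_self_of_injective A.subtype_injective]
    exact P.not_dvd_index
  set N := normalizer (T : Set G) with hN
  have hNi : ¬ p ∣ N.index := by
    have := not_dvd_index_inf_normalizer A T hTA hTp hTi ⊤ le_top (by rw [index_top, Nat.dvd_one]; exact (Fact.out : p.Prime).one_lt.ne')
    rwa [top_inf_eq] at this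
  constructor
  · intro hG
    refine ⟨?_, ?_⟩
    · intro Kb hKb
      rw [exists_sylow_le_iff] at hKb
      set πT := QuotientGroup.mk' (T.subgroupOf N) with hπT
      have hs : Function.Surjective πT := QuotientGroup.mk'_surjective _
      have hK : Cfsg.IsPronormal ((Kb.comap πT).map N.subtype) := by
        apply hG
        rw [exists_sylow_le_iff, index_map_subtype, index_comap_of_surjective _ hs]
        exact Nat.Prime.not_dvd_mul Fact.out hKb hNi
      have hK1 : Cfsg.IsPronormal (Kb.comap πT) :=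
        (isPronormal_subgroup_iff _).2 fun g _ => isPronormal_iff.1 hK g
      have hK2 := (isPronormal_map_iff πT hs (ker_le_comap πT Kb)).2 hK1
      rwa [map_comap_eq_self_of_surjective hs] at hK2
    · intro K hK
      exact map_normalizer_eq_of_pronormal A K (hG K hK)
  · rintro ⟨h1, h2⟩ K hK
    rw [exists_sylow_le_iff] at hK
    refine core A T hTA hTp hTi ?_ ?_ ?_ ?_ K hK
    · intro K hKA hKi a ha
      have h3 : Cfsg.IsPronormal (K.subgroupOf A) := hA _ (exists_sylow_le_iff.2 hKi)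
      have h4 := (isPronormal_subgroup_iff _).1 h3 a ha
      rwa [map_subgroupOf_eq_of_le hKA] at h4
    · intro K hAK hKi
      have hker : (QuotientGroup.mk' A).ker ≤ K := by rw [QuotientGroup.ker_mk']; exact hAK
      have h3 : Cfsg.IsPronormal (K.map (QuotientGroup.mk' A)) := by
        apply hQ
        rw [exists_sylow_le_iff, index_map_eq _ (QuotientGroup.mk'_surjective A) hker]
        exact hKi
      exact isPronormal_iff.1 ((isPronormal_map_iff _ (QuotientGroup.mk'_surjective A) hker).1 h3)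
    · intro K hTK hKN hKi g hg
      set πT := QuotientGroup.mk' (T.subgroupOf N) with hπT
      have hs : Function.Surjective πT := QuotientGroup.mk'_surjective _
      have hker : πT.ker ≤ K.subgroupOf N := by
        rw [QuotientGroup.ker_mk']
        exact comap_mono hTK
      have h3 : Cfsg.IsPronormal ((K.subgroupOf N).map πT) := by
        apply h1
        rw [exists_sylow_le_iff, index_map_eq _ hs hker]
        exact hKi
      have h4 := (isPronormal_map_iff πT hs hker).1 h3
      have h5 := (isPronormal_subgroup_iff _).1 h4 g hg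
      rwa [map_subgroupOf_eq_of_le hKN] at h5
    · intro K hKi
      exact normalizer_sup_le_of_map_eq A K (h2 K (exists_sylow_le_iff.2 hKi))

end Cfsg.Agent.S4270
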