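import Cfsg.Statements.S4271
import Cfsg.Agent.S4270

set_option autoImplicit false
open Cfsg

namespace Cfsg.Agent.S4271

open Subgroup Cfsg.Agent.Lib.Helper75

section
variable {G : Type*} [Group G] [Finite G] {p : ℕ} [Fact p.Prime]

theorem exists_of_sylow_le (P : Sylow p G) (M : Subgroup G) (hPM : (P : Subgroup G) ≤ M) (g : G)
    (hg : cj g (P : Subgroup G) ≤ M) :
    ∃ x ∈ M, x⁻¹ * g ∈ normalizer ((P : Subgroup G) : Set G) := by
  have h1 : ¬ p ∣ (P : Subgroup G).relIndex M := fun h =>
    P.not_dvd_index (h.trans (relIndex_dvd_index_of_le hPM))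
  have h2 : ¬ p ∣ (cj g (P : Subgroup G)).relIndex M := fun h => by
    have h3 := h.trans (relIndex_dvd_index_of_le hg)
    rw [Cfsg.Agent.S4270.index_cj] at h3
    exact P.not_dvd_index h3
  obtain ⟨x, hx, hxe⟩ := exists_cj_eq_of_sylow_in hPM hg P.2 (Cfsg.Agent.S4270.isPGroup_cj g P.2) h1 h2
  exact ⟨x, hx, cj_eq_cj_iff.1 hxe⟩

theorem isPronormal_of_normalizer_sylow_le (P : Sylow p G) (K : Subgroup G)
    (hN : normalizer ((P : Subgroup G) : Set G) ≤ K) : Cfsg.IsPronormal K := by
  rw [isPronormal_iff]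
  intro g
  have hPK : (P : Subgroup G) ≤ K := le_normalizer.trans hN
  obtain ⟨x, hx, hxn⟩ := exists_of_sylow_le P (K ⊔ cj g K) (hPK.trans le_sup_left) g
    ((cj_mono g hPK).trans le_sup_right)
  refine ⟨x, hx, ?_⟩
  rw [cj_eq_cj_iff]
  exact le_normalizer (hN hxn)

theorem normalizer_eq_of_normalizer_sylow_le (P : Sylow p G) (K : Subgroup G)
    (hN : normalizer ((P : Subgroup G) : Set G) ≤ K) : normalizer (K : Set G) = K := by
  apply le_antisymm _ le_normalizer
  intro g hg
  have hPK : (P : Subgroup G) ≤ K := le_normalizer.trans hN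
  have h1 : cj g (P : Subgroup G) ≤ K := by
    have := cj_mono g hPK
    rwa [cj_eq_self_iff.2 hg] at this
  obtain ⟨x, hx, hxn⟩ := exists_of_sylow_le P K hPK g h1
  have e : g = x * (x⁻¹ * g) := by group
  rw [e]
  exact mul_mem hx (hN hxn)

end

/-- Let p be a prime and G a finite group with a normal subgroup A such that every subgroup of A containing a Sylow p-subgroup of A is pronormal in A, and the Sylow p-subgroups of G/A are self-normalizing. Let T be a Sylow p-subgroup of A. Then every subgroup of G containing a Sylow p-subgroup of G is pronormal in G if and only if every subgroup of N_G(T)/T containing a Sylow p-subgroup of N_G(T)/T is pronormal in N_G(T)/T. (Pronormal: H and gHg⁻¹ are conjugate inside the subgroup they generate, for every g.) -/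
theorem result {G : Type*} [Group G] [Finite G] {p : ℕ} [Fact p.Prime]
    (A : Subgroup G) [A.Normal] (hA : (∀ K : Subgroup ↥A, (∃ P : Sylow p ↥A, (P : Subgroup ↥A) ≤ K) → Cfsg.IsPronormal K))
    (hQ : ∀ P : Sylow p (G ⧸ A), Subgroup.normalizer ((P : Subgroup (G ⧸ A)) : Set (G ⧸ A)) = P)
    (T : Subgroup G) (hT : ∃ P : Sylow p ↥A, (P : Subgroup ↥A).map A.subtype = T) [(T.subgroupOf (Subgroup.normalizer (T : Set G))).Normal] :
    (∀ K : Subgroup G, (∃ P : Sylow p G, (P : Subgroup G) ≤ K) → Cfsg.IsPronormal K) ↔ (∀ K : Subgroup (↥(Subgroup.normalizer (T : Set G)) ⧸ T.subgroupOf (Subgroup.normalizer (T : Set G))), (∃ P : Sylow p (↥(Subgroup.normalizer (T : Set G)) ⧸ T.subgroupOf (Subgroup.normalizer (T : Set G))), (P : Subgroup (↥(Subgroup.normalizer (T : Set G)) ⧸ T.subgroupOf (Subgroup.normalizer (T : Set G)))) ≤ K) → Cfsg.IsPronormal K) := by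
  have hQ' : ∀ K : Subgroup (G ⧸ A), (∃ P : Sylow p (G ⧸ A), (P : Subgroup (G ⧸ A)) ≤ K) →
      Cfsg.IsPronormal K := by
    rintro K ⟨P, hP⟩
    exact isPronormal_of_normalizer_sylow_le P K (by rw [hQ P]; exact hP)
  rw [Cfsg.Agent.S4270.result A hA hQ' T hT]
  constructor
  · exact fun h => h.1
  · intro h
    refine ⟨h, ?_⟩
    rintro K ⟨P, hP⟩
    have hs := QuotientGroup.mk'_surjective A
    have h1 : ((P.mapSurjective hs : Sylow p (G ⧸ A)) : Subgroup (G ⧸ A)) ≤
        K.map (QuotientGroup.mk' A) := by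
      rw [Sylow.coe_mapSurjective]
      exact map_mono hP
    have h2 := normalizer_eq_of_normalizer_sylow_le (P.mapSurjective hs)
      (K.map (QuotientGroup.mk' A)) (by rw [hQ]; exact h1)
    apply le_antisymm (le_normalizer_map _)
    rw [h2]
    exact map_mono le_normalizer

end Cfsg.Agent.S4271
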