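import Cfsg.Statements.S4331
-- import your own Cfsg.Agent.* helpers here
import Mathlib

set_option autoImplicit false
open Cfsg

namespace Cfsg.Agent.S4331

/-- the semidihedral group of order 16, elements `r^i s^j`. -/
structure SD16 where
  i : ZMod 8
  j : ZMod 2
  deriving DecidableEq, Fintype

namespace SD16

def tw (j : ZMod 2) (x : ZMod 8) : ZMod 8 := if j = 0 then x else 3 * x

instance instMul : Mul SD16 := ⟨fun a b => ⟨a.i + tw a.j b.i, a.j + b.j⟩⟩
instance instOne : One SD16 := ⟨⟨0, 0⟩⟩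
instance instInv : Inv SD16 := ⟨fun a => ⟨- tw a.j a.i, a.j⟩⟩

set_option maxRecDepth 100000 in
theorem mul_assoc' : ∀ a b c : SD16, (a * b) * c = a * (b * c) := by decide

theorem one_mul' : ∀ a : SD16, 1 * a = a := by decide

theorem inv_mul' : ∀ a : SD16, a⁻¹ * a = 1 := by decide

instance instGroup : Group SD16 := Group.ofLeftAxioms mul_assoc' one_mul' inv_mul'

end SD16

abbrev V := ZMod 3 × ZMod 3

def pw (i : ZMod 8) : V :=
  match i.val with
  | 0 => (1, 0) | 1 => (1, 1) | 2 => (0, 2) | 3 => (1, 2)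
  | 4 => (2, 0) | 5 => (2, 2) | 6 => (0, 1) | _ => (2, 1)

def mulF (x y : V) : V := (x.1 * y.1 - x.2 * y.2, x.1 * y.2 + x.2 * y.1)

def frob (j : ZMod 2) (x : V) : V := if j = 0 then x else (x.1, - x.2)

def act (a : SD16) (v : V) : V := mulF (pw a.i) (frob a.j v)

set_option maxRecDepth 100000 in
theorem act_mul : ∀ (a b : SD16) (v : V), act (a * b) v = act a (act b v) := by decide

set_option maxRecDepth 100000 in
theorem act_add : ∀ (a : SD16) (v w : V), act a (v + w) = act a v + act a w := by decide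

theorem act_one : ∀ (v : V), act 1 v = v := by decide

theorem act_inv_act (a : SD16) (v : V) : act a⁻¹ (act a v) = v := by
  rw [← act_mul, inv_mul_cancel, act_one]

theorem act_act_inv (a : SD16) (v : V) : act a (act a⁻¹ v) = v := by
  rw [← act_mul, mul_inv_cancel, act_one]

def actEquiv (a : SD16) : MulAut (Multiplicative V) where
  toFun v := Multiplicative.ofAdd (act a v.toAdd)
  invFun v := Multiplicative.ofAdd (act a⁻¹ v.toAdd)
  left_inv v := act_inv_act a v.toAdd
  right_inv v := act_act_inv a v.toAdd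
  map_mul' v w := act_add a v.toAdd w.toAdd

def phi : SD16 →* MulAut (Multiplicative V) :=
  MonoidHom.mk' actEquiv (by
    intro a b
    apply MulEquiv.ext
    intro v
    exact act_mul a b v.toAdd)

abbrev GG := Multiplicative V ⋊[phi] SD16

def aa : GG := ⟨1, ⟨0, 1⟩⟩

set_option maxRecDepth 1000000 in
set_option maxHeartbeats 4000000 in
theorem key : ∀ (v : Multiplicative V) (h : SD16), ∃ (u : Multiplicative V) (k : SD16),
    (aa * ((⟨u, k⟩ : GG) * ⟨v, h⟩ * (⟨u, k⟩ : GG)⁻¹) = ((⟨u, k⟩ : GG) * ⟨v, h⟩ * (⟨u, k⟩ : GG)⁻¹) * aa) ∨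
    ((⟨u, k⟩ : GG) * ⟨v, h⟩ * (⟨u, k⟩ : GG)⁻¹).left = 1 := by
  decide


theorem isSubnormal_of_isNilpotent {X : Type*} [Group X] [Finite X] (hX : Group.IsNilpotent X)
    (H : Subgroup X) : H.IsSubnormal := by
  have hnc : NormalizerCondition X := Group.normalizerCondition_of_isNilpotent
  induction H using WellFoundedGT.induction with
  | ind H ih =>
    by_cases hH : H = ⊤
    · subst hH; exact Subgroup.IsSubnormal.top
    · have hlt : H < Subgroup.normalizer (H : Set X) := hnc H (lt_top_iff_ne_top.mpr hH)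
      exact Subgroup.IsSubnormal.step H _ hlt.le (ih _ hlt)
        (Subgroup.normal_subgroupOf_of_le_normalizer le_rfl)

theorem isSubnormal_of_commute {X : Type*} [Group X] (a g : X) (h : Commute a g) :
    ((Subgroup.zpowers a).subgroupOf (Subgroup.zpowers a ⊔ Subgroup.zpowers g)).IsSubnormal := by
  apply Subgroup.Normal.isSubnormal
  rw [Subgroup.normal_subgroupOf_iff_le_normalizer le_sup_left]
  apply sup_le Subgroup.le_normalizer
  refine le_trans ?_ (Subgroup.centralizer_le_normalizer _)
  intro y hy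
  obtain ⟨i, rfl⟩ := Subgroup.mem_zpowers_iff.1 hy
  rw [Subgroup.mem_centralizer_iff]
  intro w hw
  obtain ⟨j, rfl⟩ := Subgroup.mem_zpowers_iff.1 hw
  exact h.zpow_zpow j i

theorem sd_pow : ∀ h : SD16, h ^ 2 ^ 4 = 1 := by decide

theorem v_pow : ∀ n : Multiplicative V, n ^ 3 ^ 1 = 1 := by decide

theorem aa_sq : aa ^ 2 = 1 := by decide

theorem aa_ne : aa ≠ 1 := by decide

theorem aa_not_comm : aa * (SemidirectProduct.inl (Multiplicative.ofAdd ((0, 1) : V)) : GG) ≠
    (SemidirectProduct.inl (Multiplicative.ofAdd ((0, 1) : V)) : GG) * aa := by decide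

instance instFiniteGG : Finite GG := Finite.of_equiv _ SemidirectProduct.equivProd.symm

theorem gg_solvable : Group.IsSolvable GG := by
  have : Fact (Nat.Prime 2) := ⟨Nat.prime_two⟩
  have hH : IsPGroup 2 SD16 := fun h => ⟨4, sd_pow h⟩
  have hHn : Group.IsNilpotent SD16 := hH.isNilpotent
  have hHs : Group.IsSolvable SD16 := inferInstance
  exact Group.isSolvable_of_ker_le_range (SemidirectProduct.inl : Multiplicative V →* GG)
    SemidirectProduct.rightHom SemidirectProduct.range_inl_eq_ker_rightHom.ge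

theorem gg_card : Nat.card (Subgroup.zpowers aa) = 2 := by
  have : Fact (Nat.Prime 2) := ⟨Nat.prime_two⟩
  rw [Nat.card_zpowers]
  exact orderOf_eq_prime aa_sq aa_ne

theorem gg_case2 (g : GG) (hleft : g.left = 1) :
    ((Subgroup.zpowers aa).subgroupOf (Subgroup.zpowers aa ⊔ Subgroup.zpowers g)).IsSubnormal := by
  have : Fact (Nat.Prime 2) := ⟨Nat.prime_two⟩
  apply isSubnormal_of_isNilpotent
  have hle : Subgroup.zpowers aa ⊔ Subgroup.zpowers g ≤ (SemidirectProduct.inr : SD16 →* GG).range := by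
    apply sup_le
    · rw [Subgroup.zpowers_le]
      exact ⟨⟨0, 1⟩, rfl⟩
    · rw [Subgroup.zpowers_le]
      refine ⟨g.right, ?_⟩
      apply SemidirectProduct.ext
      · exact hleft.symm
      · rfl
  have hp : IsPGroup 2 (Subgroup.zpowers aa ⊔ Subgroup.zpowers g : Subgroup GG) := by
    intro t
    obtain ⟨h', hh'⟩ := hle t.2
    refine ⟨4, ?_⟩
    apply Subtype.ext
    rw [Subgroup.coe_pow, ← hh', ← map_pow, sd_pow, map_one]
    rfl
  exact hp.isNilpotent

theorem gg_main (c : GG) : ∃ g : GG, IsConj c g ∧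
    ((Subgroup.zpowers aa).subgroupOf (Subgroup.zpowers aa ⊔ Subgroup.zpowers g)).IsSubnormal := by
  obtain ⟨u, k, hk⟩ := key c.left c.right
  have hc : (⟨c.left, c.right⟩ : GG) = c := rfl
  rw [hc] at hk
  generalize (⟨u, k⟩ : GG) = x at hk
  refine ⟨x * c * x⁻¹, isConj_iff.2 ⟨x, rfl⟩, ?_⟩
  rcases hk with hcomm | hleft
  · exact isSubnormal_of_commute aa _ hcomm
  · exact gg_case2 _ hleft

theorem gg_core : ¬ Subgroup.zpowers aa ≤ Cfsg.pCore 2 GG := by
  have : Fact (Nat.Prime 2) := ⟨Nat.prime_two⟩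
  have : Fact (Nat.Prime 3) := ⟨Nat.prime_three⟩
  intro hle
  have hN : ((SemidirectProduct.inl : Multiplicative V →* GG).range).Normal := by
    rw [SemidirectProduct.range_inl_eq_ker_rightHom]
    infer_instance
  have hN3 : IsPGroup 3 (SemidirectProduct.inl : Multiplicative V →* GG).range := by
    rintro ⟨t, n, rfl⟩
    refine ⟨1, ?_⟩
    apply Subtype.ext
    rw [Subgroup.coe_pow]
    change (SemidirectProduct.inl n : GG) ^ 3 ^ 1 = 1
    rw [← map_pow, v_pow, map_one]
  have hcore : Cfsg.pCore 2 GG ≤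
      Subgroup.centralizer ((SemidirectProduct.inl : Multiplicative V →* GG).range : Set GG) := by
    apply sSup_le
    rintro K ⟨hK1, hK2⟩
    intro x hx
    rw [Subgroup.mem_centralizer_iff]
    intro y hy
    exact (Subgroup.commute_of_normal_of_disjoint K _ hK1 hN
      (IsPGroup.disjoint_of_ne 2 3 (by norm_num) _ _ hK2 hN3) x y hx hy).symm
  have h1 := hcore (hle (Subgroup.mem_zpowers aa))
  rw [Subgroup.mem_centralizer_iff] at h1
  exact aa_not_comm (h1 _ ⟨_, rfl⟩).symm

/-- There is a finite solvable group G with a subgroup A of order 2 such that every conjugacy class of G contains an element g for which A is subnormal in the subgroup generated by A and g, and yet A is not contained in O_2(G). (So the corresponding criteria for odd primes fail at the prime 2, even for solvable groups.) -/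
theorem result :
    ∃ (G : Type) (_ : Group G) (_ : Finite G) (A : Subgroup G), Group.IsSolvable G ∧ Nat.card A = 2 ∧
      (∀ c : G, ∃ g : G, IsConj c g ∧ (A.subgroupOf (A ⊔ Subgroup.zpowers g)).IsSubnormal) ∧
      ¬ A ≤ Cfsg.pCore 2 G := by
  exact ⟨GG, inferInstance, inferInstance, Subgroup.zpowers aa, gg_solvable, gg_card, gg_main, gg_core⟩

end Cfsg.Agent.S4331
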