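import Cfsg.Statements.S4332
-- import your own Cfsg.Agent.* helpers here
import Mathlib

set_option autoImplicit false
open Pointwise
open Cfsg

namespace Cfsg.Agent.S4332

open Equiv Equiv.Perm

variable {α : Type*} [DecidableEq α]

/-- the three cycle on `x y z`. -/
def tc (x y z : α) : Perm α := swap x y * swap x z

theorem tc_conj (c : Perm α) (x y z : α) : c * tc x y z * c⁻¹ = tc (c x) (c y) (c z) := by
  unfold tc
  rw [swap_apply_apply, swap_apply_apply]
  group

theorem tc_isThreeCycle [Fintype α] {x y z : α} (h1 : x ≠ y) (h2 : x ≠ z) (h3 : y ≠ z) : (tc x y z).IsThreeCycle :=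
  isThreeCycle_swap_mul_swap_same h1 h2 h3

theorem tc_rot (x y z : α) (h2 : x ≠ z) (h3 : y ≠ z) : tc y z x = tc x y z := by
  unfold tc
  have h := swap_apply_apply (swap x y) x z
  rw [swap_apply_left, swap_apply_of_ne_of_ne h2.symm h3.symm, swap_inv] at h
  rw [h, mul_assoc, mul_assoc, swap_comm y x, swap_mul_self, mul_one]

theorem tc_commute {x y z x' y' z' : α} (h1 : x ≠ y) (h2 : x ≠ z) (h1' : x' ≠ y') (h2' : x' ≠ z')
    (a1 : x ≠ x') (a2 : x ≠ y') (a3 : x ≠ z') (b1 : y ≠ x') (b2 : y ≠ y') (b3 : y ≠ z')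
    (c1 : z ≠ x') (c2 : z ≠ y') (c3 : z ≠ z') : Commute (tc x y z) (tc x' y' z') := by
  apply Disjoint.commute
  unfold tc
  apply Disjoint.mul_left <;> apply Disjoint.mul_right <;> apply disjoint_swap_swap <;> simp [*]

/-- the combinatorial core: some three cycle commutes with its conjugate by `c`. -/
theorem exists_tc [Fintype α] (c : Perm α) (hcard : Fintype.card α = 8) :
    ∃ τ : Perm α, τ.IsThreeCycle ∧ Commute τ (c * τ * c⁻¹) := by
  have hne : ∀ {u : α}, u ∈ c.support → c u ≠ u := fun h => mem_support.1 h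
  have hinj : ∀ {u v : α}, c u = c v → u = v := fun h => c.injective h
  by_cases hM : c.support.card ≤ 5
  · have h1 : 2 < (c.supportᶜ).card := by
      rw [Finset.card_compl, hcard]; omega
    obtain ⟨x, y, z, hx, hy, hz, hxy, hxz, hyz⟩ := Finset.two_lt_card_iff.1 h1
    have fx : c x = x := by simpa using hx
    have fy : c y = y := by simpa using hy
    have fz : c z = z := by simpa using hz
    refine ⟨tc x y z, tc_isThreeCycle hxy hxz hyz, ?_⟩
    rw [tc_conj, fx, fy, fz]
  · push Not at hM
    by_cases hB1 : ∃ x ∈ c.support, c (c x) ≠ x ∧ c (c (c x)) ≠ x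
    · obtain ⟨x, hx, h2, h3⟩ := hB1
      have hS : ({c⁻¹ x, x, c x, c (c x), c (c (c x))} : Finset α).card < c.support.card :=
        lt_of_le_of_lt Finset.card_le_five hM
      obtain ⟨z, hz, hzS⟩ := Finset.exists_mem_notMem_of_card_lt_card hS
      simp only [Finset.mem_insert, Finset.mem_singleton, not_or] at hzS
      obtain ⟨z1, z2, z3, z4, z5⟩ := hzS
      have hx' := hne hx
      have hz' := hne hz
      refine ⟨tc x (c (c x)) z, tc_isThreeCycle h2.symm (Ne.symm z2) (Ne.symm z4), ?_⟩
      rw [tc_conj]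
      apply tc_commute h2.symm (Ne.symm z2)
      · intro h; exact h2 (hinj h).symm
      · intro h; exact z2 (hinj h).symm
      · exact hx'.symm
      · exact h3.symm
      · intro h; apply z1; rw [h]; simp
      · intro h; exact hx' (hinj h)
      · intro h; exact hx' (hinj (hinj h.symm))
      · intro h; exact z3 (hinj h.symm)
      · exact z3
      · exact z5
      · exact hz'.symm
    · push Not at hB1
      by_cases hB2 : ∃ x ∈ c.support, c (c x) = x
      · obtain ⟨x, hx, h2⟩ := hB2
        have hS1 : ({x, c x} : Finset α).card < c.support.card :=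
          lt_of_le_of_lt Finset.card_le_two (by omega)
        obtain ⟨y, hy, hyS⟩ := Finset.exists_mem_notMem_of_card_lt_card hS1
        simp only [Finset.mem_insert, Finset.mem_singleton, not_or] at hyS
        obtain ⟨y1, y2⟩ := hyS
        have hS : ({x, c x, y, c y, c⁻¹ y} : Finset α).card < c.support.card :=
          lt_of_le_of_lt Finset.card_le_five hM
        obtain ⟨z, hz, hzS⟩ := Finset.exists_mem_notMem_of_card_lt_card hS
        simp only [Finset.mem_insert, Finset.mem_singleton, not_or] at hzS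
        obtain ⟨z1, z2, z3, z4, z5⟩ := hzS
        have hx' := hne hx
        have hy' := hne hy
        have hz' := hne hz
        refine ⟨tc x y z, tc_isThreeCycle (Ne.symm y1) (Ne.symm z1) (Ne.symm z3), ?_⟩
        rw [tc_conj]
        apply tc_commute (Ne.symm y1) (Ne.symm z1)
        · intro h; exact y1 (hinj h).symm
        · intro h; exact z1 (hinj h).symm
        · exact hx'.symm
        · intro h; apply y2; apply hinj; rw [h2, ← h]
        · intro h; apply z2; apply hinj; rw [h2, ← h]
        · exact y2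
        · exact hy'.symm
        · intro h; apply z5; rw [h]; simp
        · exact z2
        · exact z4
        · exact hz'.symm
      · push Not at hB2
        have hne0 : c.support.Nonempty := Finset.card_pos.1 (by omega)
        obtain ⟨x, hx⟩ := hne0
        have h2 := hB2 x hx
        have h3 := hB1 x hx h2
        have hx' := hne hx
        have hxy : x ≠ c x := hx'.symm
        have hxz : x ≠ c (c x) := h2.symm
        have hyz : c x ≠ c (c x) := fun h => hxy (hinj h)
        refine ⟨tc x (c x) (c (c x)), tc_isThreeCycle hxy hxz hyz, ?_⟩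
        rw [tc_conj, h3, tc_rot x (c x) (c (c x)) hxz hyz]

theorem isSubnormal_of_commute {G : Type*} [Group G] (s g : G) (h : Commute s (g * s * g⁻¹)) :
    ((Subgroup.zpowers s).subgroupOf (Subgroup.zpowers s ⊔ MulAut.conj g • Subgroup.zpowers s)).IsSubnormal := by
  apply Subgroup.Normal.isSubnormal
  rw [Subgroup.normal_subgroupOf_iff_le_normalizer le_sup_left]
  apply sup_le Subgroup.le_normalizer
  refine le_trans ?_ (Subgroup.centralizer_le_normalizer _)
  intro y hy
  rw [Subgroup.mem_pointwise_smul_iff_inv_smul_mem] at hy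
  obtain ⟨i, hi⟩ := Subgroup.mem_zpowers_iff.1 hy
  have hy2 : y = (g * s * g⁻¹) ^ i := by
    rw [conj_zpow, hi]
    simp [MulAut.smul_def, mul_assoc]
  rw [Subgroup.mem_centralizer_iff]
  intro w hw
  obtain ⟨j, rfl⟩ := Subgroup.mem_zpowers_iff.1 hw
  rw [hy2]
  exact (h.zpow_zpow j i)

/-- In the symmetric group of degree 8, let A be the subgroup generated by a 3-cycle. Then every conjugacy class contains an element g for which A is subnormal in the subgroup generated by A and its conjugate by g, although O_3 of the symmetric group of degree 8 is trivial. -/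
theorem result
    (σ : Equiv.Perm (Fin 8)) (hσ : σ.IsThreeCycle) :
    (∀ c : Equiv.Perm (Fin 8), ∃ g : Equiv.Perm (Fin 8), IsConj c g ∧
      ((Subgroup.zpowers σ).subgroupOf (Subgroup.zpowers σ ⊔ MulAut.conj g • Subgroup.zpowers σ)).IsSubnormal) ∧
    Cfsg.pCore 3 (Equiv.Perm (Fin 8)) = ⊥ := by
  constructor
  · intro c
    obtain ⟨τ, hτ, hcomm⟩ := exists_tc c (by simp)
    have hconj : IsConj τ σ := by
      rw [Equiv.Perm.isConj_iff_cycleType_eq, hτ.cycleType, hσ.cycleType]
    obtain ⟨h, hh⟩ := isConj_iff.1 hconj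
    refine ⟨h * c * h⁻¹, isConj_iff.2 ⟨h, rfl⟩, ?_⟩
    apply isSubnormal_of_commute
    have e1 : h * c * h⁻¹ * σ * (h * c * h⁻¹)⁻¹ = h * (c * τ * c⁻¹) * h⁻¹ := by
      rw [← hh]; group
    rw [e1, ← hh]
    exact hcomm.conj h
  · rw [eq_bot_iff]
    apply sSup_le
    rintro N ⟨hN1, hN2⟩
    by_contra hne
    have hnt : Nontrivial N := by
      rw [Subgroup.nontrivial_iff_ne_bot]
      intro h; exact hne (h ▸ le_rfl)
    have hle := Equiv.Perm.alternatingGroup_le_of_normal (α := Fin 8) (by simp) hnt
    have hx : (Equiv.swap (0 : Fin 8) 1 * Equiv.swap (2 : Fin 8) 3) ∈ alternatingGroup (Fin 8) := by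
      rw [Equiv.Perm.mem_alternatingGroup]
      decide
    obtain ⟨k, hk⟩ := hN2 ⟨_, hle hx⟩
    have hk' : (Equiv.swap (0 : Fin 8) 1 * Equiv.swap (2 : Fin 8) 3) ^ 3 ^ k = 1 := by
      simpa using congrArg Subtype.val hk
    have h2 : (Equiv.swap (0 : Fin 8) 1 * Equiv.swap (2 : Fin 8) 3) ^ 2 = 1 := by decide
    have hodd : Odd (3 ^ k) := Odd.pow (by decide)
    obtain ⟨m, hm⟩ := hodd
    rw [hm, pow_succ, pow_mul, h2, one_pow, one_mul] at hk'
    revert hk'
    decide

end Cfsg.Agent.S4332
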