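import Cfsg.Statements.S4334
-- import your own Cfsg.Agent.* helpers here
import Cfsg.Agent.Lib.Helper67.SylowAux
import Cfsg.Agent.Lib.Helper31.Nilpotent
import Cfsg.Agent.S0071
import Cfsg.Agent.Lib.Helper12.Card

set_option autoImplicit false
open Cfsg

namespace Cfsg.Agent.S4334


open Cfsg.Agent.Lib.Helper67 Cfsg.Agent.Lib.Helper31

/-- the abstract property of `H` that is used: `s`-elements commute with `s'`-elements -/
def CProp {G : Type*} [Group G] (σ : Set ℕ) (H : Subgroup G) : Prop :=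
  ∀ s : ℕ, s.Prime → s ∈ σ → ∀ u ∈ H, ∀ h ∈ H, (∃ k : ℕ, orderOf u = s ^ k) →
    (orderOf h).Coprime s → u * h = h * u

theorem cprop {G : Type*} [Group G] [Finite G] (σ τ : Set ℕ) (hd : Disjoint σ τ)
    (H Hs Ht : Subgroup G) (hs : Cfsg.IsPiSubgroup σ Hs) (ht : Cfsg.IsPiSubgroup τ Ht)
    (hsn : Group.IsNilpotent Hs) (hjoin : Hs ⊔ Ht = H)
    (hcomm : ∀ a ∈ Hs, ∀ b ∈ Ht, a * b = b * a) : CProp σ H := by
  have hcop : (Nat.card Hs).Coprime (Nat.card Ht) := by
    apply Nat.Coprime.symm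
    apply Nat.coprime_of_dvd
    intro k hk h1 h2
    exact (Set.disjoint_left.mp hd) (hs k hk h2) (ht k hk h1)
  have hinf : Hs ⊓ Ht = ⊥ := (Subgroup.disjoint_of_coprime_natCard hcop).eq_bot
  have hnorm : Hs ≤ Subgroup.normalizer (Ht : Set G) := by
    intro a ha
    rw [Subgroup.mem_normalizer_iff]
    intro b
    constructor
    · intro hb
      rw [hcomm a ha b hb]; simpa using hb
    · intro hb
      have h1 := hcomm a⁻¹ (Hs.inv_mem ha) _ hb
      have h2 : b = a⁻¹ * (a * b * a⁻¹) * a := by group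
      rw [h2, h1]; simpa using hb
  have hdec : ∀ x ∈ H, ∃ a ∈ Hs, ∃ b ∈ Ht, x = a * b := by
    intro x hx
    rw [← hjoin, ← SetLike.mem_coe, Subgroup.coe_mul_of_left_le_normalizer_right Hs Ht hnorm] at hx
    obtain ⟨a, ha, b, hb, rfl⟩ := hx
    exact ⟨a, ha, b, hb, rfl⟩
  have hpow : ∀ a ∈ Hs, ∀ b ∈ Ht, ∀ n : ℕ, (a * b) ^ n = 1 → a ^ n = 1 ∧ b ^ n = 1 := by
    intro a ha b hb n hn
    have hc : Commute a b := hcomm a ha b hb
    rw [hc.mul_pow] at hn
    have h1 : b ^ n = (a ^ n)⁻¹ := by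
      rw [eq_inv_iff_mul_eq_one, ← (hc.pow_pow n n).eq]; exact hn
    have h2 : b ^ n ∈ Hs ⊓ Ht :=
      Subgroup.mem_inf.mpr ⟨by rw [h1]; exact Hs.inv_mem (Hs.pow_mem ha n), Ht.pow_mem hb n⟩
    rw [hinf, Subgroup.mem_bot] at h2
    refine ⟨?_, h2⟩
    rw [h2] at h1
    simpa using h1.symm
  intro s hsp hsσ u hu h hh ⟨k, hk⟩ hho
  obtain ⟨a₁, ha₁, b₁, hb₁, rfl⟩ := hdec u hu
  obtain ⟨a₂, ha₂, b₂, hb₂, rfl⟩ := hdec h hh
  have h1 := hpow a₁ ha₁ b₁ hb₁ (s ^ k) (by rw [← hk]; exact pow_orderOf_eq_one _)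
  have h2 := hpow a₂ ha₂ b₂ hb₂ _ (pow_orderOf_eq_one _)
  have hb1 : b₁ = 1 := by
    rw [← orderOf_eq_one_iff]
    have h3 : orderOf b₁ ∣ s ^ k := orderOf_dvd_of_pow_eq_one h1.2
    have h4 : orderOf b₁ ∣ Nat.card Ht := by
      have := orderOf_dvd_natCard (⟨b₁, hb₁⟩ : Ht)
      rwa [Subgroup.orderOf_mk] at this
    have h5 : (Nat.card Ht).Coprime (s ^ k) := by
      apply Nat.Coprime.pow_right
      rw [Nat.coprime_comm, Nat.Prime.coprime_iff_not_dvd hsp]
      intro h6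
      exact (Set.disjoint_left.mp hd) hsσ (ht s hsp h6)
    exact Nat.eq_one_of_dvd_coprimes h5 h4 h3
  subst hb1
  have ho1 : orderOf a₁ ∣ s ^ k := orderOf_dvd_of_pow_eq_one h1.1
  have ho2 : orderOf a₂ ∣ orderOf (a₂ * b₂) := orderOf_dvd_of_pow_eq_one h2.1
  have hc1 : (orderOf a₁).Coprime (orderOf a₂) :=
    Nat.Coprime.coprime_dvd_left ho1
      (Nat.Coprime.coprime_dvd_right ho2 (Nat.Coprime.pow_left _ hho.symm))
  have hc2 := commute_of_coprime_orderOf Hs ⟨a₁, ha₁⟩ ⟨a₂, ha₂⟩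
    (by rw [Subgroup.orderOf_mk, Subgroup.orderOf_mk]; exact hc1)
  have hc3 : a₁ * a₂ = a₂ * a₁ := congrArg Subtype.val hc2.eq
  have hc4 := hcomm a₁ ha₁ b₂ hb₂
  rw [mul_one]
  calc a₁ * (a₂ * b₂) = (a₁ * a₂) * b₂ := by group
    _ = a₂ * (a₁ * b₂) := by rw [hc3]; group
    _ = a₂ * b₂ * a₁ := by rw [hc4]; group

/-- a `t`-subgroup of `H` of index prime to `t` in `G` -/
theorem exists_syl {G : Type*} [Group G] [Finite G] (H : Subgroup G) (t : ℕ) [Fact t.Prime]
    (hH : ¬ t ∣ H.index) : ∃ T : Subgroup G, T ≤ H ∧ IsPGroup t T ∧ ¬ t ∣ T.index := by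
  obtain ⟨T0⟩ : Nonempty (Sylow t H) := inferInstance
  refine ⟨(T0 : Subgroup H).map H.subtype, Subgroup.map_subtype_le _, T0.isPGroup'.map _, ?_⟩
  rw [Subgroup.index_map_subtype]
  intro h
  rcases (Nat.Prime.dvd_mul Fact.out).mp h with h | h
  · exact T0.not_dvd_index h
  · exact hH h

theorem orderOf_of_isPGroup {G : Type*} [Group G] {p : ℕ} [Fact p.Prime] {U : Subgroup G} (hU : IsPGroup p U)
    {u : G} (hu : u ∈ U) : ∃ k : ℕ, orderOf u = p ^ k := by
  obtain ⟨k, hk⟩ := (IsPGroup.iff_orderOf.mp hU) ⟨u, hu⟩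
  exact ⟨k, by rw [← hk, Subgroup.orderOf_mk]⟩

/-- `t`-elements normalizing an `s`-subgroup of `H` centralize it -/
theorem frob0 {G : Type*} [Group G] [Finite G] (σ : Set ℕ) (H : Subgroup G) (hC : CProp σ H)
    (s t : ℕ) (hs : s.Prime) (hsσ : s ∈ σ) [Fact t.Prime] (hts : t ≠ s) (htH : ¬ t ∣ H.index)
    (U : Subgroup G) (hUH : U ≤ H) (hU : IsPGroup s U) (a : G)
    (ha : a ∈ Subgroup.normalizer (U : Set G)) (j : ℕ) (haj : orderOf a = t ^ j) :
    ∀ u ∈ U, a * u = u * a := by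
  have htp : t.Prime := Fact.out
  have : Fact s.Prime := ⟨hs⟩
  obtain ⟨T, hTH, hT, hTi⟩ := exists_syl H t htH
  have hTC : ∀ y ∈ T, ∀ u ∈ U, u * y = y * u := by
    intro y hy u hu
    obtain ⟨i, hi⟩ := orderOf_of_isPGroup hT hy
    apply hC s hs hsσ u (hUH hu) y (hTH hy) (orderOf_of_isPGroup hU hu)
    rw [hi]
    exact Nat.Coprime.pow_left _ ((Nat.coprime_primes htp hs).mpr hts)
  have hTN : T ≤ Subgroup.normalizer (U : Set G) := by
    intro y hy
    rw [Subgroup.mem_normalizer_iff]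
    intro u
    constructor
    · intro hu
      rw [← hTC y hy u hu]; simpa using hu
    · intro hu
      have h1 := hTC y⁻¹ (T.inv_mem hy) _ hu
      have h2 : u = y⁻¹ * (y * u * y⁻¹) * y := by group
      rw [h2, ← h1]; simpa using hu
  have hZ : IsPGroup t (Subgroup.zpowers a) := by
    rw [IsPGroup.iff_card]
    exact ⟨j, by rw [Nat.card_zpowers, haj]⟩
  obtain ⟨m, hm, hle⟩ := exists_cj_of_relIndex hT hTN
    (by rw [Subgroup.zpowers_le]; exact ha : Subgroup.zpowers a ≤ Subgroup.normalizer (U : Set G))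
    (fun h => hTi (h.trans (Subgroup.relIndex_dvd_index_of_le hTN))) hZ
  have ha' := hle (Subgroup.mem_zpowers a)
  rw [mem_cj] at ha'
  intro u hu
  have hu' : m⁻¹ * u * m ∈ U := by
    have := (Subgroup.mem_normalizer_iff.mp (Subgroup.inv_mem _ hm) u).mp hu
    simpa using this
  have h1 := hTC _ ha' _ hu'
  have h2 : a * u = m * ((m⁻¹ * a * m) * (m⁻¹ * u * m)) * m⁻¹ := by group
  have h3 : u * a = m * ((m⁻¹ * u * m) * (m⁻¹ * a * m)) * m⁻¹ := by group
  rw [h2, h3, h1]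

theorem frob1 {G : Type*} [Group G] [Finite G] (σ : Set ℕ) (H : Subgroup G) (hC : CProp σ H)
    (s t : ℕ) [Fact s.Prime] (hsσ : s ∈ σ) (hsH : ¬ s ∣ H.index) [Fact t.Prime] (hts : t ≠ s)
    (htH : ¬ t ∣ H.index)
    (U : Subgroup G) (hU : IsPGroup s U) (a : G)
    (ha : a ∈ Subgroup.normalizer (U : Set G)) (j : ℕ) (haj : orderOf a = t ^ j) :
    ∀ u ∈ U, a * u = u * a := by
  obtain ⟨g, hg⟩ := exists_cj_le_of_not_dvd_index hsH hU
  have h1 := frob0 σ H hC s t Fact.out hsσ hts htH (cj g U) hg (hU.map _) (g * a * g⁻¹)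
    (by
      rw [mem_normalizer_iff_cj, cj_cj] at *
      have e : g * a * g⁻¹ * g = g * a := by group
      rw [e, ← cj_cj, ha]) j (by rw [orderOf_conj]; exact haj)
  intro u hu
  have h2 := h1 _ (conj_mem_cj (g := g) hu)
  have h3 : a * u = g⁻¹ * ((g * a * g⁻¹) * (g * u * g⁻¹)) * g := by group
  have h4 : u * a = g⁻¹ * ((g * u * g⁻¹) * (g * a * g⁻¹)) * g := by group
  rw [h3, h4, h2]

theorem frob2 {G : Type*} [Group G] [Finite G] (σ π : Set ℕ) (H : Subgroup G) (hC : CProp σ H)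
    (hH : ∀ p : ℕ, p.Prime → p ∈ π → ¬ p ∣ H.index) (hσπ : σ ⊆ π)
    (s : ℕ) [Fact s.Prime] (hsσ : s ∈ σ) (U : Subgroup G) (hU : IsPGroup s U) :
    ∀ (n : ℕ) (x : G), orderOf x = n → x ∈ Subgroup.normalizer (U : Set G) →
      (orderOf x).Coprime s → (∀ p : ℕ, p.Prime → p ∣ orderOf x → p ∈ π) →
      ∀ u ∈ U, x * u = u * x := by
  intro n
  induction n using Nat.strong_induction_on with
  | _ n ih =>
    intro x hxn hxN hxs hxπ u hu
    by_cases h1 : orderOf x = 1
    · rw [orderOf_eq_one_iff] at h1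
      subst h1; simp
    · obtain ⟨t, ht, htx⟩ := Nat.exists_prime_and_dvd h1
      have : Fact t.Prime := ⟨ht⟩
      obtain ⟨a, ha, b, hb, e, ⟨k, hak⟩, hbo⟩ := exists_prime_decomp t x (isOfFinOrder_of_finite _)
      have hz : Subgroup.zpowers x ≤ Subgroup.normalizer (U : Set G) := by
        rw [Subgroup.zpowers_le]; exact hxN
      have hts : t ≠ s := by
        rintro rfl
        exact (Nat.Prime.coprime_iff_not_dvd ht).mp hxs.symm htx
      have hA := frob1 σ H hC s t hsσ (hH s Fact.out (hσπ hsσ)) hts (hH t ht (hxπ t ht htx))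
        U hU a (hz ha) k hak u hu
      have hbd : orderOf b ∣ orderOf x := by
        obtain ⟨i, rfl⟩ := Subgroup.mem_zpowers_iff.mp hb
        exact orderOf_dvd_of_pow_eq_one (by
          rw [← zpow_natCast, ← zpow_mul, mul_comm, zpow_mul, zpow_natCast, pow_orderOf_eq_one,
            one_zpow])
      have hblt : orderOf b < n := by
        rw [← hxn]
        apply lt_of_le_of_ne (Nat.le_of_dvd (orderOf_pos x) hbd)
        intro h2
        rw [h2] at hbo
        exact (Nat.Prime.coprime_iff_not_dvd ht).mp hbo.symm htx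
      have hB := ih _ hblt b rfl (hz hb) (Nat.Coprime.coprime_dvd_left hbd hxs)
        (fun p hp hpb => hxπ p hp (hpb.trans hbd)) u hu
      rw [e, mul_assoc, hB, ← mul_assoc, hA, mul_assoc]

theorem npc {G : Type*} [Group G] [Finite G] (σ π : Set ℕ) (H : Subgroup G) (hC : CProp σ H)
    (hH : ∀ p : ℕ, p.Prime → p ∈ π → ¬ p ∣ H.index) (hσπ : σ ⊆ π)
    (s : ℕ) [Fact s.Prime] (hsσ : s ∈ σ) (K : Subgroup G) (hK : Cfsg.IsPiSubgroup π K)
    (P : Sylow s K) : ∃ N : Subgroup K, N.Normal ∧ N.IsComplement' (P : Subgroup K) := by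
  rw [Cfsg.Agent.S0071.result P]
  intro Q hQ g hg hgo
  rw [Subgroup.mem_centralizer_iff]
  intro q hq
  have h1 := frob2 σ π H hC hH hσπ s hsσ (Q.map K.subtype) ((P.2.to_le hQ).map _) _ (g : G) rfl
    (Subgroup.le_normalizer_map K.subtype (Subgroup.mem_map_of_mem _ hg))
    (by rw [Subgroup.orderOf_coe]; exact hgo)
    (fun p hp hpg => hK p hp (by
      rw [Subgroup.orderOf_coe] at hpg
      exact hpg.trans (orderOf_dvd_natCard g)))
    (q : G) (Subgroup.mem_map_of_mem K.subtype hq)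
  exact Subtype.ext h1.symm

theorem normalizer_of_commute {G : Type*} [Group G] (T M : Subgroup G)
    (h : ∀ y ∈ T, ∀ m ∈ M, y * m = m * y) : T ≤ Subgroup.normalizer (M : Set G) := by
  intro y hy
  rw [Subgroup.mem_normalizer_iff]
  intro u
  constructor
  · intro hu
    rw [h y hy u hu]; simpa using hu
  · intro hu
    have h1 := h y⁻¹ (T.inv_mem hy) _ hu
    have h2 : u = y⁻¹ * (y * u * y⁻¹) * y := by group
    rw [h2, h1]; simpa using hu

theorem embed {G : Type*} [Group G] [Finite G] (σ τ π : Set ℕ) (hπ : π = σ ∪ τ)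
    (H : Subgroup G) (hC : CProp σ H)
    (hH : ∀ p : ℕ, p.Prime → p ∈ π → ¬ p ∣ H.index)
    (hτ : ∀ K : Subgroup G, Cfsg.IsPiSubgroup τ K → ∃ g : G, cj g K ≤ H) :
    ∀ (n : ℕ) (K : Subgroup G), Nat.card K = n → Cfsg.IsPiSubgroup π K → ∃ g : G, cj g K ≤ H := by
  have hσπ : σ ⊆ π := by rw [hπ]; exact Set.subset_union_left
  intro n
  induction n using Nat.strong_induction_on with
  | _ n ih =>
    intro K hKn hK
    by_cases h : ∃ s : ℕ, s.Prime ∧ s ∈ σ ∧ s ∣ Nat.card K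
    · obtain ⟨s, hs, hsσ, hsK⟩ := h
      have : Fact s.Prime := ⟨hs⟩
      obtain ⟨P⟩ : Nonempty (Sylow s K) := inferInstance
      obtain ⟨N, hNn, hNc⟩ := npc σ π H hC hH hσπ s hsσ K hK P
      have hcard := hNc.card_mul_card
      have hM : Nat.card (N.map K.subtype) = Nat.card N :=
        Subgroup.card_map_of_injective K.subtype_injective
      have hP2 : 2 ≤ Nat.card (P : Subgroup K) :=
        hs.two_le.trans (Nat.le_of_dvd Nat.card_pos (P.dvd_card_of_dvd_card hsK))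
      have hlt : Nat.card (N.map K.subtype) < n := by
        rw [hM, ← hKn, ← hcard]
        have : 0 < Nat.card N := Nat.card_pos
        nlinarith
      have hMπ : Cfsg.IsPiSubgroup π (N.map K.subtype) := by
        intro p hp hpM
        rw [hM] at hpM
        exact hK p hp (hpM.trans (Dvd.intro _ hcard))
      obtain ⟨g, hg⟩ := ih _ hlt _ rfl hMπ
      have hMs : (Nat.card (N.map K.subtype)).Coprime s := by
        rw [hM, ← hNc.index_eq_card, Nat.coprime_comm, Nat.Prime.coprime_iff_not_dvd hs]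
        exact P.not_dvd_index
      obtain ⟨T, hTH, hT, hTi⟩ := exists_syl H s (hH s hs (hσπ hsσ))
      have hTM : ∀ y ∈ T, ∀ m ∈ cj g (N.map K.subtype), y * m = m * y := by
        intro y hy m hm
        apply hC s hs hsσ y (hTH hy) m (hg hm) (orderOf_of_isPGroup hT hy)
        have h1 : orderOf m ∣ Nat.card (cj g (N.map K.subtype)) := by
          have := orderOf_dvd_natCard (⟨m, hm⟩ : cj g (N.map K.subtype))
          rwa [Subgroup.orderOf_mk] at this
        rw [card_cj] at h1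
        exact Nat.Coprime.coprime_dvd_left h1 hMs
      have hTN := normalizer_of_commute T _ hTM
      have hKN : K ≤ Subgroup.normalizer ((N.map K.subtype : Subgroup G) : Set G) := by
        intro x hx
        apply Subgroup.le_normalizer_map K.subtype
        refine ⟨⟨x, hx⟩, ?_, rfl⟩
        rw [Subgroup.normalizer_eq_top]; trivial
      have hKN' : cj g K ≤ Subgroup.normalizer ((cj g (N.map K.subtype) : Subgroup G) : Set G) := by
        have := Subgroup.map_equiv_normalizer_eq (N.map K.subtype) (MulAut.conj g)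
        rw [← this]
        exact cj_mono g hKN
      have hSK : (P : Subgroup K).map K.subtype ≤ K := Subgroup.map_subtype_le _
      obtain ⟨m, hm, hle⟩ := exists_cj_of_relIndex hT hTN ((cj_mono g hSK).trans hKN')
        (fun h => hTi (h.trans (Subgroup.relIndex_dvd_index_of_le hTN)))
        ((P.2.map K.subtype).map _)
      have hKsup : K = N.map K.subtype ⊔ (P : Subgroup K).map K.subtype := by
        rw [← Subgroup.map_sup, hNc.sup_eq_top, ← MonoidHom.range_eq_map, Subgroup.range_subtype]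
      refine ⟨m⁻¹ * g, ?_⟩
      rw [← cj_cj, hKsup, cj_sup, cj_sup]
      apply sup_le
      · have h2 : cj m⁻¹ (cj g (N.map K.subtype)) = cj g (N.map K.subtype) :=
          mem_normalizer_iff_cj.mp (Subgroup.inv_mem _ hm)
        rw [h2]; exact hg
      · rw [cj_le_iff, inv_inv]
        exact hle.trans (cj_mono m hTH)
    · apply hτ
      intro p hp hpK
      have h1 := hK p hp hpK
      rw [hπ] at h1
      rcases h1 with h1 | h1
      · exact absurd ⟨p, hp, h1, hpK⟩ h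
      · exact h1

theorem ht_maximal {G : Type*} [Group G] [Finite G] (σ τ π : Set ℕ) (hπ : π = σ ∪ τ)
    (hd : Disjoint σ τ) (H Hs Ht : Subgroup G) (hH : Cfsg.IsPiHall π H)
    (hs : Cfsg.IsPiSubgroup σ Hs) (ht : Cfsg.IsPiSubgroup τ Ht)
    (hjoin : Hs ⊔ Ht = H) (hcomm : ∀ a ∈ Hs, ∀ b ∈ Ht, a * b = b * a) :
    Maximal (Cfsg.IsPiSubgroup τ) Ht := by
  refine ⟨ht, fun Y hY hle => ?_⟩
  rw [← Subgroup.relIndex_eq_one]
  by_contra hne
  obtain ⟨p, hp, hpd⟩ := Nat.exists_prime_and_dvd hne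
  have hpτ : p ∈ τ := hY p hp (hpd.trans (Subgroup.relIndex_dvd_card _ _))
  have h1 : p ∣ Ht.index := hpd.trans (Subgroup.relIndex_dvd_index_of_le hle)
  have hHtH : Ht ≤ H := hjoin ▸ le_sup_right
  rw [← Subgroup.relIndex_mul_index hHtH] at h1
  rcases (Nat.Prime.dvd_mul hp).mp h1 with h2 | h2
  · have h3 := Cfsg.Agent.Lib.Helper12.card_sup_mul_card_inf' Hs Ht
      (normalizer_of_commute Hs Ht hcomm)
    have h4 := Cfsg.Agent.Lib.Helper12.relIndex_mul_card' hHtH
    rw [hjoin] at h3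
    have h5 : Ht.relIndex H * Nat.card (Hs ⊓ Ht : Subgroup G) = Nat.card Hs := by
      apply Nat.eq_of_mul_eq_mul_right (Nat.card_pos (α := Ht))
      rw [← h3, ← h4]; ring
    exact (Set.disjoint_left.mp hd) (hs p hp (h2.trans (Dvd.intro _ h5))) hpτ
  · exact hH.2 p hp (by rw [hπ]; exact Or.inr hpτ) h2

/-- Let σ and τ be disjoint sets of primes with union π. Suppose a finite group G has a Hall π-subgroup H which is the direct product of a nilpotent σ-subgroup and a τ-subgroup (two elementwise-commuting subgroups generating H), and that the maximal τ-subgroups of G are pairwise conjugate. Then the maximal π-subgroups of G are pairwise conjugate. -/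
theorem result {G : Type*} [Group G] [Finite G]
    (σ τ π : Set ℕ) (hπ : π = σ ∪ τ) (hd : Disjoint σ τ) (H Hs Ht : Subgroup G) (hH : Cfsg.IsPiHall π H)
    (hs : Cfsg.IsPiSubgroup σ Hs) (ht : Cfsg.IsPiSubgroup τ Ht) (hsn : Group.IsNilpotent Hs)
    (hjoin : Hs ⊔ Ht = H) (hcomm : ∀ a ∈ Hs, ∀ b ∈ Ht, a * b = b * a) (hD : Cfsg.IsDPiGroup τ G) :
    Cfsg.IsDPiGroup π G := by
  have hC := cprop σ τ hd H Hs Ht hs ht hsn hjoin hcomm
  have hmax := ht_maximal σ τ π hπ hd H Hs Ht hH hs ht hjoin hcomm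
  have hHtH : Ht ≤ H := hjoin ▸ le_sup_right
  have hτ : ∀ K : Subgroup G, Cfsg.IsPiSubgroup τ K → ∃ g : G, cj g K ≤ H := by
    intro K hK
    obtain ⟨K', hKK', hK'⟩ := Finite.exists_le_maximal (p := Cfsg.IsPiSubgroup τ) hK
    obtain ⟨g, hg⟩ := hD Ht K' hmax hK'
    refine ⟨g⁻¹, ?_⟩
    rw [cj_le_iff, inv_inv]
    exact hKK'.trans (hg.le.trans (cj_mono g hHtH))
  have hE := embed σ τ π hπ H hC hH.2 hτ
  have hHπ : ∀ g : G, Cfsg.IsPiSubgroup π (cj g H) := by
    intro g p hp hpd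
    rw [card_cj] at hpd
    exact hH.1 p hp hpd
  have key : ∀ A : Subgroup G, Maximal (Cfsg.IsPiSubgroup π) A → ∃ g : G, A = cj g H := by
    intro A hA
    obtain ⟨g, hg⟩ := hE _ A rfl hA.1
    rw [cj_le_iff] at hg
    exact ⟨g⁻¹, le_antisymm hg (hA.2 (hHπ _) hg)⟩
  intro A B hA hB
  obtain ⟨a, rfl⟩ := key A hA
  obtain ⟨b, rfl⟩ := key B hB
  refine ⟨b * a⁻¹, ?_⟩
  change cj b H = cj (b * a⁻¹) (cj a H)
  rw [cj_cj]
  congr 1
  group

end Cfsg.Agent.S4334
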