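import Cfsg.Statements.S4337
-- import your own Cfsg.Agent.* helpers here
import Cfsg.Agent.Lib.Helper76.PermSolvable

set_option autoImplicit false
open Cfsg

namespace Cfsg.Agent.S4337

open Cfsg.Agent.Lib.Helper76 in
theorem two {n : ℕ} (x y : Equiv.Perm (Fin n)) (hx : x.support.card = 2) (hy : y.support.card = 2) :
    Group.IsSolvable (Subgroup.closure ({x, y} : Set (Equiv.Perm (Fin n)))) := by
  apply isSolvable_closure_of_support_subset (x.support ∪ y.support)
  · have := Finset.card_union_le x.support y.support
    omega
  · intro σ hσ
    rcases hσ with rfl | rfl
    · exact Finset.subset_union_left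
    · exact Finset.subset_union_right

open Cfsg.Agent.Lib.Helper76 in
theorem three_disj {n : ℕ} (z x y : Equiv.Perm (Fin n)) (hx : x.support.card = 2) (hy : y.support.card = 2)
    (hzx : Disjoint z.support x.support) (hzy : Disjoint z.support y.support) :
    Group.IsSolvable (Subgroup.closure ({z, x, y} : Set (Equiv.Perm (Fin n)))) := by
  apply isSolvable_closure_insert_of_commute _ _ _ (two x y hx hy)
  intro σ hσ
  rcases hσ with rfl | rfl
  · exact (Equiv.Perm.disjoint_iff_disjoint_support.2 hzx).commute.symm
  · exact (Equiv.Perm.disjoint_iff_disjoint_support.2 hzy).commute.symm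

open Cfsg.Agent.Lib.Helper76 in
theorem three_small {n : ℕ} (a b c : Equiv.Perm (Fin n))
    (h : (c.support ∪ (a.support ∪ b.support)).card ≤ 4) :
    Group.IsSolvable (Subgroup.closure ({a, b, c} : Set (Equiv.Perm (Fin n)))) := by
  apply isSolvable_closure_of_support_subset _ h
  intro σ hσ
  rcases hσ with rfl | rfl | rfl
  · exact Finset.subset_union_left.trans Finset.subset_union_right
  · exact Finset.subset_union_right.trans Finset.subset_union_right
  · exact Finset.subset_union_left

theorem one_le_card_inter {α : Type*} [DecidableEq α] {s t : Finset α} (h : ¬ Disjoint s t) :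
    1 ≤ (s ∩ t).card :=
  Finset.card_pos.2 (Finset.not_disjoint_iff_nonempty_inter.1 h)

/-- In a finite symmetric group, any three transpositions generate a solvable subgroup. -/
theorem result (n : ℕ) (a b c : Equiv.Perm (Fin n))
    (ha : a.IsSwap) (hb : b.IsSwap) (hc : c.IsSwap) :
    Group.IsSolvable (Subgroup.closure ({a, b, c} : Set (Equiv.Perm (Fin n)))) := by
  have ca : a.support.card = 2 := Equiv.Perm.card_support_eq_two.2 ha
  have cb : b.support.card = 2 := Equiv.Perm.card_support_eq_two.2 hb
  have cc : c.support.card = 2 := Equiv.Perm.card_support_eq_two.2 hc
  by_cases hab : Disjoint a.support b.support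
  · by_cases hca : Disjoint c.support a.support
    · exact three_disj a b c cb cc hab hca.symm
    · by_cases hcb : Disjoint c.support b.support
      · have : ({a, b, c} : Set (Equiv.Perm (Fin n))) = {b, a, c} := Set.insert_comm a b {c}
        rw [this]
        exact three_disj b a c ca cc hab.symm hcb.symm
      · apply three_small
        have h1 := one_le_card_inter hca
        have h2 := one_le_card_inter hcb
        have h3 := Finset.card_union_add_card_inter c.support (a.support ∪ b.support)
        have h4 := Finset.card_union_le a.support b.support
        have h5 : (c.support ∩ (a.support ∪ b.support)).card =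
            (c.support ∩ a.support).card + (c.support ∩ b.support).card := by
          rw [Finset.inter_union_distrib_left]
          apply Finset.card_union_of_disjoint
          exact Disjoint.mono Finset.inter_subset_right Finset.inter_subset_right hab
        omega
  · by_cases hc' : Disjoint c.support (a.support ∪ b.support)
    · have : ({a, b, c} : Set (Equiv.Perm (Fin n))) = {c, a, b} := by
        ext x; simp only [Set.mem_insert_iff, Set.mem_singleton_iff]; tauto
      rw [this]
      rw [Finset.disjoint_union_right] at hc'
      exact three_disj c a b ca cb hc'.1 hc'.2
    · apply three_small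
      have h1 := one_le_card_inter hab
      have h2 := one_le_card_inter hc'
      have h3 := Finset.card_union_add_card_inter c.support (a.support ∪ b.support)
      have h4 := Finset.card_union_add_card_inter a.support b.support
      omega

end Cfsg.Agent.S4337
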