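import Cfsg.Statements.S4341
-- import your own Cfsg.Agent.* helpers here
import Cfsg.Agent.Lib.Helper76.SylowNumber

set_option autoImplicit false
open Cfsg

namespace Cfsg.Agent.S4341

/-- Let K be a normal subgroup of a finite group G, p a prime and P a Sylow p-subgroup of G; let N be the normalizer of P ∩ K inside the subgroup PK. Then the number of Sylow p-subgroups of G equals the product of the numbers of Sylow p-subgroups of G/K, of K, and of N/(P ∩ K). (The normality of P ∩ K in N, which always holds, is assumed as a hypothesis so that the quotient can be formed.) -/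
theorem result {G : Type*} [Group G] [Finite G]
    (p : ℕ) [Fact p.Prime] (K : Subgroup G) [K.Normal] (P : Sylow p G) (N : Subgroup G)
    (hN : N = ((P : Subgroup G) ⊔ K) ⊓ Subgroup.normalizer (((P : Subgroup G) ⊓ K : Subgroup G) : Set G))
    [hn : (((P : Subgroup G) ⊓ K).subgroupOf N).Normal] :
    Nat.card (Sylow p G) =
      Nat.card (Sylow p (G ⧸ K)) * Nat.card (Sylow p K) * Nat.card (Sylow p (N ⧸ ((P : Subgroup G) ⊓ K).subgroupOf N)) := by
  subst hN
  set L : Subgroup G := (P : Subgroup G) ⊔ K with hL
  set D : Subgroup G := Subgroup.normalizer (((P : Subgroup G) ⊓ K : Subgroup G) : Set G) with hD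
  set A : Subgroup G := Subgroup.normalizer (P : Set G) with hA
  have hPL : (P : Subgroup G) ≤ L := le_sup_left
  have hKL : K ≤ L := le_sup_right
  have hAD : A ≤ D := by
    have h1 := Subgroup.inf_normalizer_le_normalizer_inf (H := (P : Subgroup G)) (K := K)
    rw [Subgroup.normalizer_eq_top (H := K), inf_top_eq] at h1
    exact h1
  have hPD : (P : Subgroup G) ≤ D := le_trans Subgroup.le_normalizer hAD
  have hPN : (P : Subgroup G) ≤ L ⊓ D := le_inf hPL hPD
  have e1 := Lib.Helper76.card_sylow_eq_quotient_mul p P K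
  have e2 : Nat.card (Sylow p L) = A.relIndex L := Lib.Helper76.card_sylow_subgroup' p P hPL
  have e3 : Nat.card (Sylow p K) = D.relIndex K :=
    Lib.Helper76.card_sylow_subgroup p inf_le_right (P.isPGroup'.to_le inf_le_left)
      (Lib.Helper76.not_dvd_relIndex_inf_normal p P K)
  have e4 : Nat.card (Sylow p (↥(L ⊓ D) ⧸ ((P : Subgroup G) ⊓ K).subgroupOf (L ⊓ D))) = A.relIndex (L ⊓ D) := by
    have hpg : IsPGroup p (((P : Subgroup G) ⊓ K).subgroupOf (L ⊓ D)) :=
      (P.isPGroup'.to_le inf_le_left).comap_subtype
    rw [Lib.Helper76.card_sylow_quotient_pgroup p (((P : Subgroup G) ⊓ K).subgroupOf (L ⊓ D)) hpg]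
    exact Lib.Helper76.card_sylow_subgroup' p P hPN
  have e5 : A.relIndex (D ⊓ L) * D.relIndex L = A.relIndex L := by
    rw [Subgroup.relIndex_inf_mul_relIndex, inf_eq_left.2 hAD]
  have e6 : D.relIndex L = D.relIndex K := by
    have hne : D.relIndex ⊤ ≠ 0 := by
      rw [Subgroup.relIndex_top_right]; exact Subgroup.index_ne_zero_of_finite
    have h1 : D.relIndex L ≤ D.relIndex ⊤ := Subgroup.relIndex_le_of_le_right le_top hne
    have h2 : D.relIndex K ≤ D.relIndex L := by
      apply Subgroup.relIndex_le_of_le_right hKL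
      intro h0
      exact hne (Subgroup.relIndex_eq_zero_of_le_right le_top h0)
    have h3 : D.relIndex ⊤ = D.relIndex K := by
      rw [← Lib.Helper76.normalizer_inf_sup_eq_top p P K, Lib.Helper76.relIndex_sup_normal]
    omega
  rw [e1, e2, e3, e4, ← e5, e6, inf_comm L D]
  ring

end Cfsg.Agent.S4341
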