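import Cfsg.Statements.S4344
-- import your own Cfsg.Agent.* helpers here

set_option autoImplicit false
open Cfsg

namespace Cfsg.Agent.S4344

/-- Let S be a finite non-abelian simple group, M a maximal subgroup of S and C a cyclic normal subgroup of M. If a Sylow p-subgroup P of S (for a prime p dividing the order of S) is contained in C, then the number of Sylow p-subgroups of S equals the index of M. -/
theorem result {S : Type*} [Group S] [Finite S]
    [IsSimpleGroup S] (hS : ¬ IsMulCommutative S) (p : ℕ) [Fact p.Prime] (hp : p ∣ Nat.card S)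
    (M : Subgroup S) (hM : IsCoatom M) (C : Subgroup S) (hCM : C ≤ M) (hCn : (C.subgroupOf M).Normal)
    (hC : IsCyclic C) (P : Sylow p S) (hP : (P : Subgroup S) ≤ C) :
    Nat.card (Sylow p S) = M.index := by
  rw [Sylow.card_eq_index_normalizer P]
  congr 1
  have hcomm : ∀ a ∈ C, ∀ b ∈ C, a * b = b * a := by
    intro a ha b hb
    obtain ⟨g, hg⟩ := hC.exists_generator
    obtain ⟨i, hi⟩ := Subgroup.mem_zpowers_iff.1 (hg ⟨a, ha⟩)
    obtain ⟨j, hj⟩ := Subgroup.mem_zpowers_iff.1 (hg ⟨b, hb⟩)
    have : (⟨a, ha⟩ : C) * ⟨b, hb⟩ = ⟨b, hb⟩ * ⟨a, ha⟩ := by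
      rw [← hi, ← hj, ← zpow_add, ← zpow_add, add_comm]
    simpa using congrArg Subtype.val this
  have hne : Subgroup.normalizer ((P : Subgroup S) : Set S) ≠ ⊤ := by
    intro htop
    have hnorm : (P : Subgroup S).Normal := Subgroup.normalizer_eq_top_iff.1 htop
    rcases hnorm.eq_bot_or_eq_top with h | h
    · exact P.ne_bot_of_dvd_card hp h
    · apply hS
      have hCtop : C = ⊤ := top_le_iff.1 (h ▸ hP)
      exact ⟨⟨fun a b => hcomm a (hCtop ▸ Subgroup.mem_top a) b (hCtop ▸ Subgroup.mem_top b)⟩⟩
  have hle : M ≤ Subgroup.normalizer ((P : Subgroup S) : Set S) := by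
    intro m hm
    rw [P.coe_coe, ← Sylow.smul_eq_iff_mem_normalizer]
    have hmP : ((m • P : Sylow p S) : Subgroup S) ≤ C := by
      intro y hy
      rw [Sylow.coe_subgroup_smul, Subgroup.mem_pointwise_smul_iff_inv_smul_mem] at hy
      have h1 : (MulAut.conj m)⁻¹ • y ∈ C := hP hy
      have h2 := hCn.conj_mem ⟨(MulAut.conj m)⁻¹ • y, hCM h1⟩ (by simpa [Subgroup.mem_subgroupOf] using h1) ⟨m, hm⟩
      simpa [Subgroup.mem_subgroupOf, mul_assoc] using h2
    have hsub : Subsingleton (Sylow p C) := by
      have hn : ((P.subtype hP : Sylow p C) : Subgroup C).Normal := by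
        constructor
        intro n hn g
        have : g * n * g⁻¹ = n := by
          apply Subtype.ext
          have := hcomm g g.2 n n.2
          simp [this]
        rwa [this]
      exact (Sylow.unique_of_normal _ hn).instSubsingleton
    exact Sylow.subtype_injective (hP := hmP) (hQ := hP) (Subsingleton.elim _ _)
  by_contra hneq
  exact hne (hM.2 _ (lt_of_le_of_ne hle (fun h => hneq h.symm)))

end Cfsg.Agent.S4344
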