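import Cfsg.Statements.S4346
import Cfsg.Agent.S4303
import Cfsg.Agent.Lib.Helper96.SylowAct
import Cfsg.Agent.Lib.Helper96.SylowLines
import Cfsg.Agent.Lib.Helper96.OrbitAct

set_option autoImplicit false
open Cfsg

namespace Cfsg.Agent.S4346

open Subgroup MulAction Cfsg.Agent.Lib.Helper96

instance fact5 : Fact (Nat.Prime 5) := ⟨by norm_num⟩
instance fact7 : Fact (Nat.Prime 7) := ⟨by norm_num⟩
instance fact11 : Fact (Nat.Prime 11) := ⟨by norm_num⟩

theorem arith_div (d : ℕ) (h1 : d ∣ 22) (h2 : d ≡ 1 [MOD 3]) : d = 1 ∨ d = 22 := by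
  have h4 : d ≤ 22 := Nat.le_of_dvd (by norm_num) h1
  unfold Nat.ModEq at h2
  interval_cases d <;> omega

theorem arith_line (θ k b : ℕ) (h : 22 = 1 + θ + 3 ^ 2 * b) (h2 : 2 ≤ k) (hk : k ≡ 1 [MOD 3])
    (hle : k ≤ θ + 1) (hineq : k * (θ + 1 - k) + k ≤ 22) : k = θ + 1 := by
  have hb : b ≤ 2 := by omega
  unfold Nat.ModEq at hk
  interval_cases b
  · have h21 : θ = 21 := by omega
    subst h21
    have hk22 : k ≤ 22 := hle
    interval_cases k <;> omega
  · have h21 : θ = 12 := by omega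
    subst h21
    have hk22 : k ≤ 13 := hle
    interval_cases k <;> omega
  · have h21 : θ = 3 := by omega
    subst h21
    have hk22 : k ≤ 4 := hle
    interval_cases k <;> omega

theorem coprime_of_not_dvd (c q k : ℕ) (hq : q.Prime) (h : ¬ q ∣ c) : Nat.Coprime c (q ^ k) :=
  Nat.Coprime.pow_right _ (Nat.coprime_comm.1 ((Nat.Prime.coprime_iff_not_dvd hq).2 h))

theorem dvd_eleven (c : ℕ) (h : c ∣ 5322240) (h2 : ¬ 2 ∣ c) (h3 : ¬ 3 ∣ c) (h5 : ¬ 5 ∣ c)
    (h7 : ¬ 7 ∣ c) : c ∣ 11 := by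
  have hc : Nat.Coprime c (2 ^ 9 * 3 ^ 3 * 5 ^ 1 * 7 ^ 1) :=
    Nat.Coprime.mul_right (Nat.Coprime.mul_right (Nat.Coprime.mul_right
      (coprime_of_not_dvd c 2 9 (by norm_num) h2) (coprime_of_not_dvd c 3 3 (by norm_num) h3))
      (coprime_of_not_dvd c 5 1 (by norm_num) h5)) (coprime_of_not_dvd c 7 1 (by norm_num) h7)
  have h' : c ∣ (2 ^ 9 * 3 ^ 3 * 5 ^ 1 * 7 ^ 1) * 11 := by norm_num; exact h
  exact hc.dvd_of_dvd_mul_left h'

theorem dvd_189 (c : ℕ) (h : c ∣ 5322240) (h2 : ¬ 2 ∣ c) (h5 : ¬ 5 ∣ c)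
    (h11 : ¬ 11 ∣ c) : c ∣ 189 := by
  have hc : Nat.Coprime c (2 ^ 9 * 5 ^ 1 * 11 ^ 1) :=
    Nat.Coprime.mul_right (Nat.Coprime.mul_right
      (coprime_of_not_dvd c 2 9 (by norm_num) h2) (coprime_of_not_dvd c 5 1 (by norm_num) h5))
      (coprime_of_not_dvd c 11 1 (by norm_num) h11)
  have h' : c ∣ (2 ^ 9 * 5 ^ 1 * 11 ^ 1) * 189 := by norm_num; exact h
  exact hc.dvd_of_dvd_mul_left h'

theorem arith_final (c : ℕ) (h1 : c ∣ 120960) (h3 : 3 ∣ c) (h9 : ¬ 9 ∣ c)
    (h11 : 44 * c % 242 = 22 ∨ 44 * c % 605 = 55 ∨ 44 * c % 1210 = 110)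
    (h7 : 7 ∣ c → 44 * c % 294 = 42) (h5 : 5 ∣ c → 7 ∣ c) : c = 6 := by
  have e : (120960 : ℕ) = 2 ^ 7 * (3 ^ 3 * 35) := by norm_num
  rw [e] at h1
  obtain ⟨a, b, ha, hb, rfl⟩ := (Nat.dvd_mul).1 h1
  obtain ⟨b1, b2, hb1, hb2, rfl⟩ := (Nat.dvd_mul).1 hb
  obtain ⟨i, hi, rfl⟩ := (Nat.dvd_prime_pow Nat.prime_two).1 ha
  obtain ⟨j, hj, rfl⟩ := (Nat.dvd_prime_pow Nat.prime_three).1 hb1
  have hb35 : b2 = 1 ∨ b2 = 5 ∨ b2 = 7 ∨ b2 = 35 := by
    have : b2 ≤ 35 := Nat.le_of_dvd (by norm_num) hb2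
    interval_cases b2 <;> omega
  interval_cases j <;> interval_cases i <;> rcases hb35 with rfl | rfl | rfl | rfl <;> omega

section Simple
variable {S : Type*} [Group S] [Finite S] [IsSimpleGroup S] (h22 : Nat.card (Sylow 3 S) = 22)
include h22

theorem card_P (P : Sylow 3 S) : Nat.card (P : Subgroup S) = 3 :=
  card_sylow_eq_p_of_arith 22 h22 (by norm_num) arith_div arith_line (by intro b; omega) P

theorem faithful22 (g : S) (hg : ∀ Q : Sylow 3 S, g • Q = Q) : g = 1 :=
  sylow_faithful (p := 3) (by rw [h22]; norm_num) g hg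

omit [IsSimpleGroup S] in
theorem card_S_gt : 2 < Nat.card S := by
  obtain ⟨P⟩ : Nonempty (Sylow 3 S) := inferInstance
  have h := card_sylow_mul_card_normalizer P
  rw [h22] at h
  have h0 : 0 < Nat.card (normalizer ((P : Subgroup S) : Set S)) := Nat.card_pos
  omega

/-- basic facts on the number of fixed points of an element of prime order -/
theorem fix_facts (c : S) (q : ℕ) [Fact q.Prime] (hc : orderOf c = q) :
    Nat.card (fixedBy (Sylow 3 S) c) ≤ 22 ∧ Nat.card (fixedBy (Sylow 3 S) c) ≠ 22 ∧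
      22 ≡ Nat.card (fixedBy (Sylow 3 S) c) [MOD q] ∧
      (q = 2 → ∃ m : ℕ, 22 = Nat.card (fixedBy (Sylow 3 S) c) + 4 * m) := by
  have hc1 : c ≠ 1 := by
    rintro rfl
    rw [orderOf_one] at hc
    exact (Fact.out : q.Prime).one_lt.ne hc
  refine ⟨?_, ?_, ?_, ?_⟩
  · rw [← h22]; exact card_fixedBy_le c
  · rw [← h22]; exact card_fixedBy_ne (faithful22 h22) c hc1
  · rw [← h22]; exact card_modEq_card_fixedBy c q 1 (by rw [hc, pow_one])
  · rintro rfl
    rw [← h22]
    exact involution_even (faithful22 h22) (card_S_gt h22) c hc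

/-- excluding primes from the order of a centraliser by fixed-point arithmetic -/
theorem centralizer_prime_excl (h : S) (r a : ℕ)
    (ha : ∀ c : S, Commute c h → Nat.card (fixedBy (Sylow 3 S) c) ≡ a [MOD r])
    (q : ℕ) [Fact q.Prime]
    (harith : ∀ f, f ≤ 22 → f ≠ 22 → 22 ≡ f [MOD q] → f ≡ a [MOD r] →
      (q = 2 → ∃ m : ℕ, 22 = f + 4 * m) → False)
    (H : Subgroup S) (hH : h ∈ H) : ¬ q ∣ Nat.card (centralizer (H : Set S)) := by
  intro hdvd
  obtain ⟨c, hc⟩ := exists_prime_orderOf_dvd_card' q hdvd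
  have hc' : orderOf (c : S) = q := by rw [Subgroup.orderOf_coe, hc]
  have hcomm : Commute (c : S) h := ((mem_centralizer_iff.1 c.2) h hH).symm
  obtain ⟨f1, f2, f3, f4⟩ := fix_facts h22 (c : S) q hc'
  exact harith _ f1 f2 f3 (ha _ hcomm) f4

end Simple

section Gen
variable {S : Type*} [Group S] [Finite S]

omit [Finite S] in
theorem le_centralizer_of_prime_card {p : ℕ} [Fact p.Prime] (R : Subgroup S)
    (hR : Nat.card R = p) : R ≤ centralizer (R : Set S) := by
  have h1 : IsCyclic R := isCyclic_of_prime_card hR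
  have h2 : IsMulCommutative R := IsCyclic.isMulCommutative
  exact le_centralizer_iff_isMulCommutative.2 h2

omit [Finite S] in
theorem mem_centralizer_zpowers (x w : S) (h : Commute x w) :
    x ∈ centralizer ((zpowers w : Subgroup S) : Set S) := by
  rw [mem_centralizer_iff]
  intro y hy
  obtain ⟨i, rfl⟩ := mem_zpowers_iff.1 hy
  exact (h.zpow_right i).eq.symm

omit [Finite S] in
theorem orderOf_dvd_card_of_mem (H : Subgroup S) (x : S) (hx : x ∈ H) :
    orderOf x ∣ Nat.card H := by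
  have := orderOf_dvd_natCard (⟨x, hx⟩ : H)
  rwa [← Subgroup.orderOf_coe] at this

end Gen

section Final
variable {S : Type*} [Group S] [Finite S] [IsSimpleGroup S]

omit [IsSimpleGroup S] in
/-- an involution normalising but not centralising a Sylow subgroup `R` of prime order fixes at
most one further point in the `R`-orbit of a Sylow subgroup -/
theorem eq_of_fixed_of_orbit {p : ℕ} [Fact p.Prime] (R : Sylow p S)
    (hR : Nat.card (R : Subgroup S) = p) (u : S) (hu : u ∈ normalizer ((R : Subgroup S) : Set S))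
    (huC : u ∉ centralizer ((R : Subgroup S) : Set S)) (R1 : Sylow p S) (hR1 : R1 ≠ R)
    (h1 : u • R1 = R1) (y : S) (hy : y ∈ (R : Subgroup S)) (h2 : u • (y • R1) = y • R1) :
    y = 1 := by
  by_contra hy1
  have hconj : u * y * u⁻¹ ∈ (R : Subgroup S) := (mem_normalizer_iff.1 hu y).1 hy
  have hz : y⁻¹ * (u * y * u⁻¹) ∈ (R : Subgroup S) := mul_mem (inv_mem hy) hconj
  have hzfix : (y⁻¹ * (u * y * u⁻¹)) • R1 = R1 := by
    have h3 : u⁻¹ • R1 = R1 := by rw [inv_smul_eq_iff, h1]
    rw [mul_smul, mul_smul, mul_smul, h3, h2, inv_smul_smul]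
  by_cases hz1 : y⁻¹ * (u * y * u⁻¹) = 1
  · apply huC
    have hcomm : Commute u y := by
      have h4 : u * y * u⁻¹ = y := by
        have := congrArg (fun t => y * t) hz1
        simpa using this
      have h5 : u * y = y * u := by
        have := congrArg (fun t => t * u) h4
        simpa using this
      exact h5
    rw [← zpowers_eq_of_prime_card (p := p) _ hR y hy hy1]
    exact mem_centralizer_zpowers u y hcomm
  · apply hR1
    apply sylow_fixed_unique R R1
    intro t ht
    rw [← zpowers_eq_of_prime_card (p := p) _ hR _ hz hz1] at ht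
    have h6 : R1 ∈ fixedPoints (zpowers (y⁻¹ * (u * y * u⁻¹))) (Sylow p S) := by
      rw [fixedPoints_zpowers_eq]; exact hzfix
    exact h6 ⟨t, ht⟩

theorem final264 (R : Sylow 11 S) (hR : Nat.card (R : Subgroup S) = 11)
    (hcR : Nat.card (centralizer ((R : Subgroup S) : Set S)) = 11)
    (hN : Nat.card (normalizer ((R : Subgroup S) : Set S)) = 22)
    (hn : Nat.card (Sylow 11 S) = 12) : False := by
  have hf := sylow_faithful (p := 11) (S := S) (by rw [hn]; norm_num)
  have hS := card_sylow_mul_card_normalizer R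
  rw [hn, hN] at hS
  obtain ⟨u', hu'⟩ := exists_prime_orderOf_dvd_card' (G := normalizer ((R : Subgroup S) : Set S)) 2
    (by rw [hN]; norm_num)
  obtain ⟨u, huN⟩ := u'
  have hu2 : orderOf u = 2 := by rw [← hu', ← Subgroup.orderOf_coe]
  have hu1 : u ≠ 1 := by
    rintro rfl
    rw [orderOf_one] at hu2
    omega
  have huC : u ∉ centralizer ((R : Subgroup S) : Set S) := by
    intro h
    have := orderOf_dvd_card_of_mem _ u h
    rw [hu2, hcR] at this
    omega
  obtain ⟨m, hm⟩ := involution_even hf (by omega) u hu2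
  have hne := card_fixedBy_ne hf u hu1
  rw [hn] at hm hne
  have hRu : R ∈ fixedBy (Sylow 11 S) u := Sylow.smul_eq_iff_mem_normalizer.2 huN
  by_cases hex : ∃ R1 ∈ fixedBy (Sylow 11 S) u, R1 ≠ R
  · obtain ⟨R1, hR1u, hR1⟩ := hex
    have horb : orbit (R : Subgroup S) R1 = {Q | Q ≠ R} := by
      apply Set.eq_of_subset_of_ncard_le (ht := Set.toFinite _)
      · rintro _ ⟨y, rfl⟩ h
        apply hR1
        have h3 : (y : S) • R1 = (y : S) • R := by
          rw [sylow_smul_self R y y.2]; exact h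
        exact smul_left_cancel _ h3
      · have h1 := card_orbit_mul_card_inf R R1
        rw [hR] at h1
        have h2 : Nat.card ((R : Subgroup S) ⊓ R1 : Subgroup S) ≠ 11 := by
          intro h
          apply hR1
          have h3 : ((R : Subgroup S) ⊓ R1 : Subgroup S) = R :=
            eq_of_le_of_card_ge inf_le_left (by rw [h, hR])
          have h4 : (R : Subgroup S) ≤ R1 := by rw [← h3]; exact inf_le_right
          exact Sylow.ext (R.3 R1.2 h4)
        have h3 : Nat.card ((R : Subgroup S) ⊓ R1 : Subgroup S) ∣ 11 :=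
          ⟨_, (h1.symm.trans (mul_comm _ _))⟩
        have h4 : Nat.card ((R : Subgroup S) ⊓ R1 : Subgroup S) = 1 :=
          ((Nat.dvd_prime (by norm_num)).1 h3).resolve_right h2
        rw [h4, mul_one] at h1
        have h5 : (orbit (R : Subgroup S) R1).ncard = 11 := h1
        rw [h5]
        have h6 : ({Q | Q ≠ R} : Set (Sylow 11 S)) = {R}ᶜ := by ext Q; simp
        have h7 := Set.ncard_add_ncard_compl ({R} : Set (Sylow 11 S))
        rw [Set.ncard_singleton, hn] at h7
        rw [h6]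
        omega
    have hpair : fixedBy (Sylow 11 S) u = {R, R1} := by
      ext R2
      constructor
      · intro hR2
        by_cases hR2R : R2 = R
        · left; exact hR2R
        · right
          have h1 : R2 ∈ orbit (R : Subgroup S) R1 := by rw [horb]; exact hR2R
          obtain ⟨y, rfl⟩ := h1
          have := eq_of_fixed_of_orbit R hR u huN huC R1 hR1 hR1u (y : S) y.2 hR2
          change (y : S) • R1 = R1
          rw [this, one_smul]
      · rintro (rfl | rfl)
        · exact hRu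
        · exact hR1u
    have hc : Nat.card (fixedBy (Sylow 11 S) u) = 2 := by
      rw [hpair]
      exact Set.ncard_pair hR1.symm
    omega
  · push Not at hex
    have hsing : fixedBy (Sylow 11 S) u = {R} := by
      ext R2
      constructor
      · intro h; exact hex R2 h
      · rintro rfl; exact hRu
    have hc : Nat.card (fixedBy (Sylow 11 S) u) = 1 := by
      rw [hsing]; simp
    omega

end Final

section Steps
variable {S : Type*} [Group S] [Finite S] [IsSimpleGroup S] (h22 : Nat.card (Sylow 3 S) = 22)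
  (hSd : Nat.card S ∣ 5322240)
include h22 hSd

theorem stepR : ∃ R : Sylow 11 S, Nat.card (R : Subgroup S) = 11 ∧
    Nat.card (centralizer ((R : Subgroup S) : Set S)) = 11 ∧
    ∃ e : ℕ, (e = 2 ∨ e = 5 ∨ e = 10) ∧
      Nat.card (normalizer ((R : Subgroup S) : Set S)) = 11 * e := by
  obtain ⟨P⟩ : Nonempty (Sylow 3 S) := inferInstance
  have hSN := card_sylow_mul_card_normalizer P
  rw [h22] at hSN
  have h11 : 11 ∣ Nat.card S := by
    rw [← hSN]; exact Dvd.dvd.mul_right (by norm_num) _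
  have h121 : ¬ 11 ^ 2 ∣ Nat.card S := fun h => by
    have := h.trans hSd
    norm_num at this
  obtain ⟨R⟩ : Nonempty (Sylow 11 S) := inferInstance
  have hR := sylow_card_eq_prime' R h11 h121
  obtain ⟨r, hr11, hrR⟩ := exists_generator_of_prime_card (p := 11) (R : Subgroup S) hR
  have hfixr : fixedBy (Sylow 3 S) r = ∅ := by
    rw [Set.eq_empty_iff_forall_notMem]
    intro Q hQ
    have hQ' : r • Q = Q := hQ
    have h1 : r ∈ normalizer ((Q : Subgroup S) : Set S) := Sylow.smul_eq_iff_mem_normalizer.1 hQ'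
    have h2 := orderOf_dvd_card_of_mem _ r h1
    rw [hr11] at h2
    have h3 := card_sylow_mul_card_normalizer Q
    rw [h22] at h3
    apply h121
    rw [← h3]
    obtain ⟨j, hj⟩ := h2
    exact ⟨2 * j, by rw [hj]; ring⟩
  have hrmem : r ∈ (R : Subgroup S) := by rw [← hrR]; exact mem_zpowers r
  have haR : ∀ c : S, Commute c r → Nat.card (fixedBy (Sylow 3 S) c) ≡ 0 [MOD 11] :=
    fun c hc => card_fixedBy_modEq_zero c r hc 11 1 (by rw [hr11, pow_one]) hfixr
  have hR2 := centralizer_prime_excl h22 r 11 0 haR 2 (by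
    intro f h1 h2 h3 h4 h5
    obtain ⟨m, hm⟩ := h5 rfl
    unfold Nat.ModEq at h3 h4
    omega) (R : Subgroup S) hrmem
  have hR3 := centralizer_prime_excl h22 r 11 0 haR 3 (by
    intro f h1 h2 h3 h4 _
    unfold Nat.ModEq at h3 h4
    omega) (R : Subgroup S) hrmem
  have hR5 := centralizer_prime_excl h22 r 11 0 haR 5 (by
    intro f h1 h2 h3 h4 _
    unfold Nat.ModEq at h3 h4
    omega) (R : Subgroup S) hrmem
  have hR7 := centralizer_prime_excl h22 r 11 0 haR 7 (by
    intro f h1 h2 h3 h4 _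
    unfold Nat.ModEq at h3 h4
    omega) (R : Subgroup S) hrmem
  have hcR : Nat.card (centralizer ((R : Subgroup S) : Set S)) = 11 := by
    apply Nat.dvd_antisymm
    · exact dvd_eleven _ ((card_subgroup_dvd_card _).trans hSd) hR2 hR3 hR5 hR7
    · have := card_dvd_of_le (le_centralizer_of_prime_card (p := 11) _ hR)
      rwa [hR] at this
  have hS11 : Nat.card S ≠ 11 := by
    have h0 : 0 < Nat.card (normalizer ((P : Subgroup S) : Set S)) := Nat.card_pos
    omega
  obtain ⟨e, he, he1, hN⟩ := normalizer_card_of_prime R hR hS11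
  refine ⟨R, hR, hcR, e, ?_, by rw [hN, hcR]⟩
  have he10 : e ∣ 10 := he
  have : e ≤ 10 := Nat.le_of_dvd (by norm_num) he10
  interval_cases e <;> omega

theorem stepW (P : Sylow 3 S) (x : S) (hx3 : orderOf x = 3) (hxP : zpowers x = (P : Subgroup S))
    (hS : Nat.card S = 44 * Nat.card (centralizer ((P : Subgroup S) : Set S)))
    (h9 : ¬ 9 ∣ Nat.card S) (h7 : 7 ∣ Nat.card (centralizer ((P : Subgroup S) : Set S))) :
    44 * Nat.card (centralizer ((P : Subgroup S) : Set S)) % 294 = 42 := by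
  have hfixx : fixedBy (Sylow 3 S) x = {P} := fixedBy_eq_singleton_of_zpowers P x hxP
  have hxmem : x ∈ (P : Subgroup S) := by rw [← hxP]; exact mem_zpowers x
  obtain ⟨w', hw'⟩ := exists_prime_orderOf_dvd_card' 7 h7
  obtain ⟨w, hwC⟩ := w'
  have hw7 : orderOf w = 7 := by
    rw [← hw', ← Subgroup.orderOf_coe]
  have hwx : Commute w x := ((mem_centralizer_iff.1 hwC) x hxmem).symm
  have hw1 : w ≠ 1 := by
    rintro rfl
    rw [orderOf_one] at hw7
    omega
  have hfw : Nat.card (fixedBy (Sylow 3 S) w) = 1 := by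
    obtain ⟨f1, f2, f3, _⟩ := fix_facts h22 w 7 hw7
    have f5 := card_fixedBy_modEq_one w x hwx 3 1 (by rw [hx3, pow_one]) P hfixx
    unfold Nat.ModEq at f3 f5
    omega
  have hfixw : fixedBy (Sylow 3 S) w = {P} := by
    have hPw : P ∈ fixedBy (Sylow 3 S) w :=
      Sylow.smul_eq_iff_mem_normalizer.2 (centralizer_le_normalizer _ hwC)
    obtain ⟨a, ha⟩ := Set.ncard_eq_one.1 hfw
    rw [ha] at hPw ⊢
    rw [Set.mem_singleton_iff.1 hPw]
  have h7S : 7 ∣ Nat.card S := by rw [hS]; exact Dvd.dvd.mul_left h7 _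
  have h49 : ¬ 7 ^ 2 ∣ Nat.card S := fun h => by
    have := h.trans hSd
    norm_num at this
  obtain ⟨W, hW⟩ := (isPGroup_zpowers w 7 1 (by rw [hw7, pow_one])).exists_le_sylow
  have hWc := sylow_card_eq_prime' W h7S h49
  have hwW : w ∈ (W : Subgroup S) := hW (mem_zpowers w)
  have hzW : zpowers w = (W : Subgroup S) := zpowers_eq_of_prime_card (p := 7) _ hWc w hwW hw1
  have haW : ∀ c : S, Commute c w → Nat.card (fixedBy (Sylow 3 S) c) ≡ 1 [MOD 7] :=
    fun c hc => card_fixedBy_modEq_one c w hc 7 1 (by rw [hw7, pow_one]) P hfixw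
  have hW2 := centralizer_prime_excl h22 w 7 1 haW 2 (by
    intro f h1 h2 h3 h4 h5
    obtain ⟨m, hm⟩ := h5 rfl
    unfold Nat.ModEq at h3 h4
    omega) (W : Subgroup S) hwW
  have hW5 := centralizer_prime_excl h22 w 7 1 haW 5 (by
    intro f h1 h2 h3 h4 _
    unfold Nat.ModEq at h3 h4
    omega) (W : Subgroup S) hwW
  have hW11 := centralizer_prime_excl h22 w 7 1 haW 11 (by
    intro f h1 h2 h3 h4 _
    unfold Nat.ModEq at h3 h4
    omega) (W : Subgroup S) hwW
  have hcS : Nat.card (centralizer ((W : Subgroup S) : Set S)) ∣ Nat.card S :=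
    card_subgroup_dvd_card _
  have hc189 := dvd_189 _ (hcS.trans hSd) hW2 hW5 hW11
  have hc3 : 3 ∣ Nat.card (centralizer ((W : Subgroup S) : Set S)) := by
    have h1 : x ∈ centralizer ((W : Subgroup S) : Set S) := by
      rw [← hzW]; exact mem_centralizer_zpowers x w hwx.symm
    have := orderOf_dvd_card_of_mem _ x h1
    rwa [hx3] at this
  have hc7 : 7 ∣ Nat.card (centralizer ((W : Subgroup S) : Set S)) := by
    have := card_dvd_of_le (le_centralizer_of_prime_card (p := 7) _ hWc)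
    rwa [hWc] at this
  have hc9 : ¬ 9 ∣ Nat.card (centralizer ((W : Subgroup S) : Set S)) := fun h => h9 (h.trans hcS)
  have hcW : Nat.card (centralizer ((W : Subgroup S) : Set S)) = 21 := by
    generalize Nat.card (centralizer ((W : Subgroup S) : Set S)) = c at *
    have hle : c ≤ 189 := Nat.le_of_dvd (by norm_num) hc189
    obtain ⟨j, rfl⟩ := hc7
    obtain ⟨i, hi⟩ := hc189
    have hj : j ≤ 27 := by omega
    interval_cases j <;> omega
  have hS7 : Nat.card S ≠ 7 := by
    have h0 : 0 < Nat.card (centralizer ((P : Subgroup S) : Set S)) := Nat.card_pos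
    omega
  obtain ⟨f, hf, hf1, hN⟩ := normalizer_card_of_prime W hWc hS7
  have hn7 := card_sylow_mul_card_normalizer W
  have hm7 : Nat.card (Sylow 7 S) ≡ 1 [MOD 7] := card_sylow_modEq_one 7 S
  rw [hN, hcW] at hn7
  have hf6 : f ∣ 6 := hf
  have hfle : f ≤ 6 := Nat.le_of_dvd (by norm_num) hf6
  unfold Nat.ModEq at hm7
  rw [← hS, ← hn7]
  rw [← hn7] at h9
  generalize Nat.card (Sylow 7 S) = n7 at *
  interval_cases f
  · omega
  · omega
  · omega
  · exfalso; apply h9; exact ⟨n7 * 7, by ring⟩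
  · omega
  · omega
  · exfalso; apply h9; exact ⟨n7 * 14, by ring⟩

theorem stepV (P : Sylow 3 S) (x : S) (hx3 : orderOf x = 3) (hxP : zpowers x = (P : Subgroup S))
    (hS : Nat.card S = 44 * Nat.card (centralizer ((P : Subgroup S) : Set S)))
    (h5 : 5 ∣ Nat.card (centralizer ((P : Subgroup S) : Set S))) :
    7 ∣ Nat.card (centralizer ((P : Subgroup S) : Set S)) := by
  have hfixx : fixedBy (Sylow 3 S) x = {P} := fixedBy_eq_singleton_of_zpowers P x hxP
  have hxmem : x ∈ (P : Subgroup S) := by rw [← hxP]; exact mem_zpowers x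
  obtain ⟨v', hv'⟩ := exists_prime_orderOf_dvd_card' 5 h5
  obtain ⟨v, hvC⟩ := v'
  have hv5 : orderOf v = 5 := by
    rw [← hv', ← Subgroup.orderOf_coe]
  have hvx : Commute v x := ((mem_centralizer_iff.1 hvC) x hxmem).symm
  have hv1 : v ≠ 1 := by
    rintro rfl
    rw [orderOf_one] at hv5
    omega
  have hfv : Nat.card (fixedBy (Sylow 3 S) v) = 7 := by
    obtain ⟨f1, f2, f3, _⟩ := fix_facts h22 v 5 hv5
    have f5 := card_fixedBy_modEq_one v x hvx 3 1 (by rw [hx3, pow_one]) P hfixx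
    unfold Nat.ModEq at f3 f5
    omega
  have h5S : 5 ∣ Nat.card S := by rw [hS]; exact Dvd.dvd.mul_left h5 _
  have h25 : ¬ 5 ^ 2 ∣ Nat.card S := fun h => by
    have := h.trans hSd
    norm_num at this
  obtain ⟨V, hV⟩ := (isPGroup_zpowers v 5 1 (by rw [hv5, pow_one])).exists_le_sylow
  have hVc := sylow_card_eq_prime' V h5S h25
  have hvV : v ∈ (V : Subgroup S) := hV (mem_zpowers v)
  have hzV : zpowers v = (V : Subgroup S) := zpowers_eq_of_prime_card (p := 5) _ hVc v hvV hv1
  have hfp : fixedPoints (V : Subgroup S) (Sylow 3 S) = fixedBy (Sylow 3 S) v := by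
    rw [← hzV, fixedPoints_zpowers_eq]
  have hPv : P ∈ fixedPoints (V : Subgroup S) (Sylow 3 S) := by
    rw [hfp]
    exact Sylow.smul_eq_iff_mem_normalizer.2 (centralizer_le_normalizer _ hvC)
  have hd := card_fixedPoints_dvd_card_normalizer (Ω := Sylow 3 S) V P
    (fun y hy => hPv ⟨y, hy⟩)
  rw [hfp, hfv] at hd
  have hd2 : 7 ∣ Nat.card S := hd.trans (card_subgroup_dvd_card _)
  rw [hS] at hd2
  exact (Nat.Coprime.dvd_of_dvd_mul_left (by norm_num) hd2)

end Steps

section Assemble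
variable {S : Type*} [Group S] [Finite S] [IsSimpleGroup S]

theorem simple_false (h22 : Nat.card (Sylow 3 S) = 22) : False := by
  obtain ⟨P⟩ : Nonempty (Sylow 3 S) := inferInstance
  have hP := card_P h22 P
  have hn1 : 1 < Nat.card (Sylow 3 S) := by rw [h22]; norm_num
  obtain ⟨x, hx3, hxP⟩ := exists_generator_of_prime_card (p := 3) (P : Subgroup S) hP
  have hSN := card_sylow_mul_card_normalizer P
  rw [h22] at hSN
  have hS3 : Nat.card S ≠ 3 := by
    have h0 : 0 < Nat.card (normalizer ((P : Subgroup S) : Set S)) := Nat.card_pos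
    omega
  obtain ⟨e0, he0, he01, hN⟩ := normalizer_card_of_prime P hP hS3
  have he02 : e0 = 2 := by
    have h2 : e0 ∣ 2 := he0
    have := Nat.le_of_dvd (by norm_num) h2
    interval_cases e0 <;> omega
  have hS : Nat.card S = 44 * Nat.card (centralizer ((P : Subgroup S) : Set S)) := by
    rw [← hSN, hN, he02]; ring
  have horb := card_orbits_mul_of_prime P hP
  rw [h22] at horb
  have horb8 : Nat.card (orbitRel.Quotient (P : Subgroup S) (Sylow 3 S)) = 8 := by omega
  have hCd := card_centralizer_dvd_of_prime hn1 P hP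
  rw [horb8] at hCd
  have hCd' : Nat.card (centralizer ((P : Subgroup S) : Set S)) ∣ 120960 := by
    have e : 3 * Nat.factorial 8 = 120960 := by decide
    rwa [e] at hCd
  have hSd : Nat.card S ∣ 5322240 := by
    rw [hS]
    obtain ⟨j, hj⟩ := hCd'
    exact ⟨j, by rw [mul_assoc, ← hj]; norm_num⟩
  have h9 : ¬ 9 ∣ Nat.card S := by
    have := not_sq_dvd_card P hP
    norm_num at this
    exact this
  have h3C : 3 ∣ Nat.card (centralizer ((P : Subgroup S) : Set S)) := by
    have := card_dvd_of_le (le_centralizer_of_prime_card (p := 3) _ hP)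
    rwa [hP] at this
  have h9C : ¬ 9 ∣ Nat.card (centralizer ((P : Subgroup S) : Set S)) :=
    fun h => h9 (h.trans (card_subgroup_dvd_card _))
  obtain ⟨R, hR, hcR, e, he, hNR⟩ := stepR h22 hSd
  have hn11 := card_sylow_mul_card_normalizer R
  have hm11 : Nat.card (Sylow 11 S) ≡ 1 [MOD 11] := card_sylow_modEq_one 11 S
  unfold Nat.ModEq at hm11
  rw [hNR, hS] at hn11
  have h7imp := stepW h22 hSd P x hx3 hxP hS h9
  have h5imp := stepV h22 hSd P x hx3 hxP hS
  have h11form : 44 * Nat.card (centralizer ((P : Subgroup S) : Set S)) % 242 = 22 ∨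
      44 * Nat.card (centralizer ((P : Subgroup S) : Set S)) % 605 = 55 ∨
      44 * Nat.card (centralizer ((P : Subgroup S) : Set S)) % 1210 = 110 := by
    rcases he with rfl | rfl | rfl
    · left; omega
    · right; left; omega
    · right; right; omega
  have hc6 := arith_final _ hCd' h3C h9C h11form h7imp h5imp
  rw [hc6] at hn11
  have hfin : e = 2 ∧ Nat.card (Sylow 11 S) = 12 := by
    rcases he with rfl | rfl | rfl <;> omega
  obtain ⟨rfl, hn12⟩ := hfin
  exact final264 R hR hcR hNR hn12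

end Assemble

theorem not_isPrimePow_22 : ¬ IsPrimePow 22 := by
  rintro ⟨p, k, hp, _, h⟩
  have hp' : p.Prime := hp.nat_prime
  have h3 : 2 ∣ p ^ k := by rw [h]; norm_num
  have h5 : 11 ∣ p ^ k := by rw [h]; norm_num
  have e3 := (Nat.prime_dvd_prime_iff_eq (by norm_num) hp').1
    ((Nat.Prime.dvd_of_dvd_pow (by norm_num)) h3)
  have e5 := (Nat.prime_dvd_prime_iff_eq (by norm_num) hp').1
    ((Nat.Prime.dvd_of_dvd_pow (by norm_num)) h5)
  omega

/-- No finite group has exactly 22 Sylow 3-subgroups. -/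
theorem result {G : Type*} [Group G] [Finite G] : Nat.card (Sylow 3 G) ≠ 22 := by
  intro h
  obtain ⟨l, hl, hm⟩ := Cfsg.Agent.S4303.result (G := G) 3
  rw [h] at hl
  have hex : ∃ m ∈ l, m ≠ 1 := by
    by_contra hcon
    push Not at hcon
    rw [List.prod_eq_one hcon] at hl
    omega
  obtain ⟨m, hml, hm1⟩ := hex
  have hdvd : m ∣ 22 := hl ▸ List.dvd_prod hml
  rcases hm m hml with ⟨hpp, hmod⟩ | ⟨S, _, _, hS, hmS⟩
  · have h22 : m = 22 := (arith_div m hdvd hmod).resolve_left hm1
    subst h22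
    exact not_isPrimePow_22 hpp
  · have hmod : m ≡ 1 [MOD 3] := by rw [hmS]; exact card_sylow_modEq_one 3 S
    have h22 : m = 22 := (arith_div m hdvd hmod).resolve_left hm1
    exact simple_false (h22 ▸ hmS).symm

end Cfsg.Agent.S4346
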