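import Cfsg.Statements.S4354
-- import your own Cfsg.Agent.* helpers here
import Cfsg.Agent.Lib.Helper42.ClassSize
import Cfsg.Agent.Lib.Helper37.ParabolicSub
import Cfsg.Agent.Lib.Helper73.ConjCover
import Cfsg.Agent.Lib.Helper77.Frobenius
import Cfsg.Agent.Lib.Helper80.SylNorm

set_option autoImplicit false
open Cfsg

namespace Cfsg.Agent.S4354

open Subgroup
open scoped Pointwise

theorem mem_sylow_of_mem_normalizer {G : Type*} [Group G] {p : ℕ} [Fact p.Prime] (P : Sylow p G) (c : G)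
    (hc : c ∈ normalizer ((P : Subgroup G) : Set G)) (hp : ∃ k : ℕ, orderOf c = p ^ k) : c ∈ P := by
  have h1 : IsPGroup p (zpowers c) := by
    obtain ⟨k, hk⟩ := hp
    exact IsPGroup.of_card (n := k) (by rw [Nat.card_zpowers, hk])
  have h2 := h1.inf_normalizer_sylow P
  have h3 : c ∈ zpowers c ⊓ normalizer ((P : Subgroup G) : Set G) := ⟨mem_zpowers c, hc⟩
  have h4 : c ∈ zpowers c ⊓ (P : Subgroup G) := h2 ▸ h3
  exact h4.2

theorem mem_of_pow_mem_coprime {G : Type*} [Group G] (C : Subgroup G) {n : G} {a b : ℕ}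
    (ha : n ^ a ∈ C) (hb : n ^ b ∈ C) (hab : a.Coprime b) : n ∈ C := by
  have h1 : ((Nat.gcd a b : ℕ) : ℤ) = a * Nat.gcdA a b + b * Nat.gcdB a b := Nat.gcd_eq_gcd_ab a b
  rw [hab] at h1
  have h2 : n = (n ^ a) ^ (Nat.gcdA a b) * (n ^ b) ^ (Nat.gcdB a b) := by
    rw [← zpow_natCast n a, ← zpow_natCast n b, ← zpow_mul, ← zpow_mul, ← zpow_add, ← h1]
    simp
  rw [h2]
  exact C.mul_mem (C.zpow_mem ha _) (C.zpow_mem hb _)

theorem orderOf_conj' {G : Type*} [Group G] (g x : G) : orderOf (g * x * g⁻¹) = orderOf x :=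
  (MulAut.conj g).orderOf_eq x

theorem sylow_comm {G : Type*} [Group G] [Finite G] (p : ℕ) [Fact p.Prime]
    (hcl : ∀ x : G, (∃ k : ℕ, orderOf x = p ^ k) → ¬ p ∣ (centralizer ({x} : Set G)).index)
    (N : Subgroup G) [hNn : N.Normal]
    (hNab : ∀ Q : Sylow p N, IsMulCommutative Q)
    (hQab : ∀ Q : Sylow p (G ⧸ N), IsMulCommutative Q) (P : Sylow p G) :
    ∀ x ∈ P, ∀ y ∈ P, x * y = y * x := by
  have hp : p.Prime := Fact.out
  have hord : ∀ x ∈ P, ∃ k : ℕ, orderOf x = p ^ k := fun x hx => by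
    obtain ⟨k, hk⟩ := (IsPGroup.iff_orderOf.mp P.2) ⟨x, hx⟩
    exact ⟨k, by rw [← hk, Subgroup.orderOf_mk]⟩
  have h0 : ∀ x ∈ P, ∃ g : G, g * x * g⁻¹ ∈ centralizer ((P : Subgroup G) : Set G) ∧
      g * x * g⁻¹ ∈ P := by
    intro x hx
    obtain ⟨g, hg⟩ := Cfsg.Agent.Lib.Helper73.exists_conj_mem_centralizer_sylow P x (hcl x (hord x hx))
    refine ⟨g, hg, mem_sylow_of_mem_normalizer P _ (centralizer_le_normalizer _ hg) ?_⟩
    obtain ⟨k, hk⟩ := hord x hx
    exact ⟨k, by rw [orderOf_conj', hk]⟩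
  obtain ⟨QN, hQN⟩ := Cfsg.Agent.Lib.Helper37.exists_sylow_subgroupOf_subnormal P (D := N)
    hNn.isSubnormal
  have hmemQN : ∀ a : N, a ∈ QN ↔ (a : G) ∈ P := by
    intro a
    have : a ∈ QN ↔ a ∈ (QN : Subgroup N) := Iff.rfl
    rw [this, hQN, mem_subgroupOf]; rfl
  have hQcomm : ∀ a ∈ P, a ∈ N → ∀ b ∈ P, b ∈ N → a * b = b * a := by
    intro a haP haN b hbP hbN
    have := (hNab QN).is_comm.comm ⟨⟨a, haN⟩, (hmemQN _).2 haP⟩ ⟨⟨b, hbN⟩, (hmemQN _).2 hbP⟩
    exact congrArg (fun z : QN => ((z : N) : G)) this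
  have hc : ∀ x ∈ P, ∀ a ∈ P, a ∈ N → x * a = a * x := by
    intro x hx
    obtain ⟨g, hgC, hgP⟩ := h0 x hx
    obtain ⟨Q1, hQ1⟩ := Cfsg.Agent.Lib.Helper37.exists_sylow_subgroupOf_subnormal (g⁻¹ • P) (D := N)
      hNn.isSubnormal
    obtain ⟨n, hn⟩ := MulAction.exists_smul_eq N Q1 QN
    have h1 : ∀ a ∈ P, a ∈ N → g * ((n : G)⁻¹ * a * n) * g⁻¹ ∈ P := by
      intro a haP haN
      have h2 : (⟨a, haN⟩ : N) ∈ (n • Q1 : Sylow p N) := by rw [hn]; exact (hmemQN _).2 haP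
      rw [Cfsg.Agent.Lib.Helper77.mem_smul_sylow] at h2
      have h3 : n⁻¹ * (⟨a, haN⟩ : N) * n ∈ (Q1 : Subgroup N) := h2
      rw [hQ1, mem_subgroupOf] at h3
      have h4 : ((n⁻¹ * (⟨a, haN⟩ : N) * n : N) : G) ∈ (g⁻¹ • P : Sylow p G) := h3
      rw [Cfsg.Agent.Lib.Helper77.mem_smul_sylow] at h4
      simpa using h4
    have h2 : ∀ a ∈ P, a ∈ N → x * ((n : G)⁻¹ * a * n) = ((n : G)⁻¹ * a * n) * x := by
      intro a haP haN
      have h3 := (mem_centralizer_iff.mp hgC) _ (h1 a haP haN)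
      have h4 : g * (((n : G)⁻¹ * a * n) * x) * g⁻¹ = g * (x * ((n : G)⁻¹ * a * n)) * g⁻¹ := by
        calc g * (((n : G)⁻¹ * a * n) * x) * g⁻¹
            = (g * ((n : G)⁻¹ * a * n) * g⁻¹) * (g * x * g⁻¹) := by group
          _ = (g * x * g⁻¹) * (g * ((n : G)⁻¹ * a * n) * g⁻¹) := h3
          _ = _ := by group
      have h5 := mul_left_cancel (mul_right_cancel h4)
      exact h5.symm
    set t : G := n * x * (n : G)⁻¹ * x⁻¹ with ht
    have htN : t ∈ N := by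
      have : x * (n : G)⁻¹ * x⁻¹ ∈ N := hNn.conj_mem _ (N.inv_mem n.2) x
      have h3 := N.mul_mem n.2 this
      have : t = n * (x * (n : G)⁻¹ * x⁻¹) := by rw [ht]; group
      rw [this]; exact h3
    have key : ∀ a ∈ P, a ∈ N → x * a * x⁻¹ = t⁻¹ * a * t := by
      intro a haP haN
      have h3 := h2 a haP haN
      have h4 : x⁻¹ * ((n : G)⁻¹ * a * n) * x = (n : G)⁻¹ * a * n := by
        rw [mul_assoc, ← h3]; group
      calc x * a * x⁻¹ = x * n * ((n : G)⁻¹ * a * n) * (n : G)⁻¹ * x⁻¹ := by group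
        _ = x * n * (x⁻¹ * ((n : G)⁻¹ * a * n) * x) * (n : G)⁻¹ * x⁻¹ := by rw [h4]
        _ = t⁻¹ * a * t := by rw [ht]; group
    have hxQ : ∀ a ∈ P, a ∈ N → x * a * x⁻¹ ∈ P ∧ x * a * x⁻¹ ∈ N := fun a haP haN =>
      ⟨mul_mem (mul_mem hx haP) (inv_mem hx), hNn.conj_mem a haN x⟩
    have hxQ' : ∀ a ∈ P, a ∈ N → x⁻¹ * a * x ∈ P ∧ x⁻¹ * a * x ∈ N := fun a haP haN =>
      ⟨mul_mem (mul_mem (inv_mem hx) haP) hx, by simpa using hNn.conj_mem a haN x⁻¹⟩
    have key' : ∀ a ∈ P, a ∈ N → t * a * t⁻¹ = x⁻¹ * a * x := by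
      intro a haP haN
      have h3 := key _ (hxQ' a haP haN).1 (hxQ' a haP haN).2
      have h4 : x * (x⁻¹ * a * x) * x⁻¹ = a := by group
      rw [h4] at h3
      calc t * a * t⁻¹ = t * (t⁻¹ * (x⁻¹ * a * x) * t) * t⁻¹ := by rw [← h3]
        _ = x⁻¹ * a * x := by group
    have hpow : ∀ j : ℕ, ∀ a ∈ P, a ∈ N → x ^ j * a * (x ^ j)⁻¹ = (t ^ j)⁻¹ * a * t ^ j := by
      intro j
      induction j with
      | zero => intro a _ _; simp
      | succ j ih =>
        intro a haP haN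
        have h3 := ih _ (hxQ a haP haN).1 (hxQ a haP haN).2
        calc x ^ (j + 1) * a * (x ^ (j + 1))⁻¹ = x ^ j * (x * a * x⁻¹) * (x ^ j)⁻¹ := by
              rw [pow_succ]; group
          _ = (t ^ j)⁻¹ * (x * a * x⁻¹) * t ^ j := h3
          _ = (t ^ j)⁻¹ * (t⁻¹ * a * t) * t ^ j := by rw [key a haP haN]
          _ = (t ^ (j + 1))⁻¹ * a * t ^ (j + 1) := by rw [pow_succ']; group
    obtain ⟨e, m, hm, hom⟩ := Nat.exists_eq_pow_mul_and_not_dvd (orderOf_pos t).ne' p hp.ne_one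
    have hTn : (⟨t, htN⟩ : N) ∈ normalizer ((QN : Subgroup N) : Set N) := by
      rw [mem_normalizer_iff]
      intro h
      constructor
      · intro hh
        have hhP : (h : G) ∈ P := (hmemQN h).1 hh
        apply (hmemQN _).2
        show t * (h : G) * t⁻¹ ∈ P
        rw [key' _ hhP h.2]
        exact (hxQ' _ hhP h.2).1
      · intro hh
        have hhP : t * (h : G) * t⁻¹ ∈ P := (hmemQN _).1 hh
        have hhN : t * (h : G) * t⁻¹ ∈ N := hNn.conj_mem _ h.2 t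
        apply (hmemQN _).2
        have h3 := key _ hhP hhN
        have h4 : t⁻¹ * (t * (h : G) * t⁻¹) * t = h := by group
        rw [h4] at h3
        rw [← h3]
        exact (hxQ _ hhP hhN).1
    have hm0 : m ≠ 0 := by rintro rfl; exact hm (dvd_zero p)
    have hs : (⟨t, htN⟩ : N) ^ m ∈ QN := by
      apply mem_sylow_of_mem_normalizer QN _ (pow_mem hTn m)
      refine ⟨e, ?_⟩
      rw [orderOf_pow_of_dvd hm0 (by rw [Subgroup.orderOf_mk, hom]; exact Dvd.intro_left _ rfl),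
        Subgroup.orderOf_mk, hom, Nat.mul_div_cancel _ (Nat.pos_of_ne_zero hm0)]
    have hsP : t ^ m ∈ P := by
      have := (hmemQN _).1 hs
      simpa using this
    have hsN : t ^ m ∈ N := pow_mem htN m
    obtain ⟨k, hk⟩ := hord x hx
    have hxC : x ∈ centralizer (((P : Subgroup G) ⊓ N : Subgroup G) : Set G) := by
      apply mem_of_pow_mem_coprime _ (a := m) (b := p ^ k)
      · rw [mem_centralizer_iff]
        rintro a ⟨haP, haN⟩
        have h3 := hpow m a haP haN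
        have h4 : (t ^ m)⁻¹ * a * t ^ m = a := by
          rw [mul_assoc, hQcomm a haP haN _ hsP hsN]; group
        rw [h4] at h3
        have : x ^ m * a = a * x ^ m := by
          calc x ^ m * a = x ^ m * a * (x ^ m)⁻¹ * x ^ m := by group
            _ = a * x ^ m := by rw [h3]
        exact this.symm
      · rw [← hk, pow_orderOf_eq_one]; exact one_mem _
      · exact Nat.Coprime.pow_right k ((Nat.Prime.coprime_iff_not_dvd hp).2 hm).symm
    intro a haP haN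
    exact ((mem_centralizer_iff.mp hxC) a ⟨haP, haN⟩).symm
  intro x hx y hy
  obtain ⟨g, hgC, hgP⟩ := h0 x hx
  let Pb : Sylow p (G ⧸ N) := P.mapSurjective (QuotientGroup.mk'_surjective N)
  haveI := hQab Pb
  have hPb : ∀ z ∈ P, (QuotientGroup.mk' N z) ∈ Pb := by
    intro z hz
    have : (QuotientGroup.mk' N z) ∈ (Pb : Subgroup (G ⧸ N)) := by
      rw [Sylow.coe_mapSurjective]; exact mem_map_of_mem _ hz
    exact this
  obtain ⟨nb, hnb, hEq⟩ := Pb.conj_eq_normalizer_conj_of_mem (QuotientGroup.mk' N x)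
    (QuotientGroup.mk' N g⁻¹) (hPb x hx) (by
      have := hPb _ hgP
      simpa using this)
  obtain ⟨n0, rfl⟩ := QuotientGroup.mk'_surjective N nb
  have hn0 : n0 ∈ normalizer ((P : Subgroup G) : Set G) ⊔ N := by
    apply Cfsg.Agent.Lib.Helper80.comap_normalizer_map_le p N P
    rw [mem_comap]
    have : ((Pb : Subgroup (G ⧸ N)) : Set (G ⧸ N)) =
        (((P : Subgroup G).map (QuotientGroup.mk' N) : Subgroup (G ⧸ N)) : Set (G ⧸ N)) := by
      rw [Sylow.coe_mapSurjective]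
    rw [← this]; exact hnb
  obtain ⟨n1, hn1, n2, hn2, rfl⟩ := (mem_sup_of_normal_right).mp hn0
  have hπ : QuotientGroup.mk' N (n1 * n2) = QuotientGroup.mk' N n1 := by
    have : QuotientGroup.mk' N n2 = 1 := (QuotientGroup.eq_one_iff n2).2 hn2
    rw [map_mul, this, mul_one]
  rw [hπ] at hEq
  have hEq' : QuotientGroup.mk' N (n1⁻¹ * x * n1) = QuotientGroup.mk' N (g * x * g⁻¹) := by
    simp only [map_mul, map_inv, inv_inv] at hEq ⊢
    exact hEq.symm
  have htt : (n1⁻¹ * x * n1)⁻¹ * (g * x * g⁻¹) ∈ N := QuotientGroup.eq.mp hEq'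
  have hx1P : n1⁻¹ * x * n1 ∈ P := by
    have := (mem_normalizer_iff.mp (inv_mem hn1) x).1 hx
    rw [inv_inv] at this
    exact this
  have httP : (n1⁻¹ * x * n1)⁻¹ * (g * x * g⁻¹) ∈ P := mul_mem (inv_mem hx1P) hgP
  have hy1P : n1⁻¹ * y * n1 ∈ P := by
    have := (mem_normalizer_iff.mp (inv_mem hn1) y).1 hy
    rw [inv_inv] at this
    exact this
  have e1 := (mem_centralizer_iff.mp hgC) _ hy1P
  have e2 := hc _ hy1P _ httP htt
  -- x1 = x' * tt⁻¹ commutes with y1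
  have e3 : (n1⁻¹ * x * n1) * (n1⁻¹ * y * n1) = (n1⁻¹ * y * n1) * (n1⁻¹ * x * n1) := by
    set x1 := n1⁻¹ * x * n1
    set y1 := n1⁻¹ * y * n1
    set x' := g * x * g⁻¹
    have e4 : y1 * x1⁻¹ = x1⁻¹ * y1 := by
      have : y1 * (x1⁻¹ * x') * x'⁻¹ = (x1⁻¹ * x') * y1 * x'⁻¹ := by rw [e2]
      calc y1 * x1⁻¹ = y1 * (x1⁻¹ * x') * x'⁻¹ := by group
        _ = (x1⁻¹ * x') * y1 * x'⁻¹ := this
        _ = x1⁻¹ * (x' * y1) * x'⁻¹ := by group
        _ = x1⁻¹ * (y1 * x') * x'⁻¹ := by rw [e1]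
        _ = x1⁻¹ * y1 := by group
    calc x1 * y1 = x1 * (y1 * x1⁻¹) * x1 := by group
      _ = x1 * (x1⁻¹ * y1) * x1 := by rw [e4]
      _ = y1 * x1 := by group
  have e5 : n1⁻¹ * (x * y) * n1 = n1⁻¹ * (y * x) * n1 := by
    calc n1⁻¹ * (x * y) * n1 = (n1⁻¹ * x * n1) * (n1⁻¹ * y * n1) := by group
      _ = (n1⁻¹ * y * n1) * (n1⁻¹ * x * n1) := e3
      _ = _ := by group
  exact mul_left_cancel (mul_right_cancel e5)

/-- Let G be a finite group and p a prime such that the Sylow p-subgroups of G are non-abelian while every element of p-power order has conjugacy class size prime to p, and suppose no nontrivial proper normal subgroup N of G has this property and no quotient G/N by such an N has it. Then G is simple. -/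
theorem result {G : Type*} [Group G] [Finite G]
    (p : ℕ) [Fact p.Prime] (h : ((∃ P : Sylow p G, ¬ IsMulCommutative P) ∧ ∀ x : G, (∃ k : ℕ, orderOf x = p ^ k) → ¬ p ∣ (Subgroup.centralizer ({x} : Set G)).index))
    (hmin : ∀ (N : Subgroup G) [N.Normal], N ≠ ⊥ → N ≠ ⊤ →
      ¬ ((∃ P : Sylow p N, ¬ IsMulCommutative P) ∧ ∀ x : N, (∃ k : ℕ, orderOf x = p ^ k) → ¬ p ∣ (Subgroup.centralizer ({x} : Set N)).index) ∧
      ¬ ((∃ P : Sylow p (G ⧸ N), ¬ IsMulCommutative P) ∧ ∀ x : (G ⧸ N), (∃ k : ℕ, orderOf x = p ^ k) → ¬ p ∣ (Subgroup.centralizer ({x} : Set (G ⧸ N))).index)) :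
    IsSimpleGroup G := by
  obtain ⟨⟨P, hPna⟩, hcl⟩ := h
  haveI : Nontrivial G := by
    by_contra hnt
    rw [not_nontrivial_iff_subsingleton] at hnt
    exact hPna ⟨⟨fun a b => Subsingleton.elim _ _⟩⟩
  refine ⟨fun N hN => ?_⟩
  by_contra hcon
  push Not at hcon
  obtain ⟨hNbot, hNtop⟩ := hcon
  haveI := hN
  obtain ⟨h1, h2⟩ := hmin N hNbot hNtop
  have hNab : ∀ Q : Sylow p N, IsMulCommutative Q := by
    intro Q
    by_contra hQ
    apply h1
    refine ⟨⟨Q, hQ⟩, ?_⟩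
    intro x hx hd
    refine hcl (x : G) ?_ (hd.trans (Cfsg.Agent.Lib.Helper42.index_centralizer_subtype_dvd N x))
    obtain ⟨k, hk⟩ := hx
    exact ⟨k, by rw [Subgroup.orderOf_coe, hk]⟩
  have hQab : ∀ Q : Sylow p (G ⧸ N), IsMulCommutative Q := by
    intro Q
    by_contra hQ
    apply h2
    exact ⟨⟨Q, hQ⟩, Cfsg.Agent.Lib.Helper80.class_size_hyp_of_surjective (QuotientGroup.mk' N)
      (QuotientGroup.mk'_surjective N) p p hcl⟩
  apply hPna
  have := sylow_comm p hcl N hNab hQab P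
  exact ⟨⟨fun a b => Subtype.ext (this a a.2 b b.2)⟩⟩

end Cfsg.Agent.S4354
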