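import Cfsg.Statements.S4365
-- import your own Cfsg.Agent.* helpers here

set_option autoImplicit false
open Cfsg

namespace Cfsg.Agent.S4365

theorem index_lt_card_of_normal {X : Type*} [Group X] [Finite X] (N : Subgroup X) [hN : N.Normal]
    (u : X) (hu : u ∈ N) (hu1 : u ≠ 1) :
    (Subgroup.centralizer ({u} : Set X)).index < Nat.card N := by
  have h1 : (Subgroup.centralizer ({u} : Set X)).index = (MulAction.orbit (ConjAct X) u).ncard := by
    rw [← MulAction.index_stabilizer, Subgroup.centralizer_eq_comap_stabilizer]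
    exact Subgroup.index_comap_of_surjective _ (ConjAct.toConjAct.surjective)
  rw [h1, ← Nat.card_coe_set_eq (MulAction.orbit (ConjAct X) u)]
  have h2 : Nat.card N = Nat.card ((N : Set X)) := rfl
  rw [h2, Nat.card_coe_set_eq, Nat.card_coe_set_eq]
  apply Set.ncard_lt_ncard _ (Set.toFinite _)
  refine ⟨?_, ?_⟩
  · intro w hw
    rw [ConjAct.mem_orbit_conjAct, isConj_comm, isConj_iff] at hw
    obtain ⟨c, rfl⟩ := hw
    exact hN.conj_mem u hu c
  · intro hsub
    have h3 := hsub N.one_mem
    rw [ConjAct.mem_orbit_conjAct, isConj_comm, isConj_iff] at h3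
    obtain ⟨c, hc⟩ := h3
    apply hu1
    have : u = c⁻¹ * (c * u * c⁻¹) * c := by group
    rw [this, hc]
    group

theorem eq_of_le_of_index_eq {X : Type*} [Group X] [Finite X] {H K : Subgroup X} (hle : H ≤ K)
    (hidx : H.index = K.index) : H = K := by
  apply le_antisymm hle
  rw [← Subgroup.relIndex_eq_one]
  have h1 := Subgroup.relIndex_mul_index hle
  rw [hidx] at h1
  have h2 : K.index ≠ 0 := Subgroup.index_ne_zero_of_finite
  exact Nat.eq_of_mul_eq_mul_right (Nat.pos_of_ne_zero h2) (by rw [h1, one_mul])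

theorem cent_mul_central {X : Type*} [Group X] (g z : X) (hz : z ∈ Subgroup.center X) :
    Subgroup.centralizer ({g * z} : Set X) = Subgroup.centralizer ({g} : Set X) := by
  ext k
  rw [Subgroup.mem_centralizer_singleton_iff, Subgroup.mem_centralizer_singleton_iff]
  have hzk : k * z = z * k := Subgroup.mem_center_iff.1 hz k
  constructor
  · intro h
    have h1 : k * g * z = g * k * z := by
      rw [mul_assoc g k z, hzk, ← mul_assoc, ← h, mul_assoc]
    exact mul_right_cancel h1
  · intro h
    rw [← mul_assoc, h, mul_assoc, hzk, mul_assoc]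

theorem exists_second_center {P : Type*} [Group P] [Finite P] (p : ℕ) [Fact p.Prime]
    (hP : IsPGroup p P) (hne : Subgroup.center P ≠ ⊤) :
    ∃ y : P, y ∉ Subgroup.center P ∧ ((y : P ⧸ Subgroup.center P)) ^ p = 1 ∧
      (y : P ⧸ Subgroup.center P) ∈ Subgroup.center (P ⧸ Subgroup.center P) := by
  have hnt : Nontrivial (P ⧸ Subgroup.center P) := by
    by_contra hcon
    rw [not_nontrivial_iff_subsingleton] at hcon
    apply hne
    rw [eq_top_iff]
    intro g _
    have := Subsingleton.elim (g : P ⧸ Subgroup.center P) ((1 : P) : P ⧸ Subgroup.center P)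
    rw [QuotientGroup.eq] at this
    simpa using this
  have hq : IsPGroup p (P ⧸ Subgroup.center P) := hP.to_quotient _
  have hcn := hq.center_nontrivial
  have hcp : IsPGroup p (Subgroup.center (P ⧸ Subgroup.center P)) := hq.to_subgroup _
  obtain ⟨n, hn0, hn⟩ := hcp.nontrivial_iff_card.1 hcn
  have hdvd : p ∣ Nat.card (Subgroup.center (P ⧸ Subgroup.center P)) := hn ▸ dvd_pow_self _ hn0.ne'
  obtain ⟨w, hw⟩ := exists_prime_orderOf_dvd_card' p hdvd
  obtain ⟨y, hy⟩ := QuotientGroup.mk_surjective (w : P ⧸ Subgroup.center P)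
  refine ⟨y, ?_, ?_, ?_⟩
  · intro hyc
    have h1 : (y : P ⧸ Subgroup.center P) = 1 := (QuotientGroup.eq_one_iff y).2 hyc
    rw [hy] at h1
    have h2 : w = 1 := Subtype.ext h1
    rw [h2, orderOf_one] at hw
    exact (Fact.out : p.Prime).one_lt.ne hw
  · rw [hy]
    have := pow_orderOf_eq_one w
    rw [hw] at this
    simpa using congrArg Subtype.val this
  · rw [hy]
    exact w.2

theorem conj_pow_central {X : Type*} [Group X] (k x z : X) (hz : z ∈ Subgroup.center X)
    (h : k * x * k⁻¹ = x * z) (m : ℕ) : k ^ m * x * (k ^ m)⁻¹ = x * z ^ m := by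
  induction m with
  | zero => simp
  | succ m ih =>
    have hzk : k * z ^ m = z ^ m * k := Subgroup.mem_center_iff.1 (Subgroup.pow_mem _ hz m) k
    calc k ^ (m + 1) * x * (k ^ (m + 1))⁻¹ = k * (k ^ m * x * (k ^ m)⁻¹) * k⁻¹ := by
          rw [pow_succ']; group
      _ = k * (x * z ^ m) * k⁻¹ := by rw [ih]
      _ = k * x * k⁻¹ * (k * z ^ m) * k⁻¹ := by group
      _ = (k * x * k⁻¹) * z ^ m := by rw [hzk]; group
      _ = x * z ^ (m + 1) := by rw [h, pow_succ', mul_assoc]

/-- Let P be a finite p-group whose conjugacy class sizes are exactly 1 and pᵃ for some a ≥ 1. Then every element of P has its p-th power in the center of P (P/Z(P) has exponent p). -/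
theorem result {P : Type*} [Group P] [Finite P] (p : ℕ) [Fact p.Prime]
    (hP : IsPGroup p P) (a : ℕ) (ha : 1 ≤ a)
    (hcs : {k : ℕ | ∃ x : P, (Subgroup.centralizer ({x} : Set P)).index = k} = {1, p ^ a}) (x : P) :
    x ^ p ∈ Subgroup.center P := by
  classical
  have hpp : p.Prime := Fact.out
  have F1 : ∀ g : P, g ∉ Subgroup.center P → (Subgroup.centralizer ({g} : Set P)).index = p ^ a := by
    intro g hg
    have h1 : (Subgroup.centralizer ({g} : Set P)).index ∈ ({1, p ^ a} : Set ℕ) := by
      rw [← hcs]; exact ⟨g, rfl⟩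
    rcases h1 with h1 | h1
    · exfalso; apply hg
      rw [Subgroup.index_eq_one] at h1
      rw [Subgroup.mem_center_iff]
      intro k
      have : k ∈ Subgroup.centralizer ({g} : Set P) := h1 ▸ Subgroup.mem_top k
      exact Subgroup.mem_centralizer_singleton_iff.1 this
    · exact h1
  have F2 : ∀ g h : P, g ∉ Subgroup.center P → h ∉ Subgroup.center P →
      Subgroup.centralizer ({g} : Set P) ≤ Subgroup.centralizer ({h} : Set P) →
      Subgroup.centralizer ({g} : Set P) = Subgroup.centralizer ({h} : Set P) :=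
    fun g h hg hh hle => eq_of_le_of_index_eq hle ((F1 g hg).trans (F1 h hh).symm)
  have Fpow : ∀ g : P, Subgroup.centralizer ({g} : Set P) ≤ Subgroup.centralizer ({g ^ p} : Set P) := by
    intro g c hc
    rw [Subgroup.mem_centralizer_singleton_iff] at *
    exact (show Commute c g from hc).pow_right p
  by_contra hx
  have hxZ : x ∉ Subgroup.center P := fun h => hx (Subgroup.pow_mem _ h p)
  have hC1 := F2 x (x ^ p) hxZ hx (Fpow x)
  have hZtop : Subgroup.center P ≠ ⊤ := fun h => hxZ (h ▸ Subgroup.mem_top x)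
  obtain ⟨y, hyZ, hyp, hyc⟩ := exists_second_center p hP hZtop
  -- the element (x y)^p
  have hq : (((x * y) ^ p : P) : P ⧸ Subgroup.center P) = ((x ^ p : P) : P ⧸ Subgroup.center P) := by
    rw [QuotientGroup.mk_pow, QuotientGroup.mk_mul, QuotientGroup.mk_pow]
    have hcm : Commute (x : P ⧸ Subgroup.center P) (y : P ⧸ Subgroup.center P) :=
      Subgroup.mem_center_iff.1 hyc _
    rw [hcm.mul_pow, hyp, mul_one]
  have hz' : (x ^ p)⁻¹ * (x * y) ^ p ∈ Subgroup.center P := QuotientGroup.eq.1 hq.symm
  have hxyp_eq : (x * y) ^ p = x ^ p * ((x ^ p)⁻¹ * (x * y) ^ p) := by group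
  have hC2 : Subgroup.centralizer ({(x * y) ^ p} : Set P) = Subgroup.centralizer ({x ^ p} : Set P) := by
    rw [hxyp_eq]; exact cent_mul_central _ _ hz'
  have hxyp : (x * y) ^ p ∉ Subgroup.center P := by
    intro h
    apply hx
    have : x ^ p = (x * y) ^ p * ((x ^ p)⁻¹ * (x * y) ^ p)⁻¹ := by group
    rw [this]
    exact Subgroup.mul_mem _ h (Subgroup.inv_mem _ hz')
  have hxy : x * y ∉ Subgroup.center P := fun h => hxyp (Subgroup.pow_mem _ h p)
  have hC3 := F2 (x * y) ((x * y) ^ p) hxy hxyp (Fpow _)
  have hC4 : Subgroup.centralizer ({x} : Set P) ≤ Subgroup.centralizer ({y} : Set P) := by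
    intro c hc
    have hc2 : c ∈ Subgroup.centralizer ({x * y} : Set P) := by rw [hC3, hC2, ← hC1]; exact hc
    rw [Subgroup.mem_centralizer_singleton_iff] at *
    have : x * (c * y) = x * (y * c) := by
      rw [← mul_assoc, ← hc, mul_assoc, hc2, mul_assoc]
    exact mul_left_cancel this
  have hC5 := F2 x y hxZ hyZ hC4
  set C : Subgroup P := Subgroup.centralizer ({x} : Set P) with hC
  have hCn : C.Normal := by
    constructor
    intro c hc g
    rw [hC5] at hc ⊢
    rw [Subgroup.mem_centralizer_singleton_iff] at *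
    have hq2 : ((g⁻¹ * y * g : P) : P ⧸ Subgroup.center P) = (y : P ⧸ Subgroup.center P) := by
      rw [QuotientGroup.mk_mul, QuotientGroup.mk_mul, QuotientGroup.mk_inv,
        mul_assoc, ← Subgroup.mem_center_iff.1 hyc _, inv_mul_cancel_left]
    have hzg : y⁻¹ * (g⁻¹ * y * g) ∈ Subgroup.center P := QuotientGroup.eq.1 hq2.symm
    set z := y⁻¹ * (g⁻¹ * y * g) with hz
    have key : g⁻¹ * y * g = y * z := by rw [hz]; group
    have hcz : c * z = z * c := Subgroup.mem_center_iff.1 hzg c
    calc g * c * g⁻¹ * y = g * c * (g⁻¹ * y * g) * g⁻¹ := by group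
      _ = g * (c * y * z) * g⁻¹ := by rw [key]; group
      _ = g * (y * z * c) * g⁻¹ := by rw [hc, mul_assoc y c z, hcz, mul_assoc y z c]
      _ = g * (g⁻¹ * y * g) * c * g⁻¹ := by rw [key]; group
      _ = y * (g * c * g⁻¹) := by group
  set A : Subgroup P := C ⊓ Subgroup.centralizer (C : Set P) with hA
  have hAn : A.Normal := inferInstance
  have hxA : x ∈ A := by
    refine Subgroup.mem_inf.2 ⟨?_, ?_⟩
    · rw [hC, Subgroup.mem_centralizer_singleton_iff]
    · rw [Subgroup.mem_centralizer_iff]
      intro c hc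
      exact Subgroup.mem_centralizer_singleton_iff.1 hc
  have hZC : Subgroup.center P ≤ C := by
    intro z hz
    rw [hC, Subgroup.mem_centralizer_singleton_iff]
    exact (Subgroup.mem_center_iff.1 hz x).symm
  have hZA : Subgroup.center P ≤ A := by
    intro z hz
    refine Subgroup.mem_inf.2 ⟨hZC hz, ?_⟩
    rw [Subgroup.mem_centralizer_iff]
    intro c _
    exact Subgroup.mem_center_iff.1 hz c
  have hAw : ∀ w ∈ A, w ∉ Subgroup.center P → Subgroup.centralizer ({w} : Set P) = C := by
    intro w hw hwZ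
    symm
    apply F2 x w hxZ hwZ
    intro c hc
    rw [Subgroup.mem_centralizer_singleton_iff]
    exact Subgroup.mem_centralizer_iff.1 (Subgroup.mem_inf.1 hw).2 c hc
  obtain ⟨g, hg⟩ : ∃ g : P, g ∉ C := by
    by_contra hcon
    push Not at hcon
    apply hxZ
    rw [Subgroup.mem_center_iff]
    intro k
    exact Subgroup.mem_centralizer_singleton_iff.1 (hcon k)
  have hgZ : g ∉ Subgroup.center P := fun h => hg (hZC h)
  have hinf : A ⊓ Subgroup.centralizer ({g} : Set P) = Subgroup.center P := by
    apply le_antisymm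
    · intro w hw
      obtain ⟨hw1, hw2⟩ := Subgroup.mem_inf.1 hw
      by_contra hwZ
      apply hg
      rw [← hAw w hw1 hwZ, Subgroup.mem_centralizer_singleton_iff]
      exact (Subgroup.mem_centralizer_singleton_iff.1 hw2).symm
    · apply le_inf hZA
      intro z hz
      rw [Subgroup.mem_centralizer_singleton_iff]
      exact (Subgroup.mem_center_iff.1 hz g).symm
  have hle : (Subgroup.center P).relIndex A ≤ p ^ a := by
    rw [← hinf, Subgroup.inf_relIndex_left, ← F1 g hgZ, ← Subgroup.relIndex_top_right]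
    apply Subgroup.relIndex_le_of_le_right le_top
    rw [Subgroup.relIndex_top_right]
    exact Subgroup.index_ne_zero_of_finite
  -- the claim on central commutators
  have claim : ∀ n : ℕ, ∀ k z : P, z ∈ Subgroup.center P → k * x * k⁻¹ = x * z → z ^ (p ^ n) = 1 → z = 1 := by
    intro n
    induction n with
    | zero => intro k z _ _ h; simpa using h
    | succ n ih =>
      intro k z hz hk hzn
      have h1 := conj_pow_central k x z hz hk p
      have h2 : z ^ p = 1 := by
        apply ih (k ^ p) (z ^ p) (Subgroup.pow_mem _ hz p) h1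
        rw [← pow_mul, ← pow_succ']
        exact hzn
      have h3 : k * x ^ p * k⁻¹ = x ^ p := by
        have hxz : Commute x z := Subgroup.mem_center_iff.1 hz x
        rw [← conj_pow, hk, hxz.mul_pow, h2, mul_one]
      have h4 : k ∈ C := by
        rw [hC1, Subgroup.mem_centralizer_singleton_iff]
        calc k * x ^ p = (k * x ^ p * k⁻¹) * k := by group
          _ = x ^ p * k := by rw [h3]
      rw [hC, Subgroup.mem_centralizer_singleton_iff] at h4
      have h5 : x * z = x * 1 := by
        rw [← hk, h4]; group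
      exact mul_left_cancel h5
  have hcomap : (Subgroup.centralizer ({(x : P ⧸ Subgroup.center P)} : Set (P ⧸ Subgroup.center P))).comap
      (QuotientGroup.mk' (Subgroup.center P)) = C := by
    ext k
    rw [Subgroup.mem_comap, Subgroup.mem_centralizer_singleton_iff, QuotientGroup.mk'_apply]
    constructor
    · intro h
      have h1 : ((k * x * k⁻¹ : P) : P ⧸ Subgroup.center P) = (x : P ⧸ Subgroup.center P) := by
        rw [QuotientGroup.mk_mul, QuotientGroup.mk_mul, QuotientGroup.mk_inv, h, mul_inv_cancel_right]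
      have h2 : x⁻¹ * (k * x * k⁻¹) ∈ Subgroup.center P := QuotientGroup.eq.1 h1.symm
      obtain ⟨n, hn⟩ := hP (x⁻¹ * (k * x * k⁻¹))
      have h3 := claim n k _ h2 (by group) hn
      rw [hC, Subgroup.mem_centralizer_singleton_iff]
      have h4 : k * x * k⁻¹ = x := by
        have : k * x * k⁻¹ = x * (x⁻¹ * (k * x * k⁻¹)) := by group
        rw [this, h3, mul_one]
      calc k * x = (k * x * k⁻¹) * k := by group
        _ = x * k := by rw [h4]
    · intro h
      rw [hC, Subgroup.mem_centralizer_singleton_iff] at h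
      rw [← QuotientGroup.mk_mul, h, QuotientGroup.mk_mul]
  have hAbar : (A.map (QuotientGroup.mk' (Subgroup.center P))).Normal :=
    hAn.map _ (QuotientGroup.mk'_surjective _)
  have hlt := index_lt_card_of_normal (A.map (QuotientGroup.mk' (Subgroup.center P)))
    (x : P ⧸ Subgroup.center P) (Subgroup.mem_map_of_mem _ hxA)
    (fun h => hxZ ((QuotientGroup.eq_one_iff x).1 h))
  rw [← Subgroup.index_comap_of_surjective _ (QuotientGroup.mk'_surjective (Subgroup.center P)), hcomap,
    ← Subgroup.relIndex_ker, QuotientGroup.ker_mk', hC, F1 x hxZ] at hlt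
  omega

end Cfsg.Agent.S4365
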