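import Cfsg.Statements.S4370
import Mathlib
import Cfsg.Agent.S0016
import Cfsg.Agent.Lib.Helper31.Nilpotent
import Cfsg.Agent.Lib.Helper70.Wielandt
import Cfsg.Agent.Lib.Helper3.NormalSeries
-- import your own Cfsg.Agent.* helpers here

set_option autoImplicit false
open Cfsg

namespace Cfsg.Agent.S4370

open Cfsg.Agent.Lib.Helper70

open QuaternionGroup in
/-- In a generalized quaternion group the centralizer of a noncentral element lies in a cyclic
subgroup of order dividing `4 n`. -/
theorem quat_centralizer (n : ℕ) [NeZero n] (q : QuaternionGroup n) (r : QuaternionGroup n)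
    (hqr : q * r ≠ r * q) :
    ∃ g : QuaternionGroup n, orderOf g ∣ 4 * n ∧ ∀ y, y * q = q * y → y ∈ Subgroup.zpowers g := by
  have htwo : ∀ j : ZMod (2 * n), j = -j → j = 0 ∨ j = n := by
    intro j hj
    have h1 : ((2 * j.val : ℕ) : ZMod (2 * n)) = 0 := by
      push_cast
      rw [ZMod.natCast_zmod_val]
      linear_combination hj
    rw [ZMod.natCast_eq_zero_iff] at h1
    have h2 : n ∣ j.val := Nat.dvd_of_mul_dvd_mul_left (by norm_num) h1
    have h3 : j.val < 2 * n := ZMod.val_lt j
    obtain ⟨c, hc⟩ := h2
    have hn : 0 < n := Nat.pos_of_ne_zero (NeZero.ne n)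
    have hc2 : c < 2 := by
      by_contra hcon
      push Not at hcon
      have : 2 * n ≤ n * c := by nlinarith
      omega
    interval_cases c
    · left
      have : j.val = 0 := by omega
      exact (ZMod.val_eq_zero j).mp this
    · right
      have : j.val = n := by omega
      rw [← ZMod.natCast_zmod_val j, this]
  rcases q with i | i
  · refine ⟨a 1, ?_, ?_⟩
    · rw [orderOf_a_one]; exact ⟨2, by ring⟩
    · intro y hy
      rcases y with j | j
      · refine ⟨(j.val : ℤ), ?_⟩
        simp only [zpow_natCast, a_one_pow, ZMod.natCast_zmod_val]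
      · exfalso
        simp only [xa_mul_a, a_mul_xa, xa.injEq] at hy
        have hi : i = -i := by linear_combination hy
        apply hqr
        rcases r with l | l
        · simp only [a_mul_a, add_comm]
        · simp only [xa_mul_a, a_mul_xa, xa.injEq]
          linear_combination (-1 : ZMod (2 * n)) * hi
  · refine ⟨xa i, ?_, ?_⟩
    · rw [orderOf_xa]; exact ⟨n, rfl⟩
    · intro y hy
      rcases y with j | j
      · simp only [xa_mul_a, a_mul_xa, xa.injEq] at hy
        have hj : j = -j := by linear_combination -hy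
        rcases htwo j hj with rfl | rfl
        · rw [a_zero]; exact one_mem _
        · rw [← xa_sq i]; exact Subgroup.pow_mem _ (Subgroup.mem_zpowers _) 2
      · simp only [xa_mul_xa, a.injEq] at hy
        have hj : (j - i) = -(j - i) := by linear_combination -hy
        rcases htwo _ hj with h | h
        · have : j = i := by linear_combination h
          rw [this]; exact Subgroup.mem_zpowers _
        · have : xa j = xa i ^ 3 := by
            rw [pow_succ, xa_sq, a_mul_xa]
            congr 1
            have h2 : (n : ZMod (2 * n)) = -n := by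
              have : ((2 * n : ℕ) : ZMod (2 * n)) = 0 := ZMod.natCast_self _
              push_cast at this
              linear_combination this
            linear_combination h + h2
          rw [this]; exact Subgroup.pow_mem _ (Subgroup.mem_zpowers _) 3

theorem backward {G : Type*} [Group G] [Finite G] (k m : ℕ) (hm : Odd m)
    (e : G ≃* QuaternionGroup (2 ^ k) × Multiplicative (ZMod m)) (x : G)
    (hx : x ∉ Subgroup.center G) : IsCyclic (Subgroup.centralizer ({x} : Set G)) := by
  have : NeZero (2 ^ k) := ⟨by positivity⟩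
  have : NeZero m := ⟨by rintro rfl; simp at hm⟩
  -- a non-commuting partner
  rw [Subgroup.mem_center_iff] at hx
  push Not at hx
  obtain ⟨g, hg⟩ := hx
  have hqr : (e x).1 * (e g).1 ≠ (e g).1 * (e x).1 := by
    intro h
    apply hg
    apply e.injective
    rw [map_mul, map_mul]
    ext1
    · exact h.symm
    · exact mul_comm _ _
  obtain ⟨t, ht, hcen⟩ := quat_centralizer (2 ^ k) (e x).1 (e g).1 hqr
  let T : Subgroup (QuaternionGroup (2 ^ k) × Multiplicative (ZMod m)) :=
    (Subgroup.zpowers t).prod ⊤
  have hT : IsCyclic T := by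
    have h1 : IsCyclic (Subgroup.zpowers t × (⊤ : Subgroup (Multiplicative (ZMod m)))) := by
      rw [Group.isCyclic_prod_iff]
      refine ⟨inferInstance, ?_, ?_⟩
      · exact isCyclic_of_surjective (Subgroup.topEquiv (G := Multiplicative (ZMod m))).symm
          (Subgroup.topEquiv (G := Multiplicative (ZMod m))).symm.surjective
      · rw [Nat.card_zpowers, Subgroup.card_top, Nat.card_eq_fintype_card, Fintype.card_multiplicative,
          ZMod.card]
        have h2 : (4 * 2 ^ k).Coprime m := by
          have : 4 * 2 ^ k = 2 ^ (k + 2) := by ring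
          rw [this]
          exact Nat.Coprime.pow_left _ (Nat.coprime_two_left.mpr hm)
        exact Nat.Coprime.coprime_dvd_left ht h2
    exact isCyclic_of_surjective (Subgroup.prodEquiv (Subgroup.zpowers t) ⊤).symm
      (Subgroup.prodEquiv (Subgroup.zpowers t) ⊤).symm.surjective
  let φ : Subgroup.centralizer ({x} : Set G) →* T :=
    { toFun := fun y => ⟨e y, by
        refine Subgroup.mem_prod.mpr ⟨hcen _ ?_, Subgroup.mem_top _⟩
        have h1 : (y : G) * x = x * y := Subgroup.mem_centralizer_singleton_iff.mp y.2
        have h2 := congrArg (fun z => (e z).1) h1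
        simp only [map_mul, Prod.fst_mul] at h2
        exact h2⟩
      map_one' := by ext1; simp
      map_mul' := fun a b => by ext1; simp }
  have hφ : Function.Injective φ := by
    intro a b hab
    have h1 : e (a : G) = e (b : G) := congrArg Subtype.val hab
    exact Subtype.ext (e.injective h1)
  exact isCyclic_of_injective φ hφ

/-- two elements of order `p` in a common cyclic subgroup generate the same subgroup -/
theorem zpowers_eq_of_cyclic {G : Type*} [Group G] [Finite G] (C : Subgroup G) (hC : IsCyclic C)
    (u z : G) (hu : u ∈ C) (hz : z ∈ C) (ho : orderOf u = orderOf z) :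
    Subgroup.zpowers u = Subgroup.zpowers z := by
  have h1 : Subgroup.zpowers (⟨u, hu⟩ : C) = Subgroup.zpowers (⟨z, hz⟩ : C) := by
    apply eq_of_card_eq_of_isCyclic
    rw [Nat.card_zpowers, Nat.card_zpowers, Subgroup.orderOf_mk, Subgroup.orderOf_mk, ho]
  have h2 := congrArg (Subgroup.map C.subtype) h1
  rw [MonoidHom.map_zpowers, MonoidHom.map_zpowers] at h2
  exact h2

theorem forward {G : Type*} [Group G] [Finite G] (hG : Group.IsNilpotent G)
    (hna : ¬ IsMulCommutative G)
    (h : ∀ x : G, x ∉ Subgroup.center G → IsCyclic (Subgroup.centralizer ({x} : Set G))) :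
    ∃ (k m : ℕ), 1 ≤ k ∧ Odd m ∧ Nonempty (G ≃* QuaternionGroup (2 ^ k) × Multiplicative (ZMod m)) := by
  classical
  have hnorm : ∀ (p : ℕ) (_hp : Fact p.Prime) (P : Sylow p G), (P : Subgroup G).Normal :=
    (Group.isNilpotent_of_finite_tfae.out 0 3).mp hG
  obtain ⟨E⟩ : Nonempty ((∀ p : (Nat.card G).primeFactors, ∀ P : Sylow p G, (P : Subgroup G)) ≃* G) :=
    (Group.isNilpotent_of_finite_tfae.out 0 4).mp hG
  -- a nonabelian Sylow subgroup
  obtain ⟨p, hp, P, hP⟩ : ∃ (p : ℕ) (_ : Fact p.Prime) (P : Sylow p G),
      ¬ IsMulCommutative (P : Subgroup G) := by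
    by_contra hcon
    push Not at hcon
    apply hna
    refine ⟨⟨fun a b => ?_⟩⟩
    apply E.symm.injective
    rw [map_mul, map_mul]
    funext q Q
    have : Fact (q : ℕ).Prime := ⟨Nat.prime_of_mem_primeFactors q.2⟩
    have := hcon q this Q
    exact mul_comm' _ _
  have hPn : (P : Subgroup G).Normal := hnorm p hp P
  obtain ⟨x0, y0, hxy⟩ : ∃ x0 y0 : (P : Subgroup G), x0 * y0 ≠ y0 * x0 := by
    by_contra hcon
    push Not at hcon
    exact hP ⟨⟨hcon⟩⟩
  have hx0 : (x0 : G) ∉ Subgroup.center G := by
    intro hc
    apply hxy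
    apply Subtype.ext
    exact ((Subgroup.mem_center_iff.mp hc) y0).symm
  have hC0 := h x0 hx0
  have hPne : (⊤ : Subgroup (P : Subgroup G)) ≠ ⊥ := by
    intro hbot
    apply hxy
    have h1 : ∀ t : (P : Subgroup G), t = 1 := fun t => by
      have : t ∈ (⊤ : Subgroup (P : Subgroup G)) := Subgroup.mem_top t
      rwa [hbot, Subgroup.mem_bot] at this
    rw [h1 x0, h1 y0]
  obtain ⟨z, -, hzc, hzo⟩ := Cfsg.Agent.Lib.Helper3.exists_central_order_p P.isPGroup' ⊤ hPne
  -- every element of order p of P generates ⟨z⟩
  have key : ∀ u : (P : Subgroup G), orderOf u = p → u ∈ Subgroup.zpowers z := by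
    intro u hu
    have hzu : (z : G) * u = u * z := congrArg Subtype.val ((Subgroup.mem_center_iff.mp hzc) u).symm
    have hzx : (z : G) * x0 = x0 * z := congrArg Subtype.val ((Subgroup.mem_center_iff.mp hzc) x0).symm
    have ho : orderOf (u : G) = orderOf (z : G) := by
      rw [Subgroup.orderOf_coe, Subgroup.orderOf_coe, hu, hzo]
    have heq : Subgroup.zpowers (u : G) = Subgroup.zpowers (z : G) := by
      by_cases huc : (u : G) ∈ Subgroup.center G
      · refine zpowers_eq_of_cyclic _ hC0 _ _ ?_ ?_ ho
        · rw [Subgroup.mem_centralizer_singleton_iff]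
          exact ((Subgroup.mem_center_iff.mp huc) x0).symm
        · rw [Subgroup.mem_centralizer_singleton_iff]
          exact hzx
      · refine zpowers_eq_of_cyclic _ (h u huc) _ _ ?_ ?_ ho
        · rw [Subgroup.mem_centralizer_singleton_iff]
        · rw [Subgroup.mem_centralizer_singleton_iff]
          exact hzu
    have h1 : (u : G) ∈ Subgroup.zpowers (z : G) := heq ▸ Subgroup.mem_zpowers _
    obtain ⟨j, hj⟩ := h1
    exact ⟨j, Subtype.ext (by simpa using hj)⟩
  have huniq : ∀ H K : Subgroup (P : Subgroup G), Nat.card H = p → Nat.card K = p → H = K := by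
    have aux : ∀ H : Subgroup (P : Subgroup G), Nat.card H = p → H = Subgroup.zpowers z := by
      intro H hH
      apply Subgroup.eq_of_le_of_card_ge
      · intro t ht
        by_cases ht1 : t = 1
        · rw [ht1]; exact one_mem _
        · apply key
          have h1 : orderOf t ∣ p := by
            have := orderOf_dvd_natCard (⟨t, ht⟩ : H)
            rw [Subgroup.orderOf_mk] at this
            exact this.trans (dvd_of_eq hH)
          rcases (Nat.dvd_prime hp.out).mp h1 with h2 | h2
          · exact absurd (orderOf_eq_one_iff.mp h2) ht1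
          · exact h2
      · rw [Nat.card_zpowers, hzo, hH]
    intro H K hH hK
    rw [aux H hH, aux K hK]
  rcases Cfsg.Agent.S0016.result p P.isPGroup' huniq with hcyc | ⟨hp2, n, ⟨eP⟩⟩
  · exfalso
    apply hxy
    obtain ⟨g, hg⟩ := hcyc.exists_generator
    obtain ⟨i, rfl⟩ := hg x0
    obtain ⟨j, rfl⟩ := hg y0
    exact (Commute.zpow_zpow_self g i j)
  subst hp2
  have hn1 : 1 ≤ n := by
    by_contra hcon
    have hn0 : n = 0 := by omega
    subst hn0
    apply hxy
    apply eP.injective
    rw [map_mul, map_mul]
    have hcyc : IsCyclic (QuaternionGroup (2 ^ 0)) := by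
      rw [pow_zero]; exact QuaternionGroup.quaternionGroup_one_isCyclic
    obtain ⟨g, hg⟩ := hcyc.exists_generator
    obtain ⟨i, hi⟩ := hg (eP x0)
    obtain ⟨j, hj⟩ := hg (eP y0)
    rw [← hi, ← hj]
    exact (Commute.zpow_zpow_self g i j)
  -- the complement
  obtain ⟨H, hH⟩ := Subgroup.exists_right_complement'_of_coprime (N := (P : Subgroup G))
    P.card_coprime_index
  have hHcop : (Nat.card H).Coprime 2 := by
    have h1 : Nat.card H = (P : Subgroup G).index := by
      have h2 := hH.card_mul_card
      have h3 := (P : Subgroup G).card_mul_index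
      have hpos : 0 < Nat.card (P : Subgroup G) := Nat.card_pos
      exact Nat.eq_of_mul_eq_mul_left hpos (h2.trans h3.symm)
    rw [h1]
    exact (Nat.Prime.coprime_iff_not_dvd Nat.prime_two).mpr P.not_dvd_index |>.symm
  have hcomm : ∀ a ∈ (P : Subgroup G), ∀ b ∈ H, Commute a b := by
    intro a ha b hb
    apply Cfsg.Agent.Lib.Helper31.commute_of_coprime_orderOf G
    obtain ⟨j, hj⟩ := (IsPGroup.iff_orderOf.mp P.isPGroup') ⟨a, ha⟩
    rw [Subgroup.orderOf_mk] at hj
    rw [hj]
    apply Nat.Coprime.pow_left
    have h1 : orderOf b ∣ Nat.card H := by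
      have := orderOf_dvd_natCard (⟨b, hb⟩ : H)
      rwa [Subgroup.orderOf_mk] at this
    exact (Nat.Coprime.coprime_dvd_left h1 hHcop).symm
  have hHcyc : IsCyclic H := by
    have hle : H ≤ Subgroup.centralizer ({(x0 : G)} : Set G) := by
      intro b hb
      rw [Subgroup.mem_centralizer_singleton_iff]
      exact (hcomm x0 x0.2 b hb).symm
    exact isCyclic_of_injective (Subgroup.inclusion hle) (Subgroup.inclusion_injective hle)
  let φ : ↥(P : Subgroup G) × ↥H →* G := MonoidHom.noncommCoprod (P : Subgroup G).subtype H.subtype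
    (fun a b => hcomm a a.2 b b.2)
  have hφ : Function.Bijective φ := hH
  refine ⟨n, Nat.card H, hn1, ?_, ⟨(MulEquiv.ofBijective φ hφ).symm.trans
    (MulEquiv.prodCongr eP (zmodCyclicMulEquiv hHcyc).symm)⟩⟩
  exact Nat.coprime_two_right.mp hHcop

/-- Let G be a finite non-abelian nilpotent group. Then the centralizer of every non-central element of G is cyclic if and only if G is isomorphic to the direct product of a generalized quaternion group and a cyclic group of odd order. -/
theorem result {G : Type*} [Group G] [Finite G] (hG : Group.IsNilpotent G)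
    (hna : ¬ IsMulCommutative G) :
    (∀ x : G, x ∉ Subgroup.center G → IsCyclic (Subgroup.centralizer ({x} : Set G))) ↔
      ∃ (k m : ℕ), 1 ≤ k ∧ Odd m ∧ Nonempty (G ≃* QuaternionGroup (2 ^ k) × Multiplicative (ZMod m)) := by
  constructor
  · exact forward hG hna
  · rintro ⟨k, m, -, hm, ⟨e⟩⟩ x hx
    exact backward k m hm e x hx

end Cfsg.Agent.S4370
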