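import Cfsg.Statements.S4376
import Cfsg.Agent.Lib.Helper93.ThData
import Cfsg.Agent.Lib.Helper93.ThAGL
import Cfsg.Agent.Lib.Helper93.ThFano

set_option autoImplicit false
open Cfsg

namespace Cfsg.Agent.S4376

open Cfsg.Agent.Lib.Helper93.Th in
/-- There are finite groups G and H having the same number of elements of each order (the same order type) with G solvable and H not solvable. -/
theorem result :
    ∃ (G : Type) (_ : Group G) (_ : Finite G) (H : Type) (_ : Group H) (_ : Finite H),
      Group.IsSolvable G ∧ ¬ Group.IsSolvable H ∧ ∀ n : ℕ, Nat.card {g : G // orderOf g = n} = Nat.card {h : H // orderOf h = n} := by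
  have hC : RealS fC := exists_AGammaL18
  have hD : RealN fD := exists_L27
  obtain ⟨G, _, _, hGs, hG⟩ := (hC.pow 6).mul (real_prodF dataG okG)
  obtain ⟨H, _, _, hHs, hH⟩ := (hD.pow_succ 5).mul (real_prodF dataH okH)
  exact ⟨G, _, ‹_›, H, _, ‹_›, hGs, hHs,
    same_order_type G H 84 (by norm_num) FG FH hG hH FG0 FH0 FGH⟩

end Cfsg.Agent.S4376
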