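import Cfsg.Statements.S4377
-- import your own Cfsg.Agent.* helpers here

set_option autoImplicit false
open Cfsg

namespace Cfsg.Agent.S4377

theorem card_pow_eq_one {X : Type*} [Group X] [Finite X] {n : ℕ} (hn : n ≠ 0) :
    Nat.card {g : X // g ^ n = 1} = ∑ m ∈ n.divisors, Nat.card {g : X // orderOf g = m} := by
  classical
  have := Fintype.ofFinite X
  have h1 := sum_card_orderOf_eq_card_pow_eq_one (G := X) hn
  rw [Nat.card_eq_fintype_card, Fintype.card_subtype]
  refine Eq.trans ?_ (Eq.trans h1.symm ?_)
  · congr
  · refine Finset.sum_congr rfl fun m _ => ?_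
    rw [Nat.card_eq_fintype_card, Fintype.card_subtype]

theorem card_pow_zero {X : Type*} [Group X] [Finite X] (k : ℕ) :
    Nat.card {g : X // g ^ 0 = 1} = Nat.card {g : X // g ^ (Nat.card X * k) = 1} := by
  apply Nat.card_congr
  refine Equiv.subtypeEquivRight fun g => ?_
  simp [pow_mul]

/-- Two finite groups have the same number of elements of each order if and only if, for every n, they have the same number of elements g with gⁿ = 1. -/
theorem result {G H : Type*} [Group G] [Finite G] [Group H] [Finite H] :
    (∀ n : ℕ, Nat.card {g : G // orderOf g = n} = Nat.card {h : H // orderOf h = n}) ↔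
      ∀ n : ℕ, Nat.card {g : G // g ^ n = 1} = Nat.card {h : H // h ^ n = 1} := by
  constructor
  · intro h n
    have key : ∀ n : ℕ, n ≠ 0 → Nat.card {g : G // g ^ n = 1} = Nat.card {h : H // h ^ n = 1} := by
      intro n hn
      rw [card_pow_eq_one hn, card_pow_eq_one hn]
      exact Finset.sum_congr rfl fun m _ => h m
    rcases Nat.eq_zero_or_pos n with rfl | hn
    · rw [card_pow_zero (Nat.card H), card_pow_zero (X := H) (Nat.card G), mul_comm (Nat.card H)]
      exact key _ (Nat.mul_ne_zero Nat.card_pos.ne' Nat.card_pos.ne')
    · exact key n hn.ne'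
  · intro h n
    induction n using Nat.strong_induction_on with
    | _ n ih =>
      rcases Nat.eq_zero_or_pos n with rfl | hn
      · have h1 : IsEmpty {g : G // orderOf g = 0} := ⟨fun g => (orderOf_pos g.1).ne' g.2⟩
        have h2 : IsEmpty {g : H // orderOf g = 0} := ⟨fun g => (orderOf_pos g.1).ne' g.2⟩
        rw [Nat.card_of_isEmpty, Nat.card_of_isEmpty]
      · have h1 := h n
        rw [card_pow_eq_one hn.ne', card_pow_eq_one hn.ne', ← Nat.cons_self_properDivisors hn.ne',
          Finset.sum_cons, Finset.sum_cons] at h1
        have h2 : ∑ m ∈ n.properDivisors, Nat.card {g : G // orderOf g = m} =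
            ∑ m ∈ n.properDivisors, Nat.card {g : H // orderOf g = m} :=
          Finset.sum_congr rfl fun m hm => ih m (Nat.mem_properDivisors.1 hm).2
        omega

end Cfsg.Agent.S4377
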