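import Cfsg.Statements.S4387
-- import your own Cfsg.Agent.* helpers here

set_option autoImplicit false
open Pointwise
open Cfsg

namespace Cfsg.Agent.S4387

theorem exists_not_mem_conj {G : Type*} [Group G] [Finite G] (M : Subgroup G) (hM : M ≠ ⊤) :
    ∃ x : G, ∀ g : G, g⁻¹ * x * g ∉ M := by
  classical
  by_contra hcon
  push Not at hcon
  have := Fintype.ofFinite G
  have hB := MulAction.sum_card_fixedBy_eq_card_orbits_mul_card_group G (G ⧸ M)
  have hsub := (MulAction.pretransitive_iff_subsingleton_quotient G (G ⧸ M)).1 inferInstance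
  have hone : Fintype.card (Quotient (MulAction.orbitRel G (G ⧸ M))) ≤ 1 :=
    Fintype.card_le_one_iff_subsingleton.2 hsub
  have hge : ∀ g : G, 1 ≤ Fintype.card (MulAction.fixedBy (G ⧸ M) g) := by
    intro x
    obtain ⟨g, hg⟩ := hcon x
    refine Fintype.card_pos_iff.2 ⟨⟨(g : G ⧸ M), ?_⟩⟩
    rw [MulAction.mem_fixedBy, MulAction.Quotient.smul_coe, QuotientGroup.eq]
    have : (x • g)⁻¹ * g = (g⁻¹ * x * g)⁻¹ := by simp [mul_assoc]
    rw [this]
    exact M.inv_mem hg
  have hlt : 1 < Fintype.card (MulAction.fixedBy (G ⧸ M) (1 : G)) := by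
    have h1 : Fintype.card (MulAction.fixedBy (G ⧸ M) (1 : G)) = Fintype.card (G ⧸ M) := by
      apply Fintype.card_congr
      exact (Equiv.subtypeUnivEquiv (fun x => by simp))
    rw [h1, Fintype.one_lt_card_iff_nontrivial]
    by_contra hnt
    rw [not_nontrivial_iff_subsingleton] at hnt
    apply hM
    rw [eq_top_iff]
    intro g _
    have := Subsingleton.elim (g : G ⧸ M) ((1 : G) : G ⧸ M)
    rw [QuotientGroup.eq] at this
    simpa using this
  have hsum : Fintype.card G < ∑ g : G, Fintype.card (MulAction.fixedBy (G ⧸ M) g) := by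
    calc Fintype.card G = ∑ _g : G, 1 := by simp
      _ < _ := Finset.sum_lt_sum (fun g _ => hge g) ⟨1, Finset.mem_univ _, hlt⟩
  rw [hB] at hsum
  have : Fintype.card (Quotient (MulAction.orbitRel G (G ⧸ M))) * Fintype.card G ≤ 1 * Fintype.card G :=
    Nat.mul_le_mul_right _ hone
  omega

/-- Let G be a non-trivial finite group in which any two maximal subgroups are conjugate. Then G is cyclic of prime-power order. -/
theorem result {G : Type*} [Group G] [Finite G] [Nontrivial G]
    (h : ∀ M N : Subgroup G, IsCoatom M → IsCoatom N → ∃ g : G, N = MulAut.conj g • M) :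
    IsCyclic G ∧ IsPrimePow (Nat.card G) := by
  classical
  obtain ⟨M, hM, -⟩ : ∃ M : Subgroup G, IsCoatom M ∧ ⊥ ≤ M :=
    (eq_top_or_exists_le_coatom (⊥ : Subgroup G)).resolve_left bot_ne_top
  have hcyc : IsCyclic G := by
    by_contra hnc
    obtain ⟨x, hx⟩ := exists_not_mem_conj M hM.1
    have hne : Subgroup.zpowers x ≠ ⊤ := by
      intro htop
      exact hnc ⟨x, fun y => (htop ▸ Subgroup.mem_top y : y ∈ Subgroup.zpowers x)⟩
    obtain ⟨N, hN, hxN⟩ := (eq_top_or_exists_le_coatom (Subgroup.zpowers x)).resolve_left hne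
    obtain ⟨g, hg⟩ := h M N hM hN
    have h1 : x ∈ MulAut.conj g • M := hg ▸ hxN (Subgroup.mem_zpowers x)
    rw [Subgroup.mem_pointwise_smul_iff_inv_smul_mem] at h1
    apply hx g
    simpa [MulAut.smul_def, MulAut.conj_inv_apply] using h1
  refine ⟨hcyc, ?_⟩
  obtain ⟨g, hg⟩ := hcyc.exists_generator
  have hcomm : ∀ a b : G, a * b = b * a := by
    intro a b
    obtain ⟨i, rfl⟩ := Subgroup.mem_zpowers_iff.1 (hg a)
    obtain ⟨j, rfl⟩ := Subgroup.mem_zpowers_iff.1 (hg b)
    rw [← zpow_add, ← zpow_add, add_comm]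
  have huniq : ∀ K : Subgroup G, K ≠ ⊤ → K ≤ M := by
    intro K hK
    obtain ⟨N, hN, hKN⟩ := (eq_top_or_exists_le_coatom K).resolve_left hK
    obtain ⟨a, ha⟩ := h M N hM hN
    have : MulAut.conj a • M = M := by
      ext y
      rw [Subgroup.mem_pointwise_smul_iff_inv_smul_mem]
      have : (MulAut.conj a)⁻¹ • y = y := by
        simp [MulAut.smul_def, hcomm a⁻¹ y]
      rw [this]
    rw [this] at ha
    exact ha ▸ hKN
  have hord : orderOf g = Nat.card G := orderOf_eq_card_of_forall_mem_zpowers hg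
  have hpow : ∀ p : ℕ, p.Prime → p ∣ Nat.card G → g ^ p ∈ M := by
    intro p hp hpd
    apply huniq (Subgroup.zpowers (g ^ p)) _ (Subgroup.mem_zpowers _)
    intro htop
    have h1 : orderOf (g ^ p) = Nat.card G := by
      rw [← Nat.card_zpowers, htop]
      exact Nat.card_congr Subgroup.topEquiv.toEquiv
    rw [orderOf_pow, hord, Nat.gcd_eq_right hpd] at h1
    have hpos : 0 < Nat.card G := Nat.card_pos
    have := Nat.div_lt_self hpos hp.one_lt
    omega
  rw [isPrimePow_iff_unique_prime_dvd]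
  have hcard : Nat.card G ≠ 1 := by
    have := Finite.one_lt_card (α := G)
    omega
  obtain ⟨p, hp, hpd⟩ := Nat.exists_prime_and_dvd hcard
  refine ⟨p, ⟨hp, hpd⟩, ?_⟩
  rintro q ⟨hq, hqd⟩
  by_contra hne
  have hcop : Nat.Coprime p q := (Nat.coprime_primes hp hq).2 (fun h => hne h.symm)
  have h1 := hpow p hp hpd
  have h2 := hpow q hq hqd
  have h3 : g ∈ M := by
    have hb := Nat.gcd_eq_gcd_ab p q
    rw [hcop.gcd_eq_one] at hb
    have : g = (g ^ p) ^ (Nat.gcdA p q) * (g ^ q) ^ (Nat.gcdB p q) := by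
      rw [← zpow_natCast g p, ← zpow_natCast g q, ← zpow_mul, ← zpow_mul, ← zpow_add, ← hb]
      simp
    rw [this]
    exact M.mul_mem (M.zpow_mem h1 _) (M.zpow_mem h2 _)
  apply hM.1
  rw [eq_top_iff]
  intro y _
  obtain ⟨i, rfl⟩ := Subgroup.mem_zpowers_iff.1 (hg y)
  exact M.zpow_mem h3 i

end Cfsg.Agent.S4387
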