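import Cfsg.Statements.S4396
import Cfsg.Agent.Lib.Helper38.FF.INT
import Cfsg.Agent.Lib.Helper38.FF.NIL

set_option autoImplicit false
open Cfsg
open scoped Pointwise

namespace Cfsg.Agent.S4396

/-- Let the finite group A act faithfully and linearly on a finite-dimensional vector space V over a field k, and suppose A is a Frobenius group with nilpotent kernel F (every Frobenius kernel is nilpotent) and complement H such that F fixes no nonzero vector. Then V is free as a module for H: there is a subspace W with V the direct sum of the translates hW, h ∈ H. (No assumption on the characteristic of k.) -/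
theorem result {k V A : Type*} [Field k] [AddCommGroup V] [Module k V] [FiniteDimensional k V] [Group A] [Finite A] [DecidableEq A]
    (ρ : Representation k A V) (hρ : Function.Injective ρ)
    (Fk Hc : Subgroup A) [Fk.Normal] (hHc : Cfsg.IsFrobeniusComplement Hc) (hker : Cfsg.frobeniusKernel Hc = (Fk : Set A)) (hnil : Group.IsNilpotent ↥Fk)
    (hCF : ∀ v : V, (∀ f ∈ Fk, ρ f v = v) → v = 0) :
    ∃ W : Submodule k V, DirectSum.IsInternal (fun h : ↥Hc => W.map (ρ (h : A))) := by
  classical
  let _ : Fintype Hc := Fintype.ofFinite _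
  have hfpf : ∀ h ∈ Hc, ∀ f ∈ Fk, h * f * h⁻¹ = f → h = 1 ∨ f = 1 := by
    intro h hh f hf hcomm
    by_cases hf1 : f = 1
    · exact Or.inr hf1
    left
    have hfk : f ∈ Cfsg.frobeniusKernel Hc := by rw [hker]; exact hf
    have hf2 : ∀ g : A, f ∉ MulAut.conj g • Hc := by
      rcases hfk with h1 | h1
      · exact absurd h1 hf1
      · exact h1
    have hfH : f ∉ Hc := by
      intro hc
      apply hf2 1
      rw [map_one, one_smul]
      exact hc
    have hint := hHc.2.2 f hfH
    have hmem : h ∈ Hc ⊓ (MulAut.conj f • Hc) := by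
      refine Subgroup.mem_inf.mpr ⟨hh, ?_⟩
      rw [Subgroup.mem_pointwise_smul_iff_inv_smul_mem]
      have : (MulAut.conj f)⁻¹ • h = h := by
        rw [← map_inv, MulAut.smul_def, MulAut.conj_apply, inv_inv]
        have h3 : h * f = f * h := by
          calc h * f = h * f * h⁻¹ * h := by group
            _ = f * h := by rw [hcomm]
        calc f⁻¹ * h * f = f⁻¹ * (h * f) := by group
          _ = f⁻¹ * (f * h) := by rw [h3]
          _ = h := by group
      rw [this]
      exact hh
    rw [hint] at hmem
    exact Subgroup.mem_bot.mp hmem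
  have hfree := Cfsg.Agent.Lib.Helper38.FF.free_of_nilpotent Fk Hc hnil hfpf ρ hCF
  obtain ⟨W, hW⟩ := Cfsg.Agent.Lib.Helper38.FF.isInternal_of_freeIn (ρ.comp Hc.subtype) hfree
  exact ⟨W, hW⟩

end Cfsg.Agent.S4396
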