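import Cfsg.Statements.S4399
import Cfsg.Agent.Lib.Helper59.TausskyClassify
import Cfsg.Agent.Lib.Helper59.TwoGroupRecog

set_option autoImplicit false
open Cfsg

namespace Cfsg.Agent.S4399

open Cfsg.Agent.Lib.Helper59

/-- Let S be a finite 2-group whose commutator quotient S/[S,S] is a Klein four-group (order 4 and exponent 2). Then S itself has order 4, or S is dihedral of order at least 8, semidihedral of order at least 16 (order 2^(k+4) with an element a of order 2^(k+3) and an involution b with b a b⁻¹ = a^(2^(k+2)−1)), or generalized quaternion of order at least 8. -/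
theorem result {S : Type*} [Group S] [Finite S] (h2 : IsPGroup 2 S) (hab : Nat.card (Abelianization S) = 4)
    (hexp : ∀ x : Abelianization S, x ^ 2 = 1) :
    Nat.card S = 4 ∨
    ((∃ k : ℕ, Nonempty (S ≃* DihedralGroup (2 ^ (k + 2)))) ∨
      (∃ k : ℕ, Nat.card S = 2 ^ (k + 4) ∧ ∃ a b : S, orderOf a = 2 ^ (k + 3) ∧ orderOf b = 2 ∧ b * a * b⁻¹ = a ^ (2 ^ (k + 2) - 1)) ∨
      (∃ k : ℕ, Nonempty (S ≃* QuaternionGroup (2 ^ (k + 1))))) := by
  have hidx : (commutator S).index = 4 := hab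
  by_cases hna : ∃ x y : S, x * y ≠ y * x
  swap
  · push Not at hna
    left
    rw [commutator_eq_bot_of_comm hna, Subgroup.index_bot] at hidx
    exact hidx
  right
  obtain ⟨n, a, b, hn3, hn, ha, hb, hcase⟩ := taussky_classify h2 hidx hna
  obtain ⟨k, rfl⟩ : ∃ k, n = k + 3 := ⟨n - 3, by omega⟩
  rcases hcase with ⟨hbb, hba⟩ | ⟨hbb, hba⟩ | ⟨h4, hbb, hba⟩
  · left
    refine ⟨k, dihedral_recog (2 ^ (k + 2)) (by positivity) a b ha (by rw [← pow_two, hbb]) hba hb ?_⟩
    rw [hn]; ring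
  · right; right
    refine ⟨k, quaternion_recog (2 ^ (k + 1)) (by positivity) a b ?_ (by rw [← pow_two, hbb]; rfl) hba hb ?_⟩
    · rw [ha]
      change 2 ^ (k + 2) = _
      ring
    · rw [hn]; ring
  · right; left
    obtain ⟨j, rfl⟩ : ∃ j, k = j + 1 := ⟨k - 1, by omega⟩
    refine ⟨j, hn, a, b, ha, ?_, hba⟩
    apply orderOf_eq_prime hbb
    rintro rfl
    exact hb (Subgroup.one_mem _)

end Cfsg.Agent.S4399
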