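import Cfsg.Statements.S4400
import Cfsg.Agent.Lib.Helper77.SectRank

set_option autoImplicit false
open Cfsg

namespace Cfsg.Agent.S4400

open Cfsg.Agent.Lib.Helper77 Subgroup

theorem center_map_le_of_normal {S : Type*} [Group S] [Finite S] (h2 : IsPGroup 2 S)
    (P : Subgroup S) (hZP : Nat.card ↥(center ↥P) = 2) (N : Subgroup S) [N.Normal] (hNP : N ≤ P)
    (hN : N ≠ ⊥) : (center ↥P).map P.subtype ≤ N := by
  have : Fact (Nat.Prime 2) := ⟨Nat.prime_two⟩
  have hP2 : IsPGroup 2 P := h2.to_subgroup P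
  have hne : N.subgroupOf P ≠ ⊥ := by
    intro h
    apply hN
    rw [subgroupOf_eq_bot, disjoint_iff, inf_eq_left.2 hNP] at h
    exact h
  have h1 := Cfsg.Agent.Lib.Helper3.normal_inf_center_ne_bot' hP2 (N.subgroupOf P) hne
  have h3 : Nat.card (N.subgroupOf P ⊓ center P : Subgroup P) ∣ 2 := hZP ▸ card_dvd_of_le inf_le_right
  have h4 : N.subgroupOf P ⊓ center P = center P := by
    rcases (Nat.dvd_prime Nat.prime_two).1 h3 with h5 | h5
    · exact absurd (card_eq_one.1 h5) h1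
    · exact eq_of_le_of_card_ge inf_le_right (by rw [h5, hZP])
  rintro _ ⟨z, hz, rfl⟩
  have h5 : z ∈ N.subgroupOf P ⊓ center P := by rw [h4]; exact hz
  exact mem_subgroupOf.1 h5.1

theorem center_map_le_center {S : Type*} [Group S] (P : Subgroup S) [P.Normal]
    (hZP : Nat.card ↥(center ↥P) = 2) : (center ↥P).map P.subtype ≤ center S := by
  have hn : ((center ↥P).map P.subtype).Normal := inferInstance
  have hcard : Nat.card ((center ↥P).map P.subtype) = 2 := by
    rw [card_map_of_injective P.subtype_injective, hZP]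
  intro z hz
  rw [mem_center_iff]
  intro s
  by_cases hz1 : z = 1
  · rw [hz1]; simp
  obtain ⟨w, _, hw⟩ := (Nat.card_eq_two_iff' (1 : (center ↥P).map P.subtype)).1 hcard
  have h1 := hw ⟨z, hz⟩ (fun h => hz1 (congrArg Subtype.val h))
  have h2 := hw ⟨s * z * s⁻¹, hn.conj_mem z hz s⟩ (fun h => hz1 (by
    have h3 : s * z * s⁻¹ = 1 := congrArg Subtype.val h
    have h4 : z = s⁻¹ * (s * z * s⁻¹) * s := by group
    rw [h4, h3]; group))
  have h3 : s * z * s⁻¹ = z := congrArg Subtype.val (h2.trans h1.symm)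
  calc s * z = s * z * s⁻¹ * s := by group
    _ = z * s := by rw [h3]

theorem inf_eq_bot {S : Type*} [Group S] [Finite S] (h2 : IsPGroup 2 S)
    (P Q : Subgroup S) [P.Normal] [Q.Normal]
    (hZP : Nat.card ↥(center ↥P) = 2) (hZQ : Nat.card ↥(center ↥Q) = 2)
    (hne : (center ↥P).map P.subtype ≠ (center ↥Q).map Q.subtype) : P ⊓ Q = ⊥ := by
  by_contra hN
  apply hne
  have h1 := center_map_le_of_normal h2 P hZP (P ⊓ Q) inf_le_left hN
  have h3 := center_map_le_center P hZP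
  have hle : (center ↥P).map P.subtype ≤ (center ↥Q).map Q.subtype := by
    intro z hz
    rw [mem_map_center_iff]
    exact ⟨(h1 hz).2, fun y _ => (mem_center_iff.1 (h3 hz)) y⟩
  apply eq_of_le_of_card_ge hle
  rw [card_map_of_injective P.subtype_injective, card_map_of_injective Q.subtype_injective, hZP, hZQ]

/-- strictness of the chains -/
theorem sup_lt_sup_left' {S : Type*} [Group S] (P Q : Subgroup S) [Q.Normal] (hPQ : P ⊓ Q = ⊥)
    {A A' B : Subgroup S} (hA : A < A') (hA' : A' ≤ P) (hB : B ≤ Q) : A ⊔ B < A' ⊔ B := by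
  refine lt_of_le_of_ne (sup_le_sup_right hA.le B) ?_
  intro h
  obtain ⟨x, hx, hxA⟩ := SetLike.exists_of_lt hA
  have h1 : x ∈ A ⊔ Q := (sup_le_sup_left hB A) (h ▸ mem_sup_left hx)
  have h2 : x ∈ ((A ⊔ Q : Subgroup S) : Set S) := h1
  rw [mul_normal] at h2
  obtain ⟨a, ha, q, hq, rfl⟩ := Set.mem_mul.1 h2
  have h3 : q ∈ P ⊓ Q := by
    refine mem_inf.2 ⟨?_, hq⟩
    have : q = a⁻¹ * (a * q) := by group
    rw [this]
    exact mul_mem (inv_mem (hA' (hA.le ha))) (hA' hx)
  rw [hPQ, mem_bot] at h3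
  apply hxA
  rw [h3, mul_one]; exact ha

theorem sup_lt_sup_right' {S : Type*} [Group S] (P Q : Subgroup S) [P.Normal] (hPQ : P ⊓ Q = ⊥)
    {B B' : Subgroup S} (hB : B < B') (hB' : B' ≤ Q) : P ⊔ B < P ⊔ B' := by
  refine lt_of_le_of_ne (sup_le_sup_left hB.le P) ?_
  intro h
  obtain ⟨x, hx, hxB⟩ := SetLike.exists_of_lt hB
  have h2 : x ∈ ((P ⊔ B : Subgroup S) : Set S) := h ▸ mem_sup_right hx
  rw [normal_mul] at h2
  obtain ⟨a, ha, q, hq, rfl⟩ := Set.mem_mul.1 h2
  have h3 : a ∈ P ⊓ Q := by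
    refine mem_inf.2 ⟨ha, ?_⟩
    have : a = (a * q) * q⁻¹ := by group
    rw [this]
    exact mul_mem (hB' hx) (inv_mem (hB' (hB.le hq)))
  rw [hPQ, mem_bot] at h3
  apply hxB
  rw [h3, one_mul]; exact hq

theorem exists_chain {S : Type*} [Group S] [Finite S] (P : Subgroup S) (hP : ¬ IsMulCommutative ↥P) :
    ∃ A : Subgroup S, (frattini P).map P.subtype < A ∧ A < P := by
  obtain ⟨A, h1, h2⟩ := exists_between_frattini hP
  refine ⟨A.map P.subtype, map_subtype_lt_map_subtype.2 h1, ?_⟩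
  have := map_subtype_lt_map_subtype.2 h2
  rwa [← MonoidHom.range_eq_map, range_subtype] at this

theorem sq_mem_frattini_map {S : Type*} [Group S] [Finite S] (h2 : IsPGroup 2 S) (P : Subgroup S)
    (x : S) (hx : x ∈ P) : x ^ 2 ∈ (frattini P).map P.subtype := by
  have : Fact (Nat.Prime 2) := ⟨Nat.prime_two⟩
  exact ⟨⟨x, hx⟩ ^ 2, Cfsg.Agent.Lib.Helper3.pow_p_mem_frattini (h2.to_subgroup P) ⟨x, hx⟩, rfl⟩

theorem exists_sq_mem {S : Type*} [Group S] (h2 : IsPGroup 2 S) (C X : Subgroup S) (h : ¬ C ≤ X) :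
    ∃ c ∈ C, c ∉ X ∧ c ^ 2 ∈ X := by
  classical
  obtain ⟨c₀, hc₀, hc₀X⟩ := SetLike.not_le_iff_exists.1 h
  obtain ⟨n, hn⟩ := h2 c₀
  have hex : ∃ n, c₀ ^ 2 ^ n ∈ X := ⟨n, hn ▸ one_mem X⟩
  have hpos : Nat.find hex ≠ 0 := by
    intro h0
    have := Nat.find_spec hex
    rw [h0] at this
    simp at this
    exact hc₀X this
  obtain ⟨m, hm⟩ := Nat.exists_eq_succ_of_ne_zero hpos
  refine ⟨c₀ ^ 2 ^ m, pow_mem hc₀ _, Nat.find_min hex (by omega), ?_⟩
  have := Nat.find_spec hex
  rw [hm, pow_succ, pow_mul] at this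
  exact this

/-- Let S be a finite 2-group of sectional 2-rank at most 4, and let P and Q be normal non-abelian subgroups of S whose centres have order 2 and are different. Then P and Q commute elementwise and intersect trivially, and PQ contains its own centralizer in S. -/
theorem result {S : Type*} [Group S] [Finite S] (h2 : IsPGroup 2 S) (hr : Cfsg.SectionalPRankLE 2 4 S)
    (P Q : Subgroup S) [P.Normal] [Q.Normal] (hP : ¬ IsMulCommutative ↥P) (hQ : ¬ IsMulCommutative ↥Q)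
    (hZP : Nat.card ↥(Subgroup.center ↥P) = 2) (hZQ : Nat.card ↥(Subgroup.center ↥Q) = 2)
    (hne : (Subgroup.center ↥P).map P.subtype ≠ (Subgroup.center ↥Q).map Q.subtype) :
    ⁅P, Q⁆ = ⊥ ∧ P ⊓ Q = ⊥ ∧ Subgroup.centralizer ((P ⊔ Q : Subgroup S) : Set S) ≤ P ⊔ Q := by
  have : Fact (Nat.Prime 2) := ⟨Nat.prime_two⟩
  have hPQ : P ⊓ Q = ⊥ := inf_eq_bot h2 P Q hZP hZQ hne
  have hcomm : ⁅P, Q⁆ = ⊥ := by
    rw [eq_bot_iff, ← hPQ]; exact commutator_le_inf P Q
  refine ⟨hcomm, hPQ, ?_⟩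
  have hxy : ∀ x ∈ P, ∀ y ∈ Q, x * y = y * x := by
    intro x hx y hy
    have := (commutator_eq_bot_iff_le_centralizer.1 hcomm) hx
    exact ((mem_centralizer_iff.1 this) y hy).symm
  by_contra hcon
  obtain ⟨c, hcC, hcX, hc2⟩ := exists_sq_mem h2 _ _ hcon
  have hcx : ∀ x ∈ P ⊔ Q, c * x = x * c := fun x hx => ((mem_centralizer_iff.1 hcC) x hx).symm
  obtain ⟨A, hA0, hA1⟩ := exists_chain P hP
  obtain ⟨B, hB0, hB1⟩ := exists_chain Q hQ
  have hΦP : (frattini P).map P.subtype ≤ P := (hA0.trans hA1).le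
  have hΦQ : (frattini Q).map Q.subtype ≤ Q := (hB0.trans hB1).le
  -- the chain
  have k1 : (frattini P).map P.subtype ⊔ (frattini Q).map Q.subtype < A ⊔ (frattini Q).map Q.subtype :=
    sup_lt_sup_left' P Q hPQ hA0 hA1.le hΦQ
  have k2 : A ⊔ (frattini Q).map Q.subtype < P ⊔ (frattini Q).map Q.subtype :=
    sup_lt_sup_left' P Q hPQ hA1 le_rfl hΦQ
  have k3 : P ⊔ (frattini Q).map Q.subtype < P ⊔ B := sup_lt_sup_right' P Q hPQ hB0 hB1.le
  have k4 : P ⊔ B < P ⊔ Q := sup_lt_sup_right' P Q hPQ hB1 le_rfl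
  have k5 : P ⊔ Q < P ⊔ Q ⊔ zpowers c := by
    refine lt_of_le_of_ne le_sup_left ?_
    intro h
    exact hcX (h ▸ mem_sup_right (mem_zpowers c))
  have c1 := two_mul_card_le_of_lt k1
  have c2 := two_mul_card_le_of_lt k2
  have c3 := two_mul_card_le_of_lt k3
  have c4 := two_mul_card_le_of_lt k4
  have c5 := two_mul_card_le_of_lt k5
  -- c ^ 2 lies in Φ(P)Φ(Q)
  have hc2' : c ^ 2 ∈ (frattini P).map P.subtype ⊔ (frattini Q).map Q.subtype := by
    have h3 : c ^ 2 ∈ ((P ⊔ Q : Subgroup S) : Set S) := hc2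
    rw [mul_normal] at h3
    obtain ⟨a, ha, b, hb, hab⟩ := Set.mem_mul.1 h3
    have hc2x : ∀ x ∈ P ⊔ Q, c ^ 2 * x = x * c ^ 2 := by
      intro x hx
      rw [pow_two, mul_assoc, hcx x hx, ← mul_assoc, hcx x hx, mul_assoc]
    have haZ : a ∈ (center P).map P.subtype := by
      rw [mem_map_center_iff]
      refine ⟨ha, fun y hy => ?_⟩
      have h4 := hc2x y (mem_sup_left hy)
      rw [← hab] at h4
      -- a b y = y a b, b y = y b
      have h5 : a * y * b = y * a * b := by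
        calc a * y * b = a * (y * b) := by group
          _ = a * (b * y) := by rw [hxy y hy b hb]
          _ = a * b * y := by group
          _ = y * (a * b) := h4
          _ = y * a * b := by group
      exact (mul_right_cancel h5).symm
    have hbZ : b ∈ (center Q).map Q.subtype := by
      rw [mem_map_center_iff]
      refine ⟨hb, fun y hy => ?_⟩
      have h4 := hc2x y (mem_sup_right hy)
      rw [← hab] at h4
      have h5 : a * (b * y) = a * (y * b) := by
        calc a * (b * y) = a * b * y := by group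
          _ = y * (a * b) := h4
          _ = (y * a) * b := by group
          _ = (a * y) * b := by rw [hxy a ha y hy]
          _ = a * (y * b) := by group
      exact (mul_left_cancel h5).symm
    rw [← hab]
    refine mul_mem (mem_sup_left ?_) (mem_sup_right ?_)
    · exact (map_mono (center_le_frattini (h2.to_subgroup P) hP hZP)) haZ
    · exact (map_mono (center_le_frattini (h2.to_subgroup Q) hQ hZQ)) hbZ
  -- squares
  have hsq : ∀ h ∈ P ⊔ Q ⊔ zpowers c, h ^ 2 ∈ (frattini P).map P.subtype ⊔ (frattini Q).map Q.subtype := by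
    intro h hh
    have h3 : h ∈ ((P ⊔ Q ⊔ zpowers c : Subgroup S) : Set S) := hh
    rw [normal_mul] at h3
    obtain ⟨w, hw, d, hd, rfl⟩ := Set.mem_mul.1 h3
    have hw' : w ∈ ((P ⊔ Q : Subgroup S) : Set S) := hw
    rw [mul_normal] at hw'
    obtain ⟨x, hx, y, hy, rfl⟩ := Set.mem_mul.1 hw'
    obtain ⟨k, rfl⟩ := mem_zpowers_iff.1 hd
    have hck : ∀ z ∈ P ⊔ Q, c ^ k * z = z * c ^ k := by
      intro z hz
      exact ((Commute.zpow_left (show Commute c z from hcx z hz) k)).eq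
    have e : (x * y * c ^ k) ^ 2 = x ^ 2 * y ^ 2 * (c ^ 2) ^ k := by
      have e1 : (c ^ 2) ^ k = c ^ k * c ^ k := by
        rw [← zpow_natCast c 2, ← zpow_mul, ← zpow_add]; congr 1; push_cast; ring
      rw [e1, pow_two, pow_two, pow_two]
      calc x * y * c ^ k * (x * y * c ^ k) = x * y * (c ^ k * (x * y)) * c ^ k := by group
        _ = x * y * ((x * y) * c ^ k) * c ^ k := by rw [hck _ hw]
        _ = x * (y * x) * y * c ^ k * c ^ k := by group
        _ = x * (x * y) * y * c ^ k * c ^ k := by rw [hxy x hx y hy]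
        _ = x * x * (y * y) * (c ^ k * c ^ k) := by group
    rw [e]
    exact mul_mem (mul_mem (mem_sup_left (sq_mem_frattini_map h2 P x hx))
      (mem_sup_right (sq_mem_frattini_map h2 Q y hy))) (zpow_mem hc2' k)
  have hle : (frattini P).map P.subtype ⊔ (frattini Q).map Q.subtype ≤ P ⊔ Q ⊔ zpowers c :=
    (k1.trans (k2.trans (k3.trans (k4.trans k5)))).le
  have hfin := card_le_of_sectionalRank hr _ _ hle hsq
  have hpos : 0 < Nat.card ((frattini P).map P.subtype ⊔ (frattini Q).map Q.subtype : Subgroup S) := Nat.card_pos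
  omega

end Cfsg.Agent.S4400
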