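import Cfsg.Statements.S4401
import Cfsg.Agent.Lib.Helper77.SectRank2
import Cfsg.Agent.Lib.Helper77.Commuting
import Cfsg.Agent.Lib.Helper77.Frobenius
import Cfsg.Agent.S4400

set_option autoImplicit false
open Cfsg

namespace Cfsg.Agent.S4401

open Cfsg.Agent.Lib.Helper77 Subgroup


theorem center_subgroupOf_map {S : Type*} [Group S] (T P : Subgroup S) (hPT : P ≤ T) :
    ((center ↥(P.subgroupOf T)).map (P.subgroupOf T).subtype).map T.subtype = (center ↥P).map P.subtype := by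
  ext g
  rw [mem_map_center_iff]
  constructor
  · rintro ⟨g', hg', rfl⟩
    rw [SetLike.mem_coe, mem_map_center_iff] at hg'
    refine ⟨mem_subgroupOf.1 hg'.1, fun y hy => ?_⟩
    exact congrArg Subtype.val (hg'.2 ⟨y, hPT hy⟩ (mem_subgroupOf.2 hy))
  · rintro ⟨hg, h⟩
    refine ⟨⟨g, hPT hg⟩, ?_, rfl⟩
    rw [SetLike.mem_coe, mem_map_center_iff]
    exact ⟨mem_subgroupOf.2 hg, fun y hy => Subtype.ext (h y (mem_subgroupOf.1 hy))⟩

theorem card_center_subgroupOf {S : Type*} [Group S] (T P : Subgroup S) (hPT : P ≤ T) :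
    Nat.card (center ↥(P.subgroupOf T)) = Nat.card (center ↥P) := by
  rw [← card_map_of_injective (P.subgroupOf T).subtype_injective, ← card_map_of_injective T.subtype_injective,
    center_subgroupOf_map T P hPT, card_map_of_injective P.subtype_injective]

theorem not_comm_subgroupOf {S : Type*} [Group S] (T P : Subgroup S) (hPT : P ≤ T)
    (hP : ¬ IsMulCommutative ↥P) : ¬ IsMulCommutative ↥(P.subgroupOf T) := by
  intro h
  apply hP
  refine ⟨⟨fun a b => ?_⟩⟩
  have := h.is_comm.comm ⟨⟨a, hPT a.2⟩, mem_subgroupOf.2 a.2⟩ ⟨⟨b, hPT b.2⟩, mem_subgroupOf.2 b.2⟩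
  have h3 := congrArg (fun w : ↥(P.subgroupOf T) => ((w : T) : S)) this
  exact Subtype.ext h3

/-- relative form of `S4400` -/
theorem rel4400 {S : Type*} [Group S] [Finite S] (h2 : IsPGroup 2 S) (hr : Cfsg.SectionalPRankLE 2 4 S)
    (T P Q : Subgroup S) (hPT : P ≤ T) (hQT : Q ≤ T)
    (hPn : ∀ s ∈ T, ∀ a ∈ P, s * a * s⁻¹ ∈ P) (hQn : ∀ s ∈ T, ∀ a ∈ Q, s * a * s⁻¹ ∈ Q)
    (hP : ¬ IsMulCommutative ↥P) (hQ : ¬ IsMulCommutative ↥Q)
    (hZP : Nat.card ↥(center ↥P) = 2) (hZQ : Nat.card ↥(center ↥Q) = 2)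
    (hne : (center ↥P).map P.subtype ≠ (center ↥Q).map Q.subtype) :
    (∀ a ∈ P, ∀ b ∈ Q, a * b = b * a) ∧ P ⊓ Q = ⊥ ∧
      ∀ c ∈ T, (∀ a ∈ P, c * a = a * c) → (∀ b ∈ Q, c * b = b * c) → c ∈ P ⊔ Q := by
  have nP : (P.subgroupOf T).Normal := ⟨fun a ha s => mem_subgroupOf.2 (hPn s s.2 a (mem_subgroupOf.1 ha))⟩
  have nQ : (Q.subgroupOf T).Normal := ⟨fun a ha s => mem_subgroupOf.2 (hQn s s.2 a (mem_subgroupOf.1 ha))⟩
  obtain ⟨r1, r2, r3⟩ := Cfsg.Agent.S4400.result (h2.to_subgroup T) (sectionalPRankLE_subgroup hr T)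
    (P.subgroupOf T) (Q.subgroupOf T) (not_comm_subgroupOf T P hPT hP) (not_comm_subgroupOf T Q hQT hQ)
    (by rw [card_center_subgroupOf T P hPT, hZP]) (by rw [card_center_subgroupOf T Q hQT, hZQ])
    (fun h => hne (by rw [← center_subgroupOf_map T P hPT, ← center_subgroupOf_map T Q hQT, h]))
  refine ⟨?_, ?_, ?_⟩
  · intro a ha b hb
    have h3 := (commutator_eq_bot_iff_le_centralizer.1 r1) (show (⟨a, hPT ha⟩ : T) ∈ P.subgroupOf T from mem_subgroupOf.2 ha)
    have h4 := (mem_centralizer_iff.1 h3) ⟨b, hQT hb⟩ (mem_subgroupOf.2 hb)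
    exact (congrArg Subtype.val h4).symm
  · rw [eq_bot_iff]
    intro g hg
    have h3 : (⟨g, hPT hg.1⟩ : T) ∈ P.subgroupOf T ⊓ Q.subgroupOf T :=
      mem_inf.2 ⟨mem_subgroupOf.2 hg.1, mem_subgroupOf.2 hg.2⟩
    rw [r2, mem_bot] at h3
    exact mem_bot.2 (congrArg Subtype.val h3)
  · intro c hc hcP hcQ
    have h3 : P.subgroupOf T ⊔ Q.subgroupOf T ≤ centralizer ({(⟨c, hc⟩ : T)} : Set T) := by
      refine sup_le ?_ ?_
      · intro a ha
        rw [mem_centralizer_singleton_iff]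
        exact Subtype.ext (hcP a (mem_subgroupOf.1 ha)).symm
      · intro a ha
        rw [mem_centralizer_singleton_iff]
        exact Subtype.ext (hcQ a (mem_subgroupOf.1 ha)).symm
    have h4 : (⟨c, hc⟩ : T) ∈ centralizer ((P.subgroupOf T ⊔ Q.subgroupOf T : Subgroup T) : Set T) := by
      rw [mem_centralizer_iff]
      intro g hg
      exact mem_centralizer_singleton_iff.1 (h3 hg)
    have h5 := r3 h4
    have h6 : c ∈ (P.subgroupOf T ⊔ Q.subgroupOf T).map T.subtype := ⟨_, h5, rfl⟩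
    rwa [Subgroup.map_sup, subgroupOf_map_subtype, subgroupOf_map_subtype, inf_eq_left.2 hPT, inf_eq_left.2 hQT] at h6



theorem rank_two {S : Type*} [Group S] [Finite S] (hr : Cfsg.SectionalPRankLE 2 4 S) (P : Subgroup S) (x : S)
    (hcomm : ∀ a ∈ P, ∀ b ∈ P.map (MulAut.conj x).toMonoidHom, a * b = b * a)
    (hinf : P ⊓ P.map (MulAut.conj x).toMonoidHom = ⊥) : Cfsg.SectionalPRankLE 2 2 ↥P := by
  intro H N hN A _ hA2
  let ι : H →* S := P.subtype.comp H.subtype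
  have hι : Function.Injective ι := P.subtype_injective.comp H.subtype_injective
  let κ : S →* S := (MulAut.conj x).toMonoidHom
  have hκ : Function.Injective κ := (MulAut.conj x).injective
  obtain ⟨A₂, hA₂⟩ : ∃ A₂ : Subgroup S, A₂ = (A.comap (QuotientGroup.mk' N)).map ι := ⟨_, rfl⟩
  obtain ⟨N₂, hN₂⟩ : ∃ N₂ : Subgroup S, N₂ = N.map ι := ⟨_, rfl⟩
  have hA₂P : A₂ ≤ P := by
    rw [hA₂]
    rintro _ ⟨a, _, rfl⟩
    exact (a : P).2
  have hNA : N₂ ≤ A₂ := by
    rw [hA₂, hN₂]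
    apply map_mono
    intro n hn
    rw [mem_comap]
    have : QuotientGroup.mk' N n = 1 := (QuotientGroup.eq_one_iff n).2 hn
    rw [this]; exact one_mem A
  have hsq : ∀ g ∈ A₂, g ^ 2 ∈ N₂ := by
    rw [hA₂, hN₂]
    rintro _ ⟨a, ha, rfl⟩
    refine ⟨a ^ 2, ?_, map_pow ι a 2⟩
    have h1 := hA2 _ (mem_comap.1 ha)
    rw [← map_pow] at h1
    exact (QuotientGroup.eq_one_iff _).1 h1
  have cA : Nat.card A₂ = Nat.card A * Nat.card N := by
    rw [hA₂, card_map_of_injective hι, card_comap_mk'']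
  have cN : Nat.card N₂ = Nat.card N := by rw [hN₂, card_map_of_injective hι]
  have hc1 : ∀ a ∈ A₂, ∀ b ∈ A₂.map κ, a * b = b * a :=
    fun a ha b hb => hcomm a (hA₂P ha) b (map_mono hA₂P hb)
  have hc2 : ∀ a ∈ N₂, ∀ b ∈ N₂.map κ, a * b = b * a :=
    fun a ha b hb => hc1 a (hNA ha) b (map_mono hNA hb)
  have hi1 : A₂ ⊓ A₂.map κ = ⊥ := by
    rw [eq_bot_iff, ← hinf]; exact inf_le_inf hA₂P (map_mono hA₂P)
  have hi2 : N₂ ⊓ N₂.map κ = ⊥ := by
    rw [eq_bot_iff, ← hi1]; exact inf_le_inf hNA (map_mono hNA)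
  have k1 := card_sup_of_commute hc1 hi1
  have k2 := card_sup_of_commute hc2 hi2
  rw [card_map_of_injective hκ] at k1 k2
  have hsq' : ∀ g ∈ A₂ ⊔ A₂.map κ, g ^ 2 ∈ N₂ ⊔ N₂.map κ := by
    intro g hg
    obtain ⟨a, ha, b, hb, rfl⟩ := mem_sup_of_commute hc1 hg
    have e : (a * b) ^ 2 = a ^ 2 * b ^ 2 := by
      rw [pow_two, pow_two, pow_two]
      calc a * b * (a * b) = a * (b * a) * b := by group
        _ = a * (a * b) * b := by rw [hc1 a ha b hb]
        _ = a * a * (b * b) := by group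
    rw [e]
    refine mul_mem (mem_sup_left (hsq a ha)) (mem_sup_right ?_)
    obtain ⟨c, hc, rfl⟩ := hb
    exact ⟨c ^ 2, hsq c hc, map_pow κ c 2⟩
  have key := card_le_of_sectionalRank hr _ _ (sup_le_sup hNA (map_mono hNA)) hsq'
  rw [k1, k2, cA, cN] at key
  have hpos : 0 < Nat.card N := Nat.card_pos
  by_contra hcon
  push Not at hcon
  have h5 : 5 ≤ Nat.card A := by
    have : (2:ℕ) ^ 2 = 4 := by norm_num
    omega
  have h6 : 25 * (Nat.card N * Nat.card N) ≤ Nat.card A * Nat.card N * (Nat.card A * Nat.card N) := by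
    calc 25 * (Nat.card N * Nat.card N) = (5 * Nat.card N) * (5 * Nat.card N) := by ring
      _ ≤ (Nat.card A * Nat.card N) * (Nat.card A * Nat.card N) :=
        Nat.mul_le_mul (Nat.mul_le_mul_right _ h5) (Nat.mul_le_mul_right _ h5)
  have h7 : 0 < Nat.card N * Nat.card N := Nat.mul_pos hpos hpos
  have h8 : (2:ℕ) ^ 4 = 16 := by norm_num
  rw [h8] at key
  omega



theorem conj_center_map {S : Type*} [Group S] (P : Subgroup S) (x : S) :
    (center ↥(P.map (MulAut.conj x).toMonoidHom)).map (P.map (MulAut.conj x).toMonoidHom).subtype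
      = ((center ↥P).map P.subtype).map (MulAut.conj x).toMonoidHom := by
  ext g
  rw [mem_map_center_iff]
  constructor
  · rintro ⟨⟨a, ha, rfl⟩, h⟩
    refine ⟨a, ?_, rfl⟩
    rw [SetLike.mem_coe, mem_map_center_iff]
    refine ⟨ha, fun y hy => ?_⟩
    have h1 := h _ ⟨y, hy, rfl⟩
    rw [← map_mul, ← map_mul] at h1
    exact (MulAut.conj x).injective h1
  · rintro ⟨a, ha, rfl⟩
    rw [SetLike.mem_coe, mem_map_center_iff] at ha
    refine ⟨⟨a, ha.1, rfl⟩, ?_⟩
    rintro _ ⟨y, hy, rfl⟩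
    rw [← map_mul, ← map_mul, ha.2 y hy]

theorem not_comm_map {S : Type*} [Group S] (P : Subgroup S) (x : S) (hP : ¬ IsMulCommutative ↥P) :
    ¬ IsMulCommutative ↥(P.map (MulAut.conj x).toMonoidHom) := by
  intro h
  apply hP
  refine ⟨⟨fun a b => ?_⟩⟩
  have h1 := h.is_comm.comm ⟨_, a, a.2, rfl⟩ ⟨_, b, b.2, rfl⟩
  have h2 : (MulAut.conj x).toMonoidHom a * (MulAut.conj x).toMonoidHom b =
      (MulAut.conj x).toMonoidHom b * (MulAut.conj x).toMonoidHom a := congrArg Subtype.val h1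
  rw [← map_mul, ← map_mul] at h2
  exact Subtype.ext ((MulAut.conj x).injective h2)

theorem K_eq_iff {S : Type*} [Group S] (g a : S) : MulAut.conj g a = a ↔ g * a = a * g := by
  rw [MulAut.conj_apply, mul_inv_eq_iff_eq_mul]

theorem K_mul {S : Type*} [Group S] (g h a : S) : MulAut.conj (g * h) a = MulAut.conj g (MulAut.conj h a) := by
  rw [map_mul, MulAut.mul_apply]

theorem K_inv_of {S : Type*} [Group S] {g a b : S} (h : MulAut.conj g a = b) : MulAut.conj g⁻¹ b = a := by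
  rw [← h, ← K_mul]; simp

theorem index_core {S : Type*} [Group S] [Finite S] (h2 : IsPGroup 2 S) (P Q S₀ : Subgroup S) (z z' x : S)
    (hP : ¬ IsMulCommutative ↥P) (hz1 : z ≠ 1) (hzz : z * z = 1) (hzP : z ∈ P)
    (hS₀ : ∀ s, s ∈ S₀ ↔ s * z = z * s) (hPS₀ : P ≤ S₀) (hQS₀ : Q ≤ S₀)
    (hPn : ∀ s ∈ S₀, ∀ a ∈ P, MulAut.conj s a ∈ P) (hQn : ∀ s ∈ S₀, ∀ b ∈ Q, MulAut.conj s b ∈ Q)
    (hxN : ∀ s, s ∈ S₀ ↔ MulAut.conj x s ∈ S₀) (hxS₀ : x ∉ S₀) (hx2 : x * x ∈ S₀)
    (hz' : MulAut.conj x z = z') (hQ : ∀ g, g ∈ Q ↔ ∃ a ∈ P, MulAut.conj x a = g)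
    (hinf : P ⊓ Q = ⊥)
    (hV : ∀ c ∈ S₀, (∀ a ∈ P, c * a = a * c) → (∀ b ∈ Q, c * b = b * c) →
      c = 1 ∨ c = z ∨ c = z' ∨ c = z * z') : S₀.index = 2 := by
  have hz'Q : z' ∈ Q := (hQ z').2 ⟨z, hzP, hz'⟩
  have hz'S₀ : z' ∈ S₀ := hQS₀ hz'Q
  have hzz'c : z' * z = z * z' := (hS₀ z').1 hz'S₀
  have hz'ne : z' ≠ z := fun h => hxS₀ ((hS₀ x).2 ((K_eq_iff x z).1 (hz'.trans h)))
  have hz'1 : z' ≠ 1 := by
    intro h
    rw [h] at hz'
    exact hz1 ((map_eq_one_iff _ (MulAut.conj x).injective).1 hz')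
  have hz'z' : z' * z' = 1 := by rw [← hz', ← map_mul, hzz, map_one]
  have hzinv : z⁻¹ = z := inv_eq_of_mul_eq_one_left hzz
  have hz'inv : z'⁻¹ = z' := inv_eq_of_mul_eq_one_left hz'z'
  have hKs_z : ∀ s ∈ S₀, MulAut.conj s z = z := fun s hs => (K_eq_iff s z).2 ((hS₀ s).1 hs)
  have hxN' : ∀ s ∈ S₀, x⁻¹ * s * x ∈ S₀ := by
    intro s hs
    rw [hxN]
    simpa [MulAut.conj_apply, mul_assoc] using hs
  have hKs_z' : ∀ s ∈ S₀, MulAut.conj s z' = z' := by
    intro s hs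
    have e : s * x = x * (x⁻¹ * s * x) := by group
    rw [← hz', ← K_mul, e, K_mul, hKs_z _ (hxN' s hs)]
  have hKx_z' : MulAut.conj x z' = z := by
    rw [← hz', ← K_mul]; exact hKs_z _ hx2
  have hKxi_z : MulAut.conj x⁻¹ z = z' := K_inv_of hKx_z'
  have hKxi_z' : MulAut.conj x⁻¹ z' = z := K_inv_of hz'
  let N₁ : Subgroup S :=
    { carrier := {n | n ∈ S₀ ∨ n * x ∈ S₀}
      mul_mem' := by
        rintro n m (hn | hn) (hm | hm)
        · exact Or.inl (mul_mem hn hm)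
        · right
          have e : n * m * x = n * (m * x) := by group
          rw [e]; exact mul_mem hn hm
        · right
          have e : n * m * x = (n * x) * (x⁻¹ * m * x) := by group
          rw [e]; exact mul_mem hn (hxN' m hm)
        · left
          have e : n * m = (n * x) * (x⁻¹ * (m * x) * x) * (x * x)⁻¹ := by group
          rw [e]; exact mul_mem (mul_mem hn (hxN' _ hm)) (inv_mem hx2)
      one_mem' := Or.inl (one_mem _)
      inv_mem' := by
        rintro n (hn | hn)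
        · exact Or.inl (inv_mem hn)
        · right
          have e : n⁻¹ * x = MulAut.conj x ((n * x)⁻¹) * (x * x) := by
            rw [MulAut.conj_apply]; group
          rw [e]; exact mul_mem ((hxN _).1 (inv_mem hn)) hx2 }
  have hS₀N₁ : S₀ ≤ N₁ := fun s hs => Or.inl hs
  have hxN₁ : x ∈ N₁ := Or.inr hx2
  have hact : ∀ n ∈ N₁, (MulAut.conj n z = z ∧ MulAut.conj n z' = z') ∨
      (MulAut.conj n z = z' ∧ MulAut.conj n z' = z) := by
    rintro n (hn | hn)
    · exact Or.inl ⟨hKs_z n hn, hKs_z' n hn⟩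
    · right
      constructor
      · calc MulAut.conj n z = MulAut.conj (n * x * x⁻¹) z := by rw [mul_inv_cancel_right]
          _ = z' := by rw [K_mul, hKxi_z, hKs_z' _ hn]
      · calc MulAut.conj n z' = MulAut.conj (n * x * x⁻¹) z' := by rw [mul_inv_cancel_right]
          _ = z := by rw [K_mul, hKxi_z', hKs_z _ hn]
  have ht : ∀ n ∈ N₁, MulAut.conj n (z * z') = z * z' := by
    intro n hn
    rw [map_mul]
    rcases hact n hn with ⟨h1, h3⟩ | ⟨h1, h3⟩
    · rw [h1, h3]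
    · rw [h1, h3, hzz'c]
  by_cases hN₁ : N₁ = ⊤
  · rw [index_eq_two_iff_exists_notMem_and]
    refine ⟨x, hxS₀, fun b => ?_⟩
    have : b ∈ N₁ := hN₁ ▸ mem_top b
    exact this.symm
  exfalso
  have : Fact (Nat.Prime 2) := ⟨Nat.prime_two⟩
  have : Group.IsNilpotent S := h2.isNilpotent
  have hnc : NormalizerCondition S := Group.normalizerCondition_of_isNilpotent
  obtain ⟨y, hyN, hyN₁⟩ := SetLike.exists_of_lt (hnc N₁ (lt_top_iff_ne_top.2 hN₁))
  have hy : ∀ n, n ∈ N₁ ↔ MulAut.conj y n ∈ N₁ := mem_normalizer_iff.1 hyN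
  have hy' : ∀ n ∈ N₁, y⁻¹ * n * y ∈ N₁ := by
    intro n hn
    rw [hy]
    simpa [MulAut.conj_apply, mul_assoc] using hn
  have htr : ∀ n a, MulAut.conj n (MulAut.conj y a) = MulAut.conj y (MulAut.conj (y⁻¹ * n * y) a) := by
    intro n a
    rw [← K_mul, ← K_mul]
    congr 2; group
  have hw : ∀ n ∈ N₁, MulAut.conj n (MulAut.conj y (z * z')) = MulAut.conj y (z * z') :=
    fun n hn => by rw [htr, ht _ (hy' n hn)]
  have hzN₁ : z ∈ N₁ := hS₀N₁ (hPS₀ hzP)
  have hwS₀ : MulAut.conj y (z * z') ∈ S₀ := by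
    rw [hS₀]; exact ((K_eq_iff z _).1 (hw z hzN₁)).symm
  have hwV := hV _ hwS₀ (fun a ha => ((K_eq_iff a _).1 (hw a (hS₀N₁ (hPS₀ ha)))).symm)
    (fun a ha => ((K_eq_iff a _).1 (hw a (hS₀N₁ (hQS₀ ha)))).symm)
  have ht1 : z * z' ≠ 1 := by
    intro h
    apply hz'ne
    rw [← hzinv]; exact (inv_eq_of_mul_eq_one_right h).symm
  have hwx := hw x hxN₁
  have hwt : MulAut.conj y (z * z') = z * z' := by
    rcases hwV with h | h | h | h
    · exact absurd ((map_eq_one_iff _ (MulAut.conj y).injective).1 h) ht1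
    · rw [h, hz'] at hwx; exact absurd hwx hz'ne
    · rw [h, hKx_z'] at hwx; exact absurd hwx.symm hz'ne
    · exact h
  obtain ⟨u, hu⟩ : ∃ u, u = MulAut.conj y z := ⟨_, rfl⟩
  obtain ⟨u', hu'⟩ : ∃ u', u' = MulAut.conj y z' := ⟨_, rfl⟩
  have huu' : u * u' = z * z' := by rw [hu, hu', ← map_mul, hwt]
  have huN₁ : u ∈ N₁ := hu ▸ (hy z).1 hzN₁
  have hu_act : ∀ n ∈ N₁, MulAut.conj n u = u ∨ MulAut.conj n u = u' := by
    intro n hn
    rw [hu, hu', htr]
    rcases hact _ (hy' n hn) with ⟨h1, _⟩ | ⟨h1, _⟩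
    · left; rw [h1]
    · right; rw [h1]
  have hu'inv : u'⁻¹ = u' := by
    apply inv_eq_of_mul_eq_one_left
    rw [hu', ← map_mul, hz'z', map_one]
  have hcomm_ut : ∀ n ∈ N₁, MulAut.conj u n * n⁻¹ = 1 ∨ MulAut.conj u n * n⁻¹ = z * z' := by
    intro n hn
    have e : MulAut.conj u n * n⁻¹ = u * (MulAut.conj n u)⁻¹ := by
      rw [MulAut.conj_apply, MulAut.conj_apply]; group
    rw [e]
    rcases hu_act n hn with h | h
    · left; rw [h, mul_inv_cancel]
    · right; rw [h, hu'inv, huu']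
  have htP : z * z' ∉ P := by
    intro h
    have h1 : z' ∈ P := by
      have e : z' = z⁻¹ * (z * z') := by group
      rw [e]; exact mul_mem (inv_mem hzP) h
    have h3 : z' ∈ P ⊓ Q := mem_inf.2 ⟨h1, hz'Q⟩
    rw [hinf, mem_bot] at h3
    exact hz'1 h3
  have htQ : z * z' ∉ Q := by
    intro h
    have h1 : z ∈ Q := by
      have e : z = (z * z') * z'⁻¹ := by group
      rw [e]; exact mul_mem h (inv_mem hz'Q)
    have h3 : z ∈ P ⊓ Q := mem_inf.2 ⟨hzP, h1⟩
    rw [hinf, mem_bot] at h3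
    exact hz1 h3
  by_cases huS₀ : u ∈ S₀
  · have hP' : ∀ a ∈ P, u * a = a * u := by
      intro a ha
      rcases hcomm_ut a (hS₀N₁ (hPS₀ ha)) with h | h
      · exact (K_eq_iff u a).1 (mul_inv_eq_one.1 h)
      · exact absurd (h ▸ mul_mem (hPn u huS₀ a ha) (inv_mem ha)) htP
    have hQ' : ∀ a ∈ Q, u * a = a * u := by
      intro a ha
      rcases hcomm_ut a (hS₀N₁ (hQS₀ ha)) with h | h
      · exact (K_eq_iff u a).1 (mul_inv_eq_one.1 h)
      · exact absurd (h ▸ mul_mem (hQn u huS₀ a ha) (inv_mem ha)) htQ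
    rcases hV u huS₀ hP' hQ' with h | h | h | h
    · rw [hu] at h
      exact hz1 ((map_eq_one_iff _ (MulAut.conj y).injective).1 h)
    · rw [hu] at h
      exact hyN₁ (hS₀N₁ ((hS₀ y).2 ((K_eq_iff y z).1 h)))
    · rw [hu, ← hz'] at h
      have h1 : MulAut.conj (x⁻¹ * y) z = z := by
        rw [K_mul, h, ← K_mul]; simp
      have h3 : x⁻¹ * y ∈ S₀ := (hS₀ _).2 ((K_eq_iff _ z).1 h1)
      have e : y = x * (x⁻¹ * y) := by group
      exact hyN₁ (e ▸ mul_mem hxN₁ (hS₀N₁ h3))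
    · rw [hu, ← hwt] at h
      have h1 : z = z * z' := (MulAut.conj y).injective h
      exact hz'1 (by simpa using h1.symm)
  · have hux : u * x ∈ S₀ := huN₁.resolve_left huS₀
    have hKuP : ∀ a ∈ P, MulAut.conj u a ∈ Q := by
      intro a ha
      have e : MulAut.conj u a = MulAut.conj (u * x) (MulAut.conj x (MulAut.conj (x * x)⁻¹ a)) := by
        rw [← K_mul, ← K_mul]; congr 2; group
      rw [e]
      exact hQn _ hux _ ((hQ _).2 ⟨_, hPn _ (inv_mem hx2) a ha, rfl⟩)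
    have hall : ∀ a ∈ P, a = 1 ∨ a = z := by
      intro a ha
      rcases hcomm_ut a (hS₀N₁ (hPS₀ ha)) with h | h
      · left
        have h1 : MulAut.conj u a = a := mul_inv_eq_one.1 h
        have h3 : a ∈ P ⊓ Q := mem_inf.2 ⟨ha, h1 ▸ hKuP a ha⟩
        rwa [hinf, mem_bot] at h3
      · right
        have h1 : z'⁻¹ * MulAut.conj u a = z * a := by
          calc z'⁻¹ * MulAut.conj u a = z'⁻¹ * (MulAut.conj u a * a⁻¹) * a := by group
            _ = z'⁻¹ * (z' * z) * a := by rw [h, hzz'c]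
            _ = z * a := by group
        have h3 : z * a ∈ P ⊓ Q := mem_inf.2 ⟨mul_mem hzP ha, h1 ▸ mul_mem (inv_mem hz'Q) (hKuP a ha)⟩
        rw [hinf, mem_bot] at h3
        rw [← hzinv]; exact (inv_eq_of_mul_eq_one_right h3).symm
    apply hP
    refine ⟨⟨fun a b => Subtype.ext ?_⟩⟩
    show (a : S) * b = b * a
    rcases hall a a.2 with h | h <;> rcases hall b b.2 with h' | h' <;> rw [h, h'] <;> simp

/-- Let S be a finite 2-group of sectional 2-rank at most 4 and P a proper non-abelian subgroup whose centre has order 2. Let S₀ be the centralizer in S of Z(P) and suppose P is normal in S₀. Then either S₀ = S, or P has sectional 2-rank at most 2 and S₀ has index 2 in S. -/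
theorem result {S : Type*} [Group S] [Finite S] (h2 : IsPGroup 2 S) (hr : Cfsg.SectionalPRankLE 2 4 S)
    (P : Subgroup S) (hPlt : P ≠ ⊤) (hP : ¬ IsMulCommutative ↥P) (hZP : Nat.card ↥(Subgroup.center ↥P) = 2)
    (S₀ : Subgroup S) (hS₀ : S₀ = Subgroup.centralizer (((Subgroup.center ↥P).map P.subtype : Subgroup S) : Set S))
    (hPn : ∀ s ∈ S₀, ∀ x ∈ P, s * x * s⁻¹ ∈ P) :
    S₀ = ⊤ ∨ (Cfsg.SectionalPRankLE 2 2 ↥P ∧ S₀.index = 2) := by
  by_cases hS : S₀ = ⊤
  · exact Or.inl hS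
  right
  have : Fact (Nat.Prime 2) := ⟨Nat.prime_two⟩
  obtain ⟨z, hz1, hzz, hZ⟩ := exists_of_card_two ((center ↥P).map P.subtype)
    (by rw [card_map_of_injective P.subtype_injective, hZP])
  have hzZ : z ∈ (center ↥P).map P.subtype := (hZ z).2 (Or.inr rfl)
  obtain ⟨hzP, hzc⟩ := (mem_map_center_iff P z).1 hzZ
  have hS₀mem : ∀ s, s ∈ S₀ ↔ s * z = z * s := by
    intro s
    rw [hS₀, mem_centralizer_iff]
    constructor
    · intro h; exact (h z hzZ).symm
    · intro h w hw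
      rcases (hZ w).1 hw with rfl | rfl
      · simp
      · exact h.symm
  have hPS₀ : P ≤ S₀ := fun a ha => (hS₀mem a).2 (hzc a ha)
  have : Group.IsNilpotent S := h2.isNilpotent
  have hnc : NormalizerCondition S := Group.normalizerCondition_of_isNilpotent
  have hlt := hnc S₀ (lt_top_iff_ne_top.2 hS)
  obtain ⟨x, hxN, hxS₀, hx2⟩ := Cfsg.Agent.S4400.exists_sq_mem h2 (normalizer (S₀ : Set S)) S₀ (not_le_of_gt hlt)
  have hxN' : ∀ s, s ∈ S₀ ↔ MulAut.conj x s ∈ S₀ := mem_normalizer_iff.1 hxN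
  rw [pow_two] at hx2
  obtain ⟨Q, hQdef⟩ : ∃ Q : Subgroup S, Q = P.map (MulAut.conj x).toMonoidHom := ⟨_, rfl⟩
  have hQ : ∀ g, g ∈ Q ↔ ∃ a ∈ P, MulAut.conj x a = g := by
    intro g; rw [hQdef]; exact Iff.rfl
  have hQS₀ : Q ≤ S₀ := by
    intro b hb
    obtain ⟨a, ha, rfl⟩ := (hQ b).1 hb
    exact (hxN' a).1 (hPS₀ ha)
  have hPn' : ∀ s ∈ S₀, ∀ a ∈ P, MulAut.conj s a ∈ P := hPn
  have hxi : ∀ s ∈ S₀, x⁻¹ * s * x ∈ S₀ := by
    intro s hs
    rw [hxN']
    simpa [MulAut.conj_apply, mul_assoc] using hs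
  have hQn : ∀ s ∈ S₀, ∀ b ∈ Q, MulAut.conj s b ∈ Q := by
    intro s hs b hb
    obtain ⟨a, ha, rfl⟩ := (hQ b).1 hb
    refine (hQ _).2 ⟨MulAut.conj (x⁻¹ * s * x) a, hPn' _ (hxi s hs) a ha, ?_⟩
    rw [← K_mul, ← K_mul]; congr 2; group
  have hZQ : (center ↥Q).map Q.subtype = ((center ↥P).map P.subtype).map (MulAut.conj x).toMonoidHom := by
    rw [hQdef]; exact conj_center_map P x
  have hZQmem : ∀ w, w ∈ (center ↥Q).map Q.subtype ↔ w = 1 ∨ w = MulAut.conj x z := by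
    intro w
    rw [hZQ]
    constructor
    · rintro ⟨v, hv, rfl⟩
      rcases (hZ v).1 hv with rfl | rfl
      · left; exact map_one _
      · right; rfl
    · rintro (rfl | rfl)
      · exact one_mem _
      · exact ⟨z, hzZ, rfl⟩
  have hz'ne : MulAut.conj x z ≠ z := fun h => hxS₀ ((hS₀mem x).2 ((K_eq_iff x z).1 h))
  have hz'1 : MulAut.conj x z ≠ 1 := fun h => hz1 ((map_eq_one_iff _ (MulAut.conj x).injective).1 h)
  have hne : (center ↥P).map P.subtype ≠ (center ↥Q).map Q.subtype := by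
    intro h
    have h1 : MulAut.conj x z ∈ (center ↥P).map P.subtype := by
      rw [h]; exact (hZQmem _).2 (Or.inr rfl)
    rcases (hZ _).1 h1 with h3 | h3
    · exact hz'1 h3
    · exact hz'ne h3
  have hcardQ : Nat.card ↥(center ↥Q) = 2 := by
    rw [← card_map_of_injective Q.subtype_injective, hZQ, card_map_of_injective (MulAut.conj x).injective,
      card_map_of_injective P.subtype_injective, hZP]
  have hQnc : ¬ IsMulCommutative ↥Q := by rw [hQdef]; exact not_comm_map P x hP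
  obtain ⟨hc, hinf, hcent⟩ := rel4400 h2 hr S₀ P Q hPS₀ hQS₀ hPn hQn hP hQnc hZP hcardQ hne
  have hV : ∀ c ∈ S₀, (∀ a ∈ P, c * a = a * c) → (∀ b ∈ Q, c * b = b * c) →
      c = 1 ∨ c = z ∨ c = MulAut.conj x z ∨ c = z * MulAut.conj x z := by
    intro c hc0 hcP hcQ
    obtain ⟨a, ha, b, hb, rfl⟩ := mem_sup_of_commute hc (hcent c hc0 hcP hcQ)
    have haZ : a ∈ (center ↥P).map P.subtype := by
      rw [mem_map_center_iff]
      refine ⟨ha, fun y hy => ?_⟩
      have h4 := hcP y hy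
      have h5 : a * y * b = y * a * b := by
        calc a * y * b = a * (y * b) := by group
          _ = a * (b * y) := by rw [hc y hy b hb]
          _ = a * b * y := by group
          _ = y * (a * b) := h4
          _ = y * a * b := by group
      exact (mul_right_cancel h5).symm
    have hbZ : b ∈ (center ↥Q).map Q.subtype := by
      rw [mem_map_center_iff]
      refine ⟨hb, fun y hy => ?_⟩
      have h4 := hcQ y hy
      have h5 : a * (b * y) = a * (y * b) := by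
        calc a * (b * y) = a * b * y := by group
          _ = y * (a * b) := h4
          _ = (y * a) * b := by group
          _ = (a * y) * b := by rw [hc a ha y hy]
          _ = a * (y * b) := by group
      exact (mul_left_cancel h5).symm
    rcases (hZ a).1 haZ with rfl | rfl <;> rcases (hZQmem b).1 hbZ with rfl | rfl
    · left; simp
    · right; right; left; simp
    · right; left; simp
    · right; right; right; rfl
  refine ⟨?_, ?_⟩
  · apply rank_two hr P x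
    · rw [← hQdef]; exact hc
    · rw [← hQdef]; exact hinf
  · exact index_core h2 P Q S₀ z (MulAut.conj x z) x hP hz1 hzz hzP hS₀mem hPS₀ hQS₀ hPn' hQn hxN' hxS₀ hx2 rfl
      hQ hinf hV

end Cfsg.Agent.S4401
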