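import Cfsg.Statements.S4403
-- import your own Cfsg.Agent.* helpers here
import Cfsg.Agent.Lib.Helper28.CyclicSylow

set_option autoImplicit false
open Cfsg

namespace Cfsg.Agent.S4403


open Cfsg.Agent.Lib.Helper28

/-- Let K be a finite group, p a prime dividing its order with O_{p'}(K) = 1 (no nontrivial normal subgroup of order prime to p), and P a cyclic Sylow p-subgroup of K. Then either P is normal and self-centralizing in K with K/P cyclic of order dividing p − 1 (so K is the semidirect product of P by a group of automorphisms of P of order dividing p − 1), or the generalized Fitting subgroup F*(K) is a non-abelian simple group and p does not divide the index of F*(K) in K. -/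
theorem result {K : Type*} [Group K] [Finite K] (p : ℕ) [Fact p.Prime] (hp : p ∣ Nat.card K) (hO : Cfsg.pPrimeCore p K = ⊥)
    (P : Sylow p K) (hP : IsCyclic ↥(P : Subgroup K)) :
    ((P : Subgroup K).Normal ∧ Subgroup.centralizer ((P : Subgroup K) : Set K) = (P : Subgroup K) ∧
      (∀ (_ : (P : Subgroup K).Normal), IsCyclic (K ⧸ (P : Subgroup K))) ∧ (P : Subgroup K).index ∣ p - 1) ∨
    (IsSimpleGroup ↥(Cfsg.generalizedFittingSubgroup K) ∧ ¬ IsMulCommutative ↥(Cfsg.generalizedFittingSubgroup K) ∧
      ¬ p ∣ (Cfsg.generalizedFittingSubgroup K).index) := by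
  have hpp : p.Prime := Fact.out
  have hPp : IsPGroup p ↥(P : Subgroup K) := P.2
  have hcommP : ∀ a ∈ (P : Subgroup K), ∀ b ∈ (P : Subgroup K), a * b = b * a := by
    intro a ha b hb
    have h1 : IsMulCommutative ↥(P : Subgroup K) := inferInstance
    exact congrArg Subtype.val (h1.is_comm.comm (⟨a, ha⟩ : ↥(P : Subgroup K)) ⟨b, hb⟩)
  have hF : Cfsg.fittingSubgroup K ≤ Cfsg.pCore p K := fitting_le_pCore_of_pPrimeCore_eq_bot p hO
  have hQP : Cfsg.pCore p K ≤ (P : Subgroup K) := Cfsg.Agent.Lib.Helper53.pCore_le_sylow P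
  have hmeet : ∀ J : Subgroup K, J.IsSubnormal → J ≠ ⊥ → (P : Subgroup K) ⊓ J ≠ ⊥ := by
    intro J hJ hJne hb
    have hsyl := isSyl_inf_subnormal P hJ
    rw [hb] at hsyl
    have h1 : J ≤ Cfsg.pPrimeCore p K :=
      subnormal_le_pPrimeCore hJ (coprime_card_of_isSyl_bot hsyl)
    rw [hO] at h1
    exact hJne (eq_bot_iff.mpr h1)
  have hkey : ∀ L : Subgroup K, Cfsg.IsComponent L → ∀ A : Subgroup K, A ≤ (P : Subgroup K) →
      A ≠ ⊥ → ¬ (A ≤ Subgroup.centralizer (L : Set K)) := by
    intro L hL A hAP hA hAc
    have h1 := inf_ne_bot_of_le_cyclic hP hPp (inf_le_left : (P : Subgroup K) ⊓ L ≤ P) hAP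
      (hmeet L hL.1 (IsComponent.ne_bot hL)) hA
    apply h1
    rw [eq_bot_iff]
    intro z hz
    exact eq_one_of_mem_centralizer_of_perfect (isPerfect_of_isComponent hL)
      (isSyl_inf_subnormal P hL.1) (fun a ha b hb => hcommP a ha.1 b hb.1) hz.1 (hAc hz.2)
  have hKne : (⊤ : Subgroup K) ≠ ⊥ := by
    intro h
    have h1 : Nat.card K = 1 := by
      rw [← Subgroup.card_top (G := K), h, Subgroup.card_bot]
    rw [h1] at hp
    exact hpp.one_lt.ne' (Nat.dvd_one.mp hp)
  by_cases hQ : Cfsg.pCore p K = ⊥
  · right
    have hFX : Cfsg.fittingSubgroup K = ⊥ := eq_bot_iff.mpr (hQ ▸ hF)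
    have hFs : Cfsg.generalizedFittingSubgroup K = Cfsg.layer K := by
      unfold Cfsg.generalizedFittingSubgroup
      rw [hFX, sup_bot_eq]
    have hXne : Cfsg.layer K ≠ ⊥ := by
      intro hb
      have h1 := centralizer_genFitting_le (G := K)
      rw [hFs, hb] at h1
      apply hKne
      rw [eq_bot_iff]
      intro g _
      apply h1
      rw [Subgroup.mem_centralizer_iff]
      intro y hy
      have : y = 1 := hy
      rw [this, one_mul, mul_one]
    obtain ⟨L, hL⟩ : ∃ L : Subgroup K, Cfsg.IsComponent L := by
      by_contra hcon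
      push Not at hcon
      apply hXne
      rw [eq_bot_iff]
      exact sSup_le fun L hL => absurd hL (hcon L)
    have huniq : ∀ J : Subgroup K, Cfsg.IsComponent J → J = L := by
      intro J hJ
      by_contra hne
      have hcomm : ⁅J, L⁆ = ⊥ := IsComponent.commutator_eq_bot_of_ne hJ hL hne
      refine hkey L hL ((P : Subgroup K) ⊓ J) inf_le_left (hmeet J hJ.1 (IsComponent.ne_bot hJ)) ?_
      exact inf_le_right.trans (Subgroup.commutator_eq_bot_iff_le_centralizer.mp hcomm)
    have hlay : Cfsg.layer K = L :=
      le_antisymm (sSup_le fun J hJ => (huniq J hJ).le) (le_layer hL)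
    have hLn : L.Normal := hlay ▸ layer_normal
    rw [hFs, hlay]
    have hcenter : Subgroup.center ↥L = ⊥ := by
      have h1 : ((Subgroup.center ↥L).map L.subtype).IsSubnormal :=
        (inferInstance : (Subgroup.center ↥L).Normal).isSubnormal.trans' hL.1
      have h2 : (Subgroup.center ↥L).map L.subtype ≤ Cfsg.fittingSubgroup K := by
        refine subnormal_le_fitting h1 ?_
        have : Group.IsNilpotent ↥(Subgroup.center ↥L) := isNilpotent_of_isMulCommutative
        exact Group.nilpotent_of_mulEquiv
          ((Subgroup.center ↥L).equivMapOfInjective L.subtype L.subtype_injective)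
      rw [hFX, le_bot_iff, Subgroup.map_eq_bot_iff_of_injective _ L.subtype_injective] at h2
      exact h2
    have hs : IsSimpleGroup ↥L := by
      have := hL.2.2
      exact ((QuotientGroup.quotientMulEquivOfEq hcenter).trans
        QuotientGroup.quotientBot).symm.isSimpleGroup
    have hna : ¬ IsMulCommutative ↥L := by
      intro hc
      apply IsQuasisimple.not_isSolvable hL.2
      have : Group.IsNilpotent ↥L := isNilpotent_of_isMulCommutative
      infer_instance
    refine ⟨hs, hna, ?_⟩
    have hPL : (P : Subgroup K) ≤ L :=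
      sylow_le_of_simple_normal P hP hLn hs hna (hmeet L hL.1 (IsComponent.ne_bot hL))
    intro hdvd
    exact P.not_dvd_index (hdvd.trans (Subgroup.index_dvd_of_le hPL))
  · left
    have hno : ∀ L : Subgroup K, ¬ Cfsg.IsComponent L := by
      intro L hL
      refine hkey L hL (Cfsg.pCore p K) hQP hQ ?_
      have hnil : Group.IsNilpotent ↥(Cfsg.pCore p K) := (pCore_isPGroup p).isNilpotent
      have h1 : ⁅L, Cfsg.pCore p K⁆ = ⊥ :=
        IsComponent.commutator_eq_bot_of_isSolvable hL
          (Cfsg.Agent.Lib.Helper53.pCore_normal p K).isSubnormal inferInstance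
      exact le_centralizer_comm (Subgroup.commutator_eq_bot_iff_le_centralizer.mp h1)
    have hlay : Cfsg.layer K = ⊥ := by
      rw [eq_bot_iff]
      exact sSup_le fun L hL => absurd hL (hno L)
    have hFs : Cfsg.generalizedFittingSubgroup K = Cfsg.fittingSubgroup K := by
      unfold Cfsg.generalizedFittingSubgroup
      rw [hlay, bot_sup_eq]
    have h1 := centralizer_genFitting_le (G := K)
    rw [hFs] at h1
    have hPQ : (P : Subgroup K) ≤ Cfsg.pCore p K := by
      refine le_trans ?_ (h1.trans hF)
      intro x hx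
      rw [Subgroup.mem_centralizer_iff]
      intro y hy
      exact hcommP y (hQP (hF hy)) x hx
    have hPeq : (P : Subgroup K) = Cfsg.pCore p K := le_antisymm hPQ hQP
    have hPn : (P : Subgroup K).Normal := hPeq ▸ Cfsg.Agent.Lib.Helper53.pCore_normal p K
    have hFQ : Cfsg.pCore p K ≤ Cfsg.fittingSubgroup K := pCore_le_fitting p
    have hC : Subgroup.centralizer ((P : Subgroup K) : Set K) = (P : Subgroup K) := by
      apply le_antisymm
      · refine le_trans ?_ (h1.trans (hF.trans hQP))
        exact Subgroup.centralizer_le (fun x hx => hQP (hF hx))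
      · intro x hx
        rw [Subgroup.mem_centralizer_iff]
        intro y hy
        exact hcommP y hy x hx
    obtain ⟨h2, h3⟩ := cyclic_quotient_of_self_centralizing P hP hPn hC
    exact ⟨hPn, hC, fun _ => h2, h3⟩

end Cfsg.Agent.S4403
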