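import Cfsg.Statements.S4405
import Cfsg.Agent.S0144
import Cfsg.Agent.S1264
import Cfsg.Agent.Lib.Helper3.PGroup
import Cfsg.Agent.Lib.Helper26.Extra320

set_option autoImplicit false
open Cfsg Cfsg.Agent.Lib Cfsg.Agent.Lib.Helper26 Cfsg.Agent.Lib.Helper26.X320
open scoped commutatorElement

namespace Cfsg.Agent.S4405

/-- Let G be a finite group of order 320 = 64·5 whose largest normal 2-subgroup H = O₂(G) equals the Fitting subgroup F(G) and is extraspecial of order 32 containing no elementary abelian subgroup of order 8 (so H is the central product of a quaternion group and a dihedral group of order 8). If T is an involution of G outside H whose centralizer in H contains an elementary abelian subgroup of order 4, then C_H(T) itself is elementary abelian of order 4. -/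
theorem result {G : Type*} [Group G] [Finite G]
    (hG : Nat.card G = 320) (hHF : Cfsg.pCore 2 G = Cfsg.fittingSubgroup G)
    (hex : Cfsg.IsExtraspecial 2 ↥(Cfsg.pCore 2 G)) (h32 : Nat.card ↥(Cfsg.pCore 2 G) = 32)
    (hminus : ∀ A : Subgroup G, A ≤ Cfsg.pCore 2 G → Cfsg.IsElementaryAbelian 2 A → Nat.card ↥A ≤ 4)
    (T : G) (hT : orderOf T = 2) (hTH : T ∉ Cfsg.pCore 2 G)
    (V : Subgroup G) (hV : V ≤ Cfsg.pCore 2 G ⊓ Subgroup.centralizer ({T} : Set G)) (hV4 : Nat.card ↥V = 4) (hVe : Cfsg.IsElementaryAbelian 2 V) :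
    Nat.card ↥(Cfsg.pCore 2 G ⊓ Subgroup.centralizer ({T} : Set G)) = 4 ∧
      Cfsg.IsElementaryAbelian 2 (Cfsg.pCore 2 G ⊓ Subgroup.centralizer ({T} : Set G)) := by
  classical
  have : Fact (Nat.Prime 2) := ⟨Nat.prime_two⟩
  set H := Cfsg.pCore 2 G with hH
  have hHn : H.Normal := Helper1.pCore_normal 2 G
  obtain ⟨⟨hPg, hfr, hcm⟩, hZ2'⟩ := hex
  set Z := (Subgroup.center H).map H.subtype with hZ
  have hZH : Z ≤ H := Subgroup.map_subtype_le _
  have hZ2 : Nat.card Z = 2 := by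
    rw [hZ, Subgroup.card_map_of_injective H.subtype_injective]; exact hZ2'
  have hZnorm : ∀ c ∈ Z, ∀ g : G, g * c * g⁻¹ ∈ Z := by
    rintro c ⟨c', hc', rfl⟩ g
    refine ⟨⟨g * c'.1 * g⁻¹, hHn.conj_mem _ c'.2 g⟩, ?_, rfl⟩
    rw [SetLike.mem_coe, Subgroup.mem_center_iff]
    intro h
    have h1 := (Subgroup.mem_center_iff.1 hc')
      ⟨g⁻¹ * h.1 * g, by simpa using hHn.conj_mem _ h.2 g⁻¹⟩
    have h2 : g⁻¹ * h.1 * g * c'.1 = c'.1 * (g⁻¹ * h.1 * g) := congrArg Subtype.val h1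
    apply Subtype.ext
    show h.1 * (g * c'.1 * g⁻¹) = g * c'.1 * g⁻¹ * h.1
    calc h.1 * (g * c'.1 * g⁻¹) = g * (g⁻¹ * h.1 * g * c'.1) * g⁻¹ := by group
      _ = g * (c'.1 * (g⁻¹ * h.1 * g)) * g⁻¹ := by rw [h2]
      _ = g * c'.1 * g⁻¹ * h.1 := by group
  have hZc : ∀ c ∈ Z, ∀ g : G, g * c = c * g := by
    intro c hc g
    by_cases h1 : c = 1
    · simp [h1]
    · obtain ⟨y, hy1, hy2⟩ := (Nat.card_eq_two_iff' (1 : Z)).1 hZ2
      have e1 := hy2 ⟨c, hc⟩ (by intro h; exact h1 (congrArg Subtype.val h))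
      have e2 := hy2 ⟨g * c * g⁻¹, hZnorm c hc g⟩ (by
        intro h
        apply h1
        have h3 : g * c * g⁻¹ = 1 := congrArg Subtype.val h
        exact conj_eq_one_iff.1 h3)
      have e3 : g * c * g⁻¹ = c := congrArg Subtype.val (e2.trans e1.symm)
      calc g * c = (g * c * g⁻¹) * g := by group
        _ = c * g := by rw [e3]
  have hcomm : ∀ a ∈ H, ∀ b ∈ H, a * b * a⁻¹ * b⁻¹ ∈ Z := by
    intro a ha b hb
    have h1 : ⁅(⟨a, ha⟩ : H), ⟨b, hb⟩⁆ ∈ commutator H :=
      Subgroup.commutator_mem_commutator (Subgroup.mem_top _) (Subgroup.mem_top _)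
    rw [hcm] at h1
    exact ⟨_, h1, by simp [commutatorElement_def]⟩
  have hsq : ∀ a ∈ H, a ^ 2 ∈ Z := by
    intro a ha
    have h1 := Helper3.pow_p_mem_frattini hPg (⟨a, ha⟩ : H)
    rw [hfr] at h1
    exact ⟨_, h1, rfl⟩
  have hsolv : Group.IsSolvable G :=
    Cfsg.Agent.S0144.result 2 5 6 1 Nat.prime_two (by norm_num) (by rw [hG]; norm_num)
  have hCH : Subgroup.centralizer (H : Set G) ≤ H := by
    have h1 := Cfsg.Agent.S1264.result (Subgroup.centralizer (Cfsg.fittingSubgroup G : Set G)) le_rfl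
      Subgroup.le_normalizer
      (Group.isSolvable_of_isSolvable_injective (Subgroup.subtype_injective _))
    rw [← hHF] at h1
    exact h1.trans (Subgroup.map_subtype_le _)
  have hO2 : ∀ N : Subgroup G, N.Normal → IsPGroup 2 N → N ≤ H :=
    fun N hN hp => Helper1.le_pCore hN hp
  set C := (H ⊓ Subgroup.centralizer ({T} : Set G) : Subgroup G) with hC
  have hCD : C ≤ H ⊓ stab Z hZc T := by
    intro c hc
    obtain ⟨h1, h2⟩ := Subgroup.mem_inf.1 hc
    refine Subgroup.mem_inf.2 ⟨h1, ?_⟩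
    rw [Subgroup.mem_centralizer_singleton_iff] at h2
    rw [mem_stab, h2]
    have : T * c * c⁻¹ * T⁻¹ = 1 := by group
    rw [this]; exact Z.one_mem
  have h4C : 4 ∣ Nat.card C := by rw [← hV4]; exact Subgroup.card_dvd_of_le hV
  have h4D : 4 ∣ Nat.card (H ⊓ stab Z hZc T : Subgroup G) :=
    h4C.trans (Subgroup.card_dvd_of_le hCD)
  have hD8 := card_D_le hG H Z h32 hZH hZc hZ2 hcomm hCH hT hTH hO2 h4D
  have hC8 : Nat.card C ≤ 8 :=
    (Nat.le_of_dvd Nat.card_pos (Subgroup.card_dvd_of_le hCD)).trans hD8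
  have hcases : Nat.card C = 4 ∨ Nat.card C = 8 := by
    have hpos : 0 < Nat.card C := Nat.card_pos
    generalize Nat.card C = n at *
    interval_cases n <;> omega
  rcases hcases with h4 | h8
  · have hVC : V = C := Subgroup.eq_of_le_of_card_ge hV (by rw [h4, hV4])
    exact ⟨h4, hVC ▸ hVe⟩
  · exfalso
    have hsq1 := sq_of_card_eight H Z h32 hZH hZc hZ2 hcomm hT hsq h8 hD8
    have hel : Cfsg.IsElementaryAbelian 2 C := by
      refine ⟨⟨⟨fun a b => ?_⟩⟩, hsq1⟩
      apply Subtype.ext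
      show a.1 * b.1 = b.1 * a.1
      have ha : a.1 * a.1 = 1 := by rw [← pow_two]; exact hsq1 _ a.2
      have hb : b.1 * b.1 = 1 := by rw [← pow_two]; exact hsq1 _ b.2
      have hab : (a.1 * b.1) * (a.1 * b.1) = 1 := by
        rw [← pow_two]; exact hsq1 _ (C.mul_mem a.2 b.2)
      calc a.1 * b.1 = (b.1 * b.1) * (a.1 * b.1) * (a.1 * a.1) := by rw [ha, hb]; group
        _ = b.1 * (b.1 * a.1) * ((b.1 * a.1)) * a.1 := by group
        _ = b.1 * a.1 := by
          have hba : (b.1 * a.1) * (b.1 * a.1) = 1 := by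
            rw [← pow_two]; exact hsq1 _ (C.mul_mem b.2 a.2)
          rw [mul_assoc b.1, hba]; group
    have := hminus C inf_le_left hel
    omega

end Cfsg.Agent.S4405
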