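import Cfsg.Statements.S4406
import Mathlib

set_option autoImplicit false
open Cfsg

namespace Cfsg.Agent.S4406

abbrev A4 := ↥(alternatingGroup (Fin 4))

theorem sq_or_cube : ∀ g : A4, g ^ 2 = 1 ∨ g ^ 3 = 1 := by decide +kernel

theorem key : ∀ a v v' : A4, a ^ 3 = 1 → a ≠ 1 → v ^ 2 = 1 → v ≠ 1 → v' ^ 2 = 1 → v' ≠ 1 → v' ≠ v →
   (a * v * a⁻¹ = v' ∧ a * v' * a⁻¹ = v * v') ∨ (a⁻¹ * v * a⁻¹⁻¹ = v' ∧ a⁻¹ * v' * a⁻¹⁻¹ = v * v') := by
  decide +kernel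

theorem sq_of_two_pow (g : A4) (k : ℕ) (h : g ^ (2 ^ k) = 1) : g ^ 2 = 1 := by
  rcases sq_or_cube g with h2 | h3
  · exact h2
  · have h1 : orderOf g ∣ 2 ^ k := orderOf_dvd_of_pow_eq_one h
    have h4 : orderOf g ∣ 3 := orderOf_dvd_of_pow_eq_one h3
    have h5 : Nat.Coprime (2 ^ k) 3 := Nat.Coprime.pow_left k (by norm_num)
    have h6 : orderOf g = 1 := Nat.eq_one_of_dvd_coprimes h5 h1 h4
    rw [orderOf_eq_one_iff] at h6
    rw [h6]; simp

theorem cube_of_three_pow (g : A4) (k : ℕ) (h : g ^ (3 ^ k) = 1) : g ^ 3 = 1 := by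
  rcases sq_or_cube g with h2 | h3
  · have h1 : orderOf g ∣ 3 ^ k := orderOf_dvd_of_pow_eq_one h
    have h4 : orderOf g ∣ 2 := orderOf_dvd_of_pow_eq_one h2
    have h5 : Nat.Coprime (3 ^ k) 2 := Nat.Coprime.pow_left k (by norm_num)
    have h6 : orderOf g = 1 := Nat.eq_one_of_dvd_coprimes h5 h1 h4
    rw [orderOf_eq_one_iff] at h6
    rw [h6]; simp
  · exact h3

theorem card_A4 : Nat.card A4 = 12 := by
  rw [Nat.card_eq_fintype_card]; decide +kernel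

theorem card_Q (Q : Sylow 3 (A4 × A4)) : Nat.card ↥(Q : Subgroup (A4 × A4)) = 9 := by
  rw [Sylow.card_eq_multiplicity, Nat.card_prod, card_A4]
  have : (12 * 12 : ℕ).factorization 3 = 2 := by decide +kernel
  rw [this]; norm_num

/-- a 3-subgroup of `A4` has at most three elements -/
theorem card_three_sub (P : Subgroup A4) (hP : IsPGroup 3 P) : Nat.card P ≤ 3 := by
  obtain ⟨n, hn⟩ := IsPGroup.iff_card.1 hP
  have h1 : Nat.card P ∣ 12 := card_A4 ▸ Subgroup.card_subgroup_dvd_card P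
  rw [hn] at h1 ⊢
  rcases n with _ | _ | n
  · norm_num
  · norm_num
  · exfalso
    have h2 : 9 ∣ 12 := by
      refine dvd_trans ?_ h1
      exact ⟨3 ^ n, by ring⟩
    omega

theorem exists_second (Q : Sylow 3 (A4 × A4)) : ∃ b : A4, b ≠ 1 ∧ b ^ 3 = 1 ∧ ((1, b) : A4 × A4) ∈ (Q : Subgroup (A4 × A4)) := by
  classical
  let P : Subgroup A4 := (Q : Subgroup (A4 × A4)).map (MonoidHom.fst A4 A4)
  have hP : IsPGroup 3 P := Q.isPGroup'.map _
  have hc := card_three_sub P hP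
  let f : ↥(Q : Subgroup (A4 × A4)) → P := fun x => ⟨x.1.1, ⟨x.1, x.2, rfl⟩⟩
  have hlt : Fintype.card P < Fintype.card ↥(Q : Subgroup (A4 × A4)) := by
    rw [← Nat.card_eq_fintype_card, ← Nat.card_eq_fintype_card, card_Q]
    omega
  obtain ⟨x, y, hxy, hf⟩ := Fintype.exists_ne_map_eq_of_card_lt f hlt
  have hf' : x.1.1 = y.1.1 := congrArg Subtype.val hf
  have hmem : x.1⁻¹ * y.1 ∈ (Q : Subgroup (A4 × A4)) := mul_mem (inv_mem x.2) y.2
  have heq : x.1⁻¹ * y.1 = (1, x.1.2⁻¹ * y.1.2) := by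
    ext1
    · simp [hf']
    · simp
  refine ⟨x.1.2⁻¹ * y.1.2, ?_, ?_, heq ▸ hmem⟩
  · intro h
    apply hxy
    have h2 : x.1.2 = y.1.2 := by
      rw [inv_mul_eq_one] at h; exact h
    exact Subtype.ext (Prod.ext hf' h2)
  · obtain ⟨k, hk⟩ := Q.isPGroup' ⟨_, hmem⟩
    have hk' : (x.1⁻¹ * y.1) ^ 3 ^ k = 1 := congrArg Subtype.val hk
    rw [heq] at hk'
    exact cube_of_three_pow _ k (congrArg Prod.snd hk')

theorem exists_first (Q : Sylow 3 (A4 × A4)) : ∃ a : A4, a ≠ 1 ∧ a ^ 3 = 1 ∧ ((a, 1) : A4 × A4) ∈ (Q : Subgroup (A4 × A4)) := by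
  classical
  let P : Subgroup A4 := (Q : Subgroup (A4 × A4)).map (MonoidHom.snd A4 A4)
  have hP : IsPGroup 3 P := Q.isPGroup'.map _
  have hc := card_three_sub P hP
  let f : ↥(Q : Subgroup (A4 × A4)) → P := fun x => ⟨x.1.2, ⟨x.1, x.2, rfl⟩⟩
  have hlt : Fintype.card P < Fintype.card ↥(Q : Subgroup (A4 × A4)) := by
    rw [← Nat.card_eq_fintype_card, ← Nat.card_eq_fintype_card, card_Q]
    omega
  obtain ⟨x, y, hxy, hf⟩ := Fintype.exists_ne_map_eq_of_card_lt f hlt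
  have hf' : x.1.2 = y.1.2 := congrArg Subtype.val hf
  have hmem : x.1⁻¹ * y.1 ∈ (Q : Subgroup (A4 × A4)) := mul_mem (inv_mem x.2) y.2
  have heq : x.1⁻¹ * y.1 = (x.1.1⁻¹ * y.1.1, 1) := by
    ext1
    · simp
    · simp [hf']
  refine ⟨x.1.1⁻¹ * y.1.1, ?_, ?_, heq ▸ hmem⟩
  · intro h
    apply hxy
    have h2 : x.1.1 = y.1.1 := by
      rw [inv_mul_eq_one] at h; exact h
    exact Subtype.ext (Prod.ext h2 hf')
  · obtain ⟨k, hk⟩ := Q.isPGroup' ⟨_, hmem⟩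
    have hk' : (x.1⁻¹ * y.1) ^ 3 ^ k = 1 := congrArg Subtype.val hk
    rw [heq] at hk'
    exact cube_of_three_pow _ k (congrArg Prod.fst hk')

/-- the abstract finishing step -/
theorem finish (Q B : Subgroup (A4 × A4)) (x y r : A4 × A4) (hrQ : r ∈ Q)
    (hr3 : r ^ 3 = 1) (hr1 : r.1 ≠ 1) (hr2 : r.2 ≠ 1)
    (hx2 : x ^ 2 = 1) (hy2 : y ^ 2 = 1) (hxyc : x * y = y * x)
    (hB : ∀ b, b ∈ B ↔ b = 1 ∨ b = x ∨ b = y ∨ b = x * y)
    (h1 : r * x * r⁻¹ = y) (h2 : r * y * r⁻¹ = x * y) :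
    ∃ R : Subgroup (A4 × A4), R ≤ Q ∧ Nat.card ↥R = 3 ∧
        R ≠ Q ⊓ Subgroup.prod ⊤ ⊥ ∧ R ≠ Q ⊓ Subgroup.prod ⊥ ⊤ ∧ R ≤ Subgroup.normalizer (B : Set _) := by
  have hrne : r ≠ 1 := fun h => hr1 (by rw [h]; rfl)
  have hfw : ∀ b ∈ B, r * b * r⁻¹ ∈ B := by
    intro b hb
    rw [hB] at hb ⊢
    rcases hb with rfl | rfl | rfl | rfl
    · left; simp
    · right; right; left; exact h1
    · right; right; right; exact h2
    · right; left
      have : r * (x * y) * r⁻¹ = (r * x * r⁻¹) * (r * y * r⁻¹) := by group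
      rw [this, h1, h2, hxyc, ← mul_assoc, ← pow_two, hy2, one_mul]
  refine ⟨Subgroup.zpowers r, ?_, ?_, ?_, ?_, ?_⟩
  · rw [Subgroup.zpowers_le]; exact hrQ
  · rw [Nat.card_zpowers]
    exact orderOf_eq_prime hr3 hrne
  · intro h
    have : r ∈ Q ⊓ Subgroup.prod ⊤ ⊥ := h ▸ Subgroup.mem_zpowers r
    have h3 : r ∈ Subgroup.prod (⊤ : Subgroup A4) (⊥ : Subgroup A4) := this.2
    rw [Subgroup.mem_prod] at h3
    exact hr2 (Subgroup.mem_bot.1 h3.2)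
  · intro h
    have : r ∈ Q ⊓ Subgroup.prod ⊥ ⊤ := h ▸ Subgroup.mem_zpowers r
    have h3 : r ∈ Subgroup.prod (⊥ : Subgroup A4) (⊤ : Subgroup A4) := this.2
    rw [Subgroup.mem_prod] at h3
    exact hr1 (Subgroup.mem_bot.1 h3.1)
  · rw [Subgroup.zpowers_le, Subgroup.mem_normalizer_iff]
    intro b
    refine ⟨hfw b, fun hb => ?_⟩
    have h3 := hfw _ (hfw _ hb)
    have h4 : r * (r * (r * b * r⁻¹) * r⁻¹) * r⁻¹ = r ^ 3 * b * (r ^ 3)⁻¹ := by
      simp only [pow_succ, pow_zero, one_mul, mul_inv_rev, mul_assoc]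
    rw [h4, hr3] at h3
    simpa using h3

/-- In the direct product P = A₄ × A₄, let X be the Sylow 2-subgroup, X₁ and X₂ its intersections with the two direct factors, Q a Sylow 3-subgroup and Q₁, Q₂ its intersections with the two factors. Then every subgroup B of X of order 4 either meets X₁ or X₂ nontrivially, or is normalized by one of the two subgroups of Q of order 3 other than Q₁ and Q₂. -/
theorem result
    (X : Sylow 2 (↥(alternatingGroup (Fin 4)) × ↥(alternatingGroup (Fin 4))))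
    (Q : Sylow 3 (↥(alternatingGroup (Fin 4)) × ↥(alternatingGroup (Fin 4))))
    (B : Subgroup (↥(alternatingGroup (Fin 4)) × ↥(alternatingGroup (Fin 4)))) (hBX : B ≤ (X : Subgroup _)) (hB4 : Nat.card ↥B = 4) :
    B ⊓ ((X : Subgroup _) ⊓ Subgroup.prod ⊤ ⊥) ≠ ⊥ ∨ B ⊓ ((X : Subgroup _) ⊓ Subgroup.prod ⊥ ⊤) ≠ ⊥ ∨
      ∃ R : Subgroup (↥(alternatingGroup (Fin 4)) × ↥(alternatingGroup (Fin 4))), R ≤ (Q : Subgroup _) ∧ Nat.card ↥R = 3 ∧
        R ≠ (Q : Subgroup _) ⊓ Subgroup.prod ⊤ ⊥ ∧ R ≠ (Q : Subgroup _) ⊓ Subgroup.prod ⊥ ⊤ ∧ R ≤ Subgroup.normalizer (B : Set _) := by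
  by_cases hc1 : B ⊓ ((X : Subgroup _) ⊓ Subgroup.prod ⊤ ⊥) ≠ ⊥
  · exact Or.inl hc1
  by_cases hc2 : B ⊓ ((X : Subgroup _) ⊓ Subgroup.prod ⊥ ⊤) ≠ ⊥
  · exact Or.inr (Or.inl hc2)
  right; right
  push Not at hc1 hc2
  -- elements of B
  have hsq : ∀ b ∈ B, b.1 ^ 2 = 1 ∧ b.2 ^ 2 = 1 := by
    intro b hb
    obtain ⟨k, hk⟩ := X.isPGroup' ⟨b, hBX hb⟩
    have hk' : b ^ 2 ^ k = 1 := congrArg Subtype.val hk
    exact ⟨sq_of_two_pow _ k (congrArg Prod.fst hk'), sq_of_two_pow _ k (congrArg Prod.snd hk')⟩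
  have hs1 : ∀ b ∈ B, b.2 = 1 → b = 1 := by
    intro b hb h
    have : b ∈ B ⊓ ((X : Subgroup _) ⊓ Subgroup.prod ⊤ ⊥) :=
      ⟨hb, hBX hb, Subgroup.mem_prod.2 ⟨Subgroup.mem_top _, Subgroup.mem_bot.2 h⟩⟩
    rw [hc1] at this
    exact Subgroup.mem_bot.1 this
  have hs2 : ∀ b ∈ B, b.1 = 1 → b = 1 := by
    intro b hb h
    have : b ∈ B ⊓ ((X : Subgroup _) ⊓ Subgroup.prod ⊥ ⊤) :=
      ⟨hb, hBX hb, Subgroup.mem_prod.2 ⟨Subgroup.mem_bot.2 h, Subgroup.mem_top _⟩⟩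
    rw [hc2] at this
    exact Subgroup.mem_bot.1 this
  have hcardB : (B : Set (A4 × A4)).ncard = 4 := hB4
  -- pick x
  obtain ⟨x, hxB, hx1⟩ : ∃ x ∈ B, x ≠ 1 := by
    by_contra hcon
    push Not at hcon
    have : (B : Set (A4 × A4)) ⊆ {1} := fun b hb => hcon b hb
    have h2 := Set.ncard_le_ncard this (Set.finite_singleton _)
    rw [hcardB, Set.ncard_singleton] at h2
    omega
  obtain ⟨y, hyB, hy1, hyx⟩ : ∃ y ∈ B, y ≠ 1 ∧ y ≠ x := by
    by_contra hcon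
    push Not at hcon
    have : (B : Set (A4 × A4)) ⊆ {1, x} := by
      intro b hb
      by_cases h : b = 1
      · left; exact h
      · right; exact hcon b hb h
    have h2 := Set.ncard_le_ncard this (Set.toFinite _)
    have h3 := Set.ncard_insert_le (1 : A4 × A4) {x}
    rw [Set.ncard_singleton] at h3
    rw [hcardB] at h2
    omega
  have hx2 : x ^ 2 = 1 := Prod.ext (hsq x hxB).1 (hsq x hxB).2
  have hy2 : y ^ 2 = 1 := Prod.ext (hsq y hyB).1 (hsq y hyB).2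
  have hxy2 : (x * y) ^ 2 = 1 := Prod.ext (hsq _ (mul_mem hxB hyB)).1 (hsq _ (mul_mem hxB hyB)).2
  have hxinv : x⁻¹ = x := by rw [inv_eq_iff_mul_eq_one, ← pow_two]; exact hx2
  have hyinv : y⁻¹ = y := by rw [inv_eq_iff_mul_eq_one, ← pow_two]; exact hy2
  have hxyc : x * y = y * x := by
    have h : (x * y)⁻¹ = x * y := by rw [inv_eq_iff_mul_eq_one, ← pow_two]; exact hxy2
    rw [mul_inv_rev, hxinv, hyinv] at h
    exact h.symm
  have hBset : (B : Set (A4 × A4)) = {1, x, y, x * y} := by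
    symm
    apply Set.eq_of_subset_of_ncard_le
    · intro b hb
      rcases hb with rfl | rfl | rfl | rfl
      · exact one_mem B
      · exact hxB
      · exact hyB
      · exact mul_mem hxB hyB
    · rw [hcardB]
      have hxy_ne_1 : x * y ≠ 1 := by
        intro h
        apply hyx
        rw [← hxinv]
        exact (inv_eq_of_mul_eq_one_right h).symm
      have hxy_ne_x : x * y ≠ x := by
        intro h; exact hy1 (by simpa using h)
      have hxy_ne_y : x * y ≠ y := by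
        intro h; exact hx1 (by simpa using h)
      rw [Set.ncard_eq_toFinset_card']
      classical
      have : ({1, x, y, x * y} : Set (A4 × A4)).toFinset = {1, x, y, x * y} := by
        ext; simp
      rw [this]
      rw [Finset.card_insert_of_notMem, Finset.card_insert_of_notMem, Finset.card_insert_of_notMem, Finset.card_singleton]
      · simp [hxy_ne_y.symm]
      · simp [hyx.symm, hxy_ne_x.symm]
      · simp [hx1.symm, hy1.symm, hxy_ne_1.symm]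
    · exact Set.toFinite _
  have hBmem : ∀ b, b ∈ B ↔ b = 1 ∨ b = x ∨ b = y ∨ b = x * y := by
    intro b
    rw [← SetLike.mem_coe, hBset]
    simp
  -- coordinates
  have hv1 : x.1 ≠ 1 := fun h => hx1 (hs2 x hxB h)
  have hw1 : x.2 ≠ 1 := fun h => hx1 (hs1 x hxB h)
  have hv1' : y.1 ≠ 1 := fun h => hy1 (hs2 y hyB h)
  have hw1' : y.2 ≠ 1 := fun h => hy1 (hs1 y hyB h)
  have hxy_ne_1 : x * y ≠ 1 := by
    intro h
    apply hyx
    rw [← hxinv]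
    exact (inv_eq_of_mul_eq_one_right h).symm
  have hvv : y.1 ≠ x.1 := by
    intro h
    apply hxy_ne_1
    apply hs2 _ (mul_mem hxB hyB)
    show x.1 * y.1 = 1
    rw [h, ← pow_two]; exact (hsq x hxB).1
  have hww : y.2 ≠ x.2 := by
    intro h
    apply hxy_ne_1
    apply hs1 _ (mul_mem hxB hyB)
    show x.2 * y.2 = 1
    rw [h, ← pow_two]; exact (hsq x hxB).2
  obtain ⟨a, ha1, ha3, haQ⟩ := exists_first Q
  obtain ⟨b, hb1, hb3, hbQ⟩ := exists_second Q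
  have hainv : ((a⁻¹, 1) : A4 × A4) ∈ (Q : Subgroup (A4 × A4)) := by
    have := inv_mem haQ
    simpa using this
  have hbinv : ((1, b⁻¹) : A4 × A4) ∈ (Q : Subgroup (A4 × A4)) := by
    have := inv_mem hbQ
    simpa using this
  have hK1 := key a x.1 y.1 ha3 ha1 (hsq x hxB).1 hv1 (hsq y hyB).1 hv1' hvv
  have hK2 := key b x.2 y.2 hb3 hb1 (hsq x hxB).2 hw1 (hsq y hyB).2 hw1' hww
  have ha3' : a⁻¹ ^ 3 = 1 := by rw [inv_pow, ha3, inv_one]
  have hb3' : b⁻¹ ^ 3 = 1 := by rw [inv_pow, hb3, inv_one]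
  have ha1' : a⁻¹ ≠ 1 := by simpa using ha1
  have hb1' : b⁻¹ ≠ 1 := by simpa using hb1
  rcases hK1 with ⟨k1, k2⟩ | ⟨k1, k2⟩ <;> rcases hK2 with ⟨l1, l2⟩ | ⟨l1, l2⟩
  · exact finish Q B x y (a, b) (by simpa using mul_mem haQ hbQ) (Prod.ext ha3 hb3) ha1 hb1 hx2 hy2 hxyc hBmem
      (Prod.ext k1 l1) (Prod.ext k2 l2)
  · exact finish Q B x y (a, b⁻¹) (by simpa using mul_mem haQ hbinv) (Prod.ext ha3 hb3') ha1 hb1' hx2 hy2 hxyc hBmem
      (Prod.ext k1 l1) (Prod.ext k2 l2)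
  · exact finish Q B x y (a⁻¹, b) (by simpa using mul_mem hainv hbQ) (Prod.ext ha3' hb3) ha1' hb1 hx2 hy2 hxyc hBmem
      (Prod.ext k1 l1) (Prod.ext k2 l2)
  · exact finish Q B x y (a⁻¹, b⁻¹) (by simpa using mul_mem hainv hbinv) (Prod.ext ha3' hb3') ha1' hb1' hx2 hy2 hxyc hBmem
      (Prod.ext k1 l1) (Prod.ext k2 l2)

end Cfsg.Agent.S4406
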