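import Cfsg.Statements.S4408
import Cfsg.Agent.Lib.Helper26.ThompsonDih3
import Cfsg.Agent.S1264
import Cfsg.Agent.Lib.Helper1.Cores

set_option autoImplicit false
open Cfsg Cfsg.Agent.Lib.Helper26

namespace Cfsg.Agent.S4408

/-- Let S be a finite solvable group whose Fitting subgroup F(S) has odd order, and let I be an elementary abelian 2-subgroup of S of order 2ⁿ with n ≥ 1. Then F(S) contains subgroups A₁, …, Aₙ of prime order, each normalized by I, pairwise commuting and generating a subgroup A of order |A₁|⋯|Aₙ| (their internal direct product), such that no non-identity element of I centralizes A. -/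
theorem result {S : Type*} [Group S] [Finite S]
    [Group.IsSolvable S] (hF : Odd (Nat.card ↥(Cfsg.fittingSubgroup S)))
    (I : Subgroup S) (hI : Cfsg.IsElementaryAbelian 2 I) (n : ℕ) (hn : 1 ≤ n) (hIn : Nat.card ↥I = 2 ^ n) :
    ∃ f : Fin n → Subgroup S, (∀ i, (Nat.card ↥(f i)).Prime) ∧ (∀ i, f i ≤ Cfsg.fittingSubgroup S) ∧
      (∀ i, I ≤ Subgroup.normalizer ((f i) : Set S)) ∧ (∀ i j, i ≠ j → ∀ a ∈ f i, ∀ b ∈ f j, a * b = b * a) ∧
      Nat.card ↥(⨆ i, f i) = ∏ i, Nat.card ↥(f i) ∧ I ⊓ Subgroup.centralizer ((⨆ i, f i : Subgroup S) : Set S) = ⊥ := by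
  classical
  have hE : E2 I := by
    constructor
    · intro a ha b hb
      have h := hI.1.is_comm.comm (⟨a, ha⟩ : I) ⟨b, hb⟩
      exact congrArg Subtype.val h
    · intro a ha
      have := hI.2 a ha
      rwa [pow_two] at this
  set F : Subgroup S := Cfsg.fittingSubgroup S with hFdef
  have hFn : F.Normal := Cfsg.Agent.Lib.Helper1.fitting_normal S
  have hinvF : CInv I F := fun a _ x hx => hFn.conj_mem x hx a
  have hFs : Group.IsSolvable F := inferInstance
  have hCF : Subgroup.centralizer (F : Set S) ≤ F := by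
    have h1 := Cfsg.Agent.S1264.result (Subgroup.centralizer (F : Set S)) le_rfl
      Subgroup.le_normalizer inferInstance
    exact h1.trans (Subgroup.map_subtype_le _)
  obtain ⟨V, hVF, hVab, hVinv, hVf⟩ := exists_abelian_faithful hE (Nat.card F) F le_rfl hFs hF hinvF
  have hVodd : Odd (Nat.card V) := Odd.of_dvd_nat hF (Subgroup.card_dvd_of_le hVF)
  have hf : ∀ a ∈ I, (∀ v ∈ V, a * v = v * a) → a = 1 := by
    intro a ha h
    have h1 := hVf a ha h
    have h2 : a ∈ Subgroup.centralizer (F : Set S) := by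
      rw [Subgroup.mem_centralizer_iff]
      intro x hx
      exact (h1 x hx).symm
    exact eq_one_of_sq_odd hF (hCF h2) (hE.sq a ha)
  obtain ⟨a, x, h1, h2, h3, h4, h5, -, h7⟩ := dual_system2 hE hVab hVodd hVinv hf n I le_rfl hIn
  -- prime order powers
  have hex : ∀ i, ∃ m : ℕ, (orderOf (x i ^ m)).Prime := by
    intro i
    have hne : orderOf (x i) ≠ 1 := fun h => (h2 i).2.1 (orderOf_eq_one_iff.1 h)
    obtain ⟨p, hp, hpd⟩ := Nat.exists_prime_and_dvd hne
    refine ⟨orderOf (x i) / p, ?_⟩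
    rw [orderOf_pow_orderOf_div (orderOf_pos _).ne' hpd]
    exact hp
  choose m hm using hex
  set y : Fin n → S := fun i => x i ^ m i with hy
  have hyV : ∀ i, y i ∈ V := fun i => pow_mem (h2 i).1 _
  have hy1 : ∀ i, y i ≠ 1 := by
    intro i h
    have := hm i
    rw [show x i ^ m i = y i from rfl, h, orderOf_one] at this
    exact Nat.not_prime_one this
  have hconjpow : ∀ (g : S) (i : Fin n), g * y i * g⁻¹ = (g * x i * g⁻¹) ^ m i := by
    intro g i
    rw [conj_pow]
  have hyne : ∀ i, y i ≠ (y i)⁻¹ := fun i => ne_inv_of_odd hVodd (hyV i) (hy1 i)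
  have hyI : ∀ i, ∀ g ∈ I, g * y i * g⁻¹ = y i ∨ g * y i * g⁻¹ = (y i)⁻¹ := by
    intro i g hg
    rcases (h2 i).2.2 g hg with h | h
    · left; rw [hconjpow, h]
    · right; rw [hconjpow, h, inv_pow]
  have hya : ∀ i, a i * y i * (a i)⁻¹ = (y i)⁻¹ := by
    intro i
    rw [hconjpow, h3 i, inv_pow]
  have hyc : ∀ i j, i ≠ j → a i * y j = y j * a i := by
    intro i j hij
    apply comm_of_conj
    rw [hconjpow, conj_of_comm (h4 i j hij)]
  have hcomm : Pairwise fun i j => ∀ (u v : S), u ∈ Subgroup.zpowers (y i) → v ∈ Subgroup.zpowers (y j) →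
      Commute u v := by
    intro i j _ u v hu hv
    exact hVab u (Subgroup.zpowers_le.2 (hyV i) hu) v (Subgroup.zpowers_le.2 (hyV j) hv)
  have hindep : iSupIndep (fun i => Subgroup.zpowers (y i)) := by
    rw [iSupIndep_def]
    intro i
    rw [Subgroup.disjoint_def]
    intro w hw1 hw2
    have hwV : w ∈ V := Subgroup.zpowers_le.2 (hyV i) hw1
    have e1 : a i * w * (a i)⁻¹ = w⁻¹ := by
      obtain ⟨k, rfl⟩ := Subgroup.mem_zpowers_iff.1 hw1
      rw [← conj_zpow, hya i, inv_zpow]
    have e2 : a i * w = w * a i := by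
      have hle : (⨆ j, ⨆ (_ : j ≠ i), Subgroup.zpowers (y j)) ≤ Subgroup.centralizer ({a i} : Set S) := by
        apply iSup_le
        intro j
        apply iSup_le
        intro hj
        rw [Subgroup.zpowers_le, Subgroup.mem_centralizer_singleton_iff]
        exact (hyc i j (Ne.symm hj)).symm
      exact (Subgroup.mem_centralizer_singleton_iff.1 (hle hw2)).symm
    rw [conj_of_comm e2] at e1
    apply eq_one_of_sq_odd hVodd hwV
    calc w * w = w * w⁻¹ := by rw [← e1]
      _ = 1 := mul_inv_cancel w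
  refine ⟨fun i => Subgroup.zpowers (y i), ?_, ?_, ?_, ?_, ?_, ?_⟩
  · intro i
    rw [Nat.card_zpowers]
    exact hm i
  · intro i
    exact Subgroup.zpowers_le.2 (hVF (hyV i))
  · intro i
    apply CInv.le_normalizer
    intro g hg w hw
    obtain ⟨k, rfl⟩ := Subgroup.mem_zpowers_iff.1 hw
    rw [← conj_zpow]
    rcases hyI i g hg with h | h
    · rw [h]; exact Subgroup.zpow_mem_zpowers _ _
    · rw [h]; exact Subgroup.zpow_mem _ (inv_mem (Subgroup.mem_zpowers _)) _
  · intro i j hij u hu v hv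
    exact hcomm hij u v hu hv
  · rw [← Subgroup.noncommPiCoprod_range (hcomm := hcomm)]
    have hinj := Subgroup.injective_noncommPiCoprod_of_iSupIndep (hcomm := hcomm) hindep
    rw [← Nat.card_pi]
    exact (Nat.card_congr (MonoidHom.ofInjective hinj).toEquiv).symm
  · rw [eq_bot_iff]
    intro c hc
    rw [Subgroup.mem_bot]
    obtain ⟨hcI, hcc⟩ := Subgroup.mem_inf.1 hc
    apply h7 c hcI
    intro i
    have e1 : c * y i = y i * c := by
      have hmem : y i ∈ (⨆ i, Subgroup.zpowers (y i) : Subgroup S) :=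
        (le_iSup (fun i => Subgroup.zpowers (y i)) i) (Subgroup.mem_zpowers _)
      exact (Subgroup.mem_centralizer_iff.1 hcc _ hmem).symm
    rcases (h2 i).2.2 c hcI with h | h
    · exact comm_of_conj h
    · exfalso
      have e2 : c * y i * c⁻¹ = (y i)⁻¹ := by rw [hconjpow, h, inv_pow]
      rw [conj_of_comm e1] at e2
      exact hyne i e2

end Cfsg.Agent.S4408
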