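import Cfsg.Statements.S4410
import Cfsg.Agent.Lib.Helper26.Transv
import Cfsg.Agent.Lib.Helper3.RankTwoFitting
import Cfsg.Agent.S1264
import Cfsg.Agent.Lib.Helper1.Cores

set_option autoImplicit false
open Cfsg

namespace Cfsg.Agent.S4410

/-- Let V be a finite-dimensional vector space over the field with two elements and S a solvable group of linear automorphisms of V with O₂(S) = 1. If P ∈ S has order 4 and (P − 1)³ = 0 on V, then the image of (P − 1)² has at least 4 elements; equivalently, in the decomposition of V into indecomposable modules for the cyclic group generated by P, at least two summands have dimension 3. -/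
theorem result
    {V : Type*} [AddCommGroup V] [Module (ZMod 2) V] [Finite V]
    (S : Subgroup (V ≃ₗ[ZMod 2] V)) (hS : Group.IsSolvable ↥S) (hO2 : Cfsg.pCore 2 ↥S = ⊥)
    (P : V ≃ₗ[ZMod 2] V) (hPS : P ∈ S) (hP4 : orderOf P = 4)
    (hcub : ((P : V →ₗ[ZMod 2] V) - LinearMap.id) ^ 3 = 0) :
    4 ≤ Nat.card ↥(LinearMap.range (((P : V →ₗ[ZMod 2] V) - LinearMap.id) ^ 2)) := by
  classical
  by_contra hcon
  push Not at hcon
  set W := LinearMap.range (((P : V →ₗ[ZMod 2] V) - LinearMap.id) ^ 2) with hW
  have h2 : ∀ v : V, v + v = 0 := by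
    intro v
    have : (2 : ZMod 2) • v = 0 := by
      rw [show (2 : ZMod 2) = 0 from rfl, zero_smul]
    rwa [two_smul] at this
  -- W has dimension at most one
  have hfr : Module.finrank (ZMod 2) W ≤ 1 := by
    have h1 : Nat.card W = Nat.card (ZMod 2) ^ Module.finrank (ZMod 2) W :=
      Module.natCard_eq_pow_finrank
    rw [Nat.card_zmod] at h1
    rw [h1] at hcon
    by_contra h
    push Not at h
    have : 2 ^ 2 ≤ 2 ^ Module.finrank (ZMod 2) W := Nat.pow_le_pow_right (by norm_num) h
    omega
  obtain ⟨w0, hw0⟩ := finrank_le_one_iff.1 hfr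
  have hWcase : ∀ w ∈ W, w = 0 ∨ w = (w0 : V) := by
    intro w hw
    obtain ⟨c, hc⟩ := hw0 ⟨w, hw⟩
    have hc' : c • (w0 : V) = w := congrArg Subtype.val hc
    fin_cases c
    · left
      rw [← hc']
      exact zero_smul _ _
    · right
      rw [← hc']
      exact one_smul _ _
  have hPv : ∀ v : V, P (P v) = v ∨ P (P v) = v + (w0 : V) := by
    intro v
    have hmem : P (P v) + v ∈ W := by
      refine ⟨v, ?_⟩
      rw [pow_two]
      simp only [Module.End.mul_apply, LinearMap.sub_apply, LinearEquiv.coe_coe, LinearMap.id_apply,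
        map_sub]
      have e : P (P v) - P v - (P v - v) = P (P v) + v - (P v + P v) := by abel
      rw [e, h2, sub_zero]
    rcases hWcase _ hmem with h | h
    · left
      have : P (P v) = -v := eq_neg_of_add_eq_zero_left h
      rw [this]
      exact neg_eq_of_add_eq_zero_left (h2 v)
    · right
      have : P (P v) = (w0 : V) - v := eq_sub_of_add_eq h
      rw [this, sub_eq_add_neg, neg_eq_of_add_eq_zero_left (h2 v), add_comm]
  -- the group
  haveI := hS
  haveI : Finite (V ≃ₗ[ZMod 2] V) :=
    Finite.of_injective (fun e : V ≃ₗ[ZMod 2] V => (e : V → V)) DFunLike.coe_injective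
  set F : Subgroup ↥S := Cfsg.fittingSubgroup ↥S with hFdef
  haveI hFn : F.Normal := Cfsg.Agent.Lib.Helper1.fitting_normal ↥S
  have hCF : Subgroup.centralizer (F : Set ↥S) ≤ F := by
    have h1 := Cfsg.Agent.S1264.result (Subgroup.centralizer (F : Set ↥S)) le_rfl
      Subgroup.le_normalizer inferInstance
    exact h1.trans (Subgroup.map_subtype_le _)
  haveI : Fact (Nat.Prime 2) := ⟨Nat.prime_two⟩
  have hF2 : ∀ z ∈ F, z ^ 4 = 1 → z = 1 := by
    intro z hz h4
    have := Cfsg.Agent.Lib.Helper3.mem_pCore_of_mem_fitting (q := 2) hz (k := 2) (by simpa using h4)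
    rw [hO2, Subgroup.mem_bot] at this
    exact this
  have hP4' : P ^ 4 = 1 := by
    rw [← hP4]
    exact pow_orderOf_eq_one P
  have hP2' : P ^ 2 ≠ 1 := by
    intro h
    have := orderOf_dvd_of_pow_eq_one h
    rw [hP4] at this
    omega
  refine Cfsg.Agent.Lib.Helper26.TV.no_sqrt_transvection (G := ↥S) (V := V) h2 F hF2 hCF ⟨P, hPS⟩
    (Subtype.ext hP4') (fun h => hP2' (congrArg Subtype.val h)) (w0 : V) ?_
  intro v
  exact hPv v

end Cfsg.Agent.S4410
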