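import Cfsg.Statements.S4413
-- import your own Cfsg.Agent.* helpers here
import Cfsg.Agent.Lib.Helper92.MdlFin
import Cfsg.Agent.S0824

set_option autoImplicit false
open Cfsg

namespace Cfsg.Agent.S4413

open Cfsg.Agent.Lib.Helper92

theorem ker_conj_eq (P : Type*) [Group P] :
    (MulAut.conj : P →* MulAut P).ker = Subgroup.center P := by
  ext g
  rw [MonoidHom.mem_ker, Subgroup.mem_center_iff]
  constructor
  · intro h x
    have := congrArg (fun f : MulAut P => f x) h
    simp only [MulAut.conj_apply, MulAut.one_apply] at this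
    rw [mul_inv_eq_iff_eq_mul] at this
    exact this.symm
  · intro h
    ext x
    rw [MulAut.conj_apply, MulAut.one_apply, mul_inv_eq_iff_eq_mul]
    exact (h x).symm

/-- Let P be an extraspecial 2-group of order 32 with no elementary abelian subgroup of order 8 (the central product of a dihedral and a quaternion group of order 8). Then the inner automorphism group of P has order 16 and the outer automorphism group Aut(P)/Inn(P) is isomorphic to the symmetric group of degree 5; in particular Aut(P) has order 1920. -/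
theorem result {P : Type*} [Group P] [Finite P]
    (hex : Cfsg.IsExtraspecial 2 P) (h32 : Nat.card P = 32)
    (hminus : ∀ A : Subgroup P, Cfsg.IsElementaryAbelian 2 A → Nat.card ↥A ≤ 4)
    [(MulAut.conj : P →* MulAut P).range.Normal] :
    Nat.card ↥(MulAut.conj : P →* MulAut P).range = 16 ∧ Nat.card (MulAut P) = 1920 ∧
      Nonempty ((MulAut P ⧸ (MulAut.conj : P →* MulAut P).range) ≃* Equiv.Perm (Fin 5)) := by
  obtain ⟨z, h⟩ := ES2.exists_of hex.1.2.2.le hex.2
  have hcard : Nat.card P = 2 ^ (2 * 2 + 1) := by rw [h32]; norm_num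
  obtain ⟨m, hm, hNN⟩ := ES2.count_aux _ P z h rfl
  have hmn : m = 2 := by
    rw [hcard] at hm
    have := Nat.pow_right_injective (le_refl 2) hm
    omega
  subst hmn
  have hN : NN P + 2 ^ 2 = 2 ^ (2 * 2) := by
    rcases hNN with hNN | ⟨_, hNN⟩
    · exfalso
      obtain ⟨A, hAc, hA2, hcardA⟩ := (ES2.exists_big _ P z h 2 rfl hcard).1 hNN
      have := hminus A ⟨isMulCommutative_of_commute hAc, hA2⟩
      norm_num at hcardA
      omega
    · exact hNN
  obtain ⟨e1⟩ := out_minus h 2 (by norm_num) hcard hN
  obtain ⟨e2⟩ := Cfsg.Agent.S0824.result (F := ZMod 2) (by rw [ZMod.card])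
  have e : (MulAut P ⧸ (MulAut.conj : P →* MulAut P).range) ≃* Equiv.Perm (Fin 5) := e1.trans e2
  have h16 : Nat.card ↥(MulAut.conj : P →* MulAut P).range = 16 := by
    have h1 := Nat.card_congr (QuotientGroup.quotientKerEquivRange (MulAut.conj : P →* MulAut P)).toEquiv
    rw [← h1]
    have h2 := Subgroup.card_eq_card_quotient_mul_card_subgroup (MulAut.conj : P →* MulAut P).ker
    rw [h32] at h2
    have h3 : Nat.card (MulAut.conj : P →* MulAut P).ker = 2 := by
      rw [ker_conj_eq]; exact hex.2
    rw [h3] at h2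
    omega
  refine ⟨h16, ?_, ⟨e⟩⟩
  have h2 := Subgroup.card_eq_card_quotient_mul_card_subgroup (MulAut.conj : P →* MulAut P).range
  rw [h2, h16, Nat.card_congr e.toEquiv, Nat.card_eq_fintype_card, Fintype.card_perm,
    Fintype.card_fin]
  rfl

end Cfsg.Agent.S4413
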