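import Cfsg.Statements.S4417
import Cfsg.Agent.Lib.Helper89.DLS.U5
-- import your own Cfsg.Agent.* helpers here

set_option autoImplicit false
open Cfsg

namespace Cfsg.Agent.S4417

/-- Let F be a field with q elements, p a prime not dividing q, and e the multiplicative order of q modulo p; assume e ≤ n. Then every p-subgroup of GL_n(F) has derived length at most ⌊log₂(n/e)⌋ + 1: that term of its derived series is trivial (n/e is the integer quotient). -/
theorem result {F : Type*} [Field F] [Fintype F] (q : ℕ) (hF : Fintype.card F = q) (p : ℕ) [Fact p.Prime] (hpq : ¬ p ∣ q) (n e : ℕ) (he : e = orderOf (q : ZMod p)) (hen : e ≤ n) (P : Subgroup (GL (Fin n) F)) (hP : IsPGroup p P) : derivedSeries ↥P (Nat.log 2 (n / e) + 1) = ⊥ := by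
  subst hF
  subst he
  have h := Cfsg.Agent.Lib.DLS.upper p hpq n P hP
  have hp2 : 2 ≤ p := (Fact.out : p.Prime).two_le
  have hle : Nat.log p (n / orderOf ((Fintype.card F : ℕ) : ZMod p)) + 1
      ≤ Nat.log 2 (n / orderOf ((Fintype.card F : ℕ) : ZMod p)) + 1 :=
    Nat.add_le_add_right (Nat.log_anti_left (by norm_num) hp2) 1
  exact le_bot_iff.mp (h ▸ derivedSeries_antitone _ hle)

end Cfsg.Agent.S4417
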