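import Cfsg.Statements.S4420
import Mathlib.GroupTheory.IndexNormal
import Mathlib.GroupTheory.Sylow

set_option autoImplicit false
open Cfsg

namespace Cfsg.Agent.S4420

theorem inverts {H : Type*} [Group H] (A : Subgroup H) (hD : ∀ x : H, x ∉ A → x ^ 2 = 1)
    (x : H) (hx : x ∉ A) (a : H) (ha : a ∈ A) : x * a * x⁻¹ = a⁻¹ := by
  have hxa : x * a ∉ A := fun h => hx (by simpa using mul_mem h (inv_mem ha))
  have h1 := hD _ hxa
  have h2 := hD _ hx
  have h3 : x⁻¹ = x := by
    rw [inv_eq_iff_mul_eq_one, ← pow_two]; exact h2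
  rw [h3, eq_inv_iff_mul_eq_one, ← h1, pow_two, mul_assoc, mul_assoc]

theorem comm_of {H : Type*} [Group H] (A : Subgroup H) (hA : A ≠ ⊤) (hD : ∀ x : H, x ∉ A → x ^ 2 = 1)
    (a b : H) (ha : a ∈ A) (hb : b ∈ A) : a * b = b * a := by
  obtain ⟨x, hx⟩ : ∃ x, x ∉ A := by
    by_contra h
    push Not at h
    exact hA (eq_top_iff.2 fun y _ => h y)
  have h1 := inverts A hD x hx a ha
  have h2 := inverts A hD x hx b hb
  have h3 := inverts A hD x hx (a * b) (mul_mem ha hb)
  have h4 : x * (a * b) * x⁻¹ = (x * a * x⁻¹) * (x * b * x⁻¹) := by group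
  rw [h4, h1, h2] at h3
  have h5 : (a⁻¹ * b⁻¹)⁻¹ = ((a * b)⁻¹)⁻¹ := by rw [h3]
  simpa using h5.symm

theorem good_of_index_two {H : Type*} [Group H] (B : Subgroup H) (hB : B.index = 2)
    (hD : ∀ x : H, x ∉ B → x ^ 2 = 1) :
    B.Normal ∧ IsMulCommutative ↥B ∧ B.index = 2 ∧
      (∀ x : H, x ∉ B → x ^ 2 = 1 ∧ ∀ b ∈ B, x * b * x⁻¹ = b⁻¹) := by
  have hne : B ≠ ⊤ := by
    rintro rfl
    simp at hB
  refine ⟨Subgroup.normal_of_index_eq_two hB, ⟨⟨fun a b => ?_⟩⟩, hB, fun x hx => ⟨hD x hx, fun b hb => inverts B hD x hx b hb⟩⟩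
  exact Subtype.ext (comm_of B hne hD a b a.2 b.2)

theorem exists_good {H : Type*} [Group H] [Finite H] (A : Subgroup H) (hA : A ≠ ⊤) (hD : ∀ x : H, x ∉ A → x ^ 2 = 1) :
    ∃ B : Subgroup H, B.index = 2 ∧ ∀ x : H, x ∉ B → x ^ 2 = 1 := by
  obtain ⟨x, hx⟩ : ∃ x, x ∉ A := by
    by_contra h
    push Not at h
    exact hA (eq_top_iff.2 fun y _ => h y)
  by_cases hall : ∀ h : H, h ^ 2 = 1
  · -- elementary abelian case
    have hp : IsPGroup 2 H := fun g => ⟨1, by simpa using hall g⟩
    obtain ⟨n, hn⟩ := IsPGroup.iff_card.1 hp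
    have hn0 : n ≠ 0 := by
      rintro rfl
      have h1 : Nat.card H = 1 := by simpa using hn
      have := (Nat.card_eq_one_iff_unique.1 h1).1
      exact hx (by rw [Subsingleton.elim x 1]; exact one_mem _)
    obtain ⟨m, rfl⟩ := Nat.exists_eq_succ_of_ne_zero hn0
    have : Fact (Nat.Prime 2) := ⟨Nat.prime_two⟩
    obtain ⟨B, hB⟩ := Sylow.exists_subgroup_card_pow_prime (G := H) 2 (n := m) (by rw [hn]; exact pow_dvd_pow 2 (Nat.le_succ m))
    refine ⟨B, ?_, fun y _ => hall y⟩
    have h1 := B.card_mul_index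
    rw [hB, hn, pow_succ] at h1
    exact Nat.eq_of_mul_eq_mul_left (by positivity) h1
  · push Not at hall
    obtain ⟨h, hh⟩ := hall
    have hhA : h ∈ A := by
      by_contra hcon
      exact hh (hD h hcon)
    have hAC : A ≤ Subgroup.centralizer (A : Set H) := by
      intro a ha
      rw [Subgroup.mem_centralizer_iff]
      intro b hb
      exact comm_of A hA hD b a hb ha
    refine ⟨Subgroup.centralizer (A : Set H), ?_, fun y hy => hD y (fun hyA => hy (hAC hyA))⟩
    rw [Subgroup.index_eq_two_iff_exists_notMem_and']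
    refine ⟨x, ?_, fun y => ?_⟩
    · intro hxC
      rw [Subgroup.mem_centralizer_iff] at hxC
      have h1 := hxC h hhA
      have h2 := inverts A hD x hx h hhA
      apply hh
      have h3 : x * h * x⁻¹ = h := by rw [← h1]; group
      rw [h3] at h2
      rw [pow_two]
      nth_rewrite 1 [h2]
      simp
    · by_cases hy : y ∈ A
      · exact Or.inr (hAC hy)
      · left
        rw [Subgroup.mem_centralizer_iff]
        intro a ha
        have h1 := inverts A hD y hy a ha
        have h2 := inverts A hD x hx a⁻¹ (inv_mem ha)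
        have h3 : x * y * a * (x * y)⁻¹ = a := by
          have : x * y * a * (x * y)⁻¹ = x * (y * a * y⁻¹) * x⁻¹ := by group
          rw [this, h1, h2, inv_inv]
        calc a * (x * y) = (x * y * a * (x * y)⁻¹) * (x * y) := by rw [h3]
          _ = x * y * a := by group

/-- Structure of groups in which every element outside some proper subgroup has square 1. Let H be a finite group with a proper subgroup A such that every element outside A has square 1. Then H has an abelian normal subgroup B of index 2 such that every element outside B is an involution inverting every element of B; and if H is not an elementary abelian 2-group, B is the only abelian normal subgroup of index 2 with this property. -/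
theorem result {H : Type*} [Group H] [Finite H] (A : Subgroup H) (hA : A ≠ ⊤) (hD : ∀ x : H, x ∉ A → x ^ 2 = 1) :
    ∃ B : Subgroup H, B.Normal ∧ IsMulCommutative ↥B ∧ B.index = 2 ∧
      (∀ x : H, x ∉ B → x ^ 2 = 1 ∧ ∀ b ∈ B, x * b * x⁻¹ = b⁻¹) ∧
      (¬ (IsMulCommutative H ∧ ∀ x : H, x ^ 2 = 1) →
        ∀ B' : Subgroup H, B'.Normal → IsMulCommutative ↥B' → B'.index = 2 →
          (∀ x : H, x ∉ B' → x ^ 2 = 1 ∧ ∀ b ∈ B', x * b * x⁻¹ = b⁻¹) → B' = B) := by
  obtain ⟨B, hB2, hBD⟩ := exists_good A hA hD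
  obtain ⟨h1, h2, h3, h4⟩ := good_of_index_two B hB2 hBD
  refine ⟨B, h1, h2, h3, h4, ?_⟩
  intro hne B' _ hB'c hB'2 hB'
  have hex : ∃ h : H, h ^ 2 ≠ 1 := by
    by_contra hcon
    push Not at hcon
    apply hne
    refine ⟨⟨⟨fun a b => ?_⟩⟩, hcon⟩
    have ha := hcon a
    have hb := hcon b
    have hab := hcon (a * b)
    have ha' : a⁻¹ = a := by rw [inv_eq_iff_mul_eq_one, ← pow_two]; exact ha
    have hb' : b⁻¹ = b := by rw [inv_eq_iff_mul_eq_one, ← pow_two]; exact hb
    have hab' : (a * b)⁻¹ = a * b := by rw [inv_eq_iff_mul_eq_one, ← pow_two]; exact hab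
    rw [mul_inv_rev, ha', hb'] at hab'
    exact hab'.symm
  obtain ⟨h, hh⟩ := hex
  have hhB : h ∈ B := by
    by_contra hcon
    exact hh (h4 h hcon).1
  have hhB' : h ∈ B' := by
    by_contra hcon
    exact hh (hB' h hcon).1
  have hle : B' ≤ B := by
    intro x hx
    by_contra hxB
    have h5 := (h4 x hxB).2 h hhB
    have h6 : x * h = h * x := by
      have := hB'c.is_comm.comm ⟨x, hx⟩ ⟨h, hhB'⟩
      exact congrArg Subtype.val this
    apply hh
    have h7 : x * h * x⁻¹ = h := by rw [h6]; group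
    rw [h7] at h5
    rw [pow_two]
    nth_rewrite 1 [h5]
    simp
  have h8 := Subgroup.relIndex_mul_index hle
  rw [hB'2, hB2] at h8
  have h9 : B'.relIndex B = 1 := by omega
  exact le_antisymm hle (Subgroup.relIndex_eq_one.1 h9)

end Cfsg.Agent.S4420
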