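import Cfsg.Statements.S4452
import Cfsg.Agent.Lib.Helper77.CoprimeDeg2
import Cfsg.Agent.Lib.Helper30.Coprime

set_option autoImplicit false
open Cfsg

namespace Cfsg.Agent.S4452

open Subgroup Cfsg.Agent.Lib.Helper77


/-- Let the finite group G be the product of a normal subgroup K and a solvable subgroup H of coprime orders, and let N = N_G(H). Then the number of irreducible characters of G of degree coprime to the order of H equals the number of irreducible characters of N of degree coprime to the order of H. (The two sets are in fact in a canonical bijection; only the equality of their sizes is stated here.) -/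
theorem result {G : Type*} [Group G] [Finite G] (K H : Subgroup G) [K.Normal] (hKH : K ⊔ H = ⊤) (hcop : (Nat.card K).Coprime (Nat.card H)) (hsolv : Group.IsSolvable H) : Nat.card {χ : Cfsg.IrrCharacter G // (Cfsg.charDegree (χ : G → ℂ)).Coprime (Nat.card H)} = Nat.card {η : Cfsg.IrrCharacter (Subgroup.normalizer (H : Set G)) // (Cfsg.charDegree (η : Subgroup.normalizer (H : Set G) → ℂ)).Coprime (Nat.card H)} := by
  classical
  have : Fintype G := Fintype.ofFinite G
  have : Fintype K := Fintype.ofFinite K
  have hdisj : K ⊓ H = ⊥ := (disjoint_of_coprime_natCard hcop).eq_bot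
  have hHK : H ≤ Subgroup.normalizer (K : Set G) := by rw [normalizer_eq_top]; exact le_top
  rw [card_coprime_degree K H hKH hcop]
  set N : Subgroup G := Subgroup.normalizer (H : Set G) with hN
  set C : Subgroup G := K ⊓ Subgroup.centralizer (H : Set G) with hC
  have hHN : H ≤ N := le_normalizer
  have hCN : C ≤ N := by
    intro c hc
    have h1 := (mem_inf.1 hc).2
    rw [hN, mem_normalizer_iff]
    intro h
    have key : ∀ y ∈ H, c * y * c⁻¹ = y := by
      intro y hy
      have := mem_centralizer_iff.1 h1 y hy
      rw [← this]; group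
    constructor
    · intro hh; rw [key h hh]; exact hh
    · intro hh
      have h2 : c⁻¹ ∈ Subgroup.centralizer (H : Set G) := inv_mem h1
      have h3 := mem_centralizer_iff.1 h2 _ hh
      have e : h = c⁻¹ * (c * h * c⁻¹) * c := by group
      rw [e, ← h3]
      simpa [mul_assoc] using hh
  have : Fintype N := Fintype.ofFinite N
  have : Fintype (C.subgroupOf N) := Fintype.ofFinite _
  have hK'n : (C.subgroupOf N).Normal := by
    constructor
    intro c hc x
    have hx := x.2
    show (x : G) * c * (x : G)⁻¹ ∈ C
    apply conj_mem_inf_centralizer _ _ hc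
    · intro g hg
      exact ‹K.Normal›.conj_mem g hg x
    · intro t ht
      have := (mem_normalizer_iff.1 (inv_mem hx) t).1 ht
      simpa using this
  have htop : C.subgroupOf N ⊔ H.subgroupOf N = ⊤ := by
    rw [eq_top_iff]
    rintro ⟨x, hx⟩ _
    have hx' : x ∈ ((K ⊔ H : Subgroup G) : Set G) := by rw [hKH]; trivial
    rw [normal_mul] at hx'
    obtain ⟨k, hk, h, hh, rfl⟩ := Set.mem_mul.1 hx'
    have hkN : k ∈ N := by
      have : k = (k * h) * h⁻¹ := by group
      rw [this]
      exact N.mul_mem hx (N.inv_mem (hHN hh))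
    have hkC : k ∈ C := mem_inf.2 ⟨hk,
      Cfsg.Agent.Lib.Helper30.mem_centralizer_of_mem_normalizer hHK hdisj hk hkN⟩
    have e : (⟨k * h, hx⟩ : N) = ⟨k, hkN⟩ * ⟨h, hHN hh⟩ := rfl
    rw [e]
    exact mul_mem_sup (show (⟨k, hkN⟩ : N) ∈ C.subgroupOf N from hkC)
      (show (⟨h, hHN hh⟩ : N) ∈ H.subgroupOf N from hh)
  have hcardH : Nat.card (H.subgroupOf N) = Nat.card H :=
    Nat.card_congr (subgroupOfEquivOfLe hHN).toEquiv
  have hcardC : Nat.card (C.subgroupOf N) = Nat.card C :=
    Nat.card_congr (subgroupOfEquivOfLe hCN).toEquiv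
  have hcop' : (Nat.card (C.subgroupOf N)).Coprime (Nat.card (H.subgroupOf N)) := by
    rw [hcardH, hcardC]
    exact Nat.Coprime.coprime_dvd_left (Subgroup.card_dvd_of_le inf_le_left) hcop
  have key := card_coprime_degree (C.subgroupOf N) (H.subgroupOf N) htop hcop'
  rw [hcardH] at key
  rw [key]
  congr 1
  · rw [card_inv_irr_solv H hsolv K hHK hcop]
    have h1 : Nat.card {θ : IrrCharacter (C.subgroupOf N) //
        ∀ h ∈ H.subgroupOf N, InvUnder (C.subgroupOf N) h (θ : C.subgroupOf N → ℂ)} =
        Nat.card (IrrCharacter (C.subgroupOf N)) := by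
      refine Nat.card_congr (Equiv.subtypeUnivEquiv fun θ h hh => ?_)
      refine ((centralizer_le_stabSub (C.subgroupOf N) _) ?_).2
      rw [mem_centralizer_iff]
      intro c hc
      apply Subtype.ext
      exact (mem_centralizer_iff.1 (mem_inf.1 hc).2 h hh).symm
    rw [h1]
    exact Nat.card_congr (irrEquiv (subgroupOfEquivOfLe hCN))
  · let e := subgroupOfEquivOfLe hHN
    exact Nat.card_congr
      { toFun := fun f => f.comp e.toMonoidHom
        invFun := fun f => f.comp e.symm.toMonoidHom
        left_inv := by intro f; ext x; simp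
        right_inv := by intro f; ext x; simp }

end Cfsg.Agent.S4452
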