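import Cfsg.Statements.S4493
import Cfsg.Agent.Lib.Helper5.DegHyp
import Cfsg.Agent.Lib.Helper2.Solvable
import Cfsg.Agent.S0169

set_option autoImplicit false
open Cfsg

namespace Cfsg.Agent.S4493

open Cfsg.Agent.Lib.Helper5 Cfsg.Agent.Lib.Helper82

universe u

theorem aux (p : ℕ) [hpF : Fact p.Prime] : ∀ (n : ℕ) (G : Type u) [Group G] [Finite G],
    Nat.card G = n → Group.IsSolvable G →
    (∀ χ : Cfsg.IrrCharacter G, ¬ p ∣ Cfsg.charDegree (χ : G → ℂ)) →
    ∃ P : Subgroup G, P.Normal ∧ (∀ x ∈ P, ∀ y ∈ P, x * y = y * x) ∧ IsPGroup p P ∧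
      ¬ p ∣ P.index := by
  intro n
  induction n using Nat.strong_induction_on with
  | _ n ih =>
    intro G _ _ hn hsol hdeg
    have hp : p.Prime := hpF.out
    rcases subsingleton_or_nontrivial G with hs | hnt
    · refine ⟨⊤, inferInstance, fun x _ y _ => by rw [Subsingleton.elim x y], ?_, ?_⟩
      · exact IsPGroup.of_card (n := 0) (by simp)
      · rw [Subgroup.index_top]
        exact hp.one_lt.ne' ∘ Nat.dvd_one.mp
    obtain ⟨q, M, hq, hMchar, hMne, hMq, hMcomm⟩ :=
      Cfsg.Agent.Lib.Helper2.exists_characteristic_pgroup_of_solvable (G := G)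
    have hMn : M.Normal := Subgroup.normal_of_characteristic M
    have hMcard : 1 < Nat.card M := by
      have h1 : Nat.card M ≠ 1 := fun h => hMne (Subgroup.card_eq_one.mp h)
      have h2 : 0 < Nat.card M := Nat.card_pos
      omega
    have hquot : Nat.card (G ⧸ M) < n := by
      have h1 := M.card_mul_index
      rw [hn] at h1
      rw [← Subgroup.index_eq_card]
      have h2 : 0 < M.index := Nat.pos_of_ne_zero M.index_ne_zero_of_finite
      nlinarith
    obtain ⟨Pbar, hPn, hPab, hPp, hPi⟩ := ih _ hquot (G ⧸ M) rfl inferInstance (by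
      intro ψ
      obtain ⟨χ, h1, -⟩ := exists_irr_inflate M ψ
      rw [← h1]
      exact hdeg χ)
    set L : Subgroup G := Pbar.comap (QuotientGroup.mk' M) with hLdef
    have hLn : L.Normal := hPn.comap _
    have hLi : L.index = Pbar.index :=
      Subgroup.index_comap_of_surjective Pbar (QuotientGroup.mk'_surjective M)
    by_cases hL : L = ⊤
    · have hPtop : Pbar = ⊤ := by
        rw [← Subgroup.index_eq_one, ← hLi, hL, Subgroup.index_top]
      have hQab : ∀ x y : G ⧸ M, x * y = y * x := fun x y =>
        hPab x (hPtop ▸ Subgroup.mem_top x) y (hPtop ▸ Subgroup.mem_top y)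
      have hQp : IsPGroup p (G ⧸ M) := by
        rw [hPtop] at hPp
        exact hPp.of_equiv Subgroup.topEquiv
      obtain ⟨k, hk⟩ := hQp.exists_card_eq
      by_cases hqp : q = p
      · subst hqp
        obtain ⟨j, hj⟩ := hMq.exists_card_eq
        have hG : Nat.card G = q ^ (j + k) := by
          rw [← M.card_mul_index, Subgroup.index_eq_card, hj, hk, pow_add]
        refine ⟨⊤, inferInstance, fun x _ y _ => ?_, ?_, ?_⟩
        · apply comm_of_all_linear
          intro χ
          have h1 := isIrr_charDegree_dvd_card χ.2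
          rw [hG] at h1
          obtain ⟨i, -, hi⟩ := (Nat.dvd_prime_pow hp).mp h1
          rcases Nat.eq_zero_or_pos i with h0 | h0
          · rw [hi, h0, pow_zero]
          · exact absurd (hi ▸ dvd_pow_self q h0.ne') (hdeg χ)
        · exact (IsPGroup.of_card hG).of_equiv Subgroup.topEquiv.symm
        · rw [Subgroup.index_top]
          exact hp.one_lt.ne' ∘ Nat.dvd_one.mp
      · have hcen : M ≤ Subgroup.center G := by
          apply le_center_of_invariant hMn (fun a ha b hb => by
            have := hMcomm.is_comm.comm (⟨a, ha⟩ : M) ⟨b, hb⟩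
            exact congrArg Subtype.val this)
          intro θ g
          classical
          have := Fintype.ofFinite G
          obtain ⟨χ, hχ, hc⟩ := Cfsg.Agent.Lib.Helper19.exists_irr_over M θ.2
          have h1 := index_inertia_dvd hMn θ.2 hχ hc
          have h2 : (inertia hMn (θ : M → ℂ)).index ∣ p ^ k := by
            rw [← hk, ← Subgroup.index_eq_card]
            exact Subgroup.index_dvd_of_le
              (le_inertia hMn (isChar_isClassFunction (isIrr_isChar θ.2)))
          obtain ⟨i, -, hi⟩ := (Nat.dvd_prime_pow hp).mp h2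
          have h3 : (inertia hMn (θ : M → ℂ)).index = 1 := by
            rcases Nat.eq_zero_or_pos i with h0 | h0
            · rw [hi, h0, pow_zero]
            · exact absurd ((hi ▸ dvd_pow_self p h0.ne').trans h1) (hdeg ⟨χ, hχ⟩)
          have h4 : g ∈ inertia hMn (θ : M → ℂ) := by
            rw [Subgroup.index_eq_one.mp h3]; trivial
          exact h4
        have hQnil : Group.IsNilpotent (G ⧸ M) := hQp.isNilpotent
        have hnil : Group.IsNilpotent G :=
          Subgroup.isNilpotent_of_ker_le_center (QuotientGroup.mk' M)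
            (by rw [QuotientGroup.ker_mk']; exact hcen)
        obtain ⟨S⟩ : Nonempty (Sylow p G) := inferInstance
        refine ⟨S, inferInstance, ?_, S.2, S.not_dvd_index⟩
        intro x hx y hy
        have h1 : x * y * x⁻¹ * y⁻¹ ∈ M := by
          rw [← QuotientGroup.eq_one_iff]
          have := hQab (x : G ⧸ M) (y : G ⧸ M)
          rw [QuotientGroup.mk_mul, QuotientGroup.mk_mul, QuotientGroup.mk_mul, QuotientGroup.mk_inv,
            QuotientGroup.mk_inv, this]
          group
        have h2 : x * y * x⁻¹ * y⁻¹ ∈ (S : Subgroup G) :=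
          mul_mem (mul_mem (mul_mem hx hy) (inv_mem hx)) (inv_mem hy)
        have h3 : x * y * x⁻¹ * y⁻¹ = 1 := by
          obtain ⟨a, ha⟩ := hMq ⟨_, h1⟩
          obtain ⟨b, hb⟩ := S.2 ⟨_, h2⟩
          have ha' : (x * y * x⁻¹ * y⁻¹) ^ q ^ a = 1 := by
            have := congrArg Subtype.val ha
            simpa using this
          have hb' : (x * y * x⁻¹ * y⁻¹) ^ p ^ b = 1 := by
            have := congrArg Subtype.val hb
            simpa using this
          have hcop : Nat.Coprime (q ^ a) (p ^ b) :=
            Nat.Coprime.pow _ _ ((Nat.coprime_primes hq hp).mpr hqp)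
          have h4 := orderOf_dvd_of_pow_eq_one ha'
          have h5 := orderOf_dvd_of_pow_eq_one hb'
          have h6 := Nat.eq_one_of_dvd_coprimes hcop h4 h5
          exact orderOf_eq_one_iff.mp h6
        calc x * y = (x * y * x⁻¹ * y⁻¹) * (y * x) := by group
          _ = y * x := by rw [h3, one_mul]
    · have hLcard : Nat.card L < n := by
        rw [← hn]
        have h1 := L.card_mul_index
        have h2 : L.index ≠ 1 := fun h => hL (Subgroup.index_eq_one.mp h)
        have h3 : 0 < L.index := Nat.pos_of_ne_zero L.index_ne_zero_of_finite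
        have h4 : 0 < Nat.card L := Nat.card_pos
        have h5 : 2 ≤ L.index := by omega
        nlinarith
      obtain ⟨P0, hn0, hab0, hp0, hi0⟩ := ih _ hLcard L rfl inferInstance (by
        intro θ
        obtain ⟨χ, h1⟩ := exists_irr_over_dvd L θ
        exact fun h => hdeg χ (h.trans h1))
      have hchar : P0.Characteristic :=
        Sylow.characteristic_of_normal (hp0.toSylow hi0) hn0
      refine ⟨P0.map L.subtype, inferInstance, ?_, hp0.map _, ?_⟩
      · rintro _ ⟨x, hx, rfl⟩ _ ⟨y, hy, rfl⟩
        exact congrArg Subtype.val (hab0 x hx y hy)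
      · rw [Subgroup.index_map_subtype, hLi]
        exact fun h => (hp.dvd_mul.mp h).elim hi0 hPi

/-- Let G be a finite solvable group and p a prime. Then G has a normal abelian Sylow p-subgroup if and only if no irreducible character degree of G is divisible by p. -/
theorem result {G : Type*} [Group G] [Finite G] (hsolv : Group.IsSolvable G) (p : ℕ) (hp : p.Prime) : (∃ P : Subgroup G, P.Normal ∧ (∀ x ∈ P, ∀ y ∈ P, x * y = y * x) ∧ IsPGroup p P ∧ ¬ p ∣ P.index) ↔ ∀ χ : Cfsg.IrrCharacter G, ¬ p ∣ Cfsg.charDegree (χ : G → ℂ) := by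
  have : Fact p.Prime := ⟨hp⟩
  constructor
  · rintro ⟨P, hPn, hPab, hPp, hPi⟩ χ hdvd
    obtain ⟨n, ρ, hρ, hχ⟩ := χ.2
    have h1 := Cfsg.Agent.S0169.result ρ P hPab
    have h2 : charDegree (χ : G → ℂ) = Module.finrank ℂ (Fin n → ℂ) := by
      rw [← hχ]
      simp [charDegree, Representation.char_one]
    rw [← h2] at h1
    exact hPi (hdvd.trans h1)
  · intro h
    exact aux p _ G rfl hsolv h

end Cfsg.Agent.S4493
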