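import Cfsg.Statements.S4518
import Cfsg.Agent.Lib.Helper79.CliffordOrbit

set_option autoImplicit false
open Cfsg

namespace Cfsg.Agent.S4518

/-- Let N be a normal subgroup of the finite group G whose index is not divisible by the prime p, and let k be coprime to the order of G with k ^ (p ^ e) ≡ 1 modulo the order of G for some e (so g ↦ g ^ k induces a field automorphism of p-power order on character values). If an irreducible character χ of G satisfies χ (g ^ k) = χ g for all g, then every irreducible constituent θ of the restriction of χ to N satisfies θ (n ^ k) = θ n for all n. -/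
theorem result {G : Type*} [Group G] [Fintype G] (p : ℕ) [Fact p.Prime] (N : Subgroup G) [N.Normal] [Fintype N] (hidx : ¬ p ∣ N.index) (k e : ℕ) (hk : Nat.Coprime k (Nat.card G)) (hke : k ^ (p ^ e) ≡ 1 [MOD Nat.card G]) (χ : Cfsg.IrrCharacter G) (hχ : ∀ g : G, (χ : G → ℂ) (g ^ k) = (χ : G → ℂ) g) (θ : Cfsg.IrrCharacter N) (hθ : Cfsg.classInner (fun n : N => (χ : G → ℂ) n) (θ : N → ℂ) ≠ 0) : ∀ n : N, (θ : N → ℂ) (n ^ k) = (θ : N → ℂ) n := by
  classical
  have hN : N.Normal := inferInstance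
  have hkN : k.Coprime (Nat.card N) := Nat.Coprime.coprime_dvd_right (Subgroup.card_subgroup_dvd_card N) hk
  have hcχ : Cfsg.IsClassFunction G (χ : G → ℂ) :=
    Cfsg.Agent.Lib.Helper20.isClassFunction_of_isCharacter
      (Cfsg.Agent.Lib.Helper79.IsIrrCharacter.isCharacter χ.2)
  have hcθ : Cfsg.IsClassFunction N (θ : N → ℂ) :=
    Cfsg.Agent.Lib.Helper20.isClassFunction_of_isCharacter
      (Cfsg.Agent.Lib.Helper79.IsIrrCharacter.isCharacter θ.2)
  set Ω : Set (N → ℂ) := {ψ : N → ℂ | ∃ g : G, ψ = Cfsg.Agent.Lib.Helper5.cjF hN (θ : N → ℂ) g} with hΩ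
  have hΩfin : Ω.Finite := by
    have : Ω = Set.range (fun g : G => Cfsg.Agent.Lib.Helper5.cjF hN (θ : N → ℂ) g) := by
      ext ψ; constructor
      · rintro ⟨g, rfl⟩; exact ⟨g, rfl⟩
      · rintro ⟨g, rfl⟩; exact ⟨g, rfl⟩
    rw [this]; exact Set.finite_range _
  have := hΩfin.fintype
  -- the twist preserves Ω
  have hσ : ∀ ψ ∈ Ω, (fun n : N => ψ (n ^ k)) ∈ Ω := by
    rintro ψ ⟨g, rfl⟩
    have hirr : Cfsg.IsIrrCharacter N (Cfsg.Agent.Lib.Helper5.cjF hN (θ : N → ℂ) g) :=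
      Cfsg.Agent.Lib.Helper5.isIrrCharacter_cjF hN θ.2 g
    have hirr2 := Cfsg.Agent.Lib.Helper79.IsIrrCharacter.pow_coprime hirr k hkN
    by_contra hnot
    have h0 := Cfsg.Agent.Lib.Helper5.clifford_inner_zero hN χ.2 θ.2 hθ hirr2
      (fun g' hg' => hnot ⟨g', hg'⟩)
    have h1 := Cfsg.Agent.Lib.Helper79.classInner_pow_coprime k hkN (fun n : N => (χ : G → ℂ) n)
      (Cfsg.Agent.Lib.Helper5.cjF hN (θ : N → ℂ) g)
    have h2 : (fun n : N => (χ : G → ℂ) ((n ^ k : N) : G)) = fun n : N => (χ : G → ℂ) n := by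
      funext n
      rw [Subgroup.coe_pow, hχ]
    rw [h2, h0, Cfsg.Agent.Lib.Helper5.clifford_inner_conj hN hcχ] at h1
    exact hθ h1.symm
  let f : Function.End Ω := fun ψ => ⟨fun n : N => ψ.1 (n ^ k), hσ ψ.1 ψ.2⟩
  have hfpow : ∀ (j : ℕ) (ψ : Ω) (n : N), ((f ^ j) ψ).1 n = ψ.1 (n ^ (k ^ j)) := by
    intro j
    induction j with
    | zero =>
      intro ψ n
      rw [pow_zero, pow_zero, pow_one]
      rfl
    | succ j ih =>
      intro ψ n
      rw [pow_succ]
      show ((f ^ j) (f ψ)).1 n = _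
      rw [ih]
      show ψ.1 ((n ^ k ^ j) ^ k) = _
      rw [← pow_mul, ← pow_succ]
  have hf1 : f ^ p ^ e = 1 := by
    funext ψ
    apply Subtype.ext
    funext n
    rw [hfpow]
    have h3 : n ^ (k ^ p ^ e) = n := by
      have h4 : k ^ p ^ e ≡ 1 [MOD Nat.card N] :=
        hke.of_dvd (Subgroup.card_subgroup_dvd_card N)
      rw [← pow_mod_natCard, h4, pow_mod_natCard, pow_one]
    rw [h3]
    rfl
  have hmod := Equiv.Perm.card_fixedPoints_modEq (p := p) hf1
  have hdvd := Cfsg.Agent.Lib.Helper79.ncard_conj_orbit_dvd_index hN hcθ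
  have hcard : Fintype.card Ω = Set.ncard Ω := by
    rw [← Nat.card_coe_set_eq, Nat.card_eq_fintype_card]
  have hnp : ¬ p ∣ Fintype.card Ω := by
    intro h
    apply hidx
    rw [hcard] at h
    exact h.trans hdvd
  have hfix : 0 < Fintype.card (Function.fixedPoints f) := by
    by_contra h0
    have h5 : Fintype.card (Function.fixedPoints f) = 0 := by omega
    rw [h5] at hmod
    exact hnp ((Nat.modEq_zero_iff_dvd).mp hmod)
  obtain ⟨⟨ψ0, hψ0⟩⟩ := Fintype.card_pos_iff.mp hfix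
  obtain ⟨g0, hg0⟩ := ψ0.2
  have h6 : (fun n : N => ψ0.1 (n ^ k)) = ψ0.1 := congrArg Subtype.val hψ0
  rw [hg0, Cfsg.Agent.Lib.Helper79.cjF_pow] at h6
  have h7 := congrArg (fun ψ => Cfsg.Agent.Lib.Helper5.cjF hN ψ g0⁻¹) h6
  simp only [Cfsg.Agent.Lib.Helper5.cjF_cjF, mul_inv_cancel, Cfsg.Agent.Lib.Helper5.cjF_one] at h7
  intro n
  exact congrFun h7 n

end Cfsg.Agent.S4518
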