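import Cfsg.Statements.S4540
import Cfsg.Agent.Lib.Helper81.SambaleMajor

set_option autoImplicit false
open Cfsg Cfsg.Agent.Lib.Helper81 Cfsg.Agent.Lib.Helper20

namespace Cfsg.Agent.S4540

/-- Let B be a 2-block of the finite group G (relative to a maximal ideal M of the algebraic integers containing 2) of defect d with defect group D. Let z be an element of D commuting with every element of D, and let b be a block of the centralizer C of z with defect group D that induces B (a major subsection (z, b)). If b has 2-regular rank at most three, then 3·k(B) ≤ 3·k₀(B) + 2·Σ 2 ^ h(χ), where k(B) is the number of members of B, k₀(B) the number of members of height zero, and the sum runs over the members χ of B of positive height h(χ); this bound is at most 3·2 ^ d, so in particular B contains at most 2 ^ d irreducible characters. -/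
theorem result {G : Type*} [Group G] [Finite G] (M : Ideal Cfsg.AlgInt) (hM : Cfsg.IsPModular 2 M) (B : Set (Cfsg.IrrCharacter G)) (hB : Cfsg.IsPBlock M B) (D : Subgroup G) (hD : Cfsg.IsDefectGroup 2 M B D) (z : G) (hzD : z ∈ D) (hzc : ∀ d ∈ D, d * z = z * d) (b : Set (Cfsg.IrrCharacter ↥(Subgroup.centralizer ({z} : Set G)))) (hb : Cfsg.IsInducedBlock M (Subgroup.centralizer ({z} : Set G)) b B) (hbD : Cfsg.IsDefectGroup 2 M b (D.subgroupOf (Subgroup.centralizer ({z} : Set G)))) (hl : Cfsg.blockRank 2 b ≤ 3) : 3 * Nat.card B ≤ 3 * Nat.card {χ : Cfsg.IrrCharacter G // χ ∈ B ∧ Cfsg.blockHeight 2 B (χ : G → ℂ) = 0} + 2 * (∑ᶠ χ ∈ {χ : Cfsg.IrrCharacter G | χ ∈ B ∧ 1 ≤ Cfsg.blockHeight 2 B (χ : G → ℂ)}, 2 ^ Cfsg.blockHeight 2 B (χ : G → ℂ)) ∧ 3 * Nat.card {χ : Cfsg.IrrCharacter G // χ ∈ B ∧ Cfsg.blockHeight 2 B (χ : G → ℂ) = 0} + 2 * (∑ᶠ χ ∈ {χ : Cfsg.IrrCharacter G | χ ∈ B ∧ 1 ≤ Cfsg.blockHeight 2 B (χ : G → ℂ)}, 2 ^ Cfsg.blockHeight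 2 B (χ : G → ℂ)) ≤ 3 * 2 ^ Cfsg.blockDefect 2 B := by
  classical
  have : Fintype G := Fintype.ofFinite G
  have : Finite (Cfsg.IrrCharacter G) := finite_irrCharacter
  have : Fintype (Cfsg.IrrCharacter G) := Fintype.ofFinite _
  have : Fintype (Subgroup.centralizer ({z} : Set G)) := Fintype.ofFinite _
  have : Finite (Cfsg.IrrCharacter (Subgroup.centralizer ({z} : Set G))) := finite_irrCharacter
  have : Fintype (Cfsg.IrrCharacter (Subgroup.centralizer ({z} : Set G))) := Fintype.ofFinite _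
  have : Fact (Nat.Prime 2) := ⟨Nat.prime_two⟩
  obtain ⟨⟨n, Dt⟩, hd⟩ := major_setup hM hB hD hzD hzc hb hbD
  have e : Nat.card B = ∑ χ : Cfsg.IrrCharacter G, (if χ ∈ B then 1 else 0) := by
    rw [Nat.card_eq_fintype_card, Fintype.card_subtype, Finset.card_filter]
  have e0 : Nat.card {χ : Cfsg.IrrCharacter G // χ ∈ B ∧ Cfsg.blockHeight 2 B (χ : G → ℂ) = 0}
      = ∑ χ : Cfsg.IrrCharacter G, (if χ ∈ B ∧ Cfsg.blockHeight 2 B (χ : G → ℂ) = 0 then 1 else 0) := by
    rw [Nat.card_eq_fintype_card, Fintype.card_subtype, Finset.card_filter]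
  have e1 : 3 * Nat.card {χ : Cfsg.IrrCharacter G // χ ∈ B ∧ Cfsg.blockHeight 2 B (χ : G → ℂ) = 0}
      + 2 * (∑ᶠ χ ∈ {χ : Cfsg.IrrCharacter G | χ ∈ B ∧ 1 ≤ Cfsg.blockHeight 2 B (χ : G → ℂ)},
        2 ^ Cfsg.blockHeight 2 B (χ : G → ℂ))
      = ∑ χ : Cfsg.IrrCharacter G, (if χ ∈ B then
      (if Cfsg.blockHeight 2 B (χ : G → ℂ) = 0 then 3 else 2 * 2 ^ Cfsg.blockHeight 2 B (χ : G → ℂ))
      else 0) := by
    rw [e0, finsum_mem_irr, Finset.mul_sum, Finset.mul_sum, ← Finset.sum_add_distrib]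
    apply Finset.sum_congr rfl; intro χ _
    by_cases h1 : χ ∈ B
    · by_cases h2 : Cfsg.blockHeight 2 B (χ : G → ℂ) = 0
      · simp [h1, h2]
      · have h3 : 1 ≤ Cfsg.blockHeight 2 B (χ : G → ℂ) := Nat.one_le_iff_ne_zero.2 h2
        simp [h1, h2, h3]
    · simp [h1]
  rw [e1]
  constructor
  · rw [e, Finset.mul_sum]
    apply Finset.sum_le_sum; intro χ _
    split_ifs with h1 h2
    · norm_num
    · have h3 : 1 ≤ Cfsg.blockHeight 2 B (χ : G → ℂ) := Nat.one_le_iff_ne_zero.2 h2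
      have : 2 ^ 1 ≤ 2 ^ Cfsg.blockHeight 2 B (χ : G → ℂ) := Nat.pow_le_pow_right (by norm_num) h3
      omega
    · norm_num
  · have key := sambale_three Dt hd hl
    have e2 : ((∑ χ : Cfsg.IrrCharacter G, (if χ ∈ B then
      (if Cfsg.blockHeight 2 B (χ : G → ℂ) = 0 then 3 else 2 * 2 ^ Cfsg.blockHeight 2 B (χ : G → ℂ))
      else 0) : ℕ) : ℤ) = ∑ χ : Cfsg.IrrCharacter G, (if χ ∈ B then
      (if Cfsg.blockHeight 2 B (χ : G → ℂ) = 0 then (3 : ℤ) else 2 * 2 ^ Cfsg.blockHeight 2 B (χ : G → ℂ))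
      else 0) := by
      push_cast
      apply Finset.sum_congr rfl; intro χ _
      split_ifs <;> simp
    rw [← e2] at key
    exact_mod_cast key

end Cfsg.Agent.S4540
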