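import Cfsg.Statements.S4541
import Cfsg.Agent.Lib.Helper81.SubsecTwo
import Cfsg.Agent.Lib.Helper81.SambaleArith

set_option autoImplicit false
open Cfsg Cfsg.Agent.Lib.Helper81 Cfsg.Agent.Lib.Helper20

namespace Cfsg.Agent.S4541

/-- Let B be a 2-block of the finite group G (relative to a maximal ideal M of the algebraic integers containing 2), u a 2-element, and b a block of the centralizer of u inducing B (a subsection (u, b)), of defect q and 2-regular rank l; write s for the integer square root of l and k₀(B) for the number of members of B of height zero. If s is odd then k₀(B) ≤ s·2 ^ q, and otherwise (s + 1)·k₀(B) ≤ l·2 ^ q; in particular k₀(B) ≤ 2 ^ q when l ≤ 3. -/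
theorem result {G : Type*} [Group G] [Finite G] (M : Ideal Cfsg.AlgInt) (hM : Cfsg.IsPModular 2 M) (B : Set (Cfsg.IrrCharacter G)) (hB : Cfsg.IsPBlock M B) (u : G) (hu : ∃ j : ℕ, orderOf u = 2 ^ j) (b : Set (Cfsg.IrrCharacter ↥(Subgroup.centralizer ({u} : Set G)))) (hb : Cfsg.IsInducedBlock M (Subgroup.centralizer ({u} : Set G)) b B) : (Odd (Nat.sqrt (Cfsg.blockRank 2 b)) → Nat.card {χ : Cfsg.IrrCharacter G // χ ∈ B ∧ Cfsg.blockHeight 2 B (χ : G → ℂ) = 0} ≤ Nat.sqrt (Cfsg.blockRank 2 b) * 2 ^ Cfsg.blockDefect 2 b) ∧ (¬ Odd (Nat.sqrt (Cfsg.blockRank 2 b)) → (Nat.sqrt (Cfsg.blockRank 2 b) + 1) * Nat.card {χ : Cfsg.IrrCharacter G // χ ∈ B ∧ Cfsg.blockHeight 2 B (χ : G → ℂ) = 0} ≤ Cfsg.blockRank 2 b * 2 ^ Cfsg.blockDefect 2 b) ∧ (Cfsg.blockRank 2 b ≤ 3 → Nat.card {χ : Cfsg.IrrCharacter G // χ ∈ B ∧ Cfsg.blockHeight 2 B (χ : G → ℂ) = 0} ≤ 2 ^ Cfsg.blockDefect 2 b) := by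
  classical
  have : Fintype G := Fintype.ofFinite G
  have : Finite (Cfsg.IrrCharacter G) := finite_irrCharacter
  have : Fintype (Cfsg.IrrCharacter G) := Fintype.ofFinite _
  have : Fintype (Subgroup.centralizer ({u} : Set G)) := Fintype.ofFinite _
  have : Finite (Cfsg.IrrCharacter (Subgroup.centralizer ({u} : Set G))) := finite_irrCharacter
  have : Fintype (Cfsg.IrrCharacter (Subgroup.centralizer ({u} : Set G))) := Fintype.ofFinite _
  obtain ⟨n, hn⟩ := hu
  have huH : u ∈ Subgroup.centralizer ({u} : Set G) :=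
    Subgroup.mem_centralizer_iff.2 (by intro h hh'; rw [Set.mem_singleton_iff.1 hh'])
  have D : SubsecData 2 M (Subgroup.centralizer ({u} : Set G)) u n b B :=
    ⟨hM, hn, huH, fun c => Subgroup.mem_centralizer_iff.1 c.2 u rfl, le_rfl, hb⟩
  set S : Finset (Cfsg.IrrCharacter G) :=
    Finset.univ.filter (fun χ => χ ∈ B ∧ Cfsg.blockHeight 2 B (χ : G → ℂ) = 0) with hS
  have hcard : Nat.card {χ : Cfsg.IrrCharacter G // χ ∈ B ∧ Cfsg.blockHeight 2 B (χ : G → ℂ) = 0}
      = S.card := by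
    rw [Nat.card_eq_fintype_card, Fintype.card_subtype]
  have hmem : ∀ χ ∈ S, χ ∈ B ∧ Cfsg.blockHeight 2 B (χ : G → ℂ) = 0 := fun χ hχ =>
    (Finset.mem_filter.1 hχ).2
  have key := sambale_arith S (AS D) (2 ^ Cfsg.blockDefect 2 b) (Cfsg.blockRank 2 b)
    (fun χ hχ => AS_odd D (hmem χ hχ).1 (hmem χ hχ).2)
    (fun χ _ => AS_nonneg D χ)
    (fun χ hχ => by
      have h := card_le_AS D (hmem χ hχ).1 (hmem χ hχ).2
        {χ : Cfsg.IrrCharacter G | χ ∈ B ∧ Cfsg.blockHeight 2 B (χ : G → ℂ) = 0} (fun ψ hψ => hψ)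
      have e : Nat.card ↥{χ : Cfsg.IrrCharacter G | χ ∈ B ∧ Cfsg.blockHeight 2 B (χ : G → ℂ) = 0}
          = S.card := hcard
      rw [e] at h
      push_cast
      exact h)
    (by
      have h := sum_AS D
      push_cast
      rw [← h, hS, Finset.sum_filter]
      apply Finset.sum_le_sum; intro χ _
      by_cases h1 : χ ∈ B
      · rw [if_pos h1]
        split_ifs
        · exact le_refl _
        · exact AS_nonneg D χ
      · rw [if_neg h1, if_neg (fun h => h1 h.1)])
  rw [hcard]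
  refine ⟨key.1, key.2, ?_⟩
  intro hl
  have h3 : Cfsg.blockRank 2 b = 0 ∨ Cfsg.blockRank 2 b = 1 ∨ Cfsg.blockRank 2 b = 2 ∨
      Cfsg.blockRank 2 b = 3 := by omega
  rcases h3 with h | h | h | h
  · have := key.2 (by rw [h]; decide)
    rw [h] at this
    simp at this
    rw [this]; simp
  · have := key.1 (by rw [h]; decide)
    rw [h] at this
    simpa using this
  · have h2 : Nat.sqrt 2 = 1 := (Nat.eq_sqrt (n := 2) (a := 1)).2 ⟨by norm_num, by norm_num⟩ |>.symm
    have := key.1 (by rw [h, h2]; decide)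
    rw [h, h2] at this
    simpa using this
  · have h2 : Nat.sqrt 3 = 1 := (Nat.eq_sqrt (n := 3) (a := 1)).2 ⟨by norm_num, by norm_num⟩ |>.symm
    have := key.1 (by rw [h, h2]; decide)
    rw [h, h2] at this
    simpa using this

end Cfsg.Agent.S4541
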