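import Cfsg.Statements.S4550
import Cfsg.Agent.Lib.Helper81.Heights
import Cfsg.Agent.Lib.Helper80.BlockBasic
import Cfsg.Agent.Lib.Helper79.GaloisChar
import Cfsg.Agent.S0944

set_option autoImplicit false
open Cfsg

namespace Cfsg.Agent.S4550

open scoped ComplexConjugate

theorem two_pow_dvd_three_pow (j : ℕ) : (2 : ℤ) ^ j ∣ 3 ^ (2 ^ j) - 1 := by
  induction j with
  | zero => simp
  | succ j ih =>
    have h1 : (3 : ℤ) ^ (2 ^ (j + 1)) - 1 = (3 ^ (2 ^ j) - 1) * (3 ^ (2 ^ j) + 1) := by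
      rw [pow_succ 2 j, pow_mul]; ring
    rw [h1, pow_succ]
    apply mul_dvd_mul ih
    have : Odd ((3 : ℤ) ^ (2 ^ j)) := Odd.pow (by decide)
    exact (this.add_odd odd_one).two_dvd

section
variable {G : Type*} [Group G] [Finite G]

theorem pow_pow_eq_of_two (k : ℕ) (hk₁ : ∀ g : G, (∃ j : ℕ, orderOf g = 2 ^ j) → g ^ k = g ^ 3)
    (j : ℕ) : ∀ x : G, (∃ i : ℕ, orderOf x = 2 ^ i) → x ^ (k ^ j) = x ^ (3 ^ j) := by
  induction j with
  | zero => intro x _; simp
  | succ j ih =>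
    intro x hx
    rw [pow_succ, pow_mul, ih x hx, pow_succ 3 j, pow_mul]
    apply hk₁
    obtain ⟨i, hi⟩ := hx
    have h1 : orderOf (x ^ 3 ^ j) ∣ 2 ^ i := by
      rw [← hi]; exact orderOf_pow_dvd _
    obtain ⟨i', -, hi'⟩ := (Nat.dvd_prime_pow Nat.prime_two).1 h1
    exact ⟨i', hi'⟩

theorem pow_pow_eq_of_odd (k : ℕ) (hk₂ : ∀ g : G, Odd (orderOf g) → g ^ k = g)
    (j : ℕ) : ∀ y : G, Odd (orderOf y) → y ^ (k ^ j) = y := by
  induction j with
  | zero => intro y _; simp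
  | succ j ih =>
    intro y hy
    rw [pow_succ, pow_mul, ih y hy, hk₂ y hy]

/-- the power map has `2`-power order -/
theorem pow_pow_eq_self (k : ℕ) (hk₁ : ∀ g : G, (∃ j : ℕ, orderOf g = 2 ^ j) → g ^ k = g ^ 3)
    (hk₂ : ∀ g : G, Odd (orderOf g) → g ^ k = g) (g : G) :
    g ^ (k ^ (2 ^ (Nat.card G).factorization 2)) = g := by
  set a := (Nat.card G).factorization 2 with ha
  set m := Nat.card G / 2 ^ a with hm
  have hcard : 2 ^ a * m = Nat.card G := Nat.ordProj_mul_ordCompl_eq_self _ _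
  have hmodd : ¬ 2 ∣ m := Nat.not_dvd_ordCompl Nat.prime_two Nat.card_pos.ne'
  have hcop : Nat.Coprime (2 ^ a) m :=
    Nat.Coprime.pow_left _ ((Nat.Prime.coprime_iff_not_dvd Nat.prime_two).2 hmodd)
  -- Bezout
  have hbez := Nat.gcd_eq_gcd_ab (2 ^ a) m
  rw [hcop.gcd_eq_one] at hbez
  set u := Nat.gcdA (2 ^ a) m
  set v := Nat.gcdB (2 ^ a) m
  set x := g ^ ((m : ℤ) * v) with hx
  set y := g ^ (((2 ^ a : ℕ) : ℤ) * u) with hy
  have hg : g = x * y := by
    rw [hx, hy, ← zpow_add]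
    have : (m : ℤ) * v + ((2 ^ a : ℕ) : ℤ) * u = 1 := by
      have h0 : (((1 : ℕ) : ℤ)) = 1 := by norm_num
      rw [← h0, hbez]; ring
    rw [this, zpow_one]
  have hxy : Commute x y := by
    rw [hx, hy]
    exact (Commute.refl g).zpow_zpow _ _
  have hx2 : x ^ (2 ^ a) = 1 := by
    rw [hx, ← zpow_natCast, ← zpow_mul]
    have : (m : ℤ) * v * ((2 ^ a : ℕ) : ℤ) = ((Nat.card G : ℕ) : ℤ) * v := by
      rw [← hcard]; push_cast; ring
    rw [this, zpow_mul, zpow_natCast, pow_card_eq_one', one_zpow]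
  have hym : y ^ m = 1 := by
    rw [hy, ← zpow_natCast, ← zpow_mul]
    have : ((2 ^ a : ℕ) : ℤ) * u * (m : ℤ) = ((Nat.card G : ℕ) : ℤ) * u := by
      rw [← hcard]; push_cast; ring
    rw [this, zpow_mul, zpow_natCast, pow_card_eq_one', one_zpow]
  have hxo : ∃ i : ℕ, orderOf x = 2 ^ i := by
    obtain ⟨i, -, hi⟩ := (Nat.dvd_prime_pow Nat.prime_two).1 (orderOf_dvd_of_pow_eq_one hx2)
    exact ⟨i, hi⟩
  have hyo : Odd (orderOf y) := by
    have h1 := orderOf_dvd_of_pow_eq_one hym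
    rw [← Nat.not_even_iff_odd, even_iff_two_dvd]
    exact fun h => hmodd (h.trans h1)
  rw [hg, hxy.mul_pow, pow_pow_eq_of_two k hk₁ _ x hxo, pow_pow_eq_of_odd k hk₂ _ y hyo]
  congr 1
  have h3 := two_pow_dvd_three_pow a
  have h4 : x ^ (3 ^ 2 ^ a) = x ^ 1 := by
    rw [pow_eq_pow_iff_modEq]
    apply Nat.ModEq.symm
    rw [Nat.modEq_iff_dvd]
    have h5 : ((orderOf x : ℕ) : ℤ) ∣ (2 : ℤ) ^ a := by
      exact_mod_cast orderOf_dvd_of_pow_eq_one hx2
    push_cast
    exact h5.trans h3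
  rw [h4, pow_one]

theorem coprime_of_pow (k : ℕ) (hk₁ : ∀ g : G, (∃ j : ℕ, orderOf g = 2 ^ j) → g ^ k = g ^ 3)
    (hk₂ : ∀ g : G, Odd (orderOf g) → g ^ k = g) : k.Coprime (Nat.card G) := by
  apply Nat.Coprime.symm
  apply Nat.coprime_of_dvd
  intro q hq hqG hqk
  have : Fact q.Prime := ⟨hq⟩
  obtain ⟨g, hg⟩ := exists_prime_orderOf_dvd_card' q hqG
  have h1 : g ^ k = 1 := by
    rw [← orderOf_dvd_iff_pow_eq_one, hg]; exact hqk
  have hg1 : g ≠ 1 := by
    intro h; rw [h, orderOf_one] at hg; exact hq.one_lt.ne hg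
  rcases hq.eq_two_or_odd' with h2 | hodd
  · have h3 := hk₁ g ⟨1, by rw [hg, h2, pow_one]⟩
    rw [h1] at h3
    have h4 : g ^ 2 = 1 := by rw [← h2, ← hg]; exact pow_orderOf_eq_one g
    apply hg1
    rw [pow_succ, h4, one_mul] at h3
    exact h3.symm
  · have h3 := hk₂ g (hg ▸ hodd)
    rw [h1] at h3
    exact hg1 h3.symm

end

/-- Let G be a finite group of even order and M a maximal ideal of the algebraic integers containing 2. Let k be a natural number with g ^ k = g ^ 3 for every 2-element g and g ^ k = g for every element g of odd order (such k exist); an irreducible character χ is unchanged by g ↦ g ^ k exactly when it is fixed by the field automorphism that cubes the 2-power roots of unity and fixes the roots of unity of odd order. Then the number of members χ of the principal 2-block of odd degree with χ (g ^ k) = χ g for all g is even. -/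
theorem result {G : Type*} [Group G] [Finite G] (M : Ideal Cfsg.AlgInt) (hM : Cfsg.IsPModular 2 M) (hev : Even (Nat.card G)) (k : ℕ) (hk₁ : ∀ g : G, (∃ j : ℕ, orderOf g = 2 ^ j) → g ^ k = g ^ 3) (hk₂ : ∀ g : G, Odd (orderOf g) → g ^ k = g) : Even (Nat.card {χ : Cfsg.IrrCharacter G // χ ∈ Cfsg.principalBlock M G ∧ Odd (Cfsg.charDegree (χ : G → ℂ)) ∧ ∀ g : G, (χ : G → ℂ) (g ^ k) = (χ : G → ℂ) g}) := by
  classical
  have : Fintype G := Fintype.ofFinite G
  have : Finite (Cfsg.IrrCharacter G) := Cfsg.Agent.Lib.Helper20.finite_irrCharacter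
  have : Fintype (Cfsg.IrrCharacter G) := Fintype.ofFinite _
  have : Fact (Nat.Prime 2) := ⟨Nat.prime_two⟩
  have hcop := coprime_of_pow k hk₁ hk₂
  set B := Cfsg.principalBlock M G with hB
  have hBb : Cfsg.IsPBlock M B := Cfsg.Agent.Lib.Helper80.isPBlock_principal M
  -- step 1: the number of odd degree characters in `B` is even
  obtain ⟨t, ht⟩ := exists_prime_orderOf_dvd_card' 2 hev.two_dvd
  have horth := (Cfsg.Agent.Lib.Helper81.bS_regular_singular hM B hBb (x := (1 : G)) (y := t)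
    (by rw [orderOf_one]; decide) (by rw [ht])).1
  choose n hn1 hn2 using fun χ : Cfsg.IrrCharacter G => Cfsg.Agent.S0944.result χ t ht
  have hsum : ∑ χ : Cfsg.IrrCharacter G,
      (if χ ∈ B then (Cfsg.charDegree (χ : G → ℂ) : ℤ) * n χ else 0) = 0 := by
    have h1 : ((∑ χ : Cfsg.IrrCharacter G,
      (if χ ∈ B then (Cfsg.charDegree (χ : G → ℂ) : ℤ) * n χ else 0) : ℤ) : ℂ) = 0 := by
      rw [← horth]
      unfold Cfsg.Agent.Lib.Helper81.bS
      rw [Cfsg.Agent.Lib.Helper81.finsum_mem_irr]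
      push_cast
      apply Finset.sum_congr rfl; intro χ _
      split_ifs
      · rw [Cfsg.Agent.Lib.Helper81.irr_one_eq, hn1 χ]
        simp
      · rfl
    exact_mod_cast h1
  have hT : Even (Fintype.card {χ : Cfsg.IrrCharacter G //
      χ ∈ B ∧ Odd (Cfsg.charDegree (χ : G → ℂ))}) := by
    have h1 : ((∑ χ : Cfsg.IrrCharacter G,
      (if χ ∈ B then (Cfsg.charDegree (χ : G → ℂ) : ℤ) * n χ else 0) : ℤ) : ZMod 2)
        = ((Fintype.card {χ : Cfsg.IrrCharacter G //
      χ ∈ B ∧ Odd (Cfsg.charDegree (χ : G → ℂ))} : ℕ) : ZMod 2) := by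
      rw [Fintype.card_subtype, Finset.card_eq_sum_ones, Finset.sum_filter]
      push_cast
      apply Finset.sum_congr rfl; intro χ _
      by_cases hχ : χ ∈ B
      · have h2 : ((n χ : ℤ) : ZMod 2) = ((Cfsg.charDegree (χ : G → ℂ) : ℤ) : ZMod 2) := by
          have := (ZMod.intCast_zmod_eq_zero_iff_dvd
            ((Cfsg.charDegree (χ : G → ℂ) : ℤ) - n χ) 2).2 (by exact_mod_cast hn2 χ)
          push_cast at this
          push_cast
          exact (sub_eq_zero.1 this).symm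
        by_cases hodd : Odd (Cfsg.charDegree (χ : G → ℂ))
        · rw [if_pos hχ, if_pos ⟨hχ, hodd⟩]
          push_cast
          rw [h2]
          push_cast
          have : ((Cfsg.charDegree (χ : G → ℂ) : ℕ) : ZMod 2) = 1 :=
            (ZMod.natCast_eq_one_iff_odd).2 hodd
          rw [this, mul_one]
        · rw [if_pos hχ, if_neg (fun h => hodd h.2)]
          push_cast
          have : ((Cfsg.charDegree (χ : G → ℂ) : ℕ) : ZMod 2) = 0 :=
            (ZMod.natCast_eq_zero_iff_even).2 (Nat.not_odd_iff_even.1 hodd)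
          rw [this, zero_mul]
      · rw [if_neg hχ, if_neg (fun h => hχ h.1)]
    rw [hsum] at h1
    exact (ZMod.natCast_eq_zero_iff_even).1 (by rw [← h1]; simp)
  -- step 2: the Galois action
  have hcent : ∀ g : G, Subgroup.centralizer ({g ^ k} : Set G) = Subgroup.centralizer ({g} : Set G) := by
    intro g
    apply le_antisymm
    · intro c hc
      rw [Subgroup.mem_centralizer_iff] at hc ⊢
      intro v hv
      rw [Set.mem_singleton_iff] at hv
      have h1 : Commute (g ^ k) c := hc _ rfl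
      have h2 := h1.pow_left (k ^ (2 ^ (Nat.card G).factorization 2 - 1))
      rw [← pow_mul, ← pow_succ', Nat.sub_add_cancel Nat.one_le_two_pow,
        pow_pow_eq_self k hk₁ hk₂ g] at h2
      rw [hv]; exact h2
    · intro c hc
      rw [Subgroup.mem_centralizer_iff] at hc ⊢
      intro v hv
      rw [Set.mem_singleton_iff] at hv
      have h1 : Commute g c := hc _ rfl
      rw [hv]; exact h1.pow_left k
  let τ : Cfsg.IrrCharacter G → Cfsg.IrrCharacter G := fun χ =>
    ⟨fun g => (χ : G → ℂ) (g ^ k), Cfsg.Agent.Lib.Helper79.IsIrrCharacter.pow_coprime χ.2 k hcop⟩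
  have hτB : ∀ χ ∈ B, τ χ ∈ B := by
    intro χ hχ
    show Cfsg.SameBlock M (fun _ => 1) ((τ χ : Cfsg.IrrCharacter G) : G → ℂ)
    intro g
    have h1 : Cfsg.SameBlock M (fun _ => 1) (χ : G → ℂ) := hχ
    have h2 := h1 (g ^ k)
    have h3 : Cfsg.centralChar ((τ χ : Cfsg.IrrCharacter G) : G → ℂ) g
        = Cfsg.centralChar (χ : G → ℂ) (g ^ k) := by
      unfold Cfsg.centralChar
      show _ * (χ : G → ℂ) (g ^ k) / (χ : G → ℂ) (1 ^ k) = _
      rw [hcent g, one_pow]
    rw [h3]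
    rw [Cfsg.Agent.Lib.Helper80.centralChar_one_fun] at h2 ⊢
    rw [hcent g] at h2
    exact h2
  have hτdeg : ∀ χ, Cfsg.charDegree ((τ χ : Cfsg.IrrCharacter G) : G → ℂ)
      = Cfsg.charDegree (χ : G → ℂ) := by
    intro χ
    unfold Cfsg.charDegree
    show ⌊((χ : G → ℂ) (1 ^ k)).re⌋₊ = _
    rw [one_pow]
  let f : Function.End {χ : Cfsg.IrrCharacter G // χ ∈ B ∧ Odd (Cfsg.charDegree (χ : G → ℂ))} :=
    fun χ => ⟨τ χ.1, hτB _ χ.2.1, by rw [hτdeg]; exact χ.2.2⟩
  have hfpow : ∀ (j : ℕ) (χ : {χ : Cfsg.IrrCharacter G // χ ∈ B ∧ Odd (Cfsg.charDegree (χ : G → ℂ))})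
      (g : G), (((f ^ j) χ).1 : G → ℂ) g = (χ.1 : G → ℂ) (g ^ (k ^ j)) := by
    intro j
    induction j with
    | zero => intro χ g; simp only [pow_zero, pow_one]; rfl
    | succ j ih =>
      intro χ g
      rw [pow_succ]
      show (((f ^ j) (f χ)).1 : G → ℂ) g = _
      rw [ih (f χ) g]
      show (χ.1 : G → ℂ) ((g ^ (k ^ j)) ^ k) = _
      rw [← pow_mul, ← pow_succ]
  have hf1 : f ^ 2 ^ (Nat.card G).factorization 2 = 1 := by
    funext χ
    apply Subtype.ext
    apply Subtype.ext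
    funext g
    rw [hfpow, pow_pow_eq_self k hk₁ hk₂ g]
    rfl
  have hmod := Equiv.Perm.card_fixedPoints_modEq hf1
  have hfix : Nat.card {χ : Cfsg.IrrCharacter G // χ ∈ B ∧
      Odd (Cfsg.charDegree (χ : G → ℂ)) ∧ ∀ g : G, (χ : G → ℂ) (g ^ k) = (χ : G → ℂ) g}
      = Fintype.card (Function.fixedPoints f) := by
    rw [← Nat.card_eq_fintype_card]
    apply Nat.card_congr
    refine ⟨fun χ => ⟨⟨χ.1, χ.2.1, χ.2.2.1⟩, ?_⟩, fun χ => ⟨χ.1.1, χ.1.2.1, χ.1.2.2, ?_⟩, ?_, ?_⟩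
    · show f _ = _
      apply Subtype.ext
      apply Subtype.ext
      funext g
      exact χ.2.2.2 g
    · intro g
      have h1 : f χ.1 = χ.1 := χ.2
      have h2 := congrArg (fun z => (z.1 : G → ℂ) g) h1
      exact h2
    · intro χ; rfl
    · intro χ; rfl
  rw [hfix]
  have h5 : Fintype.card (Function.fixedPoints f) % 2 = 0 := by
    rw [← hmod]
    exact Nat.even_iff.1 hT
  exact Nat.even_iff.2 h5


end Cfsg.Agent.S4550
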