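import Cfsg.Statements.S4558
import Cfsg.Agent.Lib.Helper79.Eigen

set_option autoImplicit false
open Cfsg

namespace Cfsg.Agent.S4558

open Polynomial in
theorem dvd_of_weighted_sum_eq_zero (p j : ℕ) [Fact p.Prime] (s : Finset ℂ) (m : ℂ → ℕ)
    (h : ∀ μ ∈ s, μ ^ (p ^ (j + 1)) = 1) (h0 : ∑ μ ∈ s, (m μ : ℂ) * μ = 0) :
    p ∣ ∑ μ ∈ s, m μ := by
  classical
  have hp : p.Prime := Fact.out
  have hn : 0 < p ^ (j + 1) := pow_pos hp.pos _
  have hζ : IsPrimitiveRoot (Complex.exp (2 * Real.pi * Complex.I / ((p ^ (j + 1) : ℕ) : ℂ))) (p ^ (j + 1)) :=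
    Complex.isPrimitiveRoot_exp _ hn.ne'
  set ζ := Complex.exp (2 * Real.pi * Complex.I / ((p ^ (j + 1) : ℕ) : ℂ)) with hζdef
  have hex : ∀ μ : ℂ, ∃ a : ℕ, μ ∈ s → ζ ^ a = μ := by
    intro μ
    by_cases hμ : μ ∈ s
    · obtain ⟨a, _, ha⟩ := hζ.eq_pow_of_pow_eq_one (h μ hμ)
      exact ⟨a, fun _ => ha⟩
    · exact ⟨0, fun h => absurd h hμ⟩
  choose a ha using hex
  let F : ℤ[X] := ∑ μ ∈ s, C (m μ : ℤ) * X ^ (a μ)
  have hF : aeval ζ F = 0 := by
    simp only [F, map_sum, map_mul, aeval_C, map_pow, aeval_X]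
    rw [← h0]
    apply Finset.sum_congr rfl
    intro μ hμ
    rw [ha μ hμ]
    simp
  have hdvd : cyclotomic (p ^ (j + 1)) ℤ ∣ F := by
    rw [cyclotomic_eq_minpoly hζ hn]
    exact minpoly.isIntegrallyClosed_dvd (hζ.isIntegral hn) hF
  have h1 : (cyclotomic (p ^ (j + 1)) ℤ).eval 1 ∣ F.eval 1 := eval_dvd hdvd
  rw [eval_one_cyclotomic_prime_pow] at h1
  have h2 : F.eval 1 = ((∑ μ ∈ s, m μ : ℕ) : ℤ) := by
    simp [F, eval_finsetSum]
  rw [h2] at h1
  exact_mod_cast h1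

/-- Let χ be a character of the finite group G and g an element of p-power order for the prime p. If χ g = 0, then p divides the degree of χ. -/
theorem result {G : Type*} [Group G] [Finite G] (p : ℕ) [Fact p.Prime] (χ : G → ℂ) (hχ : Cfsg.IsCharacter G χ) (g : G) (hg : ∃ j : ℕ, orderOf g = p ^ j) (h0 : χ g = 0) : p ∣ Cfsg.charDegree χ := by
  obtain ⟨j, hj⟩ := hg
  have hp : p.Prime := Fact.out
  obtain ⟨s, m, h1, h2, h3⟩ := Cfsg.Agent.Lib.Helper79.IsCharacter.exists_weights χ hχ g (p ^ j)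
    (pow_pos hp.pos _) (by rw [← hj]; exact pow_orderOf_eq_one g)
  have hdeg : Cfsg.charDegree χ = ∑ μ ∈ s, m μ := by
    unfold Cfsg.charDegree
    rw [← h2, Complex.natCast_re, Nat.floor_natCast]
  rw [hdeg]
  cases j with
  | zero =>
    have hg1 : g = 1 := by
      rw [pow_zero] at hj
      exact orderOf_eq_one_iff.mp hj
    rw [hg1, ← h2] at h0
    have : (∑ μ ∈ s, m μ) = 0 := by exact_mod_cast h0
    rw [this]
    exact dvd_zero p
  | succ j =>
    apply dvd_of_weighted_sum_eq_zero p j s m h1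
    have := h3 1
    simp only [pow_one] at this
    rw [← this, h0]

end Cfsg.Agent.S4558
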