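import Cfsg.Statements.S4560
import Cfsg.Agent.Lib.Helper96.FourTransD

set_option autoImplicit false
open Cfsg

namespace Cfsg.Agent.S4560

open Cfsg.Agent.Lib.Helper96.FourTrans

theorem permTrans (n : ℕ) :
    MulAction.IsMultiplyPretransitive (Equiv.Perm (Fin n)) (Fin n) 4 :=
  Equiv.Perm.isMultiplyPretransitive (Fin n) 4

theorem altTrans (n : ℕ) (hn : 7 ≤ n) :
    MulAction.IsMultiplyPretransitive (alternatingGroup (Fin n)) (Fin n) 4 := by
  have := alternatingGroup.isMultiplyPretransitive (Fin n)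
  refine MulAction.isMultiplyPretransitive_of_le (n := Nat.card (Fin n) - 2) ?_ (Nat.sub_le _ _)
  rw [Nat.card_eq_fintype_card, Fintype.card_fin]
  omega

theorem ff_alt (n : ℕ) (x : Equiv.Perm (Fin n)) (hx : x ∈ alternatingGroup (Fin n)) :
    ff (Ω := Fin n) (⟨x, hx⟩ : alternatingGroup (Fin n)) = (FF x).card := by
  rw [ff]
  congr 1

theorem tt_alt (n : ℕ) (x : Equiv.Perm (Fin n)) (hx : x ∈ alternatingGroup (Fin n)) :
    tt (Ω := Fin n) (⟨x, hx⟩ : alternatingGroup (Fin n)) = (TT x).card := by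
  rw [tt]
  congr 1

/-- packaging: a zero of `psiS` -/
theorem packS (n : ℕ) (hn : 7 ≤ n) (P : alternatingGroup (Fin n) → Prop)
    (x : Equiv.Perm (Fin n)) (hx : x ∈ alternatingGroup (Fin n)) (hP : P ⟨x, hx⟩)
    (h0 : ((FF x).card : ℂ) ^ 2 - 3 * ((FF x).card : ℂ) + ((TT x).card : ℂ) = 0) :
    ∃ χ : Cfsg.IrrCharacter (alternatingGroup (Fin n)),
      (∃ x : alternatingGroup (Fin n), P x ∧ (χ : alternatingGroup (Fin n) → ℂ) x = 0) ∧
      ∃ ψ : Cfsg.IrrCharacter (Equiv.Perm (Fin n)), ∀ x : alternatingGroup (Fin n),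
        (ψ : Equiv.Perm (Fin n) → ℂ) x = (χ : alternatingGroup (Fin n) → ℂ) x := by
  have i1 := permTrans n
  have i2 := altTrans n hn
  have hc : 4 ≤ Fintype.card (Fin n) := by rw [Fintype.card_fin]; omega
  refine ⟨⟨psiS (alternatingGroup (Fin n)) (Fin n), psiS_irr hc⟩, ⟨⟨x, hx⟩, hP, ?_⟩,
    ⟨psiS (Equiv.Perm (Fin n)) (Fin n), psiS_irr hc⟩, fun y => rfl⟩
  show psiS (alternatingGroup (Fin n)) (Fin n) ⟨x, hx⟩ = 0
  rw [psiS_eq, ff_alt, tt_alt, h0, zero_div]

/-- packaging: a zero of `psiA` -/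
theorem packA (n : ℕ) (hn : 7 ≤ n) (P : alternatingGroup (Fin n) → Prop)
    (x : Equiv.Perm (Fin n)) (hx : x ∈ alternatingGroup (Fin n)) (hP : P ⟨x, hx⟩)
    (h0 : ((FF x).card : ℂ) ^ 2 - 3 * ((FF x).card : ℂ) + 2 - ((TT x).card : ℂ) = 0) :
    ∃ χ : Cfsg.IrrCharacter (alternatingGroup (Fin n)),
      (∃ x : alternatingGroup (Fin n), P x ∧ (χ : alternatingGroup (Fin n) → ℂ) x = 0) ∧
      ∃ ψ : Cfsg.IrrCharacter (Equiv.Perm (Fin n)), ∀ x : alternatingGroup (Fin n),
        (ψ : Equiv.Perm (Fin n) → ℂ) x = (χ : alternatingGroup (Fin n) → ℂ) x := by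
  have i1 := permTrans n
  have i2 := altTrans n hn
  have hc : 4 ≤ Fintype.card (Fin n) := by rw [Fintype.card_fin]; omega
  refine ⟨⟨psiA (alternatingGroup (Fin n)) (Fin n), psiA_irr hc⟩, ⟨⟨x, hx⟩, hP, ?_⟩,
    ⟨psiA (Equiv.Perm (Fin n)) (Fin n), psiA_irr hc⟩, fun y => rfl⟩
  show psiA (alternatingGroup (Fin n)) (Fin n) ⟨x, hx⟩ = 0
  rw [psiA_eq, ff_alt, tt_alt, h0, zero_div]

/-- For n ≥ 7 the alternating group on n letters has an irreducible character that vanishes at some 2-element and is the restriction of an irreducible character of the symmetric group, and an irreducible character that vanishes at some element of order 3 and is the restriction of an irreducible character of the symmetric group. -/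
theorem result (n : ℕ) (hn : 7 ≤ n) : (∃ χ : Cfsg.IrrCharacter (alternatingGroup (Fin n)), (∃ x : alternatingGroup (Fin n), (∃ j : ℕ, orderOf x = 2 ^ j) ∧ (χ : alternatingGroup (Fin n) → ℂ) x = 0) ∧ ∃ ψ : Cfsg.IrrCharacter (Equiv.Perm (Fin n)), ∀ x : alternatingGroup (Fin n), (ψ : Equiv.Perm (Fin n) → ℂ) x = (χ : alternatingGroup (Fin n) → ℂ) x) ∧ (∃ χ : Cfsg.IrrCharacter (alternatingGroup (Fin n)), (∃ y : alternatingGroup (Fin n), orderOf y = 3 ∧ (χ : alternatingGroup (Fin n) → ℂ) y = 0) ∧ ∃ ψ : Cfsg.IrrCharacter (Equiv.Perm (Fin n)), ∀ x : alternatingGroup (Fin n), (ψ : Equiv.Perm (Fin n) → ℂ) x = (χ : alternatingGroup (Fin n) → ℂ) x) := by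
  constructor
  · rcases Nat.eq_or_lt_of_le hn with rfl | hn8
    · obtain ⟨x, hx, hj, hf, ht⟩ := exists_two_elt_seven
      refine packS 7 hn (fun x => ∃ j : ℕ, orderOf x = 2 ^ j) x hx ?_ ?_
      · show ∃ j : ℕ, orderOf (⟨x, hx⟩ : alternatingGroup (Fin 7)) = 2 ^ j
        rw [Subgroup.orderOf_mk]
        exact hj
      · rw [hf, ht]; norm_num
    · obtain ⟨x, hx, hj, hf, ht⟩ := exists_two_elt n hn8
      have hP : (fun x : alternatingGroup (Fin n) => ∃ j : ℕ, orderOf x = 2 ^ j) ⟨x, hx⟩ := by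
        show ∃ j : ℕ, orderOf (⟨x, hx⟩ : alternatingGroup (Fin n)) = 2 ^ j
        rw [Subgroup.orderOf_mk]
        exact hj
      have h4 : n % 4 = 0 ∨ n % 4 = 1 ∨ n % 4 = 2 ∨ n % 4 = 3 := by omega
      rcases h4 with h | h | h | h
      · exact packS n hn _ x hx hP (by rw [hf, ht, h]; norm_num)
      · exact packA n hn _ x hx hP (by rw [hf, ht, h]; norm_num)
      · exact packA n hn _ x hx hP (by rw [hf, ht, h]; norm_num)
      · exact packS n hn _ x hx hP (by rw [hf, ht, h]; norm_num)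
  · obtain ⟨x, hx, hj, hf, ht⟩ := exists_three_elt n (by omega)
    have hP : (fun x : alternatingGroup (Fin n) => orderOf x = 3) ⟨x, hx⟩ := by
      show orderOf (⟨x, hx⟩ : alternatingGroup (Fin n)) = 3
      rw [Subgroup.orderOf_mk]
      exact hj
    have h3 : n % 3 = 0 ∨ n % 3 = 1 ∨ n % 3 = 2 := by omega
    rcases h3 with h | h | h
    · exact packS n hn _ x hx hP (by rw [hf, ht, h]; norm_num)
    · exact packA n hn _ x hx hP (by rw [hf, ht, h]; norm_num)
    · exact packA n hn _ x hx hP (by rw [hf, ht, h]; norm_num)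

end Cfsg.Agent.S4560
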