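import Cfsg.Statements.S4566
import Cfsg.Agent.Lib.Helper79.Central

set_option autoImplicit false
open Cfsg

namespace Cfsg.Agent.S4566

/-- Let N be a central subgroup of the finite group G, ψ a faithful irreducible (hence degree-one) character of N, and χ an irreducible character of G whose restriction to N contains ψ. If g ∈ G and some x ∈ G has commutator x⁻¹ g⁻¹ x g in N but different from 1, then χ g = 0. -/
theorem result {G : Type*} [Group G] [Fintype G] (N : Subgroup G) [Fintype N] (hN : N ≤ Subgroup.center G) (ψ : Cfsg.IrrCharacter ↥N) (hfaith : ∀ n : ↥N, (ψ : ↥N → ℂ) n = (ψ : ↥N → ℂ) 1 → n = 1) (χ : Cfsg.IrrCharacter G) (hover : Cfsg.classInner (fun n : ↥N => (χ : G → ℂ) n) (ψ : ↥N → ℂ) ≠ 0) (g x : G) (hcomm : x⁻¹ * g⁻¹ * x * g ∈ N) (hne : x⁻¹ * g⁻¹ * x * g ≠ 1) : (χ : G → ℂ) g = 0 := by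
  have hcN : ∀ a b : N, a * b = b * a := by
    intro a b
    apply Subtype.ext
    exact (Subgroup.mem_center_iff.mp (hN b.2) a)
  set z : N := ⟨x⁻¹ * g⁻¹ * x * g, hcomm⟩ with hz
  have hz1 : z⁻¹ ≠ 1 := by
    intro h
    apply hne
    have : z = 1 := inv_eq_one.mp h
    exact congrArg Subtype.val this
  have e1 : x⁻¹ * g * x = g * ((z⁻¹ : N) : G) := by
    simp only [hz, Subgroup.coe_inv]
    group
  have e2 : (χ : G → ℂ) (x⁻¹ * g * x) = (χ : G → ℂ) g := by
    have := Cfsg.Agent.Lib.Helper79.IsIrrCharacter.conj_apply χ.2 g x⁻¹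
    rwa [inv_inv] at this
  have e3 := Cfsg.Agent.Lib.Helper79.IsIrrCharacter.mul_central_of_over N hN ψ.2 χ.2 hover z⁻¹ g
  rw [← e1, e2] at e3
  have e4 : (ψ : N → ℂ) z⁻¹ ≠ 1 := by
    intro h
    apply hz1
    apply hfaith
    rw [h, Cfsg.Agent.Lib.Helper79.IsIrrCharacter.one_eq_one_of_comm ψ.2 hcN]
  have e5 : ((ψ : N → ℂ) z⁻¹ - 1) * (χ : G → ℂ) g = 0 := by
    rw [sub_mul, one_mul, ← e3, sub_self]
  rcases mul_eq_zero.mp e5 with h | h
  · exact absurd (sub_eq_zero.mp h) e4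
  · exact h

end Cfsg.Agent.S4566
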