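import Cfsg.Statements.S4567
import Cfsg.Agent.S4566
import Cfsg.Agent.Lib.Helper20.CharColumn
import Cfsg.Agent.Lib.Helper84.BlockQuot
-- import your own Cfsg.Agent.* helpers here

set_option autoImplicit false
open Cfsg
open scoped ComplexConjugate
open Cfsg.Agent.Lib.Helper20 Cfsg.Agent.Lib.Helper79 Cfsg.Agent.Lib.Helper84

namespace Cfsg.Agent.S4567

/-- counting conjugacy classes with a property. -/
theorem card_classes {H : Type*} [Group H] [Fintype H] (P : ConjClasses H → Prop) [DecidablePred P] :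
    (Nat.card {C : ConjClasses H // P C} : ℂ) =
      ∑ h : H, if P (ConjClasses.mk h) then ((Subgroup.centralizer ({h} : Set H)).index : ℂ)⁻¹ else 0 := by
  classical
  rw [← Finset.sum_fiberwise Finset.univ (fun h : H => ConjClasses.mk h)]
  rw [Nat.card_eq_fintype_card, Fintype.card_subtype, Finset.card_filter, Nat.cast_sum]
  refine Finset.sum_congr rfl (fun C _ => ?_)
  obtain ⟨h0, rfl⟩ := ConjClasses.exists_rep C
  have h1 : ∀ h ∈ Finset.univ.filter (fun h : H => ConjClasses.mk h = ConjClasses.mk h0),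
      (if P (ConjClasses.mk h) then ((Subgroup.centralizer ({h} : Set H)).index : ℂ)⁻¹ else 0) =
      (if P (ConjClasses.mk h0) then ((Subgroup.centralizer ({h0} : Set H)).index : ℂ)⁻¹ else 0) := by
    intro h hh
    have hh' := (Finset.mem_filter.1 hh).2
    rw [hh']
    have hc : IsConj h h0 := ConjClasses.mk_eq_mk_iff_isConj.1 hh'
    have : (Subgroup.centralizer ({h} : Set H)).index = (Subgroup.centralizer ({h0} : Set H)).index := by
      rw [← card_isConj_eq_index, ← card_isConj_eq_index]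
      apply Nat.card_congr
      apply Equiv.subtypeEquivRight
      intro x
      exact ⟨fun hx => hc.symm.trans hx, fun hx => hc.trans hx⟩
    rw [this]
  rw [Finset.sum_congr rfl h1, Finset.sum_const, nsmul_eq_mul]
  have h2 : (Finset.univ.filter (fun h : H => ConjClasses.mk h = ConjClasses.mk h0)).card =
      (Subgroup.centralizer ({h0} : Set H)).index := by
    rw [← card_isConj_eq_index, Nat.card_eq_fintype_card, Fintype.card_subtype]
    congr 1
    ext x
    simp only [Finset.mem_filter, Finset.mem_univ, true_and]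
    rw [ConjClasses.mk_eq_mk_iff_isConj]
    exact ⟨fun h => h.symm, fun h => h.symm⟩
  rw [h2]
  have h3 : ((Subgroup.centralizer ({h0} : Set H)).index : ℂ) ≠ 0 := by
    exact_mod_cast Subgroup.index_ne_zero_of_finite
  split_ifs
  · rw [mul_inv_cancel₀ h3]; simp
  · simp


def Spec {G : Type*} [Group G] (N : Subgroup G) (g : G) : Prop :=
  ∀ x : G, x⁻¹ * g⁻¹ * x * g ∈ N → x * g = g * x

theorem spec_mul_central {G : Type*} [Group G] {N : Subgroup G} (hN : N ≤ Subgroup.center G)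
    {g n : G} (hg : Spec N g) (hn : n ∈ N) : Spec N (g * n) := by
  intro x hx
  have hc : ∀ y : G, y * n = n * y := fun y => Subgroup.mem_center_iff.mp (hN hn) y
  have e1 : x⁻¹ * (g * n)⁻¹ * x * (g * n) = x⁻¹ * g⁻¹ * x * g := by
    have : x⁻¹ * (g * n)⁻¹ * x * (g * n) = x⁻¹ * n⁻¹ * (g⁻¹ * x * g * n) := by group
    rw [this, hc (g⁻¹ * x * g)]
    group
  rw [e1] at hx
  have := hg x hx
  rw [← mul_assoc, this, mul_assoc, mul_assoc, hc x]

theorem spec_conj {G : Type*} [Group G] {N : Subgroup G} [N.Normal]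
    {g : G} (hg : Spec N g) (y : G) : Spec N (y * g * y⁻¹) := by
  intro x hx
  have e1 : (y⁻¹ * x * y)⁻¹ * g⁻¹ * (y⁻¹ * x * y) * g =
      y⁻¹ * (x⁻¹ * (y * g * y⁻¹)⁻¹ * x * (y * g * y⁻¹)) * y⁻¹⁻¹ := by group
  have h1 : (y⁻¹ * x * y)⁻¹ * g⁻¹ * (y⁻¹ * x * y) * g ∈ N := by
    rw [e1]
    exact Subgroup.Normal.conj_mem inferInstance _ hx _
  have h2 := hg _ h1
  calc x * (y * g * y⁻¹) = y * ((y⁻¹ * x * y) * g) * y⁻¹ := by group
    _ = y * (g * (y⁻¹ * x * y)) * y⁻¹ := by rw [h2]
    _ = y * g * y⁻¹ * x := by group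

theorem spec_iff {G : Type*} [Group G] {N : Subgroup G} [N.Normal] (hN : N ≤ Subgroup.center G)
    (g : G) :
    (∃ g' : G, ConjClasses.mk (g' : G ⧸ N) = ConjClasses.mk (g : G ⧸ N) ∧
      ∀ x : G, x⁻¹ * g'⁻¹ * x * g' ∈ N → x * g' = g' * x) ↔ Spec N g := by
  constructor
  · rintro ⟨g', h1, h2⟩
    rw [ConjClasses.mk_eq_mk_iff_isConj, isConj_iff] at h1
    obtain ⟨c, hc⟩ := h1
    obtain ⟨y, rfl⟩ := QuotientGroup.mk_surjective c
    have h3 : ((y * g' * y⁻¹ : G) : G ⧸ N) = (g : G ⧸ N) := by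
      rw [← hc]; simp
    rw [QuotientGroup.eq] at h3
    have h4 := spec_mul_central hN (spec_conj (N := N) h2 y) h3
    have : y * g' * y⁻¹ * ((y * g' * y⁻¹)⁻¹ * g) = g := by group
    rwa [this] at h4
  · intro h
    exact ⟨g, rfl, h⟩

theorem index_eq {G : Type*} [Group G] {N : Subgroup G} [N.Normal]
    {g : G} (hg : Spec N g) :
    (Subgroup.centralizer ({(g : G ⧸ N)} : Set (G ⧸ N))).index =
      (Subgroup.centralizer ({g} : Set G)).index := by
  rw [← Subgroup.index_comap_of_surjective _ (QuotientGroup.mk'_surjective N)]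
  congr 1
  ext x
  rw [Subgroup.mem_comap, Subgroup.mem_centralizer_singleton_iff,
    Subgroup.mem_centralizer_singleton_iff]
  constructor
  · intro h
    apply hg
    rw [← QuotientGroup.eq_one_iff]
    have h' : (x : G ⧸ N) * (g : G ⧸ N) = (g : G ⧸ N) * (x : G ⧸ N) := h
    have e : ((x⁻¹ * g⁻¹ * x * g : G) : G ⧸ N) =
        (x : G ⧸ N)⁻¹ * (g : G ⧸ N)⁻¹ * ((x : G ⧸ N) * (g : G ⧸ N)) := by
      simp [mul_assoc]
    rw [e, h']
    group
  · intro h
    show (x : G ⧸ N) * (g : G ⧸ N) = (g : G ⧸ N) * (x : G ⧸ N)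
    rw [← QuotientGroup.mk_mul, h, QuotientGroup.mk_mul]

theorem avg_over {G : Type*} [Group G] [Fintype G] (N : Subgroup G) [Fintype N]
    (hN : N ≤ Subgroup.center G) (ψ : IrrCharacter N) (χ : IrrCharacter G)
    [Decidable (classInner (fun n : N => (χ : G → ℂ) n) (ψ : N → ℂ) ≠ 0)] (g : G) :
    ∑ n : N, conj ((ψ : N → ℂ) n) * (χ : G → ℂ) (g * n) =
      if classInner (fun n : N => (χ : G → ℂ) n) (ψ : N → ℂ) ≠ 0 then
        (Nat.card N : ℂ) * (χ : G → ℂ) g else 0 := by
  have hcN : ∀ a b : N, a * b = b * a := by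
    intro a b
    apply Subtype.ext
    exact (Subgroup.mem_center_iff.mp (hN b.2) a)
  split_ifs with h
  · have : ∀ n ∈ (Finset.univ : Finset N), conj ((ψ : N → ℂ) n) * (χ : G → ℂ) (g * n) = (χ : G → ℂ) g := by
      intro n _
      rw [IsIrrCharacter.mul_central_of_over N hN ψ.2 χ.2 h n g, ← mul_assoc, mul_comm (conj _),
        Complex.mul_conj, Complex.normSq_eq_norm_sq, IsIrrCharacter.norm_of_comm ψ.2 hcN]
      simp
    rw [Finset.sum_congr rfl this, Finset.sum_const, nsmul_eq_mul, Finset.card_univ,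
      Nat.card_eq_fintype_card]
  · push Not at h
    unfold classInner at h
    have h0 : (Nat.card N : ℂ)⁻¹ ≠ 0 := by
      apply inv_ne_zero
      exact_mod_cast Nat.card_pos.ne'
    have h1 := (mul_eq_zero.1 h).resolve_left h0
    have : ∀ n ∈ (Finset.univ : Finset N), conj ((ψ : N → ℂ) n) * (χ : G → ℂ) (g * n) =
        ((χ : G → ℂ) g / (χ : G → ℂ) 1) * ((χ : G → ℂ) n * conj ((ψ : N → ℂ) n)) := by
      intro n _
      rw [IsIrrCharacter.mul_central χ.2 n (hN n.2) g]
      ring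
    rw [Finset.sum_congr rfl this, ← Finset.mul_sum, h1, mul_zero]


theorem isConj_iff_of_spec {G : Type*} [Group G] {N : Subgroup G} (hN : N ≤ Subgroup.center G)
    {g : G} (hg : Spec N g) (n : N) : IsConj (g * (n : G)) g ↔ n = 1 := by
  constructor
  · intro h
    obtain ⟨c, hc⟩ := isConj_iff.1 h
    have hcn : ∀ y : G, y * (n : G) = n * y := fun y => Subgroup.mem_center_iff.mp (hN n.2) y
    have e1 : c⁻¹⁻¹ * g⁻¹ * c⁻¹ * g = (n : G) := by
      have : c * g * c⁻¹ * n = g := by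
        conv_rhs => rw [← hc]
        rw [mul_assoc c g, mul_assoc c (g * n), mul_assoc c (g * c⁻¹), mul_assoc g, mul_assoc g,
          hcn c⁻¹]
      calc c⁻¹⁻¹ * g⁻¹ * c⁻¹ * g = c⁻¹⁻¹ * g⁻¹ * c⁻¹ * (c * g * c⁻¹ * n) := by rw [this]
        _ = n := by group
    have h1 := hg c⁻¹ (by rw [e1]; exact n.2)
    apply Subtype.ext
    rw [← e1, mul_assoc, h1]
    simp
  · rintro rfl
    simp only [OneMemClass.coe_one, mul_one]
    exact IsConj.refl g

theorem F_spec {G : Type*} [Group G] [Fintype G] (N : Subgroup G) [Fintype N]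
    [Fintype (IrrCharacter G)]
    (hN : N ≤ Subgroup.center G) (ψ : IrrCharacter N)
    [∀ χ : IrrCharacter G, Decidable (classInner (fun n : N => (χ : G → ℂ) n) (ψ : N → ℂ) ≠ 0)]
    {g : G} (hg : Spec N g) :
    ∑ χ : IrrCharacter G, (if classInner (fun n : N => (χ : G → ℂ) n) (ψ : N → ℂ) ≠ 0 then
      (χ : G → ℂ) g * conj ((χ : G → ℂ) g) else 0) =
      (Nat.card N : ℂ)⁻¹ * (Nat.card (Subgroup.centralizer ({g} : Set G)) : ℂ) := by
  classical
  have hcN : ∀ a b : N, a * b = b * a := by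
    intro a b
    apply Subtype.ext
    exact (Subgroup.mem_center_iff.mp (hN b.2) a)
  have h0 : (Nat.card N : ℂ) ≠ 0 := by exact_mod_cast Nat.card_pos.ne'
  rw [eq_inv_mul_iff_mul_eq₀ h0, Finset.mul_sum]
  have h1 : ∀ χ ∈ (Finset.univ : Finset (IrrCharacter G)),
      (Nat.card N : ℂ) * (if classInner (fun n : N => (χ : G → ℂ) n) (ψ : N → ℂ) ≠ 0 then
      (χ : G → ℂ) g * conj ((χ : G → ℂ) g) else 0) =
      ∑ n : N, conj ((ψ : N → ℂ) n) * ((χ : G → ℂ) (g * n) * conj ((χ : G → ℂ) g)) := by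
    intro χ _
    have := avg_over N hN ψ χ g
    simp only [← mul_assoc]
    rw [← Finset.sum_mul, this]
    split_ifs <;> ring
  rw [Finset.sum_congr rfl h1, Finset.sum_comm]
  simp only [← Finset.mul_sum]
  simp only [sum_irr_mul_conj, isConj_iff_of_spec hN hg]
  simp [IsIrrCharacter.one_eq_one_of_comm ψ.2 hcN]



/-- Let N be a central subgroup of the finite group G and ψ a faithful irreducible (hence degree-one) character of N. Call a coset g N special when every x ∈ G whose commutator x⁻¹ g⁻¹ x g lies in N actually commutes with g (this depends only on the coset). Then the number of irreducible characters of G whose restriction to N contains ψ equals the number of conjugacy classes of G/N consisting of special cosets. -/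
theorem result {G : Type*} [Group G] [Fintype G] (N : Subgroup G) [N.Normal] [Fintype N] (hN : N ≤ Subgroup.center G) (ψ : Cfsg.IrrCharacter ↥N) (hfaith : ∀ n : ↥N, (ψ : ↥N → ℂ) n = (ψ : ↥N → ℂ) 1 → n = 1) : Nat.card {χ : Cfsg.IrrCharacter G // Cfsg.classInner (fun n : ↥N => (χ : G → ℂ) n) (ψ : ↥N → ℂ) ≠ 0} = Nat.card {C : ConjClasses (G ⧸ N) // ∃ g : G, ConjClasses.mk (g : G ⧸ N) = C ∧ ∀ x : G, x⁻¹ * g⁻¹ * x * g ∈ N → x * g = g * x} := by
  classical
  have := finite_irrCharacter (G := G)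
  have := Fintype.ofFinite (IrrCharacter G)
  have hG0 : (Nat.card G : ℂ) ≠ 0 := by exact_mod_cast Nat.card_pos.ne'
  have hN0 : (Nat.card N : ℂ) ≠ 0 := by exact_mod_cast Nat.card_pos.ne'
  have hL : (Nat.card {χ : Cfsg.IrrCharacter G // Cfsg.classInner (fun n : ↥N => (χ : G → ℂ) n) (ψ : ↥N → ℂ) ≠ 0} : ℂ)
      = (Nat.card G : ℂ)⁻¹ * ∑ g : G, (if Spec N g then
        (Nat.card N : ℂ)⁻¹ * (Nat.card (Subgroup.centralizer ({g} : Set G)) : ℂ) else 0) := by
    rw [Nat.card_eq_fintype_card, Fintype.card_subtype, Finset.card_filter, Nat.cast_sum]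
    have h1 : ∀ χ ∈ (Finset.univ : Finset (IrrCharacter G)),
        (((if classInner (fun n : N => (χ : G → ℂ) n) (ψ : N → ℂ) ≠ 0 then 1 else 0 : ℕ)) : ℂ) =
        (Nat.card G : ℂ)⁻¹ * ∑ g : G, (if classInner (fun n : N => (χ : G → ℂ) n) (ψ : N → ℂ) ≠ 0 then
          (χ : G → ℂ) g * conj ((χ : G → ℂ) g) else 0) := by
      intro χ _
      have h2 := classInner_irr_self χ.2
      unfold classInner at h2
      split_ifs with h
      · rw [h2]; simp
      · simp
    rw [Finset.sum_congr rfl h1, ← Finset.mul_sum, Finset.sum_comm]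
    congr 1
    refine Finset.sum_congr rfl (fun g _ => ?_)
    split_ifs with hg
    · exact F_spec N hN ψ hg
    · apply Finset.sum_eq_zero
      intro χ _
      split_ifs with h
      · unfold Spec at hg
        push Not at hg
        obtain ⟨x, hx1, hx2⟩ := hg
        have hne : x⁻¹ * g⁻¹ * x * g ≠ 1 := by
          intro h1
          apply hx2
          have : x * g = g * x * (x⁻¹ * g⁻¹ * x * g) := by group
          rw [this, h1, mul_one]
        rw [Cfsg.Agent.S4566.result N hN ψ hfaith χ h g x hx1 hne]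
        simp
      · rfl
  have hR := card_classes (H := G ⧸ N) (fun C => ∃ g : G, ConjClasses.mk (g : G ⧸ N) = C ∧ ∀ x : G, x⁻¹ * g⁻¹ * x * g ∈ N → x * g = g * x)
  have hR2 := sum_comp_mk N (fun q : G ⧸ N => if (∃ g : G, ConjClasses.mk (g : G ⧸ N) = ConjClasses.mk q ∧ ∀ x : G, x⁻¹ * g⁻¹ * x * g ∈ N → x * g = g * x) then ((Subgroup.centralizer ({q} : Set (G ⧸ N))).index : ℂ)⁻¹ else 0)
  have hfin : (Nat.card {χ : Cfsg.IrrCharacter G // Cfsg.classInner (fun n : ↥N => (χ : G → ℂ) n) (ψ : ↥N → ℂ) ≠ 0} : ℂ) = (Nat.card {C : ConjClasses (G ⧸ N) // ∃ g : G, ConjClasses.mk (g : G ⧸ N) = C ∧ ∀ x : G, x⁻¹ * g⁻¹ * x * g ∈ N → x * g = g * x} : ℂ) := by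
    rw [hL, hR]
    apply mul_left_cancel₀ hN0
    rw [← hR2, Finset.mul_sum, Finset.mul_sum]
    refine Finset.sum_congr rfl (fun g _ => ?_)
    simp only [spec_iff hN]
    split_ifs with hg
    · rw [index_eq hg]
      have h3 : (Nat.card G : ℂ) = (Nat.card (Subgroup.centralizer ({g} : Set G)) : ℂ) *
          ((Subgroup.centralizer ({g} : Set G)).index : ℂ) := by
        rw [← Nat.cast_mul, Subgroup.card_mul_index]
      have h4 : ((Subgroup.centralizer ({g} : Set G)).index : ℂ) ≠ 0 := by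
        exact_mod_cast Subgroup.index_ne_zero_of_finite
      have h5 : (Nat.card (Subgroup.centralizer ({g} : Set G)) : ℂ) ≠ 0 := by
        exact_mod_cast Nat.card_pos.ne'
      rw [h3]
      field_simp
    · simp
  exact_mod_cast hfin

end Cfsg.Agent.S4567
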