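import Cfsg.Statements.S4574
import Cfsg.Agent.Lib.Helper79.CharNorm

set_option autoImplicit false
open Cfsg

namespace Cfsg.Agent.S4574

/-- Let χ be an irreducible character of the finite group G, of degree d, and let Z(χ) be the set of elements g with |χ g| = d (the centre of χ). Then χ vanishes on at least (d ^ 2 - 1) · |Z(χ)| elements of G, with equality when every value |χ g| is 0, 1 or d. -/
theorem result {G : Type*} [Group G] [Fintype G] [DecidableEq G] (χ : G → ℂ) (hχ : Cfsg.IsIrrCharacter G χ) : (Cfsg.charDegree χ ^ 2 - 1) * (Finset.univ.filter (fun g : G => ‖χ g‖ = (Cfsg.charDegree χ : ℝ))).card ≤ (Finset.univ.filter (fun g : G => χ g = 0)).card ∧ ((∀ g : G, ‖χ g‖ = 0 ∨ ‖χ g‖ = 1 ∨ ‖χ g‖ = (Cfsg.charDegree χ : ℝ)) → (Cfsg.charDegree χ ^ 2 - 1) * (Finset.univ.filter (fun g : G => ‖χ g‖ = (Cfsg.charDegree χ : ℝ))).card = (Finset.univ.filter (fun g : G => χ g = 0)).card) := by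
  have hc := Cfsg.Agent.Lib.Helper79.IsIrrCharacter.isCharacter hχ
  have hdpos := Cfsg.Agent.Lib.Helper79.IsIrrCharacter.charDegree_pos hχ
  set d := Cfsg.charDegree χ with hd
  set Z := Finset.univ.filter (fun g : G => ‖χ g‖ = (d : ℝ)) with hZ
  set V := Finset.univ.filter (fun g : G => χ g = 0) with hV
  set R := Finset.univ.filter (fun g : G => ¬ ‖χ g‖ = (d : ℝ) ∧ ¬ χ g = 0) with hR
  have hsum := Cfsg.Agent.Lib.Helper79.IsIrrCharacter.sum_norm_sq hχ
  have hdR : (1 : ℝ) ≤ (d : ℝ) := by exact_mod_cast hdpos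
  -- the three sets partition the group
  have hpart : ∀ f : G → ℝ, ∑ g : G, f g = ∑ g ∈ Z, f g + ∑ g ∈ V, f g + ∑ g ∈ R, f g := by
    intro f
    rw [← Finset.sum_filter_add_sum_filter_not Finset.univ (fun g : G => ‖χ g‖ = (d : ℝ)) f,
      ← Finset.sum_filter_add_sum_filter_not
        (Finset.univ.filter (fun g : G => ¬ ‖χ g‖ = (d : ℝ))) (fun g : G => χ g = 0) f,
      Finset.filter_filter, Finset.filter_filter, add_assoc]
    congr 2
    apply Finset.sum_congr _ (fun _ _ => rfl)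
    ext g
    simp only [Finset.mem_filter, Finset.mem_univ, true_and, hV]
    constructor
    · intro h; exact h.2
    · intro h
      refine ⟨?_, h⟩
      rw [h, norm_zero]
      intro h2
      linarith
  have hcard := hpart (fun _ => 1)
  simp only [Finset.sum_const, nsmul_eq_mul, mul_one, Finset.card_univ] at hcard
  have hsq := hpart (fun g => ‖χ g‖ ^ 2)
  have hZsum : ∑ g ∈ Z, ‖χ g‖ ^ 2 = (Z.card : ℝ) * (d : ℝ) ^ 2 := by
    rw [Finset.sum_congr rfl (g := fun _ => (d : ℝ) ^ 2)]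
    · simp
    · intro g hg
      rw [(Finset.mem_filter.mp hg).2]
  have hVsum : ∑ g ∈ V, ‖χ g‖ ^ 2 = 0 := by
    apply Finset.sum_eq_zero
    intro g hg
    rw [(Finset.mem_filter.mp hg).2]
    simp
  have hRge : (R.card : ℝ) ≤ ∑ g ∈ R, ‖χ g‖ ^ 2 := by
    apply Cfsg.Agent.Lib.Helper79.IsCharacter.card_le_sum_norm_sq hc R
    · intro k hk g
      simp only [hR, Finset.mem_filter, Finset.mem_univ, true_and]
      rw [Cfsg.Agent.Lib.Helper79.IsCharacter.pow_coprime_eq_zero_iff hc k hk,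
        Cfsg.Agent.Lib.Helper79.IsCharacter.pow_coprime_norm_eq_natCast_iff hc k hk]
    · intro g hg
      exact (Finset.mem_filter.mp hg).2.2
  rw [hsum, hZsum, hVsum, add_zero, Nat.card_eq_fintype_card] at hsq
  have hcast : (((d ^ 2 - 1) * Z.card : ℕ) : ℝ) = ((d : ℝ) ^ 2 - 1) * (Z.card : ℝ) := by
    rw [Nat.cast_mul, Nat.cast_sub (Nat.one_le_pow _ _ hdpos)]
    push_cast
    ring
  constructor
  · have : (((d ^ 2 - 1) * Z.card : ℕ) : ℝ) ≤ (V.card : ℝ) := by
      rw [hcast]
      nlinarith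
    exact_mod_cast this
  · intro hall
    have hReq : ∑ g ∈ R, ‖χ g‖ ^ 2 = (R.card : ℝ) := by
      rw [Finset.sum_congr rfl (g := fun _ => (1 : ℝ))]
      · simp
      · intro g hg
        have hg' := (Finset.mem_filter.mp hg).2
        rcases hall g with h | h | h
        · exact absurd (norm_eq_zero.mp h) hg'.2
        · rw [h]; norm_num
        · exact absurd h hg'.1
    have : (((d ^ 2 - 1) * Z.card : ℕ) : ℝ) = (V.card : ℝ) := by
      rw [hcast]
      nlinarith
    exact_mod_cast this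

end Cfsg.Agent.S4574
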