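import Cfsg.Statements.S4582
-- import your own Cfsg.Agent.* helpers here
import Mathlib

set_option autoImplicit false
open Cfsg

namespace Cfsg.Agent.S4582

open Subgroup MulAction in
theorem transfer_sq {G A : Type*} [Group G] [CommGroup A] (P N : Subgroup G) [N.Normal]
    [P.FiniteIndex]
    (hG : ∀ g : G, ∃ n ∈ N, ∃ p ∈ P, g = n * p)
    (ϕ : P →* A)
    (ha : ∀ q : P, (q : G) ∈ N → ϕ q ^ 2 = 1)
    (x : P) :
    (MonoidHom.transfer ϕ (x : G)) ^ 2 = ϕ x ^ (2 * P.index) := by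
  classical
  let := P.fintypeQuotientOfFiniteIndex
  have key : ∀ (k : ℕ) (t : G) (h : t⁻¹ * (x : G) ^ k * t ∈ P),
      ϕ ⟨t⁻¹ * (x : G) ^ k * t, h⟩ ^ 2 = (ϕ x ^ 2) ^ k := by
    intro k t h
    obtain ⟨n, hn, p, hp, rfl⟩ := hG t
    have hy : n⁻¹ * (x : G) ^ k * n ∈ P := by
      have := P.mul_mem (P.mul_mem hp h) (P.inv_mem hp)
      convert this using 1
      group
    have hxk : (x : G) ^ k ∈ P := P.pow_mem x.2 k
    have hc : ((x : G) ^ k)⁻¹ * (n⁻¹ * (x : G) ^ k * n) ∈ P := P.mul_mem (P.inv_mem hxk) hy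
    have hcN : ((x : G) ^ k)⁻¹ * (n⁻¹ * (x : G) ^ k * n) ∈ N := by
      have h1 : ((x : G) ^ k)⁻¹ * n⁻¹ * (((x : G) ^ k)⁻¹)⁻¹ ∈ N :=
        ‹N.Normal›.conj_mem _ (N.inv_mem hn) _
      have := N.mul_mem h1 hn
      convert this using 1
      group
    have e : (⟨(n * p)⁻¹ * (x : G) ^ k * (n * p), h⟩ : P)
        = (⟨p, hp⟩ : P)⁻¹ * (x ^ k * ⟨_, hc⟩) * ⟨p, hp⟩ := by
      apply Subtype.ext
      simp only [Subgroup.coe_mul, Subgroup.coe_inv, Subgroup.coe_pow]
      group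
    rw [e, map_mul, map_mul, map_mul, map_inv, map_pow]
    have h2 := ha ⟨_, hc⟩ hcN
    rw [mul_comm (ϕ ⟨p, hp⟩)⁻¹, mul_assoc, inv_mul_cancel, mul_one, mul_pow, h2, mul_one,
      ← pow_mul, ← pow_mul, mul_comm]
  rw [MonoidHom.transfer_eq_prod_quotient_orbitRel_zpowers_quot, ← Finset.prod_pow]
  rw [Finset.prod_congr rfl (fun q _ => key _ _ _), Finset.prod_pow_eq_pow_sum,
    ← index_eq_sum_minimalPeriod P (x : G), pow_mul]

/-- Let N be a normal subgroup of the finite group G, P a Sylow 2-subgroup of G and Q = P ∩ N. Suppose that P/QP' and Q/Q' are elementary abelian (every square of an element of P lies in the subgroup generated by Q and the derived subgroup of P, and every square of an element of Q lies in the derived subgroup of Q), and that the commutator factor group N/N' has odd order. Then P/P' is elementary abelian. -/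
theorem result {G : Type*} [Group G] [Finite G] (N : Subgroup G) [N.Normal] (P : Sylow 2 G)
    (hP : ∀ x ∈ (P : Subgroup G), x ^ 2 ∈ ((P : Subgroup G) ⊓ N) ⊔ ⁅(P : Subgroup G), (P : Subgroup G)⁆)
    (hQ : ∀ x ∈ (P : Subgroup G) ⊓ N, x ^ 2 ∈ ⁅(P : Subgroup G) ⊓ N, (P : Subgroup G) ⊓ N⁆)
    (hodd : Odd (Nat.card (Abelianization N))) :
    ∀ x ∈ (P : Subgroup G), x ^ 2 ∈ ⁅(P : Subgroup G), (P : Subgroup G)⁆ := by
  classical
  intro x hx
  set P0 : Subgroup G := (P : Subgroup G) with hP0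
  set K : Subgroup G := P0 ⊔ N with hK
  have hPK : P0 ≤ K := le_sup_left
  have hNK : N ≤ K := le_sup_right
  let P1 : Subgroup K := P0.subgroupOf K
  let N1 : Subgroup K := N.subgroupOf K
  have : N1.Normal := Subgroup.normal_subgroupOf
  let e : P1 ≃* P0 := Subgroup.subgroupOfEquivOfLe hPK
  let ϕ : P1 →* Abelianization P0 := Abelianization.of.comp e.toMonoidHom
  have hϕ : ∀ (y : P1), ϕ y = Abelianization.of (⟨(y : K), y.2⟩ : P0) := fun y => rfl
  -- membership criterion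
  have hker : ∀ (y : P0), Abelianization.of y = 1 ↔ (y : G) ∈ ⁅P0, P0⁆ := by
    intro y
    rw [← MonoidHom.mem_ker, Abelianization.ker_of, ← Subgroup.map_subtype_commutator]
    constructor
    · intro h; exact ⟨y, h, rfl⟩
    · rintro ⟨z, hz, hzy⟩
      have : z = y := Subtype.ext hzy
      exact this ▸ hz
  have hG : ∀ g : K, ∃ n ∈ N1, ∃ p ∈ P1, g = n * p := by
    intro g
    have hg : (g : G) ∈ ((N ⊔ P0 : Subgroup G) : Set G) := by
      rw [sup_comm]; exact g.2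
    rw [Subgroup.normal_mul] at hg
    obtain ⟨n, hn, p, hp, hnp⟩ := hg
    exact ⟨⟨n, hNK hn⟩, hn, ⟨p, hPK hp⟩, hp, Subtype.ext hnp.symm⟩
  have ha : ∀ q : P1, (q : K) ∈ N1 → ϕ q ^ 2 = 1 := by
    intro q hq
    rw [hϕ, ← map_pow, hker]
    have h1 : ((q : K) : G) ∈ P0 ⊓ N := ⟨q.2, hq⟩
    have h2 := hQ _ h1
    exact Subgroup.commutator_mono inf_le_left inf_le_left h2
  have hx1 : (⟨x, hPK hx⟩ : K) ∈ P1 := hx
  have hsq := transfer_sq P1 N1 hG ϕ ha ⟨_, hx1⟩
  -- the transfer kills N1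
  have hP2 : IsPGroup 2 (Abelianization P0) :=
    (P.isPGroup'.of_surjective Abelianization.of (QuotientGroup.mk_surjective))
  have hN : ∀ n ∈ N1, MonoidHom.transfer ϕ n = 1 := by
    intro n hn
    let f : N →* Abelianization P0 :=
      (MonoidHom.transfer ϕ).comp (Subgroup.inclusion hNK)
    have hf : f ⟨n, hn⟩ = MonoidHom.transfer ϕ n := rfl
    rw [← hf]
    have h1 : f ⟨n, hn⟩ = Abelianization.lift f (Abelianization.of ⟨n, hn⟩) := by simp
    rw [h1]
    set z := Abelianization.of (⟨n, hn⟩ : N) with hz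
    have h2 : (Abelianization.lift f z) ^ (Nat.card (Abelianization N)) = 1 := by
      rw [← map_pow, pow_card_eq_one', map_one]
    obtain ⟨k, hk⟩ := hP2 (Abelianization.lift f z)
    have hcop : Nat.Coprime (Nat.card (Abelianization N)) (2 ^ k) :=
      Nat.Coprime.pow_right _ (Nat.coprime_two_right.mpr hodd)
    have := pow_gcd_eq_one.mpr ⟨h2, hk⟩
    rwa [hcop, pow_one] at this
  -- the transfer kills x ^ 2
  have hle : ((P0 ⊓ N) ⊔ ⁅P0, P0⁆).subgroupOf K ≤ (MonoidHom.transfer ϕ).ker := by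
    intro g hg
    have hg' : (g : G) ∈ (P0 ⊓ N) ⊔ ⁅P0, P0⁆ := hg
    have hmap : (P0 ⊓ N) ⊔ ⁅P0, P0⁆ ≤ ((MonoidHom.transfer ϕ).ker).map K.subtype := by
      rw [sup_le_iff]
      constructor
      · intro y hy
        exact ⟨⟨y, hNK hy.2⟩, hN _ hy.2, rfl⟩
      · have h1 : ⁅P0, P0⁆ ≤ ⁅K, K⁆ := Subgroup.commutator_mono hPK hPK
        refine h1.trans ?_
        rw [← Subgroup.map_subtype_commutator]
        exact Subgroup.map_mono (Abelianization.commutator_subset_ker _)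
    obtain ⟨g2, hg2, hgg⟩ := hmap hg'
    have : g2 = g := Subtype.ext hgg
    exact this ▸ hg2
  have hx2 : MonoidHom.transfer ϕ ((⟨x, hPK hx⟩ : K)) ^ 2 = 1 := by
    rw [← map_pow]
    exact hle (hP x hx)
  rw [hx2] at hsq
  have hodd2 : Odd P1.index := by
    have h1 : P1.index * K.index = P0.index := Subgroup.relIndex_mul_index hPK
    have h2 : ¬ 2 ∣ P0.index := P.not_dvd_index
    rw [← h1] at h2
    rw [← Nat.not_even_iff_odd, even_iff_two_dvd]
    exact fun h => h2 (Dvd.dvd.mul_right h _)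
  have h3 : (ϕ ⟨_, hx1⟩ ^ 2) ^ P1.index = 1 := by rw [← pow_mul]; exact hsq.symm
  obtain ⟨k, hk⟩ := hP2 (ϕ ⟨_, hx1⟩ ^ 2)
  have hcop : Nat.Coprime P1.index (2 ^ k) :=
    Nat.Coprime.pow_right _ (Nat.coprime_two_right.mpr hodd2)
  have h4 := pow_gcd_eq_one.mpr ⟨h3, hk⟩
  rw [hcop, pow_one, hϕ, ← map_pow, hker] at h4
  exact h4

end Cfsg.Agent.S4582
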