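import Cfsg.Statements.S4583
-- import your own Cfsg.Agent.* helpers here
import Mathlib
import Cfsg.Agent.Lib.Helper21.PrincipalOver

set_option autoImplicit false
open Cfsg
open Cfsg.Agent.Lib.Helper20 Cfsg.Agent.Lib.Helper81 Cfsg.Agent.Lib.Helper21 Cfsg.Agent.Lib.Helper5

namespace Cfsg.Agent.S4583

/-- Let N be a normal subgroup of the finite group G, p a prime, M a maximal ideal of the algebraic integers containing p, and P a Sylow p-subgroup of G. Let θ be an irreducible character of N of degree prime to p lying in the principal p-block of N, and suppose θ extends to the subgroup NP (some irreducible character of NP restricts to θ). Then some irreducible character χ of G of degree prime to p in the principal p-block of G lies over θ (θ is a constituent of the restriction of χ to N). -/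
theorem result {G : Type*} [Group G] [Finite G] (N : Subgroup G) [N.Normal] (p : ℕ) [Fact p.Prime] (M : Ideal Cfsg.AlgInt) (hM : Cfsg.IsPModular p M) (P : Sylow p G)
    (θ : Cfsg.IrrCharacter N) (hθ : θ ∈ Cfsg.principalBlock M N) (hdeg : ¬ p ∣ Cfsg.charDegree (θ : N → ℂ))
    (hext : ∃ η : Cfsg.IrrCharacter ↥(N ⊔ (P : Subgroup G)), ∀ n : N, (η : ↥(N ⊔ (P : Subgroup G)) → ℂ) (Subgroup.inclusion le_sup_left n) = (θ : N → ℂ) n) :
    ∃ χ : Cfsg.IrrCharacter G, χ ∈ Cfsg.principalBlock M G ∧ ¬ p ∣ Cfsg.charDegree (χ : G → ℂ) ∧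
      haveI := Fintype.ofFinite N; Cfsg.classInner (fun n : N => (χ : G → ℂ) n) (θ : N → ℂ) ≠ 0 := by
  classical
  haveI : Fintype G := Fintype.ofFinite G
  have hp : p.Prime := hM.1
  set A : Subgroup G := N ⊔ (P : Subgroup G) with hA
  obtain ⟨η, hη⟩ := hext
  set C : Subgroup G := Subgroup.centralizer ((P : Subgroup G) : Set G) with hC
  set H : Subgroup G := A ⊔ C with hH
  have hNA : N ≤ A := le_sup_left
  have hPA : (P : Subgroup G) ≤ A := le_sup_right
  have hAH : A ≤ H := le_sup_left
  have hCH : C ≤ H := le_sup_right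
  haveI : Fintype N := Fintype.ofFinite _
  haveI : Fintype A := Fintype.ofFinite _
  haveI : Fintype H := Fintype.ofFinite _
  haveI : Fintype (N.subgroupOf A) := Fintype.ofFinite _
  haveI : Fintype (A.subgroupOf H) := Fintype.ofFinite _
  have hres : resN hNA (η : A → ℂ) = (θ : N → ℂ) := by
    funext n
    exact hη n
  have hcon1 : classInner (resN hNA (η : A → ℂ)) (θ : N → ℂ) ≠ 0 := by
    rw [hres, classInner_irr_self θ.2]
    exact one_ne_zero
  -- index of N in A is a power of p
  have hidx : ∃ k : ℕ, (N.subgroupOf A).index = p ^ k := by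
    have h1 : (N.subgroupOf A).index = N.relIndex (P : Subgroup G) := by
      show N.relIndex A = _
      rw [hA, Subgroup.relIndex_sup_left]
    have h2 : N.relIndex (P : Subgroup G) ∣ Nat.card (P : Subgroup G) :=
      Subgroup.index_dvd_card _
    obtain ⟨k, hk⟩ := IsPGroup.iff_card.1 P.isPGroup'
    rw [hk] at h2
    obtain ⟨j, -, hj⟩ := (Nat.dvd_prime_pow hp).1 h2
    exact ⟨j, h1.trans hj⟩
  have hηB : η ∈ principalBlock M A :=
    mem_principal_of_over_index_pow hM hNA inferInstance hidx θ hθ η hcon1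
  -- A is normal in H
  have hconj : ∀ c ∈ C, A ≤ A.comap (MulAut.conj c).toMonoidHom := by
    intro c hc
    rw [hA]
    apply sup_le
    · intro n hn
      rw [Subgroup.mem_comap]
      exact hNA (‹N.Normal›.conj_mem n hn c)
    · intro u hu
      rw [Subgroup.mem_comap]
      have h1 : c * u * c⁻¹ = u := by
        have := (Subgroup.mem_centralizer_iff.1 hc) u hu
        rw [← this]; group
      show c * u * c⁻¹ ∈ _
      rw [h1]
      exact hPA hu
  have hnorm : (A.subgroupOf H).Normal := by
    rw [Subgroup.normal_subgroupOf_iff_le_normalizer hAH, hH]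
    apply sup_le Subgroup.le_normalizer
    intro c hc
    rw [Subgroup.mem_normalizer_iff]
    intro h
    constructor
    · intro hh
      exact hconj c hc hh
    · intro hh
      have := hconj c⁻¹ (C.inv_mem hc) hh
      rw [Subgroup.mem_comap] at this
      have e : (MulAut.conj c⁻¹).toMonoidHom (c * h * c⁻¹) = h := by
        show c⁻¹ * (c * h * c⁻¹) * c⁻¹⁻¹ = h
        group
      rwa [e] at this
  have hAidx : ¬ p ∣ A.index := fun h =>
    P.not_dvd_index (h.trans (Subgroup.index_dvd_of_le hPA))
  have hHidx : ¬ p ∣ H.index := fun h => hAidx (h.trans (Subgroup.index_dvd_of_le hAH))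
  have hAHidx : ¬ p ∣ (A.subgroupOf H).index := by
    intro h
    apply hAidx
    rw [← Subgroup.relIndex_mul_index hAH]
    exact Dvd.dvd.mul_right h _
  have hdegη : charDegree (η : A → ℂ) = charDegree (θ : N → ℂ) := by
    have h1 : (η : A → ℂ) 1 = (θ : N → ℂ) 1 := hη 1
    rw [irr_one_eq_charDegree, irr_one_eq_charDegree] at h1
    exact_mod_cast h1
  obtain ⟨η', hη'B, hcon2, hdeg2⟩ := exists_principal_over hM hAH hnorm η hηB
  rw [hdegη, Nat.factorization_eq_zero_of_not_dvd hdeg, Nat.factorization_eq_zero_of_not_dvd hAHidx]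
    at hdeg2
  have hind := isInducedBlock_principal hM P.isPGroup' (hPA.trans hAH) hCH
  obtain ⟨χ, hχB, hcon3, hdeg3⟩ := exists_over_of_induced hM hind hη'B
  have hη'0 : charDegree (η' : H → ℂ) ≠ 0 := Cfsg.Agent.Lib.Helper21.charDegree_ne_zero η'
  rw [Nat.factorization_mul Subgroup.index_ne_zero_of_finite hη'0, Finsupp.add_apply,
    Nat.factorization_eq_zero_of_not_dvd hHidx] at hdeg3
  refine ⟨χ, hχB, ?_, ?_⟩
  · intro h
    have h1 : 1 ≤ (charDegree (χ : G → ℂ)).factorization p :=
      (hp.dvd_iff_one_le_factorization (Cfsg.Agent.Lib.Helper21.charDegree_ne_zero χ)).1 h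
    omega
  · have h1 : χ ∈ overSet A {η} := by
      rw [← overSet_overSet_subgroupOf hAH η]
      exact ⟨η', (mem_overSet_subgroupOf hAH η η').2 hcon2, hcon3⟩
    obtain ⟨η₀, hη₀, hcon4⟩ := h1
    rw [Set.mem_singleton_iff.1 hη₀] at hcon4
    have h2 : χ ∈ overSet N {θ} := by
      rw [← overSet_overSet_subgroupOf hNA θ]
      exact ⟨η, (mem_overSet_subgroupOf hNA θ η).2 hcon1, hcon4⟩
    obtain ⟨θ₀, hθ₀, hcon5⟩ := h2
    rw [Set.mem_singleton_iff.1 hθ₀] at hcon5
    convert hcon5

end Cfsg.Agent.S4583
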