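import Cfsg.Statements.S4586
-- import your own Cfsg.Agent.* helpers here
import Cfsg.Agent.Lib.Helper13.CyclicExt

set_option autoImplicit false
open Cfsg

namespace Cfsg.Agent.S4586

/-- Let p be a prime, P a finite p-group and N a normal subgroup of P of index p. For x ∈ P write c(x) for the number of elements n of N whose commutator x n x⁻¹ n⁻¹ lies in the derived subgroup N' (so c(x)/#N' is the order of the centralizer of x acting on N/N'). Then [P : P'] = p² if and only if c(x) = p·#N' for every x ∈ P outside N, and also if and only if c(x) = p·#N' for some x ∈ P outside N. -/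
theorem result {P : Type*} [Group P] [Finite P] (p : ℕ) [Fact p.Prime] (hP : IsPGroup p P) (N : Subgroup P) [N.Normal] (hN : N.index = p) :
    ((commutator P).index = p ^ 2 ↔ ∀ x : P, x ∉ N →
        Nat.card {n : N // x * n * x⁻¹ * (n : P)⁻¹ ∈ (commutator N).map N.subtype} = p * Nat.card (commutator N)) ∧
    ((commutator P).index = p ^ 2 ↔ ∃ x : P, x ∉ N ∧
        Nat.card {n : N // x * n * x⁻¹ * (n : P)⁻¹ ∈ (commutator N).map N.subtype} = p * Nat.card (commutator N)) := by
  have hp : p.Prime := Fact.out
  have hsup : ∀ x : P, x ∉ N → N ⊔ Subgroup.zpowers x = ⊤ := by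
    intro x hx
    have h1 : (N ⊔ Subgroup.zpowers x).index ∣ N.index := Subgroup.index_dvd_of_le le_sup_left
    rw [hN, Nat.dvd_prime hp] at h1
    rcases h1 with h1 | h1
    · exact Subgroup.index_eq_one.mp h1
    · exfalso
      apply hx
      have h2 : N = N ⊔ Subgroup.zpowers x := by
        apply Subgroup.eq_of_le_of_card_ge le_sup_left
        have e1 := Subgroup.card_mul_index N
        have e2 := Subgroup.card_mul_index (N ⊔ Subgroup.zpowers x)
        rw [hN] at e1
        rw [h1, ← e1] at e2
        exact le_of_eq (Nat.eq_of_mul_eq_mul_right hp.pos e2)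
      rw [h2]
      exact Subgroup.mem_sup_right (Subgroup.mem_zpowers x)
  have key : ∀ x : P, x ∉ N → ((commutator P).index = p ^ 2 ↔
      Nat.card {n : N // x * n * x⁻¹ * (n : P)⁻¹ ∈ (commutator N).map N.subtype} = p * Nat.card (commutator N)) := by
    intro x hx
    have e1 := Cfsg.Agent.Lib.Helper13.card_ker_mul_card_commutator N x (hsup x hx)
    have e2 := Subgroup.card_mul_index (commutator P)
    have e3 := Subgroup.card_mul_index N
    rw [hN] at e3
    have hpos1 : 0 < Nat.card ↥(commutator P) := Nat.card_pos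
    have hpos2 : 0 < Nat.card ↥(commutator ↥N) := Nat.card_pos
    constructor
    · intro h
      rw [h, ← e3] at e2
      have e4 : Nat.card ↥(commutator P) * p = Nat.card ↥N := by
        apply Nat.eq_of_mul_eq_mul_right hp.pos
        rw [← e2]; ring
      rw [← e4] at e1
      apply Nat.eq_of_mul_eq_mul_right hpos1
      rw [e1]; ring
    · intro h
      rw [h] at e1
      have e4 : p * Nat.card ↥(commutator P) = Nat.card ↥N := by
        apply Nat.eq_of_mul_eq_mul_right hpos2
        rw [← e1]; ring
      rw [← e3, ← e4] at e2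
      apply Nat.eq_of_mul_eq_mul_left hpos1
      rw [e2]; ring
  obtain ⟨x₀, hx₀⟩ : ∃ x : P, x ∉ N := by
    by_contra h
    push Not at h
    have : N = ⊤ := eq_top_iff.mpr fun x _ => h x
    rw [this, Subgroup.index_top] at hN
    exact hp.one_lt.ne hN
  refine ⟨⟨fun h x hx => (key x hx).mp h, fun h => (key x₀ hx₀).mpr (h x₀ hx₀)⟩,
    ⟨fun h => ⟨x₀, hx₀, (key x₀ hx₀).mp h⟩, fun ⟨x, hx, h⟩ => (key x hx).mpr h⟩⟩

end Cfsg.Agent.S4586
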