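import Cfsg.Statements.S4591
import Cfsg.Agent.Lib.Helper77.PPrimeKer

set_option autoImplicit false
open Cfsg

namespace Cfsg.Agent.S4591

open Subgroup Cfsg.Agent.Lib.Helper77
open scoped commutatorElement

/-- Let G be a finite group, p a prime and P a Sylow p-subgroup, and let N be the largest normal subgroup of G in which P has trivial centralizer (N is normal with C_N(P) = 1 and contains every normal subgroup with that property). Then the intersection of the kernels of the irreducible characters of G of degree prime to p is the normal core in G of the subgroup N·P' (P' the derived subgroup of P). In particular, when G has no nontrivial normal subgroup of order prime to p, that intersection is the normal core of P'. -/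
theorem result {G : Type*} [Group G] [Finite G] (p : ℕ) [Fact p.Prime] (P : Sylow p G) (N : Subgroup G) [N.Normal]
    (hN : N ⊓ Subgroup.centralizer ((P : Subgroup G) : Set G) = ⊥)
    (hmax : ∀ L : Subgroup G, L.Normal → L ⊓ Subgroup.centralizer ((P : Subgroup G) : Set G) = ⊥ → L ≤ N) :
    {g : G | ∀ χ : Cfsg.IrrCharacter G, ¬ p ∣ Cfsg.charDegree (χ : G → ℂ) → (χ : G → ℂ) g = (χ : G → ℂ) 1} =
      ((N ⊔ ⁅(P : Subgroup G), (P : Subgroup G)⁆).normalCore : Set G) := by
  classical
  have hp : p.Prime := Fact.out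
  ext g
  rw [Set.mem_ofPred_eq, SetLike.mem_coe]
  constructor
  · intro hg
    have hgX : g ∈ ppKer p G := (mem_ppKer p).2 hg
    revert hgX
    suffices h : ppKer p G ≤ (N ⊔ ⁅(P : Subgroup G), (P : Subgroup G)⁆).normalCore from fun hgX => h hgX
    rw [normal_le_normalCore]
    obtain ⟨X, hX⟩ : ∃ X, X = ppKer p G := ⟨_, rfl⟩
    have hXn : X.Normal := hX ▸ ppKer_normal p
    have hXP : X ⊓ (P : Subgroup G) ≤ ⁅(P : Subgroup G), (P : Subgroup G)⁆ :=
      hX ▸ ppKer_inf_sylow_le p P
    rw [← hX]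
    obtain ⟨S, Y₀, hY₀n, hcompl⟩ := Cfsg.Agent.S0081.result P X
      (hXP.trans (Cfsg.Agent.Lib.Helper53.commutator_le_map_frattini P.2))
    have hidx1 : Y₀.index = Nat.card (S : Subgroup X) := hcompl.symm.index_eq_card
    have hidx2 : (S : Subgroup X).index = Nat.card Y₀ := hcompl.index_eq_card
    have hpn : ¬ p ∣ Nat.card Y₀ := hidx2 ▸ S.not_dvd_index
    obtain ⟨k, hk⟩ := IsPGroup.iff_card.1 S.2
    have hchar : ∀ x : X, x ^ (Nat.card Y₀) = 1 → x ∈ Y₀ := by
      intro x hx
      set z : X ⧸ Y₀ := QuotientGroup.mk x with hz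
      have h1 : orderOf z ∣ Nat.card Y₀ := by
        apply orderOf_dvd_of_pow_eq_one
        rw [hz, ← QuotientGroup.mk_pow, hx]; rfl
      have h2 : orderOf z ∣ p ^ k := by
        rw [← hk, ← hidx1]
        exact orderOf_dvd_natCard z
      have hc : (Nat.card Y₀).Coprime (p ^ k) :=
        Nat.Coprime.pow_right k ((Nat.Prime.coprime_iff_not_dvd hp).2 hpn).symm
      have h3 : (orderOf z).Coprime (orderOf z) :=
        Nat.Coprime.coprime_dvd_left h1 (Nat.Coprime.coprime_dvd_right h2 hc)
      have h4 : z = 1 := orderOf_eq_one_iff.1 ((Nat.coprime_self _).1 h3)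
      exact (QuotientGroup.eq_one_iff _).1 h4
    have hYn : (Y₀.map X.subtype).Normal := by
      constructor
      intro y hy a
      obtain ⟨y₀, hy₀, rfl⟩ := mem_map.1 hy
      refine mem_map.2 ⟨⟨a * (y₀ : G) * a⁻¹, hXn.conj_mem _ y₀.2 a⟩, ?_, rfl⟩
      apply hchar
      apply Subtype.ext
      show (a * (y₀ : G) * a⁻¹) ^ (Nat.card Y₀) = 1
      have h1 : (y₀ : G) ^ (Nat.card Y₀) = 1 := by
        have := pow_card_eq_one' (x := (⟨y₀, hy₀⟩ : Y₀))
        exact congrArg (fun t : Y₀ => ((t : X) : G)) this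
      rw [conj_pow, h1]; group
    have hcardY : Nat.card (Y₀.map X.subtype) = Nat.card Y₀ :=
      (Nat.card_congr (Y₀.equivMapOfInjective _ (subtype_injective _)).toEquiv).symm
    have hYX : Y₀.map X.subtype ≤ X := map_subtype_le _
    have hYC : Y₀.map X.subtype ⊓ centralizer ((P : Subgroup G) : Set G) = ⊥ := by
      by_contra hne
      obtain ⟨χ, hχ, y, hy, hne'⟩ := exists_pprime_not_ker p P (Y₀.map X.subtype)
        (by rw [hcardY]; exact hpn) hne
      exact hne' ((mem_ppKer p).1 (hX ▸ hYX hy) χ hχ)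
    have hYN : Y₀.map X.subtype ≤ N := hmax _ hYn hYC
    obtain ⟨Q, hQ⟩ := (IsPGroup.map S.2 X.subtype).exists_le_sylow
    obtain ⟨a, ha⟩ := MulAction.exists_smul_eq G Q P
    have hconj : ∀ s ∈ (S : Subgroup X), a * (s : G) * a⁻¹ ∈ (P : Subgroup G) := by
      intro s hs
      have hsQ : (s : G) ∈ Q := hQ (mem_map.2 ⟨s, hs, rfl⟩)
      rw [← ha, Sylow.coe_subgroup_smul, Subgroup.mem_pointwise_smul_iff_inv_smul_mem]
      have e : (MulAut.conj a)⁻¹ • (a * (s : G) * a⁻¹) = (s : G) := by
        simp [MulAut.smul_def, mul_assoc]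
      rw [e]
      exact hsQ
    intro x hx
    have hx₁ : a⁻¹ * x * a ∈ X := by
      have := hXn.conj_mem x hx a⁻¹
      simpa using this
    obtain ⟨⟨y, s⟩, hys, -⟩ := isComplement_iff_existsUnique.1 hcompl ⟨a⁻¹ * x * a, hx₁⟩
    have hys' : ((y : X) : G) * ((s : X) : G) = a⁻¹ * x * a := congrArg Subtype.val hys
    have e : x = (a * ((y : X) : G) * a⁻¹) * (a * ((s : X) : G) * a⁻¹) := by
      have : x = a * (a⁻¹ * x * a) * a⁻¹ := by group
      rw [this, ← hys']; group
    rw [e]
    apply mul_mem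
    · apply (le_sup_left : N ≤ _)
      apply hYN
      exact hYn.conj_mem _ (mem_map.2 ⟨y, y.2, rfl⟩) a
    · apply (le_sup_right : ⁅(P : Subgroup G), (P : Subgroup G)⁆ ≤ _)
      apply hXP
      exact mem_inf.2 ⟨hXn.conj_mem _ (s : X).2 a, hconj _ s.2⟩
  · intro hg χ hχ
    exact ker_of_le_sup_commutator p P N hN _ (normalCore_le _) χ.2 hχ g hg

end Cfsg.Agent.S4591
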