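import Cfsg.Statements.S4602
-- import your own Cfsg.Agent.* helpers here
import Mathlib
import Cfsg.Agent.Lib.Helper80.PSolv

set_option autoImplicit false
open Cfsg

namespace Cfsg.Agent.S4602

open Cfsg.Agent.Lib.Helper80


/-- Let G be a finite p-solvable group and q a prime different from p. Some Sylow p-subgroup of G normalizes some Sylow q-subgroup of G if and only if q does not divide the order of G/O_{p'}(G), the quotient by the largest normal subgroup of order prime to p. -/
theorem result {G : Type*} [Group G] [Finite G] (p q : ℕ) [Fact p.Prime] [Fact q.Prime] (hpq : p ≠ q) (hsolv : Cfsg.IsPSolvable p G) :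
    (∃ (P : Sylow p G) (Q : Sylow q G), (P : Subgroup G) ≤ Subgroup.normalizer ((Q : Subgroup G) : Set G)) ↔ ¬ q ∣ (Cfsg.pPrimeCore p G).index := by
  classical
  have hp : p.Prime := Fact.out
  constructor
  · rintro ⟨P, Q, hPQ⟩
    have hf : Function.Surjective (QuotientGroup.mk' (Cfsg.pPrimeCore p G)) :=
      QuotientGroup.mk'_surjective _
    have hs' : Cfsg.IsPSolvable p (G ⧸ Cfsg.pPrimeCore p G) :=
      isPSolvable_of_surjective hp _ hf hsolv
    have hHH := centralizer_pCore_le hs' pPrimeCore_quotient_eq_bot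
    have hRp : IsPGroup p (Cfsg.pCore p (G ⧸ Cfsg.pPrimeCore p G)) := (pCore_spec p).2
    have hRn : (Cfsg.pCore p (G ⧸ Cfsg.pPrimeCore p G)).Normal := (pCore_spec p).1
    have hRP : Cfsg.pCore p (G ⧸ Cfsg.pPrimeCore p G) ≤
        (P : Subgroup G).map (QuotientGroup.mk' (Cfsg.pPrimeCore p G)) :=
      hRp.le_sylow_of_normal (P.mapSurjective hf)
    have hdisj : Disjoint (Cfsg.pCore p (G ⧸ Cfsg.pPrimeCore p G))
        ((Q : Subgroup G).map (QuotientGroup.mk' (Cfsg.pPrimeCore p G))) :=
      IsPGroup.disjoint_of_ne p q hpq _ _ hRp (Q.2.map _)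
    have hQC : (Q : Subgroup G).map (QuotientGroup.mk' (Cfsg.pPrimeCore p G)) ≤
        Subgroup.centralizer (Cfsg.pCore p (G ⧸ Cfsg.pPrimeCore p G) : Set _) := by
      rintro _ ⟨y, hy, rfl⟩
      rw [Subgroup.mem_centralizer_iff]
      intro r hr
      obtain ⟨u, hu, rfl⟩ := hRP hr
      set f := QuotientGroup.mk' (Cfsg.pPrimeCore p G) with hfdef
      have h1 : f u * f y * (f u)⁻¹ * (f y)⁻¹ ∈ Cfsg.pCore p (G ⧸ Cfsg.pPrimeCore p G) := by
        have h2 := hRn.conj_mem _ (Subgroup.inv_mem _ hr) (f y)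
        have h3 := Subgroup.mul_mem _ hr h2
        simpa [mul_assoc] using h3
      have h2 : f u * f y * (f u)⁻¹ * (f y)⁻¹ ∈ (Q : Subgroup G).map f := by
        have h3 : u * y * u⁻¹ ∈ (Q : Subgroup G) := (Subgroup.le_normalizer_iff.1 hPQ) u hu y hy
        refine ⟨u * y * u⁻¹ * y⁻¹, Subgroup.mul_mem _ h3 (Subgroup.inv_mem _ hy), ?_⟩
        simp
      have h3 := Subgroup.disjoint_def.1 hdisj h1 h2
      have h4 : f u * f y * (f u)⁻¹ * (f y)⁻¹ * (f y * f u) = f y * f u := by rw [h3, one_mul]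
      rw [← h4]; group
    have hQbot : (Q : Subgroup G).map (QuotientGroup.mk' (Cfsg.pPrimeCore p G)) = ⊥ := by
      rw [eq_bot_iff]
      intro x hx
      exact Subgroup.mem_bot.2 (Subgroup.disjoint_def.1 hdisj (hHH (hQC hx)) hx)
    have hQK : (Q : Subgroup G) ≤ Cfsg.pPrimeCore p G := by
      rw [Subgroup.map_eq_bot_iff, QuotientGroup.ker_mk'] at hQbot
      exact hQbot
    intro hdvd
    exact Q.not_dvd_index (hdvd.trans (Subgroup.index_dvd_of_le hQK))
  · intro hq
    rw [exists_sylow_normalizes_iff]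
    obtain ⟨Q, hQK⟩ := exists_sylow_le_of_not_dvd_index q (Cfsg.pPrimeCore p G) hq
    rw [Q.card_eq_index_normalizer]
    have hfr := Sylow.normalizer_sup_eq_top' Q hQK
    have h1 : (Subgroup.normalizer (Q : Set G)).index =
        (Subgroup.normalizer (Q : Set G)).relIndex (Cfsg.pPrimeCore p G) := by
      rw [← Subgroup.relIndex_top_right, ← hfr, relIndex_sup_of_normal]
    rw [h1]
    intro hd
    have h2 := hd.trans (Subgroup.relIndex_dvd_card _ _)
    have h3 : (Nat.card (Cfsg.pPrimeCore p G)).Coprime p := (pPrimeCore_spec p).2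
    exact (Nat.Prime.coprime_iff_not_dvd hp).1 h3.symm h2

end Cfsg.Agent.S4602
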