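import Cfsg.Statements.S4601
-- import your own Cfsg.Agent.* helpers here
import Mathlib
import Cfsg.Agent.Lib.Helper80.SylNorm
import Cfsg.Agent.S4602

set_option autoImplicit false
open Cfsg

namespace Cfsg.Agent.S4601

open Cfsg.Agent.Lib.Helper80
open Subgroup
open scoped Pointwise

universe u

theorem centralizes_sylow_of_normal {G : Type*} [Group G] [Finite G] (p q : ℕ) [Fact p.Prime]
    [Fact q.Prime] (N : Subgroup G) [N.Normal]
    (hN : (Nat.card N).Coprime q) (S₀ : Sylow p N) (y : G)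
    (hyA : y ∈ normalizer (((S₀ : Subgroup N).map N.subtype : Subgroup G) : Set G))
    (hyq : ∃ k : ℕ, orderOf y = q ^ k) (hyc : ¬ p ∣ (centralizer ({y} : Set G)).index) :
    y ∈ centralizer (((S₀ : Subgroup N).map N.subtype : Subgroup G) : Set G) := by
  set S := (S₀ : Subgroup N).map N.subtype with hS
  have hSp : IsPGroup p S := S₀.2.map _
  obtain ⟨Py, hPy⟩ := exists_sylow_le_of_not_dvd_index p _ hyc
  obtain ⟨P'', hP''⟩ := hSp.exists_le_sylow
  obtain ⟨g, hg⟩ := MulAction.exists_smul_eq G Py P''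
  have hfr : normalizer (S : Set G) ⊔ N = ⊤ := Sylow.normalizer_sup_eq_top S₀
  obtain ⟨a, ha, n, hn, han⟩ := Subgroup.mem_sup_of_normal_right.1
    (show g ∈ normalizer (S : Set G) ⊔ N by rw [hfr]; trivial)
  have hy'' : n * y * n⁻¹ ∈ centralizer (S : Set G) := by
    rw [mem_centralizer_iff]
    intro s hs
    have h1 : a * s * a⁻¹ ∈ S := (mem_normalizer_iff.1 ha s).1 hs
    have h2 : a * s * a⁻¹ ∈ ((g • Py : Sylow p G) : Subgroup G) := by rw [hg]; exact hP'' h1
    rw [Sylow.coe_subgroup_smul, mem_conj_smul] at h2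
    have h3 := hPy h2
    rw [mem_centralizer_singleton_iff] at h3
    have e : g⁻¹ * (a * s * a⁻¹) * g = n⁻¹ * s * n := by rw [← han]; group
    rw [e] at h3
    calc s * (n * y * n⁻¹) = n * ((n⁻¹ * s * n) * y) * n⁻¹ := by group
      _ = n * (y * (n⁻¹ * s * n)) * n⁻¹ := by rw [h3]
      _ = n * y * n⁻¹ * s := by group
  have hy''A : n * y * n⁻¹ ∈ normalizer (S : Set G) := by
    rw [mem_normalizer_iff]
    intro s
    have key : ∀ s ∈ S, n * y * n⁻¹ * s * (n * y * n⁻¹)⁻¹ = s := by
      intro s hs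
      rw [← (mem_centralizer_iff.1 hy'') s hs]; group
    constructor
    · intro hs
      rw [key s hs]; exact hs
    · intro hs
      have h1 := (mem_centralizer_iff.1 (Subgroup.inv_mem _ hy'')) _ hs
      have h2 : s = (n * y * n⁻¹)⁻¹ * (n * y * n⁻¹ * s * (n * y * n⁻¹)⁻¹) * (n * y * n⁻¹) := by group
      rw [h2, ← h1]
      simpa [mul_assoc] using hs
  have hcN : y * (n * y * n⁻¹)⁻¹ ∈ N := by
    have h1 : y * n * y⁻¹ ∈ N := (inferInstance : N.Normal).conj_mem n hn y
    have h2 := N.mul_mem h1 (N.inv_mem hn)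
    have e : y * (n * y * n⁻¹)⁻¹ = y * n * y⁻¹ * n⁻¹ := by group
    rw [e]; exact h2
  have hcA : y * (n * y * n⁻¹)⁻¹ ∈ normalizer (S : Set G) :=
    Subgroup.mul_mem _ hyA (Subgroup.inv_mem _ hy''A)
  have hmain := mem_of_mul_mem_of_coprime ((centralizer (S : Set G)).subgroupOf (normalizer (S : Set G)))
    (⟨y, hyA⟩ : normalizer (S : Set G)) ⟨_, hcA⟩ ⟨_, hy''A⟩ (Subtype.ext (by show y = y * (n * y * n⁻¹)⁻¹ * (n * y * n⁻¹); group))
    (Subgroup.mem_subgroupOf.2 hy'') (by
      rw [Subgroup.orderOf_mk, Subgroup.orderOf_mk]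
      obtain ⟨k, hk⟩ := hyq
      rw [hk]
      apply Nat.Coprime.pow_left
      exact (Nat.Coprime.coprime_dvd_left (Subgroup.orderOf_dvd_natCard N hcN) hN).symm)
  exact Subgroup.mem_subgroupOf.1 hmain

theorem step {G : Type*} [Group G] [Finite G] (p q : ℕ) [Fact p.Prime] [Fact q.Prime]
    (N : Subgroup G) [N.Normal]
    (hN : (∃ m : ℕ, Nat.card N = q ^ m) ∨ (Nat.card N).Coprime q)
    (hH : ∀ y : G, (∃ k : ℕ, orderOf y = q ^ k) → ¬ p ∣ (centralizer ({y} : Set G)).index)
    (hquot : ¬ p ∣ Nat.card (Sylow q (G ⧸ N))) : ¬ p ∣ Nat.card (Sylow q G) := by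
  have hp : p.Prime := Fact.out
  have hq : q.Prime := Fact.out
  have hf := QuotientGroup.mk'_surjective N
  have red : ∀ Q : Sylow q G, ¬ p ∣ (normalizer ((Q : Subgroup G) : Set G)).relIndex N →
      ¬ p ∣ Nat.card (Sylow q G) := by
    intro Q hQ
    rw [Q.card_eq_index_normalizer]
    have h1 := comap_normalizer_map_le q N Q
    have h2 : ¬ p ∣ (normalizer ((Q : Subgroup G) : Set G) ⊔ N).index := by
      intro hd
      apply hquot
      rw [(Q.mapSurjective hf).card_eq_index_normalizer]
      have h3 := hd.trans (index_dvd_of_le h1)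
      rwa [index_comap_of_surjective _ hf] at h3
    have h3 : (normalizer ((Q : Subgroup G) : Set G)).index =
        (normalizer ((Q : Subgroup G) : Set G)).relIndex N *
          (normalizer ((Q : Subgroup G) : Set G) ⊔ N).index := by
      rw [← relIndex_sup_of_normal, relIndex_mul_index le_sup_left]
    show ¬ p ∣ (normalizer ((Q : Subgroup G) : Set G)).index
    rw [h3]
    exact Nat.Prime.not_dvd_mul hp hQ h2
  rcases hN with ⟨m, hm⟩ | hcop
  · obtain ⟨Q⟩ : Nonempty (Sylow q G) := inferInstance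
    apply red Q
    have h1 : N ≤ normalizer ((Q : Subgroup G) : Set G) :=
      ((IsPGroup.of_card hm).le_sylow_of_normal Q).trans le_normalizer
    rw [relIndex_eq_one.2 h1]
    exact hp.one_lt.ne' ∘ Nat.dvd_one.1
  · obtain ⟨S₀⟩ : Nonempty (Sylow p N) := inferInstance
    have hfr := Sylow.normalizer_sup_eq_top S₀
    have hidx : ¬ q ∣ (normalizer (((S₀ : Subgroup N).map N.subtype : Subgroup G) : Set G)).index := by
      have h1 : (normalizer (((S₀ : Subgroup N).map N.subtype : Subgroup G) : Set G)).index =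
          (normalizer (((S₀ : Subgroup N).map N.subtype : Subgroup G) : Set G)).relIndex N := by
        rw [← relIndex_top_right, ← hfr, relIndex_sup_of_normal]
      rw [h1]
      intro hd
      exact (Nat.Prime.coprime_iff_not_dvd hq).1 hcop.symm (hd.trans (relIndex_dvd_card _ _))
    obtain ⟨Q, hQ⟩ := exists_sylow_le_of_not_dvd_index q _ hidx
    apply red Q
    have hSQ : (S₀ : Subgroup N).map N.subtype ≤ normalizer ((Q : Subgroup G) : Set G) := by
      rw [le_normalizer_iff]
      intro s hs x hx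
      have hxq : ∃ k : ℕ, orderOf x = q ^ k := by
        obtain ⟨k, hk⟩ := (IsPGroup.iff_orderOf.1 Q.2) ⟨x, hx⟩
        rw [Subgroup.orderOf_mk] at hk
        exact ⟨k, hk⟩
      have h1 := centralizes_sylow_of_normal p q N hcop S₀ x (hQ hx) hxq (hH x hxq)
      have h2 := (mem_centralizer_iff.1 h1) s hs
      rw [h2, mul_inv_cancel_right]
      exact hx
    intro hd
    have h1 := hd.trans (relIndex_dvd_of_le_left N hSQ)
    have h2 : ((S₀ : Subgroup N).map N.subtype).relIndex N = (S₀ : Subgroup N).index := by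
      rw [relIndex, subgroupOf, comap_map_eq_self_of_injective N.subtype_injective]
    rw [h2] at h1
    exact S₀.not_dvd_index h1

theorem qsolv_aux (p q : ℕ) [Fact p.Prime] [Fact q.Prime] (n : ℕ) :
    ∀ (G : Type u) [Group G] [Finite G] (H : Fin (n + 1) → Subgroup G), H 0 = ⊥ →
      H (Fin.last n) = ⊤ → Monotone H → (∀ i, (H i).Normal) →
      (∀ i : Fin n, (∃ m : ℕ, (H i.castSucc).relIndex (H i.succ) = q ^ m) ∨
        ((H i.castSucc).relIndex (H i.succ)).Coprime q) →
      (∀ y : G, (∃ k : ℕ, orderOf y = q ^ k) → ¬ p ∣ (centralizer ({y} : Set G)).index) →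
      ¬ p ∣ Nat.card (Sylow q G) := by
  have hp : p.Prime := Fact.out
  have hq : q.Prime := Fact.out
  induction n with
  | zero =>
    intro G _ _ H h0 hn _ _ _ _
    have hbt : (⊥ : Subgroup G) = ⊤ := by rw [← h0, ← hn]; rfl
    obtain ⟨Q⟩ : Nonempty (Sylow q G) := inferInstance
    rw [Q.card_eq_index_normalizer]
    intro hd
    have h1 : Nat.card G = 1 := by
      rw [← Subgroup.card_top, ← hbt, Subgroup.card_bot]
    have h2 := hd.trans (Subgroup.index_dvd_card _)
    rw [h1] at h2
    exact hp.one_lt.ne' (Nat.dvd_one.1 h2)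
  | succ n ih =>
    intro G _ _ H h0 hn hmono hnorm hstep hH
    have hN : (H (Fin.succ 0)).Normal := hnorm _
    apply step p q (H (Fin.succ 0)) ?_ hH ?_
    · have h1 := hstep 0
      rw [Fin.castSucc_zero, h0, relIndex_bot_left] at h1
      exact h1
    · have hf := QuotientGroup.mk'_surjective (H (Fin.succ 0))
      apply ih (G ⧸ H (Fin.succ 0)) (fun i => (H i.succ).map (QuotientGroup.mk' (H (Fin.succ 0))))
      · show (H (Fin.succ 0)).map (QuotientGroup.mk' (H (Fin.succ 0))) = ⊥
        rw [Subgroup.map_eq_bot_iff, QuotientGroup.ker_mk']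
      · show (H (Fin.last n).succ).map (QuotientGroup.mk' (H (Fin.succ 0))) = ⊤
        rw [Fin.succ_last, hn]
        exact Subgroup.map_top_of_surjective _ hf
      · intro i j hij
        exact Subgroup.map_mono (hmono (Fin.succ_le_succ_iff.2 hij))
      · intro i
        exact (hnorm _).map _ hf
      · intro i
        have := hnorm i.succ.castSucc
        have hd := relIndex_map_dvd (QuotientGroup.mk' (H (Fin.succ 0))) (H i.succ.castSucc)
          (H i.succ.succ) (hmono (Fin.castSucc_le_succ _))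
        show (∃ m : ℕ, ((H i.castSucc.succ).map _).relIndex ((H i.succ.succ).map _) = q ^ m) ∨
          (((H i.castSucc.succ).map _).relIndex ((H i.succ.succ).map _)).Coprime q
        rw [Fin.succ_castSucc]
        rcases hstep i.succ with ⟨m, hm⟩ | hc
        · left
          rw [hm] at hd
          obtain ⟨k, _, hk⟩ := (Nat.dvd_prime_pow hq).1 hd
          exact ⟨k, hk⟩
        · right
          exact Nat.Coprime.coprime_dvd_left hd hc
      · exact class_size_hyp_of_surjective _ hf p q hH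


/-- Let p and q be primes and G a finite group that is p-solvable or q-solvable, in which no q-element has conjugacy class size divisible by p. Then some Sylow p-subgroup of G normalizes some Sylow q-subgroup of G. -/
theorem result {G : Type*} [Group G] [Finite G] (p q : ℕ) [Fact p.Prime] [Fact q.Prime] (hsolv : Cfsg.IsPSolvable p G ∨ Cfsg.IsPSolvable q G)
    (h : ∀ y : G, (∃ k : ℕ, orderOf y = q ^ k) → ¬ p ∣ (Subgroup.centralizer ({y} : Set G)).index) :
    ∃ (P : Sylow p G) (Q : Sylow q G), (P : Subgroup G) ≤ Subgroup.normalizer ((Q : Subgroup G) : Set G) := by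
  classical
  have hp : p.Prime := Fact.out
  have hq : q.Prime := Fact.out
  by_cases hpq : p = q
  · subst hpq
    obtain ⟨P⟩ : Nonempty (Sylow p G) := inferInstance
    exact ⟨P, P, le_normalizer⟩
  rcases hsolv with hs | hs
  · rw [Cfsg.Agent.S4602.result p q hpq hs]
    intro hdvd
    rw [Subgroup.index_eq_card] at hdvd
    obtain ⟨y', hy'⟩ := exists_prime_orderOf_dvd_card' q hdvd
    have hf : Function.Surjective (QuotientGroup.mk' (Cfsg.pPrimeCore p G)) :=
      QuotientGroup.mk'_surjective _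
    obtain ⟨y, hyy', hy⟩ := exists_prime_pow_order_lift _ hf q y' ⟨1, by rw [hy', pow_one]⟩
    obtain ⟨Py, hPy⟩ := exists_sylow_le_of_not_dvd_index p _ (h y hy)
    have hs' : Cfsg.IsPSolvable p (G ⧸ Cfsg.pPrimeCore p G) :=
      isPSolvable_of_surjective hp _ hf hs
    have hHH := centralizer_pCore_le hs' pPrimeCore_quotient_eq_bot
    have hRp : IsPGroup p (Cfsg.pCore p (G ⧸ Cfsg.pPrimeCore p G)) := (pCore_spec p).2
    have hRP : Cfsg.pCore p (G ⧸ Cfsg.pPrimeCore p G) ≤
        (Py : Subgroup G).map (QuotientGroup.mk' (Cfsg.pPrimeCore p G)) :=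
      hRp.le_sylow_of_normal (Py.mapSurjective hf)
    have hyC : y' ∈ centralizer (Cfsg.pCore p (G ⧸ Cfsg.pPrimeCore p G) : Set _) := by
      rw [mem_centralizer_iff]
      intro r hr
      obtain ⟨u, hu, rfl⟩ := hRP hr
      have h1 := hPy hu
      rw [mem_centralizer_singleton_iff] at h1
      rw [← hyy', ← map_mul, ← map_mul, h1]
    obtain ⟨j, hj⟩ := (IsPGroup.iff_orderOf.1 hRp) ⟨y', hHH hyC⟩
    rw [Subgroup.orderOf_mk, hy'] at hj
    apply hpq
    have h1 : q ∣ p ^ j := by rw [← hj]
    exact ((Nat.prime_dvd_prime_iff_eq hq hp).1 (hq.dvd_of_dvd_pow h1)).symm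
  · rw [exists_sylow_normalizes_iff]
    obtain ⟨n, H, h0, hn, hmono, hnorm, hstep⟩ := hs
    exact qsolv_aux p q n G H h0 hn hmono hnorm hstep h

end Cfsg.Agent.S4601
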