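import Cfsg.Statements.S4604
import Cfsg.Agent.S0876
import Cfsg.Agent.Lib.Helper78.DefectZero
import Cfsg.Agent.Lib.Helper4.Eigen

set_option autoImplicit false
open Cfsg

namespace Cfsg.Agent.S4604

theorem sum_pow_prime_pow {R : Type*} [CommRing R] {p : ℕ} (hp : p.Prime) (e : ℕ) {ι : Type*}
    (s : Finset ι) (f : ι → R) :
    ∃ r : R, (∑ i ∈ s, f i) ^ (p ^ e) = ∑ i ∈ s, (f i) ^ (p ^ e) + p * r := by
  classical
  induction s using Finset.induction_on with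
  | empty =>
    refine ⟨0, ?_⟩
    simp [hp.pos.ne']
  | insert a s ha ih =>
    obtain ⟨r, hr⟩ := ih
    obtain ⟨r', hr'⟩ := exists_add_pow_prime_pow_eq hp (f a) (∑ i ∈ s, f i) e
    refine ⟨r + f a * (∑ i ∈ s, f i) * r', ?_⟩
    rw [Finset.sum_insert ha, Finset.sum_insert ha, hr', hr]
    ring

theorem char_pow_congr {G : Type*} [Group G] [Finite G] {p : ℕ} (hp : p.Prime) (e : ℕ)
    {χ : G → ℂ} (hχ : Cfsg.IsCharacter G χ) (x : G) :
    ∃ γ : Cfsg.AlgInt, χ x ^ (p ^ e) - χ (x ^ (p ^ e)) = (p : ℂ) * (γ : ℂ) := by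
  obtain ⟨n, ρ, rfl⟩ := hχ
  obtain ⟨μ, hμ, -, hk, -⟩ := Cfsg.Agent.Lib.Helper4.exists_eigenvalues ρ x
  have hint : ∀ i, IsIntegral ℤ (μ i) := by
    intro i
    refine IsIntegral.of_pow (n := orderOf x) (orderOf_pos x) ?_
    rw [hμ i]
    exact isIntegral_one
  obtain ⟨r, hr⟩ := sum_pow_prime_pow hp e Finset.univ (fun i => (⟨μ i, hint i⟩ : Cfsg.AlgInt))
  refine ⟨r, ?_⟩
  have hr' := congrArg (fun t : Cfsg.AlgInt => (t : ℂ)) hr
  push_cast at hr'
  have h1 := hk 1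
  rw [pow_one] at h1
  simp only [pow_one] at h1
  rw [h1, hk (p ^ e), hr']
  ring

theorem pow_eq_of_part {G : Type*} [Group G] [Finite G] {p : ℕ} (hp : p.Prime) {x x' : G}
    (hx : (∃ k : ℕ, orderOf (x * x'⁻¹) = p ^ k) ∧ Commute (x * x'⁻¹) x') :
    x ^ (p ^ (Nat.card G).factorization p) = x' ^ (p ^ (Nat.card G).factorization p) := by
  obtain ⟨⟨k, hk⟩, hc⟩ := hx
  have h1 : x = (x * x'⁻¹) * x' := by group
  conv_lhs => rw [h1]
  rw [hc.mul_pow]
  have h2 : (x * x'⁻¹) ^ (p ^ (Nat.card G).factorization p) = 1 := by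
    apply orderOf_dvd_iff_pow_eq_one.mp
    rw [hk]
    apply pow_dvd_pow
    rw [← Nat.Prime.pow_dvd_iff_le_factorization hp Nat.card_pos.ne', ← hk]
    exact orderOf_dvd_natCard _
  rw [h2, one_mul]


/-- Let G be a finite group, p a prime and p^a the p-part of the order of G. Let x, y ∈ G and let x′, y′ be their p-regular parts: x′ has order prime to p, commutes with x·x′⁻¹, and x·x′⁻¹ has p-power order (likewise for y). Then x′ and y′ are conjugate in G if and only if for every irreducible character χ of G the algebraic integer χ(x)^(p^a) − χ(y)^(p^a) is p times an algebraic integer. -/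
theorem result {G : Type*} [Group G] [Finite G] (p : ℕ) [Fact p.Prime] (x y x' y' : G)
    (hx : (∃ k : ℕ, orderOf (x * x'⁻¹) = p ^ k) ∧ Commute (x * x'⁻¹) x' ∧ ¬ p ∣ orderOf x')
    (hy : (∃ k : ℕ, orderOf (y * y'⁻¹) = p ^ k) ∧ Commute (y * y'⁻¹) y' ∧ ¬ p ∣ orderOf y') :
    IsConj x' y' ↔ ∀ χ : Cfsg.IrrCharacter G, ∃ γ : Cfsg.AlgInt,
      (χ : G → ℂ) x ^ (p ^ (Nat.card G).factorization p) - (χ : G → ℂ) y ^ (p ^ (Nat.card G).factorization p) = (p : ℂ) * (γ : ℂ) := by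
  have hp : p.Prime := Fact.out
  constructor
  · intro hconj χ
    have hχ := Cfsg.Agent.Lib.Helper4.isCharacter_of_irr χ.2
    obtain ⟨γ₁, h1⟩ := char_pow_congr hp ((Nat.card G).factorization p) hχ x
    obtain ⟨γ₂, h2⟩ := char_pow_congr hp ((Nat.card G).factorization p) hχ y
    rw [pow_eq_of_part hp ⟨hx.1, hx.2.1⟩] at h1
    rw [pow_eq_of_part hp ⟨hy.1, hy.2.1⟩] at h2
    have h3 : (χ : G → ℂ) (x' ^ (p ^ (Nat.card G).factorization p)) =
        (χ : G → ℂ) (y' ^ (p ^ (Nat.card G).factorization p)) := by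
      obtain ⟨t, ht⟩ := isConj_iff.mp hconj
      rw [← ht, conj_pow]
      exact (Cfsg.Agent.Lib.Helper4.isClassFunction_of_char hχ _ t).symm
    refine ⟨γ₁ - γ₂, ?_⟩
    push_cast
    rw [mul_sub, ← h1, ← h2, h3]
    ring
  · intro hall
    obtain ⟨M, hM⟩ := Cfsg.Agent.Lib.Helper78.exists_isPModular hp
    have ha : Cfsg.IsPPart p x (x * x'⁻¹) := ⟨x', by group, hx.2.1, hx.1, hx.2.2⟩
    have hb : Cfsg.IsPPart p y (y * y'⁻¹) := ⟨y', by group, hy.2.1, hy.1, hy.2.2⟩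
    have key := (Cfsg.Agent.S0876.result p M hM x y _ _ ha hb).mpr ?_
    · have e1 : (x * x'⁻¹)⁻¹ * x = x' := by group
      have e2 : (y * y'⁻¹)⁻¹ * y = y' := by group
      rwa [e1, e2] at key
    · intro χ
      have hχ := Cfsg.Agent.Lib.Helper4.isCharacter_of_irr χ.2
      obtain ⟨γ, hγ⟩ := hall χ
      have hA : IsIntegral ℤ ((χ : G → ℂ) x) := Cfsg.Agent.Lib.Helper20.isCharacter_isIntegral hχ x
      have hB : IsIntegral ℤ ((χ : G → ℂ) y) := Cfsg.Agent.Lib.Helper20.isCharacter_isIntegral hχ y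
      have hR : Cfsg.MemLocalRing M ((χ : G → ℂ) x - (χ : G → ℂ) y) :=
        Cfsg.Agent.Lib.Helper81.memLocalRing_of_isIntegral hM (hA.sub hB)
      rw [← Cfsg.Agent.Lib.Helper81.memLocalIdeal_pow_iff hM hR
        (n := p ^ (Nat.card G).factorization p) (pow_pos hp.pos _).ne']
      obtain ⟨r, hr⟩ := exists_add_pow_prime_pow_eq hp
        ((⟨_, hA⟩ : Cfsg.AlgInt) - (⟨_, hB⟩ : Cfsg.AlgInt)) (⟨_, hB⟩ : Cfsg.AlgInt)
        ((Nat.card G).factorization p)
      have hr' := congrArg (fun t : Cfsg.AlgInt => (t : ℂ)) hr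
      simp only [sub_add_cancel] at hr'
      push_cast at hr'
      have h5 : ((χ : G → ℂ) x - (χ : G → ℂ) y) ^ (p ^ (Nat.card G).factorization p) =
          (p : ℂ) * ((γ : ℂ) - ((χ : G → ℂ) x - (χ : G → ℂ) y) * (χ : G → ℂ) y * (r : ℂ)) := by
        rw [mul_sub, ← hγ, hr']
        ring
      rw [h5]
      apply Cfsg.Agent.Lib.Helper81.memLocalIdeal_mul_right hM
        (Cfsg.Agent.Lib.Helper81.memLocalIdeal_p hM)
      apply Cfsg.Agent.Lib.Helper81.memLocalRing_of_isIntegral hM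
      exact γ.2.sub (((hA.sub hB).mul hB).mul r.2)

end Cfsg.Agent.S4604
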