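import Cfsg.Statements.S4611
import Cfsg.Agent.Lib.Helper5.PrinSolv
import Cfsg.Agent.Lib.Helper5.Coherent2
import Cfsg.Agent.Lib.Helper31.PSolv

set_option autoImplicit false
open Cfsg

namespace Cfsg.Agent.S4611

open Cfsg.Agent.Lib.Helper5 Cfsg.Agent.Lib.Helper82

/-- Let G be a finite solvable group and π a nonempty set of primes, each dividing the order of G; fix for each p in π a maximal ideal M p of the algebraic integers containing p. Then the only irreducible character lying in the principal p-block for every p in π is the principal character if and only if G is generated by the subgroups O_{p'}(G), p in π (the largest normal subgroups of order prime to p). -/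
theorem result {G : Type*} [Group G] [Finite G] [Group.IsSolvable G] (π : Set ℕ) (hπ : ∀ p ∈ π, p.Prime ∧ p ∣ Nat.card G) (hne : π.Nonempty) (M : ℕ → Ideal Cfsg.AlgInt) (hM : ∀ p ∈ π, Cfsg.IsPModular p (M p)) :
    (∀ χ : Cfsg.IrrCharacter G, (∀ p ∈ π, χ ∈ Cfsg.principalBlock (M p) G) → (χ : G → ℂ) = fun _ => 1) ↔
      ⨆ p ∈ π, Cfsg.pPrimeCore p G = ⊤ := by
  have key : ∀ p ∈ π, ∀ χ : Cfsg.IrrCharacter G, χ ∈ Cfsg.principalBlock (M p) G ↔
      ∀ n ∈ Cfsg.pPrimeCore p G, (χ : G → ℂ) n = (χ : G → ℂ) 1 := by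
    intro p hp χ
    haveI : Fact p.Prime := ⟨(hπ p hp).1⟩
    exact mem_principalBlock_iff_of_isPSolvable (hM p hp)
      (Cfsg.Agent.Lib.Helper31.isPSolvable_of_isSolvable p G) χ
  constructor
  · intro h
    by_contra hL
    obtain ⟨L, hLdef⟩ : ∃ L : Subgroup G, L = ⨆ p ∈ π, Cfsg.pPrimeCore p G := ⟨_, rfl⟩
    rw [← hLdef] at hL
    haveI hLn : L.Normal := by
      rw [hLdef]
      refine ⟨fun x hx g => ?_⟩
      have hmap : (⨆ p ∈ π, Cfsg.pPrimeCore p G).map (MulAut.conj g).toMonoidHom ≤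
          ⨆ p ∈ π, Cfsg.pPrimeCore p G := by
        rw [Subgroup.map_iSup]
        apply iSup_le
        intro p
        rw [Subgroup.map_iSup]
        apply iSup_le
        intro hp
        refine le_trans ?_ (le_iSup₂ (f := fun p (_ : p ∈ π) => Cfsg.pPrimeCore p G) p hp)
        rintro _ ⟨y, hy, rfl⟩
        exact (Cfsg.pPrimeCore_normal p G).conj_mem y hy g
      exact hmap ⟨x, hx, rfl⟩
    haveI : Nontrivial (G ⧸ L) := by
      rw [← Finite.one_lt_card_iff_nontrivial, ← Subgroup.index_eq_card]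
      have h0 : L.index ≠ 0 := Subgroup.index_ne_zero_of_finite
      have h1 : L.index ≠ 1 := fun h => hL (Subgroup.index_eq_one.mp h)
      omega
    obtain ⟨θ, hθ⟩ := exists_nonprincipal (K := G ⧸ L)
    apply hθ
    have h1 := h ⟨fun g => (θ : G ⧸ L → ℂ) (g : G ⧸ L), isIrr_inflate θ.2⟩ (by
      intro p hp
      rw [key p hp]
      intro n hn
      have hnL : n ∈ L := by
        rw [hLdef]
        exact (le_iSup₂ (f := fun p (_ : p ∈ π) => Cfsg.pPrimeCore p G) p hp) hn
      show (θ : G ⧸ L → ℂ) (n : G ⧸ L) = (θ : G ⧸ L → ℂ) ((1 : G) : G ⧸ L)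
      rw [(QuotientGroup.eq_one_iff n).2 hnL]; rfl)
    funext q
    obtain ⟨g, rfl⟩ := QuotientGroup.mk_surjective q
    exact congrFun h1 g
  · intro hL χ hχ
    by_contra hne
    have h1 := Cfsg.Agent.Lib.Helper51.irr_ker_ne_top χ (fun h => hne (by rw [h]; rfl))
    apply h1
    rw [eq_top_iff, ← hL]
    apply iSup₂_le
    intro p hp n hn
    exact (key p hp χ).mp (hχ p hp) n hn

end Cfsg.Agent.S4611
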