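import Cfsg.Statements.S4619
-- import your own Cfsg.Agent.* helpers here

set_option autoImplicit false
open scoped Pointwise
open Cfsg

namespace Cfsg.Agent.S4619

/-- Let P be a Sylow p-subgroup of the finite group G that is a trivial-intersection set: P meets each conjugate g P g⁻¹ with g outside N_G(P) trivially. Then for every nontrivial subgroup Q of P the normalizer of Q lies in the normalizer of P, and any g ∈ G conjugating Q into P lies in N_G(P). -/
theorem result {G : Type*} [Group G] [Finite G] (p : ℕ) [Fact p.Prime] (P : Sylow p G) (hTI : (∀ g : G, g ∉ Subgroup.normalizer ((P : Subgroup G) : Set G) → (P : Subgroup G) ⊓ (MulAut.conj g • (P : Subgroup G)) = ⊥)) (Q : Subgroup G) (hQ : Q ≤ (P : Subgroup G)) (hQ1 : Q ≠ ⊥) :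
    Subgroup.normalizer (Q : Set G) ≤ Subgroup.normalizer ((P : Subgroup G) : Set G) ∧
      ∀ g : G, MulAut.conj g • Q ≤ (P : Subgroup G) → g ∈ Subgroup.normalizer ((P : Subgroup G) : Set G) := by
  have key : ∀ g : G, MulAut.conj g • Q ≤ (P : Subgroup G) → g ∈ Subgroup.normalizer ((P : Subgroup G) : Set G) := by
    intro g hg
    by_contra hgn
    have h1 := hTI g hgn
    apply hQ1
    rw [eq_bot_iff]
    intro x hx
    have hx1 : g * x * g⁻¹ ∈ (P : Subgroup G) := by
      apply hg
      rw [Subgroup.mem_pointwise_smul_iff_inv_smul_mem]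
      simpa [MulAut.smul_def, mul_assoc] using hx
    have hx2 : g * x * g⁻¹ ∈ MulAut.conj g • (P : Subgroup G) := by
      rw [Subgroup.mem_pointwise_smul_iff_inv_smul_mem]
      simpa [MulAut.smul_def, mul_assoc] using hQ hx
    have hx3 : g * x * g⁻¹ ∈ (P : Subgroup G) ⊓ (MulAut.conj g • (P : Subgroup G)) := ⟨hx1, hx2⟩
    rw [h1, Subgroup.mem_bot] at hx3
    rw [Subgroup.mem_bot]
    have : x = g⁻¹ * (g * x * g⁻¹) * g := by group
    rw [this, hx3]; group
  refine ⟨?_, key⟩
  intro g hg
  apply key
  intro y hy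
  rw [Subgroup.mem_pointwise_smul_iff_inv_smul_mem] at hy
  have hy' : g⁻¹ * y * g ∈ Q := by simpa [MulAut.smul_def, mul_assoc] using hy
  rw [Subgroup.mem_normalizer_iff] at hg
  have := (hg (g⁻¹ * y * g)).1 hy'
  apply hQ
  simpa [mul_assoc] using this

end Cfsg.Agent.S4619
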