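import Cfsg.Statements.S4620
-- import your own Cfsg.Agent.* helpers here
import Mathlib
import Cfsg.Agent.Lib.Helper80.Cores

set_option autoImplicit false
open scoped Pointwise
open Cfsg

namespace Cfsg.Agent.S4620

open Cfsg.Agent.Lib.Helper80
open scoped Pointwise

variable {H : Type*} [Group H] [Finite H]

/-- TI property in elementwise form, for every Sylow subgroup. -/
theorem ti_all (p : ℕ) [Fact p.Prime] (P : Sylow p H)
    (hTI : ∀ g : H, g ∉ Subgroup.normalizer ((P : Subgroup H) : Set H) →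
      (P : Subgroup H) ⊓ (MulAut.conj g • (P : Subgroup H)) = ⊥)
    (P' : Sylow p H) (g x : H) (hx1 : x ≠ 1) (hx : x ∈ (P' : Subgroup H))
    (hgx : g⁻¹ * x * g ∈ (P' : Subgroup H)) :
    g ∈ Subgroup.normalizer ((P' : Subgroup H) : Set H) := by
  obtain ⟨c, rfl⟩ := MulAction.exists_smul_eq H P P'
  have hmem : ∀ y : H, y ∈ ((c • P : Sylow p H) : Subgroup H) ↔ c⁻¹ * y * c ∈ (P : Subgroup H) := by
    intro y
    rw [Sylow.coe_subgroup_smul, mem_conj_smul]
  rw [hmem] at hx hgx
  have h1 : c⁻¹ * g * c ∈ Subgroup.normalizer ((P : Subgroup H) : Set H) := by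
    by_contra hn
    have h2 := hTI _ hn
    have h3 : c⁻¹ * x * c ∈ (P : Subgroup H) ⊓ (MulAut.conj (c⁻¹ * g * c) • (P : Subgroup H)) := by
      refine Subgroup.mem_inf.2 ⟨hx, ?_⟩
      rw [mem_conj_smul]
      have e : (c⁻¹ * g * c)⁻¹ * (c⁻¹ * x * c) * (c⁻¹ * g * c) = c⁻¹ * (g⁻¹ * x * g) * c := by group
      rw [e]; exact hgx
    rw [h2, Subgroup.mem_bot] at h3
    apply hx1
    have : x = c * (c⁻¹ * x * c) * c⁻¹ := by group
    rw [this, h3]; group
  have h1' : (c⁻¹ * g * c) • P = P := Sylow.smul_eq_iff_mem_normalizer.2 h1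
  refine Sylow.smul_eq_iff_mem_normalizer.1 ?_
  calc g • c • P = c • ((c⁻¹ * g * c) • P) := by
        simp only [smul_smul]; congr 1; group
    _ = c • P := by rw [h1']


/-- Let H be a finite group with no nontrivial normal p-subgroup and no nontrivial normal subgroup of order prime to p, whose Sylow p-subgroup P is nontrivial and a trivial-intersection set (P meets its conjugates by elements outside N_H(P) trivially). Then H has a unique minimal normal subgroup N; N is non-abelian simple with trivial centralizer in H (so H embeds in Aut(N)), and a Sylow p-subgroup of N is again a nontrivial trivial-intersection set in N. -/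
theorem result {H : Type*} [Group H] [Finite H] (p : ℕ) [Fact p.Prime] (hOp : Cfsg.pCore p H = ⊥) (hOp' : Cfsg.pPrimeCore p H = ⊥) (P : Sylow p H) (hP1 : (P : Subgroup H) ≠ ⊥)
    (hTI : ∀ g : H, g ∉ Subgroup.normalizer ((P : Subgroup H) : Set H) → (P : Subgroup H) ⊓ (MulAut.conj g • (P : Subgroup H)) = ⊥) :
    ∃ N : Subgroup H, N.Normal ∧ N ≠ ⊥ ∧ (∀ K : Subgroup H, K.Normal → K ≠ ⊥ → N ≤ K) ∧
      IsSimpleGroup N ∧ ¬ IsMulCommutative N ∧ Subgroup.centralizer (N : Set H) = ⊥ ∧
      ∀ Q : Sylow p N, (Q : Subgroup N) ≠ ⊥ ∧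
        ∀ n : N, n ∉ Subgroup.normalizer ((Q : Subgroup N) : Set N) → (Q : Subgroup N) ⊓ (MulAut.conj n • (Q : Subgroup N)) = ⊥ := by
  classical
  have hp : p.Prime := Fact.out
  have hti := ti_all p P hTI
  have hX : ∀ (P' : Sylow p H) (g x : H), x ≠ 1 → x ∈ (P' : Subgroup H) → g * x = x * g →
      g ∈ Subgroup.normalizer ((P' : Subgroup H) : Set H) := by
    intro P' g x hx1 hx hc
    apply hti P' g x hx1 hx
    have : g⁻¹ * x * g = x := by rw [mul_assoc, ← hc]; group
    rw [this]; exact hx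
  have hNP : ∀ (P' : Sylow p H) (D : Subgroup H), IsPGroup p D →
      D ≤ Subgroup.normalizer ((P' : Subgroup H) : Set H) → D ≤ (P' : Subgroup H) := by
    intro P' D hD hle
    have h1 := hD.inf_normalizer_sylow P'
    have h2 : D ⊓ Subgroup.normalizer ((P' : Subgroup H) : Set H) = D := inf_eq_left.2 hle
    have h3 : D ⊓ (P' : Subgroup H) = D := by rw [← h1]; exact h2
    exact inf_eq_left.1 h3
  have hE : ∀ S : Subgroup H, p ∣ Nat.card S →
      ∃ x : H, x ∈ S ∧ x ≠ 1 ∧ IsPGroup p (Subgroup.zpowers x) := by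
    intro S hS
    obtain ⟨a, ha⟩ := exists_prime_orderOf_dvd_card' p hS
    have haH : orderOf (a : H) = p := by rw [Subgroup.orderOf_coe]; exact ha
    refine ⟨a, a.2, ?_, ?_⟩
    · intro h1
      rw [h1, orderOf_one] at haH
      exact hp.one_lt.ne haH
    · apply IsPGroup.of_card (n := 1)
      rw [Nat.card_zpowers, haH, pow_one]
  have hi : ∀ X : Subgroup H, X.Normal → ∀ D : Subgroup H, D ≤ X →
      X ≤ Subgroup.normalizer (D : Set H) → IsPGroup p D → D = ⊥ := by
    intro X hXn D hDX hXD hD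
    refine eq_bot_of_normal_in_normal X (fun A => IsPGroup p A) IsPGroup.of_bot ?_ ?_ ?_ D hDX hXD hD
    · intro A B hA hB hAB
      exact IsPGroup.to_sup_of_normal_right' hA hB hAB
    · intro A h hA
      exact isPGroup_conj_smul h hA
    · intro A hAn hA
      have := le_pCore hAn hA
      rw [hOp] at this
      exact eq_bot_iff.2 this
  have hii : ∀ X : Subgroup H, X.Normal → ∀ D : Subgroup H, D ≤ X →
      X ≤ Subgroup.normalizer (D : Set H) → (Nat.card D).Coprime p → D = ⊥ := by
    intro X hXn D hDX hXD hD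
    refine eq_bot_of_normal_in_normal X (fun A => (Nat.card A).Coprime p) (by simp) ?_ ?_ ?_
      D hDX hXD hD
    · intro A B hA hB hAB
      exact Nat.Coprime.coprime_dvd_left (card_sup_dvd' A B hAB) (Nat.Coprime.mul_left hA hB)
    · intro A h hA
      show (Nat.card (MulAut.conj h • A : Subgroup H)).Coprime p
      rw [card_conj_smul]; exact hA
    · intro A hAn hA
      have := le_pPrimeCore hAn hA
      rw [hOp'] at this
      exact eq_bot_iff.2 this
  have hdvd : ∀ X : Subgroup H, X.Normal → ∀ D : Subgroup H, D ≤ X →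
      X ≤ Subgroup.normalizer (D : Set H) → D ≠ ⊥ → p ∣ Nat.card D := by
    intro X hXn D hDX hXD hD1
    by_contra hnd
    exact hD1 (hii X hXn D hDX hXD (Nat.Coprime.symm ((Nat.Prime.coprime_iff_not_dvd hp).2 hnd)))
  have hV : ∀ X : Subgroup H, X.Normal → ∀ A B : Subgroup H, A ≤ X → B ≤ X →
      X ≤ Subgroup.normalizer (A : Set H) → X ≤ Subgroup.normalizer (B : Set H) →
      A ≠ ⊥ → B ≠ ⊥ → (∀ a ∈ A, ∀ b ∈ B, b * a = a * b) → False := by
    intro X hXn A B hAX hBX hXA hXB hA1 hB1 hcomm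
    obtain ⟨x, hxA, hx1, hxp⟩ := hE A (hdvd X hXn A hAX hXA hA1)
    obtain ⟨y, hyB, hy1, hyp⟩ := hE B (hdvd X hXn B hBX hXB hB1)
    obtain ⟨P', hP'⟩ := hxp.exists_le_sylow
    have hxP' : x ∈ (P' : Subgroup H) := hP' (Subgroup.mem_zpowers x)
    have hBN : B ≤ Subgroup.normalizer ((P' : Subgroup H) : Set H) := by
      intro b hb
      exact hX P' b x hx1 hxP' (hcomm x hxA b hb)
    have hyP' : y ∈ (P' : Subgroup H) := by
      apply hNP P' _ hyp _ (Subgroup.mem_zpowers y)
      rw [Subgroup.zpowers_le]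
      exact hBN hyB
    have hD : (P' : Subgroup H) ⊓ B = ⊥ := by
      apply hi X hXn _ (inf_le_right.trans hBX)
      · rw [Subgroup.le_normalizer_iff]
        intro n hn k hk
        have hk' := Subgroup.mem_inf.1 hk
        have hkB : n * k * n⁻¹ ∈ B := (Subgroup.le_normalizer_iff.1 hXB) n hn k hk'.2
        refine Subgroup.mem_inf.2 ⟨?_, hkB⟩
        have hzp : IsPGroup p (Subgroup.zpowers (n * k * n⁻¹)) := by
          have h1 : IsPGroup p (Subgroup.zpowers k) :=
            P'.2.to_le (by rw [Subgroup.zpowers_le]; exact hk'.1)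
          have h2 := isPGroup_conj_smul n h1
          apply h2.to_le
          rw [Subgroup.zpowers_le]
          exact conj_mem_conj_smul (Subgroup.mem_zpowers k)
        apply hNP P' _ hzp _ (Subgroup.mem_zpowers _)
        rw [Subgroup.zpowers_le]
        exact hBN hkB
      · exact P'.2.to_le inf_le_left
    have : y ∈ (P' : Subgroup H) ⊓ B := Subgroup.mem_inf.2 ⟨hyP', hyB⟩
    rw [hD, Subgroup.mem_bot] at this
    exact hy1 this
  have hnz : ∀ K : Subgroup H, K.Normal → (⊤ : Subgroup H) ≤ Subgroup.normalizer (K : Set H) := by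
    intro K hK
    rw [Subgroup.normalizer_eq_top]
  have hW : ∀ K₁ K₂ : Subgroup H, K₁.Normal → K₂.Normal → K₁ ≠ ⊥ → K₂ ≠ ⊥ →
      (∀ a ∈ K₁, ∀ b ∈ K₂, b * a = a * b) → False := by
    intro K₁ K₂ h1 h2 h3 h4 h5
    exact hV ⊤ inferInstance K₁ K₂ le_top le_top (hnz K₁ h1) (hnz K₂ h2) h3 h4 h5
  -- a minimal normal subgroup
  have htop : (⊤ : Subgroup H) ≠ ⊥ := by
    intro h
    apply hP1
    rw [eq_bot_iff, ← h]
    exact le_top
  obtain ⟨N, hNmin⟩ := (Set.toFinite {K : Subgroup H | K.Normal ∧ K ≠ ⊥}).exists_minimal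
    ⟨⊤, inferInstance, htop⟩
  have hNn : N.Normal := hNmin.1.1
  have hN1 : N ≠ ⊥ := hNmin.1.2
  have hcommOfInf : ∀ A B : Subgroup H, A ≤ Subgroup.normalizer (B : Set H) →
      B ≤ Subgroup.normalizer (A : Set H) → A ⊓ B = ⊥ → ∀ a ∈ A, ∀ b ∈ B, b * a = a * b := by
    intro A B hAB hBA hinf a ha b hb
    have h1 : a * b * a⁻¹ * b⁻¹ ∈ A ⊓ B := by
      refine Subgroup.mem_inf.2 ⟨?_, ?_⟩
      · have := (Subgroup.le_normalizer_iff.1 hBA) b hb a⁻¹ (A.inv_mem ha)
        have h2 := A.mul_mem ha this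
        simpa [mul_assoc] using h2
      · have := (Subgroup.le_normalizer_iff.1 hAB) a ha b hb
        exact B.mul_mem this (B.inv_mem hb)
    rw [hinf, Subgroup.mem_bot] at h1
    have : a * b = b * a := by
      have h2 : a * b * a⁻¹ * b⁻¹ * (b * a) = b * a := by rw [h1, one_mul]
      rw [← h2]; group
    exact this.symm
  have hNle : ∀ K : Subgroup H, K.Normal → K ≠ ⊥ → N ≤ K := by
    intro K hK hK1
    have hne : N ⊓ K ≠ ⊥ := by
      intro hinf
      exact hW N K hNn hK hN1 hK1
        (hcommOfInf N K (le_top.trans (hnz K hK)) (le_top.trans (hnz N hNn)) hinf)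
    have hnorm : (N ⊓ K).Normal := inferInstance
    have := hNmin.2 (show (N ⊓ K) ∈ {K : Subgroup H | K.Normal ∧ K ≠ ⊥} from ⟨hnorm, hne⟩) inf_le_left
    exact this.trans inf_le_right
  have hNna : ¬ IsMulCommutative N := by
    intro hc
    apply hW N N hNn hNn hN1 hN1
    intro a ha b hb
    have := hc.is_comm.comm (⟨b, hb⟩ : N) ⟨a, ha⟩
    exact congrArg Subtype.val this
  have hCN : Subgroup.centralizer (N : Set H) = ⊥ := by
    by_contra hne
    apply hW N (Subgroup.centralizer (N : Set H)) hNn inferInstance hN1 hne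
    intro a ha b hb
    exact ((Subgroup.mem_centralizer_iff.1 hb) a ha).symm
  -- a minimal subgroup normalised by N
  obtain ⟨S, hSmin⟩ := (Set.toFinite {K : Subgroup H | K ≤ N ∧
      N ≤ Subgroup.normalizer (K : Set H) ∧ K ≠ ⊥}).exists_minimal
    ⟨N, le_rfl, Subgroup.le_normalizer, hN1⟩
  have hSN : S ≤ N := hSmin.1.1
  have hNS : N ≤ Subgroup.normalizer (S : Set H) := hSmin.1.2.1
  have hS1 : S ≠ ⊥ := hSmin.1.2.2
  have hSeq : S = N := by
    by_contra hne
    have hSnn : ¬ S.Normal := by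
      intro hSn
      exact hne (le_antisymm hSN (hNle S hSn hS1))
    -- some conjugate differs
    have hex : ∃ h : H, MulAut.conj h • S ≠ S := by
      by_contra hall
      push Not at hall
      apply hSnn
      constructor
      intro a ha g
      rw [← hall g]
      exact conj_mem_conj_smul ha
    obtain ⟨h, hh⟩ := hex
    set S' := MulAut.conj h • S with hS'
    have hS'N : S' ≤ N := by
      intro y hy
      rw [hS', mem_conj_smul] at hy
      have := hNn.conj_mem _ (hSN hy) h
      simpa [mul_assoc] using this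
    have hNS' : N ≤ Subgroup.normalizer (S' : Set H) := by
      rw [Subgroup.le_normalizer_iff]
      intro n hn k hk
      rw [hS', mem_conj_smul] at hk ⊢
      have hn' : h⁻¹ * n * h ∈ N := by
        have := hNn.conj_mem n hn h⁻¹
        simpa using this
      have := (Subgroup.le_normalizer_iff.1 hNS) _ hn' _ hk
      have e : h⁻¹ * (n * k * n⁻¹) * h = h⁻¹ * n * h * (h⁻¹ * k * h) * (h⁻¹ * n * h)⁻¹ := by group
      rw [e]; exact this
    have hS'1 : S' ≠ ⊥ := by
      intro hb
      apply hS1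
      have h1 : Nat.card S' = Nat.card S := card_conj_smul h S
      rw [hb] at h1
      simp only [Subgroup.card_bot] at h1
      exact Subgroup.card_eq_one.1 h1.symm
    have hinf : S ⊓ S' = ⊥ := by
      by_contra hne2
      have hmem : (S ⊓ S') ∈ {K : Subgroup H | K ≤ N ∧
          N ≤ Subgroup.normalizer (K : Set H) ∧ K ≠ ⊥} := by
        refine ⟨inf_le_left.trans hSN, ?_, hne2⟩
        rw [Subgroup.le_normalizer_iff]
        intro n hn k hk
        have hk' := Subgroup.mem_inf.1 hk
        exact Subgroup.mem_inf.2 ⟨(Subgroup.le_normalizer_iff.1 hNS) n hn k hk'.1,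
          (Subgroup.le_normalizer_iff.1 hNS') n hn k hk'.2⟩
      have h1 : S ≤ S ⊓ S' := hSmin.2 hmem inf_le_left
      have h2 : S ≤ S' := h1.trans inf_le_right
      apply hh
      exact (Subgroup.eq_of_le_of_card_ge h2 (by rw [hS', card_conj_smul])).symm
    exact hV N hNn S S' hSN hS'N hNS hNS' hS1 hS'1
      (hcommOfInf S S' (hSN.trans hNS') (hS'N.trans hNS) hinf)
  have hNontriv : Nontrivial N := (Subgroup.nontrivial_iff_ne_bot N).2 hN1
  have hsimple : IsSimpleGroup N := by
    refine ⟨?_⟩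
    intro S₀ hS₀
    by_cases hb : S₀ = ⊥
    · exact Or.inl hb
    · right
      have hmem : (S₀.map N.subtype) ∈ {K : Subgroup H | K ≤ N ∧
          N ≤ Subgroup.normalizer (K : Set H) ∧ K ≠ ⊥} := by
        refine ⟨Subgroup.map_subtype_le S₀, ?_, ?_⟩
        · rw [Subgroup.le_normalizer_iff]
          rintro n hn _ ⟨k, hk, rfl⟩
          exact ⟨⟨n, hn⟩ * k * ⟨n, hn⟩⁻¹, hS₀.conj_mem k hk ⟨n, hn⟩, rfl⟩
        · intro h0
          apply hb
          rwa [Subgroup.map_eq_bot_iff_of_injective _ N.subtype_injective] at h0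
      have h1 : S ≤ S₀.map N.subtype := hSmin.2 hmem (by rw [hSeq]; exact Subgroup.map_subtype_le S₀)
      rw [hSeq] at h1
      rw [eq_top_iff]
      intro n _
      obtain ⟨k, hk, hkn⟩ := h1 n.2
      have : k = n := Subtype.ext hkn
      rw [← this]; exact hk
  refine ⟨N, hNn, hN1, hNle, hsimple, hNna, hCN, ?_⟩
  intro Q
  have hpN : p ∣ Nat.card N := hdvd N hNn N le_rfl Subgroup.le_normalizer hN1
  have hQ1 : (Q : Subgroup N) ≠ ⊥ := by
    intro hb
    have h1 := Q.card_eq_multiplicity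
    rw [hb] at h1
    simp only [Subgroup.card_bot] at h1
    have h2 : (Nat.card N).factorization p = 0 := by
      by_contra h0
      have : 1 < p ^ (Nat.card N).factorization p := Nat.one_lt_pow h0 hp.one_lt
      omega
    have h3 : 0 < (Nat.card N).factorization p :=
      hp.factorization_pos_of_dvd Nat.card_pos.ne' hpN
    omega
  refine ⟨hQ1, ?_⟩
  intro n hn
  by_contra hne
  apply hn
  -- embed Q in a Sylow subgroup of H
  have hQp : IsPGroup p ((Q : Subgroup N).map N.subtype) := Q.2.map _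
  obtain ⟨P', hP'⟩ := hQp.exists_le_sylow
  -- Q = P' ∩ N
  have hQeq : ∀ y : N, y ∈ (Q : Subgroup N) ↔ (y : H) ∈ (P' : Subgroup H) := by
    have hle : (Q : Subgroup N) ≤ (P' : Subgroup H).subgroupOf N := by
      intro y hy
      exact hP' ⟨y, hy, rfl⟩
    have hpg : IsPGroup p ((P' : Subgroup H).subgroupOf N) :=
      P'.2.comap_of_injective _ N.subtype_injective
    have := Q.3 hpg hle
    intro y
    rw [← this]
    exact Subgroup.mem_subgroupOf
  obtain ⟨y, hy, hy1⟩ : ∃ y : N, y ∈ (Q : Subgroup N) ⊓ (MulAut.conj n • (Q : Subgroup N)) ∧ y ≠ 1 := by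
    by_contra hall
    push Not at hall
    apply hne
    rw [eq_bot_iff]
    intro y hy
    exact Subgroup.mem_bot.2 (hall y hy)
  have hy' := Subgroup.mem_inf.1 hy
  have hy2 := hy'.2
  rw [mem_conj_smul] at hy2
  have hnP' : (n : H) ∈ Subgroup.normalizer ((P' : Subgroup H) : Set H) := by
    apply hti P' n y
    · intro h
      exact hy1 (Subtype.ext h)
    · exact (hQeq y).1 hy'.1
    · exact (hQeq _).1 hy2
  rw [Subgroup.mem_normalizer_iff] at hnP' ⊢
  intro k
  rw [hQeq, hQeq]
  exact hnP' k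

end Cfsg.Agent.S4620
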