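import Cfsg.Statements.S4627
import Mathlib
import Cfsg.Agent.S4623
import Cfsg.Agent.S4624
import Cfsg.Agent.S0261
import Cfsg.Agent.Lib.Helper7.Basic
import Cfsg.Agent.Lib.Helper48.KerWreath
import Cfsg.Agent.Lib.Helper48.SylKer
import Cfsg.Agent.Lib.Helper48.SwapSyl
import Cfsg.Agent.Lib.Helper48.SylSL
import Cfsg.Agent.Lib.Helper48.GLTwoArith2
import Cfsg.Agent.Lib.Helper48.SylTorus

set_option autoImplicit false
open Cfsg

namespace Cfsg.Agent.S4627

open Cfsg.Agent.S4623 Cfsg.Agent.S4624 Cfsg.Agent.Lib.Helper48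
  Cfsg.Agent.Lib.Helper7 SemidirectProduct Matrix

theorem card_ker_det {F : Type*} [Field F] (n : ℕ) :
    Nat.card (Matrix.GeneralLinearGroup.det : GL (Fin n) F →* Fˣ).ker =
      Nat.card (SpecialLinearGroup (Fin n) F) := by
  rw [ker_det_eq_range_toGL]
  exact (Nat.card_congr (MonoidHom.ofInjective SpecialLinearGroup.toGL_injective).toEquiv).symm

/-- Let F be a finite field of odd order q and m ≥ 1. If 4 divides q + 1, or if 4 divides q − 1 and m is a power of 2, then a Sylow 2-subgroup P of SL_{2m}(F) has P/P' elementary abelian: the square of every element of P lies in the derived subgroup of P. -/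
theorem result {F : Type*} [Field F] [Fintype F] (hF : Odd (Fintype.card F)) (m : ℕ) (hm : 1 ≤ m)
    (hq : 4 ∣ Fintype.card F + 1 ∨ (4 ∣ Fintype.card F - 1 ∧ ∃ j : ℕ, m = 2 ^ j)) (P : Sylow 2 (Matrix.SpecialLinearGroup (Fin (2 * m)) F)) :
    ∀ x : (P : Subgroup (Matrix.SpecialLinearGroup (Fin (2 * m)) F)), x ^ 2 ∈ commutator (P : Subgroup (Matrix.SpecialLinearGroup (Fin (2 * m)) F)) := by
  classical
  set q := Fintype.card F with hqdef
  have hq1 : 1 < q := Fintype.one_lt_card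
  have h2q : ¬ 2 ∣ q := by
    rw [Nat.two_dvd_ne_zero]; exact Nat.odd_iff.1 hF
  set a := padicValNat 2 (q - 1) with ha
  let Z : Subgroup Fˣ := (powMonoidHom (2 ^ a) : Fˣ →* Fˣ).ker
  have hZp : IsPGroup 2 Z := fun z => ⟨a, Subtype.ext z.2⟩
  have hD : IsPGroup 2 (Z.map (betaGL F)) := hZp.map _
  obtain ⟨S, hS⟩ := hD.exists_le_sylow
  have hZS : ∀ z ∈ Z, betaGL F z ∈ (S : Subgroup (GL (Fin 2) F)) := fun z hz => hS ⟨z, hz, rfl⟩
  have hSZ : ∀ g : (S : Subgroup (GL (Fin 2) F)), detS (S : Subgroup (GL (Fin 2) F)) g ∈ Z := by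
    intro g
    obtain ⟨k, hk⟩ := S.2 g
    have h1 : (detS (S : Subgroup (GL (Fin 2) F)) g) ^ 2 ^ k = 1 := by
      rw [← map_pow, hk, map_one]
    have h2 : (detS (S : Subgroup (GL (Fin 2) F)) g) ^ (q - 1) = 1 := by
      rw [hqdef, ← Fintype.card_units]; exact pow_card_eq_one
    have h3 := pow_gcd_eq_one.2 ⟨h1, h2⟩
    have h4 : Nat.gcd (2 ^ k) (q - 1) ∣ 2 ^ a := by
      obtain ⟨l, -, hl⟩ := (Nat.dvd_prime_pow Nat.prime_two).1 (Nat.gcd_dvd_left (2 ^ k) (q - 1))
      rw [hl]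
      apply pow_dvd_pow
      have : 2 ^ l ∣ q - 1 := hl ▸ Nat.gcd_dvd_right _ _
      exact (padicValNat_dvd_iff_le (by omega)).1 this
    change (detS (S : Subgroup (GL (Fin 2) F)) g) ^ (2 ^ a) = 1
    obtain ⟨c, hc⟩ := h4
    rw [hc, pow_mul, h3, one_pow]
  have hQ : ExT 2 (detS (S : Subgroup (GL (Fin 2) F))).ker := by
    have hc := card_ker_of_sylow_card 2 (Matrix.GeneralLinearGroup.det : GL (Fin 2) F →* Fˣ)
      (S : Subgroup (GL (Fin 2) F)).subtype Subtype.val_injective S.card_eq_multiplicity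
    rw [card_ker_det] at hc
    let θ : (detS (S : Subgroup (GL (Fin 2) F))).ker →* SpecialLinearGroup (Fin 2) F :=
      liftSL ((S : Subgroup (GL (Fin 2) F)).subtype.comp
        (detS (S : Subgroup (GL (Fin 2) F))).ker.subtype) (fun x => congrArg Units.val x.2)
    have hθ : Function.Injective θ := liftSL_injective _ _
      (Subtype.val_injective.comp Subtype.val_injective)
    obtain ⟨Q⟩ : Nonempty (Sylow 2 (SpecialLinearGroup (Fin 2) F)) := inferInstance
    obtain ⟨e⟩ := sylow_mulEquiv_of_injective 2 θ hθ hc Q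
    obtain ⟨k, hk, ⟨e'⟩⟩ := Cfsg.Agent.S0261.result hF Q
    exact ((ExT_quat k hk).of_equiv e'.symm).of_equiv e
  obtain ⟨T, hcase⟩ : ∃ T : Sylow 2 (Equiv.Perm (Fin m)), (∀ z ∈ Z, z ^ 2 = 1) ∨
      (∀ x y : Fin m, ∃ t ∈ (T : Subgroup (Equiv.Perm (Fin m))), t x = y ∧ t y = x) := by
    rcases hq with h3 | ⟨-, j, rfl⟩
    · obtain ⟨T⟩ : Nonempty (Sylow 2 (Equiv.Perm (Fin m))) := inferInstance
      refine ⟨T, Or.inl ?_⟩
      intro z hz
      have ha1 : a = 1 := by simpa using v2_odd_pow q h3 0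
      have : z ^ 2 ^ a = 1 := hz
      rwa [ha1, pow_one] at this
    · obtain ⟨T, hT⟩ := exists_sylow_swap j
      exact ⟨T, Or.inr hT⟩
  have hcardι : Fintype.card (Fin m ⊕ Fin m) = 2 * m := by
    simp; ring
  let e := Fintype.equivFinOfCardEq hcardι
  let θ := (glReindex (F := F) e).toMonoidHom.comp
    (glWreath (S : Subgroup (GL (Fin 2) F)) (T : Subgroup (Equiv.Perm (Fin m))))
  have hθ : Function.Injective θ := (glReindex (F := F) e).injective.comp (glWreath_injective _ _)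
  let δ := (Matrix.GeneralLinearGroup.det : GL (Fin (2 * m)) F →* Fˣ).comp θ
  have hδ1 : ∀ s, δ (inl s) = ∏ i, detS (S : Subgroup (GL (Fin 2) F)) (s i) := by
    intro s
    apply Units.ext
    rw [Units.coe_prod]
    change (glReindex (F := F) e (glWreath _ _ (inl s))).1.det = _
    rw [glReindex_det, det_glWreath_inl]
    rfl
  have hδ2 : ∀ t, δ (inr t) = 1 := by
    intro t
    apply Units.ext
    change (glReindex (F := F) e (glWreath _ _ (inr t))).1.det = _
    rw [glReindex_det, det_glWreath_inr]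
    rfl
  have hK := ExT_ker_wreath (S : Subgroup (GL (Fin 2) F)) (T : Subgroup (Equiv.Perm (Fin m))) Z
    hZS hSZ hQ (sym_ExT 2 m T) hcase hm δ hδ1 hδ2
  have hcardW : Nat.card ((Fin m → (S : Subgroup (GL (Fin 2) F))) ⋊[(mulAutArrow :
      (T : Subgroup (Equiv.Perm (Fin m))) →* MulAut (Fin m → (S : Subgroup (GL (Fin 2) F))))]
      (T : Subgroup (Equiv.Perm (Fin m)))) =
      2 ^ (Nat.card (GL (Fin (2 * m)) F)).factorization 2 := by
    rw [SemidirectProduct.card, Nat.card_fun, S.card_eq_multiplicity, T.card_eq_multiplicity,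
      Nat.card_perm, Nat.card_fin, Matrix.card_GL_field, Matrix.card_GL_field, ← hqdef]
    simp only [Nat.factorization_def _ Nat.prime_two]
    rw [v2_card_GL_formula q (by omega) h2q, v2_card_GL_formula q (by omega) h2q,
      v2_prod_even' q hF hq1 m]
    have h1 := v2_prod_even' q hF hq1 1
    rw [mul_one] at h1
    rw [h1, ← pow_mul, ← pow_add]
    congr 1
    simp
    ring
  have hcK := card_ker_of_sylow_card 2 (Matrix.GeneralLinearGroup.det : GL (Fin (2 * m)) F →* Fˣ)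
    θ hθ hcardW
  rw [card_ker_det] at hcK
  let Θ : δ.ker →* SpecialLinearGroup (Fin (2 * m)) F :=
    liftSL (θ.comp δ.ker.subtype) (fun x => congrArg Units.val x.2)
  have hΘ : Function.Injective Θ := liftSL_injective _ _ (hθ.comp Subtype.val_injective)
  obtain ⟨e2⟩ := sylow_mulEquiv_of_injective 2 Θ hΘ hcK P
  exact hK.of_equiv e2.symm

end Cfsg.Agent.S4627
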