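import Cfsg.Statements.S4628
import Mathlib
import Cfsg.Agent.S4623
import Cfsg.Agent.S4624
import Cfsg.Agent.Lib.Helper7.Basic
import Cfsg.Agent.Lib.Helper48.GL2Syl
import Cfsg.Agent.Lib.Helper48.GLWreath
import Cfsg.Agent.Lib.Helper48.GLTwoArith
import Cfsg.Agent.Lib.Helper48.SylTorus

set_option autoImplicit false
open Cfsg

namespace Cfsg.Agent.S4628

open Cfsg.Agent.S4623 Cfsg.Agent.S4624 Cfsg.Agent.Lib.Helper48 Cfsg.Agent.Lib.Helper65.GenDih
  Cfsg.Agent.Lib.Helper7 SemidirectProduct Matrix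

/-- Let F be a finite field of odd order q with 4 dividing q + 1, and m ≥ 1. Then a Sylow 2-subgroup P of SL_{2m+1}(F) has P/P' elementary abelian: the square of every element of P lies in the derived subgroup of P. -/
theorem result {F : Type*} [Field F] [Fintype F] (hF : Odd (Fintype.card F)) (hq : 4 ∣ Fintype.card F + 1) (m : ℕ) (hm : 1 ≤ m) (P : Sylow 2 (Matrix.SpecialLinearGroup (Fin (2 * m + 1)) F)) :
    ∀ x : (P : Subgroup (Matrix.SpecialLinearGroup (Fin (2 * m + 1)) F)), x ^ 2 ∈ commutator (P : Subgroup (Matrix.SpecialLinearGroup (Fin (2 * m + 1)) F)) := by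
  classical
  set q := Fintype.card F with hqdef
  have hq1 : 1 < q := Fintype.one_lt_card
  have h2q : ¬ 2 ∣ q := by omega
  obtain ⟨S⟩ : Nonempty (Sylow 2 (GL (Fin 2) F)) := inferInstance
  obtain ⟨T⟩ : Nonempty (Sylow 2 (Equiv.Perm (Fin m))) := inferInstance
  have hS := ExT_sylow_GL2 hq S
  have hT : ExT 2 (T : Subgroup (Equiv.Perm (Fin m))) := sym_ExT 2 m T
  have hH := ExT_semi' (mulAutArrow : (T : Subgroup (Equiv.Perm (Fin m))) →*
    MulAut (Fin m → (S : Subgroup (GL (Fin 2) F)))) (ExT_pi hS) hT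
  have hcardι : Fintype.card ((Fin m ⊕ Fin m) ⊕ Unit) = 2 * m + 1 := by
    simp; ring
  let e := Fintype.equivFinOfCardEq hcardι
  let Θ := (slReindex (R := F) e).toMonoidHom.comp ((glToSL (Fin m ⊕ Fin m) F).comp
    (glWreath (S : Subgroup (GL (Fin 2) F)) (T : Subgroup (Equiv.Perm (Fin m)))))
  have hΘ : Function.Injective Θ :=
    (slReindex (R := F) e).injective.comp ((glToSL_injective _).comp (glWreath_injective _ _))
  have hGL2 : (Nat.card (GL (Fin 2) F)).factorization 2 = 1 + padicValNat 2 (q ^ 2 - 1) := by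
    rw [Matrix.card_GL_field, Nat.factorization_def _ Nat.prime_two, ← hqdef,
      v2_card_GL_formula q (by omega) h2q 2]
    have := v2_prod_even q hq 1
    simpa using this
  have hSL : (Nat.card (SpecialLinearGroup (Fin (2 * m + 1)) F)).factorization 2 =
      m + m * padicValNat 2 (q ^ 2 - 1) + padicValNat 2 m.factorial := by
    have h1 := card_GL_eq_card_SL_mul (n := Fin (2 * m + 1)) (F := F)
    rw [Matrix.card_GL_field, Nat.card_eq_fintype_card (α := Fˣ), Fintype.card_units,
      ← hqdef] at h1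
    have h2 := congrArg (padicValNat 2) h1
    rw [v2_card_GL_formula q (by omega) h2q, v2_prod_odd q hq m,
      padicValNat.mul Nat.card_pos.ne' (by omega)] at h2
    have h3 : padicValNat 2 (q - 1) = 1 := by simpa using v2_odd_pow q hq 0
    rw [Nat.factorization_def _ Nat.prime_two]
    omega
  have hcard : Nat.card ((Fin m → (S : Subgroup (GL (Fin 2) F))) ⋊[(mulAutArrow :
      (T : Subgroup (Equiv.Perm (Fin m))) →* MulAut (Fin m → (S : Subgroup (GL (Fin 2) F))))]
      (T : Subgroup (Equiv.Perm (Fin m)))) =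
      2 ^ (Nat.card (SpecialLinearGroup (Fin (2 * m + 1)) F)).factorization 2 := by
    rw [SemidirectProduct.card, Nat.card_fun, S.card_eq_multiplicity, T.card_eq_multiplicity,
      Nat.card_perm, Nat.card_fin, hGL2, hSL, Nat.factorization_def _ Nat.prime_two,
      ← pow_mul, ← pow_add]
    congr 1
    ring
  obtain ⟨e2⟩ := sylow_mulEquiv_of_injective 2 Θ hΘ hcard P
  exact hH.of_equiv e2.symm

end Cfsg.Agent.S4628
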