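import Cfsg.Statements.S4707
import Cfsg.Agent.Lib.Helper96.TwoP13
import Cfsg.Agent.Lib.Helper96.TwoP11
import Cfsg.Agent.S0494

set_option autoImplicit false
open Cfsg

namespace Cfsg.Agent.S4707

/-- Let p > 3 be a prime and G a primitive permutation group of degree 2p that is not doubly transitive. If a Sylow p-subgroup of G has normalizer of order 2p, then p = 5 and G is isomorphic to the alternating group of degree 5. -/
theorem result {α : Type*} [Fintype α] [DecidableEq α] {p : ℕ} [Fact p.Prime] (hp : 3 < p) (hα : Fintype.card α = 2 * p) (G : Subgroup (Equiv.Perm α)) (hprim : MulAction.IsPreprimitive G α) (hnot2 : ¬ MulAction.IsMultiplyPretransitive G α 2) (P : Sylow p G) (hN : Nat.card (Subgroup.normalizer ((P : Subgroup G) : Set G)) = 2 * p) : p = 5 ∧ Nonempty (G ≃* alternatingGroup (Fin 5)) := by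
  classical
  have hpp : p.Prime := Fact.out
  have hp5 : 5 ≤ p := by
    have h4 : p ≠ 4 := by
      intro h
      rw [h] at hpp
      exact absurd hpp (by decide)
    omega
  have hp2 : p ≠ 2 := by omega
  have : Fintype G := Fintype.ofFinite G
  have hfpf : ∀ g : G, orderOf g = p → ∀ a : α, g • a ≠ a := by
    intro g hg a hga
    exact hnot2 (Lib.Helper96.two_trans_of_fixed_point hpp hp2 hα G hprim g.2
      (by rw [Subgroup.orderOf_coe]; exact hg) hga)
  have hne : Nonempty α := by
    rw [← Fintype.card_pos_iff, hα]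
    omega
  obtain ⟨a₀⟩ := hne
  have hdvd : p ∣ Nat.card G := by
    have h1 := MulAction.index_stabilizer_of_transitive G a₀
    have h2 := (MulAction.stabilizer G a₀).index_dvd_card
    rw [h1, Nat.card_eq_fintype_card, hα] at h2
    exact (Dvd.intro_left 2 rfl).trans h2
  have hdP : p ∣ Nat.card P := P.dvd_card_of_dvd_card hdvd
  have hPcard : Nat.card P = p := by
    have h1 : Nat.card P ∣ 2 * p := by
      rw [← hN]
      exact Subgroup.card_dvd_of_le Subgroup.le_normalizer
    obtain ⟨k, hk⟩ := (IsPGroup.iff_card.1 P.2)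
    have hk' : Nat.card P = p ^ k := hk
    rw [hk'] at h1 hdP ⊢
    have hk1 : k ≠ 0 := by
      intro h0
      rw [h0, pow_zero] at hdP
      exact hpp.one_lt.ne' (Nat.dvd_one.1 hdP)
    have hk2 : k < 2 := by
      by_contra hcon
      push Not at hcon
      have h2 : p ^ 2 ∣ 2 * p := (pow_dvd_pow p hcon).trans h1
      rw [pow_two, mul_comm 2 p] at h2
      have h3 : p ∣ 2 := Nat.dvd_of_mul_dvd_mul_left hpp.pos h2
      exact hp2 ((Nat.prime_dvd_prime_iff_eq hpp Nat.prime_two).1 h3)
    have : k = 1 := by omega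
    rw [this, pow_one]
  obtain ⟨x, hx⟩ := exists_prime_orderOf_dvd_card' p hdP
  have hx' : orderOf (x : G) = p := by rw [Subgroup.orderOf_coe]; exact hx
  have hzP : Subgroup.zpowers (x : G) = (P : Subgroup G) := by
    refine Subgroup.eq_of_le_of_card_ge (Subgroup.zpowers_le.2 x.2) ?_
    rw [Nat.card_zpowers, hx']
    exact hPcard.le
  have hN' : Nat.card (Lib.Helper96.nrm (x : G)) = 2 * p := by
    unfold Lib.Helper96.nrm
    rw [hzP]
    exact hN
  obtain ⟨h5, h60, hsimple⟩ := Lib.Helper96.two_p_dihedral hpp hp5 hα hprim hx' hfpf hnot2 hN'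
  exact ⟨h5, Cfsg.Agent.S0494.result h60⟩

end Cfsg.Agent.S4707
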