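import Cfsg.Statements.S4709
import Cfsg.Agent.Lib.Helper83.BLShape
import Cfsg.Agent.S0942

set_option autoImplicit false
open Cfsg
open Cfsg.Agent.Lib.Helper20 Cfsg.Agent.Lib.Helper46 Cfsg.Agent.Lib.Helper81 Cfsg.Agent.Lib.Helper51 Cfsg.Agent.Lib.Helper83

namespace Cfsg.Agent.S4709

/-- Let p be a prime, M a maximal ideal of the algebraic integers containing p, and G a finite group with a nontrivial abelian Sylow p-subgroup P; put N = N_G(P), C = C_G(P). Suppose N/C is cyclic of order m with 1 < m < #P − 1 (C has index m in N and N is generated by C and one element), and C_G(y) ∩ N = C for every non-identity y ∈ P. Put r = (#P − 1)/m. Then there is s ≤ m such that the principal p-block is the disjoint union of a set X of s characters containing the principal character and a set Y of r characters, with integers a_χ ≠ 0 (χ ∈ X), d and a sign δ = ±1, such that: every χ ∈ X takes the value a_χ at every element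 whose p-part is a non-identity element of P; there is a map ζ from the non-principal linear characters ψ of P onto Y, constant on N-conjugacy classes, with ζ_ψ(z) = d + δ·Σ ψ'(y) for every z whose p-part y is a non-identity element of P, the sum running over the N-conjugates ψ' of ψ; (d − δ)^2 + (r − 1) d^2 + Σ_{χ ∈ X} a_χ^2 = m + 1; all members of Y agree on p-regular elements; and (r d − δ) η(g) + Σ_{χ ∈ X} a_χ χ(g) = 0 for every η ∈ Y and every p-regular g. -/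
theorem result {G : Type*} [Group G] [Finite G] (p : ℕ) [Fact p.Prime] (M : Ideal Cfsg.AlgInt) (hM : Cfsg.IsPModular p M) (P : Sylow p G) (hab : IsMulCommutative P) (hP1 : Nat.card P ≠ 1) (m : ℕ) (hm1 : 1 < m) (hm2 : m + 1 < Nat.card P) (hCN : (Subgroup.centralizer ((P : Subgroup G) : Set G)).relIndex (Subgroup.normalizer ((P : Subgroup G) : Set G)) = m) (hcyc : ∃ g : G, g ∈ Subgroup.normalizer ((P : Subgroup G) : Set G) ∧ Subgroup.centralizer ((P : Subgroup G) : Set G) ⊔ Subgroup.zpowers g = Subgroup.normalizer ((P : Subgroup G) : Set G)) (hfrob : ∀ y : G, y ∈ (P : Subgroup G) → y ≠ 1 → Subgroup.centralizer ({y} : Set G) ⊓ Subgroup.normalizer ((P : Subgroup G) : Set G) = Subgroup.centralizer ((P : Subgroup G) : Set G)) : ∃ (s : ℕ) (X Y : Set (Cfsg.IrrCharacter G)), s ≤ m ∧ Cfsg.principalBlock M G = X ∪ Y ∧ Disjoint X Y ∧ Nat.card X = s ∧ Nat.card Y = (Nat.card P - 1) / m ∧ (∃ χ₁ ∈ X, (χ₁ : G → ℂ) = fun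 _ => 1) ∧ ∃ (a : Cfsg.IrrCharacter G → ℤ) (d δ : ℤ) (ζ : (↥(P : Subgroup G) →* ℂˣ) → Cfsg.IrrCharacter G), (δ = 1 ∨ δ = -1) ∧ (∀ χ ∈ X, a χ ≠ 0 ∧ ∀ z y : G, Cfsg.IsPPart p z y → y ∈ (P : Subgroup G) → y ≠ 1 → (χ : G → ℂ) z = (a χ : ℂ)) ∧ (∀ ψ : ↥(P : Subgroup G) →* ℂˣ, ψ ≠ 1 → ζ ψ ∈ Y) ∧ (∀ η ∈ Y, ∃ ψ : ↥(P : Subgroup G) →* ℂˣ, ψ ≠ 1 ∧ ζ ψ = η) ∧ (∀ ψ ψ' : ↥(P : Subgroup G) →* ℂˣ, ψ ≠ 1 → (∃ n : G, n ∈ Subgroup.normalizer ((P : Subgroup G) : Set G) ∧ ∀ w w' : ↥(P : Subgroup G), (w' : G) = n * w * n⁻¹ → ψ' w' = ψ w) → ζ ψ' = ζ ψ) ∧ (∀ ψ : ↥(P : Subgroup G) →* ℂˣ, ψ ≠ 1 → ∀ (z : G) (y : ↥(P : Subgroup G)), Cfsg.IsPPart p z (y : G) → (y : G) ≠ 1 → (ζ ψ : G → ℂ) z = (d : ℂ) + (δ : ℂ) * ∑ᶠ ψ' ∈ {ψ' : ↥(P : Subgroup G) →* ℂˣ | ∃ n : G, n ∈ Subgroup.normalizer ((P : Subgroup G) : Set G) ∧ ∀ w w' : ↥(P : Subgroup G), (w' : G) = n * w * n⁻¹ → ψ' w' = ψ w}, ((ψ' y : ℂˣ) : ℂ)) ∧ ((d - δ) ^ 2 + ((Nat.card P - 1) / m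 - 1 : ℤ) * d ^ 2 + ∑ᶠ χ ∈ X, a χ ^ 2 = (m : ℤ) + 1) ∧ (∀ η ∈ Y, ∀ η' ∈ Y, ∀ g : G, ¬ p ∣ orderOf g → (η : G → ℂ) g = (η' : G → ℂ) g) ∧ (∀ η ∈ Y, ∀ g : G, ¬ p ∣ orderOf g → ((((Nat.card P - 1) / m : ℕ) : ℂ) * d - δ) * (η : G → ℂ) g + ∑ᶠ χ ∈ X, (a χ : ℂ) * (χ : G → ℂ) g = 0) := by
  classical
  haveI := hab
  have := Fintype.ofFinite G
  have : Finite (IrrCharacter G) := finite_irrCharacter
  have : Fintype (IrrCharacter G) := Fintype.ofFinite _
  have : Fintype (P : Subgroup G) := Fintype.ofFinite _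
  have hc : ∀ a b : (P : Subgroup G), a * b = b * a := fun a b => hab.is_comm.comm a b
  have hfree := freeNC_of_frob (P : Subgroup G) hfrob
  have : Finite ((P : Subgroup G) →* ℂˣ) := finite_hom hc
  have : Fintype ((P : Subgroup G) →* ℂˣ) := Fintype.ofFinite _
  have hm2' : (Subgroup.centralizer ((P : Subgroup G) : Set G)).relIndex
      (Subgroup.normalizer ((P : Subgroup G) : Set G)) + 1 < Nat.card (P : Subgroup G) := by
    rw [hCN]; exact hm2
  obtain ⟨ε, d, ζ, a, h⟩ := exists_blShape hM P hfrob hm2'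
  obtain ⟨ψ₀, ψ₁, hψ₀, hψ₁, hnrel⟩ := exists_two_orbits (P : Subgroup G) hc hfree hm2'
  have hcardP : Nat.card P = Nat.card (P : Subgroup G) := rfl
  have hcardY : Nat.card (excSet ζ) * m = Nat.card P - 1 := by
    have := h.card_exc hc hfree
    rwa [hCN] at this
  have hY : Nat.card (excSet ζ) = (Nat.card P - 1) / m := by
    rw [← hcardY, Nat.mul_div_cancel _ (by omega)]
  have hr2 : 2 ≤ Nat.card (excSet ζ) := by
    have : Fintype (excSet ζ) := Fintype.ofFinite _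
    have : 1 < Fintype.card (excSet ζ) := by
      rw [Fintype.one_lt_card_iff]
      refine ⟨⟨ζ ψ₀, h.mem_exc hψ₀⟩, ⟨ζ ψ₁, h.mem_exc hψ₁⟩, ?_⟩
      intro he
      exact hnrel ((h.inj ψ₀ ψ₁ hψ₀ hψ₁).1 (congrArg Subtype.val he))
    rw [Nat.card_eq_fintype_card]; omega
  have hnorm := h.norm_eq hψ₀ (m : ℤ) (by
    rw [blK_gram hM P hfrob hψ₀ hψ₀, hCN, if_pos (dualRel_refl _ _)])
  -- a nonidentity element of P
  obtain ⟨y₀, hy₀⟩ : ∃ y₀ : (P : Subgroup G), y₀ ≠ 1 := by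
    by_contra hcon
    push Not at hcon
    apply hP1
    rw [hcardP, Nat.card_eq_one_iff_unique]
    exact ⟨⟨fun a b => by rw [hcon a, hcon b]⟩, ⟨1⟩⟩
  -- constancy on sections
  have hF1 : ∀ χ ∈ principalBlock M G, ∀ z y : G, IsPPart p z y → y ∈ (P : Subgroup G) → y ≠ 1 →
      (χ : G → ℂ) z = (χ : G → ℂ) y := by
    intro χ hχ z y hz hy hy1
    obtain ⟨v, hv, hcomm, hord, hreg⟩ := hz
    rw [← hv]
    exact Cfsg.Agent.S0942.result p M hM y hord v
      (mem_centralizerPPrimeCore_of_regular P hy (hfrob y hy hy1) hcomm hreg) χ hχ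
  have ha0 : ∀ χ ∈ principalBlock M G \ excSet ζ, a χ ≠ 0 := by
    intro χ hχ h0
    have h1 := h.value_nonexc hc hχ hy₀
    rw [h0, Int.cast_zero] at h1
    exact principal_ne_zero hM P (sylow_le_centralizer_singleton P y₀.2) hχ.1 h1
  have hε0 : ε * ε = 1 := h.eps_sq
  have hXcard : (Nat.card ↥(principalBlock M G \ excSet ζ) : ℤ)
      ≤ ∑ χ : IrrCharacter G, if χ ∈ principalBlock M G \ excSet ζ then a χ ^ 2 else 0 := by
    have h1 : (Nat.card ↥(principalBlock M G \ excSet ζ) : ℤ)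
        = ∑ χ : IrrCharacter G, if χ ∈ principalBlock M G \ excSet ζ then (1 : ℤ) else 0 := by
      rw [Finset.sum_boole, Nat.card_eq_fintype_card, Fintype.card_subtype]
    rw [h1]
    apply Finset.sum_le_sum
    intro χ _
    split_ifs with hχ
    · have := ha0 χ hχ
      have h2 : 0 < a χ ^ 2 := by positivity
      omega
    · exact le_refl _
  have hsm : Nat.card ↥(principalBlock M G \ excSet ζ) ≤ m := by
    have h1 : (1 : ℤ) ≤ (d - ε) ^ 2 + ((Nat.card (excSet ζ) : ℤ) - 1) * d ^ 2 := by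
      have hr : (1 : ℤ) ≤ (Nat.card (excSet ζ) : ℤ) - 1 := by
        have : (2 : ℤ) ≤ (Nat.card (excSet ζ) : ℤ) := by exact_mod_cast hr2
        omega
      by_cases hd : d = 0
      · rw [hd]
        have : (0 - ε) ^ 2 = 1 := by rw [← hε0]; ring
        rw [this]; simp
      · have h2 : 0 < d ^ 2 := by positivity
        nlinarith [sq_nonneg (d - ε)]
    have h2 : (Nat.card ↥(principalBlock M G \ excSet ζ) : ℤ) ≤ (m : ℤ) := by linarith
    exact_mod_cast h2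
  refine ⟨Nat.card ↥(principalBlock M G \ excSet ζ), principalBlock M G \ excSet ζ, excSet ζ, hsm,
    (Set.diff_union_of_subset h.exc_subset).symm, Set.disjoint_sdiff_left, rfl, hY, ?_,
    a, d, ε, ζ, h.eps, ?_, fun ψ hψ => h.mem_exc hψ, ?_, ?_, ?_, ?_, ?_, ?_⟩
  · -- the principal character
    refine ⟨oneIrr G, ⟨oneIrr_mem hM, ?_⟩, rfl⟩
    rintro ⟨φ, hφ, he⟩
    -- the exceptional characters are not constant on P^#; use multiplicities
    obtain ⟨φ', hφ', hn⟩ : ∃ φ', φ' ≠ 1 ∧ ¬ dualRel (P : Subgroup G) φ' φ := by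
      by_cases h0 : dualRel (P : Subgroup G) ψ₀ φ
      · exact ⟨ψ₁, hψ₁, fun h1 => hnrel (dualRel_trans _ h0 (dualRel_symm _ h1))⟩
      · exact ⟨ψ₀, hψ₀, h0⟩
    have hne : ζ φ ≠ ζ φ' := fun hh => hn (dualRel_symm _ ((h.inj φ φ' hφ hφ').1 hh))
    have h1 := h.shape φ hφ (ζ φ)
    have h2 := h.shape φ' hφ' (ζ φ)
    rw [if_pos rfl] at h1
    rw [if_neg hne] at h2
    rw [blK_of_mem M _ _ (h.mem φ hφ)] at h1 h2
    -- multiplicities of nontrivial characters in the trivial character vanish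
    have hz : ∀ ξ : (P : Subgroup G) →* ℂˣ, ξ ≠ 1 → cZ (P : Subgroup G) (ζ φ) ξ = 0 := by
      intro ξ hξ
      have : ((cZ (P : Subgroup G) (ζ φ) ξ : ℤ) : ℂ) = 0 := by
        rw [cZ_spec, he, cfP, classInner]
        have h3 := sum_hom_orth (1 : (P : Subgroup G) →* ℂˣ) ξ
        rw [if_neg (Ne.symm hξ)] at h3
        simp only [MonoidHom.one_apply, Units.val_one] at h3
        simp only [oneIrr]
        rw [h3, mul_zero]
      exact_mod_cast this
    rw [hz φ hφ] at h1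
    rw [hz φ' hφ'] at h2
    have : ε = 0 := by linarith
    rw [this] at hε0
    norm_num at hε0
  · intro χ hχ
    refine ⟨ha0 χ hχ, ?_⟩
    intro z y hz hy hy1
    rw [hF1 χ hχ.1 z y hz hy hy1]
    exact h.value_nonexc hc hχ (y := ⟨y, hy⟩) (fun hh => hy1 (congrArg Subtype.val hh))
  · rintro η ⟨ψ, hψ, rfl⟩
    exact ⟨ψ, hψ, rfl⟩
  · intro ψ ψ' hψ hrel
    have hrel' : dualRel (P : Subgroup G) ψ ψ' := hrel
    exact ((h.inj ψ ψ' hψ (dualRel_ne_one _ hrel' hψ)).2 hrel').symm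
  · intro ψ hψ z y hz hy1
    rw [hF1 _ (h.mem ψ hψ) z y hz y.2 hy1,
      h.value_exc hc hψ (y := y) (fun hh => hy1 (congrArg Subtype.val hh))]
    congr 2
    have := finsum_mem_irr {ψ' : (P : Subgroup G) →* ℂˣ | dualRel (P : Subgroup G) ψ ψ'}
      (fun ψ' => ((ψ' y : ℂˣ) : ℂ))
    exact this.symm
  · rw [finsum_mem_irr]
    have h1 : ((Nat.card P : ℤ) - 1) / (m : ℤ) = (Nat.card (excSet ζ) : ℤ) := by
      have h2 : ((Nat.card P : ℤ) - 1) = (Nat.card (excSet ζ) : ℤ) * (m : ℤ) := by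
        have h3 : 1 ≤ Nat.card P := by omega
        have h4 : ((Nat.card (excSet ζ) * m : ℕ) : ℤ) = ((Nat.card P - 1 : ℕ) : ℤ) := by
          rw [hcardY]
        rw [Nat.cast_sub h3] at h4
        push_cast at h4
        linarith
      rw [h2, Int.mul_ediv_cancel _ (by omega)]
    rw [h1]
    exact hnorm
  · rintro η ⟨ψ, hψ, rfl⟩ η' ⟨ψ', hψ', rfl⟩ g hg
    exact h.exc_agree hM P.2 hψ hψ' hg
  · rintro η ⟨ψ, hψ, rfl⟩ g hg
    rw [finsum_mem_irr, ← hY]
    exact h.regular_rel hM P.2 hψ hg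

end Cfsg.Agent.S4709
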