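import Cfsg.Statements.S4711
import Cfsg.Agent.S4521
import Cfsg.Agent.Lib.Helper84.PPrimeDeg2
import Cfsg.Agent.Lib.Helper84.NormCompl2
import Cfsg.Agent.Lib.Helper5.PrinSolv
import Cfsg.Agent.Lib.Helper66.PLength
import Cfsg.Agent.Lib.Helper31.PSolv
import Cfsg.Agent.Lib.Helper14.QuadConseq2
import Cfsg.Agent.Lib.Helper51.BlockCol
-- import your own Cfsg.Agent.* helpers here

set_option autoImplicit false
open Cfsg
open scoped ComplexConjugate commutatorElement
open Cfsg.Agent.Lib.Helper20 Cfsg.Agent.Lib.Helper82 Cfsg.Agent.Lib.Helper84 Cfsg.Agent.Lib.Helper81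
open Cfsg.Agent.Lib.Helper66

namespace Cfsg.Agent.S4711

theorem isPSolvable_of_normal_sylow {Y : Type*} [Group Y] [Finite Y] {p : ℕ} [Fact p.Prime]
    (R : Subgroup Y) [R.Normal] (hR : IsPGroup p R) (hidx : ¬ p ∣ R.index) : IsPSolvable p Y := by
  apply Cfsg.Agent.Lib.Helper31.isPSolvable_of_quotient p R (Or.inl (IsPGroup.iff_card.1 hR))
  apply Cfsg.Agent.Lib.Helper31.isPSolvable_of_quotient p (⊤ : Subgroup (Y ⧸ R)) (Or.inr ?_)
  · apply Cfsg.Agent.Lib.Helper14.isPSolvable_of_isPGroup
    apply IsPGroup.of_card (n := 0)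
    rw [pow_zero, ← Subgroup.index_eq_card, Subgroup.index_top]
  · rw [Subgroup.card_top, ← Subgroup.index_eq_card]
    exact ((Nat.Prime.coprime_iff_not_dvd Fact.out).2 hidx).symm

/-- membership in the principal block via the inner product with the indicator of `p`-regular
elements -/
theorem mem_principal_iff_inner {G : Type*} [Group G] [Fintype G] {p : ℕ} [Fact p.Prime]
    {M : Ideal AlgInt} (hM : IsPModular p M) (χ : IrrCharacter G) :
    χ ∈ principalBlock M G ↔ classInner (χ : G → ℂ) (pRegInd p G) ≠ 0 := by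
  rw [Cfsg.Agent.S4521.mem_principalBlock_iff_ne_zero hM]
  have h1 : (χ : G → ℂ) 1 ≠ 0 := isIrr_one_ne_zero χ.2
  have h2 : (Nat.card G : ℂ) ≠ 0 := by exact_mod_cast Nat.card_pos.ne'
  have h3 : ∑ g : G, (χ : G → ℂ) g * conj (pRegInd p G g) = ∑ g : G, pRegInd p G g * (χ : G → ℂ) g := by
    apply Finset.sum_congr rfl
    intro g _
    have : conj (pRegInd p G g) = pRegInd p G g := by
      unfold pRegInd
      split_ifs <;> simp
    rw [this, mul_comm]
  unfold omega classInner
  rw [h3, ← Finset.sum_div, Ne, Ne, div_eq_zero_iff, mul_eq_zero, inv_eq_zero]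
  tauto

theorem classInner_sum_smul {G : Type*} [Group G] [Fintype G] [Fintype (IrrCharacter G)]
    (c : IrrCharacter G → ℂ) (f : G → ℂ) :
    classInner (∑ χ : IrrCharacter G, c χ • (χ : G → ℂ)) f =
      ∑ χ : IrrCharacter G, c χ * classInner (χ : G → ℂ) f := by
  unfold classInner
  simp only [Finset.sum_apply, Pi.smul_apply, smul_eq_mul, Finset.sum_mul, Finset.mul_sum]
  rw [Finset.sum_comm]
  apply Finset.sum_congr rfl
  intro χ _
  apply Finset.sum_congr rfl
  intro g _
  ring

theorem exists_extension {G : Type*} [Group G] [Finite G] {p : ℕ} [Fact p.Prime]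
    {M : Ideal AlgInt} (hM : IsPModular p M) (H : Subgroup G)
    (hres : ∀ χ ∈ principalBlock M G, IsIrrCharacter H (fun n : H => (χ : G → ℂ) n))
    (μ : IrrCharacter H) (hμ : μ ∈ principalBlock M H) :
    ∃ χ ∈ principalBlock M G, ∀ x : H, (χ : G → ℂ) x = (μ : H → ℂ) x := by
  classical
  have := Fintype.ofFinite G
  have := Cfsg.Agent.Lib.Helper20.finite_irrCharacter (G := G)
  have := Fintype.ofFinite (IrrCharacter G)
  rw [mem_principal_iff_inner hM] at hμ
  have h1 : classInner (indFun H (μ : H → ℂ)) (pRegInd p G) = classInner (μ : H → ℂ) (pRegInd p H) := by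
    rw [Cfsg.Agent.Lib.Helper19.frobenius_reciprocity H _ _ (pRegInd_classFunction p)]
    congr 1
    funext h
    simp only [pRegInd, Subgroup.orderOf_coe]
  have hcl : IsClassFunction G (indFun H (μ : H → ℂ)) :=
    isChar_isClassFunction (Cfsg.Agent.Lib.Helper19.isCharacter_indFun H _ (isIrr_isChar μ.2))
  have h2 := eq_sum_classInner_smul hcl
  have h3 : classInner (indFun H (μ : H → ℂ)) (pRegInd p G) =
      ∑ χ : IrrCharacter G, classInner (indFun H (μ : H → ℂ)) (χ : G → ℂ) *
        classInner (χ : G → ℂ) (pRegInd p G) := by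
    conv_lhs => rw [h2]
    exact classInner_sum_smul _ _
  rw [h1] at h3
  have : ∃ χ : IrrCharacter G, classInner (indFun H (μ : H → ℂ)) (χ : G → ℂ) *
        classInner (χ : G → ℂ) (pRegInd p G) ≠ 0 := by
    by_contra hcon
    push Not at hcon
    apply hμ
    rw [h3]
    exact Finset.sum_eq_zero fun χ _ => hcon χ
  obtain ⟨χ, hχ⟩ := this
  have hχB : χ ∈ principalBlock M G := (mem_principal_iff_inner hM χ).2 (right_ne_zero_of_mul hχ)
  refine ⟨χ, hχB, ?_⟩
  have h4 := left_ne_zero_of_mul hχ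
  rw [Cfsg.Agent.Lib.Helper19.frobenius_reciprocity H _ _
    (isChar_isClassFunction (isIrr_isChar χ.2))] at h4
  have heq : (μ : H → ℂ) = fun a : H => (χ : G → ℂ) a := by
    by_contra hne
    exact h4 (classInner_irr_ne μ.2 (hres χ hχB) hne)
  intro x
  rw [heq]

theorem sylow_le_of_normal_of_coprime_index {G : Type*} [Group G] [Finite G] {p : ℕ} [Fact p.Prime]
    (P : Sylow p G) (T : Subgroup G) [T.Normal] (hT : (T.index).Coprime p) :
    (P : Subgroup G) ≤ T := by
  intro x hxP
  have h2 : x ^ T.index ∈ T := Subgroup.pow_index_mem _ _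
  obtain ⟨k, hk⟩ := P.2 ⟨x, hxP⟩
  have h3 : orderOf x ∣ p ^ k := by
    apply orderOf_dvd_of_pow_eq_one
    simpa using congrArg Subtype.val hk
  have h4 : (T.index).Coprime (orderOf x) :=
    Nat.Coprime.coprime_dvd_right h3 (Nat.Coprime.pow_right k hT)
  obtain ⟨m, hm⟩ := exists_pow_eq_self_of_coprime h4
  rw [← hm]
  exact pow_mem h2 m

theorem plength_of_sup {G : Type*} [Group G] [Finite G] {p : ℕ} [Fact p.Prime] (P : Sylow p G)
    (K : Subgroup G) [hKn : K.Normal] (hKc : (Nat.card K).Coprime p)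
    (hKN : K ⊔ Subgroup.normalizer ((P : Subgroup G) : Set G) = ⊤) : PLengthLE p 1 G := by
  have hp : p.Prime := Fact.out
  set N := Subgroup.normalizer ((P : Subgroup G) : Set G) with hN
  set T := K ⊔ (P : Subgroup G) with hT
  have hconj : ∀ n ∈ N, ∀ h ∈ T, n * h * n⁻¹ ∈ T := by
    intro n hn h hh
    rw [hT, ← SetLike.mem_coe, Subgroup.normal_mul] at hh
    obtain ⟨k, hk, u, hu, rfl⟩ := hh
    have h1 : n * k * n⁻¹ ∈ K := hKn.conj_mem k hk n
    have h2 : n * u * n⁻¹ ∈ (P : Subgroup G) := (Subgroup.mem_normalizer_iff.1 hn u).1 hu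
    have h3 : n * (k * u) * n⁻¹ = (n * k * n⁻¹) * (n * u * n⁻¹) := by group
    rw [h3]
    exact mul_mem (Subgroup.mem_sup_left h1) (Subgroup.mem_sup_right h2)
  have hTn : T.Normal := by
    rw [← Subgroup.normalizer_eq_top_iff, eq_top_iff, ← hKN]
    refine sup_le ((le_sup_left : K ≤ T).trans Subgroup.le_normalizer) ?_
    intro n hn
    rw [Subgroup.mem_normalizer_iff]
    intro h
    refine ⟨hconj n hn h, fun hh => ?_⟩
    have := hconj n⁻¹ (inv_mem hn) _ hh
    simpa [mul_assoc] using this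
  have h1 : K ≤ ups p G 1 := by
    apply le_ups_succ_of_even (X := ⊥) (j := 0) (by simp) hKn bot_le
    rw [Subgroup.relIndex_bot_left]
    exact hKc
  obtain ⟨k, hk⟩ := IsPGroup.iff_card.1 P.2
  have h2 : T ≤ ups p G 2 := by
    apply le_ups_succ_of_odd (X := K) (j := 1) (by decide) hTn h1 (m := k)
    rw [hT, Subgroup.relIndex_sup_left, ← hk]
    exact Subgroup.index_dvd_card _
  rw [pLengthLE_iff, eq_top_iff]
  apply le_ups_succ_of_even (X := T) (j := 2) (by decide) inferInstance h2
  rw [Subgroup.relIndex_top_right]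
  have h3 : T.index ∣ (P : Subgroup G).index := Subgroup.index_dvd_of_le le_sup_right
  exact Nat.Coprime.coprime_dvd_left h3 ((Nat.Prime.coprime_iff_not_dvd hp).2 P.not_dvd_index).symm

theorem sup_of_plength {G : Type*} [Group G] [Finite G] {p : ℕ} [Fact p.Prime] (P : Sylow p G)
    (h : PLengthLE p 1 G) :
    pPrimeCore p G ⊔ Subgroup.normalizer ((P : Subgroup G) : Set G) = ⊤ := by
  have hp : p.Prime := Fact.out
  rw [pLengthLE_iff] at h
  have hA : (Nat.card (ups p G 1)).Coprime p := by
    have := ups_relIndex_even (G := G) (p := p) (j := 0) (by simp)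
    rwa [ups_zero, Subgroup.relIndex_bot_left] at this
  obtain ⟨m, hm⟩ := ups_relIndex_odd (G := G) (p := p) (j := 1) (by decide)
  have hM : ((ups p G 2).index).Coprime p := by
    have := ups_relIndex_even (G := G) (p := p) (j := 2) (by decide)
    have e : ups p G (2 + 1) = ⊤ := h
    rwa [e, Subgroup.relIndex_top_right] at this
  have hPM : (P : Subgroup G) ≤ ups p G 2 := sylow_le_of_normal_of_coprime_index P _ hM
  have hfr := Sylow.normalizer_sup_eq_top' P hPM
  have hle : ups p G 2 ≤ ups p G 1 ⊔ (P : Subgroup G) := by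
    rw [← Subgroup.relIndex_eq_one]
    have d1 : (ups p G 1 ⊔ (P : Subgroup G)).relIndex (ups p G 2) ∣ p ^ m :=
      hm ▸ Subgroup.relIndex_dvd_of_le_left _ le_sup_left
    have d2 : (ups p G 1 ⊔ (P : Subgroup G)).relIndex (ups p G 2) ∣ (P : Subgroup G).index :=
      (Subgroup.relIndex_dvd_of_le_left _ le_sup_right).trans (Subgroup.relIndex_dvd_index_of_le hPM)
    have c : ((P : Subgroup G).index).Coprime (p ^ m) :=
      Nat.Coprime.pow_right m ((Nat.Prime.coprime_iff_not_dvd hp).2 P.not_dvd_index).symm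
    exact Nat.eq_one_of_dvd_coprimes c d2 d1
  have hAle : ups p G 1 ≤ pPrimeCore p G :=
    Cfsg.Agent.Lib.Helper80.le_pPrimeCore inferInstance hA
  rw [eq_top_iff, ← hfr]
  refine sup_le le_sup_right (hle.trans (sup_le (hAle.trans le_sup_left) ?_))
  exact Subgroup.le_normalizer.trans le_sup_right


/-- Let p be a prime, M a maximal ideal of the algebraic integers containing p, G a finite group, P a Sylow p-subgroup and N = N_G(P). Then G has p-length 1 (G = O_{p',p,p'}(G)) if and only if every irreducible character in the principal p-block of G restricts to an irreducible character of N. -/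
theorem result {G : Type*} [Group G] [Finite G] (p : ℕ) [Fact p.Prime] (M : Ideal Cfsg.AlgInt) (hM : Cfsg.IsPModular p M) (P : Sylow p G) : Cfsg.PLengthLE p 1 G ↔ ∀ χ ∈ Cfsg.principalBlock M G, Cfsg.IsIrrCharacter ↥(Subgroup.normalizer ((P : Subgroup G) : Set G)) (fun n : ↥(Subgroup.normalizer ((P : Subgroup G) : Set G)) => (χ : G → ℂ) n) := by
  set N := Subgroup.normalizer ((P : Subgroup G) : Set G) with hN
  have hPN : (P : Subgroup G) ≤ N := Subgroup.le_normalizer
  constructor
  · intro h χ hχ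
    have hsup := sup_of_plength P h
    have hAn := (Cfsg.Agent.Lib.Helper80.pPrimeCore_spec (G := G) p).1
    obtain ⟨ψ, hψ, hψχ⟩ := isIrr_deflate χ.2 (pPrimeCore p G)
      (Cfsg.Agent.Lib.Helper51.principal_ker hM χ hχ)
    let f : N →* G ⧸ pPrimeCore p G := (QuotientGroup.mk' _).comp N.subtype
    have hf : Function.Surjective f := by
      intro q
      obtain ⟨g, rfl⟩ := QuotientGroup.mk'_surjective _ q
      have hg : g ∈ pPrimeCore p G ⊔ N := by rw [hsup]; trivial
      rw [← SetLike.mem_coe, Subgroup.normal_mul] at hg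
      obtain ⟨k, hk, n, hn, rfl⟩ := hg
      refine ⟨⟨n, hn⟩, ?_⟩
      show (QuotientGroup.mk' _) n = (QuotientGroup.mk' _) (k * n)
      have hk1 : (QuotientGroup.mk' (pPrimeCore p G)) k = 1 := (QuotientGroup.eq_one_iff k).2 hk
      rw [map_mul, hk1, one_mul]
    have := isIrr_comp_surj hψ f hf
    convert this using 2 with n
    exact (hψχ n).symm
  · intro hres
    set R : Subgroup N := (P : Subgroup G).subgroupOf N with hR
    have hRn : R.Normal := Subgroup.normal_in_normalizer
    have hRp : IsPGroup p R := P.2.comap_subtype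
    have hRmap : R.map N.subtype = (P : Subgroup G) := Subgroup.map_subgroupOf_eq_of_le hPN
    have hRidx : ¬ p ∣ R.index := by
      intro h
      apply P.not_dvd_index
      have h1 : R.index = (P : Subgroup G).relIndex N := rfl
      rw [h1] at h
      exact h.trans (Subgroup.relIndex_dvd_index_of_le hPN)
    have hcomm : (⁅R, R⁆).map N.subtype = ⁅(P : Subgroup G), (P : Subgroup G)⁆ := by
      rw [Subgroup.map_commutator, hRmap]
    have hsolv : IsPSolvable p N := isPSolvable_of_normal_sylow R hRp hRidx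
    have hfong := fun θ : IrrCharacter N =>
      Cfsg.Agent.Lib.Helper5.mem_principalBlock_iff_of_isPSolvable hM hsolv θ
    have hOn := (Cfsg.Agent.Lib.Helper80.pPrimeCore_spec (G := N) p).1
    have hOc := (Cfsg.Agent.Lib.Helper80.pPrimeCore_spec (G := N) p).2
    let X0 : Set (IrrCharacter G) := {χ | χ ∈ principalBlock M G ∧ ¬ p ∣ charDegree (χ : G → ℂ)}
    let X1 : Set (IrrCharacter G) := {χ | χ ∈ principalBlock M G ∧
      ∀ u ∈ (P : Subgroup G), (χ : G → ℂ) u = (χ : G → ℂ) 1}
    have hPK : ⁅(P : Subgroup G), (P : Subgroup G)⁆ ≤ kerOf X0 := by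
      intro d hd
      rw [mem_kerOf]
      rintro χ ⟨hχB, hχp⟩
      rw [← hcomm] at hd
      obtain ⟨d', hd', rfl⟩ := hd
      exact commutator_le_ker_of_not_dvd R hRp (hres χ hχB) hχp d' hd'
    obtain ⟨K, hKn, hKc, hKN⟩ := exists_normal_coprime_sup P (kerOf X0) (kerOf X1)
      (fun u hu => mem_kerOf.2 fun χ hχ => hχ.2 u hu)
      (by
        rintro v ⟨hvN, hvL⟩ x hx
        -- v lies in R ⊔ O_{p'}(N)
        have hvR : (⟨v, hvN⟩ : N) ∈ R ⊔ pPrimeCore p N := by
          by_contra hv
          have hidx : ¬ p ∣ (R ⊔ pPrimeCore p N).index := fun h =>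
            hRidx (h.trans (Subgroup.index_dvd_of_le le_sup_left))
          obtain ⟨θ, h1, h2, h3⟩ := exists_irr_quot_ne (p := p) (R ⊔ pPrimeCore p N) hidx hv
          have hθB : θ ∈ principalBlock M N :=
            (hfong θ).2 fun n hn => h2 n (Subgroup.mem_sup_right hn)
          obtain ⟨χ, hχB, hχ⟩ := exists_extension hM N hres θ hθB
          have hχ1 : (χ : G → ℂ) 1 = (θ : N → ℂ) 1 := hχ 1
          have hmem : χ ∈ X1 := by
            refine ⟨hχB, fun u hu => ?_⟩
            rw [hχ1, ← h2 ⟨u, hPN hu⟩ (Subgroup.mem_sup_left hu)]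
            exact hχ ⟨u, hPN hu⟩
          apply h3
          rw [← hχ1, ← mem_kerOf.1 hvL χ hmem]
          exact (hχ ⟨v, hvN⟩).symm
        rw [← SetLike.mem_coe, Subgroup.normal_mul] at hvR
        obtain ⟨u, hu, c, hc, huc⟩ := hvR
        have hx' : (⟨x, hPN hx⟩ : N) ∈ R := hx
        -- c centralizes x
        have hcx : ⁅c, (⟨x, hPN hx⟩ : N)⁆ = 1 := by
          apply eq_one_of_mem_pgroup_of_coprime hRp hOc
          · rw [commutatorElement_def]
            exact mul_mem (hRn.conj_mem _ hx' c) (inv_mem hx')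
          · rw [commutatorElement_def, mul_assoc, mul_assoc, ← mul_assoc _ c⁻¹]
            exact mul_mem hc (hOn.conj_mem _ (inv_mem hc) _)
        have hcx2 : (c : G) * x * (c : G)⁻¹ = x := by
          rw [commutatorElement_def, mul_inv_eq_one] at hcx
          exact congrArg Subtype.val hcx
        have hv : v = (u : G) * (c : G) := (congrArg Subtype.val huc).symm
        have huP : (u : G) ∈ (P : Subgroup G) := hu
        have e : ⁅v, x⁆ = ⁅(u : G), x⁆ := by
          rw [commutatorElement_def, commutatorElement_def, hv]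
          have : (u : G) * (c : G) * x * ((u : G) * (c : G))⁻¹ = (u : G) * ((c : G) * x * (c : G)⁻¹) * (u : G)⁻¹ := by
            group
          rw [this, hcx2]
        rw [e]
        exact hPK (Subgroup.commutator_mem_commutator huP hx))
      hPK
      (by
        rintro x ⟨hxK, hxP⟩
        by_contra hx
        have hxc : (⟨x, hPN hxP⟩ : N) ∉ ⁅((P.subtype hPN : Sylow p N) : Subgroup N),
            ((P.subtype hPN : Sylow p N) : Subgroup N)⁆ := by
          intro h
          apply hx
          rw [← hcomm]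
          exact ⟨_, h, rfl⟩
        obtain ⟨θ, h1, h2, h3⟩ := exists_irr_not_dvd_ne_core (P.subtype hPN) (x := ⟨x, hPN hxP⟩) hxP hxc
        obtain ⟨χ, hχB, hχ⟩ := exists_extension hM N hres θ ((hfong θ).2 h2)
        have hχ1 : (χ : G → ℂ) 1 = (θ : N → ℂ) 1 := hχ 1
        have hdeg : charDegree (χ : G → ℂ) = charDegree (θ : N → ℂ) := by
          unfold charDegree
          rw [hχ1]
        apply h3
        rw [← hχ1, ← mem_kerOf.1 hxK χ ⟨hχB, hdeg ▸ h1⟩]
        exact (hχ ⟨x, hPN hxP⟩).symm)
    exact plength_of_sup P K hKc hKN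

end Cfsg.Agent.S4711
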