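import Cfsg.Statements.S4743
import Cfsg.Agent.S4742

set_option autoImplicit false
open Cfsg

namespace Cfsg.Agent.S4743

open Cfsg.Agent.Lib.Helper82

/-- A normal subgroup of order divisible by `q` but not by `p` forces a `p`-defect zero
character, when centralizers of non-identity `q`-elements are `p'`-groups. -/
theorem defect_zero_of_normal {G : Type*} [Group G] [Finite G] (p q : ℕ) [Fact p.Prime]
    [Fact q.Prime]
    (hC : ∀ g : G, g ≠ 1 → (∃ k : ℕ, orderOf g = q ^ k) →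
      ¬ p ∣ Nat.card ↥(Subgroup.centralizer ({g} : Set G)))
    (U : Subgroup G) [U.Normal] (hq : q ∣ Nat.card U) (hp : ¬ p ∣ Nat.card U) :
    ∃ χ : Cfsg.IrrCharacter G,
      (Cfsg.charDegree (χ : G → ℂ)).factorization p = (Nat.card G).factorization p := by
  obtain ⟨z, hz⟩ := exists_prime_orderOf_dvd_card' q hq
  have hz' : orderOf (z : G) = q := by rw [Subgroup.orderOf_coe, hz]
  have hz1 : (z : G) ≠ 1 := by
    intro h
    rw [h, orderOf_one] at hz'
    exact (Fact.out : q.Prime).one_lt.ne hz'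
  apply Cfsg.Agent.S4742.defect_zero_of_sep p (z : G) (hC _ hz1 ⟨1, by rw [hz', pow_one]⟩)
  intro g h hg hh hne k hk
  obtain ⟨a, rfl⟩ := isConj_iff.1 hg
  obtain ⟨b, rfl⟩ := isConj_iff.1 hh
  have hmem : a * (z : G) * a⁻¹ * (b * (z : G) * b⁻¹)⁻¹ ∈ U :=
    mul_mem (Subgroup.Normal.conj_mem inferInstance _ z.2 a)
      (inv_mem (Subgroup.Normal.conj_mem inferInstance _ z.2 b))
  have hk0 : k ≠ 0 := by
    rintro rfl
    rw [pow_zero, orderOf_eq_one_iff] at hk
    exact hne hk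
  have h1 : orderOf (a * (z : G) * a⁻¹ * (b * (z : G) * b⁻¹)⁻¹) ∣ Nat.card U := by
    have := orderOf_dvd_natCard (⟨_, hmem⟩ : U)
    rwa [Subgroup.orderOf_mk] at this
  exact hp ((hk ▸ dvd_pow_self p hk0 : p ∣ orderOf _).trans h1)

theorem exists_normal_of_isPSolvable {G : Type*} [Group G] [Finite G] (p q : ℕ) [Fact p.Prime]
    [Fact q.Prime] (hpq : p ≠ q) (hpG : p ∣ Nat.card G) (hs : Cfsg.IsPSolvable p G) :
    ∃ U : Subgroup G, U.Normal ∧ ((p ∣ Nat.card U ∧ ¬ q ∣ Nat.card U) ∨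
      (q ∣ Nat.card U ∧ ¬ p ∣ Nat.card U)) := by
  have hp : p.Prime := Fact.out
  have hq : q.Prime := Fact.out
  obtain ⟨n, H, h0, hlast, hmono, hnorm, hstep⟩ := hs
  by_contra hcon
  push Not at hcon
  have key : ∀ i : ℕ, ∀ hi : i < n + 1, ¬ p ∣ Nat.card (H ⟨i, hi⟩) ∧ ¬ q ∣ Nat.card (H ⟨i, hi⟩) := by
    intro i
    induction i with
    | zero =>
      intro hi
      have : H ⟨0, hi⟩ = ⊥ := h0
      rw [this, Subgroup.card_bot]
      exact ⟨fun h => hp.one_lt.ne' (Nat.dvd_one.1 h), fun h => hq.one_lt.ne' (Nat.dvd_one.1 h)⟩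
    | succ i ih =>
      intro hi
      have hi' : i < n := by omega
      obtain ⟨ih1, ih2⟩ := ih (by omega)
      have hle : H (Fin.castSucc ⟨i, hi'⟩) ≤ H (Fin.succ ⟨i, hi'⟩) :=
        hmono (Fin.castSucc_lt_succ).le
      have hcard : Nat.card (H (Fin.castSucc ⟨i, hi'⟩)) *
          (H (Fin.castSucc ⟨i, hi'⟩)).relIndex (H (Fin.succ ⟨i, hi'⟩)) =
          Nat.card (H (Fin.succ ⟨i, hi'⟩)) := by
        have := Subgroup.relIndex_mul_relIndex ⊥ _ _ bot_le hle
        rwa [Subgroup.relIndex_bot_left, Subgroup.relIndex_bot_left] at this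
      have e1 : (Fin.castSucc ⟨i, hi'⟩ : Fin (n + 1)) = ⟨i, by omega⟩ := rfl
      have e2 : (Fin.succ ⟨i, hi'⟩ : Fin (n + 1)) = ⟨i + 1, hi⟩ := rfl
      rw [e1, e2] at hcard
      have hc := hcon (H ⟨i + 1, hi⟩) (hnorm _)
      rcases hstep ⟨i, hi'⟩ with ⟨m, hm⟩ | hm
      · rw [e1, e2] at hm
        have hnq : ¬ q ∣ Nat.card (H ⟨i + 1, hi⟩) := by
          rw [← hcard, hm]
          intro h
          rcases (Nat.Prime.dvd_mul hq).1 h with h | h
          · exact ih2 h
          · exact hpq ((Nat.prime_dvd_prime_iff_eq hq hp).1 (hq.dvd_of_dvd_pow h)).symm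
        exact ⟨fun h => hnq (hc.1 h), hnq⟩
      · rw [e1, e2] at hm
        have hnp : ¬ p ∣ Nat.card (H ⟨i + 1, hi⟩) := by
          rw [← hcard]
          intro h
          rcases (Nat.Prime.dvd_mul hp).1 h with h | h
          · exact ih1 h
          · exact (Nat.Prime.coprime_iff_not_dvd hp).1 hm.symm h
        exact ⟨hnp, fun h => hnp (hc.2 h)⟩
  have := (key n (by omega)).1
  have e3 : (⟨n, by omega⟩ : Fin (n + 1)) = Fin.last n := rfl
  rw [e3, hlast, Subgroup.card_top] at this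
  exact this hpG

theorem aux {G : Type*} [Group G] [Finite G] (p q : ℕ) [Fact p.Prime] [Fact q.Prime] (hpq : p ≠ q)
    (hpG : p ∣ Nat.card G)
    (hC : ∀ g : G, g ≠ 1 → (∃ k : ℕ, orderOf g = p ^ k) →
      ¬ q ∣ Nat.card ↥(Subgroup.centralizer ({g} : Set G)))
    (hC' : ∀ g : G, g ≠ 1 → (∃ k : ℕ, orderOf g = q ^ k) →
      ¬ p ∣ Nat.card ↥(Subgroup.centralizer ({g} : Set G)))
    (hs : Cfsg.IsPSolvable p G) :
    (∃ χ : Cfsg.IrrCharacter G,
      (Cfsg.charDegree (χ : G → ℂ)).factorization p = (Nat.card G).factorization p) ∨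
    (∃ χ : Cfsg.IrrCharacter G,
      (Cfsg.charDegree (χ : G → ℂ)).factorization q = (Nat.card G).factorization q) := by
  obtain ⟨U, hU, h | h⟩ := exists_normal_of_isPSolvable p q hpq hpG hs
  · exact Or.inr (defect_zero_of_normal q p hC U h.1 h.2)
  · exact Or.inl (defect_zero_of_normal p q hC' U h.1 h.2)


/-- Let p ≠ q be primes dividing the order of the finite group G, suppose the centralizer of every non-identity p-element has order prime to q, and suppose G is p-solvable or q-solvable. Then G has an irreducible character of p-defect zero or an irreducible character of q-defect zero. -/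
theorem result {G : Type*} [Group G] [Finite G] (p q : ℕ) [Fact p.Prime] [Fact q.Prime] (hppq : p ≠ q) (hpG : p ∣ Nat.card G) (hqG : q ∣ Nat.card G) (hC : ∀ g : G, g ≠ 1 → (∃ k : ℕ, orderOf g = p ^ k) → ¬ q ∣ Nat.card ↥(Subgroup.centralizer ({g} : Set G))) (hsolv : Cfsg.IsPSolvable p G ∨ Cfsg.IsPSolvable q G) : (∃ χ : Cfsg.IrrCharacter G, (Cfsg.charDegree (χ : G → ℂ)).factorization p = (Nat.card G).factorization p) ∨ (∃ χ : Cfsg.IrrCharacter G, (Cfsg.charDegree (χ : G → ℂ)).factorization q = (Nat.card G).factorization q) := by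
  have hC' := Cfsg.Agent.S4742.not_dvd_card_centralizer p q hC
  rcases hsolv with hs | hs
  · exact aux p q hppq hpG hC hC' hs
  · exact (aux q p hppq.symm hqG hC' hC hs).symm

end Cfsg.Agent.S4743
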