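import Cfsg.Statements.S4746
import Cfsg.Agent.S4744
import Cfsg.Agent.Lib.Helper82.Parity

set_option autoImplicit false
open Cfsg

namespace Cfsg.Agent.S4746

open Cfsg.Agent.Lib.Helper82

theorem unique_sqrt {G : Type*} [Group G] [Finite G] (u : G)
    (hodd : Odd (Nat.card ↥(Subgroup.centralizer ({u} : Set G)))) :
    ∃ r : G, ∀ h : G, h * h = u ↔ h = r := by
  obtain ⟨j, hj⟩ := hodd
  have hpow : ∀ h ∈ Subgroup.centralizer ({u} : Set G), h ^ (2 * j + 1) = 1 := by
    intro h hh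
    have := pow_card_eq_one' (x := (⟨h, hh⟩ : ↥(Subgroup.centralizer ({u} : Set G))))
    rw [hj] at this
    exact congrArg Subtype.val this
  refine ⟨u ^ (j + 1), fun h => ⟨?_, ?_⟩⟩
  · intro hh
    have hmem : h ∈ Subgroup.centralizer ({u} : Set G) := by
      rw [Subgroup.mem_centralizer_singleton_iff, ← hh, mul_assoc]
    have h1 := hpow h hmem
    rw [← hh, ← sq, ← pow_mul]
    have : 2 * (j + 1) = (2 * j + 1) + 1 := by ring
    rw [this, pow_succ, h1, one_mul]
  · rintro rfl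
    have hmem : u ∈ Subgroup.centralizer ({u} : Set G) := by
      rw [Subgroup.mem_centralizer_singleton_iff]
    have h1 := hpow u hmem
    rw [← pow_add]
    have : j + 1 + (j + 1) = (2 * j + 1) + 1 := by ring
    rw [this, pow_succ, h1, one_mul]


/-- Let p be an odd prime and G a finite group of even order divisible by p in which the centralizer of every non-identity p-element has odd order. Then G has an irreducible character of p-defect zero or an irreducible character of even degree. -/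
theorem result {G : Type*} [Group G] [Finite G] (p : ℕ) [Fact p.Prime] (hp2 : p ≠ 2) (hpG : p ∣ Nat.card G) (h2G : 2 ∣ Nat.card G) (hC : ∀ g : G, g ≠ 1 → (∃ k : ℕ, orderOf g = p ^ k) → Odd (Nat.card ↥(Subgroup.centralizer ({g} : Set G)))) : (∃ χ : Cfsg.IrrCharacter G, (Cfsg.charDegree (χ : G → ℂ)).factorization p = (Nat.card G).factorization p) ∨ ∃ χ : Cfsg.IrrCharacter G, Even (Cfsg.charDegree (χ : G → ℂ)) := by
  have hp : p.Prime := Fact.out
  by_cases hdz : ∃ χ : Cfsg.IrrCharacter G, (Cfsg.charDegree (χ : G → ℂ)).factorization p = (Nat.card G).factorization p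
  · exact Or.inl hdz
  right
  have : Fact (Nat.Prime 2) := ⟨Nat.prime_two⟩
  have hC' : ∀ g : G, g ≠ 1 → (∃ k : ℕ, orderOf g = p ^ k) → ¬ 2 ∣ Nat.card ↥(Subgroup.centralizer ({g} : Set G)) :=
    fun g hg1 hg h2 => (Nat.not_even_iff_odd.2 (hC g hg1 hg)) (even_iff_two_dvd.2 h2)
  obtain ⟨t₀, ht₀⟩ := exists_prime_orderOf_dvd_card' 2 h2G
  have ht₀1 : t₀ ≠ 1 := by
    intro h
    rw [h, orderOf_one] at ht₀
    omega
  rcases Cfsg.Agent.S4742.result p 2 hp2 hpG h2G hC' with h | h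
  · exact absurd h hdz
  obtain ⟨g, h', hg, hh', hne, k, hk⟩ := h t₀ ht₀1 ⟨1, by rw [ht₀, pow_one]⟩
  have hordconj : ∀ x : G, IsConj t₀ x → orderOf x = 2 := by
    intro x hx
    obtain ⟨c, rfl⟩ := isConj_iff.1 hx
    have := (MulAut.conj c).orderOf_eq t₀
    rw [MulAut.conj_apply] at this
    rw [this, ht₀]
  have hg2 := hordconj g hg
  have hh2 := hordconj h' hh'
  have hgg := Cfsg.Agent.S4744.mul_self_of_orderOf_two hg2
  have hhh := Cfsg.Agent.S4744.mul_self_of_orderOf_two hh2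
  have hgi : g⁻¹ = g := inv_eq_of_mul_eq_one_left hgg
  have hhi : h'⁻¹ = h' := inv_eq_of_mul_eq_one_left hhh
  set u := g * h'⁻¹ with hu
  have hgu : g * u * g⁻¹ = u⁻¹ := by
    rw [hu, hhi, mul_inv_rev, hhi, hgi, ← mul_assoc, hgg, one_mul]
  obtain ⟨r, hr⟩ := unique_sqrt u (hC u hne ⟨k, hk⟩)
  refine exists_even_degree g u hgg ?_ (isConj_iff.2 ⟨g, hgu⟩) r hr
  intro hconj
  obtain ⟨c, hc⟩ := isConj_iff.1 hconj
  have h1 := (MulAut.conj c).orderOf_eq u
  rw [MulAut.conj_apply, hc, hg2, hk] at h1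
  have hk0 : k ≠ 0 := by
    rintro rfl
    simp at h1
  have h2 : p ∣ 2 := by rw [h1]; exact dvd_pow_self p hk0
  exact hp2 ((Nat.prime_dvd_prime_iff_eq hp Nat.prime_two).1 h2)

end Cfsg.Agent.S4746
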