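import Cfsg.Statements.S4748
import Cfsg.Agent.Lib.Helper82.TIFaithful
import Cfsg.Agent.Lib.Helper14.PConstrained
import Cfsg.Agent.Lib.Helper14.PSolvable
import Cfsg.Agent.Lib.Helper2.Hyperfocal

set_option autoImplicit false
open scoped Pointwise
open Cfsg

namespace Cfsg.Agent.S4748


open Cfsg.Agent.Lib Cfsg.Agent.Lib.Helper82


/-- Let G be a finite p-solvable group whose Sylow p-subgroup P meets each conjugate g P g⁻¹ with g outside N_G(P) trivially, and let χ be a faithful character of G (χ g = χ 1 only for g = 1) whose degree d satisfies d² ≤ |P|. Then P is normal in G. -/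
theorem result {G : Type*} [Group G] [Finite G] (p : ℕ) [Fact p.Prime] (hsolv : Cfsg.IsPSolvable p G) (P : Sylow p G) (hTI : ∀ g : G, g ∉ Subgroup.normalizer ((P : Subgroup G) : Set G) → (P : Subgroup G) ⊓ (MulAut.conj g • (P : Subgroup G)) = ⊥) (χ : G → ℂ) (hχ : Cfsg.IsCharacter G χ) (hfaith : ∀ g : G, χ g = χ 1 → g = 1) (hdeg : Cfsg.charDegree χ ^ 2 ≤ Nat.card ↥(P : Subgroup G)) : (P : Subgroup G).Normal := by
  classical
  have hp : p.Prime := Fact.out
  -- contrapositive form of the T.I. hypothesis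
  have hTI' : ∀ g x : G, x ≠ 1 → x ∈ (P : Subgroup G) → g⁻¹ * x * g ∈ (P : Subgroup G) →
      g ∈ Subgroup.normalizer ((P : Subgroup G) : Set G) := by
    intro g x hx1 hxP hgx
    by_contra hg
    have h1 := hTI g hg
    have h2 : x ∈ (P : Subgroup G) ⊓ (MulAut.conj g • (P : Subgroup G)) := by
      rw [Subgroup.mem_inf, Subgroup.mem_pointwise_smul_iff_inv_smul_mem]
      refine ⟨hxP, ?_⟩
      rw [← map_inv, MulAut.smul_def, MulAut.conj_apply, inv_inv]
      exact hgx
    rw [h1, Subgroup.mem_bot] at h2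
    exact hx1 h2
  by_cases hPbot : (P : Subgroup G) = ⊥
  · rw [hPbot]; infer_instance
  obtain ⟨N, hN⟩ : ∃ N, N = pPrimeCore p G := ⟨_, rfl⟩
  have hNn : N.Normal := by rw [hN]; infer_instance
  have hNP : N ⊓ (P : Subgroup G) = ⊥ := by
    rw [← disjoint_iff]
    apply Subgroup.disjoint_of_coprime_natCard
    obtain ⟨k, hk⟩ := P.2.exists_card_eq
    rw [hk, hN]
    exact Nat.Coprime.pow_right k Helper14.card_pPrimeCore_coprime
  -- a central element of `P`
  obtain ⟨z, hzP, hz1, hzc⟩ : ∃ z ∈ (P : Subgroup G), z ≠ 1 ∧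
      ∀ y ∈ (P : Subgroup G), y * z = z * y := by
    have : Nontrivial (P : Subgroup G) := (Subgroup.nontrivial_iff_ne_bot _).2 hPbot
    have := P.2.center_nontrivial
    obtain ⟨⟨z, hz⟩, hne⟩ := exists_ne (1 : Subgroup.center (P : Subgroup G))
    refine ⟨z, z.2, ?_, ?_⟩
    · intro h
      apply hne
      apply Subtype.ext
      apply Subtype.ext
      exact h
    · intro y hy
      have := Subgroup.mem_center_iff.1 hz ⟨y, hy⟩
      exact congrArg Subtype.val this
  have hPK : (P : Subgroup G) ≤ N ⊔ (P : Subgroup G) := le_sup_right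
  have hcomm := commute_of_ti_faithful p P hTI χ hχ hfaith hdeg (N ⊔ (P : Subgroup G)) hPK z (by
    intro g hgK hgN
    have hgK' : g ∈ ((N ⊔ (P : Subgroup G) : Subgroup G) : Set G) := hgK
    rw [Subgroup.normal_mul, Set.mem_mul] at hgK'
    obtain ⟨n, hn, x, hx, rfl⟩ := hgK'
    have hnN : n ∈ Subgroup.normalizer ((P : Subgroup G) : Set G) := by
      have := Subgroup.mul_mem _ hgN (Subgroup.inv_mem _ (Subgroup.le_normalizer hx))
      rwa [mul_assoc, mul_inv_cancel, mul_one] at this
    have h1 : n * z * n⁻¹ * z⁻¹ ∈ N ⊓ (P : Subgroup G) := by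
      rw [Subgroup.mem_inf]
      constructor
      · have : n * z * n⁻¹ * z⁻¹ = n * (z * n⁻¹ * z⁻¹) := by group
        rw [this]
        exact N.mul_mem hn (hNn.conj_mem _ (N.inv_mem hn) z)
      · exact Subgroup.mul_mem _ ((Subgroup.mem_normalizer_iff.1 hnN z).1 hzP)
          (Subgroup.inv_mem _ hzP)
    rw [hNP, Subgroup.mem_bot] at h1
    have h2 : n * z = z * n := by
      calc n * z = (n * z * n⁻¹ * z⁻¹) * (z * n) := by group
        _ = z * n := by rw [h1, one_mul]
    rw [mul_assoc, hzc x hx, ← mul_assoc, h2, mul_assoc])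
  have hNle : N ≤ Subgroup.normalizer ((P : Subgroup G) : Set G) := by
    intro n hn
    apply hTI' n z hz1 hzP
    have := hcomm n (Subgroup.mem_sup_left hn)
    have e : n⁻¹ * z * n = z := by
      rw [mul_assoc, ← this]; group
    rw [e]; exact hzP
  -- `O_{p',p}(G)`
  have hQn : (pPrimePCore p G).Normal := Helper14.pPrimePCore_normal p G
  let S : Sylow p (pPrimePCore p G) := Helper2.sylowInfNormal P (pPrimePCore p G)
  have hQle := Helper14.pPrimePCore_le_sylow_sup S
  rw [← hN] at hQle
  have hS₀P : (S : Subgroup (pPrimePCore p G)).map (pPrimePCore p G).subtype ≤ (P : Subgroup G) := by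
    rintro _ ⟨y, hy, rfl⟩
    exact hy
  have hfrat := Sylow.normalizer_sup_eq_top S
  have hQN : pPrimePCore p G ≤ Subgroup.normalizer ((P : Subgroup G) : Set G) :=
    hQle.trans (sup_le (hS₀P.trans Subgroup.le_normalizer) hNle)
  by_cases hS₀ : (S : Subgroup (pPrimePCore p G)).map (pPrimePCore p G).subtype = ⊥
  · exfalso
    rw [hS₀, bot_sup_eq] at hQle
    have h1 : pCore p (G ⧸ pPrimeCore p G) = ⊥ := by
      rw [← Helper14.map_pPrimePCore, eq_bot_iff]
      refine (Subgroup.map_mono hQle).trans ?_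
      rw [hN]
      rintro _ ⟨y, hy, rfl⟩
      rw [Subgroup.mem_bot]
      exact (QuotientGroup.eq_one_iff y).2 hy
    have h2 := Helper14.centralizer_pCore_le_of_isPSolvable
      (Helper14.IsPSolvable.quotient hsolv (pPrimeCore p G)) Helper14.pPrimeCore_quotient_pPrimeCore
    rw [h1] at h2
    have h3 : ∀ g : G, g ∈ pPrimeCore p G := by
      intro g
      have : (QuotientGroup.mk' (pPrimeCore p G) g) ∈
          Subgroup.centralizer (((⊥ : Subgroup (G ⧸ pPrimeCore p G)) : Set (G ⧸ pPrimeCore p G))) := by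
        rw [Subgroup.mem_centralizer_iff]
        intro h hh
        have : h = 1 := hh
        rw [this]; simp
      have := h2 this
      rw [Subgroup.mem_bot] at this
      exact (QuotientGroup.eq_one_iff g).1 this
    apply hPbot
    rw [eq_bot_iff, ← hNP]
    intro x hx
    exact ⟨by rw [hN]; exact h3 x, hx⟩
  · obtain ⟨s, hs, hs1⟩ := (Subgroup.ne_bot_iff_exists_ne_one.1 hS₀) |> fun ⟨s, h1⟩ =>
      (⟨s.1, s.2, fun h => h1 (Subtype.ext h)⟩ :
        ∃ s, s ∈ (S : Subgroup (pPrimePCore p G)).map (pPrimePCore p G).subtype ∧ s ≠ 1)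
    have hNS : Subgroup.normalizer
        (((S : Subgroup (pPrimePCore p G)).map (pPrimePCore p G).subtype : Subgroup G) : Set G) ≤
        Subgroup.normalizer ((P : Subgroup G) : Set G) := by
      intro g hg
      have h1 := (Subgroup.mem_normalizer_iff.1 hg s).1 hs
      apply hTI' g (g * s * g⁻¹) _ (hS₀P h1)
      · have e : g⁻¹ * (g * s * g⁻¹) * g = s := by group
        rw [e]; exact hS₀P hs
      · intro h
        apply hs1
        have e : s = g⁻¹ * (g * s * g⁻¹) * g := by group
        rw [e, h]; group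
    rw [← Subgroup.normalizer_eq_top_iff, eq_top_iff, ← hfrat]
    exact sup_le hNS hQN

end Cfsg.Agent.S4748
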