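import Cfsg.Statements.S4750
import Cfsg.Agent.Lib.Helper82.TIFixed
import Cfsg.Agent.Lib.Helper82.Basic
import Cfsg.Agent.Lib.Helper4.Brauer1

set_option autoImplicit false
open scoped Pointwise
open Cfsg

namespace Cfsg.Agent.S4750


open Cfsg.Agent.Lib Cfsg.Agent.Lib.Helper82
open scoped ComplexConjugate


/-- Let P be a Sylow p-subgroup of the finite group G that meets each conjugate g P g⁻¹ with g outside N_G(P) trivially, χ a character of G with χ(1)² ≤ |P|, and H a subgroup of G containing N_G(P). Then the inner product of χ with itself over G equals the inner product over H of the restriction of χ to H. -/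
theorem result {G : Type*} [Group G] [Fintype G] [DecidableEq G] (p : ℕ) [Fact p.Prime] (P : Sylow p G) (hTI : ∀ g : G, g ∉ Subgroup.normalizer ((P : Subgroup G) : Set G) → (P : Subgroup G) ⊓ (MulAut.conj g • (P : Subgroup G)) = ⊥) (χ : G → ℂ) (hχ : Cfsg.IsCharacter G χ) (hdeg : Cfsg.charDegree χ ^ 2 ≤ Nat.card ↥(P : Subgroup G)) (H : Subgroup G) [Fintype ↥H] (hH : Subgroup.normalizer ((P : Subgroup G) : Set G) ≤ H) : Cfsg.classInner χ χ = Cfsg.classInner (fun h : ↥H => χ h) (fun h : ↥H => χ h) := by
  have hθ : IsCharacter G (χ * fun g => conj (χ g)) :=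
    Helper20.isCharacter_mul hχ (Helper20.isCharacter_conj hχ)
  obtain ⟨n, ρ, hρ⟩ := hθ
  have hρg : ∀ g, ρ.character g = χ g * conj (χ g) := fun g => by rw [hρ]; rfl
  let ρH : Representation ℂ H (Fin n → ℂ) := ρ.comp H.subtype
  have hρH : ∀ h : H, ρH.character h = χ h * conj (χ h) := fun h => hρg h
  have h1 : classInner χ χ = classInner ρ.character (fun _ => 1) := by
    unfold classInner
    congr 1
    apply Finset.sum_congr rfl
    intro g _
    rw [hρg]; simp
  have h2 : classInner (fun h : ↥H => χ h) (fun h : ↥H => χ h) =
      classInner ρH.character (fun _ => 1) := by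
    unfold classInner
    congr 1
    apply Finset.sum_congr rfl
    intro g _
    rw [hρH]; simp
  rw [h1, h2, Helper4.classInner_char_one_eq_finrank, Helper4.classInner_char_one_eq_finrank]
  have hn : n = charDegree χ ^ 2 := by
    have e1 : ρ.character 1 = (n : ℂ) := by
      rw [Representation.char_one]; simp
    rw [hρg, isChar_one_eq hχ] at e1
    have e2 : ((charDegree χ ^ 2 : ℕ) : ℂ) = (n : ℂ) := by
      rw [← e1]; push_cast; simp [sq]
    exact_mod_cast e2.symm
  have hdim : Module.finrank ℂ (Fin n → ℂ) <
      Nat.card (P : Subgroup G) + Module.finrank ℂ (Representation.invariants ρ) := by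
    rw [Module.finrank_fin_fun]
    rcases Nat.eq_zero_or_pos n with h0 | h0
    · have : 0 < Nat.card (P : Subgroup G) := Nat.card_pos
      omega
    · have h3 : classInner χ χ ≠ 0 := by
        unfold classInner
        apply mul_ne_zero
        · apply inv_ne_zero
          exact_mod_cast Nat.card_pos.ne'
        · have e1 : ∑ g : G, χ g * conj (χ g) = ((∑ g : G, Complex.normSq (χ g) : ℝ) : ℂ) := by
            push_cast
            exact Finset.sum_congr rfl fun g _ => Complex.mul_conj _
          rw [e1]
          have e2 : Complex.normSq (χ 1) ≤ ∑ g : G, Complex.normSq (χ g) :=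
            Finset.single_le_sum (f := fun g => Complex.normSq (χ g))
              (fun g _ => Complex.normSq_nonneg _) (Finset.mem_univ 1)
          have e3 : 0 < Complex.normSq (χ 1) := by
            rw [Complex.normSq_pos, isChar_one_eq hχ]
            have : charDegree χ ≠ 0 := by
              intro h
              rw [h] at hn
              omega
            exact_mod_cast this
          have : (∑ g : G, Complex.normSq (χ g)) ≠ 0 := by linarith
          exact_mod_cast this
      rw [h1, Helper4.classInner_char_one_eq_finrank] at h3
      have h4 : Module.finrank ℂ (Representation.invariants ρ) ≠ 0 := by exact_mod_cast h3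
      omega
  have hinv : Representation.invariants ρ = Representation.invariants ρH := by
    apply le_antisymm
    · intro u hu
      rw [Representation.mem_invariants] at hu ⊢
      exact fun h => hu h
    · intro u hu
      rw [Representation.mem_invariants] at hu ⊢
      exact fixed_of_ti ρ p P hTI H hH hdim u (fun h hh => hu ⟨h, hh⟩)
  rw [hinv]

end Cfsg.Agent.S4750
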