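import Cfsg.Statements.S4755
import Cfsg.Agent.S4754
import Cfsg.Agent.Lib.Helper82.LinCount
import Cfsg.Agent.Lib.Helper82.ClassSum

set_option autoImplicit false
open Cfsg

namespace Cfsg.Agent.S4755

open Cfsg.Agent.Lib.Helper82

/-- Let x, y be non-identity elements of the finite group G such that χ(x' y') = χ(x') χ(y') for all conjugates x' of x, y' of y and every irreducible character χ. Then the conjugacy class of x y is the set of all products of a conjugate of x with a conjugate of y; every irreducible character of degree greater than 1 vanishes at x y; and the conjugacy class of x y is the coset of the commutator subgroup containing x y. -/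
theorem result {G : Type*} [Group G] [Finite G] (x y : G) (hx : x ≠ 1) (hy : y ≠ 1) (h : ∀ (a b : G) (χ : Cfsg.IrrCharacter G), (χ : G → ℂ) (a * x * a⁻¹ * (b * y * b⁻¹)) = (χ : G → ℂ) (a * x * a⁻¹) * (χ : G → ℂ) (b * y * b⁻¹)) : (∀ z : G, IsConj (x * y) z ↔ ∃ a b : G, z = a * x * a⁻¹ * (b * y * b⁻¹)) ∧ (∀ χ : Cfsg.IrrCharacter G, (χ : G → ℂ) 1 ≠ 1 → (χ : G → ℂ) (x * y) = 0) ∧ (∀ z : G, IsConj (x * y) z ↔ (x * y)⁻¹ * z ∈ commutator G) := by
  classical
  have := Fintype.ofFinite G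
  have key : ∀ χ : Cfsg.IrrCharacter G, (χ : G → ℂ) 1 ≠ 1 → (χ : G → ℂ) x * (χ : G → ℂ) y = 0 := by
    intro χ h1
    have hc : ∀ a b : G, (χ : G → ℂ) (a * x * a⁻¹ * (b * y * b⁻¹)) =
        (χ : G → ℂ) x * (χ : G → ℂ) y := by
      intro a b
      rw [h a b χ, isChar_conj_eq (isIrr_isChar χ.2), isChar_conj_eq (isIrr_isChar χ.2)]
    have hs := isIrr_sum_sum_conj_mul_conj χ.2 x y
    simp only [hc, Finset.sum_const, Finset.card_univ, nsmul_eq_mul,
      ← Nat.card_eq_fintype_card] at hs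
    have h0 : (χ : G → ℂ) 1 ≠ 0 := isIrr_one_ne_zero χ.2
    have hG : (Nat.card G : ℂ) ≠ 0 := by exact_mod_cast Nat.card_pos.ne'
    field_simp at hs
    have h2 : ((χ : G → ℂ) x * (χ : G → ℂ) y) * ((χ : G → ℂ) 1 - 1) = 0 := by
      linear_combination hs
    rcases mul_eq_zero.1 h2 with h3 | h3
    · exact h3
    · exact absurd (sub_eq_zero.1 h3) h1
  have hxy : ∀ χ : Cfsg.IrrCharacter G, (χ : G → ℂ) (x * y) = (χ : G → ℂ) x * (χ : G → ℂ) y := by
    intro χ
    have := h 1 1 χ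
    simpa using this
  have hvan : ∀ χ : Cfsg.IrrCharacter G, (χ : G → ℂ) 1 ≠ 1 → (χ : G → ℂ) (x * y) = 0 := by
    intro χ h1
    rw [hxy, key χ h1]
  refine ⟨?_, hvan, isConj_iff_of_nonlinear_vanish hvan⟩
  rw [Cfsg.Agent.S4754.result]
  intro a b χ
  rw [h a b χ, isChar_conj_eq (isIrr_isChar χ.2), isChar_conj_eq (isIrr_isChar χ.2)]
  by_cases h1 : (χ : G → ℂ) 1 = 1
  · rw [h1, one_mul]
  · rw [key χ h1, mul_zero]

end Cfsg.Agent.S4755
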