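import Cfsg.Statements.S4757
import Cfsg.Agent.Lib.Helper82.LinCount
import Cfsg.Agent.Lib.Helper29.Cores

set_option autoImplicit false
open Cfsg

namespace Cfsg.Agent.S4757

open Cfsg.Agent.Lib.Helper82
open scoped ComplexConjugate commutatorElement

section aux

variable {G : Type*} [Group G] [Finite G]

theorem c_ne_zero (u : G) (hu : u ≠ 1) (hyp : ∀ χ : Cfsg.IrrCharacter G,
    (χ : G → ℂ) ≠ (fun _ => (1 : ℂ)) → ((χ : G → ℂ) 1 - (χ : G → ℂ) u = 0 ∨ (χ : G → ℂ) u = 0)) :
    False := by
  refine finsum_irr_ne_zero_of_nonneg (fun χ : IrrCharacter G => (χ : G → ℂ) u * (χ : G → ℂ) 1)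
    ?_ (trivIrr G) (by simp) (finsum_irr_mul_one hu)
  intro χ
  by_cases h1 : (χ : G → ℂ) = fun _ => 1
  · simp [h1]
  · rcases hyp χ h1 with h | h
    · rw [← sub_eq_zero.1 h, isChar_one_eq (isIrr_isChar χ.2)]
      norm_cast
      positivity
    · simp [h]

theorem not_perfect_of_two (u : G) (hu : u ≠ 1) (hyp : ∀ χ : Cfsg.IrrCharacter G,
    (χ : G → ℂ) ≠ (fun _ => (1 : ℂ)) → ((χ : G → ℂ) 1 - (χ : G → ℂ) u = 2 ∨ (χ : G → ℂ) u = 0)) :
    commutator G ≠ ⊤ := by
  intro hG
  refine finsum_irr_ne_zero_of_nonneg (fun χ : IrrCharacter G => (χ : G → ℂ) u * (χ : G → ℂ) 1)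
    ?_ (trivIrr G) (by simp) (finsum_irr_mul_one hu)
  intro χ
  by_cases h1 : (χ : G → ℂ) = fun _ => 1
  · simp [h1]
  · rcases hyp χ h1 with h | h
    · have hd : (χ : G → ℂ) 1 ≠ 1 := by
        intro h11
        apply h1
        funext z
        exact isChar_linear_commutator (isIrr_isChar χ.2) h11 (by rw [hG]; trivial)
      have hpos := isIrr_charDegree_pos χ.2
      have h2 : (χ : G → ℂ) u = (χ : G → ℂ) 1 - 2 := by linear_combination -h
      rw [h2]
      rw [isChar_one_eq (isIrr_isChar χ.2)] at hd ⊢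
      have hd' : charDegree (χ : G → ℂ) ≠ 1 := by
        intro h'; apply hd; rw [h']; simp
      obtain ⟨k, hk⟩ : ∃ k, charDegree (χ : G → ℂ) = k + 2 := ⟨charDegree (χ : G → ℂ) - 2, by omega⟩
      rw [hk]
      have : ((k + 2 : ℕ) : ℂ) - 2 = (k : ℂ) := by push_cast; ring
      rw [this]
      norm_cast
      positivity
    · simp [h]

theorem linear_value (u : G) (hu : u ≠ 1) (c : ℂ) (hyp : ∀ χ : Cfsg.IrrCharacter G,
    (χ : G → ℂ) ≠ (fun _ => (1 : ℂ)) → ((χ : G → ℂ) 1 - (χ : G → ℂ) u = c ∨ (χ : G → ℂ) u = 0))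
    (lam : IrrCharacter G) (h1 : (lam : G → ℂ) 1 = 1) (hne : (lam : G → ℂ) ≠ fun _ => 1) :
    c = 2 ∧ (lam : G → ℂ) u = -1 := by
  have hl := isIrr_isChar lam.2
  have hc : 1 - (lam : G → ℂ) u = c := by
    rcases hyp lam hne with h | h
    · rwa [h1] at h
    · exact absurd h (isChar_linear_ne_zero hl h1 u)
  have hc0 : c ≠ 0 := by
    intro h0
    subst h0
    exact c_ne_zero u hu hyp
  have hsq : IsIrrCharacter G ((lam : G → ℂ) * (lam : G → ℂ)) := isIrr_linear_mul hl h1 lam.2
  have hval : (lam : G → ℂ) u = -1 := by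
    by_cases h2 : ((lam : G → ℂ) * (lam : G → ℂ)) = fun _ => 1
    · have h3 : (lam : G → ℂ) u * (lam : G → ℂ) u = 1 := congrFun h2 u
      have h4 : ((lam : G → ℂ) u - 1) * ((lam : G → ℂ) u + 1) = 0 := by linear_combination h3
      rcases mul_eq_zero.1 h4 with h5 | h5
      · exfalso; apply hc0; rw [← hc]; linear_combination -h5
      · linear_combination h5
    · exfalso
      rcases hyp ⟨_, hsq⟩ h2 with h | h
      · simp only [Pi.mul_apply, h1] at h
        have h4 : (lam : G → ℂ) u * ((lam : G → ℂ) u - 1) = 0 := by linear_combination hc - h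
        rcases mul_eq_zero.1 h4 with h5 | h5
        · exact isChar_linear_ne_zero hl h1 u h5
        · apply hc0; rw [← hc]; linear_combination -h5
      · simp only [Pi.mul_apply] at h
        rcases mul_eq_zero.1 h with h5 | h5 <;> exact isChar_linear_ne_zero hl h1 u h5
  refine ⟨?_, hval⟩
  rw [← hc, hval]; ring

theorem structure_of_not_perfect (u : G) (hu : u ≠ 1) (c : ℂ) (hyp : ∀ χ : Cfsg.IrrCharacter G,
    (χ : G → ℂ) ≠ (fun _ => (1 : ℂ)) → ((χ : G → ℂ) 1 - (χ : G → ℂ) u = c ∨ (χ : G → ℂ) u = 0))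
    (hG : commutator G ≠ ⊤) :
    orderOf u = 2 ∧ Subgroup.zpowers u ⊔ Cfsg.oddCore G = ⊤ ∧
      Subgroup.centralizer ({u} : Set G) = Subgroup.zpowers u := by
  classical
  obtain ⟨lam, h1, hne⟩ := exists_nonprincipal_linear hG
  have hl := isIrr_isChar lam.2
  obtain ⟨hc, hval⟩ := linear_value u hu c hyp lam h1 hne
  subst hc
  -- nonlinear characters vanish at u
  have hvan : ∀ χ : IrrCharacter G, (χ : G → ℂ) 1 ≠ 1 → (χ : G → ℂ) u = 0 := by
    intro χ hχ1
    by_contra hχu
    have hne1 : (χ : G → ℂ) ≠ fun _ => 1 := by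
      intro h; apply hχ1; rw [h]
    have e1 : (χ : G → ℂ) 1 - (χ : G → ℂ) u = 2 := (hyp χ hne1).resolve_right hχu
    have hirr : IsIrrCharacter G ((lam : G → ℂ) * (χ : G → ℂ)) := isIrr_linear_mul hl h1 χ.2
    have hne2 : ((lam : G → ℂ) * (χ : G → ℂ)) ≠ fun _ => 1 := by
      intro h
      apply hχ1
      have := congrFun h 1
      simpa [h1] using this
    rcases hyp ⟨_, hirr⟩ hne2 with h | h
    · simp only [Pi.mul_apply, h1, hval] at h
      apply hχu
      linear_combination (h - e1) / 2
    · simp only [Pi.mul_apply, hval] at h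
      apply hχu
      linear_combination -h
  -- exactly two linear characters
  have hidx : (commutator G).index = 2 := by
    rw [← card_linear_eq_index, Nat.card_eq_two_iff]
    refine ⟨⟨trivIrr G, rfl⟩, ⟨lam, h1⟩, ?_, ?_⟩
    · intro h
      apply hne
      have := congrArg (fun x : {χ : IrrCharacter G // (χ : G → ℂ) 1 = 1} => ((x : IrrCharacter G) : G → ℂ)) h
      exact this.symm
    · rw [Set.eq_univ_iff_forall]
      rintro ⟨mu, hmu1⟩
      by_cases hmu : (mu : G → ℂ) = fun _ => 1
      · left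
        apply Subtype.ext
        apply Subtype.ext
        exact hmu
      · right
        rw [Set.mem_singleton_iff]
        apply Subtype.ext
        apply Subtype.ext
        show (mu : G → ℂ) = (lam : G → ℂ)
        have hm := isIrr_isChar mu.2
        obtain ⟨-, hvalmu⟩ := linear_value u hu 2 hyp mu hmu1 hmu
        have hirr : IsIrrCharacter G ((lam : G → ℂ) * (mu : G → ℂ)) := isIrr_linear_mul hl h1 mu.2
        have hirr2 : IsIrrCharacter G ((lam : G → ℂ) * (lam : G → ℂ)) := isIrr_linear_mul hl h1 lam.2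
        have hp : ((lam : G → ℂ) * (mu : G → ℂ)) = fun _ => 1 := by
          by_contra hcon
          obtain ⟨-, hv⟩ := linear_value u hu 2 hyp ⟨_, hirr⟩ (by simp [h1, hmu1]) hcon
          simp only [Pi.mul_apply, hval, hvalmu] at hv
          norm_num at hv
        have hp2 : ((lam : G → ℂ) * (lam : G → ℂ)) = fun _ => 1 := by
          by_contra hcon
          obtain ⟨-, hv⟩ := linear_value u hu 2 hyp ⟨_, hirr2⟩ (by simp [h1]) hcon
          simp only [Pi.mul_apply, hval] at hv
          norm_num at hv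
        funext g
        have e1 : (lam : G → ℂ) g * (mu : G → ℂ) g = 1 := congrFun hp g
        have e2 : (lam : G → ℂ) g * (lam : G → ℂ) g = 1 := congrFun hp2 g
        exact mul_left_cancel₀ (isChar_linear_ne_zero hl h1 g) (e1.trans e2.symm)
  have hcent : Nat.card (Subgroup.centralizer ({u} : Set G)) = 2 := by
    rw [card_centralizer_of_nonlinear_vanish hvan, hidx]
  have hle : Subgroup.zpowers u ≤ Subgroup.centralizer ({u} : Set G) := by
    rw [Subgroup.zpowers_le]
    exact Subgroup.mem_centralizer_singleton_iff.2 rfl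
  have hord : orderOf u = 2 := by
    have h2 : orderOf u ∣ 2 := by
      rw [← hcent, ← Nat.card_zpowers]
      exact Subgroup.card_dvd_of_le hle
    rcases (Nat.dvd_prime Nat.prime_two).1 h2 with h | h
    · exact absurd (orderOf_eq_one_iff.1 h) hu
    · exact h
  have hceq : Subgroup.centralizer ({u} : Set G) = Subgroup.zpowers u := by
    symm
    apply Subgroup.eq_of_le_of_card_ge hle
    rw [hcent, Nat.card_zpowers, hord]
  have huG : u ∉ commutator G := by
    intro h
    have := isChar_linear_commutator hl h1 h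
    rw [hval] at this
    norm_num at this
  have hu2 : u * u = 1 := by
    have := pow_orderOf_eq_one u
    rwa [hord, pow_two] at this
  -- the commutator subgroup has odd order
  have hodd : (Nat.card (commutator G)).Coprime 2 := by
    rw [Nat.coprime_two_right, ← Nat.not_even_iff_odd]
    intro heven
    obtain ⟨t, ht⟩ := exists_prime_orderOf_dvd_card' (G := commutator G) 2 heven.two_dvd
    have ht2 : (t : G) * (t : G) = 1 := by
      have := pow_orderOf_eq_one t
      rw [ht, pow_two] at this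
      exact_mod_cast congrArg Subtype.val this
    have hconj : IsConj u (u * (t : G)) := by
      rw [isConj_iff_of_nonlinear_vanish hvan]
      simp
    have hord2 : orderOf (u * (t : G)) = 2 := by
      obtain ⟨c, hc⟩ := isConj_iff.1 hconj
      rw [← hc]
      have : c * u * c⁻¹ = MulAut.conj c u := rfl
      rw [this, MulEquiv.orderOf_eq, hord]
    have h3 : (u * (t : G)) * (u * (t : G)) = 1 := by
      have := pow_orderOf_eq_one (u * (t : G))
      rwa [hord2, pow_two] at this
    have hcomm : (t : G) * u = u * (t : G) := by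
      have e2 : (t : G)⁻¹ = t := by
        exact inv_eq_of_mul_eq_one_left ht2
      have e3 : u⁻¹ = u := inv_eq_of_mul_eq_one_left hu2
      calc (t : G) * u = ((t : G)⁻¹ * u⁻¹) := by rw [e2, e3]
        _ = (u * (t : G))⁻¹ := by group
        _ = u * (t : G) := inv_eq_of_mul_eq_one_left h3
    have htc : (t : G) ∈ Subgroup.centralizer ({u} : Set G) :=
      Subgroup.mem_centralizer_singleton_iff.2 hcomm
    rw [hceq] at htc
    obtain ⟨k, hk⟩ := Subgroup.mem_zpowers_iff.1 htc
    have hk2 : (t : G) = 1 ∨ (t : G) = u := by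
      rcases Int.even_or_odd' k with ⟨m, hm | hm⟩
      · left
        rw [← hk, hm, zpow_mul, zpow_two, hu2, one_zpow]
      · right
        rw [← hk, hm, zpow_add, zpow_mul, zpow_two, hu2, one_zpow, one_mul, zpow_one]
    rcases hk2 with h | h
    · have : t = 1 := Subtype.ext h
      rw [this, orderOf_one] at ht
      norm_num at ht
    · exact huG (h ▸ t.2)
  refine ⟨hord, ?_, hceq⟩
  have hle2 : commutator G ≤ Cfsg.oddCore G :=
    Cfsg.Agent.Lib.Helper29.le_pPrimeCore (commutator G) hodd
  rw [eq_top_iff]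
  intro g _
  by_cases hg : g ∈ commutator G
  · exact Subgroup.mem_sup_right (hle2 hg)
  · have huinv : u⁻¹ ∉ commutator G := fun h => huG (by simpa using inv_mem h)
    have h4 : u⁻¹ * g ∈ commutator G := by
      rw [Subgroup.mul_mem_iff_of_index_two hidx]
      exact ⟨fun h => absurd h huinv, fun h => absurd h hg⟩
    have : g = u * (u⁻¹ * g) := by group
    rw [this]
    exact Subgroup.mul_mem_sup (Subgroup.mem_zpowers u) (hle2 h4)

theorem not_perfect_of_structure (u : G) (hord : orderOf u = 2)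
    (hsup : Subgroup.zpowers u ⊔ Cfsg.oddCore G = ⊤) : commutator G ≠ ⊤ := by
  intro hG
  have hle : commutator G ≤ Cfsg.oddCore G := by
    rw [commutator_eq_closure, Subgroup.closure_le]
    rintro _ ⟨a, b, rfl⟩
    have hrep : ∀ x : G, ∃ k : ℤ, (x : G ⧸ Cfsg.oddCore G) = ((u : G ⧸ Cfsg.oddCore G)) ^ k := by
      intro x
      have hx : x ∈ Subgroup.zpowers u ⊔ Cfsg.oddCore G := by rw [hsup]; trivial
      rw [Subgroup.mem_sup_of_normal_right] at hx
      obtain ⟨y, hy, z, hz, rfl⟩ := hx
      obtain ⟨k, rfl⟩ := Subgroup.mem_zpowers_iff.1 hy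
      refine ⟨k, ?_⟩
      rw [QuotientGroup.mk_mul, (QuotientGroup.eq_one_iff z).2 hz, mul_one, QuotientGroup.mk_zpow]
    obtain ⟨i, hi⟩ := hrep a
    obtain ⟨j, hj⟩ := hrep b
    show ⁅a, b⁆ ∈ Cfsg.oddCore G
    rw [← QuotientGroup.eq_one_iff, commutatorElement_def]
    simp only [QuotientGroup.mk_mul, QuotientGroup.mk_inv, hi, hj]
    group
  have htop : Cfsg.oddCore G = ⊤ := by
    rw [eq_top_iff, ← hG]; exact hle
  have hodd := Cfsg.Agent.Lib.Helper29.odd_card_oddCore (G := G)
  rw [htop, Subgroup.card_top] at hodd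
  have h2 : 2 ∣ Nat.card G := hord ▸ orderOf_dvd_natCard u
  exact (Nat.not_even_iff_odd.2 hodd) (even_iff_two_dvd.2 h2)

end aux

/-- Let u ≠ 1 be an element of the finite group G and c a complex number such that every non-principal irreducible character χ satisfies χ(1) − χ(u) = c or χ(u) = 0. Then the following are equivalent: (a) u has order 2, G is generated by u together with O(G), the largest normal subgroup of G of odd order, and the centralizer of u is {1, u}; (b) G is not perfect; (c) c = 2. -/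
theorem result {G : Type*} [Group G] [Finite G] (u : G) (hu : u ≠ 1) (c : ℂ) (hyp : ∀ χ : Cfsg.IrrCharacter G, (χ : G → ℂ) ≠ (fun _ => (1 : ℂ)) → ((χ : G → ℂ) 1 - (χ : G → ℂ) u = c ∨ (χ : G → ℂ) u = 0)) : ((orderOf u = 2 ∧ Subgroup.zpowers u ⊔ Cfsg.oddCore G = ⊤ ∧ Subgroup.centralizer ({u} : Set G) = Subgroup.zpowers u) ↔ commutator G ≠ ⊤) ∧ (commutator G ≠ ⊤ ↔ c = 2) := by
  refine ⟨⟨fun h => not_perfect_of_structure u h.1 h.2.1,
    fun h => structure_of_not_perfect u hu c hyp h⟩, ⟨fun h => ?_, fun h => ?_⟩⟩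
  · obtain ⟨lam, h1, hne⟩ := exists_nonprincipal_linear h
    exact (linear_value u hu c hyp lam h1 hne).1
  · subst h
    exact not_perfect_of_two u hu hyp

end Cfsg.Agent.S4757
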