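import Cfsg.Statements.S4763
import Cfsg.Agent.S4452
import Cfsg.Agent.Lib.Helper77.PResCong
import Cfsg.Agent.Lib.Helper77.GallRel
import Cfsg.Agent.Lib.Helper73.TwoClass
import Cfsg.Agent.Lib.Helper73.ClassSize
import Cfsg.Agent.Lib.Helper60.CdTaketa
import Cfsg.Agent.Lib.Helper5.DegHyp
import Cfsg.Agent.Lib.Helper82.Central
import Cfsg.Agent.Lib.Helper20.CharCount
-- import your own Cfsg.Agent.* helpers here

set_option autoImplicit false
open Cfsg

namespace Cfsg.Agent.S4763

theorem deg_eq {G : Type*} [Group G] [Finite G] {χ : G → ℂ} (hχ : IsIrrCharacter G χ) {d : ℕ}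
    (h : χ 1 = d) : charDegree χ = d := by
  have := Cfsg.Agent.Lib.Helper82.isChar_one_eq (Cfsg.Agent.Lib.Helper82.isIrr_isChar hχ)
  rw [h] at this
  exact_mod_cast this.symm

/-- Step 1: the quotient is abelian. -/
theorem quot_comm {G : Type*} [Group G] [Finite G] (p : ℕ) [Fact p.Prime]
    (hnil : ¬ Group.IsNilpotent G) (N : Subgroup G) [N.Normal]
    (k : ℕ) (hidx : N.index = p ^ k)
    (huniq : ∀ χ ψ : IrrCharacter G, p ∣ charDegree (χ : G → ℂ) → p ∣ charDegree (ψ : G → ℂ) →
      χ = ψ) :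
    ∀ a b : G ⧸ N, a * b = b * a := by
  classical
  have hp := (Fact.out : p.Prime)
  have := Fintype.ofFinite G
  by_contra hcon
  have h1 : ∃ β : IrrCharacter (G ⧸ N), charDegree (β : G ⧸ N → ℂ) ≠ 1 := by
    by_contra h
    push Not at h
    exact hcon (Cfsg.Agent.Lib.Helper5.comm_of_all_linear h)
  obtain ⟨β, hβ⟩ := h1
  have hβ1 := Cfsg.Agent.Lib.Helper82.isChar_one_eq (Cfsg.Agent.Lib.Helper82.isIrr_isChar β.2)
  have hβp : p ∣ charDegree (β : G ⧸ N → ℂ) := by
    obtain ⟨d, hd1, hd2, hd3⟩ := Cfsg.Agent.Lib.Helper77.irr_degree_dvd β.2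
    have hd : charDegree (β : G ⧸ N → ℂ) = d := deg_eq β.2 hd1
    rw [hd] at hβ ⊢
    have h2 : Nat.card (G ⧸ N) = p ^ k := by rw [← hidx]; rfl
    rw [h2] at hd2
    obtain ⟨j, -, rfl⟩ := (Nat.dvd_prime_pow hp).mp hd2
    rcases Nat.eq_zero_or_pos j with rfl | hj
    · simp at hβ
    · exact dvd_pow_self p hj.ne'
  have hβ0 : (β : G ⧸ N → ℂ) 1 ≠ 0 := Cfsg.Agent.Lib.Helper82.isIrr_one_ne_zero β.2
  have hinf : IsIrrCharacter G (fun g : G => (β : G ⧸ N → ℂ) (g : G ⧸ N)) :=
    Cfsg.Agent.Lib.Helper82.isIrr_inflate β.2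
  have hinfd : charDegree (fun g : G => (β : G ⧸ N → ℂ) (g : G ⧸ N)) =
      charDegree (β : G ⧸ N → ℂ) := rfl
  have hker : ∀ χ : IrrCharacter G, ∀ n ∈ N, (χ : G → ℂ) n = (χ : G → ℂ) 1 := by
    intro χ n hn
    have hn1 : ((n : G) : G ⧸ N) = 1 := (QuotientGroup.eq_one_iff n).mpr hn
    by_cases hχ : p ∣ charDegree (χ : G → ℂ)
    · have := huniq χ ⟨_, hinf⟩ hχ (by rw [hinfd]; exact hβp)
      rw [this]
      show (β : G ⧸ N → ℂ) (n : G ⧸ N) = (β : G ⧸ N → ℂ) ((1 : G) : G ⧸ N)
      rw [hn1]; rfl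
    · have hres := Cfsg.Agent.Lib.Helper77.isIrr_res_of_pow_index hp N k hidx χ.2 hχ
      have hg := Cfsg.Agent.Lib.Helper77.gall_irr N χ.2 hres (QuotientGroup.mk' N)
        (QuotientGroup.mk'_surjective N) (fun t => QuotientGroup.eq_one_iff t) β.2
      have hχ1 := Cfsg.Agent.Lib.Helper82.isChar_one_eq (Cfsg.Agent.Lib.Helper82.isIrr_isChar χ.2)
      have hgd : charDegree (fun t => (χ : G → ℂ) t * (β : G ⧸ N → ℂ) (QuotientGroup.mk' N t)) =
          charDegree (χ : G → ℂ) * charDegree (β : G ⧸ N → ℂ) := by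
        apply deg_eq hg
        show (χ : G → ℂ) 1 * (β : G ⧸ N → ℂ) (QuotientGroup.mk' N 1) = _
        rw [map_one, hχ1, hβ1]
        push_cast
        rfl
      have := huniq ⟨_, hg⟩ ⟨_, hinf⟩ (by rw [hgd]; exact Dvd.dvd.mul_left hβp _)
        (by rw [hinfd]; exact hβp)
      have h3 : ∀ t : G, (χ : G → ℂ) t * (β : G ⧸ N → ℂ) (QuotientGroup.mk' N t) =
          (β : G ⧸ N → ℂ) (t : G ⧸ N) := fun t => congrFun (congrArg Subtype.val this) t
      have h4 := h3 n
      have h5 := h3 1
      have e1 : QuotientGroup.mk' N n = 1 := hn1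
      rw [e1, hn1] at h4
      rw [map_one] at h5
      have e2 : (((1 : G) : G ⧸ N)) = 1 := rfl
      rw [e2] at h5
      have h6 : (χ : G → ℂ) n = 1 := by
        apply mul_right_cancel₀ hβ0
        rw [h4, one_mul]
      have h7 : (χ : G → ℂ) 1 = 1 := by
        apply mul_right_cancel₀ hβ0
        rw [h5, one_mul]
      rw [h6, h7]
  have hbot : N = ⊥ := by
    rw [eq_bot_iff]
    intro n hn
    exact Cfsg.Agent.Lib.Helper60.Cd.eq_one_of_forall_irr n (fun χ => hker χ n hn)
  apply hnil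
  have hc : Nat.card G = p ^ k := by
    rw [← hidx, hbot, Subgroup.index_bot]
  exact (IsPGroup.of_card hc).isNilpotent


/-- Let p be a prime and G a finite group that is not nilpotent and has a normal p-complement (a normal subgroup of order prime to p and index a power of p). If G has exactly one irreducible complex character of degree divisible by p, then G has exactly one conjugacy class whose size is divisible by p. -/
theorem result {G : Type*} [Group G] [Finite G] (p : ℕ) [Fact p.Prime] (hnil : ¬ Group.IsNilpotent G) (N : Subgroup G) [N.Normal] (hN : (Nat.card N).Coprime p) (hidx : ∃ k : ℕ, N.index = p ^ k) (hone : Nat.card {χ : Cfsg.IrrCharacter G // p ∣ Cfsg.charDegree (χ : G → ℂ)} = 1) : Nat.card {C : ConjClasses G // p ∣ Nat.card C.carrier} = 1 := by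
  classical
  have hp := (Fact.out : p.Prime)
  obtain ⟨k, hk⟩ := hidx
  have := Fintype.ofFinite G
  obtain ⟨hss, ⟨χ0, hχ0⟩⟩ := Nat.card_eq_one_iff_unique.mp hone
  have huniq : ∀ χ ψ : IrrCharacter G, p ∣ charDegree (χ : G → ℂ) → p ∣ charDegree (ψ : G → ℂ) →
      χ = ψ := by
    intro χ ψ h1 h2
    exact congrArg Subtype.val (hss.elim ⟨χ, h1⟩ ⟨ψ, h2⟩)
  have hq := quot_comm p hnil N k hk huniq
  let P : Sylow p G := default
  have hcardG : Nat.card G = Nat.card N * p ^ k := by rw [← hk, N.card_mul_index]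
  have hNp : ¬ p ∣ Nat.card N := fun h => by
    have := Nat.Coprime.eq_one_of_dvd hN.symm h
    exact hp.one_lt.ne' this
  have hcardP : Nat.card (P : Subgroup G) = p ^ k := by
    rw [Sylow.card_eq_multiplicity, hcardG,
      Nat.factorization_mul Nat.card_pos.ne' (pow_ne_zero _ hp.ne_zero), Finsupp.add_apply,
      Nat.factorization_eq_zero_of_not_dvd hNp, hp.factorization_pow]
    simp
  have hcop : (Nat.card N).Coprime (Nat.card (P : Subgroup G)) := by
    rw [hcardP]; exact hN.pow_right k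
  have hcompl : N.IsComplement' (P : Subgroup G) :=
    Subgroup.isComplement'_of_coprime (by rw [hcardP, hcardG]) hcop
  have hsup : N ⊔ (P : Subgroup G) = ⊤ := hcompl.sup_eq_top
  have hinf : N ⊓ (P : Subgroup G) = ⊥ := hcompl.disjoint.eq_bot
  have hk0 : 0 < k := by
    rcases Nat.eq_zero_or_pos k with rfl | h
    · exfalso
      obtain ⟨d, hd1, hd2, hd3⟩ := Cfsg.Agent.Lib.Helper77.irr_degree_dvd χ0.2
      rw [deg_eq χ0.2 hd1] at hχ0
      rw [hcardG, pow_zero, mul_one] at hd2
      exact hNp (hχ0.trans hd2)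
    · exact h
  -- P abelian
  have hPab : ∀ u ∈ (P : Subgroup G), ∀ v ∈ (P : Subgroup G), u * v = v * u := by
    intro u hu v hv
    have h1 : u * v * (v * u)⁻¹ ∈ N := by
      rw [← QuotientGroup.eq_one_iff]
      rw [QuotientGroup.mk_mul, QuotientGroup.mk_inv, QuotientGroup.mk_mul, QuotientGroup.mk_mul,
        hq (u : G ⧸ N) (v : G ⧸ N), mul_inv_cancel]
    have h2 : u * v * (v * u)⁻¹ ∈ (P : Subgroup G) :=
      mul_mem (mul_mem hu hv) (inv_mem (mul_mem hv hu))
    have h3 : u * v * (v * u)⁻¹ ∈ N ⊓ (P : Subgroup G) := ⟨h1, h2⟩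
    rw [hinf, Subgroup.mem_bot] at h3
    exact mul_inv_eq_one.mp h3
  -- the normalizer centralizes P
  set M : Subgroup G := Subgroup.normalizer ((P : Subgroup G) : Set G) with hM
  have hPM : (P : Subgroup G) ≤ M := Subgroup.le_normalizer
  have hMC : ∀ n ∈ M, ∀ u ∈ (P : Subgroup G), n * u = u * n := by
    intro n hn u hu
    have hn' : n ∈ N ⊔ (P : Subgroup G) := by rw [hsup]; trivial
    rw [← SetLike.mem_coe, Subgroup.normal_mul] at hn'
    obtain ⟨w, hw, v, hv, rfl⟩ := Set.mem_mul.mp hn'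
    have hwM : w ∈ M := by
      have := mul_mem hn (inv_mem (hPM hv))
      simpa using this
    have h1 : w * u * w⁻¹ ∈ (P : Subgroup G) := (Subgroup.mem_normalizer_iff.mp hwM u).mp hu
    have h2 : w * u * w⁻¹ * u⁻¹ ∈ N ⊓ (P : Subgroup G) := by
      have h1' : w * u * w⁻¹ * u⁻¹ ∈ (P : Subgroup G) := mul_mem h1 (inv_mem hu)
      refine Subgroup.mem_inf.mpr ⟨?_, h1'⟩
      have : w * u * w⁻¹ * u⁻¹ = w * (u * w⁻¹ * u⁻¹) := by group
      rw [this]
      have hw' : w ∈ N := hw
      exact mul_mem hw' (Subgroup.Normal.conj_mem inferInstance _ (inv_mem hw') u)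
    rw [hinf, Subgroup.mem_bot] at h2
    have h3 : w * u = u * w := by
      have := mul_inv_eq_one.mp h2
      exact mul_inv_eq_iff_eq_mul.mp this
    calc w * v * u = w * (v * u) := by group
      _ = w * (u * v) := by rw [hPab v hv u hu]
      _ = (w * u) * v := by group
      _ = u * (w * v) := by rw [h3]; group
  have hPidx : ¬ p ∣ (P : Subgroup G).index := P.not_dvd_index
  -- all irreducible characters of M have p'-degree
  have hMdeg : ∀ η : IrrCharacter M, ¬ p ∣ charDegree (η : M → ℂ) := by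
    intro η hη
    have h1 := Cfsg.Agent.Lib.Helper82.isIrr_charDegree_dvd_index_center η.2
    have h2 : (P : Subgroup G).subgroupOf M ≤ Subgroup.center M := by
      intro u hu
      rw [Subgroup.mem_center_iff]
      intro n
      apply Subtype.ext
      exact hMC n n.2 u hu
    have h3 := Subgroup.index_dvd_of_le h2
    have h4 : ((P : Subgroup G).subgroupOf M).index ∣ (P : Subgroup G).index := by
      have := Subgroup.relIndex_mul_index hPM
      exact Dvd.intro _ this
    exact hPidx (hη.trans (h1.trans (h3.trans h4)))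
  have hcopiff : ∀ d : ℕ, d.Coprime (Nat.card (P : Subgroup G)) ↔ ¬ p ∣ d := by
    intro d
    rw [hcardP, Nat.coprime_pow_right_iff hk0, Nat.coprime_comm, hp.coprime_iff_not_dvd]
  have hsolv : Group.IsSolvable (P : Subgroup G) := by
    have : Group.IsNilpotent (P : Subgroup G) := P.2.isNilpotent
    infer_instance
  have hcount := Cfsg.Agent.S4452.result N (P : Subgroup G) hsup hcop hsolv
  have hc1 : Nat.card {χ : IrrCharacter G // (charDegree (χ : G → ℂ)).Coprime
      (Nat.card (P : Subgroup G))} = Nat.card {χ : IrrCharacter G // ¬ p ∣ charDegree (χ : G → ℂ)} :=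
    Nat.card_congr (Equiv.subtypeEquivRight (fun χ => hcopiff _))
  have hc2 : Nat.card {η : IrrCharacter M // (charDegree (η : M → ℂ)).Coprime
      (Nat.card (P : Subgroup G))} = Nat.card (IrrCharacter M) :=
    Nat.card_congr (Equiv.subtypeUnivEquiv (fun η => (hcopiff _).mpr (hMdeg η)))
  rw [hc1, hc2, Cfsg.Agent.Lib.Helper20.card_irrCharacter] at hcount
  -- partition counts
  have := Cfsg.Agent.Lib.Helper20.finite_irrCharacter (G := G)
  have hs1 : Nat.card {χ : IrrCharacter G // p ∣ charDegree (χ : G → ℂ)} +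
      Nat.card {χ : IrrCharacter G // ¬ p ∣ charDegree (χ : G → ℂ)} = Nat.card (IrrCharacter G) := by
    rw [← Nat.card_sum]
    exact Nat.card_congr (Equiv.sumCompl _)
  have hs2 : Nat.card {C : ConjClasses G // p ∣ Nat.card C.carrier} +
      Nat.card {C : ConjClasses G // ¬ p ∣ Nat.card C.carrier} = Nat.card (ConjClasses G) := by
    rw [← Nat.card_sum]
    exact Nat.card_congr (Equiv.sumCompl _)
  rw [Cfsg.Agent.Lib.Helper20.card_irrCharacter, hone, hcount] at hs1
  -- injection
  have hinj : Nat.card (ConjClasses M) ≤ Nat.card {C : ConjClasses G // ¬ p ∣ Nat.card C.carrier} := by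
    have hf : ∀ c : ConjClasses M, ¬ p ∣ Nat.card (ConjClasses.map M.subtype c).carrier := by
      intro c
      obtain ⟨h, rfl⟩ := ConjClasses.exists_rep c
      show ¬ p ∣ Nat.card (ConjClasses.mk (h : G)).carrier
      rw [Cfsg.Agent.Lib.Helper73.card_carrier_eq_index_centralizer]
      intro hd
      apply hPidx
      apply hd.trans
      apply Subgroup.index_dvd_of_le
      intro u hu
      rw [Subgroup.mem_centralizer_singleton_iff]
      exact (hMC h h.2 u hu).symm
    apply Nat.card_le_card_of_injective (fun c => ⟨ConjClasses.map M.subtype c, hf c⟩)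
    intro c c' hcc
    obtain ⟨h, rfl⟩ := ConjClasses.exists_rep c
    obtain ⟨h', rfl⟩ := ConjClasses.exists_rep c'
    have h1 : ConjClasses.mk (h : G) = ConjClasses.mk (h' : G) := congrArg Subtype.val hcc
    rw [ConjClasses.mk_eq_mk_iff_isConj, isConj_iff] at h1
    obtain ⟨g, hg⟩ := h1
    have hcen : ∀ x : M, (x : G) ∈ Subgroup.centralizer ((P : Subgroup G) : Set G) := by
      intro x
      rw [Subgroup.mem_centralizer_iff]
      intro u hu
      exact (hMC x x.2 u hu).symm
    obtain ⟨n, hn, hn2⟩ := P.conj_eq_normalizer_conj_of_mem_centralizer (h : G) g⁻¹ (hcen h)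
      (by rw [inv_inv, hg]; exact hcen h')
    rw [ConjClasses.mk_eq_mk_iff_isConj, isConj_iff]
    refine ⟨⟨n⁻¹, inv_mem hn⟩, ?_⟩
    apply Subtype.ext
    show n⁻¹ * (h : G) * (n⁻¹)⁻¹ = h'
    rw [inv_inv, ← hn2, inv_inv, hg]
  -- existence of a class of size divisible by p
  have hex : 0 < Nat.card {C : ConjClasses G // p ∣ Nat.card C.carrier} := by
    by_contra hcon
    have hall : ∀ x : G, ¬ p ∣ (Subgroup.centralizer ({x} : Set G)).index := by
      intro x hx
      apply hcon
      rw [← Cfsg.Agent.Lib.Helper73.card_carrier_eq_index_centralizer] at hx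
      have : Nonempty {C : ConjClasses G // p ∣ Nat.card C.carrier} := ⟨⟨_, hx⟩⟩
      exact Nat.card_pos
    have h1 := Cfsg.Agent.Lib.Helper73.sylow_le_center_of_not_dvd p hall P
    have h2 := Cfsg.Agent.Lib.Helper82.isIrr_charDegree_dvd_index_center χ0.2
    exact hPidx (hχ0.trans (h2.trans (Subgroup.index_dvd_of_le h1)))
  omega

end Cfsg.Agent.S4763
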