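import Cfsg.Statements.S4765
-- import your own Cfsg.Agent.* helpers here
import Cfsg.Agent.Lib.Helper47.PSL2Degrees

set_option autoImplicit false
open Cfsg

namespace Cfsg.Agent.S4765

open Matrix Cfsg.Agent.Lib.Helper47 Cfsg.Agent.Lib.Helper82

theorem unique_of_count {F : Type*} [Field F] [Fintype F]
    (hcount : Nat.card {χ : Cfsg.IrrCharacter (Matrix.SpecialLinearGroup (Fin 2) F) //
      (χ : Matrix.SpecialLinearGroup (Fin 2) F → ℂ) 1 = (Fintype.card F : ℂ)} = 1)
    (χ₁ χ₂ : Cfsg.IrrCharacter (Matrix.ProjectiveSpecialLinearGroup (Fin 2) F))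
    (h₁ : Cfsg.charDegree (χ₁ : Matrix.ProjectiveSpecialLinearGroup (Fin 2) F → ℂ) = Fintype.card F)
    (h₂ : Cfsg.charDegree (χ₂ : Matrix.ProjectiveSpecialLinearGroup (Fin 2) F → ℂ) = Fintype.card F) :
    χ₁ = χ₂ := by
  have hss := (Nat.card_eq_one_iff_unique.1 hcount).1
  have key : ∀ χ : Cfsg.IrrCharacter (Matrix.ProjectiveSpecialLinearGroup (Fin 2) F),
      Cfsg.charDegree (χ : Matrix.ProjectiveSpecialLinearGroup (Fin 2) F → ℂ) = Fintype.card F →
      (fun g : Matrix.SpecialLinearGroup (Fin 2) F =>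
        (χ : Matrix.ProjectiveSpecialLinearGroup (Fin 2) F → ℂ) (QuotientGroup.mk g)) 1 =
        (Fintype.card F : ℂ) := by
    intro χ h
    have := isChar_one_eq (isIrr_isChar χ.2)
    rw [h] at this
    exact this
  have h := @Subsingleton.elim _ hss
    ⟨⟨_, isIrr_inflate χ₁.2⟩, key χ₁ h₁⟩ ⟨⟨_, isIrr_inflate χ₂.2⟩, key χ₂ h₂⟩
  have h' := congrArg (fun x => (x.1 : Matrix.SpecialLinearGroup (Fin 2) F → ℂ)) h
  apply Subtype.ext
  funext x
  obtain ⟨g, rfl⟩ := QuotientGroup.mk_surjective x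
  exact congrFun h' g

/-- Let F be a finite field of characteristic p with at least 4 elements. Then PSL(2,F) has exactly one irreducible complex character of degree divisible by p, and its degree is the order of F. -/
theorem result (p : ℕ) [Fact p.Prime] (F : Type*) [Field F] [Fintype F] [CharP F p] (hF : 4 ≤ Fintype.card F) : Nat.card {χ : Cfsg.IrrCharacter (Matrix.ProjectiveSpecialLinearGroup (Fin 2) F) // p ∣ Cfsg.charDegree (χ : Matrix.ProjectiveSpecialLinearGroup (Fin 2) F → ℂ)} = 1 ∧ ∀ χ : Cfsg.IrrCharacter (Matrix.ProjectiveSpecialLinearGroup (Fin 2) F), p ∣ Cfsg.charDegree (χ : Matrix.ProjectiveSpecialLinearGroup (Fin 2) F → ℂ) → Cfsg.charDegree (χ : Matrix.ProjectiveSpecialLinearGroup (Fin 2) F → ℂ) = Fintype.card F := by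
  have hp : p.Prime := Fact.out
  obtain ⟨n, -, hn⟩ := FiniteField.card F p
  have hpq : p ∣ Fintype.card F := by
    rw [hn]; exact dvd_pow_self p n.ne_zero
  have hq1 : 1 ≤ Fintype.card F := Fintype.card_pos
  have no1 : ¬ p ∣ Fintype.card F + 1 := by
    intro h
    exact hp.one_lt.ne' (Nat.dvd_one.1 ((Nat.dvd_add_right hpq).1 h))
  have no2 : ¬ p ∣ Fintype.card F - 1 := by
    intro h
    have h3 : p ∣ (Fintype.card F - 1) + 1 := by
      rw [Nat.sub_add_cancel hq1]; exact hpq
    exact hp.one_lt.ne' (Nat.dvd_one.1 ((Nat.dvd_add_right h).1 h3))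
  -- the two facts about `SL₂`
  obtain ⟨hdeg, hcount⟩ : (∀ d ∈ charDegrees (Matrix.SpecialLinearGroup (Fin 2) F), p ∣ d →
        d = Fintype.card F) ∧
      Nat.card {χ : Cfsg.IrrCharacter (Matrix.SpecialLinearGroup (Fin 2) F) //
        (χ : Matrix.SpecialLinearGroup (Fin 2) F → ℂ) 1 = (Fintype.card F : ℂ)} = 1 := by
    by_cases h2 : p = 2
    · subst h2
      constructor
      · intro d hd hpd
        rw [cd_SL2_even hF] at hd
        simp only [Set.mem_insert_iff, Set.mem_singleton_iff] at hd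
        rcases hd with rfl | rfl | rfl | rfl
        · exact absurd (Nat.dvd_one.1 hpd) hp.one_lt.ne'
        · exact absurd hpd no2
        · rfl
        · exact absurd hpd no1
      · exact ((Cfsg.Agent.S2300.result (F := F)).2 hF).2.1
    · have hodd : Fintype.card F % 2 = 1 := by
        rw [hn]
        have : Odd p := hp.odd_of_ne_two h2
        exact Nat.odd_iff.1 this.pow
      constructor
      · intro d hd hpd
        rcases cd_SL2_odd_subset hodd hd with rfl | rfl | rfl | rfl | rfl | rfl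
        · exact absurd (Nat.dvd_one.1 hpd) hp.one_lt.ne'
        · rfl
        · exact absurd hpd no1
        · exact absurd hpd no2
        · exact absurd (hpd.trans (Nat.div_dvd_of_dvd (by omega))) no1
        · exact absurd (hpd.trans (Nat.div_dvd_of_dvd (by omega))) no2
      · exact ((Cfsg.Agent.S2299.result (F := F) (Nat.odd_iff.2 hodd)).2 (by omega)).2.1
  have hall : ∀ χ : Cfsg.IrrCharacter (Matrix.ProjectiveSpecialLinearGroup (Fin 2) F),
      p ∣ Cfsg.charDegree (χ : Matrix.ProjectiveSpecialLinearGroup (Fin 2) F → ℂ) →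
      Cfsg.charDegree (χ : Matrix.ProjectiveSpecialLinearGroup (Fin 2) F → ℂ) = Fintype.card F :=
    fun χ h => hdeg _ (cd_PSL2_subset_SL2 ⟨χ, rfl⟩) h
  refine ⟨?_, hall⟩
  rw [Nat.card_eq_one_iff_unique]
  constructor
  · constructor
    rintro ⟨χ₁, h₁⟩ ⟨χ₂, h₂⟩
    exact Subtype.ext (unique_of_count hcount χ₁ χ₂ (hall χ₁ h₁) (hall χ₂ h₂))
  · obtain ⟨χ, hχ⟩ := card_mem_cd_PSL2 (F := F)
    exact ⟨⟨χ, by rw [hχ]; exact hpq⟩⟩

end Cfsg.Agent.S4765
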