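import Cfsg.Statements.S4768
import Cfsg.Agent.S4713
import Cfsg.Agent.S1489
import Cfsg.Agent.Lib.Helper79.DegreeRatio
import Cfsg.Agent.Lib.Helper84.PPrimeDeg2
-- import your own Cfsg.Agent.* helpers here

set_option autoImplicit false
open Cfsg
open Cfsg.Agent.Lib.Helper5 Cfsg.Agent.Lib.Helper82 Cfsg.Agent.Lib.Helper19
open scoped ComplexConjugate

namespace Cfsg.Agent.S4768


theorem exists_linear_ext {T : Type*} [Group T] [Finite T] {p : ℕ} [hp : Fact p.Prime]
    (N : Subgroup T) (hNp : IsPGroup p N) (lam : N →* ℂˣ) {k : ℕ}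
    (ρ : Representation ℂ T (Fin k → ℂ)) (hk : ¬ p ∣ k)
    (hsc : ∀ x : N, ρ x = ((lam x : ℂˣ) : ℂ) • LinearMap.id) :
    ∃ μ : T →* ℂˣ, ∀ x : N, μ x = lam x := by
  classical
  obtain ⟨m, hm⟩ := IsPGroup.iff_card.mp hNp
  have hcop : Nat.Coprime k (p ^ m) := by
    apply Nat.Coprime.pow_right
    exact ((Nat.Prime.coprime_iff_not_dvd hp.out).mpr hk).symm
  let d : T →* ℂ := (LinearMap.det : ((Fin k → ℂ) →ₗ[ℂ] (Fin k → ℂ)) →* ℂ).comp ρ
  have hd : ∀ x : N, d x = ((lam x : ℂˣ) : ℂ) ^ k := by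
    intro x
    show LinearMap.det (ρ x) = _
    rw [hsc x, LinearMap.det_smul, LinearMap.det_id, mul_one, Module.finrank_fin_fun]
  have hpow : ∀ x : N, lam x ^ (p ^ m) = 1 := by
    intro x
    rw [← map_pow, ← hm, pow_card_eq_one', map_one]
  -- exponent a
  obtain ⟨a, ha⟩ : ∃ a : ℕ, ∀ x : N, (lam x ^ k) ^ a = lam x := by
    rcases Nat.lt_or_ge 1 (p ^ m) with h1 | h1
    · obtain ⟨a, -, ha⟩ := Nat.exists_mul_mod_eq_one_of_coprime hcop h1
      refine ⟨a, fun x => ?_⟩
      rw [← pow_mul, ← Nat.mod_add_div (k * a) (p ^ m), ha, pow_add, pow_mul, hpow x, one_pow,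
        mul_one, pow_one]
    · refine ⟨0, fun x => ?_⟩
      have h2 : p ^ m = 1 := le_antisymm h1 (Nat.one_le_pow _ _ hp.out.pos)
      have := hpow x
      rw [h2, pow_one] at this
      rw [this]; simp
  refine ⟨d.toHomUnits ^ a, fun x => ?_⟩
  rw [MonoidHom.pow_apply]
  have h3 : d.toHomUnits (x : T) = lam x ^ k := by
    ext
    rw [MonoidHom.coe_toHomUnits, hd x, Units.val_pow_eq_pow_val]
  rw [h3, ha x]



theorem key_not_dvd {G : Type*} [Group G] [Fintype G] {p : ℕ} (N T : Subgroup G) [hN : N.Normal]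
    [Fintype T] (lam : N →* ℂˣ) (x0 : N) (hx0 : lam x0 ≠ 1)
    (hT : ∀ g : G, g ∈ T ↔ ∀ h : N,
      ((lam ⟨g * h * g⁻¹, hN.conj_mem h h.2 g⟩ : ℂˣ) : ℂ) = ((lam h : ℂˣ) : ℂ))
    (hNT : N ≤ T)
    (hyp : ∀ χ : IrrCharacter G, (∃ x ∈ N, (χ : G → ℂ) x ≠ (χ : G → ℂ) 1) →
      ¬ p ∣ charDegree (χ : G → ℂ))
    (ξ : T → ℂ) (hξ : IsIrrCharacter T ξ)
    (hmul : ∀ (x : N) (t : T), ξ (t * ⟨x, hNT x.2⟩) = ξ t * ((lam x : ℂˣ) : ℂ)) :
    ¬ p ∣ T.index * charDegree ξ := by
  classical
  have hθ : IsIrrCharacter N (fun h : N => ((lam h : ℂˣ) : ℂ)) :=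
    Cfsg.Agent.Lib.Helper83.isIrr_of_hom lam
  let e : N.subgroupOf T ≃* N := Subgroup.subgroupOfEquivOfLe hNT
  have hθ' : IsIrrCharacter (N.subgroupOf T)
      (fun x : N.subgroupOf T => ((lam ⟨(x : T), Subgroup.mem_subgroupOf.mp x.2⟩ : ℂˣ) : ℂ)) :=
    Cfsg.Agent.Lib.Helper83.isIrr_of_hom (lam.comp e.toMonoidHom)
  have hξc : IsCharacter T ξ := isIrr_isChar hξ
  have hξ1 : ξ 1 ≠ 0 := isIrr_one_ne_zero hξ
  have hc : classInner (indFun (N.subgroupOf T)
      (fun x => ((lam ⟨(x : T), Subgroup.mem_subgroupOf.mp x.2⟩ : ℂˣ) : ℂ))) ξ ≠ 0 := by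
    have := Fintype.ofFinite (N.subgroupOf T)
    rw [frobenius_reciprocity _ _ _ (isChar_isClassFunction hξc)]
    have h1 : (fun h : N.subgroupOf T => ξ h) = (ξ 1) •
        (fun x : N.subgroupOf T => ((lam ⟨(x : T), Subgroup.mem_subgroupOf.mp x.2⟩ : ℂˣ) : ℂ)) := by
      funext x
      have := hmul ⟨(x : T), Subgroup.mem_subgroupOf.mp x.2⟩ 1
      rw [one_mul] at this
      simpa using this
    rw [h1, Cfsg.Agent.Lib.Helper20.classInner_smul_right,
      Cfsg.Agent.Lib.Helper20.classInner_irr_self hθ', mul_one]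
    simpa using hξ1
  have hirr := (Cfsg.Agent.S1489.result N T _ hθ hT hNT ξ ξ hξ hξ hc hc).1
  have hex : ∃ x ∈ N, indFun T ξ x ≠ indFun T ξ 1 := by
    by_contra hcon
    push Not at hcon
    have h1 : classInner (indFun T ξ) (indFun T ξ) = 1 :=
      Cfsg.Agent.Lib.Helper20.classInner_irr_self hirr
    rw [frobenius_reciprocity _ _ _ (isChar_isClassFunction (isIrr_isChar hirr))] at h1
    have h2 : ∑ t : T, ξ t * conj (indFun T ξ t) = 0 := by
      have h3 : ∑ t : T, ξ t * conj (indFun T ξ t)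
          = ∑ t : T, ξ (t * ⟨x0, hNT x0.2⟩) * conj (indFun T ξ ((t * ⟨x0, hNT x0.2⟩ : T) : G)) :=
        (Equiv.sum_comp (Equiv.mulRight (⟨x0, hNT x0.2⟩ : T))
          (fun t => ξ t * conj (indFun T ξ t))).symm
      have h4 : ∑ t : T, ξ (t * ⟨x0, hNT x0.2⟩) * conj (indFun T ξ ((t * ⟨x0, hNT x0.2⟩ : T) : G))
          = ((lam x0 : ℂˣ) : ℂ) * ∑ t : T, ξ t * conj (indFun T ξ t) := by
        rw [Finset.mul_sum]
        apply Finset.sum_congr rfl
        intro t _
        rw [hmul x0 t]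
        have : indFun T ξ ((t * ⟨x0, hNT x0.2⟩ : T) : G) = indFun T ξ t := by
          have := isChar_mul_of_mem_ker (isIrr_isChar hirr) (hcon x0 x0.2) (t : G)
          simpa using this
        rw [this]; ring
      have h5 : (1 - ((lam x0 : ℂˣ) : ℂ)) * ∑ t : T, ξ t * conj (indFun T ξ t) = 0 := by
        rw [sub_mul, one_mul, ← h4, ← h3, sub_self]
      rcases mul_eq_zero.mp h5 with h6 | h6
      · exfalso
        apply hx0
        ext
        rw [Units.val_one]
        exact (sub_eq_zero.mp h6).symm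
      · exact h6
    unfold classInner at h1
    rw [h2, mul_zero] at h1
    exact zero_ne_one h1
  have := hyp ⟨indFun T ξ, hirr⟩ hex
  rwa [charDegree_indFun T hξc] at this

theorem mem_normal_sylow {H : Type*} [Group H] [Finite H] {p : ℕ} [Fact p.Prime] (S : Sylow p H)
    (hS : (S : Subgroup H).Normal) {x : H} {k : ℕ} (hx : x ^ p ^ k = 1) : x ∈ S := by
  have hz : IsPGroup p (Subgroup.zpowers x) := by
    rintro ⟨y, hy⟩
    obtain ⟨j, rfl⟩ := Subgroup.mem_zpowers_iff.mp hy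
    refine ⟨k, ?_⟩
    ext
    simp only [Subgroup.coe_pow, Subgroup.coe_one]
    rw [← zpow_natCast, ← zpow_mul, mul_comm, zpow_mul, zpow_natCast, hx, one_zpow]
  obtain ⟨Q, hQ⟩ := hz.exists_le_sylow
  have := Sylow.unique_of_normal S hS
  rw [Subsingleton.elim S Q]
  exact hQ (Subgroup.mem_zpowers x)

theorem comm_mem_of_hyp {G : Type*} [Group G] [Finite G] {p : ℕ} [hp : Fact p.Prime]
    (hsol : IsPSolvable p G) (N : Subgroup G) [hN : N.Normal] (hNp : IsPGroup p N)
    (hNab : ∀ x ∈ N, ∀ y ∈ N, x * y = y * x) (hNne : N ≠ ⊥)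
    (hyp : ∀ χ : IrrCharacter G, (∃ x ∈ N, (χ : G → ℂ) x ≠ (χ : G → ℂ) 1) →
      ¬ p ∣ charDegree (χ : G → ℂ))
    (P : Sylow p G) : ∀ a ∈ P, ∀ b ∈ P, a * b * a⁻¹ * b⁻¹ ∈ N := by
  classical
  have := Fintype.ofFinite G
  obtain ⟨x0, hx0ne⟩ : ∃ x : N, x ≠ 1 := by
    by_contra hcon
    push Not at hcon
    apply hNne
    rw [Subgroup.eq_bot_iff_forall]
    intro x hx
    exact congrArg Subtype.val (hcon ⟨x, hx⟩)
  -- a nontrivial linear character of N
  have hcomm : commutator N = ⊥ := by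
    rw [commutator_def, Subgroup.commutator_eq_bot_iff_le_centralizer]
    intro x _
    rw [Subgroup.mem_centralizer_iff]
    intro y _
    exact Subtype.ext (hNab y y.2 x x.2)
  obtain ⟨μ0, hμ0, hμ01, hμ0x⟩ := exists_linear_ne_one (G := N) (x := x0) (by
    rw [hcomm, Subgroup.mem_bot]; exact hx0ne)
  let lam : N →* ℂˣ := (linHom μ0 hμ0 hμ01).toHomUnits
  have hlam : ∀ x : N, ((lam x : ℂˣ) : ℂ) = μ0 x := fun x => rfl
  have hx0 : lam x0 ≠ 1 := by
    intro h
    apply hμ0x
    rw [← hlam, h, Units.val_one]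
  have hθ : IsIrrCharacter N (fun h : N => ((lam h : ℂˣ) : ℂ)) :=
    Cfsg.Agent.Lib.Helper83.isIrr_of_hom lam
  let T : Subgroup G := inertia hN (fun h : N => ((lam h : ℂˣ) : ℂ))
  have hT : ∀ g : G, g ∈ T ↔ ∀ h : N,
      ((lam ⟨g * h * g⁻¹, hN.conj_mem h h.2 g⟩ : ℂˣ) : ℂ) = ((lam h : ℂˣ) : ℂ) :=
    fun g => mem_inertia' hN _ g
  have hNT : N ≤ T := le_inertia hN (isChar_isClassFunction (isIrr_isChar hθ))
  have := Fintype.ofFinite T
  let N' : Subgroup T := N.subgroupOf T
  have hN' : N'.Normal := Subgroup.Normal.subgroupOf hN T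
  have := Fintype.ofFinite N'
  let e : N' ≃* N := Subgroup.subgroupOfEquivOfLe hNT
  let lam' : N' →* ℂˣ := lam.comp e.toMonoidHom
  have hlam' : ∀ x : N', lam' x = lam ⟨((x : T) : G), Subgroup.mem_subgroupOf.mp x.2⟩ := fun x => rfl
  have hθ' : IsIrrCharacter N' (fun x : N' => ((lam' x : ℂˣ) : ℂ)) :=
    Cfsg.Agent.Lib.Helper83.isIrr_of_hom lam'
  have hN'p : IsPGroup p N' := hNp.of_equiv e.symm
  -- an irreducible character of T over lam
  obtain ⟨ψ, hψ, hψc⟩ := Cfsg.Agent.Lib.Helper19.exists_irr_over N' hθ'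
  have hinv : ∀ t : T, cjF hN' (fun x : N' => ((lam' x : ℂˣ) : ℂ)) t
      = (fun x : N' => ((lam' x : ℂˣ) : ℂ)) := by
    intro t
    funext x
    exact (hT t).mp t.2 ⟨((x : T) : G), Subgroup.mem_subgroupOf.mp x.2⟩
  have hcl := clifford_invariant hN' hψ hθ' hψc hinv
  obtain ⟨k, ρ, hρ, rfl⟩ := hψ
  have hk1 : ρ.character 1 = k := by
    rw [Representation.char_one, Module.finrank_fin_fun]
  have hres : ∀ x : N', ρ.character x = (k : ℂ) * ((lam' x : ℂˣ) : ℂ) := by
    have h1 := congrFun hcl 1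
    simp only [Pi.smul_apply, smul_eq_mul, map_one, Units.val_one, mul_one, Subgroup.coe_one] at h1
    intro x
    have h2 := congrFun hcl x
    simp only [Pi.smul_apply, smul_eq_mul] at h2
    rw [h2, ← h1, hk1]
  have hsc := Cfsg.Agent.Lib.Helper79.scalar_of_character_eq ρ N' lam' hres
  have hψ : IsIrrCharacter T ρ.character := ⟨k, ρ, hρ, rfl⟩
  have hdk : charDegree ρ.character = k := by
    have := isChar_one_eq (isIrr_isChar hψ)
    rw [hk1] at this
    exact_mod_cast this.symm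
  have h1 := key_not_dvd (p := p) N T lam x0 hx0 hT hNT hyp ρ.character hψ (by
    intro x t
    have h2 := hsc ⟨⟨x, hNT x.2⟩, Subgroup.mem_subgroupOf.mpr x.2⟩
    show LinearMap.trace ℂ _ (ρ (t * ⟨x, hNT x.2⟩)) = LinearMap.trace ℂ _ (ρ t) * _
    rw [map_mul]
    have h3 : ρ (⟨x, hNT x.2⟩ : T) = ((lam x : ℂˣ) : ℂ) • LinearMap.id := h2
    rw [h3, mul_smul_comm, map_smul, smul_eq_mul, mul_comm]
    rfl)
  rw [hdk] at h1
  have hTi : ¬ p ∣ T.index := fun h => h1 (Dvd.dvd.mul_right h _)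
  have hkp : ¬ p ∣ k := fun h => h1 (Dvd.dvd.mul_left h _)
  obtain ⟨μ, hμ⟩ := exists_linear_ext N' hN'p lam' ρ hkp hsc
  -- all characters of T / N' have degree prime to p
  have hall : ∀ β : IrrCharacter (T ⧸ N'), ¬ p ∣ charDegree (β : T ⧸ N' → ℂ) := by
    intro β
    have hμi := Cfsg.Agent.Lib.Helper83.isIrr_of_hom μ
    have hξ : IsIrrCharacter T ((fun t => ((μ t : ℂˣ) : ℂ)) * fun t : T => (β : T ⧸ N' → ℂ) (t : T ⧸ N')) :=
      isIrr_linear_mul (isIrr_isChar hμi) (by simp) (isIrr_inflate β.2)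
    have h2 := key_not_dvd (p := p) N T lam x0 hx0 hT hNT hyp _ hξ (by
      intro x t
      simp only [Pi.mul_apply, map_mul, Units.val_mul]
      have h3 : μ (⟨x, hNT x.2⟩ : T) = lam x := hμ ⟨⟨x, hNT x.2⟩, Subgroup.mem_subgroupOf.mpr x.2⟩
      have h4 : ((t * ⟨x, hNT x.2⟩ : T) : T ⧸ N') = (t : T ⧸ N') := by
        rw [QuotientGroup.mk_mul]
        have : ((⟨x, hNT x.2⟩ : T) : T ⧸ N') = 1 :=
          (QuotientGroup.eq_one_iff _).mpr (Subgroup.mem_subgroupOf.mpr x.2)
        rw [this, mul_one]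
      rw [h3, h4]; ring)
    intro h
    apply h2
    apply Dvd.dvd.mul_left
    have h5 : charDegree ((fun t => ((μ t : ℂˣ) : ℂ)) * fun t : T => (β : T ⧸ N' → ℂ) (t : T ⧸ N'))
        = charDegree (β : T ⧸ N' → ℂ) := by
      unfold charDegree
      simp
    rw [h5]; exact h
  have hsolT : IsPSolvable p (T ⧸ N') :=
    Cfsg.Agent.Lib.Helper14.IsPSolvable.quotient
      (Cfsg.Agent.Lib.Helper73.isPSolvable_subgroup hsol T) N'
  let S : Sylow p (T ⧸ N') := default
  obtain ⟨hSn, hSc⟩ := (Cfsg.Agent.S4713.result p hsolT S).mpr hall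
  -- a conjugate of P lies in T
  obtain ⟨q, hq⟩ := P.2.nonempty_fixed_point_of_prime_not_dvd_card (G ⧸ T) (by
    rw [← Subgroup.index_eq_card]; exact hTi)
  obtain ⟨g, rfl⟩ := QuotientGroup.mk_surjective q
  have hconj : ∀ a ∈ P, g⁻¹ * a * g ∈ T := by
    intro a ha
    have h2 := hq ⟨a, ha⟩
    have h3 : ((a * g : G) : G ⧸ T) = (g : G ⧸ T) := h2
    have h4 := QuotientGroup.eq.mp h3.symm
    rwa [← mul_assoc] at h4
  have hmemS : ∀ a (ha : a ∈ P), ((⟨g⁻¹ * a * g, hconj a ha⟩ : T) : T ⧸ N') ∈ S := by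
    intro a ha
    obtain ⟨j, hj⟩ := P.2 ⟨a, ha⟩
    apply mem_normal_sylow S hSn (k := j)
    rw [← QuotientGroup.mk_pow]
    have : (⟨g⁻¹ * a * g, hconj a ha⟩ : T) ^ p ^ j = 1 := by
      ext
      simp only [Subgroup.coe_pow, Subgroup.coe_one]
      have h2 : a ^ p ^ j = 1 := congrArg Subtype.val hj
      have h3 : g⁻¹ * a * g = g⁻¹ * a * g⁻¹⁻¹ := by rw [inv_inv]
      rw [h3, conj_pow, h2]; simp
    rw [this]; rfl
  intro a ha b hb
  have h2 : (⟨_, hmemS a ha⟩ : S) * ⟨_, hmemS b hb⟩ = ⟨_, hmemS b hb⟩ * ⟨_, hmemS a ha⟩ :=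
    hSc.is_comm.comm _ _
  have h3 : ((⟨g⁻¹ * a * g, hconj a ha⟩ : T) : T ⧸ N') * ((⟨g⁻¹ * b * g, hconj b hb⟩ : T) : T ⧸ N')
      = ((⟨g⁻¹ * b * g, hconj b hb⟩ : T) : T ⧸ N') * ((⟨g⁻¹ * a * g, hconj a ha⟩ : T) : T ⧸ N') :=
    congrArg Subtype.val h2
  rw [← QuotientGroup.mk_mul, ← QuotientGroup.mk_mul] at h3
  have h4 := QuotientGroup.eq.mp h3.symm
  have h5 : ((((⟨g⁻¹ * b * g, hconj b hb⟩ : T) * ⟨g⁻¹ * a * g, hconj a ha⟩)⁻¹ *
      ((⟨g⁻¹ * a * g, hconj a ha⟩ : T) * ⟨g⁻¹ * b * g, hconj b hb⟩) : T) : G) ∈ N :=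
    Subgroup.mem_subgroupOf.mp h4
  simp only [Subgroup.coe_mul, Subgroup.coe_inv] at h5
  have h6 := hN.conj_mem _ h5 (a * b * g)
  convert h6 using 1
  group

theorem mem_of_quot {G : Type*} [Group G] [Finite G] {p : ℕ} [Fact p.Prime] (N : Subgroup G)
    [N.Normal] (k : ℕ) (ih : ∀ Q : Sylow p (G ⧸ N), derivedSeries ↥(Q : Subgroup (G ⧸ N)) k = ⊥)
    (P : Sylow p G) : ∀ x ∈ derivedSeries ↥(P : Subgroup G) k, ((x : P) : G) ∈ N := by
  obtain ⟨Q, hQ⟩ := (P.2.map (QuotientGroup.mk' N)).exists_le_sylow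
  let f : ↥(P : Subgroup G) →* ↥(Q : Subgroup (G ⧸ N)) :=
    ((QuotientGroup.mk' N).comp (P : Subgroup G).subtype).codRestrict (Q : Subgroup (G ⧸ N))
      (fun x => hQ (Subgroup.mem_map_of_mem _ x.2))
  intro x hx
  have h1 := map_derivedSeries_le_derivedSeries f k (Subgroup.mem_map_of_mem f hx)
  rw [ih Q, Subgroup.mem_bot] at h1
  have h2 : ((x : G) : G ⧸ N) = 1 := congrArg Subtype.val h1
  exact (QuotientGroup.eq_one_iff _).mp h2

noncomputable def infl {G : Type*} [Group G] (p : ℕ) (N : Subgroup G) [N.Normal] :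
    {ψ : IrrCharacter (G ⧸ N) // p ∣ charDegree (ψ : G ⧸ N → ℂ)} →
    {χ : IrrCharacter G // p ∣ charDegree (χ : G → ℂ)} :=
  fun ψ => ⟨⟨fun g => (ψ.1 : G ⧸ N → ℂ) (g : G ⧸ N), isIrr_inflate ψ.1.2⟩, ψ.2⟩

theorem infl_injective {G : Type*} [Group G] (p : ℕ) (N : Subgroup G) [N.Normal] :
    Function.Injective (infl p N) := by
  intro a b hab
  apply Subtype.ext
  apply Subtype.ext
  funext q
  obtain ⟨g, rfl⟩ := QuotientGroup.mk_surjective q
  have h1 := congrArg (fun z => (z.1 : G → ℂ) g) hab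
  exact h1

universe u

theorem aux (p : ℕ) [hpF : Fact p.Prime] : ∀ (n : ℕ) (G : Type u) [Group G] [Finite G],
    Nat.card G = n → IsPSolvable p G → ∀ P : Sylow p G,
    derivedSeries ↥(P : Subgroup G)
      (Nat.card {χ : IrrCharacter G // p ∣ charDegree (χ : G → ℂ)} + 1) = ⊥ := by
  intro n
  induction n using Nat.strong_induction_on with
  | _ n ih =>
    intro G _ _ hn hsol P
    have hp : p.Prime := hpF.out
    have hfin : Finite (IrrCharacter G) := Cfsg.Agent.Lib.Helper20.finite_irrCharacter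
    rcases subsingleton_or_nontrivial G with hs | hnt
    · exact Subgroup.eq_bot_of_subsingleton _
    obtain ⟨M, hMn, hMne, hMtype⟩ := Cfsg.Agent.Lib.Helper66.exists_normal_of_isPSolvable hsol
    -- general consequences of the induction hypothesis
    have hgen : ∀ (N : Subgroup G) [N.Normal], N ≠ ⊥ →
        ∀ x ∈ derivedSeries ↥(P : Subgroup G)
          (Nat.card {ψ : IrrCharacter (G ⧸ N) // p ∣ charDegree (ψ : G ⧸ N → ℂ)} + 1),
          ((x : P) : G) ∈ N := by
      intro N _ hNne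
      have hNcard : 1 < Nat.card N := by
        have h1 : Nat.card N ≠ 1 := fun h => hNne (Subgroup.card_eq_one.mp h)
        have h2 : 0 < Nat.card N := Nat.card_pos
        omega
      have hquot : Nat.card (G ⧸ N) < n := by
        have h1 := N.card_mul_index
        rw [hn] at h1
        rw [← Subgroup.index_eq_card]
        have h2 : 0 < N.index := Nat.pos_of_ne_zero N.index_ne_zero_of_finite
        nlinarith
      exact mem_of_quot N _ (fun Q => ih _ hquot (G ⧸ N) rfl
        (Cfsg.Agent.Lib.Helper14.IsPSolvable.quotient hsol N) Q) P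
    have hle : ∀ (N : Subgroup G) [N.Normal],
        Nat.card {ψ : IrrCharacter (G ⧸ N) // p ∣ charDegree (ψ : G ⧸ N → ℂ)} ≤
        Nat.card {χ : IrrCharacter G // p ∣ charDegree (χ : G → ℂ)} := by
      intro N _
      exact Nat.card_le_card_of_injective _ (infl_injective p N)
    rcases hMtype with hMp | hMp
    · -- p-group: pass to the centre
      have hMnt : Nontrivial M := (Subgroup.nontrivial_iff_ne_bot M).mpr hMne
      have hZnt : Nontrivial (Subgroup.center M) := hMp.center_nontrivial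
      let N : Subgroup G := (Subgroup.center M).map M.subtype
      have hNn : N.Normal := ConjAct.normal_of_characteristic_of_normal
      have hNne : N ≠ ⊥ := by
        intro h
        have h1 : Subgroup.center M = ⊥ := by
          rw [eq_bot_iff]
          intro z hz
          have h2 : (z : G) ∈ N := Subgroup.mem_map_of_mem M.subtype hz
          rw [h, Subgroup.mem_bot] at h2
          rw [Subgroup.mem_bot]
          exact Subtype.ext h2
        exact (Subgroup.nontrivial_iff_ne_bot _).mp hZnt h1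
      have hNM : N ≤ M := Subgroup.map_subtype_le _
      have hNp : IsPGroup p N := hMp.to_le hNM
      have hNab : ∀ x ∈ N, ∀ y ∈ N, x * y = y * x := by
        rintro x ⟨x', hx', rfl⟩ y ⟨y', -, rfl⟩
        have := Subgroup.mem_center_iff.mp hx' y'
        exact (congrArg Subtype.val this).symm
      -- a term of the derived series inside N has trivial commutator
      have hstep : ∀ k : ℕ, (∀ x ∈ derivedSeries ↥(P : Subgroup G) k, ((x : P) : G) ∈ N) →
          derivedSeries ↥(P : Subgroup G) (k + 1) = ⊥ := by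
        intro k hk
        rw [derivedSeries_succ, Subgroup.commutator_eq_bot_iff_le_centralizer]
        intro x hx
        rw [Subgroup.mem_centralizer_iff]
        intro y hy
        exact Subtype.ext (hNab _ (hk y hy) _ (hk x hx))
      have hanti : ∀ k : ℕ, derivedSeries ↥(P : Subgroup G) k = ⊥ →
          k ≤ Nat.card {χ : IrrCharacter G // p ∣ charDegree (χ : G → ℂ)} + 1 →
          derivedSeries ↥(P : Subgroup G)
            (Nat.card {χ : IrrCharacter G // p ∣ charDegree (χ : G → ℂ)} + 1) = ⊥ := by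
        intro k hk hle'
        rw [eq_bot_iff, ← hk]
        exact derivedSeries_antitone (G := ↥(P : Subgroup G)) hle'
      by_cases hcase : ∃ χ : IrrCharacter G, p ∣ charDegree (χ : G → ℂ) ∧
          ∃ x ∈ N, (χ : G → ℂ) x ≠ (χ : G → ℂ) 1
      · obtain ⟨χ0, hχ0p, x, hxN, hx⟩ := hcase
        have hlt : Nat.card {ψ : IrrCharacter (G ⧸ N) // p ∣ charDegree (ψ : G ⧸ N → ℂ)} <
            Nat.card {χ : IrrCharacter G // p ∣ charDegree (χ : G → ℂ)} := by
          have hfin' : Finite (IrrCharacter (G ⧸ N)) := Cfsg.Agent.Lib.Helper20.finite_irrCharacter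
          have := Fintype.ofFinite {ψ : IrrCharacter (G ⧸ N) // p ∣ charDegree (ψ : G ⧸ N → ℂ)}
          have := Fintype.ofFinite {χ : IrrCharacter G // p ∣ charDegree (χ : G → ℂ)}
          rw [Nat.card_eq_fintype_card, Nat.card_eq_fintype_card]
          apply Fintype.card_lt_of_injective_not_surjective _ (infl_injective p N)
          intro hsurj
          obtain ⟨ψ, hψ⟩ := hsurj ⟨χ0, hχ0p⟩
          apply hx
          have h1 : ∀ g : G, (χ0 : G → ℂ) g = (ψ.1 : G ⧸ N → ℂ) (g : G ⧸ N) := by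
            intro g
            exact (congrArg (fun z => (z.1 : G → ℂ) g) hψ).symm
          rw [h1 x, h1 1, (QuotientGroup.eq_one_iff x).mpr hxN]
          rfl
        exact hanti _ (hstep _ (hgen N hNne)) (by omega)
      · push Not at hcase
        have hyp : ∀ χ : IrrCharacter G, (∃ x ∈ N, (χ : G → ℂ) x ≠ (χ : G → ℂ) 1) →
            ¬ p ∣ charDegree (χ : G → ℂ) := by
          rintro χ ⟨x, hxN, hx⟩ hdvd
          exact hx (hcase χ hdvd x hxN)
        have hcm := comm_mem_of_hyp hsol N hNp hNab hNne hyp P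
        by_cases hzero : Nat.card {χ : IrrCharacter G // p ∣ charDegree (χ : G → ℂ)} = 0
        · have hall : ∀ χ : IrrCharacter G, ¬ p ∣ charDegree (χ : G → ℂ) := by
            intro χ hχ
            have : IsEmpty {χ : IrrCharacter G // p ∣ charDegree (χ : G → ℂ)} :=
              (Finite.card_eq_zero_iff).mp hzero
            exact this.elim ⟨χ, hχ⟩
          obtain ⟨-, hc⟩ := (Cfsg.Agent.S4713.result p hsol P).mpr hall
          rw [hzero, zero_add, derivedSeries_one, commutator_def,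
            Subgroup.commutator_eq_bot_iff_le_centralizer]
          intro x _
          rw [Subgroup.mem_centralizer_iff]
          intro y _
          exact hc.is_comm.comm y x
        · have h1 : ∀ x ∈ derivedSeries ↥(P : Subgroup G) 1, ((x : P) : G) ∈ N := by
            have h2 : derivedSeries ↥(P : Subgroup G) 1 ≤ N.subgroupOf P := by
              rw [derivedSeries_one, commutator_def, Subgroup.commutator_le]
              intro a _ b _
              rw [Subgroup.mem_subgroupOf]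
              exact hcm a a.2 b b.2
            intro x hx
            exact Subgroup.mem_subgroupOf.mp (h2 hx)
          exact hanti _ (hstep 1 h1) (by omega)
    · -- p'-group
      have h1 := hgen M hMne
      rw [eq_bot_iff]
      intro x hx
      have h2 := derivedSeries_antitone (G := ↥(P : Subgroup G))
        (Nat.add_le_add_right (hle M) 1) hx
      have h3 := h1 x h2
      rw [Subgroup.mem_bot]
      apply Subtype.ext
      exact Cfsg.Agent.Lib.Helper84.eq_one_of_mem_pgroup_of_coprime P.2 hMp x.2 h3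



/-- Let p be a prime, G a finite p-solvable group and P a Sylow p-subgroup of G. If n is the number of irreducible complex characters of G whose degree is divisible by p, then the (n+1)-st term of the derived series of P is trivial. (The p-solvable case has a direct inductive proof.) -/
theorem result {G : Type*} [Group G] [Finite G] (p : ℕ) [Fact p.Prime] (hG : Cfsg.IsPSolvable p G) (P : Sylow p G) : derivedSeries ↥(P : Subgroup G) (Nat.card {χ : Cfsg.IrrCharacter G // p ∣ Cfsg.charDegree (χ : G → ℂ)} + 1) = ⊥ := by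
  exact aux p _ G rfl hG P

end Cfsg.Agent.S4768
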