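import Cfsg.Statements.S4774
-- import your own Cfsg.Agent.* helpers here
import Cfsg.Agent.Lib.Helper47.PSL2Degrees

set_option autoImplicit false
open Cfsg

namespace Cfsg.Agent.S4774

open Matrix Cfsg.Agent.Lib.Helper47

/-- Let F be a finite field of odd characteristic t with q > 5 elements and let S be isomorphic to PSL(2,F) or to SL(2,F). Then the vertices of the character degree graph of S are the primes dividing q(q²−1); the prime t is adjacent to no vertex; two distinct primes dividing q² − 1 are adjacent exactly when one of them is 2, or both divide q + 1, or both divide q − 1. -/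
theorem result (F : Type*) [Field F] [Fintype F] (t : ℕ) [Fact t.Prime] [CharP F t] (ht : t ≠ 2) (q : ℕ) (hq : Fintype.card F = q) (h5 : 5 < q) {S : Type*} [Group S] [Finite S] (hS : Nonempty (S ≃* Matrix.ProjectiveSpecialLinearGroup (Fin 2) F) ∨ Nonempty (S ≃* Matrix.SpecialLinearGroup (Fin 2) F)) : Cfsg.degreePrimes S = {r : ℕ | r.Prime ∧ r ∣ q * (q ^ 2 - 1)} ∧ ∀ r s : ℕ, (Cfsg.degreeGraph S).Adj r s ↔ (r ≠ s ∧ r.Prime ∧ s.Prime ∧ r ∣ q ^ 2 - 1 ∧ s ∣ q ^ 2 - 1 ∧ (r = 2 ∨ s = 2 ∨ (r ∣ q + 1 ∧ s ∣ q + 1) ∨ (r ∣ q - 1 ∧ s ∣ q - 1))) := by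
  subst hq
  obtain ⟨n, -, hn⟩ := FiniteField.card F t
  have htp : t.Prime := Fact.out
  have hodd : Fintype.card F % 2 = 1 := by
    rw [hn]
    have : Odd t := htp.odd_of_ne_two ht
    exact Nat.odd_iff.1 this.pow
  have hsub : ∀ d ∈ charDegrees S, d = 1 ∨ d = Fintype.card F ∨ d = Fintype.card F + 1 ∨
      d = Fintype.card F - 1 ∨ d = (Fintype.card F + 1) / 2 ∨ d = (Fintype.card F - 1) / 2 := by
    intro d hd
    rcases hS with ⟨⟨e⟩⟩ | ⟨⟨e⟩⟩
    · rw [charDegrees_congr e] at hd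
      exact cd_SL2_odd_subset hodd (cd_PSL2_subset_SL2 hd)
    · rw [charDegrees_congr e] at hd
      exact cd_SL2_odd_subset hodd hd
  have hmem : ∀ d ∈ charDegrees (ProjectiveSpecialLinearGroup (Fin 2) F), d ∈ charDegrees S := by
    intro d hd
    rcases hS with ⟨⟨e⟩⟩ | ⟨⟨e⟩⟩
    · rw [charDegrees_congr e]; exact hd
    · rw [charDegrees_congr e]; exact cd_PSL2_subset_SL2 hd
  have m0 := hmem _ (card_mem_cd_PSL2 (F := F))
  have m1 := hmem _ (card_add_one_mem_cd_PSL2 (F := F) h5)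
  have m2 := hmem _ (card_sub_one_mem_cd_PSL2 (F := F) hodd (by omega))
  generalize Fintype.card F = q at *
  have hsq : q ^ 2 - 1 = (q + 1) * (q - 1) := by
    have := Nat.sq_sub_sq q 1
    simpa using this
  have hd1 : (q + 1) / 2 ∣ q + 1 := Nat.div_dvd_of_dvd (by omega)
  have hd2 : (q - 1) / 2 ∣ q - 1 := Nat.div_dvd_of_dvd (by omega)
  have hp1 : ∀ r, r ∣ q + 1 → r ∣ q ^ 2 - 1 := fun r h => by rw [hsq]; exact Dvd.dvd.mul_right h _
  have hp2 : ∀ r, r ∣ q - 1 → r ∣ q ^ 2 - 1 := fun r h => by rw [hsq]; exact Dvd.dvd.mul_left h _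
  constructor
  · ext r
    simp only [degreePrimes, Set.mem_ofPred_eq]
    constructor
    · rintro ⟨hr, d, hdD, hd⟩
      refine ⟨hr, ?_⟩
      rcases hsub d hdD with rfl | rfl | rfl | rfl | rfl | rfl
      · exact absurd (Nat.dvd_one.1 hd) hr.one_lt.ne'
      · exact Dvd.dvd.mul_right hd _
      · exact Dvd.dvd.mul_left (hp1 _ hd) _
      · exact Dvd.dvd.mul_left (hp2 _ hd) _
      · exact Dvd.dvd.mul_left (hp1 _ (hd.trans hd1)) _
      · exact Dvd.dvd.mul_left (hp2 _ (hd.trans hd2)) _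
    · rintro ⟨hr, hd⟩
      refine ⟨hr, ?_⟩
      rw [hsq] at hd
      rcases (Nat.Prime.dvd_mul hr).1 hd with h | h
      · exact ⟨q, m0, h⟩
      · rcases (Nat.Prime.dvd_mul hr).1 h with h | h
        · exact ⟨q + 1, m1, h⟩
        · exact ⟨q - 1, m2, h⟩
  · intro r s
    show (r ≠ s ∧ r.Prime ∧ s.Prime ∧ ∃ d ∈ charDegrees S, r * s ∣ d) ↔ _
    constructor
    · rintro ⟨hne, hr, hs, d, hdD, hd⟩
      have hrd := (dvd_mul_right r s).trans hd
      have hsd := (dvd_mul_left s r).trans hd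
      refine ⟨hne, hr, hs, ?_⟩
      rcases hsub d hdD with rfl | rfl | rfl | rfl | rfl | rfl
      · exact absurd (Nat.dvd_one.1 hrd) hr.one_lt.ne'
      · exfalso
        rw [hn] at hrd hsd
        have h1 := (Nat.prime_dvd_prime_iff_eq hr htp).1 (hr.dvd_of_dvd_pow hrd)
        have h2 := (Nat.prime_dvd_prime_iff_eq hs htp).1 (hs.dvd_of_dvd_pow hsd)
        exact hne (h1.trans h2.symm)
      · exact ⟨hp1 _ hrd, hp1 _ hsd, Or.inr (Or.inr (Or.inl ⟨hrd, hsd⟩))⟩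
      · exact ⟨hp2 _ hrd, hp2 _ hsd, Or.inr (Or.inr (Or.inr ⟨hrd, hsd⟩))⟩
      · exact ⟨hp1 _ (hrd.trans hd1), hp1 _ (hsd.trans hd1),
          Or.inr (Or.inr (Or.inl ⟨hrd.trans hd1, hsd.trans hd1⟩))⟩
      · exact ⟨hp2 _ (hrd.trans hd2), hp2 _ (hsd.trans hd2),
          Or.inr (Or.inr (Or.inr ⟨hrd.trans hd2, hsd.trans hd2⟩))⟩
    · rintro ⟨hne, hr, hs, hr1, hs1, hcase⟩
      refine ⟨hne, hr, hs, ?_⟩
      have hcop := (Nat.coprime_primes hr hs).2 hne
      have two1 : 2 ∣ q + 1 := by omega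
      have two2 : 2 ∣ q - 1 := by omega
      rcases hcase with rfl | rfl | ⟨h1, h2⟩ | ⟨h1, h2⟩
      · rw [hsq] at hs1
        rcases (Nat.Prime.dvd_mul hs).1 hs1 with h | h
        · exact ⟨q + 1, m1, Nat.Coprime.mul_dvd_of_dvd_of_dvd hcop two1 h⟩
        · exact ⟨q - 1, m2, Nat.Coprime.mul_dvd_of_dvd_of_dvd hcop two2 h⟩
      · rw [hsq] at hr1
        rcases (Nat.Prime.dvd_mul hr).1 hr1 with h | h
        · exact ⟨q + 1, m1, Nat.Coprime.mul_dvd_of_dvd_of_dvd hcop h two1⟩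
        · exact ⟨q - 1, m2, Nat.Coprime.mul_dvd_of_dvd_of_dvd hcop h two2⟩
      · exact ⟨q + 1, m1, Nat.Coprime.mul_dvd_of_dvd_of_dvd hcop h1 h2⟩
      · exact ⟨q - 1, m2, Nat.Coprime.mul_dvd_of_dvd_of_dvd hcop h1 h2⟩

end Cfsg.Agent.S4774
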