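import Cfsg.Statements.S4775
-- import your own Cfsg.Agent.* helpers here
import Cfsg.Agent.Lib.Helper44.SzDeg.TOP
import Cfsg.Agent.Lib.Helper44.SzDeg.GRAPH
import Cfsg.Agent.Lib.Helper44.SzDeg.CONC
import Cfsg.Agent.Lib.Helper8.SzLie
import Cfsg.Agent.Lib.Helper47.PSL2Degrees

set_option autoImplicit false
open Cfsg

namespace Cfsg.Agent.S4775

/-- Let F be a finite field with q = 2^(2m+1) ≥ 8 elements and let S be isomorphic to the Suzuki group over F. Then the vertices of the character degree graph of S are 2 and the primes dividing (q − 1)(q² + 1); the primes dividing (q − 1)(q² + 1) are pairwise adjacent, and 2 is adjacent exactly to the primes dividing q − 1. -/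
theorem result (F : Type*) [Field F] [Fintype F] (m : ℕ) (hm : 1 ≤ m) (q : ℕ) (hq : Fintype.card F = q) (hqm : q = 2 ^ (2 * m + 1)) {S : Type*} [Group S] [Finite S] (hS : Nonempty (S ≃* ↥(Cfsg.Lie.Sz F (2 ^ (m + 1))))) : Cfsg.degreePrimes S = {r : ℕ | r.Prime ∧ (r = 2 ∨ r ∣ (q - 1) * (q ^ 2 + 1))} ∧ ∀ r s : ℕ, (Cfsg.degreeGraph S).Adj r s ↔ (r ≠ s ∧ r.Prime ∧ s.Prime ∧ ((r ∣ (q - 1) * (q ^ 2 + 1) ∧ s ∣ (q - 1) * (q ^ 2 + 1)) ∨ (r = 2 ∧ s ∣ q - 1) ∨ (s = 2 ∧ r ∣ q - 1))) := by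
  classical
  subst hqm
  have hchar : CharP F 2 := Cfsg.Agent.Lib.Helper8.charP_two_of_card hq
  obtain ⟨e⟩ := hS
  obtain ⟨C⟩ := Cfsg.Agent.Lib.Helper44.SzDeg.exists_cfg hq hm
  have hfin : Finite (Cfsg.Sz F m) :=
    Finite.of_equiv S (e.trans (Cfsg.Agent.Lib.Helper8.lieSzEquiv hq hm).symm).toEquiv
  have := Fintype.ofFinite (Cfsg.Sz F m)
  have hcd : Cfsg.charDegrees S = Cfsg.charDegrees (Cfsg.Sz F m) :=
    Cfsg.Agent.Lib.Helper47.charDegrees_congr (e.trans (Cfsg.Agent.Lib.Helper8.lieSzEquiv hq hm).symm)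
  obtain ⟨D, hD, hall, ⟨χ1, h1⟩, ⟨χ2, h2⟩, ⟨χ3, h3⟩, ⟨χ4, h4⟩, ⟨χ5, h5⟩⟩ :=
    Cfsg.Agent.Lib.Helper44.SzDeg.degrees_int C
  have hone : (1 : ℕ) ≤ 2 ^ (2 * m + 1) := Nat.one_le_two_pow
  have hle : 2 ^ (m + 1) ≤ 2 ^ (2 * m + 1) := Nat.pow_le_pow_right (by norm_num) (by omega)
  have hdeg : ∀ (χ : IrrCharacter (Cfsg.Sz F m)) (d : ℕ), D χ = (d : ℤ) → charDegree (χ : Cfsg.Sz F m → ℂ) = d := by
    intro χ d h
    apply Cfsg.Agent.Lib.Helper44.SzDeg.charDegree_eq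
    rw [← hD χ, h]
    simp
  have c2 : ((2 : ℤ) ^ (2 * m + 1)) ^ 2 = (((2 ^ (2 * m + 1)) ^ 2 : ℕ) : ℤ) := by push_cast; ring
  have c3 : ((2 : ℤ) ^ (2 * m + 1)) ^ 2 + 1 = (((2 ^ (2 * m + 1)) ^ 2 + 1 : ℕ) : ℤ) := by push_cast; ring
  have c4 : 2 ^ m * ((2 : ℤ) ^ (2 * m + 1) - 1) = ((2 ^ m * (2 ^ (2 * m + 1) - 1) : ℕ) : ℤ) := by
    push_cast [Nat.cast_sub hone]; ring
  have c5 : ((2 : ℤ) ^ (2 * m + 1) - 1) * ((2 : ℤ) ^ (2 * m + 1) + 2 * 2 ^ m + 1) =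
      (((2 ^ (2 * m + 1) - 1) * (2 ^ (2 * m + 1) + 2 ^ (m + 1) + 1) : ℕ) : ℤ) := by
    push_cast [Nat.cast_sub hone]; ring
  have c6 : ((2 : ℤ) ^ (2 * m + 1) - 1) * ((2 : ℤ) ^ (2 * m + 1) - 2 * 2 ^ m + 1) =
      (((2 ^ (2 * m + 1) - 1) * (2 ^ (2 * m + 1) - 2 ^ (m + 1) + 1) : ℕ) : ℤ) := by
    push_cast [Nat.cast_sub hone, Nat.cast_sub hle]; ring
  apply Cfsg.Agent.Lib.Helper44.SzDeg.graph_of_degrees m (2 ^ (2 * m + 1)) hm rfl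
  · intro d hd
    rw [hcd] at hd
    obtain ⟨χ, rfl⟩ := hd
    rcases hall χ with h | h | h | h | h | h
    · left; exact hdeg χ 1 (by rw [h]; simp)
    · right; left; exact hdeg χ _ (h.trans c2)
    · right; right; left; exact hdeg χ _ (h.trans c3)
    · right; right; right; left; exact hdeg χ _ (h.trans c4)
    · right; right; right; right; left; exact hdeg χ _ (h.trans c5)
    · right; right; right; right; right; exact hdeg χ _ (h.trans c6)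
  · rw [hcd]; exact ⟨χ1, hdeg χ1 _ (h1.trans c2)⟩
  · rw [hcd]; exact ⟨χ2, hdeg χ2 _ (h2.trans c3)⟩
  · rw [hcd]; exact ⟨χ3, hdeg χ3 _ (h3.trans c4)⟩
  · rw [hcd]; exact ⟨χ4, hdeg χ4 _ (h4.trans c5)⟩
  · rw [hcd]; exact ⟨χ5, hdeg χ5 _ (h5.trans c6)⟩

end Cfsg.Agent.S4775
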