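import Cfsg.Statements.S4784
import Cfsg.Agent.Lib.Helper82.Constituent
import Cfsg.Agent.Lib.Helper82.CharKer
import Cfsg.Agent.Lib.Helper78.FrobSchur2

set_option autoImplicit false
open Cfsg

namespace Cfsg.Agent.S4784

open Cfsg.Agent.Lib.Helper82 Cfsg.Agent.Lib.Helper20 Cfsg.Agent.Lib.Helper78
open scoped ComplexConjugate

section aux

theorem eq_of_re_eq_of_norm_le {z : ℂ} {a : ℝ} (h1 : ‖z‖ ≤ a) (h2 : z.re = a) : z = a := by
  have h3 : ‖z‖ ^ 2 = z.re ^ 2 + z.im ^ 2 := by
    rw [Complex.sq_norm, Complex.normSq_apply]; ring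
  have h4 : ‖z‖ ^ 2 ≤ a ^ 2 := by
    have := norm_nonneg z
    nlinarith
  have h5 : z.im = 0 := by
    rw [h2] at h3
    have : z.im ^ 2 ≤ 0 := by linarith
    have h6 : z.im ^ 2 = 0 := le_antisymm this (sq_nonneg _)
    exact pow_eq_zero_iff (two_ne_zero) |>.1 h6
  apply Complex.ext
  · simpa using h2
  · simpa using h5

variable {G : Type*} [Group G] [Fintype G]

/-- in a group of odd order a real-valued irreducible character is principal -/
theorem real_irr_of_odd (hodd : Odd (Nat.card G)) {ψ : G → ℂ} (hψ : IsIrrCharacter G ψ)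
    (hreal : ∀ g, (ψ g).im = 0) : ψ = fun _ => 1 := by
  classical
  by_contra hne
  have hcop : Nat.Coprime (Nat.card G) 2 := Nat.coprime_two_right.2 hodd
  have hth : (fsTheta : G → ℂ) = fun _ => 1 := by
    funext g
    unfold fsTheta
    have : ∀ h : G, (h * h = g) ↔ (h = (powCoprime hcop).symm g) := by
      intro h
      rw [Equiv.eq_symm_apply, powCoprime_apply, pow_two]
    simp only [this]
    rw [Finset.sum_ite_eq']
    simp
  have h1 := classInner_fsTheta hψ
  rw [hth, classInner_irr_ne Cfsg.Agent.Lib.Helper83.isIrr_trivial hψ (Ne.symm hne)] at h1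
  obtain ⟨s, hs⟩ := ((fsNu_irr hψ).2).1 h1.symm
  exact hs (hreal s)

/-- number of cosets-representatives fixing -/
noncomputable def cnt (H : Subgroup G) (g : G) : ℕ := by
  classical
  exact (Finset.univ.filter fun x : G => x⁻¹ * g * x ∈ H).card

theorem ind_eq_cnt (H : Subgroup G) (g : G) :
    indFun H (fun _ : H => (1 : ℂ)) g = (Nat.card H : ℂ)⁻¹ * (cnt H g : ℂ) := by
  classical
  rw [Cfsg.Agent.Lib.Helper19.indFun_one_apply]
  rfl

theorem cnt_le_sq (H : Subgroup G) (g : G) : cnt H g ≤ cnt H (g * g) := by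
  classical
  unfold cnt
  apply Finset.card_le_card
  intro x hx
  rw [Finset.mem_filter] at hx ⊢
  refine ⟨hx.1, ?_⟩
  have : x⁻¹ * (g * g) * x = (x⁻¹ * g * x) * (x⁻¹ * g * x) := by group
  rw [this]
  exact H.mul_mem hx.2 hx.2

theorem cnt_of_mem_core (H : Subgroup G) {g : G} (hg : g ∈ H.normalCore) :
    cnt H g = Nat.card G := by
  classical
  unfold cnt
  rw [Finset.filter_true_of_mem, Finset.card_univ, Nat.card_eq_fintype_card]
  intro x _
  have := hg x⁻¹
  rwa [inv_inv] at this

theorem cnt_lt_of_not_mem_core (H : Subgroup G) {g : G} (hg : g ∉ H.normalCore) :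
    cnt H g < Nat.card G := by
  classical
  unfold cnt
  rw [Nat.card_eq_fintype_card, ← Finset.card_univ]
  apply Finset.card_lt_card
  rw [Finset.ssubset_iff_of_subset (Finset.filter_subset _ _)]
  have : ∃ b : G, b * g * b⁻¹ ∉ H := by
    by_contra hcon
    push Not at hcon
    exact hg hcon
  obtain ⟨b, hb⟩ := this
  refine ⟨b⁻¹, Finset.mem_univ _, ?_⟩
  rw [Finset.mem_filter]
  rintro ⟨-, h⟩
  rw [inv_inv] at h
  exact hb h

theorem inner_ind_triv (H : Subgroup G) :
    classInner (indFun H (fun _ : H => (1 : ℂ))) (fun _ => 1) = 1 := by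
  classical
  have := Fintype.ofFinite H
  rw [Cfsg.Agent.Lib.Helper19.frobenius_reciprocity H _ _
    (isChar_isClassFunction (isCharacter_one))]
  exact classInner_irr_self (Cfsg.Agent.Lib.Helper83.isIrr_trivial (G := H))

theorem sum_cnt (H : Subgroup G) : ∑ g : G, cnt H g = Nat.card G * Nat.card H := by
  have h := inner_ind_triv H
  unfold classInner at h
  simp only [ind_eq_cnt, map_one, mul_one] at h
  rw [← Finset.mul_sum] at h
  have hG : (Nat.card G : ℂ) ≠ 0 := by exact_mod_cast Nat.card_pos.ne'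
  have hH : (Nat.card H : ℂ) ≠ 0 := by exact_mod_cast Nat.card_pos.ne'
  field_simp at h
  exact_mod_cast h

/-- constituents of the permutation character contain the core in their kernel -/
theorem core_le_ker (H : Subgroup G) {χ : G → ℂ} (hχ : IsIrrCharacter G χ)
    (h : classInner (indFun H (fun _ : H => (1 : ℂ))) χ ≠ 0) {x : G} (hx : x ∈ H.normalCore) :
    χ x = χ 1 := by
  have hπ : IsCharacter G (indFun H (fun _ : H => (1 : ℂ))) :=
    Cfsg.Agent.Lib.Helper19.isCharacter_indFun H _ isCharacter_one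
  obtain ⟨φ, hφ, hsum⟩ := exists_add_of_inner_ne_zero hπ hχ h
  have h1 : indFun H (fun _ : H => (1 : ℂ)) x = indFun H (fun _ : H => (1 : ℂ)) 1 := by
    rw [ind_eq_cnt, ind_eq_cnt, cnt_of_mem_core H hx, cnt_of_mem_core H (Subgroup.one_mem _)]
  rw [hsum, Pi.add_apply, Pi.add_apply] at h1
  have n1 := isCharacter_norm_le (isIrr_isChar hχ) x
  have n2 := isCharacter_norm_le hφ x
  have r1 := Complex.re_le_norm (χ x)
  have r2 := Complex.re_le_norm (φ x)
  have h2 := congrArg Complex.re h1
  rw [Complex.add_re, Complex.add_re] at h2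
  have h3 : (χ x).re = (χ 1).re := by linarith
  have h4 := eq_of_re_eq_of_norm_le n1 h3
  rw [h4, isChar_one_eq (isIrr_isChar hχ)]
  simp

theorem fsNu_ind (H : Subgroup G) :
    fsNu (indFun H (fun _ : H => (1 : ℂ))) =
      ((∑ s : G, cnt H (s * s) : ℕ) : ℂ) / ((Nat.card G * Nat.card H : ℕ) : ℂ) := by
  unfold fsNu
  simp only [ind_eq_cnt]
  rw [← Finset.mul_sum]
  push_cast
  have hG : (Nat.card G : ℂ) ≠ 0 := by exact_mod_cast Nat.card_pos.ne'
  have hH : (Nat.card H : ℂ) ≠ 0 := by exact_mod_cast Nat.card_pos.ne'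
  field_simp

theorem fsNu_expand [Fintype (IrrCharacter G)] {φ : G → ℂ} (hφ : IsClassFunction G φ) :
    fsNu φ = ∑ χ : IrrCharacter G, classInner φ (χ : G → ℂ) * fsNu (χ : G → ℂ) := by
  have h := eq_sum_classInner_smul hφ
  unfold fsNu
  conv_lhs => rw [h]
  simp only [Finset.sum_apply, Pi.smul_apply, smul_eq_mul]
  rw [Finset.sum_comm, Finset.mul_sum]
  apply Finset.sum_congr rfl
  intro χ _
  rw [← Finset.mul_sum]
  ring

end aux

/-- Let H be a subgroup of the finite group G and consider the permutation character of G on the cosets of H (the function induced from the principal character of H). Then exactly one irreducible constituent of it is real-valued with Frobenius–Schur indicator +1 (namely the principal character) if and only if the normal core of H has odd index in G. -/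
theorem result {G : Type*} [Group G] [Fintype G] (H : Subgroup G) : Nat.card {χ : Cfsg.IrrCharacter G // Cfsg.classInner (Cfsg.indFun H (fun _ : H => (1 : ℂ))) (χ : G → ℂ) ≠ 0 ∧ (∀ g : G, (starRingEnd ℂ) ((χ : G → ℂ) g) = (χ : G → ℂ) g) ∧ (Nat.card G : ℂ)⁻¹ * ∑ g : G, (χ : G → ℂ) (g * g) = 1} = 1 ↔ Odd H.normalCore.index := by
  classical
  have := Fintype.ofFinite (IrrCharacter G)
  set π : G → ℂ := Cfsg.indFun H (fun _ : H => (1 : ℂ)) with hπdef
  have hπ : IsCharacter G π := Cfsg.Agent.Lib.Helper19.isCharacter_indFun H _ isCharacter_one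
  have htriv : Cfsg.classInner π (trivIrr G : G → ℂ) ≠ 0 ∧
      (∀ g : G, (starRingEnd ℂ) ((trivIrr G : G → ℂ) g) = (trivIrr G : G → ℂ) g) ∧
      (Nat.card G : ℂ)⁻¹ * ∑ g : G, (trivIrr G : G → ℂ) (g * g) = 1 := by
    refine ⟨?_, ?_, ?_⟩
    · have := inner_ind_triv H
      show classInner π (fun _ => 1) ≠ 0
      rw [this]; exact one_ne_zero
    · intro g; simp
    · simp only [trivIrr_apply, Finset.sum_const, Finset.card_univ, nsmul_eq_mul, mul_one,
        ← Nat.card_eq_fintype_card]
      have hG : (Nat.card G : ℂ) ≠ 0 := by exact_mod_cast Nat.card_pos.ne'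
      exact inv_mul_cancel₀ hG
  constructor
  · intro hcard
    rw [Nat.card_eq_one_iff_unique] at hcard
    obtain ⟨hsub, -⟩ := hcard
    by_contra hodd
    rw [Nat.not_odd_iff_even] at hodd
    have : Fact (Nat.Prime 2) := ⟨Nat.prime_two⟩
    obtain ⟨tb, htb⟩ := exists_prime_orderOf_dvd_card' (G := G ⧸ H.normalCore) 2
      (by rw [← Subgroup.index_eq_card]; exact hodd.two_dvd)
    obtain ⟨t, rfl⟩ := QuotientGroup.mk_surjective tb
    have ht1 : t ∉ H.normalCore := by
      intro h
      rw [(QuotientGroup.eq_one_iff t).2 h, orderOf_one] at htb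
      norm_num at htb
    have ht2 : t * t ∈ H.normalCore := by
      rw [← QuotientGroup.eq_one_iff, QuotientGroup.mk_mul, ← pow_two, ← htb]
      exact pow_orderOf_eq_one _
    -- lower bound
    have hlt : ∑ g : G, cnt H g < ∑ g : G, cnt H (g * g) := by
      apply Finset.sum_lt_sum (fun g _ => cnt_le_sq H g)
      exact ⟨t, Finset.mem_univ _, by
        rw [cnt_of_mem_core H ht2]; exact cnt_lt_of_not_mem_core H ht1⟩
    rw [sum_cnt] at hlt
    have hlow : 1 < (fsNu π).re := by
      rw [hπdef, fsNu_ind]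
      have hpos : (0 : ℝ) < ((Nat.card G * Nat.card H : ℕ) : ℝ) := by
        have h1 : 0 < Nat.card G := Nat.card_pos
        have h2 : 0 < Nat.card H := Nat.card_pos
        exact_mod_cast Nat.mul_pos h1 h2
      have : (((∑ s : G, cnt H (s * s) : ℕ) : ℂ) / ((Nat.card G * Nat.card H : ℕ) : ℂ)) =
          (((((∑ s : G, cnt H (s * s) : ℕ) : ℝ) / ((Nat.card G * Nat.card H : ℕ) : ℝ)) : ℝ) : ℂ) := by
        push_cast; rfl
      rw [this, Complex.ofReal_re, lt_div_iff₀ hpos, one_mul]
      exact_mod_cast hlt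
    -- upper bound
    have hup : (fsNu π).re ≤ 1 := by
      rw [fsNu_expand (isChar_isClassFunction hπ), Complex.re_sum,
        ← Finset.add_sum_erase _ _ (Finset.mem_univ (trivIrr G))]
      have e1 : (classInner π (trivIrr G : G → ℂ) * fsNu (trivIrr G : G → ℂ)).re = 1 := by
        have h1 : classInner π (trivIrr G : G → ℂ) = 1 := inner_ind_triv H
        have h2 : fsNu (trivIrr G : G → ℂ) = 1 := htriv.2.2
        rw [h1, h2]; simp
      have e2 : ∑ χ ∈ Finset.univ.erase (trivIrr G),
          (classInner π (χ : G → ℂ) * fsNu (χ : G → ℂ)).re ≤ 0 := by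
        apply Finset.sum_nonpos
        intro χ hχ
        have hne : χ ≠ trivIrr G := Finset.ne_of_mem_erase hχ
        obtain ⟨m, hm⟩ := isCharacter_classInner_nat hπ χ.2
        rcases (fsNu_irr χ.2).1 with h0 | h0 | h0
        · rw [h0]; simp
        · have hm0 : classInner π (χ : G → ℂ) = 0 := by
            by_contra hmne
            apply hne
            have hreal : ∀ g : G, (starRingEnd ℂ) ((χ : G → ℂ) g) = (χ : G → ℂ) g := by
              intro g
              rw [Complex.conj_eq_iff_im]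
              by_contra him
              have := ((fsNu_irr χ.2).2).2 ⟨g, him⟩
              rw [h0] at this
              exact one_ne_zero this
            have := hsub.elim (⟨χ, hmne, hreal, h0⟩ : {χ : Cfsg.IrrCharacter G //
              Cfsg.classInner π (χ : G → ℂ) ≠ 0 ∧
              (∀ g : G, (starRingEnd ℂ) ((χ : G → ℂ) g) = (χ : G → ℂ) g) ∧
              (Nat.card G : ℂ)⁻¹ * ∑ g : G, (χ : G → ℂ) (g * g) = 1}) ⟨trivIrr G, htriv⟩
            exact congrArg Subtype.val this
          rw [hm0]; simp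
        · rw [h0, hm]
          simp
      linarith
    linarith
  · intro hodd
    rw [Nat.card_eq_one_iff_unique]
    refine ⟨⟨?_⟩, ⟨⟨trivIrr G, htriv⟩⟩⟩
    have key : ∀ a : {χ : Cfsg.IrrCharacter G // Cfsg.classInner π (χ : G → ℂ) ≠ 0 ∧
        (∀ g : G, (starRingEnd ℂ) ((χ : G → ℂ) g) = (χ : G → ℂ) g) ∧
        (Nat.card G : ℂ)⁻¹ * ∑ g : G, (χ : G → ℂ) (g * g) = 1},
        ((a : IrrCharacter G) : G → ℂ) = fun _ => 1 := by
      rintro ⟨χ, hm, hreal, -⟩
      have hker : ∀ x ∈ H.normalCore, (χ : G → ℂ) x = (χ : G → ℂ) 1 :=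
        fun x hx => core_le_ker H χ.2 hm hx
      obtain ⟨ψ, hψ, hψχ⟩ := isIrr_deflate χ.2 H.normalCore hker
      have := Fintype.ofFinite (G ⧸ H.normalCore)
      have h1 : ψ = fun _ => 1 := by
        apply real_irr_of_odd (by rw [← Subgroup.index_eq_card]; exact hodd) hψ
        intro q
        obtain ⟨g, rfl⟩ := QuotientGroup.mk_surjective q
        rw [hψχ g, ← Complex.conj_eq_iff_im]
        exact hreal g
      funext g
      show (χ : G → ℂ) g = 1
      rw [← hψχ g, h1]
    intro a b
    apply Subtype.ext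
    apply Subtype.ext
    rw [key a, key b]

end Cfsg.Agent.S4784
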