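import Cfsg.Statements.S4796
import Cfsg.Agent.Lib.Helper82.Constituent
import Cfsg.Agent.Lib.Helper82.Codegree
import Cfsg.Agent.Lib.Helper82.LinCount
import Cfsg.Agent.Lib.Helper82.Frob
import Cfsg.Agent.S0193
import Cfsg.Agent.S0039

set_option autoImplicit false
open Cfsg

namespace Cfsg.Agent.S4796

open Cfsg.Agent.Lib.Helper82 Cfsg.Agent.Lib.Helper20

section aux

variable {G : Type*} [Group G] [Finite G]

/-- the degree is smaller than `p` -/
theorem degree_lt (χ : Cfsg.IrrCharacter G) (p : ℕ) (hp : p.Prime)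
    (hcod : Nat.card G = p * Cfsg.charDegree (χ : G → ℂ)) : Cfsg.charDegree (χ : G → ℂ) < p := by
  classical
  have := Fintype.ofFinite (IrrCharacter G)
  by_cases h1 : χ = trivIrr G
  · rw [h1]
    have : charDegree (trivIrr G : G → ℂ) = 1 := by simp [charDegree]
    rw [this]
    exact hp.one_lt
  · have hsum := sum_sq_charDegree (G := G)
    have hle : ∑ ψ ∈ ({trivIrr G, χ} : Finset (IrrCharacter G)), charDegree (ψ : G → ℂ) ^ 2 ≤
        ∑ ψ : IrrCharacter G, charDegree (ψ : G → ℂ) ^ 2 :=
      Finset.sum_le_sum_of_subset (Finset.subset_univ _)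
    rw [Finset.sum_pair (Ne.symm h1), hsum, hcod] at hle
    have h2 : charDegree (trivIrr G : G → ℂ) = 1 := by simp [charDegree]
    rw [h2] at hle
    by_contra hcon
    push Not at hcon
    nlinarith

/-- the Sylow `p`-subgroup is normal of order `p` and index the degree -/
theorem sylow_facts (χ : Cfsg.IrrCharacter G) (p : ℕ) [hp : Fact p.Prime]
    (hcod : Nat.card G = p * Cfsg.charDegree (χ : G → ℂ)) (P : Sylow p G) :
    Nat.card (P : Subgroup G) = p ∧ (P : Subgroup G).index = Cfsg.charDegree (χ : G → ℂ) ∧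
      (P : Subgroup G).Normal := by
  have hlt := degree_lt χ p hp.out hcod
  have hpos := isIrr_charDegree_pos χ.2
  have hnd : ¬ p ∣ charDegree (χ : G → ℂ) := fun h => absurd (Nat.le_of_dvd hpos h) (not_le.2 hlt)
  have hcard : Nat.card (P : Subgroup G) = p := by
    rw [Sylow.card_eq_multiplicity, hcod, Nat.factorization_mul hp.out.ne_zero hpos.ne']
    simp [hp.out.factorization_self, Nat.factorization_eq_zero_of_not_dvd hnd]
  have hidx : (P : Subgroup G).index = charDegree (χ : G → ℂ) := by
    have := Subgroup.card_mul_index (P : Subgroup G)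
    rw [hcard, hcod] at this
    exact Nat.eq_of_mul_eq_mul_left hp.out.pos this
  refine ⟨hcard, hidx, ?_⟩
  have h1 : Nat.card (Sylow p G) ∣ charDegree (χ : G → ℂ) := hidx ▸ P.card_dvd_index
  have h2 : Nat.card (Sylow p G) < p := lt_of_le_of_lt (Nat.le_of_dvd hpos h1) hlt
  have h3 := card_sylow_modEq_one p G
  have h4 : Nat.card (Sylow p G) = 1 := by
    have := Nat.ModEq.eq_of_lt_of_lt h3 h2 hp.out.one_lt
    exact this
  have : Subsingleton (Sylow p G) := (Nat.card_eq_one_iff_unique.1 h4).1
  exact Sylow.normal_of_subsingleton P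

/-- the normal Sylow subgroup is self-centralizing -/
theorem centralizer_eq (χ : Cfsg.IrrCharacter G) (p : ℕ) [hp : Fact p.Prime]
    (hcod : Nat.card G = p * Cfsg.charDegree (χ : G → ℂ)) (P : Sylow p G) :
    Subgroup.centralizer ((P : Subgroup G) : Set G) = (P : Subgroup G) := by
  classical
  have := Fintype.ofFinite G
  have := Fintype.ofFinite ↥(P : Subgroup G)
  obtain ⟨hcard, hidx, hnormal⟩ := sylow_facts χ p hcod P
  have hcyc : IsCyclic ↥(P : Subgroup G) := isCyclic_of_prime_card hcard
  have hcomm : ∀ a b : ↥(P : Subgroup G), a * b = b * a := by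
    intro a b
    exact (IsCyclic.commGroup (α := ↥(P : Subgroup G))).mul_comm a b
  have hres : IsCharacter ↥(P : Subgroup G) (fun x : ↥(P : Subgroup G) => (χ : G → ℂ) x) :=
    isCharacter_restrict (isIrr_isChar χ.2) _
  obtain ⟨lam, hlam⟩ := exists_irr_constituent hres (isIrr_one_ne_zero χ.2)
  have hl1 : (lam : ↥(P : Subgroup G) → ℂ) 1 = 1 := isIrr_one_eq_one_of_comm hcomm lam.2
  have hld : charDegree (lam : ↥(P : Subgroup G) → ℂ) = 1 := by
    have := isChar_one_eq (isIrr_isChar lam.2)
    rw [hl1] at this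
    exact_mod_cast this.symm
  have hind : indFun (P : Subgroup G) (lam : ↥(P : Subgroup G) → ℂ) = (χ : G → ℂ) := by
    apply eq_of_constituent_of_degree_le
      (Cfsg.Agent.Lib.Helper19.isCharacter_indFun _ _ (isIrr_isChar lam.2)) χ.2
    · exact inner_indFun_ne_zero _ (isIrr_isChar χ.2) hlam
    · rw [charDegree_indFun _ (isIrr_isChar lam.2), hld, hidx, mul_one]
  have h193 := Cfsg.Agent.S0193.result (P : Subgroup G) (hN := hnormal)
    (lam : ↥(P : Subgroup G) → ℂ) lam.2
  rw [hind, classInner_irr_self χ.2, mul_one, hcard] at h193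
  have hstab : Nat.card {g : G // ∀ h : ↥(P : Subgroup G),
      (lam : ↥(P : Subgroup G) → ℂ) ⟨g * h * g⁻¹, hnormal.conj_mem h h.2 g⟩ =
        (lam : ↥(P : Subgroup G) → ℂ) h} = p := by
    exact_mod_cast h193.symm
  have hle : (P : Subgroup G) ≤ Subgroup.centralizer ((P : Subgroup G) : Set G) := by
    intro x hx
    rw [Subgroup.mem_centralizer_iff]
    intro y hy
    exact congrArg Subtype.val (hcomm ⟨y, hy⟩ ⟨x, hx⟩)
  symm
  apply Subgroup.eq_of_le_of_card_ge hle
  rw [hcard]
  refine le_trans ?_ hstab.le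
  apply Nat.card_le_card_of_injective
    (fun g : Subgroup.centralizer ((P : Subgroup G) : Set G) =>
      (⟨g.1, fun h => by
        have h0 : (⟨(g : G) * h * (g : G)⁻¹, hnormal.conj_mem h h.2 g⟩ : ↥(P : Subgroup G)) = h := by
          apply Subtype.ext
          have := (Subgroup.mem_centralizer_iff.1 g.2) h h.2
          show (g : G) * h * (g : G)⁻¹ = h
          rw [← this, mul_assoc, mul_inv_cancel, mul_one]
        rw [h0]⟩ :
        {g : G // ∀ h : ↥(P : Subgroup G),
          (lam : ↥(P : Subgroup G) → ℂ) ⟨g * h * g⁻¹, hnormal.conj_mem h h.2 g⟩ =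
          (lam : ↥(P : Subgroup G) → ℂ) h}))
  intro a b hab
  apply Subtype.ext
  have := congrArg (fun z : {g : G // ∀ h : ↥(P : Subgroup G),
          (lam : ↥(P : Subgroup G) → ℂ) ⟨g * h * g⁻¹, hnormal.conj_mem h h.2 g⟩ =
          (lam : ↥(P : Subgroup G) → ℂ) h} => (z : G)) hab
  exact this

end aux

/-- Let G be a finite group with a faithful irreducible complex character χ whose codegree #G / χ(1) is a prime p (for a faithful character the kernel is trivial, so the codegree is #G / χ(1)). Then either G is cyclic of order p, or G is a Frobenius group whose Frobenius kernel has order p: some proper non-trivial subgroup H satisfies H ∩ gHg⁻¹ = 1 for every element g outside H, and the set of elements lying in no conjugate of H, together with the identity, has exactly p elements. -/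
theorem result {G : Type*} [Group G] [Finite G] (χ : Cfsg.IrrCharacter G) (hfaith : ∀ g : G, (χ : G → ℂ) g = (χ : G → ℂ) 1 → g = 1) (p : ℕ) (hp : p.Prime) (hcod : Nat.card G = p * Cfsg.charDegree (χ : G → ℂ)) : (IsCyclic G ∧ Nat.card G = p) ∨ ∃ H : Subgroup G, Cfsg.IsFrobeniusComplement H ∧ Nat.card ↥(Cfsg.frobeniusKernel H) = p := by
  classical
  have : Fact p.Prime := ⟨hp⟩
  obtain ⟨P⟩ : Nonempty (Sylow p G) := inferInstance
  obtain ⟨hcard, hidx, hnormal⟩ := sylow_facts χ p hcod P
  have hcent := centralizer_eq χ p hcod P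
  by_cases hd : Cfsg.charDegree (χ : G → ℂ) = 1
  · left
    rw [hd, mul_one] at hcod
    exact ⟨isCyclic_of_prime_card hcod, hcod⟩
  · right
    have hlt := degree_lt χ p hp hcod
    have hpos := isIrr_charDegree_pos χ.2
    have hcop : Nat.Coprime (Nat.card (P : Subgroup G)) (P : Subgroup G).index := by
      rw [hcard, hidx, Nat.Prime.coprime_iff_not_dvd hp]
      exact fun h => absurd (Nat.le_of_dvd hpos h) (not_le.2 hlt)
    obtain ⟨H, hH⟩ := Subgroup.exists_right_complement'_of_coprime hcop
    have hHcard : Nat.card H = Cfsg.charDegree (χ : G → ℂ) := by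
      have := hH.card_mul_card
      rw [hcard, hcod] at this
      exact Nat.eq_of_mul_eq_mul_left hp.pos this
    have hHbot : H ≠ ⊥ := by
      intro h
      rw [h, Subgroup.card_bot] at hHcard
      exact hd hHcard.symm
    have hPbot : (P : Subgroup G) ≠ ⊥ := by
      intro h
      rw [h, Subgroup.card_bot] at hcard
      exact hp.one_lt.ne hcard
    have hfpf : ∀ h ∈ H, h ≠ 1 → ∀ k ∈ (P : Subgroup G), h * k = k * h → k = 1 := by
      intro h hh hh1 k hk hcomm
      by_contra hk1
      apply hh1
      have hz : Subgroup.zpowers k = (P : Subgroup G) := by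
        apply Subgroup.eq_of_le_of_card_ge (by rwa [Subgroup.zpowers_le])
        rw [hcard, Nat.card_zpowers]
        have h1 : orderOf k ∣ p := by
          rw [← hcard]
          have := orderOf_dvd_natCard (⟨k, hk⟩ : ↥(P : Subgroup G))
          rwa [← Subgroup.orderOf_coe] at this
        rcases (Nat.dvd_prime hp).1 h1 with h2 | h2
        · exact absurd (orderOf_eq_one_iff.1 h2) hk1
        · exact h2.ge
      have hhc : h ∈ Subgroup.centralizer ((P : Subgroup G) : Set G) := by
        rw [← hz, Subgroup.mem_centralizer_iff]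
        intro y hy
        obtain ⟨n, rfl⟩ := Subgroup.mem_zpowers_iff.1 hy
        exact ((Commute.zpow_right (show Commute h k from hcomm) n).eq).symm
      rw [hcent] at hhc
      have : h ∈ (P : Subgroup G) ⊓ H := ⟨hhc, hh⟩
      rwa [hH.disjoint.eq_bot, Subgroup.mem_bot] at this
    refine ⟨H, ?_, ?_⟩
    · rw [Cfsg.Agent.S0039.result (P : Subgroup G) H hH hPbot hHbot]
      intro h hh hh1
      rw [eq_bot_iff]
      rintro k ⟨hkP, hkc⟩
      rw [Subgroup.mem_bot]
      apply hfpf h hh hh1 k hkP
      exact (Subgroup.mem_centralizer_singleton_iff.1 hkc).symm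
    · rw [frobeniusKernel_eq (P : Subgroup G) H hH hfpf]
      exact hcard

end Cfsg.Agent.S4796
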