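import Cfsg.Statements.S4797
import Cfsg.Agent.S4796

set_option autoImplicit false
open Cfsg

namespace Cfsg.Agent.S4797

open Cfsg.Agent.Lib.Helper82 Cfsg.Agent.Lib.Helper20
open scoped commutatorElement

section aux

variable {G : Type*} [Group G] [Finite G]

omit [Finite G] in
/-- the commutator subgroup centralizes every cyclic normal subgroup -/
theorem commutator_le_centralizer_of_cyclic (N : Subgroup G) [N.Normal] (hN : IsCyclic N) :
    commutator G ≤ Subgroup.centralizer (N : Set G) := by
  let _ := (hN.mulAutMulEquiv _).toMonoidHom.commGroupOfInjective (hN.mulAutMulEquiv _).injective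
  have h := Abelianization.commutator_subset_ker (MulAut.conjNormal : G →* MulAut N)
  intro g hg
  have h1 : (MulAut.conjNormal g : MulAut N) = 1 := h hg
  rw [Subgroup.mem_centralizer_iff]
  intro y hy
  have h2 := congrArg (fun f : MulAut N => ((f ⟨y, hy⟩ : N) : G)) h1
  simp only [MulAut.conjNormal_apply, MulAut.one_apply] at h2
  calc y * g = (g * y * g⁻¹) * g := by rw [h2]
    _ = g * y := by group

/-- a group with an irreducible character `ψ` such that `|G| = p ψ(1)` is not perfect -/
theorem not_perfect_of_card_eq (ψ : Cfsg.IrrCharacter G) (p : ℕ) (hp : p.Prime)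
    (hcod : Nat.card G = p * Cfsg.charDegree (ψ : G → ℂ)) : commutator G ≠ ⊤ := by
  intro hG
  have : Fact p.Prime := ⟨hp⟩
  obtain ⟨P⟩ : Nonempty (Sylow p G) := inferInstance
  obtain ⟨hcard, hidx, hnormal⟩ := Cfsg.Agent.S4796.sylow_facts ψ p hcod P
  have hcent := Cfsg.Agent.S4796.centralizer_eq ψ p hcod P
  have hcyc : IsCyclic ↥(P : Subgroup G) := isCyclic_of_prime_card hcard
  have h1 := commutator_le_centralizer_of_cyclic (P : Subgroup G) hcyc
  rw [hG, hcent, top_le_iff] at h1
  -- so G = P is cyclic, hence commutative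
  have hcomm : ∀ a b : G, a * b = b * a := by
    intro a b
    have ha : a ∈ (P : Subgroup G) := by rw [h1]; trivial
    have hb : b ∈ (P : Subgroup G) := by rw [h1]; trivial
    exact congrArg Subtype.val
      ((IsCyclic.commGroup (α := ↥(P : Subgroup G))).mul_comm ⟨a, ha⟩ ⟨b, hb⟩)
  have hbot : commutator G = ⊥ := by
    rw [commutator_eq_closure, Subgroup.closure_eq_bot_iff]
    rintro _ ⟨a, b, rfl⟩
    rw [Set.mem_singleton_iff, commutatorElement_eq_one_iff_mul_comm]
    exact hcomm a b
  rw [hbot] at hG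
  have h2 : Nat.card (P : Subgroup G) = 1 := by
    rw [h1, ← hG, Subgroup.card_bot]
  rw [hcard] at h2
  exact hp.one_lt.ne' h2

/-- a normal maximal subgroup has prime index -/
theorem prime_index_of_coatom (M : Subgroup G) [M.Normal] (hM : IsCoatom M) : M.index.Prime := by
  have hne : M.index ≠ 1 := by
    rw [Ne, Subgroup.index_eq_one]; exact hM.1
  obtain ⟨q, hq, hqd⟩ := Nat.exists_prime_and_dvd hne
  have : Fact q.Prime := ⟨hq⟩
  rw [Subgroup.index_eq_card] at hqd
  obtain ⟨x, hx⟩ := exists_prime_orderOf_dvd_card' (G := G ⧸ M) q hqd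
  obtain ⟨y, rfl⟩ := QuotientGroup.mk_surjective x
  have hyM : y ∉ M := by
    intro h
    rw [(QuotientGroup.eq_one_iff y).2 h, orderOf_one] at hx
    exact hq.one_lt.ne hx
  set L : Subgroup G := (Subgroup.zpowers (y : G ⧸ M)).comap (QuotientGroup.mk' M) with hL
  have hML : M ≤ L := by
    intro m hm
    show ((m : G) : G ⧸ M) ∈ Subgroup.zpowers (y : G ⧸ M)
    rw [(QuotientGroup.eq_one_iff m).2 hm]
    exact Subgroup.one_mem _
  have hyL : y ∈ L := Subgroup.mem_zpowers (y : G ⧸ M)
  have hLtop : L = ⊤ := hM.2 L (lt_of_le_of_ne hML (fun h => hyM (h ▸ hyL)))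
  have htop : Subgroup.zpowers (y : G ⧸ M) = ⊤ := by
    rw [eq_top_iff]
    intro z _
    obtain ⟨w, rfl⟩ := QuotientGroup.mk_surjective z
    have : w ∈ L := by rw [hLtop]; trivial
    exact this
  rw [Subgroup.index_eq_card, ← Subgroup.card_top, ← htop, Nat.card_zpowers, hx]
  exact hq

end aux

/-- The codegree of an irreducible complex character χ of a finite group G is [G : ker χ] / χ(1), where ker χ is the set of elements at which χ takes the value χ(1). A non-trivial finite group is perfect if and only if no irreducible complex character of it has prime codegree. -/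
theorem result {G : Type*} [Group G] [Finite G] [Nontrivial G] : commutator G = ⊤ ↔ ∀ χ : Cfsg.IrrCharacter G, ¬ ((Nat.card G / (Nat.card {g : G // (χ : G → ℂ) g = (χ : G → ℂ) 1} * Cfsg.charDegree (χ : G → ℂ)))).Prime := by
  classical
  constructor
  · intro hG χ hprime
    set p := Nat.card G / (Nat.card {g : G // (χ : G → ℂ) g = (χ : G → ℂ) 1} *
      Cfsg.charDegree (χ : G → ℂ)) with hp
    set K := charKer (χ : G → ℂ) (isIrr_isChar χ.2) with hK
    obtain ⟨ψ, hψ, hψχ⟩ := isIrr_deflate χ.2 K (fun x hx => hx)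
    have hdeg : charDegree ψ = charDegree (χ : G → ℂ) := by
      unfold charDegree
      rw [← hψχ 1]; rfl
    have hmul := isIrr_codegree_mul χ.2
    rw [← hp, card_charKer _ (isIrr_isChar χ.2), ← hK, ← Subgroup.card_mul_index K] at hmul
    have hcard : Nat.card (G ⧸ K) = p * charDegree ψ := by
      rw [← Subgroup.index_eq_card, hdeg]
      have hKpos : 0 < Nat.card K := Nat.card_pos
      apply Nat.eq_of_mul_eq_mul_left hKpos
      rw [← hmul]; ring
    apply not_perfect_of_card_eq ⟨ψ, hψ⟩ p hprime hcard
    rw [eq_top_iff]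
    intro z _
    obtain ⟨w, rfl⟩ := QuotientGroup.mk_surjective z
    have hw : w ∈ commutator G := by rw [hG]; trivial
    have := Subgroup.mem_map_of_mem (QuotientGroup.mk' K) hw
    rw [commutator_def, Subgroup.map_commutator] at this
    exact Subgroup.commutator_mono le_top le_top this
  · intro h
    by_contra hG
    obtain ⟨M, hM, hGM⟩ := (eq_top_or_exists_le_coatom (commutator G)).resolve_left hG
    have hMn : M.Normal := by
      constructor
      intro m hm g
      have : g * m * g⁻¹ = ⁅g, m⁆ * m := by rw [commutatorElement_def]; group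
      rw [this]
      exact M.mul_mem (hGM (Subgroup.commutator_mem_commutator (Subgroup.mem_top _)
        (Subgroup.mem_top _))) hm
    have hq := prime_index_of_coatom M hM
    obtain ⟨ψ, hψne, -⟩ := exists_nonprincipal_not_dvd (G := G ⧸ M) hq
      (by rw [Subgroup.index_eq_card])
    set χ : IrrCharacter G := ⟨fun g => (ψ : G ⧸ M → ℂ) (g : G ⧸ M), isIrr_inflate ψ.2⟩ with hχ
    apply h χ
    have hMK : M ≤ charKer (χ : G → ℂ) (isIrr_isChar χ.2) := by
      intro m hm
      show (ψ : G ⧸ M → ℂ) (m : G ⧸ M) = (ψ : G ⧸ M → ℂ) ((1 : G) : G ⧸ M)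
      rw [(QuotientGroup.eq_one_iff m).2 hm]; rfl
    have hKtop : charKer (χ : G → ℂ) (isIrr_isChar χ.2) ≠ ⊤ := by
      intro htop
      apply hψne
      apply isIrr_eq_one_of_const ψ.2
      intro z
      obtain ⟨w, rfl⟩ := QuotientGroup.mk_surjective z
      have : w ∈ charKer (χ : G → ℂ) (isIrr_isChar χ.2) := by rw [htop]; trivial
      exact this
    have hKM : charKer (χ : G → ℂ) (isIrr_isChar χ.2) = M := by
      by_contra hne
      exact hKtop (hM.2 _ (lt_of_le_of_ne hMK (Ne.symm hne)))
    have hlin : (χ : G → ℂ) 1 = 1 := by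
      rw [isIrr_linear_iff χ.2]
      intro x hx
      exact hMK (hGM hx)
    have hd : charDegree (χ : G → ℂ) = 1 := by
      have := isChar_one_eq (isIrr_isChar χ.2)
      rw [hlin] at this
      exact_mod_cast this.symm
    rw [card_charKer _ (isIrr_isChar χ.2), hKM, hd, mul_one, ← Subgroup.card_mul_index M,
      Nat.mul_div_cancel_left _ Nat.card_pos]
    exact hq

end Cfsg.Agent.S4797
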