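import Cfsg.Statements.S4798
import Cfsg.Agent.Lib.Helper82.Constituent
import Cfsg.Agent.Lib.Helper82.Codegree

set_option autoImplicit false
open Cfsg

namespace Cfsg.Agent.S4798

open Cfsg.Agent.Lib.Helper82 Cfsg.Agent.Lib.Helper20

theorem charDegree_multiset_sum {H : Type*} [Group H] (l : Multiset (IrrCharacter H)) :
    charDegree (l.map Subtype.val).sum = (l.map fun θ : IrrCharacter H => charDegree θ.1).sum := by
  induction l using Multiset.induction_on with
  | empty => simp [charDegree]
  | cons a l ih =>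
    rw [Multiset.map_cons, Multiset.sum_cons, Multiset.map_cons, Multiset.sum_cons,
      charDegree_add (isIrr_isChar a.2) (isCharacter_multiset_sum l), ih]

/-- Let p be a prime and χ a faithful irreducible complex character of the finite group G (χ(g) = χ(1) only for g = 1), so that its codegree is #G / χ(1). Then #G / χ(1) is a power of p if and only if χ is induced from a character of a Sylow p-subgroup of G. -/
theorem result {G : Type*} [Group G] [Fintype G] (p : ℕ) [Fact p.Prime] (χ : Cfsg.IrrCharacter G) (hfaith : ∀ g : G, (χ : G → ℂ) g = (χ : G → ℂ) 1 → g = 1) : (∃ k : ℕ, Nat.card G = p ^ k * Cfsg.charDegree (χ : G → ℂ)) ↔ ∃ (P : Sylow p G) (θ : ↥(P : Subgroup G) → ℂ), Cfsg.IsCharacter ↥(P : Subgroup G) θ ∧ (χ : G → ℂ) = Cfsg.indFun (P : Subgroup G) θ := by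
  classical
  have hp : p.Prime := Fact.out
  constructor
  · rintro ⟨k, hk⟩
    obtain ⟨P⟩ : Nonempty (Sylow p G) := inferInstance
    have := Fintype.ofFinite ↥(P : Subgroup G)
    obtain ⟨a, ha⟩ := (P.2.exists_card_eq : ∃ a, Nat.card (P : Subgroup G) = p ^ a)
    set d := charDegree (χ : G → ℂ) with hd
    set m := (P : Subgroup G).index with hm
    have hpm : ¬ p ∣ m := P.not_dvd_index
    have hcard : p ^ a * m = p ^ k * d := by
      rw [← hk, ← ha]; exact Subgroup.card_mul_index _
    have hres : IsCharacter ↥(P : Subgroup G) (fun x : ↥(P : Subgroup G) => (χ : G → ℂ) x) :=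
      isCharacter_restrict (isIrr_isChar χ.2) _
    obtain ⟨l, hl⟩ := exists_multiset_of_isCharacter hres
    have hdl : d = (l.map fun θ : IrrCharacter ↥(P : Subgroup G) => charDegree θ.1).sum := by
      rw [← charDegree_multiset_sum, ← hl]; rfl
    have hdpos : 0 < d := isIrr_charDegree_pos χ.2
    have hne : l.toFinset.Nonempty := by
      rw [Finset.nonempty_iff_ne_empty]
      intro h
      rw [Multiset.toFinset_eq_empty] at h
      rw [h] at hdl
      simp at hdl
      omega
    obtain ⟨θ₀, hθ₀, hmin⟩ := Finset.exists_min_image l.toFinset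
      (fun θ : IrrCharacter ↥(P : Subgroup G) => charDegree θ.1) hne
    have hpow : ∀ θ : IrrCharacter ↥(P : Subgroup G), ∃ i, charDegree θ.1 = p ^ i := by
      intro θ
      have h1 := isIrr_charDegree_dvd_card θ.2
      rw [ha] at h1
      obtain ⟨i, -, hi⟩ := (Nat.dvd_prime_pow hp).1 h1
      exact ⟨i, hi⟩
    obtain ⟨j, hj⟩ := hpow θ₀
    have hjd : p ^ j ∣ d := by
      rw [hdl]
      apply Multiset.dvd_sum
      intro x hx
      obtain ⟨θ, hθ, rfl⟩ := Multiset.mem_map.1 hx
      obtain ⟨i, hi⟩ := hpow θ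
      have hle := hmin θ (Multiset.mem_toFinset.2 hθ)
      rw [hj, hi] at hle
      rw [hi]
      exact pow_dvd_pow p ((Nat.pow_le_pow_iff_right hp.one_lt).1 hle)
    have hmd : m ∣ d := by
      have hcop : Nat.Coprime m (p ^ k) :=
        Nat.Coprime.pow_right k ((Nat.Prime.coprime_iff_not_dvd hp).2 hpm).symm
      exact hcop.dvd_of_dvd_mul_left (hcard ▸ Dvd.intro_left _ rfl)
    have hmj : m * p ^ j ∣ d := by
      have hcop : Nat.Coprime m (p ^ j) :=
        Nat.Coprime.pow_right j ((Nat.Prime.coprime_iff_not_dvd hp).2 hpm).symm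
      exact hcop.mul_dvd_of_dvd_of_dvd hmd hjd
    refine ⟨P, θ₀.1, isIrr_isChar θ₀.2, ?_⟩
    symm
    apply eq_of_constituent_of_degree_le
      (Cfsg.Agent.Lib.Helper19.isCharacter_indFun _ _ (isIrr_isChar θ₀.2)) χ.2
    · apply inner_indFun_ne_zero _ (isIrr_isChar χ.2)
      rw [hl, classInner_multiset_sum l θ₀]
      exact_mod_cast (Multiset.count_pos.2 (Multiset.mem_toFinset.1 hθ₀)).ne'
    · rw [charDegree_indFun _ (isIrr_isChar θ₀.2), hj]
      exact Nat.le_of_dvd hdpos hmj
  · rintro ⟨P, θ, hθ, hχ⟩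
    obtain ⟨a, ha⟩ := (P.2.exists_card_eq : ∃ a, Nat.card (P : Subgroup G) = p ^ a)
    have hdeg : charDegree (χ : G → ℂ) = (P : Subgroup G).index * charDegree θ := by
      rw [hχ, charDegree_indFun _ hθ]
    have hdvd := isIrr_charDegree_dvd_card χ.2
    rw [hdeg, ← Subgroup.card_mul_index (P : Subgroup G), mul_comm (Nat.card _)] at hdvd
    have hidx : 0 < (P : Subgroup G).index := Nat.pos_of_ne_zero Subgroup.index_ne_zero_of_finite
    have h1 : charDegree θ ∣ p ^ a := by
      rw [← ha]; exact Nat.dvd_of_mul_dvd_mul_left hidx hdvd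
    obtain ⟨i, hi, hti⟩ := (Nat.dvd_prime_pow hp).1 h1
    refine ⟨a - i, ?_⟩
    rw [hdeg, hti, ← Subgroup.card_mul_index (P : Subgroup G), ha]
    have : p ^ a = p ^ (a - i) * p ^ i := by rw [← pow_add]; congr 1; omega
    rw [this]; ring

end Cfsg.Agent.S4798
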