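import Cfsg.Statements.S4801
import Cfsg.Agent.Lib.Helper82.Codegree

set_option autoImplicit false
open Cfsg

namespace Cfsg.Agent.S4801

open Cfsg.Agent.Lib.Helper82

/-- The codegree of an irreducible complex character χ of a finite group G is [G : ker χ] / χ(1), where ker χ is the set of elements at which χ takes the value χ(1). Let S be a finite simple group and G a finite group such that every codegree of an irreducible character of S is a codegree of an irreducible character of G. Then the order of S divides the order of G. -/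
theorem result {S : Type*} [Group S] [Finite S] (hS : IsSimpleGroup S) {G : Type*} [Group G] [Finite G] (hsub : ∀ χ : Cfsg.IrrCharacter S, ∃ ψ : Cfsg.IrrCharacter G, (Nat.card S / (Nat.card {g : S // (χ : S → ℂ) g = (χ : S → ℂ) 1} * Cfsg.charDegree (χ : S → ℂ))) = (Nat.card G / (Nat.card {g : G // (ψ : G → ℂ) g = (ψ : G → ℂ) 1} * Cfsg.charDegree (ψ : G → ℂ)))) : Nat.card S ∣ Nat.card G := by
  classical
  have hS0 : Nat.card S ≠ 0 := Nat.card_pos.ne'
  have hG0 : Nat.card G ≠ 0 := Nat.card_pos.ne'
  rw [← Nat.factorization_prime_le_iff_dvd hS0 hG0]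
  intro p hp
  by_cases hpS : p ∣ Nat.card S
  · obtain ⟨χ, hne, hnd⟩ := exists_nonprincipal_not_dvd hp hpS
    have hker : charKer (χ : S → ℂ) (isIrr_isChar χ.2) = ⊥ := by
      rcases hS.eq_bot_or_eq_top_of_normal _ (charKer_normal (χ : S → ℂ) (isIrr_isChar χ.2)) with h | h
      · exact h
      · exfalso
        apply hne
        apply isIrr_eq_one_of_const χ.2
        intro g
        have : g ∈ charKer (χ : S → ℂ) (isIrr_isChar χ.2) := by rw [h]; trivial
        exact this
    obtain ⟨ψ, hψ⟩ := hsub χ
    have hmul := isIrr_codegree_mul χ.2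
    have hdvd := isIrr_codegree_dvd_card ψ.2
    rw [← hψ] at hdvd
    rw [card_charKer _ (isIrr_isChar χ.2), hker, Subgroup.card_bot, one_mul] at hmul hdvd
    have hd0 : charDegree (χ : S → ℂ) ≠ 0 := (isIrr_charDegree_pos χ.2).ne'
    have hc0 : Nat.card S / charDegree (χ : S → ℂ) ≠ 0 := by
      intro h0
      rw [h0, zero_mul] at hmul
      exact hS0 hmul.symm
    have h1 : (Nat.card S).factorization p = (Nat.card S / charDegree (χ : S → ℂ)).factorization p := by
      conv_lhs => rw [← hmul]
      rw [Nat.factorization_mul hc0 hd0]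
      simp [Nat.factorization_eq_zero_of_not_dvd hnd]
    rw [h1]
    exact (Nat.factorization_le_iff_dvd hc0 hG0).2 hdvd p
  · rw [Nat.factorization_eq_zero_of_not_dvd hpS]
    exact Nat.zero_le _

end Cfsg.Agent.S4801
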