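import Cfsg.Statements.S4802
import Cfsg.Agent.S0136
import Cfsg.Agent.Lib.Helper82.QuotOrtho

set_option autoImplicit false
open Cfsg

namespace Cfsg.Agent.S4802

open Cfsg.Agent.Lib.Helper82

/-- Let N < M be normal subgroups of the finite group G and g ∈ M ∖ N. Then the conjugacy class of g is exactly M ∖ N if and only if every irreducible complex character of G whose kernel contains N takes the same value at all elements of M ∖ N, and every irreducible complex character of G whose kernel does not contain N vanishes at g. -/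
theorem result {G : Type*} [Group G] [Finite G] (N M : Subgroup G) [N.Normal] [M.Normal] (hNM : N < M) (g : G) (hgM : g ∈ M) (hgN : g ∉ N) : {h : G | IsConj g h} = (M : Set G) \ (N : Set G) ↔ ((∀ χ : Cfsg.IrrCharacter G, (∀ x ∈ N, (χ : G → ℂ) x = (χ : G → ℂ) 1) → ∀ x ∈ M, x ∉ N → ∀ y ∈ M, y ∉ N → (χ : G → ℂ) x = (χ : G → ℂ) y) ∧ (∀ χ : Cfsg.IrrCharacter G, (∃ x ∈ N, (χ : G → ℂ) x ≠ (χ : G → ℂ) 1) → (χ : G → ℂ) g = 0)) := by
  classical
  -- the preimage of the class of gN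
  have hS : {h : G | IsConj (g : G ⧸ N) (h : G ⧸ N)} ⊆ (M : Set G) \ (N : Set G) := by
    intro h hh
    obtain ⟨q, hq⟩ := isConj_iff.1 hh
    obtain ⟨c, rfl⟩ := QuotientGroup.mk_surjective q
    have h1 : ((c * g * c⁻¹ : G) : G ⧸ N) = (h : G ⧸ N) := by
      rw [← hq]; rfl
    have h2 : (c * g * c⁻¹)⁻¹ * h ∈ N := QuotientGroup.eq.1 h1
    have h3 : c * g * c⁻¹ ∈ M := ‹M.Normal›.conj_mem g hgM c
    have h4 : h = (c * g * c⁻¹) * ((c * g * c⁻¹)⁻¹ * h) := by group
    refine ⟨?_, ?_⟩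
    · show h ∈ M
      rw [h4]
      exact M.mul_mem h3 (hNM.le h2)
    · intro hN
      apply hgN
      have h5 : c * g * c⁻¹ ∈ N := by
        have : c * g * c⁻¹ = h * ((c * g * c⁻¹)⁻¹ * h)⁻¹ := by group
        rw [this]
        exact N.mul_mem hN (N.inv_mem h2)
      have h6 := ‹N.Normal›.conj_mem _ h5 c⁻¹
      have : c⁻¹ * (c * g * c⁻¹) * c⁻¹⁻¹ = g := by group
      rwa [this] at h6
  have hcl : {h : G | IsConj g h} ⊆ {h : G | IsConj (g : G ⧸ N) (h : G ⧸ N)} := by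
    intro h hh
    exact (QuotientGroup.mk' N).map_isConj hh
  -- first condition iff preimage is all of M \ N
  have hB : (∀ χ : Cfsg.IrrCharacter G, (∀ x ∈ N, (χ : G → ℂ) x = (χ : G → ℂ) 1) → ∀ x ∈ M, x ∉ N →
      ∀ y ∈ M, y ∉ N → (χ : G → ℂ) x = (χ : G → ℂ) y) ↔
      {h : G | IsConj (g : G ⧸ N) (h : G ⧸ N)} = (M : Set G) \ (N : Set G) := by
    constructor
    · intro hc
      apply Set.Subset.antisymm hS
      rintro x ⟨hxM, hxN⟩
      show IsConj (g : G ⧸ N) (x : G ⧸ N)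
      rw [Cfsg.Agent.S0136.result]
      intro ψ
      exact hc (irrQuotEquiv N ψ).1 (irrQuotEquiv N ψ).2 g hgM hgN x hxM hxN
    · intro hs χ hχ
      have key : ∀ x ∈ M, x ∉ N → (χ : G → ℂ) g = (χ : G → ℂ) x := by
        intro x hxM hxN
        have hx : x ∈ {h : G | IsConj (g : G ⧸ N) (h : G ⧸ N)} := by
          rw [hs]; exact ⟨hxM, hxN⟩
        rw [← irrQuotEquiv_symm_apply N ⟨χ, hχ⟩ g, ← irrQuotEquiv_symm_apply N ⟨χ, hχ⟩ x]
        exact isChar_eq_of_isConj (isIrr_isChar ((irrQuotEquiv N).symm ⟨χ, hχ⟩).2) hx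
      intro x hxM hxN y hyM hyN
      rw [← key x hxM hxN, ← key y hyM hyN]
  rw [hB, vanish_iff_class_eq_preimage N g]
  constructor
  · intro h
    have h1 : {h : G | IsConj (g : G ⧸ N) (h : G ⧸ N)} = (M : Set G) \ (N : Set G) :=
      Set.Subset.antisymm hS (h ▸ hcl)
    exact ⟨h1, h.trans h1.symm⟩
  · rintro ⟨h1, h2⟩
    exact h2.trans h1

end Cfsg.Agent.S4802
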