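import Cfsg.Statements.S4808
import Cfsg.Agent.Lib.Helper82.Codegree

set_option autoImplicit false
open Cfsg

namespace Cfsg.Agent.S4808

open Cfsg.Agent.Lib.Helper82

universe u

theorem mem_of_not_dvd_index {G : Type u} [Group G] [Finite G] {p : ℕ} (hp : p.Prime)
    (K : Subgroup G) [K.Normal] (hK : ¬ p ∣ K.index) {x : G} (hx : orderOf x = p) : x ∈ K := by
  rw [← QuotientGroup.eq_one_iff]
  have h1 : orderOf (x : G ⧸ K) ∣ p := by
    rw [← hx]
    exact orderOf_map_dvd (QuotientGroup.mk' K) x
  rcases (Nat.dvd_prime hp).1 h1 with h | h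
  · exact orderOf_eq_one_iff.1 h
  · exfalso
    apply hK
    rw [Subgroup.index_eq_card, ← h]
    exact orderOf_dvd_natCard _

theorem aux (p : ℕ) (hp : p.Prime) : ∀ (n : ℕ) (G : Type u) [Group G] [Finite G],
    Nat.card G = n → p ∣ Nat.card G → ∃ χ : Cfsg.IrrCharacter G,
      p ∣ (Nat.card G / (Nat.card {g : G // (χ : G → ℂ) g = (χ : G → ℂ) 1} *
        Cfsg.charDegree (χ : G → ℂ))) := by
  intro n
  induction n using Nat.strong_induction_on with
  | _ n ih =>
  intro G _ _ hn hpG
  classical
  by_cases hcase : ∃ N : Subgroup G, N.Normal ∧ N ≠ ⊥ ∧ p ∣ N.index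
  · obtain ⟨N, hN, hNbot, hpN⟩ := hcase
    have hlt : Nat.card (G ⧸ N) < n := by
      rw [← hn, ← Subgroup.index_eq_card, ← Subgroup.card_mul_index N]
      have h1 : 1 < Nat.card N := by
        rw [Subgroup.one_lt_card_iff_ne_bot]; exact hNbot
      have h2 : 0 < N.index := Nat.pos_of_ne_zero Subgroup.index_ne_zero_of_finite
      nlinarith
    obtain ⟨ψ, hψ⟩ := ih _ hlt (G ⧸ N) rfl (by rw [← Subgroup.index_eq_card]; exact hpN)
    refine ⟨⟨fun g => (ψ : G ⧸ N → ℂ) (g : G ⧸ N), isIrr_inflate ψ.2⟩, ?_⟩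
    rw [← codegree_inflate N (ψ : G ⧸ N → ℂ)] at hψ
    exact hψ
  · push Not at hcase
    by_contra hcon
    push Not at hcon
    have := Fintype.ofFinite (IrrCharacter G)
    have : Fact p.Prime := ⟨hp⟩
    obtain ⟨x, hx⟩ := exists_prime_orderOf_dvd_card' (G := G) p hpG
    have hx1 : x ≠ 1 := by
      intro h
      rw [h, orderOf_one] at hx
      exact hp.one_lt.ne hx
    set N : Subgroup G := Subgroup.normalClosure {x} with hNdef
    have hxN : x ∈ N := Subgroup.subset_normalClosure (Set.mem_singleton x)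
    have hNbot : N ≠ ⊥ := by
      intro h
      rw [h, Subgroup.mem_bot] at hxN
      exact hx1 hxN
    have hNidx : ¬ p ∣ N.index := hcase N inferInstance hNbot
    have hsum := sum_sq_charDegree (G := G)
    rw [← Finset.sum_filter_add_sum_filter_not Finset.univ
      (fun χ : IrrCharacter G => ∀ y ∈ N, (χ : G → ℂ) y = (χ : G → ℂ) 1),
      sum_sq_charDegree_ker N] at hsum
    have hdvd : p ∣ ∑ χ ∈ Finset.univ.filter
        (fun χ : IrrCharacter G => ¬ ∀ y ∈ N, (χ : G → ℂ) y = (χ : G → ℂ) 1),
        charDegree (χ : G → ℂ) ^ 2 := by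
      apply Finset.dvd_sum
      intro χ hχ
      rw [Finset.mem_filter] at hχ
      have hker : charKer (χ : G → ℂ) (isIrr_isChar χ.2) = ⊥ := by
        by_contra hk
        apply hχ.2
        have hxk : x ∈ charKer (χ : G → ℂ) (isIrr_isChar χ.2) :=
          mem_of_not_dvd_index hp _ (hcase _ inferInstance hk) hx
        have hle : N ≤ charKer (χ : G → ℂ) (isIrr_isChar χ.2) :=
          Subgroup.normalClosure_le_normal (Set.singleton_subset_iff.2 hxk)
        intro y hy
        exact hle hy
      have hmul := isIrr_codegree_mul χ.2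
      rw [card_charKer _ (isIrr_isChar χ.2), hker, Subgroup.card_bot, one_mul] at hmul
      have h1 : p ∣ Nat.card G / (charDegree (χ : G → ℂ)) * charDegree (χ : G → ℂ) := by
        rw [hmul]; exact hpG
      have h2 := hcon χ
      rw [card_charKer _ (isIrr_isChar χ.2), hker, Subgroup.card_bot, one_mul] at h2
      exact dvd_pow ((hp.dvd_mul.1 h1).resolve_left h2) two_ne_zero
    apply hNidx
    exact (Nat.dvd_add_left hdvd).1 (hsum ▸ hpG)

/-- The codegree of an irreducible complex character χ of a finite group G is [G : ker χ] / χ(1), where ker χ is the set of elements at which χ takes the value χ(1). A prime divides the order of G if and only if it divides the codegree of some irreducible complex character of G. -/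
theorem result {G : Type*} [Group G] [Finite G] (p : ℕ) (hp : p.Prime) : p ∣ Nat.card G ↔ ∃ χ : Cfsg.IrrCharacter G, p ∣ (Nat.card G / (Nat.card {g : G // (χ : G → ℂ) g = (χ : G → ℂ) 1} * Cfsg.charDegree (χ : G → ℂ))) := by
  constructor
  · intro h
    exact aux p hp _ G rfl h
  · rintro ⟨χ, hχ⟩
    exact hχ.trans (isIrr_codegree_dvd_card χ.2)

end Cfsg.Agent.S4808
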