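import Cfsg.Statements.S4812
-- import your own Cfsg.Agent.* helpers here
import Cfsg.Agent.Lib.Helper47.PSL2Degrees

set_option autoImplicit false
open Cfsg

namespace Cfsg.Agent.S4812

open Matrix Cfsg.Agent.Lib.Helper47

/-- Let F be a finite field of characteristic 2 with q ≥ 4 elements and let S be isomorphic to PSL(2,F) or to SL(2,F). Then the vertices of the character degree graph of S are the primes dividing q(q²−1), and two distinct primes are adjacent exactly when both divide q + 1 or both divide q − 1; so the graph has the three connected components {2}, the primes dividing q + 1 and the primes dividing q − 1, each complete. -/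
theorem result (F : Type*) [Field F] [Fintype F] [CharP F 2] (q : ℕ) (hq : Fintype.card F = q) (h4 : 4 ≤ q) {S : Type*} [Group S] [Finite S] (hS : Nonempty (S ≃* Matrix.ProjectiveSpecialLinearGroup (Fin 2) F) ∨ Nonempty (S ≃* Matrix.SpecialLinearGroup (Fin 2) F)) : Cfsg.degreePrimes S = {r : ℕ | r.Prime ∧ r ∣ q * (q ^ 2 - 1)} ∧ ∀ r s : ℕ, (Cfsg.degreeGraph S).Adj r s ↔ (r ≠ s ∧ r.Prime ∧ s.Prime ∧ ((r ∣ q + 1 ∧ s ∣ q + 1) ∨ (r ∣ q - 1 ∧ s ∣ q - 1))) := by
  subst hq
  have hcd : charDegrees S = {1, Fintype.card F - 1, Fintype.card F, Fintype.card F + 1} := by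
    rcases hS with ⟨⟨e⟩⟩ | ⟨⟨e⟩⟩
    · rw [charDegrees_congr e, cd_PSL2_even, cd_SL2_even h4]
    · rw [charDegrees_congr e, cd_SL2_even h4]
  obtain ⟨n, -, hn⟩ := FiniteField.card F 2
  generalize Fintype.card F = q at *
  have hsq : q ^ 2 - 1 = (q + 1) * (q - 1) := by
    have := Nat.sq_sub_sq q 1
    simpa using this
  constructor
  · ext r
    simp only [degreePrimes, hcd, Set.mem_ofPred_eq, Set.mem_insert_iff, Set.mem_singleton_iff]
    constructor
    · rintro ⟨hr, d, (rfl | rfl | rfl | rfl), hd⟩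
      · exact absurd (Nat.dvd_one.1 hd) hr.one_lt.ne'
      · exact ⟨hr, by rw [hsq]; exact Dvd.dvd.mul_left (Dvd.dvd.mul_left hd _) _⟩
      · exact ⟨hr, Dvd.dvd.mul_right hd _⟩
      · exact ⟨hr, by rw [hsq]; exact Dvd.dvd.mul_left (Dvd.dvd.mul_right hd _) _⟩
    · rintro ⟨hr, hd⟩
      refine ⟨hr, ?_⟩
      rw [hsq] at hd
      rcases (Nat.Prime.dvd_mul hr).1 hd with h | h
      · exact ⟨q, by simp, h⟩
      · rcases (Nat.Prime.dvd_mul hr).1 h with h | h
        · exact ⟨q + 1, by simp, h⟩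
        · exact ⟨q - 1, by simp, h⟩
  · intro r s
    show (r ≠ s ∧ r.Prime ∧ s.Prime ∧ ∃ d ∈ charDegrees S, r * s ∣ d) ↔ _
    rw [hcd]
    simp only [Set.mem_insert_iff, Set.mem_singleton_iff]
    constructor
    · rintro ⟨hne, hr, hs, d, (rfl | rfl | rfl | rfl), hd⟩
      · exact absurd (Nat.dvd_one.1 ((dvd_mul_right r s).trans hd)) hr.one_lt.ne'
      · exact ⟨hne, hr, hs, Or.inr ⟨(dvd_mul_right r s).trans hd, (dvd_mul_left s r).trans hd⟩⟩
      · exfalso
        rw [hn] at hd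
        have h1 := (Nat.prime_dvd_prime_iff_eq hr Nat.prime_two).1
          (hr.dvd_of_dvd_pow ((dvd_mul_right r s).trans hd))
        have h2 := (Nat.prime_dvd_prime_iff_eq hs Nat.prime_two).1
          (hs.dvd_of_dvd_pow ((dvd_mul_left s r).trans hd))
        exact hne (h1.trans h2.symm)
      · exact ⟨hne, hr, hs, Or.inl ⟨(dvd_mul_right r s).trans hd, (dvd_mul_left s r).trans hd⟩⟩
    · rintro ⟨hne, hr, hs, (⟨h1, h2⟩ | ⟨h1, h2⟩)⟩
      · exact ⟨hne, hr, hs, q + 1, by simp,
          Nat.Coprime.mul_dvd_of_dvd_of_dvd ((Nat.coprime_primes hr hs).2 hne) h1 h2⟩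
      · exact ⟨hne, hr, hs, q - 1, by simp,
          Nat.Coprime.mul_dvd_of_dvd_of_dvd ((Nat.coprime_primes hr hs).2 hne) h1 h2⟩

end Cfsg.Agent.S4812
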