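import Cfsg.Statements.S4814
import Cfsg.Agent.Lib.Helper83.Frob

set_option autoImplicit false
open Cfsg
open Cfsg.Agent.Lib.Helper83

namespace Cfsg.Agent.S4814

/-- Let G be a finite group such that the sum, over the irreducible complex characters χ of G, of 1/χ(1)² is less than 2. Then every element of G is a product of two commutators. -/
theorem result {G : Type*} [Group G] [Finite G]
    (h : ∑ᶠ χ : Cfsg.IrrCharacter G, 1 / ‖(χ : G → ℂ) 1‖ ^ 2 < (2 : ℝ)) (g : G) :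
    ∃ a b c d : G, (a * b * a⁻¹ * b⁻¹) * (c * d * c⁻¹ * d⁻¹) = g := by
  classical
  have := Fintype.ofFinite (Cfsg.IrrCharacter G)
  have := Fintype.ofFinite G
  rw [finsum_eq_sum_of_fintype] at h
  by_contra hno
  have hcard : (Nat.card G : ℂ) ≠ 0 := by exact_mod_cast (Nat.card_pos (α := G)).ne'
  have hzero : ∀ t : G, commCount t * commCount (t⁻¹ * g) = 0 := by
    intro t
    by_contra hne
    obtain ⟨h1, h2⟩ := mul_ne_zero_iff.mp hne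
    unfold commCount at h1 h2
    have h1' : Nat.card {xy : G × G // xy.1 * xy.2 * xy.1⁻¹ * xy.2⁻¹ = t} ≠ 0 := by
      exact_mod_cast h1
    have h2' : Nat.card {xy : G × G // xy.1 * xy.2 * xy.1⁻¹ * xy.2⁻¹ = t⁻¹ * g} ≠ 0 := by
      exact_mod_cast h2
    obtain ⟨⟨⟨a, b⟩, hab⟩⟩ := (Nat.card_ne_zero.mp h1').1
    obtain ⟨⟨⟨c, d⟩, hcd⟩⟩ := (Nat.card_ne_zero.mp h2').1
    exact hno ⟨a, b, c, d, by simp only at hab hcd; rw [hab, hcd]; group⟩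
  have hsum : ∑ t : G, commCount t * commCount (t⁻¹ * g) = 0 :=
    Finset.sum_eq_zero (fun t _ => hzero t)
  have hone : ∀ χ : Cfsg.IrrCharacter G, (χ : G → ℂ) 1 ≠ 0 := by
    intro χ
    obtain ⟨n, hn, hn1⟩ := isIrr_one χ.2
    rw [hn1]; exact_mod_cast hn.ne'
  have hconv : ∀ χ ψ : Cfsg.IrrCharacter G, ∑ t : G, (χ : G → ℂ) t * (ψ : G → ℂ) (t⁻¹ * g) =
      if χ = ψ then (Nat.card G : ℂ) * (ψ : G → ℂ) g / (ψ : G → ℂ) 1 else 0 := by
    intro χ ψ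
    have h1 := gen_orth χ.2 ψ.2 g
    have h2 : ∑ t : G, (χ : G → ℂ) t * (ψ : G → ℂ) (t⁻¹ * g) =
        ∑ t : G, (χ : G → ℂ) t⁻¹ * (ψ : G → ℂ) (t * g) :=
      Fintype.sum_equiv (Equiv.inv G) _ _ (fun t => by simp)
    rw [h2, h1]
    by_cases hχψ : χ = ψ
    · rw [if_pos hχψ, if_pos (congrArg Subtype.val hχψ)]
    · rw [if_neg hχψ, if_neg (fun h => hχψ (Subtype.ext h))]
  have hmain : ∑ t : G, commCount t * commCount (t⁻¹ * g) =
      (Nat.card G : ℂ) ^ 3 * ∑ χ : Cfsg.IrrCharacter G, (χ : G → ℂ) g / ((χ : G → ℂ) 1) ^ 3 := by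
    have e1 : ∀ t : G, commCount t * commCount (t⁻¹ * g) = (Nat.card G : ℂ) ^ 2 *
        ∑ χ : Cfsg.IrrCharacter G, ∑ ψ : Cfsg.IrrCharacter G,
          ((χ : G → ℂ) 1)⁻¹ * ((ψ : G → ℂ) 1)⁻¹ * ((χ : G → ℂ) t * (ψ : G → ℂ) (t⁻¹ * g)) := by
      intro t
      rw [commCount_formula, commCount_formula]
      rw [show (Nat.card G : ℂ) * (∑ χ : Cfsg.IrrCharacter G, (χ : G → ℂ) t / (χ : G → ℂ) 1) *
        ((Nat.card G : ℂ) * ∑ χ : Cfsg.IrrCharacter G, (χ : G → ℂ) (t⁻¹ * g) / (χ : G → ℂ) 1) =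
        (Nat.card G : ℂ) ^ 2 * ((∑ χ : Cfsg.IrrCharacter G, (χ : G → ℂ) t / (χ : G → ℂ) 1) *
        (∑ χ : Cfsg.IrrCharacter G, (χ : G → ℂ) (t⁻¹ * g) / (χ : G → ℂ) 1)) by ring]
      rw [Finset.sum_mul_sum]
      congr 1
      refine Finset.sum_congr rfl (fun χ _ => Finset.sum_congr rfl (fun ψ _ => ?_))
      rw [div_eq_mul_inv, div_eq_mul_inv]; ring
    rw [Finset.sum_congr rfl (fun t _ => e1 t), ← Finset.mul_sum, Finset.sum_comm]
    rw [Finset.sum_congr rfl (fun χ _ => Finset.sum_comm)]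
    simp only [← Finset.mul_sum, hconv]
    simp only [mul_ite, mul_zero, Finset.sum_ite_eq, Finset.mem_univ, if_true]
    rw [pow_succ (Nat.card G : ℂ) 2, mul_assoc, Finset.mul_sum (a := (Nat.card G : ℂ))]
    congr 1
    refine Finset.sum_congr rfl (fun χ _ => ?_)
    have := hone χ
    field_simp
  rw [hmain] at hsum
  have hS : ∑ χ : Cfsg.IrrCharacter G, (χ : G → ℂ) g / ((χ : G → ℂ) 1) ^ 3 = 0 :=
    (mul_eq_zero.mp hsum).resolve_left (pow_ne_zero 3 hcard)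
  let τ : Cfsg.IrrCharacter G := ⟨_, isIrr_trivial⟩
  rw [← Finset.add_sum_erase _ _ (Finset.mem_univ τ)] at hS h
  have hτ : (τ : G → ℂ) g / ((τ : G → ℂ) 1) ^ 3 = 1 := by simp [τ]
  have hτ' : 1 / ‖(τ : G → ℂ) 1‖ ^ 2 = 1 := by simp [τ]
  rw [hτ] at hS
  rw [hτ'] at h
  have hle : ‖∑ χ ∈ Finset.univ.erase τ, (χ : G → ℂ) g / ((χ : G → ℂ) 1) ^ 3‖ ≤
      ∑ χ ∈ Finset.univ.erase τ, 1 / ‖(χ : G → ℂ) 1‖ ^ 2 := by
    refine (norm_sum_le _ _).trans (Finset.sum_le_sum (fun χ _ => ?_))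
    have h1 := (Cfsg.Agent.Lib.Helper20.isCharacter_norm_le (IsIrr.isChar χ.2) g).trans
      (Complex.re_le_norm _)
    have h2 : 0 < ‖(χ : G → ℂ) 1‖ := norm_pos_iff.mpr (hone χ)
    rw [norm_div, norm_pow, div_le_div_iff₀ (pow_pos h2 3) (pow_pos h2 2)]
    calc ‖(χ : G → ℂ) g‖ * ‖(χ : G → ℂ) 1‖ ^ 2 ≤ ‖(χ : G → ℂ) 1‖ * ‖(χ : G → ℂ) 1‖ ^ 2 :=
          mul_le_mul_of_nonneg_right h1 (by positivity)
      _ = 1 * ‖(χ : G → ℂ) 1‖ ^ 3 := by ring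
  have hneg : ∑ χ ∈ Finset.univ.erase τ, (χ : G → ℂ) g / ((χ : G → ℂ) 1) ^ 3 = -1 := by
    linear_combination hS
  rw [hneg, norm_neg, norm_one] at hle
  linarith

end Cfsg.Agent.S4814
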