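import Cfsg.Statements.S4825
-- import your own Cfsg.Agent.* helpers here
import Mathlib
import Cfsg.Agent.Lib.Helper21.RelHt

set_option autoImplicit false
open Cfsg

namespace Cfsg.Agent.S4825

/-- Let p be a prime, G a finite group with Sylow p-subgroup P, M a maximal ideal of the algebraic integers containing p, and B a p-block of G with defect group P. Let N be a normal subgroup of G not containing P and θ an irreducible character of N. Then the number of irreducible characters in B of degree prime to p lying over θ (having θ as a constituent on restriction to N) is either 0 or at least 2, and when p ≤ 3 it is divisible by p. -/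
theorem result {G : Type*} [Group G] [Fintype G] (p : ℕ) [Fact p.Prime] (P : Sylow p G) (M : Ideal Cfsg.AlgInt) (hM : Cfsg.IsPModular p M) (B : Set (Cfsg.IrrCharacter G)) (hB : Cfsg.IsPBlock M B) (hBP : Cfsg.IsDefectGroup p M B P) (N : Subgroup G) [N.Normal] [Fintype N] (hPN : ¬ (P : Subgroup G) ≤ N) (θ : Cfsg.IrrCharacter N) :
    (Nat.card {χ : Cfsg.IrrCharacter G // χ ∈ B ∧ ¬ p ∣ Cfsg.charDegree (χ : G → ℂ) ∧ Cfsg.classInner (fun n : N => (χ : G → ℂ) n) (θ : N → ℂ) ≠ 0} = 0 ∨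
      2 ≤ Nat.card {χ : Cfsg.IrrCharacter G // χ ∈ B ∧ ¬ p ∣ Cfsg.charDegree (χ : G → ℂ) ∧ Cfsg.classInner (fun n : N => (χ : G → ℂ) n) (θ : N → ℂ) ≠ 0}) ∧
    (p ≤ 3 → p ∣ Nat.card {χ : Cfsg.IrrCharacter G // χ ∈ B ∧ ¬ p ∣ Cfsg.charDegree (χ : G → ℂ) ∧ Cfsg.classInner (fun n : N => (χ : G → ℂ) n) (θ : N → ℂ) ≠ 0}) := by
  classical
  have hp := hM.1
  have hN : N.Normal := inferInstance
  have := Cfsg.Agent.Lib.Helper20.finite_irrCharacter (G := G)
  have : Fintype (Cfsg.IrrCharacter G) := Fintype.ofFinite _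
  obtain ⟨x, hxP, hxN⟩ := SetLike.not_le_iff_exists.mp hPN
  obtain ⟨k, hk⟩ := (IsPGroup.iff_orderOf.mp P.isPGroup') ⟨x, hxP⟩
  have hxk : orderOf x = p ^ k := by
    rw [← hk]; exact (Subgroup.orderOf_mk x hxP).symm
  choose m hm using fun χ : Cfsg.IrrCharacter G =>
    Cfsg.Agent.Lib.Helper20.isCharacter_classInner_nat
      (Cfsg.Agent.Lib.Helper20.isCharacter_restrict
        (Cfsg.Agent.Lib.Helper20.isCharacter_of_isIrrCharacter χ.2) N) θ.2
  have hsum := Cfsg.Agent.Lib.Helper21.RelHt.dvd_sum_mult_deg hM B hB N θ x hxN k hxk m hm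
  set d : ℕ := Set.ncard {ψ : N → ℂ | ∃ g : G, ψ = Cfsg.Agent.Lib.Helper5.cjF hN (θ : N → ℂ) g} *
    Cfsg.charDegree (θ : N → ℂ) with hd
  have hdeg : ∀ χ ∈ Finset.univ.filter (· ∈ B), m χ ≠ 0 →
      Cfsg.charDegree (χ : G → ℂ) = m χ * d := by
    intro χ _ h0
    have hc : Cfsg.classInner (fun n : N => (χ : G → ℂ) n) (θ : N → ℂ) ≠ 0 := by
      rw [hm χ]; exact_mod_cast h0
    obtain ⟨e, he, hdg⟩ := Cfsg.Agent.Lib.Helper19.clifford_degree hN χ.2 θ.2 hc
    have hem : e = m χ := by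
      have := he.symm.trans (hm χ)
      exact_mod_cast this
    rw [Cfsg.Agent.Lib.Helper79.IsCharacter.exists_degree
        (Cfsg.Agent.Lib.Helper20.isCharacter_of_isIrrCharacter χ.2),
      Cfsg.Agent.Lib.Helper79.IsCharacter.exists_degree
        (Cfsg.Agent.Lib.Helper20.isCharacter_of_isIrrCharacter θ.2), hem] at hdg
    rw [hd, ← mul_assoc]
    exact_mod_cast hdg
  have key := Cfsg.Agent.Lib.Helper21.RelHt.count_arith (Finset.univ.filter (· ∈ B)) p hp m
    (fun χ : Cfsg.IrrCharacter G => Cfsg.charDegree (χ : G → ℂ)) d hdeg hsum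
  have hcard : Nat.card {χ : Cfsg.IrrCharacter G // χ ∈ B ∧ ¬ p ∣ Cfsg.charDegree (χ : G → ℂ) ∧
      Cfsg.classInner (fun n : N => (χ : G → ℂ) n) (θ : N → ℂ) ≠ 0} =
      ((Finset.univ.filter (· ∈ B)).filter
        (fun χ : Cfsg.IrrCharacter G => ¬ p ∣ Cfsg.charDegree (χ : G → ℂ) ∧ m χ ≠ 0)).card := by
    rw [Nat.card_eq_fintype_card, Fintype.card_subtype, Finset.filter_filter]
    congr 1
    apply Finset.filter_congr
    intro χ _
    rw [hm χ]
    simp
  rw [hcard]
  exact key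
end Cfsg.Agent.S4825
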