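import Cfsg.Statements.S4828
import Cfsg.Agent.Lib.Helper20.MaxPair
open Cfsg.Agent.Lib.Helper20 Cfsg.Agent.Lib.Helper81 Cfsg.Agent.Lib.Helper21 Cfsg.Agent.Lib.Helper80 Cfsg.Agent.Lib.Helper80.GA

set_option autoImplicit false
open Cfsg

namespace Cfsg.Agent.S4828

/-- Let p be a prime, M a maximal ideal of the algebraic integers containing p, and (Q, e) a Brauer pair of the finite group G (Q a p-subgroup, e a block of C_G(Q)). Then (Q, e) is a maximal Brauer pair of some block of G if and only if e contains an irreducible character θ such that θ takes the value θ(1) at every element of Z(Q) = Q ∩ C_G(Q), the p-part of θ(1) times the p-part of the order of Z(Q) equals the p-part of the order of C_G(Q) (θ has defect zero as a character of C_G(Q)/Z(Q)), and every element of N_G(Q) of p-power order that stabilizes e lies in Q·C_G(Q) (the stabilizer of e in N_G(Q) has index prime to p over Q·C_G(Q)). -/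
theorem result {G : Type*} [Group G] [Finite G] (p : ℕ) [Fact p.Prime] (M : Ideal Cfsg.AlgInt) (hM : Cfsg.IsPModular p M) (Q : Subgroup G) (e : Set (Cfsg.IrrCharacter (Subgroup.centralizer (Q : Set G)))) (he : Cfsg.IsBrauerPair p M Q e) :
    (∃ B : Set (Cfsg.IrrCharacter G), Cfsg.IsMaximalBrauerPair p M B Q e) ↔
      ∃ θ ∈ e, (∀ z : Subgroup.centralizer (Q : Set G), (z : G) ∈ Q → (θ : Subgroup.centralizer (Q : Set G) → ℂ) z = (θ : Subgroup.centralizer (Q : Set G) → ℂ) 1) ∧
        (Cfsg.charDegree (θ : Subgroup.centralizer (Q : Set G) → ℂ)).factorization p + (Nat.card ↥(Q ⊓ Subgroup.centralizer (Q : Set G))).factorization p = (Nat.card (Subgroup.centralizer (Q : Set G))).factorization p ∧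
        (∀ g : G, g ∈ Subgroup.normalizer (Q : Set G) → Cfsg.StabilizesBlock (Subgroup.centralizer (Q : Set G)) e g → (∃ k : ℕ, orderOf g = p ^ k) → g ∈ Q ⊔ Subgroup.centralizer (Q : Set G)) := by
  classical
  haveI : Fintype G := Fintype.ofFinite G
  have hp : p.Prime := Fact.out
  set Z : Subgroup (Subgroup.centralizer (Q : Set G)) :=
    (Q ⊓ Subgroup.centralizer (Q : Set G)).subgroupOf (Subgroup.centralizer (Q : Set G)) with hZdef
  have hmemZ : ∀ z : Subgroup.centralizer (Q : Set G), z ∈ Z ↔ (z : G) ∈ Q := by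
    intro z
    rw [hZdef, Subgroup.mem_subgroupOf, Subgroup.mem_inf]
    exact ⟨fun h => h.1, fun h => ⟨h, z.2⟩⟩
  have hZc : Z ≤ Subgroup.center (Subgroup.centralizer (Q : Set G)) := by
    intro z hz
    rw [Subgroup.mem_center_iff]
    intro c
    apply Subtype.ext
    exact (Subgroup.mem_centralizer_iff.1 c.2 z ((hmemZ z).1 hz)).symm
  have hZp : IsPGroup p Z := (he.1.to_le inf_le_left).comap_subtype
  haveI hZn : Z.Normal := normal_of_sup_centralizer (sup_centralizer_of_central hZc)
  have hZcard : Nat.card Z = Nat.card ↥(Q ⊓ Subgroup.centralizer (Q : Set G)) :=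
    Nat.card_congr (Subgroup.subgroupOfEquivOfLe inf_le_right).toEquiv
  have hi : Z.index ≠ 0 := Subgroup.index_ne_zero_of_finite
  have hfac : (Nat.card (Subgroup.centralizer (Q : Set G))).factorization p
      = (Nat.card ↥(Q ⊓ Subgroup.centralizer (Q : Set G))).factorization p
        + Z.index.factorization p := by
    rw [← Z.card_mul_index, Nat.factorization_mul Nat.card_pos.ne' hi, hZcard]
    rfl
  have hf : IsBP p Q (bl hM (Cn Q) e) := ⟨he.1, isBlk_bl hM (Cn Q) he.2⟩
  have hstab : ∀ g : G, g ∈ stabP Q (bl hM (Cn Q) e) ↔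
      (g ∈ Subgroup.normalizer (Q : Set G) ∧
        Cfsg.StabilizesBlock (Subgroup.centralizer (Q : Set G)) e g) := by
    intro g
    rw [mem_stabP]
    constructor
    · rintro ⟨h1, h2⟩
      exact ⟨h1, (stabilizesBlock_iff hM (Cn Q) he.2 (Nn_le_normalizer_Cn' Q h1)).2 h2⟩
    · rintro ⟨h1, h2⟩
      exact ⟨h1, (stabilizesBlock_iff hM (Cn Q) he.2 (Nn_le_normalizer_Cn' Q h1)).1 h2⟩
  constructor
  · rintro ⟨B, hB⟩
    have h := isMaxBP_of_isMaximalBrauerPair hM hB
    have hdef := (isDefectGroup_sub_iff hM (Cn Q) he.2 inf_le_right).2 (IsMaxBP.isDef_Cn_self h)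
    obtain ⟨χ', θ, hθ, eθ⟩ := exists_inflation_mem_block hM Z hZp e he.2
    have hker : ∀ x ∈ Z, (θ : Subgroup.centralizer (Q : Set G) → ℂ) x
        = (θ : Subgroup.centralizer (Q : Set G) → ℂ) 1 := by
      intro x hx
      rw [eθ]
      show (χ' : _ ⧸ Z → ℂ) (x : _ ⧸ Z) = (χ' : _ ⧸ Z → ℂ) ((1 : Subgroup.centralizer (Q : Set G)) : _ ⧸ Z)
      rw [(QuotientGroup.eq_one_iff x).2 hx]
      rfl
    refine ⟨θ, hθ, fun z hz => hker z ((hmemZ z).2 hz), ?_, ?_⟩
    · have h3 : (Cfsg.charDegree (θ : Subgroup.centralizer (Q : Set G) → ℂ)).factorization p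
          = Z.index.factorization p := factorization_degree_of_ker hM he.2 hdef hθ hker
      omega
    · intro g hgN hgS hgo
      have hblk : IsBlk (Q ⊔ Cn Q) (bl hM (Cn Q) e) := by
        have hN : Q ⊔ Cn Q ≤ stabP Q (bl hM (Cn Q) e) :=
          sup_le (le_stabP hf.2.inZ) (Cn_le_stabP hf.2.inZ)
        exact hf.isBlk_of_fix le_sup_left le_sup_right (hN.trans (stabP_le_Nn Q _))
          ((fixBy_stabP Q _).mono hN)
      have h1 := h.pSubgroup_le (S := Subgroup.zpowers g) (split_sub hM hblk)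
        (by
          rw [Subgroup.zpowers_le]
          exact (hstab g).2 ⟨hgN, hgS⟩)
        (by
          obtain ⟨k, hk⟩ := hgo
          rw [IsPGroup.iff_card]
          exact ⟨k, by rw [Nat.card_zpowers, hk]⟩)
      exact h1 (Subgroup.mem_zpowers g)
  · rintro ⟨θ, hθ, hker, hdeg, hp'⟩
    have he' := isPBlock_eq_blockOf hM he.2 hθ
    have hdef0 := central_defect_isDefectGroup hM hZp hZc θ (by omega)
    rw [← he'] at hdef0
    have hdef := (isDefectGroup_sub_iff hM (Cn Q) he.2 inf_le_right).1 hdef0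
    have h1 := isDef_stabP_of_centric hf hdef (fun g hg ho =>
      hp' g ((hstab g).1 hg).1 ((hstab g).1 hg).2 ho)
    obtain ⟨b, hb, -⟩ := hf.existsUnique_block
    obtain ⟨B, hB, rfl⟩ := exists_block_of_isBlk hM hb.2.1
    exact ⟨B, isMaximalBrauerPair_of_isMaxBP hM hB he (hb.isMaxBP_of_isDef_stabP h1)⟩

end Cfsg.Agent.S4828
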