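import Cfsg.Statements.S4836
import Cfsg.Agent.Lib.Helper83.TwoClass

set_option autoImplicit false
open Cfsg

namespace Cfsg.Agent.S4836

/-- Let G be a finite group of order greater than 2 with an irreducible character χ that is nonzero on exactly two conjugacy classes. Then χ is faithful (it takes the value χ(1) only at the identity), it is the only faithful irreducible character of G, and it is the only irreducible character of G that is nonzero on exactly two conjugacy classes. -/
theorem result {G : Type*} [Group G] [Finite G] (hG : 2 < Nat.card G) (χ : Cfsg.IrrCharacter G) (hχ : Nat.card {C : ConjClasses G // ∃ g ∈ C.carrier, (χ : G → ℂ) g ≠ 0} = 2) :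
    (∀ g : G, (χ : G → ℂ) g = (χ : G → ℂ) 1 → g = 1) ∧
      (∀ ψ : Cfsg.IrrCharacter G, (∀ g : G, (ψ : G → ℂ) g = (ψ : G → ℂ) 1 → g = 1) → ψ = χ) ∧
      (∀ ψ : Cfsg.IrrCharacter G, Nat.card {C : ConjClasses G // ∃ g ∈ C.carrier, (ψ : G → ℂ) g ≠ 0} = 2 → ψ = χ) := by
  have faithful : ∀ (χ : Cfsg.IrrCharacter G),
      Nat.card {C : ConjClasses G // ∃ g ∈ C.carrier, (χ : G → ℂ) g ≠ 0} = 2 →
      ∀ g : G, (χ : G → ℂ) g = (χ : G → ℂ) 1 → g = 1 := by
    intro χ hχ g hg
    obtain ⟨c, k, n, D⟩ := Cfsg.Agent.Lib.Helper83.two_class_main hG χ hχ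
    by_contra hne
    have hn0 : (n : ℂ) ≠ 0 := by exact_mod_cast D.n_pos.ne'
    have h0 : (χ : G → ℂ) g ≠ 0 := by rw [hg, D.deg]; exact hn0
    rcases (D.supp g).mp h0 with h | h
    · exact hne h
    · have hc : (χ : G → ℂ) c = n := by
        rw [Cfsg.Agent.Lib.Helper83.isChar_isConj (Cfsg.Agent.Lib.Helper83.IsIrr.isChar χ.2) h, hg,
          D.deg]
      have hv := D.val
      rw [hc] at hv
      have : ((k + 1 : ℕ) : ℂ) * (n : ℂ) = 0 := by push_cast; linear_combination hv
      rcases mul_eq_zero.mp this with h | h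
      · exact absurd h (by exact_mod_cast (Nat.succ_ne_zero k))
      · exact hn0 h
  have uniq : ∀ ψ : Cfsg.IrrCharacter G,
      (∀ g : G, (ψ : G → ℂ) g = (ψ : G → ℂ) 1 → g = 1) → ψ = χ := by
    intro ψ hψ
    obtain ⟨c, k, n, D⟩ := Cfsg.Agent.Lib.Helper83.two_class_main hG χ hχ
    by_contra hne
    exact D.c_ne (hψ c (D.others ψ hne))
  exact ⟨faithful χ hχ, uniq, fun ψ hψ => uniq ψ (faithful ψ hψ)⟩

end Cfsg.Agent.S4836
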