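import Cfsg.Statements.S4843
-- import your own Cfsg.Agent.* helpers here
import Mathlib
import Cfsg.Agent.Lib.Helper21.GalProd.ABEL
import Cfsg.Agent.Lib.Helper21.GalProd.MAIN
import Cfsg.Agent.Lib.Helper74.Fitting
import Cfsg.Agent.Lib.Helper36.SympExp4

set_option autoImplicit false
open Cfsg

namespace Cfsg.Agent.S4843

/-- Let G be a finite group with a faithful irreducible character χ (taking the value χ(1) only at the identity) and let k be prime to the order of G, so that g ↦ χ(g^k) is a Galois conjugate of χ. If the pointwise product g ↦ χ(g)·χ(g^k) is again an irreducible character, then the Fitting subgroup of G equals its centre. -/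
theorem result {G : Type*} [Group G] [Finite G] (χ : Cfsg.IrrCharacter G) (hfaith : ∀ g : G, (χ : G → ℂ) g = (χ : G → ℂ) 1 → g = 1) (k : ℕ) (hk : Nat.Coprime k (Nat.card G)) (hirr : Cfsg.IsIrrCharacter G (fun g => (χ : G → ℂ) g * (χ : G → ℂ) (g ^ k))) : Cfsg.fittingSubgroup G = Subgroup.center G := by
  classical
  have : Fintype G := Fintype.ofFinite G
  set F := Cfsg.fittingSubgroup G with hF
  have hFn : F.Normal := Cfsg.Agent.Lib.Helper74.fittingSubgroup_normal G
  have hFnil : Group.IsNilpotent F := Cfsg.Agent.Lib.Helper74.fittingSubgroup_isNilpotent G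
  have hZF : Subgroup.center G ≤ F := by
    apply le_sSup
    exact ⟨inferInstance, Subgroup.nilpotent_iff_lowerCentralSeries.mpr
      ⟨1, Subgroup.lowerCentralSeries_one_eq_bot_iff.mpr inferInstance⟩⟩
  by_contra hne
  have hnle : ¬ F ≤ Subgroup.center G := fun h => hne (le_antisymm h hZF)
  have h1 : ¬ (⊤ : Subgroup F) ≤ (Subgroup.center G).subgroupOf F := by
    intro h
    apply hnle
    intro x hx
    exact Subgroup.mem_subgroupOf.mp (h (Subgroup.mem_top (⟨x, hx⟩ : F)))
  obtain ⟨y, -, hyM, hyc⟩ := Cfsg.Agent.Lib.Helper36.exists_central_mod (⊤ : Subgroup F)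
    ((Subgroup.center G).subgroupOf F) h1
  refine Cfsg.Agent.Lib.Helper21.GalProd.no_central_mod χ χ.2 hfaith k hk hirr F hFn ?_ (y : G) y.2
    (fun h => hyM (Subgroup.mem_subgroupOf.mpr h)) ?_
  · intro x hx hxc
    have hAn : (F ⊓ Subgroup.centralizer (F : Set G)).Normal := inferInstance
    refine Cfsg.Agent.Lib.Helper21.GalProd.abelian_normal_le_center χ χ.2 hfaith k hk hirr
      (F ⊓ Subgroup.centralizer (F : Set G)) hAn ?_ ?_
    · intro a ha b hb
      exact (Subgroup.mem_centralizer_iff.mp (Subgroup.mem_inf.mp hb).2 a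
        (Subgroup.mem_inf.mp ha).1)
    · refine Subgroup.mem_inf.mpr ⟨hx, ?_⟩
      rw [Subgroup.mem_centralizer_iff]
      intro m hm
      exact (hxc m hm).symm
  · intro t ht
    exact Subgroup.mem_subgroupOf.mp (hyc ⟨t, ht⟩)
end Cfsg.Agent.S4843
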