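import Cfsg.Statements.S4861
-- import your own Cfsg.Agent.* helpers here
import Mathlib
import Cfsg.Agent.Lib.Helper21.RealPD

set_option autoImplicit false
open Cfsg

namespace Cfsg.Agent.S4861

/-- Let p be a prime and G a finite group such that the subgroup generated by the p-elements of G (the smallest normal subgroup of index prime to p) is solvable and every real-valued irreducible complex character of G has degree prime to p. Let K be the subgroup generated by the 2-elements of G (the smallest normal subgroup of odd index). Then the Sylow p-subgroups of K are normal in K. -/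
theorem result {G : Type*} [Group G] [Finite G] (p : ℕ) [Fact p.Prime] (hsolv : Group.IsSolvable ↥(Subgroup.closure {g : G | ∃ k : ℕ, orderOf g = p ^ k})) (hreal : ∀ χ : Cfsg.IrrCharacter G, (∀ g : G, ((χ : G → ℂ) g).im = 0) → ¬ p ∣ Cfsg.charDegree (χ : G → ℂ)) (Q : Sylow p ↥(Subgroup.closure {g : G | ∃ k : ℕ, orderOf g = 2 ^ k})) : (Q : Subgroup ↥(Subgroup.closure {g : G | ∃ k : ℕ, orderOf g = 2 ^ k})).Normal := by
  have := Cfsg.Agent.Lib.Helper21.RealP.gen_normal 2 G
  exact Cfsg.Agent.Lib.Helper21.RealP.core_A p _ ↥(Cfsg.Agent.Lib.Helper21.RealP.gen 2 G) rfl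
    (Cfsg.Agent.Lib.Helper21.RealP.gen_gen_top 2 G)
    (Cfsg.Agent.Lib.Helper21.RealP.solvable_gen_sub p (Cfsg.Agent.Lib.Helper21.RealP.gen 2 G) hsolv)
    (Cfsg.Agent.Lib.Helper21.RealP.realPrime_sub p (Cfsg.Agent.Lib.Helper21.RealP.gen 2 G)
      (Cfsg.Agent.Lib.Helper21.RealP.odd_index_gen_two G) hreal) Q

end Cfsg.Agent.S4861
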