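import Cfsg.Statements.S4862
-- import your own Cfsg.Agent.* helpers here
import Mathlib
import Cfsg.Agent.Lib.Helper21.RealPB

set_option autoImplicit false
open Cfsg

namespace Cfsg.Agent.S4862

/-- Let p be an odd prime and G a finite group such that the subgroup generated by the p-elements of G is solvable and every real-valued irreducible complex character of G has degree prime to p. Let K be the subgroup generated by the 2-elements of G and P a Sylow p-subgroup of G. Then every normal subgroup M of G contained in K and in the derived subgroup of P is centralized by K. -/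
theorem result {G : Type*} [Group G] [Finite G] (p : ℕ) [Fact p.Prime] (hp : p ≠ 2) (hsolv : Group.IsSolvable ↥(Subgroup.closure {g : G | ∃ k : ℕ, orderOf g = p ^ k})) (hreal : ∀ χ : Cfsg.IrrCharacter G, (∀ g : G, ((χ : G → ℂ) g).im = 0) → ¬ p ∣ Cfsg.charDegree (χ : G → ℂ)) (P : Sylow p G) (M : Subgroup G) (hM : M.Normal) (hMK : M ≤ (Subgroup.closure {g : G | ∃ k : ℕ, orderOf g = 2 ^ k})) (hMP : M ≤ ⁅(P : Subgroup G), (P : Subgroup G)⁆) : (Subgroup.closure {g : G | ∃ k : ℕ, orderOf g = 2 ^ k}) ≤ Subgroup.centralizer (M : Set G) := by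
  classical
  have := Fintype.ofFinite G
  by_contra hnot
  have := hM
  have hle : M ≤ (P : Subgroup G) := hMP.trans (by
    rw [← Subgroup.map_subtype_commutator]
    exact Subgroup.map_subtype_le _)
  have hModd : Odd (Nat.card M) := by
    obtain ⟨k, hk⟩ := IsPGroup.iff_card.mp P.2
    have h1 : Nat.card M ∣ p ^ k := hk ▸ Subgroup.card_dvd_of_le hle
    have h2 : Odd (p ^ k) := ((Fact.out : p.Prime).odd_of_ne_two hp).pow
    exact Odd.of_dvd_nat h2 h1
  obtain ⟨χ, hχreal, n, hnM, hn⟩ := Cfsg.Agent.Lib.Helper21.RealP.exists_real_not_ker M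
    (Cfsg.Agent.Lib.Helper21.RealP.lift_real_of_odd M hModd)
    (Cfsg.Agent.Lib.Helper21.RealP.exists_real_of_not_centralize M hM hnot)
  exact hn (Cfsg.Agent.Lib.Helper21.RealP.ker_of_not_dvd p (P : Subgroup G) P.2 M hM hMP χ
    (hreal χ hχreal) n hnM)

end Cfsg.Agent.S4862
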