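import Cfsg.Statements.S4863
-- import your own Cfsg.Agent.* helpers here
import Mathlib
import Cfsg.Agent.Lib.Helper21.RealPE

set_option autoImplicit false
open Cfsg

namespace Cfsg.Agent.S4863

/-- Let p be a prime and G a finite group such that the subgroup generated by the p-elements of G (the smallest normal subgroup of index prime to p) is solvable and every real-valued irreducible complex character of G has degree prime to p. Let K be the subgroup generated by the 2-elements of G (the smallest normal subgroup of odd index). Let U be the largest normal subgroup of G containing K such that the index of K in U is a power of p (so that U/K is the p-core of G/K). Then the Sylow p-subgroups of U are normal in U. -/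
theorem result {G : Type*} [Group G] [Finite G] (p : ℕ) [Fact p.Prime] (hsolv : Group.IsSolvable ↥(Subgroup.closure {g : G | ∃ k : ℕ, orderOf g = p ^ k})) (hreal : ∀ χ : Cfsg.IrrCharacter G, (∀ g : G, ((χ : G → ℂ) g).im = 0) → ¬ p ∣ Cfsg.charDegree (χ : G → ℂ)) (U : Subgroup G) (hU : U.Normal) (hKU : (Subgroup.closure {g : G | ∃ k : ℕ, orderOf g = 2 ^ k}) ≤ U) (hUp : ∃ a : ℕ, (Subgroup.closure {g : G | ∃ k : ℕ, orderOf g = 2 ^ k}).relIndex U = p ^ a) (hmax : ∀ V : Subgroup G, V.Normal → (Subgroup.closure {g : G | ∃ k : ℕ, orderOf g = 2 ^ k}) ≤ V → (∃ b : ℕ, (Subgroup.closure {g : G | ∃ k : ℕ, orderOf g = 2 ^ k}).relIndex V = p ^ b) → V ≤ U) (Q : Sylow p ↥U) : (Q : Subgroup ↥U).Normal := by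
  have := hU
  have hKU' : Cfsg.Agent.Lib.Helper21.RealP.gen 2 G ≤ U := hKU
  have hoddU : Odd U.index :=
    Odd.of_dvd_nat (Cfsg.Agent.Lib.Helper21.RealP.odd_index_gen_two G)
      (Subgroup.index_dvd_of_le hKU')
  have hgen : Cfsg.Agent.Lib.Helper21.RealP.gen 2 ↥U
      = (Cfsg.Agent.Lib.Helper21.RealP.gen 2 G).subgroupOf U := by
    have h1 := Cfsg.Agent.Lib.Helper21.RealP.map_gen_sub 2 U hKU'
    rw [← h1]
    exact (Subgroup.comap_map_eq_self_of_injective (Subgroup.subtype_injective U) _).symm
  have hidx : ∃ a : ℕ, (Cfsg.Agent.Lib.Helper21.RealP.gen 2 ↥U).index = p ^ a := by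
    obtain ⟨a, ha⟩ := hUp
    exact ⟨a, by rw [hgen]; exact ha⟩
  exact Cfsg.Agent.Lib.Helper21.RealP.core_B p _ ↥U rfl hidx
    (Cfsg.Agent.Lib.Helper21.RealP.solvable_gen_sub p U hsolv)
    (Cfsg.Agent.Lib.Helper21.RealP.realPrime_sub p U hoddU hreal) Q

end Cfsg.Agent.S4863
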