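import Cfsg.Statements.S4871
-- import your own Cfsg.Agent.* helpers here
import Mathlib
import Cfsg.Agent.Lib.Helper21.SRealD

set_option autoImplicit false
open Cfsg

namespace Cfsg.Agent.S4871

/-- Let G be a finite group that is the semidirect product of a normal elementary abelian subgroup N of odd order by a non-trivial 2-subgroup P, with N the unique minimal normal subgroup of G. Consider the strongly real irreducible complex characters of G (Frobenius–Schur indicator +1) whose degree is 1 or even. Then their average degree is at least 4/3: four times their number is at most three times the sum of their degrees. -/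
theorem result {G : Type*} [Group G] [Finite G] (N P : Subgroup G) (hN : N.Normal) (q : ℕ) [Fact q.Prime] (hq : q ≠ 2) (hNel : Cfsg.IsElementaryAbelian q N) (hP : IsPGroup 2 ↥P) (hP1 : P ≠ ⊥) (hdisj : N ⊓ P = ⊥) (hprod : N ⊔ P = ⊤) (hmin : N ≠ ⊥ ∧ ∀ M : Subgroup G, M.Normal → M ≠ ⊥ → N ≤ M) : 4 * Nat.card {χ : Cfsg.IrrCharacter G // (Cfsg.charDegree (χ : G → ℂ) = 1 ∨ 2 ∣ Cfsg.charDegree (χ : G → ℂ)) ∧ (Nat.card G : ℂ)⁻¹ * ∑ᶠ g : G, (χ : G → ℂ) (g * g) = 1} ≤ 3 * (∑ᶠ χ : {χ : Cfsg.IrrCharacter G // (Cfsg.charDegree (χ : G → ℂ) = 1 ∨ 2 ∣ Cfsg.charDegree (χ : G → ℂ)) ∧ (Nat.card G : ℂ)⁻¹ * ∑ᶠ g : G, (χ : G → ℂ) (g * g) = 1}, Cfsg.charDegree (χ.1 : G → ℂ)) := by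
  classical
  have := Fintype.ofFinite G
  have := Cfsg.Agent.Lib.Helper20.finite_irrCharacter (G := G)
  have := Fintype.ofFinite (Cfsg.IrrCharacter G)
  obtain ⟨t, ht2, hcount⟩ := Cfsg.Agent.Lib.Helper21.SReal.exists_even_degree_count N P hN q hq
    hNel hP hP1 hdisj hprod hmin
  have hnuG : ∀ χ : Cfsg.IrrCharacter G, (Nat.card G : ℂ)⁻¹ * ∑ᶠ g : G, (χ : G → ℂ) (g * g)
      = Cfsg.Agent.Lib.Helper78.fsNu (χ : G → ℂ) := by
    intro χ
    rw [finsum_eq_sum_of_fintype]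
    rfl
  obtain ⟨S, hS⟩ : ∃ S : Finset (Cfsg.IrrCharacter G), S = Finset.univ.filter
      (fun χ : Cfsg.IrrCharacter G => (Cfsg.charDegree (χ : G → ℂ) = 1 ∨
        2 ∣ Cfsg.charDegree (χ : G → ℂ)) ∧ Cfsg.Agent.Lib.Helper78.fsNu (χ : G → ℂ) = 1) :=
    ⟨_, rfl⟩
  have hmemS : ∀ χ, χ ∈ S ↔ (Cfsg.charDegree (χ : G → ℂ) = 1 ∨
        2 ∣ Cfsg.charDegree (χ : G → ℂ)) ∧ Cfsg.Agent.Lib.Helper78.fsNu (χ : G → ℂ) = 1 := by
    intro χ
    rw [hS]
    simp
  have hmemS' : ∀ χ : Cfsg.IrrCharacter G, χ ∈ S ↔ (Cfsg.charDegree (χ : G → ℂ) = 1 ∨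
        2 ∣ Cfsg.charDegree (χ : G → ℂ)) ∧
        (Nat.card G : ℂ)⁻¹ * ∑ᶠ g : G, (χ : G → ℂ) (g * g) = 1 := by
    intro χ
    rw [hmemS, hnuG]
  have hcardS : Nat.card {χ : Cfsg.IrrCharacter G // (Cfsg.charDegree (χ : G → ℂ) = 1 ∨
        2 ∣ Cfsg.charDegree (χ : G → ℂ)) ∧
        (Nat.card G : ℂ)⁻¹ * ∑ᶠ g : G, (χ : G → ℂ) (g * g) = 1}
      = S.card := by
    rw [Nat.card_eq_fintype_card]
    exact Fintype.card_of_subtype S hmemS'
  have hsumS : ∑ᶠ χ : {χ : Cfsg.IrrCharacter G // (Cfsg.charDegree (χ : G → ℂ) = 1 ∨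
        2 ∣ Cfsg.charDegree (χ : G → ℂ)) ∧
        (Nat.card G : ℂ)⁻¹ * ∑ᶠ g : G, (χ : G → ℂ) (g * g) = 1},
        Cfsg.charDegree (χ.1 : G → ℂ) = ∑ χ ∈ S, Cfsg.charDegree (χ : G → ℂ) := by
    rw [finsum_eq_sum_of_fintype]
    exact (Finset.sum_subtype S hmemS' (fun χ => Cfsg.charDegree (χ : G → ℂ))).symm
  rw [hcardS, hsumS]
  have hc := Finset.card_filter_add_card_filter_not (s := S)
    (fun χ : Cfsg.IrrCharacter G => Cfsg.charDegree (χ : G → ℂ) = 1)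
  have hs := Finset.sum_filter_add_sum_filter_not S
    (fun χ : Cfsg.IrrCharacter G => Cfsg.charDegree (χ : G → ℂ) = 1)
    (fun χ => Cfsg.charDegree (χ : G → ℂ))
  have h1 : ∑ χ ∈ S.filter (fun χ : Cfsg.IrrCharacter G => Cfsg.charDegree (χ : G → ℂ) = 1),
      Cfsg.charDegree (χ : G → ℂ)
      = (S.filter (fun χ : Cfsg.IrrCharacter G => Cfsg.charDegree (χ : G → ℂ) = 1)).card := by
    rw [Finset.card_eq_sum_ones]
    apply Finset.sum_congr rfl
    intro χ hχ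
    exact (Finset.mem_filter.mp hχ).2
  have h2 : 2 * (S.filter (fun χ : Cfsg.IrrCharacter G => ¬ Cfsg.charDegree (χ : G → ℂ) = 1)).card
      ≤ ∑ χ ∈ S.filter (fun χ : Cfsg.IrrCharacter G => ¬ Cfsg.charDegree (χ : G → ℂ) = 1),
        Cfsg.charDegree (χ : G → ℂ) := by
    have := Finset.card_nsmul_le_sum
      (S.filter (fun χ : Cfsg.IrrCharacter G => ¬ Cfsg.charDegree (χ : G → ℂ) = 1))
      (fun χ => Cfsg.charDegree (χ : G → ℂ)) 2 (by
        intro χ hχ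
        obtain ⟨hχS, hne⟩ := Finset.mem_filter.mp hχ
        have hd := ((hmemS χ).mp hχS).1.resolve_left hne
        have hpos := Cfsg.Agent.Lib.Helper82.isIrr_charDegree_pos χ.2
        exact Nat.le_of_dvd hpos hd)
    rw [smul_eq_mul, mul_comm] at this
    exact this
  have h3 : (S.filter (fun χ : Cfsg.IrrCharacter G => Cfsg.charDegree (χ : G → ℂ) = 1)).card
      ≤ ∑ χ ∈ S.filter (fun χ : Cfsg.IrrCharacter G => ¬ Cfsg.charDegree (χ : G → ℂ) = 1),
        Cfsg.charDegree (χ : G → ℂ) := by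
    have e1 : S.filter (fun χ : Cfsg.IrrCharacter G => Cfsg.charDegree (χ : G → ℂ) = 1)
        = Finset.univ.filter (fun χ : Cfsg.IrrCharacter G =>
          Cfsg.charDegree (χ : G → ℂ) = 1 ∧ Cfsg.Agent.Lib.Helper78.fsNu (χ : G → ℂ) = 1) := by
      ext χ
      rw [Finset.mem_filter, hmemS, Finset.mem_filter]
      constructor
      · rintro ⟨⟨-, h⟩, h'⟩
        exact ⟨Finset.mem_univ _, h', h⟩
      · rintro ⟨-, h', h⟩
        exact ⟨⟨Or.inl h', h⟩, h'⟩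
    have e2 : Finset.univ.filter (fun χ : Cfsg.IrrCharacter G =>
          Cfsg.charDegree (χ : G → ℂ) = t ∧ Cfsg.Agent.Lib.Helper78.fsNu (χ : G → ℂ) = 1)
        ⊆ S.filter (fun χ : Cfsg.IrrCharacter G => ¬ Cfsg.charDegree (χ : G → ℂ) = 1) := by
      intro χ hχ
      obtain ⟨-, h', h⟩ := Finset.mem_filter.mp hχ
      refine Finset.mem_filter.mpr ⟨(hmemS χ).mpr ⟨Or.inr (h' ▸ ht2), h⟩, ?_⟩
      intro h1'
      rw [h'] at h1'
      rw [h1'] at ht2
      omega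
    have e3 : ∑ χ ∈ Finset.univ.filter (fun χ : Cfsg.IrrCharacter G =>
          Cfsg.charDegree (χ : G → ℂ) = t ∧ Cfsg.Agent.Lib.Helper78.fsNu (χ : G → ℂ) = 1),
          Cfsg.charDegree (χ : G → ℂ)
        = t * (Finset.univ.filter (fun χ : Cfsg.IrrCharacter G =>
          Cfsg.charDegree (χ : G → ℂ) = t ∧
            Cfsg.Agent.Lib.Helper78.fsNu (χ : G → ℂ) = 1)).card := by
      rw [Finset.sum_congr rfl (fun χ hχ => (Finset.mem_filter.mp hχ).2.1), Finset.sum_const,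
        smul_eq_mul, mul_comm]
    rw [e1]
    refine le_trans ?_ (Finset.sum_le_sum_of_subset e2)
    rw [e3]
    exact @hcount _ _
  omega

end Cfsg.Agent.S4871
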