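import Cfsg.Statements.S4873
import Cfsg.Agent.Lib.Helper83.OddReal2

set_option autoImplicit false
open Cfsg
open Cfsg.Agent.Lib.Helper83 Cfsg.Agent.Lib.Helper20 Cfsg.Agent.Lib.Helper78 Cfsg.Agent.Lib.Helper5

namespace Cfsg.Agent.S4873

/-- Let N be a normal subgroup of odd index in the finite group G. Then every irreducible complex character of N with Frobenius–Schur indicator +1 lies under exactly one irreducible character of G with Frobenius–Schur indicator +1. -/
theorem result {G : Type*} [Group G] [Finite G] (N : Subgroup G) [N.Normal] (hodd : Odd N.index) (φ : Cfsg.IrrCharacter ↥N) (hφ : (Nat.card ↥N : ℂ)⁻¹ * ∑ᶠ g : ↥N, (φ : ↥N → ℂ) (g * g) = 1) : ∃! χ : Cfsg.IrrCharacter G, (Nat.card G : ℂ)⁻¹ * ∑ᶠ g : G, (χ : G → ℂ) (g * g) = 1 ∧ (∑ᶠ n : ↥N, (χ : G → ℂ) n * (starRingEnd ℂ) ((φ : ↥N → ℂ) n)) ≠ 0 := by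
  classical
  have := Fintype.ofFinite G
  have := Fintype.ofFinite N
  have := Fintype.ofFinite (IrrCharacter G)
  have hNc : (Nat.card N : ℂ) ≠ 0 := card_ne_zero_complex
  have hnuG : ∀ χ : IrrCharacter G, (Nat.card G : ℂ)⁻¹ * ∑ᶠ g : G, (χ : G → ℂ) (g * g)
      = fsNu (χ : G → ℂ) := by
    intro χ
    rw [finsum_eq_sum_of_fintype]
    rfl
  have hnuN : fsNu (φ : N → ℂ) = 1 := by
    rw [finsum_eq_sum_of_fintype] at hφ
    exact hφ
  have hin : ∀ χ : IrrCharacter G,
      (∑ᶠ n : ↥N, (χ : G → ℂ) n * (starRingEnd ℂ) ((φ : ↥N → ℂ) n)) ≠ 0 ↔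
      classInner (fun n : N => (χ : G → ℂ) n) (φ : N → ℂ) ≠ 0 := by
    intro χ
    rw [finsum_eq_sum_of_fintype]
    unfold classInner
    constructor
    · intro h
      exact mul_ne_zero (inv_ne_zero hNc) h
    · intro h
      exact right_ne_zero_of_mul h
  simp only [hnuG, hin]
  have hreal : ∀ n : N, ((φ : N → ℂ) n).im = 0 := by
    intro n
    by_contra hn
    have := (fsNu_irr φ.2).2.mpr ⟨n, hn⟩
    rw [hnuN] at this
    exact one_ne_zero this
  have hrealG : ∀ χ : IrrCharacter G, fsNu (χ : G → ℂ) ≠ 0 → ∀ g : G, ((χ : G → ℂ) g).im = 0 := by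
    intro χ h g
    by_contra hg
    exact h ((fsNu_irr χ.2).2.mpr ⟨g, hg⟩)
  obtain ⟨χ₀, hχ₀r, hχ₀⟩ := exists_real_over N hodd φ.2 hreal
  have hsum := fsNu_sum_restrict N hodd φ.2
  rw [hnuN, Finset.sum_eq_single χ₀] at hsum
  · refine ⟨χ₀, ⟨?_, hχ₀⟩, ?_⟩
    · obtain ⟨m, hm⟩ := isCharacter_classInner_nat
        (isCharacter_restrict (isCharacter_of_isIrrCharacter χ₀.2) N) φ.2
      rw [hm] at hsum
      rcases (fsNu_irr χ₀.2).1 with h | h | h
      · rw [h, zero_mul] at hsum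
        exact absurd hsum zero_ne_one
      · exact h
      · rw [h] at hsum
        exfalso
        have h2 : ((m + 1 : ℕ) : ℂ) = 0 := by
          push_cast
          linear_combination -hsum
        exact Nat.succ_ne_zero m (by exact_mod_cast h2)
    · rintro χ ⟨h1, h2⟩
      exact real_over_unique N hodd φ.2 hreal χ χ₀
        (hrealG χ (by rw [h1]; exact one_ne_zero)) hχ₀r h2 hχ₀
  · intro χ _ hne
    by_contra hc
    apply hne
    exact real_over_unique N hodd φ.2 hreal χ χ₀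
      (hrealG χ (left_ne_zero_of_mul hc)) hχ₀r (right_ne_zero_of_mul hc) hχ₀
  · intro h
    exact absurd (Finset.mem_univ _) h

end Cfsg.Agent.S4873
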