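import Cfsg.Statements.S4885
import Cfsg.Agent.Lib.Helper84.PPrimeDeg
import Cfsg.Agent.Lib.Helper5.PrinSolv
-- import your own Cfsg.Agent.* helpers here

set_option autoImplicit false
open Cfsg
open scoped ComplexConjugate
open Cfsg.Agent.Lib.Helper20 Cfsg.Agent.Lib.Helper82 Cfsg.Agent.Lib.Helper84

namespace Cfsg.Agent.S4885

variable {G : Type*} [Group G] [Finite G]

/-- intersection of the kernels of a family of irreducible characters -/
def kerOf (X : Set (IrrCharacter G)) : Subgroup G :=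
  ⨅ χ : X, charKer ((χ : IrrCharacter G) : G → ℂ) (isIrr_isChar (χ : IrrCharacter G).2)

theorem mem_kerOf {X : Set (IrrCharacter G)} {g : G} :
    g ∈ kerOf X ↔ ∀ χ ∈ X, (χ : G → ℂ) g = (χ : G → ℂ) 1 := by
  unfold kerOf
  rw [Subgroup.mem_iInf]
  constructor
  · intro h χ hχ
    exact h ⟨χ, hχ⟩
  · intro h χ
    exact h χ χ.2

instance kerOf_normal (X : Set (IrrCharacter G)) : (kerOf X).Normal := by
  unfold kerOf
  exact Subgroup.normal_iInf_normal fun χ => inferInstance

theorem sylow_eq_bot_of_le_commutator {p : ℕ} [Fact p.Prime] (P : Sylow p G)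
    (h : (P : Subgroup G) ≤ ⁅(P : Subgroup G), (P : Subgroup G)⁆) : (P : Subgroup G) = ⊥ := by
  by_contra hne
  have hnt : Nontrivial (P : Subgroup G) := (Subgroup.nontrivial_iff_ne_bot _).2 hne
  have hnil : Group.IsNilpotent (P : Subgroup G) := P.2.isNilpotent
  have hsol : Group.IsSolvable (P : Subgroup G) := inferInstance
  have h1 := Group.IsSolvable.commutator_lt_top_of_nontrivial (P : Subgroup G)
  apply h1.ne
  rw [eq_top_iff]
  intro x _
  have h2 := h x.2
  rw [← Subgroup.map_subtype_commutator] at h2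
  obtain ⟨y, hy, hyx⟩ := h2
  have : y = x := Subtype.ext hyx
  rw [← this]
  exact hy


/-- Let p and q be primes dividing the order of the finite group G, and suppose G is p-solvable and q-solvable. Fix maximal ideals of the algebraic integers containing p and q, defining the principal p-block and the principal q-block. If the irreducible characters of degree prime to p in the principal p-block are exactly the irreducible characters of degree prime to q in the principal q-block, then p = q. -/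
theorem result {G : Type*} [Group G] [Finite G] (p q : ℕ) [Fact p.Prime] [Fact q.Prime] (hp : p ∣ Nat.card G) (hq : q ∣ Nat.card G) (hps : Cfsg.IsPSolvable p G) (hqs : Cfsg.IsPSolvable q G) (Mp Mq : Ideal Cfsg.AlgInt) (hMp : Cfsg.IsPModular p Mp) (hMq : Cfsg.IsPModular q Mq) (h : ∀ χ : Cfsg.IrrCharacter G, (χ ∈ Cfsg.principalBlock Mp G ∧ ¬ p ∣ Cfsg.charDegree (χ : G → ℂ)) ↔ (χ ∈ Cfsg.principalBlock Mq G ∧ ¬ q ∣ Cfsg.charDegree (χ : G → ℂ))) : p = q := by
  by_contra hpq
  have hpp : p.Prime := Fact.out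
  have hqp : q.Prime := Fact.out
  let X : Set (IrrCharacter G) := {χ | χ ∈ principalBlock Mp G ∧ ¬ p ∣ charDegree (χ : G → ℂ)}
  have hXp : ∀ χ : IrrCharacter G, χ ∈ X ↔ ((∀ n ∈ pPrimeCore p G, (χ : G → ℂ) n = (χ : G → ℂ) 1) ∧
      ¬ p ∣ charDegree (χ : G → ℂ)) := by
    intro χ
    show (_ ∧ _) ↔ _
    rw [Cfsg.Agent.Lib.Helper5.mem_principalBlock_iff_of_isPSolvable hMp hps]
  have hXq : ∀ χ : IrrCharacter G, χ ∈ X ↔ ((∀ n ∈ pPrimeCore q G, (χ : G → ℂ) n = (χ : G → ℂ) 1) ∧
      ¬ q ∣ charDegree (χ : G → ℂ)) := by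
    intro χ
    show (_ ∧ _) ↔ _
    rw [h χ, Cfsg.Agent.Lib.Helper5.mem_principalBlock_iff_of_isPSolvable hMq hqs]
  set K := kerOf X with hK
  obtain ⟨P⟩ : Nonempty (Sylow p G) := inferInstance
  obtain ⟨Q⟩ : Nonempty (Sylow q G) := inferInstance
  have hAp : pPrimeCore p G ≤ K := fun n hn => mem_kerOf.2 fun χ hχ => ((hXp χ).1 hχ).1 n hn
  have hAq : pPrimeCore q G ≤ K := fun n hn => mem_kerOf.2 fun χ hχ => ((hXq χ).1 hχ).1 n hn
  have hKP : K ⊓ (P : Subgroup G) ≤ ⁅(P : Subgroup G), (P : Subgroup G)⁆ := by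
    rintro x ⟨hxK, hxP⟩
    by_contra hx
    obtain ⟨χ, h1, h2, h3⟩ := exists_irr_not_dvd_ne_core P hxP hx
    exact h3 (mem_kerOf.1 hxK χ ((hXp χ).2 ⟨h2, h1⟩))
  have hKQ : K ⊓ (Q : Subgroup G) ≤ ⁅(Q : Subgroup G), (Q : Subgroup G)⁆ := by
    rintro x ⟨hxK, hxQ⟩
    by_contra hx
    obtain ⟨χ, h1, h2, h3⟩ := exists_irr_not_dvd_ne_core Q hxQ hx
    exact h3 (mem_kerOf.1 hxK χ ((hXq χ).2 ⟨h2, h1⟩))
  obtain ⟨n, H, h0, hn, hmono, hnorm, hstep⟩ := hps
  have key : ∀ i : Fin (n + 1), H i ≤ K := by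
    intro i
    induction i using Fin.induction with
    | zero => rw [h0]; exact bot_le
    | succ i ih =>
      have := hnorm i.succ
      have hT : (H i.succ ⊔ K).Normal := inferInstance
      have hrel : K.relIndex (H i.succ ⊔ K) ∣ (H i.castSucc).relIndex (H i.succ) := by
        rw [Subgroup.relIndex_sup_right]
        exact Subgroup.relIndex_dvd_of_le_left _ ih
      have hle : H i.succ ⊔ K ≤ K := by
        rcases hstep i with ⟨m, hm⟩ | hc
        · apply le_of_coprime_relIndex Q K _ hAq hKQ le_sup_right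
          rw [hm] at hrel
          apply Nat.Coprime.coprime_dvd_left hrel
          exact Nat.Coprime.pow_left m ((Nat.coprime_primes hpp hqp).2 hpq)
        · apply le_of_coprime_relIndex P K _ hAp hKP le_sup_right
          exact Nat.Coprime.coprime_dvd_left hrel hc
      exact le_sup_left.trans hle
  have htop : (⊤ : Subgroup G) ≤ K := hn ▸ key (Fin.last n)
  have hP : (P : Subgroup G) = ⊥ :=
    sylow_eq_bot_of_le_commutator P ((le_inf (le_top.trans htop) le_rfl).trans hKP)
  have hcard : Nat.card (P : Subgroup G) = 1 := by rw [hP]; exact Subgroup.card_bot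
  have h2 := P.card_eq_multiplicity
  rw [hcard] at h2
  have h3 : (Nat.card G).factorization p ≠ 0 := by
    have := (hpp.dvd_iff_one_le_factorization Nat.card_pos.ne').1 hp
    omega
  have h4 : 1 < p ^ (Nat.card G).factorization p := Nat.one_lt_pow h3 hpp.one_lt
  omega

end Cfsg.Agent.S4885
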