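import Cfsg.Statements.S4888
import Cfsg.Agent.Lib.Helper84.Green
import Cfsg.Agent.Lib.Helper84.BlockQuot
import Cfsg.Agent.Lib.Helper82.Linear
import Cfsg.Agent.Lib.Helper82.Codegree
import Cfsg.Agent.Lib.Helper58.NormalComplement
import Cfsg.Agent.Lib.Helper40.PComp
import Cfsg.Agent.Lib.Helper3.PGroup
import Cfsg.Agent.Lib.Helper21.KeyLemma
import Cfsg.Agent.S0081
import Cfsg.Agent.Lib.Helper21.DefectCard
import Cfsg.Agent.Lib.Helper80.BlockBasic
-- import your own Cfsg.Agent.* helpers here

set_option autoImplicit false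
open Cfsg
open scoped ComplexConjugate
open Cfsg.Agent.Lib.Helper20 Cfsg.Agent.Lib.Helper81 Cfsg.Agent.Lib.Helper84 Cfsg.Agent.Lib.Helper80

namespace Cfsg.Agent.S4888

section
variable {G : Type*} [Group G] [Fintype G] {p : ℕ} {M : Ideal AlgInt}

theorem sInf_principal (hM : IsPModular p M) :
    sInf ((fun χ : IrrCharacter G => (charDegree (χ : G → ℂ)).factorization p) ''
      principalBlock M G) = 0 := by
  apply Nat.eq_zero_of_le_zero
  apply Nat.sInf_le
  refine ⟨trivIrr G, trivIrr_mem_principalBlock hM, ?_⟩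
  have : charDegree ((trivIrr G : IrrCharacter G) : G → ℂ) = 1 := by
    simp [charDegree, trivIrr]
  simp only [this]
  simp

theorem key_extend [Fact p.Prime] (hM : IsPModular p M) (P : Subgroup G) (hP : IsPGroup p P)
    (hPi : ¬ p ∣ P.index)
    (hlin : ∀ χ ∈ principalBlock M G, ¬ p ∣ charDegree (χ : G → ℂ) → charDegree (χ : G → ℂ) = 1)
    (μ : P → ℂ) (hμ : IsIrrCharacter P μ) (hμ1 : μ 1 = 1) :
    ∃ χ ∈ principalBlock M G, (χ : G → ℂ) 1 = 1 ∧ ∀ x : P, (χ : G → ℂ) x = μ x := by
  classical
  have hp : p.Prime := Fact.out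
  haveI : Fintype (IrrCharacter G) := Fintype.ofFinite _
  by_contra hno
  push Not at hno
  have hB : IsPBlock M (principalBlock M G) := ⟨trivIrr G, rfl⟩
  have h1 : ∑ x : P, blockCoeff (principalBlock M G) (x : G) * μ x =
      blockCoeff (principalBlock M G) 1 * μ 1 := by
    rw [Finset.sum_eq_single (1 : P)]
    · rfl
    · intro x _ hx
      rw [Cfsg.Agent.Lib.Helper21.blockCoeff_eq_zero_of_singular hM _ hB, zero_mul]
      obtain ⟨k, hk⟩ := (IsPGroup.iff_orderOf.1 hP) x
      rw [Subgroup.orderOf_coe, hk]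
      apply dvd_pow_self
      rintro rfl
      rw [pow_zero, orderOf_eq_one_iff] at hk
      exact hx hk
    · intro h; exact absurd (Finset.mem_univ _) h
  have h2 : ∑ x : P, blockCoeff (principalBlock M G) (x : G) * μ x =
      (Nat.card G : ℂ)⁻¹ * (Nat.card P : ℂ) * ∑ χ : IrrCharacter G,
        if χ ∈ principalBlock M G then (χ : G → ℂ) 1 * classInner μ (fun x : P => (χ : G → ℂ) x)
        else 0 := by
    simp only [blockCoeff, finsum_mem_irr, classInner]
    have hP0 : (Nat.card P : ℂ) ≠ 0 := by exact_mod_cast Nat.card_pos.ne'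
    simp only [Finset.mul_sum, Finset.sum_mul]
    rw [Finset.sum_comm]
    apply Finset.sum_congr rfl
    intro χ _
    split_ifs
    · simp only [Finset.mul_sum]
      apply Finset.sum_congr rfl
      intro x _
      field_simp
    · simp
  have h3 : MemLocalIdeal M (∑ χ : IrrCharacter G,
        if χ ∈ principalBlock M G then (χ : G → ℂ) 1 * classInner μ (fun x : P => (χ : G → ℂ) x)
        else 0) := by
    apply memLocalIdeal_sum hM
    intro χ _
    split_ifs with hχ
    · obtain ⟨n, hn⟩ := isCharacter_classInner_nat' (isCharacter_of_isIrrCharacter hμ)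
        (isCharacter_restrict (isCharacter_of_isIrrCharacter χ.2) P)
      by_cases hd : p ∣ charDegree (χ : G → ℂ)
      · rw [Cfsg.Agent.Lib.Helper21.irr_one_eq_charDegree, hn]
        exact memLocalIdeal_mul_right hM ((memLocalIdeal_natCast_iff hM _).2 hd)
          (memLocalRing_natCast hM _)
      · have hd1 := hlin χ hχ hd
        have h11 : (χ : G → ℂ) 1 = 1 := by
          rw [Cfsg.Agent.Lib.Helper21.irr_one_eq_charDegree, hd1]; simp
        obtain ⟨x, hx⟩ := hno χ hχ h11
        have hirr : IsIrrCharacter P (fun x : P => (χ : G → ℂ) x) :=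
          Cfsg.Agent.Lib.Helper82.isChar_linear_isIrr
            (isCharacter_restrict (isCharacter_of_isIrrCharacter χ.2) P) h11
        rw [classInner_irr_ne hμ hirr (fun h => hx (congrFun h x).symm), mul_zero]
        exact memLocalIdeal_zero hM
    · exact memLocalIdeal_zero hM
  apply not_memLocalIdeal_blockCoeff_one hM _ hB
  have hd : blockDefect p (principalBlock M G) = (Nat.card G).factorization p := by
    rw [blockDefect, sInf_principal hM, Nat.sub_zero]
  rw [hd, Nat.sub_self, pow_zero, div_one]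
  rw [h1, hμ1, mul_one] at h2
  rw [h2]
  have hidx : (Nat.card G : ℂ)⁻¹ * (Nat.card P : ℂ) = (P.index : ℂ)⁻¹ := by
    have h5 : (Nat.card G : ℂ) = (Nat.card P : ℂ) * (P.index : ℂ) := by
      exact_mod_cast (P.card_mul_index).symm
    have hP0 : (Nat.card P : ℂ) ≠ 0 := by exact_mod_cast Nat.card_pos.ne'
    have hI0 : (P.index : ℂ) ≠ 0 := by
      exact_mod_cast P.index_ne_zero_of_finite
    rw [h5]
    field_simp
  rw [hidx]
  apply memLocalIdeal_mul_left hM _ h3
  apply memLocalRing_inv (memLocalRing_natCast hM _)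
  rw [memLocalIdeal_natCast_iff hM]
  exact hPi

theorem mem_commutator_of_hom {P : Type*} [Group P] [Finite P] (x : P)
    (h : ∀ μ : P →* ℂˣ, μ x = 1) : x ∈ commutator P := by
  by_contra hx
  have h1 : Abelianization.of x ≠ 1 := by
    intro h0
    apply hx
    rw [← Abelianization.ker_of, MonoidHom.mem_ker]
    exact h0
  haveI : NeZero (Monoid.exponent (Abelianization P)) := ⟨Monoid.exponent_ne_zero_of_finite⟩
  obtain ⟨φ, hφ⟩ := CommGroup.exists_apply_ne_one_of_hasEnoughRootsOfUnity (Abelianization P) ℂ h1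
  exact hφ (h (φ.comp Abelianization.of))

/-- The elements killed by the `m`-th powers of all linear characters. -/
def linKer (G : Type*) [Group G] (m : ℕ) : Subgroup G where
  carrier := {g | ∀ χ : IrrCharacter G, (χ : G → ℂ) 1 = 1 → (χ : G → ℂ) g ^ m = 1}
  one_mem' := by
    intro χ h1
    rw [h1, one_pow]
  mul_mem' := by
    intro a b ha hb χ h1
    rw [Cfsg.Agent.Lib.Helper82.isChar_linear_mul (isCharacter_of_isIrrCharacter χ.2) h1, mul_pow,
      ha χ h1, hb χ h1, one_mul]
  inv_mem' := by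
    intro a ha χ h1
    have h2 := Cfsg.Agent.Lib.Helper82.isChar_linear_mul (isCharacter_of_isIrrCharacter χ.2) h1 a⁻¹ a
    rw [inv_mul_cancel, h1] at h2
    have h3 : ((χ : G → ℂ) a⁻¹ * (χ : G → ℂ) a) ^ m = 1 := by rw [← h2, one_pow]
    rw [mul_pow, ha χ h1, mul_one] at h3
    exact h3

instance linKer_normal (m : ℕ) : (linKer G m).Normal := by
  constructor
  intro n hn g χ h1
  rw [irr_classFunction χ]
  exact hn χ h1

end


/-- Let G be a finite group, p a prime and M a maximal ideal of the algebraic integers containing p. Then all height-zero irreducible characters of the principal p-block of G (equivalently, all its characters of degree prime to p) have the same degree if and only if G has a normal p-complement. -/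
theorem result {G : Type*} [Group G] [Finite G] (p : ℕ) [Fact p.Prime] (M : Ideal Cfsg.AlgInt) (hM : Cfsg.IsPModular p M) : (∃ d : ℕ, ∀ χ : Cfsg.IrrCharacter G, χ ∈ (Cfsg.principalBlock M G) → Cfsg.blockHeight p (Cfsg.principalBlock M G) (χ : G → ℂ) = 0 → Cfsg.charDegree (χ : G → ℂ) = d) ↔ Cfsg.HasNormalPComplement p G := by
  classical
  have hp : p.Prime := Fact.out
  haveI := Fintype.ofFinite G
  constructor
  · rintro ⟨d, hd⟩
    have hd1 : d = 1 := by
      rw [← hd (trivIrr G) (trivIrr_mem_principalBlock hM) (by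
        rw [blockHeight, sInf_principal hM]
        simp [charDegree, trivIrr])]
      simp [charDegree, trivIrr]
    subst hd1
    have hlin : ∀ χ ∈ principalBlock M G, ¬ p ∣ charDegree (χ : G → ℂ) →
        charDegree (χ : G → ℂ) = 1 := by
      intro χ hχ hdvd
      apply hd χ hχ
      rw [blockHeight, sInf_principal hM, Nat.factorization_eq_zero_of_not_dvd hdvd]
    obtain ⟨P⟩ : Nonempty (Sylow p G) := inferInstance
    obtain ⟨a, ha⟩ := IsPGroup.iff_card.1 P.2
    have hcard : p ^ a * (P : Subgroup G).index = Nat.card G := by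
      rw [← ha]; exact (P : Subgroup G).card_mul_index
    have hlinpow : ∀ (χ : IrrCharacter G), (χ : G → ℂ) 1 = 1 → ∀ (g : G) (n : ℕ),
        (χ : G → ℂ) (g ^ n) = (χ : G → ℂ) g ^ n := fun χ h1 g n =>
      Cfsg.Agent.Lib.Helper82.isChar_linear_pow (isCharacter_of_isIrrCharacter χ.2) h1 g n
    have hquot : IsPGroup p (G ⧸ linKer G (P : Subgroup G).index) := by
      intro x
      obtain ⟨g, rfl⟩ := QuotientGroup.mk_surjective x
      refine ⟨a, ?_⟩
      rw [← QuotientGroup.mk_pow, QuotientGroup.eq_one_iff]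
      intro χ h1
      rw [← hlinpow χ h1, ← pow_mul, hcard, pow_card_eq_one', h1]
    obtain ⟨k, hk⟩ := IsPGroup.iff_card.1 hquot
    rw [← Subgroup.index_eq_card] at hk
    apply Cfsg.Agent.Lib.Helper58.hasNormalPComplement_of_normal_index_pow
      (linKer G (P : Subgroup G).index) k hk
    apply Cfsg.Agent.S0081.result P
    rintro x ⟨hxN, hxP⟩
    refine ⟨⟨x, hxP⟩, Cfsg.Agent.Lib.Helper3.commutator_le_frattini P.2 ?_, rfl⟩
    apply mem_commutator_of_hom
    intro μ
    obtain ⟨χ, -, h1, hres⟩ := key_extend hM (P : Subgroup G) P.2 P.not_dvd_index hlin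
      (fun y => ((μ y : ℂˣ) : ℂ)) (Cfsg.Agent.Lib.Helper83.isIrr_of_hom μ) (by simp)
    have e1 : (χ : G → ℂ) x ^ (P : Subgroup G).index = 1 := hxN χ h1
    have e2 : (χ : G → ℂ) x ^ (p ^ a) = 1 := by
      rw [← hlinpow χ h1]
      have : x ^ (p ^ a) = 1 := by
        have h3 : (⟨x, hxP⟩ : (P : Subgroup G)) ^ (p ^ a) = 1 := by
          rw [← ha]; exact pow_card_eq_one'
        have := congrArg Subtype.val h3
        simpa using this
      rw [this, h1]
    have e3 := pow_gcd_eq_one.2 ⟨e1, e2⟩
    have hcop : Nat.gcd (P : Subgroup G).index (p ^ a) = 1 :=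
      Nat.Coprime.pow_right a ((Nat.Prime.coprime_iff_not_dvd hp).2 P.not_dvd_index).symm
    rw [hcop, pow_one] at e3
    have e4 := hres ⟨x, hxP⟩
    apply Units.ext
    rw [← e4]
    exact e3
  · intro h
    obtain ⟨K, hKn, hcop, hquot, -⟩ := Cfsg.Agent.Lib.Helper40.HasNormalPComplement.exists_normal h
    refine ⟨1, ?_⟩
    intro χ hχ hh
    have hKp : ¬ p ∣ Nat.card K := fun hdvd =>
      hp.one_lt.ne' (Nat.Coprime.eq_one_of_dvd hcop.symm hdvd)
    have hker : χ ∈ overKer K :=
      overKer_union_of_blocks hM K hKp (χ := trivIrr G) (fun _ _ => rfl) hχ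
    have hdvd := Cfsg.Agent.Lib.Helper82.isIrr_charDegree_dvd_index χ.2 K hker
    obtain ⟨k, hk⟩ := IsPGroup.iff_card.1 hquot
    rw [← Subgroup.index_eq_card] at hk
    rw [hk] at hdvd
    obtain ⟨j, -, hj⟩ := (Nat.dvd_prime_pow hp).1 hdvd
    rw [blockHeight, sInf_principal hM, Nat.sub_zero, hj, hp.factorization_pow] at hh
    simp at hh
    rw [hj, hh, pow_zero]

end Cfsg.Agent.S4888
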