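import Cfsg.Statements.S4911
import Cfsg.Agent.Lib.Helper77.GlaubReal

set_option autoImplicit false
open Cfsg

namespace Cfsg.Agent.S4911

open Subgroup Cfsg.Agent.Lib.Helper77

/-- Let P and K be subgroups of a finite group with P a p-group normalizing K and K of order prime to p. Then the number of P-invariant real-valued irreducible complex characters of K equals the number of conjugacy classes of K that are real (closed under inversion) and P-invariant. Moreover, if every real-valued irreducible character of K is P-invariant, then every real element of K (one conjugate in K to its inverse) is conjugate in K to an element centralized by P. -/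
theorem result {G : Type*} [Group G] [Finite G] (p : ℕ) [Fact p.Prime] (P K : Subgroup G) (hP : IsPGroup p ↥P) (hK : ¬ p ∣ Nat.card ↥K) (hPK : P ≤ Subgroup.normalizer (K : Set G)) : Nat.card {θ : Cfsg.IrrCharacter ↥K // (∀ k : ↥K, ((θ : ↥K → ℂ) k).im = 0) ∧ (∀ x ∈ P, ∀ k k' : ↥K, (k' : G) = x * (k : G) * x⁻¹ → (θ : ↥K → ℂ) k' = (θ : ↥K → ℂ) k)} = Nat.card {c : ConjClasses ↥K // (∀ k : ↥K, ConjClasses.mk k = c → IsConj k k⁻¹) ∧ ∀ k : ↥K, ConjClasses.mk k = c → ∀ x ∈ P, ∀ k' : ↥K, (k' : G) = x * (k : G) * x⁻¹ → ConjClasses.mk k' = c} ∧ ((∀ θ : Cfsg.IrrCharacter ↥K, (∀ k : ↥K, ((θ : ↥K → ℂ) k).im = 0) → (∀ x ∈ P, ∀ k k' : ↥K, (k' : G) = x * (k : G) * x⁻¹ → (θ : ↥K → ℂ) k' = (θ : ↥K → ℂ) k)) → ∀ k : ↥K, IsConj k k⁻¹ → ∃ k' : ↥K, IsConj k k' ∧ ∀ x ∈ P, x * (k' : G) * x⁻¹ = (k' : G)) := by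
  classical
  have hpp : p.Prime := Fact.out
  have hcop : (Nat.card K).Coprime (Nat.card P) := by
    obtain ⟨n, hn⟩ := IsPGroup.iff_card.1 hP
    rw [hn]
    exact Nat.Coprime.pow_right n ((Nat.Prime.coprime_iff_not_dvd hpp).2 hK).symm
  have hsolv : Group.IsSolvable P ∨ Group.IsSolvable K := Or.inl (by
    have := hP.isNilpotent
    infer_instance)
  set C : Subgroup G := K ⊓ Subgroup.centralizer (P : Set G) with hC
  have : Fintype C := Fintype.ofFinite _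
  have hCK : C ≤ K := inf_le_left
  have hGl := glaub_pgroup p (Nat.card P) K P le_rfl hP hPK hcop C rfl hCK
  have e1 := hGl.card_real_eq
  have e2 := Cfsg.Agent.S0160.result (G := C)
  have e3 := card_real_inv_classes K P hPK hcop hsolv C rfl
  have main : Nat.card {θ : Cfsg.IrrCharacter ↥K // (∀ k : ↥K, ((θ : ↥K → ℂ) k).im = 0) ∧ (∀ x ∈ P, ∀ k k' : ↥K, (k' : G) = x * (k : G) * x⁻¹ → (θ : ↥K → ℂ) k' = (θ : ↥K → ℂ) k)} = Nat.card {c : ConjClasses ↥K // (∀ k : ↥K, ConjClasses.mk k = c → IsConj k k⁻¹) ∧ ∀ k : ↥K, ConjClasses.mk k = c → ∀ x ∈ P, ∀ k' : ↥K, (k' : G) = x * (k : G) * x⁻¹ → ConjClasses.mk k' = c} :=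
    e1.trans (e2.trans e3.symm)
  refine ⟨main, ?_⟩
  intro hall k hk
  have e4 := Cfsg.Agent.S0160.result (G := K)
  -- all real characters are invariant, so the two character counts agree
  have e5 : Nat.card {θ : Cfsg.IrrCharacter ↥K // (∀ k : ↥K, ((θ : ↥K → ℂ) k).im = 0) ∧ (∀ x ∈ P, ∀ k k' : ↥K, (k' : G) = x * (k : G) * x⁻¹ → (θ : ↥K → ℂ) k' = (θ : ↥K → ℂ) k)} = Nat.card {χ : Cfsg.IrrCharacter K // ∀ g : K, ((χ : K → ℂ) g).im = 0} := by
    apply Nat.card_congr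
    exact Equiv.subtypeEquivRight (fun θ => ⟨fun h => h.1, fun h => ⟨h, hall θ h⟩⟩)
  have e6 : Nat.card {c : ConjClasses ↥K // (∀ k : ↥K, ConjClasses.mk k = c → IsConj k k⁻¹) ∧ ∀ k : ↥K, ConjClasses.mk k = c → ∀ x ∈ P, ∀ k' : ↥K, (k' : G) = x * (k : G) * x⁻¹ → ConjClasses.mk k' = c} = Nat.card {C : ConjClasses K // ∀ g : K, ConjClasses.mk g = C → IsConj g g⁻¹} := by
    rw [← main, e5, e4]
  -- hence every real class is invariant
  let ι : {c : ConjClasses ↥K // (∀ k : ↥K, ConjClasses.mk k = c → IsConj k k⁻¹) ∧ ∀ k : ↥K, ConjClasses.mk k = c → ∀ x ∈ P, ∀ k' : ↥K, (k' : G) = x * (k : G) * x⁻¹ → ConjClasses.mk k' = c} → {C : ConjClasses K // ∀ g : K, ConjClasses.mk g = C → IsConj g g⁻¹} := fun c => ⟨c.1, c.2.1⟩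
  have hι : Function.Injective ι := by
    intro a b h
    have h' : (ι a).1 = (ι b).1 := congrArg Subtype.val h
    exact Subtype.ext h'
  have hbij : Function.Bijective ι := hι.bijective_of_nat_card_le e6.ge
  have hkreal : ∀ g : K, ConjClasses.mk g = ConjClasses.mk k → IsConj g g⁻¹ := by
    intro g hg
    have h1 : IsConj g k := ConjClasses.mk_eq_mk_iff_isConj.1 hg
    have h3 : IsConj k⁻¹ g⁻¹ := by
      obtain ⟨x, hx⟩ := isConj_iff.1 h1.symm
      refine isConj_iff.2 ⟨x, ?_⟩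
      rw [← hx]; group
    exact h1.trans (hk.trans h3)
  obtain ⟨⟨c, hc1, hc2⟩, hc⟩ := hbij.2 ⟨ConjClasses.mk k, hkreal⟩
  have hck : c = ConjClasses.mk k := congrArg Subtype.val hc
  subst hck
  obtain ⟨y, hy, hyC⟩ := inv_class_meets K P hPK hcop hsolv C rfl k k.2 (fun a ha => by
    have hm : a * (k : G) * a⁻¹ ∈ K := (mem_normalizer_iff.1 (hPK ha) k).1 k.2
    have := hc2 k rfl a ha ⟨_, hm⟩ rfl
    obtain ⟨x, hx⟩ := isConj_iff.1 (ConjClasses.mk_eq_mk_iff_isConj.1 this).symm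
    exact ⟨x, x.2, (congrArg Subtype.val hx).symm⟩)
  refine ⟨⟨y * (k : G) * y⁻¹, hCK hyC⟩, isConj_iff.2 ⟨⟨y, hy⟩, Subtype.ext rfl⟩, ?_⟩
  intro x hx
  exact conj_fixed_of_mem K P C rfl _ hyC x hx

end Cfsg.Agent.S4911
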