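import Cfsg.Statements.S4912
import Cfsg.Agent.Lib.Helper83.LinCount
import Cfsg.Agent.Lib.Helper83.IndNu

set_option autoImplicit false
open Cfsg
open Cfsg.Agent.Lib.Helper83 Cfsg.Agent.Lib.Helper19 Cfsg.Agent.Lib.Helper20 Cfsg.Agent.Lib.Helper5 Cfsg.Agent.Lib.Helper78

namespace Cfsg.Agent.S4912

/-- Let G be a finite group with a non-abelian minimal normal subgroup N, and let φ be an irreducible complex character of N with stabilizer I in G such that φ extends to an irreducible character of I with Frobenius–Schur indicator +1. Put d = φ(1)·[G : I]. Then the number of linear characters of G with Frobenius–Schur indicator +1 is at most [G : I] times the number of irreducible characters of G of degree d with Frobenius–Schur indicator +1. -/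
theorem result {G : Type*} [Group G] [Finite G] (N : Subgroup G) (hN : N.Normal) (hN1 : N ≠ ⊥) (hmin : ∀ M : Subgroup G, M.Normal → M ≤ N → M = ⊥ ∨ M = N) (hna : ¬ IsMulCommutative ↥N) (φ : Cfsg.IrrCharacter ↥N) (I : Subgroup G) (hI : ∀ g : G, g ∈ I ↔ ∀ n n' : ↥N, (n' : G) = g * (n : G) * g⁻¹ → (φ : ↥N → ℂ) n' = (φ : ↥N → ℂ) n) (hNI : N ≤ I) (hext : ∃ ψ : Cfsg.IrrCharacter ↥I, (Nat.card ↥I : ℂ)⁻¹ * ∑ᶠ g : ↥I, (ψ : ↥I → ℂ) (g * g) = 1 ∧ ∀ n : ↥N, (ψ : ↥I → ℂ) (Subgroup.inclusion hNI n) = (φ : ↥N → ℂ) n) : Nat.card {χ : Cfsg.IrrCharacter G // Cfsg.charDegree (χ : G → ℂ) = 1 ∧ (Nat.card G : ℂ)⁻¹ * ∑ᶠ g : G, (χ : G → ℂ) (g * g) = 1} ≤ I.index * Nat.card {χ : Cfsg.IrrCharacter G // Cfsg.charDegree (χ : G → ℂ) = Cfsg.charDegree (φ : ↥N → ℂ) * I.index ∧ (Nat.card G : ℂ)⁻¹ * ∑ᶠ g : G, (χ : G → ℂ) (g * g) = 1} := by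
  classical
  have := Fintype.ofFinite G
  have : Fintype N := Fintype.ofFinite N
  have : Fintype I := Fintype.ofFinite I
  have := finite_irrCharacter (G := G)
  have := Fintype.ofFinite (IrrCharacter G)
  have := finite_irrCharacter (G := I)
  have := Fintype.ofFinite (IrrCharacter I)
  obtain ⟨ψ, hψnu0, hψext⟩ := hext
  have hnuG : ∀ χ : IrrCharacter G, (Nat.card G : ℂ)⁻¹ * ∑ᶠ g : G, (χ : G → ℂ) (g * g)
      = fsNu (χ : G → ℂ) := by
    intro χ
    rw [finsum_eq_sum_of_fintype]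
    rfl
  have hψnu : fsNu (ψ : I → ℂ) = 1 := by
    rw [finsum_eq_sum_of_fintype] at hψnu0
    exact hψnu0
  simp only [hnuG]
  have hψreal : ∀ x : I, ((ψ : I → ℂ) x).im = 0 := by
    intro x
    by_contra hx
    have := (fsNu_irr ψ.2).2.mpr ⟨x, hx⟩
    rw [hψnu] at this
    exact one_ne_zero this
  have hφreal : ∀ n : N, ((φ : N → ℂ) n).im = 0 := by
    intro n
    rw [← hψext]
    exact hψreal _
  have hcomm := le_commutator_of_minimal_nonabelian N hN hmin hna
  have hT : ∀ g : G, g ∈ I ↔ ∀ n : N,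
      (φ : N → ℂ) ⟨g * n * g⁻¹, hN.conj_mem (n : G) n.2 g⟩ = (φ : N → ℂ) n := by
    intro g
    rw [hI]
    constructor
    · intro h n
      exact h n _ rfl
    · intro h n n' hn'
      have : n' = ⟨g * n * g⁻¹, hN.conj_mem (n : G) n.2 g⟩ := Subtype.ext hn'
      rw [this]
      exact h n
  obtain ⟨hirr, horth, -⟩ := clifford_corr (hN := hN) N φ φ.2 I hT hNI
  set N' : Subgroup I := N.subgroupOf I with hN'
  have hN'n : N'.Normal := Subgroup.Normal.subgroupOf hN I
  have : Fintype N' := Fintype.ofFinite N'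
  set φ' : N' → ℂ := fun x => (φ : N → ℂ) ⟨((x : I) : G), Subgroup.mem_subgroupOf.mp x.2⟩ with hφ'def
  have hφ' : IsIrrCharacter N' φ' := by
    have : φ' = (φ : N → ℂ) ∘ (Subgroup.subgroupOfEquivOfLe hNI) := by
      funext x
      rfl
    rw [this]
    exact isIrrCharacter_comp_equiv _ φ.2
  have hψN : ∀ x : N', (ψ : I → ℂ) x = φ' x := by
    intro x
    exact hψext ⟨((x : I) : G), Subgroup.mem_subgroupOf.mp x.2⟩
  have hlin1 : ∀ lam : IrrCharacter G, charDegree (lam : G → ℂ) = 1 → (lam : G → ℂ) 1 = 1 := by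
    intro lam h
    rw [Cfsg.Agent.Lib.Helper82.isChar_one_eq (isCharacter_of_isIrrCharacter lam.2), h]
    simp
  have hlinN : ∀ lam : IrrCharacter G, charDegree (lam : G → ℂ) = 1 → ∀ n ∈ N,
      (lam : G → ℂ) n = 1 := by
    intro lam h n hn
    exact Cfsg.Agent.Lib.Helper82.isChar_linear_commutator (isCharacter_of_isIrrCharacter lam.2)
      (hlin1 lam h) (hcomm hn)
  have hresc : ∀ lam : IrrCharacter G, IsCharacter I (fun x : I => (lam : G → ℂ) x) :=
    fun lam => isCharacter_restrict (isCharacter_of_isIrrCharacter lam.2) I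
  have hψl : ∀ lam : IrrCharacter G, charDegree (lam : G → ℂ) = 1 →
      IsIrrCharacter I ((ψ : I → ℂ) * fun x : I => (lam : G → ℂ) x) := by
    intro lam h
    rw [mul_comm]
    exact Cfsg.Agent.Lib.Helper82.isIrr_linear_mul (hresc lam) (hlin1 lam h) ψ.2
  have hover : ∀ lam : IrrCharacter G, charDegree (lam : G → ℂ) = 1 →
      classInner (indFun N' φ') ((ψ : I → ℂ) * fun x : I => (lam : G → ℂ) x) ≠ 0 := by
    intro lam h
    rw [frobenius_reciprocity N' φ' _
      (isClassFunction_of_isCharacter (isCharacter_of_isIrrCharacter (hψl lam h)))]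
    have : (fun x : N' => ((ψ : I → ℂ) * fun x : I => (lam : G → ℂ) x) x) = φ' := by
      funext x
      rw [Pi.mul_apply, hψN, hlinN lam h _ (Subgroup.mem_subgroupOf.mp x.2), mul_one]
    rw [this, classInner_irr_self hφ']
    exact one_ne_zero
  have hFeq : ∀ lam : IrrCharacter G, indFun I (ψ : I → ℂ) * (lam : G → ℂ)
      = indFun I ((ψ : I → ℂ) * fun x : I => (lam : G → ℂ) x) := by
    intro lam
    rw [indFun_mul_restrict I _ _
      (isClassFunction_of_isCharacter (isCharacter_of_isIrrCharacter lam.2))]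
  have hFirr : ∀ lam : IrrCharacter G, charDegree (lam : G → ℂ) = 1 →
      IsIrrCharacter G (indFun I (ψ : I → ℂ) * (lam : G → ℂ)) := by
    intro lam h
    rw [hFeq]
    exact hirr ⟨_, hψl lam h⟩ (hover lam h)
  have hsq : ∀ lam : IrrCharacter G, charDegree (lam : G → ℂ) = 1 → fsNu (lam : G → ℂ) = 1 →
      ∀ x : G, (lam : G → ℂ) (x * x) = 1 := by
    intro lam h hnu x
    have hre : ((lam : G → ℂ) x).im = 0 := by
      by_contra hx
      have := (fsNu_irr lam.2).2.mpr ⟨x, hx⟩
      rw [hnu] at this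
      exact one_ne_zero this
    rw [Cfsg.Agent.Lib.Helper82.isChar_linear_mul (isCharacter_of_isIrrCharacter lam.2) (hlin1 lam h)]
    have h1 := Cfsg.Agent.Lib.Helper82.isChar_linear_mul_conj
      (isCharacter_of_isIrrCharacter lam.2) (hlin1 lam h) x
    rwa [Complex.conj_eq_iff_im.mpr hre] at h1
  have hFnu : ∀ lam : IrrCharacter G, charDegree (lam : G → ℂ) = 1 → fsNu (lam : G → ℂ) = 1 →
      fsNu (indFun I (ψ : I → ℂ) * (lam : G → ℂ)) = 1 := by
    intro lam h hnu
    rw [hFeq, fsNu_indFun_of_inertia N I hN hNI φ φ.2 hT _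
      (isCharacter_of_isIrrCharacter (hψl lam h)) _ hφreal, ← hψnu]
    · unfold fsNu
      congr 1
      apply Finset.sum_congr rfl
      intro x _
      rw [Pi.mul_apply]
      have := hsq lam h hnu (x : G)
      rw [Subgroup.coe_mul, this, mul_one]
    · intro n
      rw [Pi.mul_apply, hlinN lam h _ n.2, mul_one]
      exact hψext n
  let f : IrrCharacter G → IrrCharacter G := fun lam =>
    if h : charDegree (lam : G → ℂ) = 1 then ⟨_, hFirr lam h⟩ else lam
  have hf : ∀ lam : IrrCharacter G, charDegree (lam : G → ℂ) = 1 →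
      ((f lam : IrrCharacter G) : G → ℂ) = indFun I (ψ : I → ℂ) * (lam : G → ℂ) := by
    intro lam h
    simp only [f, dif_pos h]
  have hres : ∀ lam lam₀ : IrrCharacter G, charDegree (lam : G → ℂ) = 1 →
      charDegree (lam₀ : G → ℂ) = 1 → f lam = f lam₀ →
      (fun x : I => (lam : G → ℂ) x) = fun x : I => (lam₀ : G → ℂ) x := by
    intro lam lam₀ h h₀ heq
    have h1 : indFun I ((ψ : I → ℂ) * fun x : I => (lam : G → ℂ) x)
        = indFun I ((ψ : I → ℂ) * fun x : I => (lam₀ : G → ℂ) x) := by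
      rw [← hFeq, ← hFeq, ← hf lam h, ← hf lam₀ h₀, heq]
    have h2 : ((ψ : I → ℂ) * fun x : I => (lam : G → ℂ) x)
        = ((ψ : I → ℂ) * fun x : I => (lam₀ : G → ℂ) x) := by
      by_contra hne
      have h3 := horth ⟨_, hψl lam h⟩ ⟨_, hψl lam₀ h₀⟩ (hover lam h) (hover lam₀ h₀)
        (fun h' => hne (congrArg Subtype.val h').symm)
      have h4 : classInner (indFun I ((ψ : I → ℂ) * fun x : I => (lam : G → ℂ) x))
          (indFun I ((ψ : I → ℂ) * fun x : I => (lam₀ : G → ℂ) x)) = 0 := h3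
      rw [← h1, classInner_irr_self (hirr ⟨_, hψl lam h⟩ (hover lam h))] at h4
      exact one_ne_zero h4
    funext x
    have hψM : IsIrrCharacter N' (fun n : N' => (ψ : I → ℂ) n) := by
      have : (fun n : N' => (ψ : I → ℂ) n) = φ' := funext hψN
      rw [this]
      exact hφ'
    obtain ⟨n, hn⟩ := exists_ne_zero_in_coset N' ψ.2 hψM x
    have h5 := congrFun h2 ((n : I) * x)
    rw [Pi.mul_apply, Pi.mul_apply] at h5
    have h6 := mul_left_cancel₀ hn h5
    have h7 : ∀ mu : IrrCharacter G, charDegree (mu : G → ℂ) = 1 →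
        (mu : G → ℂ) (((n : I) * x : I) : G) = (mu : G → ℂ) x := by
      intro mu hmu
      rw [Subgroup.coe_mul, Cfsg.Agent.Lib.Helper82.isChar_linear_mul
        (isCharacter_of_isIrrCharacter mu.2) (hlin1 mu hmu),
        hlinN mu hmu _ (Subgroup.mem_subgroupOf.mp n.2), one_mul]
    rw [← h7 lam h, ← h7 lam₀ h₀]
    exact h6
  rw [Nat.card_eq_fintype_card, Nat.card_eq_fintype_card, Fintype.card_subtype,
    Fintype.card_subtype]
  apply Finset.card_le_mul_card_image_of_maps_to (f := f)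
  · intro lam hl
    obtain ⟨h, hnu⟩ := (Finset.mem_filter.mp hl).2
    refine Finset.mem_filter.mpr ⟨Finset.mem_univ _, ?_, ?_⟩
    · have h1 : ((charDegree ((f lam : IrrCharacter G) : G → ℂ) : ℕ) : ℂ)
          = ((charDegree (φ : N → ℂ) * I.index : ℕ) : ℂ) := by
        rw [← Cfsg.Agent.Lib.Helper82.isChar_one_eq (isCharacter_of_isIrrCharacter (f lam).2),
          hf lam h, Pi.mul_apply, hlin1 lam h, mul_one, indFun_apply_one]
        push_cast
        rw [← Cfsg.Agent.Lib.Helper82.isChar_one_eq (isCharacter_of_isIrrCharacter φ.2), mul_comm]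
        congr 1
        exact hψext 1
      exact_mod_cast h1
    · rw [hf lam h]
      exact hFnu lam h hnu
  · intro b _
    by_cases hemp : (Finset.univ.filter (fun x : IrrCharacter G => charDegree (x : G → ℂ) = 1 ∧
        fsNu (x : G → ℂ) = 1)).filter (fun a => f a = b) = ∅
    · rw [hemp]
      simp
    · obtain ⟨lam₀, hl₀⟩ := Finset.nonempty_iff_ne_empty.mpr hemp
      have h₀ := (Finset.mem_filter.mp (Finset.mem_filter.mp hl₀).1).2.1
      have hb := (Finset.mem_filter.mp hl₀).2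
      apply card_extensions_le I (fun x : I => (lam₀ : G → ℂ) x)
        (Cfsg.Agent.Lib.Helper82.isChar_linear_isIrr (hresc lam₀) (hlin1 lam₀ h₀))
      intro lam hl
      have h := (Finset.mem_filter.mp (Finset.mem_filter.mp hl).1).2.1
      exact hres lam lam₀ h h₀ ((Finset.mem_filter.mp hl).2.trans hb.symm)

end Cfsg.Agent.S4912
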