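import Cfsg.Statements.S4914
import Cfsg.Agent.Lib.Helper77.NormSyl

set_option autoImplicit false
open Cfsg

namespace Cfsg.Agent.S4914

open Subgroup Cfsg.Agent.Lib.Helper77

/-- Let P and K be subgroups of a finite group G with P a p-group normalizing K, and suppose K has a normal Sylow p-subgroup Q. Let C be the subgroup of those k ∈ K whose commutator with every element of P lies in Q (so that C/Q is the fixed-point subgroup of P on K/Q). Then there is a bijection f from the P-invariant irreducible complex characters of K onto the P-invariant irreducible complex characters of C such that, for every P-invariant irreducible character χ of K, the multiplicity of f(χ) in the restriction of χ to C is a natural number congruent to 1 or to −1 modulo p, every other P-invariant irreducible character of C occurs in that restriction with multiplicity divisible by p, and the degrees of χ and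 f(χ) are congruent modulo p up to sign. -/
theorem result {G : Type*} [Group G] [Finite G] (p : ℕ) [Fact p.Prime] (P K Q C : Subgroup G) (hP : IsPGroup p ↥P) (hPK : P ≤ Subgroup.normalizer (K : Set G)) (hQK : Q ≤ K) (hQn : ∀ k ∈ K, ∀ q ∈ Q, k * q * k⁻¹ ∈ Q) (hQp : ∃ a : ℕ, Nat.card ↥Q = p ^ a) (hQsyl : ¬ p ∣ Q.relIndex K) (hCK : C ≤ K) (hC : ∀ k : G, k ∈ C ↔ (k ∈ K ∧ ∀ x ∈ P, x * k * x⁻¹ * k⁻¹ ∈ Q)) : ∃ f : {χ : Cfsg.IrrCharacter ↥K // (∀ x ∈ P, ∀ k k' : ↥K, (k' : G) = x * (k : G) * x⁻¹ → (χ : ↥K → ℂ) k' = (χ : ↥K → ℂ) k)} → {ξ : Cfsg.IrrCharacter ↥C // (∀ x ∈ P, ∀ k k' : ↥C, (k' : G) = x * (k : G) * x⁻¹ → (ξ : ↥C → ℂ) k' = (ξ : ↥C → ℂ) k)}, Function.Bijective f ∧ ∀ χ, (∀ ξ : {ξ : Cfsg.IrrCharacter ↥C // (∀ x ∈ P, ∀ k k' : ↥C, (k' : G) = x * (k : G) * x⁻¹ → (ξ : ↥C → ℂ) k' = (ξ : ↥C → ℂ) k)}, ∃ m : ℕ, (Nat.card ↥C : ℂ)⁻¹ * ∑ᶠ c : ↥C, (χ.1 : ↥K → ℂ) (Subgroup.inclusion hCK c) * (starRingEnd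 ℂ) ((ξ.1 : ↥C → ℂ) c) = (m : ℂ) ∧ (ξ = f χ → ((m : ZMod p) = 1 ∨ (m : ZMod p) = -1)) ∧ (ξ ≠ f χ → p ∣ m)) ∧ ((Cfsg.charDegree ((f χ).1 : ↥C → ℂ) : ZMod p) = (Cfsg.charDegree (χ.1 : ↥K → ℂ) : ZMod p) ∨ (Cfsg.charDegree ((f χ).1 : ↥C → ℂ) : ZMod p) = -(Cfsg.charDegree (χ.1 : ↥K → ℂ) : ZMod p)) := by
  classical
  have : Fintype C := Fintype.ofFinite _
  obtain ⟨hdata, hinj, hsurj⟩ := normSyl_main p P K Q C hP hPK hQK hQn hQp hQsyl hCK hC
  choose F hF1 ε hε hF2 hF3 using hdata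
  have hpc : ∀ (χ : Cfsg.IrrCharacter K) (hχ : ∀ x ∈ P, InvUnder K x (χ : K → ℂ)),
      PCorr p hCK (χ : K → ℂ) (F χ hχ : C → ℂ) := by
    intro χ hχ
    obtain ⟨m, hm, h1, -⟩ := hF2 χ hχ (F χ hχ) (hF1 χ hχ)
    refine ⟨m, hm, fun hd => ?_⟩
    have h2 := h1 rfl
    rw [(ZMod.natCast_eq_zero_iff _ _).2 hd] at h2
    exact sign_ne_zero_zmod p (hε χ hχ) h2.symm
  refine ⟨fun χ => ⟨F χ.1 χ.2, hF1 χ.1 χ.2⟩, ⟨?_, ?_⟩, ?_⟩
  · intro χ χ' h
    have h' : F χ.1 χ.2 = F χ'.1 χ'.2 := congrArg Subtype.val h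
    apply Subtype.ext
    apply hinj χ.1 χ'.1 χ.2 χ'.2 (F χ.1 χ.2) (hF1 _ _) (hpc _ _)
    rw [h']
    exact hpc _ _
  · intro ξ
    obtain ⟨χ, hχP, m', hm', hpm⟩ := hsurj ξ.1 ξ.2
    refine ⟨⟨χ, hχP⟩, ?_⟩
    apply Subtype.ext
    by_contra hne
    obtain ⟨m, hm, -, h0⟩ := hF2 χ hχP ξ.1 ξ.2
    have e : m' = m := by
      have : (m' : ℂ) = m := by rw [← hm', hm]
      exact_mod_cast this
    apply hpm
    rw [e]
    exact (ZMod.natCast_eq_zero_iff _ _).1 (h0 (fun h => hne h.symm))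
  · intro χ
    constructor
    · intro ξ
      obtain ⟨m, hm, h1, h2⟩ := hF2 χ.1 χ.2 ξ.1 ξ.2
      refine ⟨m, ?_, ?_, ?_⟩
      · rw [finsum_eq_sum_of_fintype]
        exact hm
      · intro e
        have h3 := h1 (congrArg Subtype.val e)
        rw [h3]
        rcases hε χ.1 χ.2 with h | h <;> rw [h] <;> simp
      · intro hne
        exact (ZMod.natCast_eq_zero_iff _ _).1 (h2 (fun h => hne (Subtype.ext h)))
    · have h3 := hF3 χ.1 χ.2
      show (Cfsg.charDegree (F χ.1 χ.2 : C → ℂ) : ZMod p) = _ ∨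
        (Cfsg.charDegree (F χ.1 χ.2 : C → ℂ) : ZMod p) = _
      rw [h3]
      rcases hε χ.1 χ.2 with h | h <;> rw [h] <;> simp

end Cfsg.Agent.S4914
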