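import Cfsg.Statements.S4916
import Mathlib
import Cfsg.Agent.S0909
import Cfsg.Agent.S0913
import Cfsg.Agent.Lib.Helper81.Osima
import Cfsg.Agent.Lib.Helper82.Ortho
-- import your own Cfsg.Agent.* helpers here

set_option autoImplicit false
open Cfsg
open Cfsg.Agent.Lib.Helper81 Cfsg.Agent.Lib.Helper82

namespace Cfsg.Agent.S4916


/-- Let G be a finite group, p a prime and M a maximal ideal of the algebraic integers containing p. Then the principal character is the only irreducible character of degree prime to p in the principal p-block of G if and only if p does not divide the order of G. -/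
theorem result {G : Type*} [Group G] [Finite G] (p : ℕ) [Fact p.Prime] (M : Ideal Cfsg.AlgInt) (hM : Cfsg.IsPModular p M) : (∀ χ : Cfsg.IrrCharacter G, χ ∈ Cfsg.principalBlock M G → ¬ p ∣ Cfsg.charDegree (χ : G → ℂ) → (χ : G → ℂ) = fun _ => (1 : ℂ)) ↔ ¬ p ∣ Nat.card G := by
  classical
  have hfin : Finite (IrrCharacter G) := Cfsg.Agent.Lib.Helper20.finite_irrCharacter
  have := Fintype.ofFinite (IrrCharacter G)
  have hB0 : principalBlock M G = blockOf M ((trivIrr G : IrrCharacter G) : G → ℂ) := rfl
  constructor
  · intro h hp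
    have hos := Cfsg.Agent.S0913.result p M hM (principalBlock M G) ⟨trivIrr G, hB0⟩ 1
    have hG : (Nat.card G : ℂ) ≠ 0 := by exact_mod_cast Nat.card_pos.ne'
    have h1 : (Nat.card G : ℂ) * blockCoeff (principalBlock M G) 1 =
        ((∑ χ : IrrCharacter G, if χ ∈ principalBlock M G then (charDegree (χ : G → ℂ)) ^ 2 else 0 : ℕ) : ℂ) := by
      unfold blockCoeff
      rw [mul_inv_cancel_left₀ hG, finsum_mem_irr]
      push_cast
      refine Finset.sum_congr rfl (fun χ _ => ?_)
      split_ifs
      · rw [isChar_one_eq (isIrr_isChar χ.2)]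
        simp [sq]
      · rfl
    have h2 : MemLocalIdeal M ((Nat.card G : ℂ) * blockCoeff (principalBlock M G) 1) :=
      memLocalIdeal_mul_right hM ((memLocalIdeal_natCast_iff hM _).2 hp) hos
    rw [h1, memLocalIdeal_natCast_iff hM] at h2
    rw [← Finset.add_sum_erase _ _ (Finset.mem_univ (trivIrr G))] at h2
    have h3 : trivIrr G ∈ principalBlock M G := by
      rw [hB0]; exact mem_blockOf_self hM _
    have h4 : charDegree ((trivIrr G : IrrCharacter G) : G → ℂ) = 1 := by
      have := isChar_one_eq (isIrr_isChar (trivIrr G).2)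
      have h5 : ((trivIrr G : IrrCharacter G) : G → ℂ) 1 = 1 := rfl
      rw [h5] at this
      exact_mod_cast this.symm
    rw [if_pos h3, h4] at h2
    have h5 : p ∣ ∑ χ ∈ Finset.univ.erase (trivIrr G),
        if χ ∈ principalBlock M G then (charDegree (χ : G → ℂ)) ^ 2 else 0 := by
      refine Finset.dvd_sum (fun χ hχ => ?_)
      split_ifs with hχB
      · by_contra hnd
        have hnd' : ¬ p ∣ charDegree (χ : G → ℂ) := fun hd => hnd (dvd_pow hd two_ne_zero)
        have := h χ hχB hnd'
        exact (Finset.mem_erase.mp hχ).1 (Subtype.ext this)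
      · exact dvd_zero p
    have h6 : p ∣ 1 := by
      have := (Nat.dvd_add_left h5).mp h2
      simpa using this
    exact (Fact.out : p.Prime).one_lt.ne' (Nat.dvd_one.mp h6)
  · intro hp χ hχ _
    have hA : ∀ g : G, MemLocalRing M (blockCoeff ({trivIrr G} : Set (IrrCharacter G)) g) := by
      intro g
      unfold blockCoeff
      rw [finsum_mem_singleton]
      have h5 : ∀ x, ((trivIrr G : IrrCharacter G) : G → ℂ) x = 1 := fun _ => rfl
      rw [h5, h5]
      simp only [map_one, mul_one]
      exact memLocalRing_inv (memLocalRing_natCast hM _) (fun h => hp ((memLocalIdeal_natCast_iff hM _).1 h))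
    have := Cfsg.Agent.S0909.result p M hM {trivIrr G} hA (trivIrr G) rfl
    rw [hB0] at hχ
    have h2 : χ = trivIrr G := this hχ
    rw [h2]; rfl

end Cfsg.Agent.S4916
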