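import Cfsg.Statements.S4931
import Cfsg.Agent.Lib.Helper84.PPrimeDeg2
import Cfsg.Agent.Lib.Helper84.NormCompl
-- import your own Cfsg.Agent.* helpers here

set_option autoImplicit false
open Cfsg
open scoped ComplexConjugate
open Cfsg.Agent.Lib.Helper20 Cfsg.Agent.Lib.Helper82 Cfsg.Agent.Lib.Helper84

namespace Cfsg.Agent.S4931

/-- a normal complement gives a retraction -/
theorem exists_retraction {G : Type*} [Group G] (K N : Subgroup G) [K.Normal] (h1 : K ⊔ N = ⊤)
    (h2 : K ⊓ N = ⊥) : ∃ r : G →* N, Function.Surjective r ∧ ∀ x : N, r x = x := by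
  let φ : N →* G ⧸ K := (QuotientGroup.mk' K).comp N.subtype
  have hinj : Function.Injective φ := by
    rw [injective_iff_map_eq_one]
    intro x hx
    have hxK : (x : G) ∈ K := (QuotientGroup.eq_one_iff _).1 hx
    have : (x : G) ∈ K ⊓ N := ⟨hxK, x.2⟩
    rw [h2, Subgroup.mem_bot] at this
    exact Subtype.ext this
  have hsurj : Function.Surjective φ := by
    intro q
    obtain ⟨g, rfl⟩ := QuotientGroup.mk'_surjective K q
    have hg : g ∈ K ⊔ N := by rw [h1]; trivial
    rw [← SetLike.mem_coe, Subgroup.normal_mul] at hg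
    obtain ⟨k, hk, n, hn, rfl⟩ := hg
    refine ⟨⟨n, hn⟩, ?_⟩
    show (QuotientGroup.mk' K) n = (QuotientGroup.mk' K) (k * n)
    have hk1 : (QuotientGroup.mk' K) k = 1 := (QuotientGroup.eq_one_iff k).2 hk
    rw [map_mul, hk1, one_mul]
  let e : N ≃* G ⧸ K := MulEquiv.ofBijective φ ⟨hinj, hsurj⟩
  refine ⟨e.symm.toMonoidHom.comp (QuotientGroup.mk' K), ?_, ?_⟩
  · exact e.symm.surjective.comp (QuotientGroup.mk'_surjective K)
  · intro x
    show e.symm ((QuotientGroup.mk' K) x) = x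
    rw [MulEquiv.symm_apply_eq]
    rfl


/-- Let G be a finite group, p a prime and P a Sylow p-subgroup of G with normalizer N. Then every irreducible complex character of N of degree not divisible by p is the restriction of an irreducible character of G if and only if there is a normal subgroup K of G with KN = G and K ∩ N = 1. -/
theorem result {G : Type*} [Group G] [Finite G] (p : ℕ) [Fact p.Prime] (P : Sylow p G) :
    (∀ θ : Cfsg.IrrCharacter ↥(Subgroup.normalizer ((P : Subgroup G) : Set G)), ¬ p ∣ Cfsg.charDegree (θ : ↥(Subgroup.normalizer ((P : Subgroup G) : Set G)) → ℂ) →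
        ∃ χ : Cfsg.IrrCharacter G, ∀ x : ↥(Subgroup.normalizer ((P : Subgroup G) : Set G)), (χ : G → ℂ) x = (θ : ↥(Subgroup.normalizer ((P : Subgroup G) : Set G)) → ℂ) x) ↔
      ∃ K : Subgroup G, K.Normal ∧ K ⊔ Subgroup.normalizer ((P : Subgroup G) : Set G) = ⊤ ∧ K ⊓ Subgroup.normalizer ((P : Subgroup G) : Set G) = ⊥ := by
  set N := Subgroup.normalizer ((P : Subgroup G) : Set G) with hN
  have hPN : (P : Subgroup G) ≤ N := Subgroup.le_normalizer
  constructor
  · intro hext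
    let X : Set (IrrCharacter G) := {χ | ∃ θ : IrrCharacter N, ¬ p ∣ charDegree (θ : N → ℂ) ∧
      ∀ x : N, (χ : G → ℂ) x = (θ : N → ℂ) x}
    let X1 : Set (IrrCharacter G) := {χ | χ ∈ X ∧ ∀ u ∈ (P : Subgroup G), (χ : G → ℂ) u = (χ : G → ℂ) 1}
    set R : Subgroup N := (P : Subgroup G).subgroupOf N with hR
    have hRn : R.Normal := Subgroup.normal_in_normalizer
    have hRp : IsPGroup p R := P.2.comap_subtype
    have hRmap : R.map N.subtype = (P : Subgroup G) := Subgroup.map_subgroupOf_eq_of_le hPN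
    have hRidx : ¬ p ∣ R.index := by
      intro h
      apply P.not_dvd_index
      have h1 : R.index = (P : Subgroup G).relIndex N := rfl
      rw [h1] at h
      exact h.trans (Subgroup.relIndex_dvd_index_of_le hPN)
    have hcomm : (⁅R, R⁆).map N.subtype = ⁅(P : Subgroup G), (P : Subgroup G)⁆ := by
      rw [Subgroup.map_commutator, hRmap]
    apply exists_normal_complement P (kerOf X) (kerOf X1)
    · intro u hu
      exact mem_kerOf.2 fun χ hχ => hχ.2 u hu
    · rintro x ⟨hxN, hxL⟩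
      by_contra hxP
      have hxR : (⟨x, hxN⟩ : N) ∉ R := hxP
      obtain ⟨θ, h1, h2, h3⟩ := exists_irr_quot_ne (p := p) R hRidx hxR
      obtain ⟨χ, hχ⟩ := hext θ h1
      have hχ1 : (χ : G → ℂ) 1 = (θ : N → ℂ) 1 := hχ 1
      have hmem : χ ∈ X1 := by
        refine ⟨⟨θ, h1, hχ⟩, fun u hu => ?_⟩
        rw [hχ1, ← h2 ⟨u, hPN hu⟩ hu]
        exact hχ ⟨u, hPN hu⟩
      apply h3
      rw [← hχ1, ← mem_kerOf.1 hxL χ hmem]
      exact (hχ ⟨x, hxN⟩).symm
    · intro d hd
      rw [mem_kerOf]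
      rintro χ ⟨θ, h1, hχ⟩
      rw [← hcomm] at hd
      obtain ⟨d', hd', rfl⟩ := hd
      have := commutator_le_ker_of_not_dvd R hRp θ.2 h1 d' hd'
      have hχ1 : (χ : G → ℂ) 1 = (θ : N → ℂ) 1 := hχ 1
      rw [hχ1, ← this]
      exact hχ d'
    · rintro x ⟨hxK, hxP⟩
      by_contra hx
      have hxR : (⟨x, hPN hxP⟩ : N) ∈ R := hxP
      have hxc : (⟨x, hPN hxP⟩ : N) ∉ ⁅R, R⁆ := by
        intro h
        apply hx
        rw [← hcomm]
        exact ⟨_, h, rfl⟩
      obtain ⟨θ, h1, h3⟩ := exists_irr_not_dvd_ne (p := p) R hRidx hxR hxc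
      obtain ⟨χ, hχ⟩ := hext θ h1
      have hχ1 : (χ : G → ℂ) 1 = (θ : N → ℂ) 1 := hχ 1
      apply h3
      rw [← hχ1, ← mem_kerOf.1 hxK χ ⟨θ, h1, hχ⟩]
      exact (hχ ⟨x, hPN hxP⟩).symm
  · rintro ⟨K, hKn, h1, h2⟩ θ _
    obtain ⟨r, hr, hrx⟩ := exists_retraction K N h1 h2
    refine ⟨⟨fun g => (θ : N → ℂ) (r g), isIrr_comp_surj θ.2 r hr⟩, fun x => ?_⟩
    show (θ : N → ℂ) (r x) = _
    rw [hrx]

end Cfsg.Agent.S4931
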