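import Cfsg.Statements.S4989
import Cfsg.Agent.Lib.Helper79.CharNorm

set_option autoImplicit false
open Cfsg

namespace Cfsg.Agent.S4989

/-- Let H be a subgroup of the finite group G and χ an irreducible complex character of G. Then the inner product of the restriction of χ to H with itself, (1/#H)·Σ_{h ∈ H} |χ(h)|², is at most 1 + #(Z ∖ H)/#H, where Z is the set of zeros of χ in G. -/
theorem result {G : Type*} [Group G] [Finite G] (H : Subgroup G) (χ : Cfsg.IrrCharacter G) : (Nat.card ↥H : ℝ)⁻¹ * ∑ᶠ h : ↥H, ‖(χ : G → ℂ) h‖ ^ 2 ≤ 1 + (Set.ncard ({x : G | (χ : G → ℂ) x = 0} \ (H : Set G)) : ℝ) / (Nat.card ↥H : ℝ) := by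
  classical
  have := Fintype.ofFinite G
  have := Fintype.ofFinite H
  have hc := Cfsg.Agent.Lib.Helper79.IsIrrCharacter.isCharacter χ.2
  have hsum := Cfsg.Agent.Lib.Helper79.IsIrrCharacter.sum_norm_sq χ.2
  have hHpos : (0 : ℝ) < (Nat.card H : ℝ) := by exact_mod_cast Nat.card_pos
  set R := Finset.univ.filter (fun g : G => g ∉ H ∧ (χ : G → ℂ) g ≠ 0) with hR
  set V := Finset.univ.filter (fun g : G => g ∉ H ∧ (χ : G → ℂ) g = 0) with hV
  set HH := Finset.univ.filter (fun g : G => g ∈ H) with hHH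
  have hRge : (R.card : ℝ) ≤ ∑ g ∈ R, ‖(χ : G → ℂ) g‖ ^ 2 := by
    apply Cfsg.Agent.Lib.Helper79.IsCharacter.card_le_sum_norm_sq hc R
    · intro k hk g
      simp only [hR, Finset.mem_filter, Finset.mem_univ, true_and, ne_eq]
      rw [Cfsg.Agent.Lib.Helper79.IsCharacter.pow_coprime_eq_zero_iff hc k hk]
      have : g ^ k ∈ H ↔ g ∈ H := by
        constructor
        · intro h
          have hco : (orderOf g).Coprime k :=
            (Nat.Coprime.coprime_dvd_right (orderOf_dvd_natCard g) hk).symm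
          obtain ⟨j, hj⟩ := exists_pow_eq_self_of_coprime hco.symm
          rw [← hj]
          exact H.pow_mem h j
        · intro h; exact H.pow_mem h k
      rw [this]
    · intro g hg
      exact (Finset.mem_filter.mp hg).2.2
  have hpart : ∀ f : G → ℝ, ∑ g : G, f g = ∑ g ∈ HH, f g + ∑ g ∈ V, f g + ∑ g ∈ R, f g := by
    intro f
    rw [← Finset.sum_filter_add_sum_filter_not Finset.univ (fun g : G => g ∈ H) f,
      ← Finset.sum_filter_add_sum_filter_not
        (Finset.univ.filter (fun g : G => ¬ g ∈ H)) (fun g : G => (χ : G → ℂ) g = 0) f,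
      Finset.filter_filter, Finset.filter_filter, add_assoc]
  have hcard := hpart (fun _ => 1)
  simp only [Finset.sum_const, nsmul_eq_mul, mul_one, Finset.card_univ] at hcard
  have hsq := hpart (fun g => ‖(χ : G → ℂ) g‖ ^ 2)
  have hVsum : ∑ g ∈ V, ‖(χ : G → ℂ) g‖ ^ 2 = 0 := by
    apply Finset.sum_eq_zero
    intro g hg
    rw [(Finset.mem_filter.mp hg).2.2]
    simp
  have hHHcard : (HH.card : ℝ) = (Nat.card H : ℝ) := by
    rw [Nat.card_eq_fintype_card, Fintype.card_subtype]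
  have hHHsum : ∑ g ∈ HH, ‖(χ : G → ℂ) g‖ ^ 2 = ∑ᶠ h : H, ‖(χ : G → ℂ) h‖ ^ 2 := by
    rw [finsum_eq_sum_of_fintype]
    exact (Finset.sum_subtype HH (fun x => by simp [hHH]) (fun g => ‖(χ : G → ℂ) g‖ ^ 2))
  have hVcard : Set.ncard ({x : G | (χ : G → ℂ) x = 0} \ (H : Set G)) = V.card := by
    rw [← Set.ncard_coe_finset]
    congr 1
    ext x
    simp [hV, and_comm]
  rw [hVcard, ← hHHsum]
  rw [hsum, hVsum, add_zero, Nat.card_eq_fintype_card] at hsq
  rw [inv_mul_le_iff₀ hHpos, mul_add, mul_one, mul_div_cancel₀ _ hHpos.ne']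
  rw [hHHcard] at hcard
  linarith

end Cfsg.Agent.S4989
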