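import Cfsg.Statements.S5011
-- import your own Cfsg.Agent.* helpers here

set_option autoImplicit false
open Cfsg

namespace Cfsg.Agent.S5011

/-- Let G be a finite non-abelian simple group and ρ an irreducible complex representation of G on a space of dimension greater than one (irreducible in the sense that the only subspaces invariant under every ρ(x) are 0 and the whole space). Then for every non-identity element g of G, the centralizer of g does not act irreducibly: there is a non-zero proper subspace invariant under ρ(c) for every c commuting with g. -/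
theorem result {G : Type*} [Group G] [Finite G] [IsSimpleGroup G]
    (hG : ¬ IsMulCommutative G) {V : Type*} [AddCommGroup V] [Module ℂ V] [FiniteDimensional ℂ V]
    (ρ : Representation ℂ G V)
    (hirr : ∀ W : Submodule ℂ V, (∀ x : G, ∀ v ∈ W, ρ x v ∈ W) → W = ⊥ ∨ W = ⊤)
    (hdim : 1 < Module.finrank ℂ V) (g : G) (hg : g ≠ 1) :
    ∃ W : Submodule ℂ V, W ≠ ⊥ ∧ W ≠ ⊤ ∧ ∀ c ∈ Subgroup.centralizer ({g} : Set G), ∀ v ∈ W, ρ c v ∈ W := by
  haveI : Nontrivial V := Module.nontrivial_of_finrank_pos (R := ℂ) (by omega)
  obtain ⟨μ, hμ⟩ := Module.End.exists_eigenvalue (ρ g)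
  refine ⟨Module.End.eigenspace (ρ g) μ, hμ, ?_, ?_⟩
  · intro hW
    have hscal : ∀ v : V, ρ g v = μ • v := by
      intro v
      have : v ∈ Module.End.eigenspace (ρ g) μ := by rw [hW]; trivial
      exact Module.End.mem_eigenspace_iff.1 this
    have hcomm : ∀ x : G, ρ (g * x) = ρ (x * g) := by
      intro x
      ext v
      simp [map_mul, hscal]
    rcases (MonoidHom.normal_ker ρ).eq_bot_or_eq_top with hk | hk
    · have hinj : Function.Injective ρ := (MonoidHom.ker_eq_bot_iff ρ).1 hk
      have hc : g ∈ Subgroup.center G := by
        rw [Subgroup.mem_center_iff]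
        intro x
        exact (hinj (hcomm x)).symm
      rcases (inferInstance : (Subgroup.center G).Normal).eq_bot_or_eq_top with hz | hz
      · rw [hz] at hc
        exact hg (by simpa using hc)
      · apply hG
        refine ⟨⟨fun a b => ?_⟩⟩
        have : b ∈ Subgroup.center G := by rw [hz]; trivial
        exact (Subgroup.mem_center_iff.1 this a)
    · have htriv : ∀ x : G, ρ x = 1 := by
        intro x
        have : x ∈ MonoidHom.ker ρ := by rw [hk]; trivial
        exact this
      obtain ⟨v, hv⟩ := exists_ne (0 : V)
      have h1 := hirr (Submodule.span ℂ {v}) (by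
        intro x w hw
        rw [htriv x]
        simpa using hw)
      rcases h1 with h1 | h1
      · exact hv (by simpa using h1)
      · have h2 : Module.finrank ℂ (Submodule.span ℂ {v}) = 1 := finrank_span_singleton hv
        rw [h1, finrank_top] at h2
        omega
  · intro c hc v hv
    rw [Module.End.mem_eigenspace_iff] at hv ⊢
    have hcg : c * g = g * c := by
      have := Subgroup.mem_centralizer_iff.1 hc g (by simp)
      exact this.symm
    calc ρ g (ρ c v) = ρ (g * c) v := by simp [map_mul]
      _ = ρ (c * g) v := by rw [hcg]
      _ = ρ c (ρ g v) := by simp [map_mul]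
      _ = μ • ρ c v := by rw [hv, map_smul]

end Cfsg.Agent.S5011
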