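import Cfsg.Statements.S5125
import Cfsg.Agent.Lib.Helper87.NormalCrit
open Cfsg.Agent.Lib.Helper87
open scoped commutatorElement

set_option autoImplicit false
open Cfsg

namespace Cfsg.Agent.S5125

/-- Let F be a saturated fusion system over a finite p-group S and Q a subgroup strongly closed in F. If Q has a subgroup Q₁ that is normal in F, with Q/Q₁ abelian and Aut_F(Q₁) a p-group, then Q is normal in F. -/
theorem result {Ω : Type*} [Group Ω] {S : Subgroup Ω} [Finite S] (p : ℕ) [Fact p.Prime] (hS : IsPGroup p S) (F : Cfsg.FusionSystem S) (hF : F.IsSaturated p) (Q Q₁ : Subgroup Ω) (hQ : F.StronglyClosed Q) (hQ₁Q : Q₁ ≤ Q) (hQ₁ : F.IsNormal Q₁) (hab : ⁅Q, Q⁆ ≤ Q₁) (hAut : IsPGroup p ↥(F.autGroup Q₁)) : F.IsNormal Q := by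
  have hQ₁s := IsNormal.stronglyClosed hQ₁
  refine isNormal_of_series hS hF hQ (fun i => match i with | 0 => Q₁ | 1 => Q | _ => S) ?_ 2 rfl
    hQ₁ hAut ?_
  · intro i
    match i with
    | 0 => exact hQ₁s
    | 1 => exact hQ
    | (n + 2) => exact stronglyClosed_top F
  · intro i hi q hq x hx
    match i, hi with
    | 0, _ =>
      show x⁻¹ * (q * x * q⁻¹) ∈ Q₁
      have h1 : x⁻¹ * (q * x * q⁻¹) = ⁅x⁻¹, q⁆ := by
        rw [commutatorElement_def]
        group
      rw [h1]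
      exact hab (Subgroup.commutator_mem_commutator (Q.inv_mem hx) hq)
    | 1, _ =>
      show x⁻¹ * (q * x * q⁻¹) ∈ Q
      have h1 : x⁻¹ * (q * x * q⁻¹) = (x⁻¹ * q * x⁻¹⁻¹) * q⁻¹ := by group
      rw [h1]
      exact Q.mul_mem (StronglyClosed.conj_mem hQ (S.inv_mem hx) hq) (Q.inv_mem hq)

end Cfsg.Agent.S5125
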