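import Cfsg.Statements.S5147
import Cfsg.Agent.Lib.Helper87.QuotientSystem

set_option autoImplicit false
open Cfsg Cfsg.FusionSystem Cfsg.Agent.Lib.Helper87

namespace Cfsg.Agent.S5147

/-- Let G be a finite group with Sylow 2-subgroup S whose 2-fusion system on S is constrained, and L a component of G (a subnormal quasisimple subgroup). Then the 2-fusion system of L/Z(L) on the image of S ∩ L is constrained. -/
theorem result {G : Type*} [Group G] [Finite G] (S : Sylow 2 G) (hF : (Cfsg.groupFusionSystem (S : Subgroup G)).IsConstrained 2) (L : Subgroup G) (hL : Cfsg.IsComponent L) : (Cfsg.groupFusionSystem (((S : Subgroup G).subgroupOf L).map (QuotientGroup.mk' (Subgroup.center L)))).IsConstrained 2 := by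
  have hsyl := (subnormal_constrained S hF hL.1).1
  have hc := subnormal_constrained' S hF hL.1
  have heq : ((hsyl.toSylow : Sylow 2 L) : Subgroup L) = (S : Subgroup G).subgroupOf L := by
    rw [IsSylIn.coe_toSylow]
    ext x
    simp only [Subgroup.mem_subgroupOf, Subgroup.mem_inf]
    exact ⟨fun h => h.1, fun h => ⟨h, x.2⟩⟩
  have hsm := surjMor_quotient hsyl.toSylow (Subgroup.center L)
  rw [heq] at hsm
  have hp : IsPGroup 2 ((S : Subgroup G).subgroupOf L) := heq ▸ hsyl.toSylow.isPGroup'
  refine hsm.constrained_target_central hp (isCentral_group hsm.ker_le ?_) hc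
  rintro z ⟨-, hz⟩ g
  have h1 : z ∈ Subgroup.center L := (QuotientGroup.eq_one_iff z).1 hz
  exact Subgroup.mem_center_iff.1 h1 g

end Cfsg.Agent.S5147
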