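import Cfsg.Statements.S5148
import Cfsg.Agent.Lib.Helper87.SurjSat
import Cfsg.Agent.Lib.Helper87.FactorExists
import Cfsg.Agent.Lib.Helper87.NormalCrit
import Cfsg.Agent.Lib.Helper88.NormalCentral
import Cfsg.Agent.Lib.Helper90.FusionAbelian
import Cfsg.Agent.Lib.Helper90.FusionInnerNormal
import Cfsg.Agent.S5132
import Cfsg.Agent.S5134

set_option autoImplicit false
open Cfsg Cfsg.FusionSystem Cfsg.Agent.Lib.Helper87

namespace Cfsg.Agent.S5148

/-- A quasisimple fusion system over a finite p-group S (saturated, equal to its p-residual subsystem, with simple — in particular nontrivial — factor system modulo its centre) has S nonabelian. -/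
theorem result {Ω : Type*} [Group Ω] {S : Subgroup Ω} [Finite S] (p : ℕ) [Fact p.Prime] (hS : IsPGroup p S) (F : Cfsg.FusionSystem S) (hq : F.Quasisimple p) : ¬ IsMulCommutative S := by
  intro hab
  obtain ⟨hF, hhyp, hfac⟩ := hq
  have hZc := Cfsg.Agent.Lib.Helper88.isCentral_center F
  have hZn : F.IsNormal F.center := (isNormal_iff F _).2
    ⟨hZc.1, fun P f hf => (((isCentral_iff F _).1 hZc).2 P f hf).extN⟩
  have hZsc : F.StronglyClosed F.center := Cfsg.Agent.Lib.Helper87.IsNormal.stronglyClosed hZn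
  obtain ⟨E, hE⟩ := Cfsg.Agent.S5132.result p hS F F.center hZsc
  have hsimple := hfac E hE
  have hsm := surjMor_of (Cfsg.Agent.S5134.result p hS F hF F.center hZsc _ E hE)
  have hfinT : Finite (⊤ : Subgroup (S ⧸ (F.center).subgroupOf S)) := hsm.finite_target
  have hpT := hsm.isPGroup_target hS
  have habT : ∀ x ∈ (⊤ : Subgroup (S ⧸ (F.center).subgroupOf S)), ∀ y ∈
      (⊤ : Subgroup (S ⧸ (F.center).subgroupOf S)), x * y = y * x := by
    rintro x - y -
    obtain ⟨a, rfl⟩ := QuotientGroup.mk_surjective x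
    obtain ⟨b, rfl⟩ := QuotientGroup.mk_surjective y
    rw [← QuotientGroup.mk_mul, ← QuotientGroup.mk_mul, hab.is_comm.comm a b]
  have hTn : E.IsNormal ⊤ := by
    refine (isNormal_iff E ⊤).2 ⟨le_rfl, fun P f hf => ?_⟩
    obtain ⟨α, hα, e⟩ := Cfsg.Agent.Lib.Helper90.abelian_ext hsimple.1 habT hf
    have hm := (mem_autGroup_iff E le_rfl α).1 hα
    refine ⟨autFun α, ?_, e, (hm.iso_self (fun x hx => autFun_mem α hx)).2⟩
    rw [sup_top_eq]
    exact hm
  have hin := Cfsg.Agent.Lib.Helper90.inner_normalIn_of_normal hpT E hsimple.1 ⊤ hTn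
  rcases hsimple.2.2 ⊤ _ hin with h | ⟨-, h⟩
  · exact hsimple.2.1 h
  · have key : ∀ (P : Subgroup Ω) (f : Ω → Ω), Mor F P f → ∀ x ∈ P, x⁻¹ * f x ∈ F.center := by
      intro P f hf x hx
      obtain ⟨f', hf', e⟩ := hsm.push P f hf (hsm.image P hf.le) (hsm.mem_image hf.le)
      have hf'' : Mor (Cfsg.innerFusionSystem ⊤) (hsm.image P hf.le) f' := by
        obtain ⟨φ, hφ, e'⟩ := hf'
        exact ⟨φ, (h _).symm ▸ hφ, e'⟩
      obtain ⟨-, g, -, hg⟩ := (Cfsg.Agent.Lib.Helper90.mor_inner_iff _ _ _).1 hf''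
      have h1 := hg _ ((hsm.mem_image hf.le _).2 ⟨x, hx, rfl⟩)
      rw [e x hx, habT g trivial _ trivial, mul_inv_cancel_right] at h1
      exact (tf_eq_iff hE.2.1 (hf.le hx) (hf.mem hx)).1 h1.symm
    have hle : F.hyperfocalSubgroup p ≤ F.center := by
      refine (Subgroup.closure_le _).2 ?_
      rintro _ ⟨P, α, x, hP, -, rfl⟩
      have := key P _ ((mem_autGroup_iff F hP α.1).1 α.2) x x.2
      rwa [autFun_coe] at this
    rw [hhyp] at hle
    apply hsimple.2.1
    rw [eq_bot_iff]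
    rintro y -
    obtain ⟨a, rfl⟩ := QuotientGroup.mk_surjective y
    rw [Subgroup.mem_bot, QuotientGroup.eq_one_iff]
    exact Subgroup.mem_subgroupOf.2 (hle a.2)

end Cfsg.Agent.S5148
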