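import Cfsg.Statements.S5155
import Cfsg.Agent.Lib.Helper87.CE7

set_option autoImplicit false
open Cfsg

namespace Cfsg.Agent.S5155

/-- Let F be a saturated fusion system over a finite p-group S, E a normal subsystem over T, and Y the largest subgroup of C_S(T) such that E is a subsystem of the centralizer system of Y (every map of E extends to a map of F fixing Y elementwise). Then there is a normal subsystem of F over Y that is a subsystem of the centralizer system of T. -/
theorem result {Ω : Type*} [Group Ω] {S : Subgroup Ω} [Finite S] (p : ℕ) [Fact p.Prime] (hS : IsPGroup p S) (F : Cfsg.FusionSystem S) (hF : F.IsSaturated p) {T : Subgroup Ω} (E : Cfsg.FusionSystem T) (hE : E.IsNormalIn F p) (Y : Subgroup Ω) (hY : Y ≤ Cfsg.FusionSystem.centralizerIn S T) (hEY : ∀ P : Subgroup Ω, E.Hom P ⊆ F.centralizerHom Y P) (hmax : ∀ Y' : Subgroup Ω, Y' ≤ Cfsg.FusionSystem.centralizerIn S T → (∀ P : Subgroup Ω, E.Hom P ⊆ F.centralizerHom Y' P) → Y' ≤ Y) : ∃ D : Cfsg.FusionSystem Y, D.IsNormalIn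 F p ∧ ∀ P : Subgroup Ω, D.Hom P ⊆ F.centralizerHom T P := by
  classical
  have hTS : T ≤ S := hE.1.2.2.2.1.1
  open Cfsg.Agent.Lib.Helper87 in
  have h1 := (inY_iff_hom hTS _).1 (inY_CSE hS hE)
  open Cfsg.Agent.Lib.Helper87 in
  have h2 : Y = CSE E F :=
    le_antisymm (le_CSE ((inY_iff_hom hTS Y).2 ⟨hY, hEY⟩)) (hmax _ h1.1 h1.2)
  subst h2
  open Cfsg.Agent.Lib.Helper87 in
  exact exists_centralizer_normal hS hE

end Cfsg.Agent.S5155
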