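import Cfsg.Statements.S5156
import Cfsg.Agent.Lib.Helper87.PS5
import Cfsg.Agent.Lib.Helper87.RealizedQuot
import Cfsg.Agent.S5090

set_option autoImplicit false
universe u
open Cfsg

namespace Cfsg.Agent.S5156

/-- A saturated fusion system over a finite p-group has a terminating alternating chain of p'-residual and p-residual subsystems (the chain reaches the trivial system — the notion of solvability adapted to fusion systems of p-solvable groups) if and only if it is constrained and its models are p-solvable (a model is a finite group realizing the system on a Sylow p-subgroup with self-centralizing largest normal p-subgroup; it exists and is unique up to isomorphism for constrained systems). -/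
theorem result {Ω : Type u} [Group Ω] {S : Subgroup Ω} [Finite S] (p : ℕ) [Fact p.Prime] (hS : IsPGroup p S) (F : Cfsg.FusionSystem S) (hF : F.IsSaturated p) : F.HasTerminatingResidualSeries p ↔ (F.IsConstrained p ∧ ∀ (G : Type u) [Group G] (ι : S →* G), F.IsModel p G ι → Cfsg.IsPSolvable p G) := by
  classical
  have hp : p.Prime := Fact.out
  have hQn := Cfsg.Agent.Lib.Helper88.isNormal_core F
  constructor
  · intro hterm
    open Cfsg.Agent.Lib.Helper87 in
    obtain ⟨Q, hQ, hQc, hQs⟩ := PS_of_terminating hterm hp inferInstance hS hF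
    open Cfsg.Agent.Lib.Helper87 in
    have hsol : Cfsg.IsPSolvable p ↥(F.autGroup F.core) :=
      psolv_of_le hS hQ hQc hQs (le_core hQ) hQn.1
    open Cfsg.Agent.Lib.Helper87 in
    refine ⟨⟨hF, Q, hQ, hQ.1, fun Q' h => by rw [IsNormal.eq_of_isConj hQ h]; exact hQc⟩, ?_⟩
    intro G _ ι hmodel
    have hmodel' := hmodel
    obtain ⟨hfin, hr, hT, hcent⟩ := hmodel
    obtain ⟨T, hT⟩ := hT
    open Cfsg.Agent.Lib.Helper87 in
    obtain ⟨c, hc, hcg⟩ := exists_autHom hr hQn.1 (IsModel.map_normal hmodel' hQn)
    open Cfsg.Agent.Lib.Helper87 in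
    have hn := pCore_normal' p G
    open Cfsg.Agent.Lib.Helper87 in
    have hle : Cfsg.pCore p G ≤ ι.range := hT ▸ pCore_le_sylow' T
    open Cfsg.Agent.Lib.Helper87 in
    have hpre : pre ι (Cfsg.pCore p G) ≤ F.core := le_core (isNormal_pre hr (Cfsg.pCore p G) hle)
    open Cfsg.Agent.Lib.Helper87 in
    have hker : c.ker ≤ Cfsg.pCore p G := by
      intro g hg
      apply hcent
      rw [Subgroup.mem_centralizer_iff]
      intro y hy
      obtain ⟨x, rfl⟩ := hle hy
      have hxQ : (x : Ω) ∈ F.core := hpre ((mem_pre ι _ _).2 ⟨x.2, by rw [tf_coe]; exact hy⟩)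
      have h1 := hcg g ⟨x, hxQ⟩
      rw [MonoidHom.mem_ker.1 hg] at h1
      have h2 : tf ι (x : Ω) = g * tf ι (x : Ω) * g⁻¹ := h1
      rw [tf_coe] at h2
      rw [eq_mul_inv_iff_mul_eq] at h2
      exact h2
    open Cfsg.Agent.Lib.Helper87 in
    have hkp : IsPGroup p c.ker := (pCore_isPGroup' p G).to_le hker
    refine Cfsg.Agent.Lib.Helper31.isPSolvable_of_quotient p c.ker (Or.inl hkp.exists_card_eq) ?_
    exact Cfsg.Agent.Lib.Helper80.isPSolvable_of_surjective hp
      (QuotientGroup.quotientKerEquivOfSurjective c hc).symm.toMonoidHom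
      (QuotientGroup.quotientKerEquivOfSurjective c hc).symm.surjective hsol
  · rintro ⟨hcon, hmod⟩
    obtain ⟨G, _, ι, hmodel⟩ := Cfsg.Agent.S5090.result p hS F hcon
    have hsolG := hmod G ι hmodel
    open Cfsg.Agent.Lib.Helper87 in
    obtain ⟨c, hc, -⟩ := exists_autHom hmodel.2.1 hQn.1 (IsModel.map_normal hmodel hQn)
    have hsol : Cfsg.IsPSolvable p ↥(F.autGroup F.core) :=
      Cfsg.Agent.Lib.Helper80.isPSolvable_of_surjective hp c hc hsolG
    obtain ⟨-, Q₀, hn₀, hc₀⟩ := hcon
    open Cfsg.Agent.Lib.Helper87 in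
    have hPS : PS F p := ⟨F.core, hQn, (centralizerIn_anti S (le_core hn₀)).trans
      ((centric_self hc₀).trans (le_core hn₀)), hsol⟩
    open Cfsg.Agent.Lib.Helper87 in
    exact terminating_of_PS _ S inferInstance rfl hS F hF hPS

end Cfsg.Agent.S5156
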