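import Cfsg.Statements.S5159
import Cfsg.Agent.Lib.Helper87.Solvable2

set_option autoImplicit false
open Cfsg Cfsg.FusionSystem Cfsg.Agent.Lib.Helper87 commutatorElement

namespace Cfsg.Agent.S5159

/-- Let F be a saturated fusion system over a finite p-group S, E a normal subsystem over T, and D the factor system of F modulo T (read through any homomorphism on S with kernel T). Then F is solvable if and only if E and D are solvable (solvable, for a system over a subgroup S: for every subgroup R other than S that is strongly closed in F, the factor system of F modulo R has a nontrivial subgroup normal in it). -/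
theorem result {Ω : Type*} [Group Ω] {S : Subgroup Ω} [Finite S] (p : ℕ) [Fact p.Prime] (hS : IsPGroup p S) (F : Cfsg.FusionSystem S) (hF : F.IsSaturated p) {T : Subgroup Ω} (E : Cfsg.FusionSystem T) (hE : E.IsNormalIn F p) {Ω' : Type*} [Group Ω'] {S' : Subgroup Ω'} (θ : S →* Ω') (D : Cfsg.FusionSystem S') (hD : F.IsFactorSystem T θ D) : F.IsSolvableSystem ↔ (E.IsSolvableSystem ∧ D.IsSolvableSystem) := by
  obtain ⟨⟨hEs, -, hinvE⟩, -⟩ := hE
  obtain ⟨hsub, hT, hinv, hfrat⟩ := (isInvariantIn_iff E F).1 hinvE
  have hsm := surjMor_of (Cfsg.Agent.S5134.result p hS F hF T hT θ D hD)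
  have hfinS' : Finite S' := hsm.finite_target
  have hpS' := hsm.isPGroup_target hS
  have hDs := hsm.saturated_target hS hF
  have hfinT : Finite T := finite_of_le hT.1
  have hpT : IsPGroup p T := hS.to_le hT.1
  have hker : hsm.ker = T := by
    ext x
    rw [hsm.mem_ker]
    constructor
    · rintro ⟨hx, h1⟩
      exact (tf_eq_one_iff hD.2.1 hx).1 h1
    · intro hx
      exact ⟨hT.1 hx, (tf_eq_one_iff hD.2.1 (hT.1 hx)).2 hx⟩
  rw [solvable_iff_chain hS hF, solvable_iff_chain hpT hEs, solvable_iff_chain hpS' hDs]
  constructor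
  · intro h
    exact ⟨h.restrict hsub hT.1, h.image hsm⟩
  · rintro ⟨h1, h2⟩
    have h3 := h2.preimage hsm
    rw [hker] at h3
    exact chain_through_invariant hS hEs hT hsub hinv hfrat ((solvable_iff_chain hpT hEs).2 h1) h3
      _ ⊥ (stronglyClosed_bot F) bot_le le_rfl

end Cfsg.Agent.S5159
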