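import Cfsg.Statements.S5203
import Cfsg.Agent.Lib.Helper87.ResidualLimit

set_option autoImplicit false
open Cfsg Cfsg.FusionSystem Cfsg.Agent.Lib.Helper87

namespace Cfsg.Agent.S5203

/-- Let F be a saturated fusion system over a finite p-group S and E a normal subsystem of F over T that has p-power index in F. Then every residual limit of E has the same maps as every residual limit of F (the residual limit is reached by alternately passing to the p-residual and the p'-residual subsystem until nothing changes). -/
theorem result {Ω : Type*} [Group Ω] {S : Subgroup Ω} [Finite S] (p : ℕ) [Fact p.Prime] (hS : IsPGroup p S) (F : Cfsg.FusionSystem S) (hF : F.IsSaturated p) {T : Subgroup Ω} (E : Cfsg.FusionSystem T) (hE : E.IsNormalIn F p) (hidx : E.HasPPowerIndexIn F p) {U V : Subgroup Ω} (Finf : Cfsg.FusionSystem U) (hFinf : Finf.IsResidualLimitOf F p) (Einf : Cfsg.FusionSystem V) (hEinf : Einf.IsResidualLimitOf E p) : ∀ P : Subgroup Ω, Finf.Hom P = Einf.Hom P := by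
  have hp : p.Prime := Fact.out
  have hEs : E.IsSaturated p := hE.1.1
  have hT : F.StronglyClosed T := hE.1.2.2.2.1
  have hfinT : Finite T := finite_of_le hT.1
  have hpT : IsPGroup p T := hS.to_le hT.1
  have hhyp := hyperfocal_eq_of_pPowerIndex hS hT hidx
  have hle := hyperfocal_le F p
  have hfin' : Finite (F.hyperfocalSubgroup p) := finite_of_le hle
  cases hFinf with
  | stable _ _ h1 h2 =>
    have hTS : T = S := le_antisymm hT.1 (h1 ▸ hidx.2.1)
    have e1 : ∀ P, E.Hom P = F.Hom P := hom_eq_of_pPowerIndex_top hS hF hTS.ge hidx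
    have h3 := limit_congr hTS e1 hEinf
    exact fun P => ((limit_of_stable h3 hp inferInstance hS hF h1 h2).2 P).symm
  | step _ _ D D' hD hD' hlim =>
    cases hEinf with
    | stable _ _ h1 h2 =>
      have hTh : F.hyperfocalSubgroup p = T := hhyp.symm.trans h1
      have e1 : ∀ P, D.Hom P = E.Hom P :=
        ppower_congr hTh (hS.to_le hle) hD.1 hD.2 hEs hidx
      have e2 := pprime_congr hTh e1 hD' h2
      have h3 := limit_congr hTh e2 hlim
      exact (limit_of_stable h3 hp hfinT hpT hEs h1 h2).2
    | step _ _ D₂ D₂' hD₂ hD₂' hlim₂ =>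
      have hleE := hyperfocal_le E p
      have hfinE : Finite (E.hyperfocalSubgroup p) := finite_of_le (hleE.trans hT.1)
      have hD₂F : D₂.HasPPowerIndexIn F p := by
        refine ⟨fun P φ hφ => hidx.1 P (hD₂.2.1 P hφ), hhyp.ge, fun P hP => ?_⟩
        refine le_trans ?_ (hD₂.2.2.2 P hP)
        rw [Cfsg.Agent.Lib.Helper2.map_pResidual_subtype]
        refine (Subgroup.closure_le _).2 ?_
        rintro a ⟨ha, hc⟩
        exact coprime_mem_residual_map
          (hidx.2.2 P (hP.trans hleE) (coprime_mem_residual_map ha hc)) hc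
      have e1 : ∀ P, D₂.Hom P = D.Hom P :=
        ppower_congr hhyp (hpT.to_le hleE) hD₂.1 hD₂F hD.1 hD.2
      have e2 := pprime_congr hhyp e1 hD₂' hD'
      have h3 := limit_congr hhyp e2 hlim₂
      exact limit_unique hlim hp hfin' (hS.to_le hle) hD'.1 Einf h3

end Cfsg.Agent.S5203
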