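import Cfsg.Statements.S5214
-- import your own Cfsg.Agent.* helpers here
import Cfsg.Agent.Lib.Helper86.Suz.Resistant

set_option autoImplicit false
open Cfsg

namespace Cfsg.Agent.S5214

/-- Let S be a Suzuki 2-group (a finite nonabelian 2-group with more than one involution admitting a cyclic group of automorphisms permuting its involutions regularly). Then S is normal in every saturated fusion system over S (such a group is resistant). -/
theorem result {Ω : Type*} [Group Ω] {S : Subgroup Ω} [Finite S] (hS : IsPGroup 2 S) (F : Cfsg.FusionSystem S) (hF : F.IsSaturated 2) (hsz : Cfsg.IsSuzukiTwoGroup ↥S) : F.IsNormal S := by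
  exact Cfsg.Agent.Lib.Helper86.Suz.isNormal_of_suzuki hS F hF hsz

end Cfsg.Agent.S5214
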