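import Cfsg.Statements.S5218
import Cfsg.Agent.Lib.Helper89.AgemoCenter
import Cfsg.Agent.Lib.Helper86.FusionSeries
-- import your own Cfsg.Agent.* helpers here

set_option autoImplicit false
open Cfsg

namespace Cfsg.Agent.S5218

/-- Let p be a prime, n a natural number, S a nontrivial finite p-group of nilpotence class at most n(p−1)+1, and F a saturated fusion system over S. Then the subgroup generated by the pⁿ-th powers of the elements of Z(S) is normal in F. -/
theorem result {Ω : Type*} [Group Ω] {S : Subgroup Ω} [Finite S] (p : ℕ) [Fact p.Prime] (hS : IsPGroup p S) (F : Cfsg.FusionSystem S) (hF : F.IsSaturated p) (n : ℕ) (hS1 : S ≠ ⊥) (hcl : Subgroup.lowerCentralSeries S (n * (p - 1) + 1) = ⊥) : F.IsNormal (Cfsg.powerClosure p n (S ⊓ Subgroup.centralizer (S : Set Ω))) := by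
  have hsc := Cfsg.Agent.Lib.Helper89.powerClosure_center_stronglyClosed hS F hF n hcl
  refine Cfsg.Agent.Lib.Helper86.isNormal_of_abelian_stronglyClosed hS F hF ?_ hsc
  refine ⟨⟨fun a b => Subtype.ext ?_⟩⟩
  have ha := Cfsg.Agent.Lib.Helper89.powerClosure_center_le p n S a.2
  have hb := Cfsg.Agent.Lib.Helper89.powerClosure_center_le p n S b.2
  exact (Subgroup.mem_centralizer_iff.1 ha.2 b hb.1).symm

end Cfsg.Agent.S5218
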