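import Cfsg.Statements.S5219
import Cfsg.Agent.S5218
import Cfsg.Agent.Lib.Helper89.ExponentClass
-- import your own Cfsg.Agent.* helpers here

set_option autoImplicit false
open Cfsg

namespace Cfsg.Agent.S5219

/-- Let p be a prime, n a natural number, S a nontrivial finite p-group of nilpotence class at most n(p−1)+1, and F a saturated fusion system over S with no nontrivial normal subgroup (O_p(F) = 1). Then S has exponent dividing p^(n²(p−1)+n). -/
theorem result {Ω : Type*} [Group Ω] {S : Subgroup Ω} [Finite S] (p : ℕ) [Fact p.Prime] (hS : IsPGroup p S) (F : Cfsg.FusionSystem S) (hF : F.IsSaturated p) (n : ℕ) (hS1 : S ≠ ⊥) (hcl : Subgroup.lowerCentralSeries S (n * (p - 1) + 1) = ⊥) (hcore : F.core = ⊥) : Monoid.exponent ↥S ∣ p ^ (n ^ 2 * (p - 1) + n) := by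
  have hN := Cfsg.Agent.S5218.result p hS F hF n hS1 hcl
  have hle : Cfsg.powerClosure p n (S ⊓ Subgroup.centralizer (S : Set Ω)) ≤ F.core := le_sSup hN
  rw [hcore, le_bot_iff] at hle
  have hz : ∀ z ∈ S ⊓ Subgroup.centralizer (S : Set Ω), z ^ (p ^ n) = 1 := by
    intro z hz
    have : z ^ (p ^ n) ∈ Cfsg.powerClosure p n (S ⊓ Subgroup.centralizer (S : Set Ω)) :=
      Subgroup.subset_closure ⟨z, hz, rfl⟩
    rwa [hle, Subgroup.mem_bot] at this
  have h1 := Cfsg.Agent.Lib.Helper89.pow_eq_one_of_lowerCentralSeries hcl hz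
  apply Monoid.exponent_dvd_of_forall_pow_eq_one
  intro x
  apply Subtype.ext
  rw [Subgroup.coe_pow, Subgroup.coe_one]
  have h2 := h1 x x.2
  rw [← pow_mul] at h2
  have h3 : n * (n * (p - 1) + 1) = n ^ 2 * (p - 1) + n := by ring
  rwa [h3] at h2

end Cfsg.Agent.S5219
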