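import Cfsg.Statements.S5222
import Cfsg.Agent.Lib.Helper90.TateModel
import Cfsg.Agent.Lib.Helper87.NormCentSat
import Cfsg.Agent.Lib.Helper86.SecFree2
import Cfsg.Agent.S5096

set_option autoImplicit false
open Cfsg

namespace Cfsg.Agent.S5222

open Cfsg.FusionSystem Cfsg.Agent.Lib.Helper87 Cfsg.Agent.Lib.Helper90

/-- Let F be a saturated fusion system over a finite p-group S whose normalizer fusion system of S is the inner fusion system of S (Aut_F(S) is a p-group). Then for every subgroup Q of S with [S, S] ≤ Q ≤ Φ(S), the normalizer fusion system of Q in F is the inner fusion system of N_S(Q) = S. -/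
theorem result {Ω : Type*} [Group Ω] {S : Subgroup Ω} [Finite S] (p : ℕ) [Fact p.Prime] (hS : IsPGroup p S) (F : Cfsg.FusionSystem S) (hF : F.IsSaturated p) (hN : ∀ N : Cfsg.FusionSystem (Cfsg.FusionSystem.normalizerIn S S), F.IsNormalizerSystem S N → ∀ P : Subgroup Ω, N.Hom P = (Cfsg.innerFusionSystem (Cfsg.FusionSystem.normalizerIn S S)).Hom P) (Q : Subgroup Ω) (h1 : (commutator ↥S).map S.subtype ≤ Q) (h2 : Q ≤ (frattini ↥S).map S.subtype) : ∀ N : Cfsg.FusionSystem (Cfsg.FusionSystem.normalizerIn S Q), F.IsNormalizerSystem Q N → ∀ P : Subgroup Ω, N.Hom P = (Cfsg.innerFusionSystem (Cfsg.FusionSystem.normalizerIn S Q)).Hom P := by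
  intro N hNQ
  have hSQ : ∀ x ∈ S, ∀ s ∈ S, x⁻¹ * (s * x * s⁻¹) ∈ Q := by
    intro x hx s hs
    apply h1
    refine ⟨(⟨x, hx⟩ : S)⁻¹ * ⟨s, hs⟩ * (⟨x, hx⟩ : S)⁻¹⁻¹ * (⟨s, hs⟩ : S)⁻¹,
      Subgroup.commutator_mem_commutator (Subgroup.mem_top _) (Subgroup.mem_top _), ?_⟩
    show x⁻¹ * s * x⁻¹⁻¹ * s⁻¹ = _
    group
  have hQS : Q ≤ S := h2.trans (Subgroup.map_subtype_le _)
  obtain ⟨hS₁, hQfn⟩ := fullyNormalized_of_comm_le F hSQ le_rfl hQS
  have hsat := normalizerSystem_saturated hS hF hQfn hNQ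
  have hQn : N.IsNormal Q := isNormal_normalizerSystem hQS hNQ
  have hsub := Cfsg.Agent.Lib.Helper86.SecFree.normalizerSystem_sub hNQ
  -- `Aut_F(S)` is inner
  have hAF : ∀ f, Mor F S f → ∃ t ∈ S, ∀ x ∈ S, f x = t * x * t⁻¹ := by
    intro f hf
    obtain ⟨N', hN'⟩ := Cfsg.Agent.S5096.result F S le_rfl
    obtain ⟨α, hα, hαe⟩ := (hf.iso_self (fun x hx => hf.mem hx)).exists_aut
    obtain ⟨φ, hφ, hφe⟩ := mor_normalizerSystem_of_aut le_rfl hN' hα
    rw [hN N' hN' S] at hφ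
    obtain ⟨-, g, hg, hge⟩ := (mor_inner_iff _ S (autFun α)).1 ⟨φ, hφ, hφe⟩
    refine ⟨g, normalizerIn_le S S hg, fun x hx => ?_⟩
    rw [← hge x hx, autFun_apply α hx, hαe]
  have : Finite ↥(normalizerIn S Q) := Cfsg.Agent.Lib.Helper90.finite_of_le (normalizerIn_le S Q)
  refine inner_of_normal_between (hS.to_le (normalizerIn_le S Q)) hsat hQn ?_ ?_ ?_
  · rw [hS₁]; exact hSQ
  · rw [hS₁]; exact h2
  · intro f hf
    have hf' : Mor F (normalizerIn S Q) f := Cfsg.Agent.Lib.Helper90.Mor.of_subsystem hsub hf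
    rw [hS₁] at hf' ⊢
    exact hAF f hf'

end Cfsg.Agent.S5222
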