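import Cfsg.Statements.S5223
import Cfsg.Agent.S5083
import Cfsg.Agent.Lib.Helper87.FusionBasic
import Cfsg.Agent.Lib.Helper89.ChainStab
-- import your own Cfsg.Agent.* helpers here

set_option autoImplicit false
open Cfsg

namespace Cfsg.Agent.S5223

open Cfsg.Agent.Lib.Helper87 Cfsg.Agent.Lib.Helper89

/-- The descending chain `P, [P,α], [P,α,α], …`. -/
def chain {P : Type*} [Group P] (α : MulAut P) : ℕ → Subgroup P
  | 0 => ⊤
  | j + 1 => Subgroup.closure {y | ∃ x ∈ chain α j, y = x⁻¹ * α x}

theorem chain_succ_le {P : Type*} [Group P] (α : MulAut P) (j : ℕ) :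
    chain α (j + 1) ≤ chain α j := by
  induction j with
  | zero => exact le_top
  | succ j ih =>
    show Subgroup.closure _ ≤ Subgroup.closure _
    apply Subgroup.closure_mono
    rintro y ⟨x, hx, rfl⟩
    exact ⟨x, ih hx, rfl⟩

theorem chain_stab {P : Type*} [Group P] (α : MulAut P) (j : ℕ) (x : P) (hx : x ∈ chain α j) :
    x⁻¹ * α x ∈ chain α (j + 1) :=
  Subgroup.subset_closure ⟨x, hx, rfl⟩

theorem chain_inv {P : Type*} [Group P] (α : MulAut P) (j : ℕ) (x : P) (hx : x ∈ chain α j) :
    α x ∈ chain α j := by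
  have h := (chain α j).mul_mem hx (chain_succ_le α j (chain_stab α j x hx))
  simpa using h

/-- Let F be a saturated fusion system over a finite p-group S. Suppose there are subgroups Q₀ = S, Q₁, …, Qₙ = 1 (not required to be nested) such that for each i < n the focal subgroup of Qᵢ (generated by the elements x⁻¹φ(x), x ∈ Qᵢ, φ a map of F defined on the cyclic group generated by x) lies in Qᵢ₊₁. Then F is the inner fusion system of S. -/
theorem result {Ω : Type*} [Group Ω] {S : Subgroup Ω} [Finite S] (p : ℕ) [Fact p.Prime] (hS : IsPGroup p S) (F : Cfsg.FusionSystem S) (hF : F.IsSaturated p) (n : ℕ) (Q : Fin (n + 1) → Subgroup Ω) (hQ0 : Q 0 = S) (hQn : Q (Fin.last n) = ⊥) (hstep : ∀ i : Fin n, Subgroup.closure {y : Ω | ∃ x ∈ Q i.castSucc, ∃ φ ∈ F.Hom (Subgroup.zpowers x), y = x⁻¹ * φ ⟨x, Subgroup.mem_zpowers x⟩} ≤ Q i.succ) : ∀ P : Subgroup Ω, F.Hom P = (Cfsg.innerFusionSystem S).Hom P := by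
  have key : F = Cfsg.innerFusionSystem S := by
    apply Cfsg.Agent.S5083.result p hS F hF
    intro P hP
    have hfin : Finite P := Finite.of_injective _ (Subgroup.inclusion_injective hP)
    have hPp : IsPGroup p P := hS.to_le hP
    rintro ⟨α, hα⟩
    have hmor : Mor F P (autFun α) := (mem_autGroup_iff F hP α).1 hα
    have hb : ∀ j (hj : j < n + 1), (chain α j).map P.subtype ≤ Q ⟨j, hj⟩ := by
      intro j
      induction j with
      | zero =>
        intro hj
        have : Q ⟨0, hj⟩ = S := hQ0
        rw [this]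
        rintro _ ⟨x, -, rfl⟩
        exact hP x.2
      | succ j ih =>
        intro hj
        have ih' := ih (by omega)
        rw [Subgroup.map_le_iff_le_comap]
        show Subgroup.closure _ ≤ _
        rw [Subgroup.closure_le]
        rintro y ⟨x, hx, rfl⟩
        have hxQ : (x : Ω) ∈ Q ⟨j, by omega⟩ := ih' ⟨x, hx, rfl⟩
        have hz : Subgroup.zpowers (x : Ω) ≤ P := by
          rw [Subgroup.zpowers_le]; exact x.2
        obtain ⟨φ, hφ, e⟩ := hmor.mono hz
        have h1 := hstep ⟨j, by omega⟩
        apply h1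
        apply Subgroup.subset_closure
        refine ⟨x, hxQ, φ, hφ, ?_⟩
        rw [e]
        show ((x⁻¹ * α x : P) : Ω) = _
        rw [autFun_coe]
        rfl
    have hbot : chain α n = ⊥ := by
      have h1 := hb n (by omega)
      have h2 : Q ⟨n, by omega⟩ = ⊥ := hQn
      rw [h2] at h1
      rw [eq_bot_iff]
      intro x hx
      have h3 : (x : Ω) ∈ (⊥ : Subgroup Ω) := h1 ⟨x, hx, rfl⟩
      rw [Subgroup.mem_bot] at h3 ⊢
      exact Subtype.ext h3
    obtain ⟨k, hk⟩ := exists_pow_eq_one_of_stabilizes_chain hPp α n (fun i => chain α (n - i))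
      (by simpa using hbot) (by simp [chain]) (fun i x hx => chain_inv α _ x hx)
      (by
        intro i hi x hx
        have h1 := chain_stab α _ x hx
        have h2 : n - (i + 1) + 1 = n - i := by omega
        rw [h2] at h1
        exact h1)
    exact ⟨k, Subtype.ext (by simpa using hk)⟩
  intro P
  rw [key]

end Cfsg.Agent.S5223
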