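import Cfsg.Statements.S5226
import Cfsg.Agent.S5086
import Cfsg.Agent.Lib.Helper89.FusionAux
-- import your own Cfsg.Agent.* helpers here

set_option autoImplicit false
open Cfsg

namespace Cfsg.Agent.S5226

open Cfsg.FusionSystem Cfsg.Agent.Lib.Helper87 Cfsg.Agent.Lib.Helper89
open scoped commutatorElement

theorem le_of_series {Ω : Type*} [Group Ω] {S : Subgroup Ω} [Finite S] (p : ℕ) [Fact p.Prime]
    (hS : IsPGroup p S) (F : Cfsg.FusionSystem S) (Q : Subgroup Ω) (hQ : F.StronglyClosed Q)
    (n : ℕ) (C : ℕ → Subgroup Ω) (h0 : C 0 = ⊥) (hn : C n = Q) (hmono : Monotone C)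
    (hcomm : ∀ i < n, ⁅C (i + 1), Q⁆ ≤ C i) (hw : ∀ i < n, F.WeaklyClosed (C i))
    (P : Subgroup Ω) (hc : F.IsCentric P) (hr : F.IsRadical p P) : Q ≤ P := by
  have hP : P ≤ S := hc.1
  have hfin : Finite P := finite_of_le hP
  have hPp : IsPGroup p P := hS.to_le hP
  have hQn := stronglyClosed_le_normalizer hQ
  have key : ∀ j ≤ n, C j ≤ P := by
    intro j
    induction j with
    | zero => intro _; rw [h0]; exact bot_le
    | succ j ih =>
      intro hj
      have ihj := ih (by omega)
      have hDQ : C (j + 1) ≤ Q := hn ▸ hmono hj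
      have hDS : C (j + 1) ≤ S := hDQ.trans hQ.1
      have hDn : S ≤ Subgroup.normalizer (C (j + 1) : Set Ω) := by
        rcases Nat.lt_or_ge (j + 1) n with h | h
        · exact weaklyClosed_le_normalizer (hw _ h)
        · have : j + 1 = n := le_antisymm hj h
          rw [this, hn]
          exact hQn
      apply le_of_normalizer_inter_le hS hP hDS (hP.trans hDn)
      intro g hgD hgN
      have hgS : g ∈ S := hDS hgD
      obtain ⟨β, hβ, e⟩ := exists_conj_aut F hP (g := g) ⟨hgS, hgN⟩
      refine mem_of_conj_mem_pCore hc hr hgS β ?_ e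
      refine mem_pCore_of_stabilizes_chain hPp (F.autGroup P) (j + 2)
        (fun i => if i ≤ j then (C i).subgroupOf P else if i = j + 1 then Q.subgroupOf P else ⊤)
        ?_ ?_ ?_ β hβ ?_
      · simp [h0]
      · simp
      · intro i α hα x hx
        have hmor : Mor F P (autFun α) := (mem_autGroup_iff F hP α).1 hα
        by_cases h1 : i ≤ j
        · simp only [h1, if_true] at hx ⊢
          rw [Subgroup.mem_subgroupOf] at hx ⊢
          rw [← autFun_coe]
          exact WeaklyClosed.mor_mem (hw i (by omega)) hmor ((hmono h1).trans ihj) hx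
        · by_cases h2 : i = j + 1
          · subst h2
            simp only [show ¬ (j + 1 ≤ j) by omega, if_false, if_true] at hx ⊢
            rw [Subgroup.mem_subgroupOf] at hx ⊢
            rw [← autFun_coe]
            exact StronglyClosed.mor_mem hQ hmor x.2 hx
          · simp only [h1, h2, if_false]
            trivial
      · intro i hi x hx
        have hcoe : ((x⁻¹ * β x : P) : Ω) = ⁅(x : Ω)⁻¹, g⁆ := by
          rw [commutatorElement_def]
          show (x : Ω)⁻¹ * ((β x : P) : Ω) = _
          rw [e]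
          group
        by_cases h1 : i + 1 ≤ j
        · have h1' : i ≤ j := by omega
          simp only [h1, h1', if_true] at hx ⊢
          rw [Subgroup.mem_subgroupOf] at hx ⊢
          rw [hcoe]
          exact hcomm i (by omega)
            (Subgroup.commutator_mem_commutator ((C (i + 1)).inv_mem hx) (hDQ hgD))
        · by_cases h2 : i = j
          · subst h2
            simp only [h1, if_false, if_true, le_refl] at hx ⊢
            rw [Subgroup.mem_subgroupOf] at hx ⊢
            rw [hcoe]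
            apply hcomm i (by omega)
            rw [Subgroup.commutator_comm]
            exact Subgroup.commutator_mem_commutator (Q.inv_mem hx) hgD
          · have h3 : i = j + 1 := by omega
            subst h3
            simp only [show ¬ (j + 1 ≤ j) by omega, if_false, if_true]
            rw [Subgroup.mem_subgroupOf, hcoe, commutatorElement_def]
            have h4 : (x : Ω)⁻¹ * g * (x : Ω)⁻¹⁻¹ ∈ Q :=
              (Subgroup.mem_normalizer_iff.1 (hQn (S.inv_mem (hP x.2))) g).1 (hDQ hgD)
            exact Q.mul_mem h4 (Q.inv_mem (hDQ hgD))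
  rw [← hn]
  exact key n le_rfl

theorem stronglyClosed_of_normal {Ω : Type*} [Group Ω] {S : Subgroup Ω} {F : Cfsg.FusionSystem S}
    {Q : Subgroup Ω} (hQ : F.IsNormal Q) : F.StronglyClosed Q := by
  obtain ⟨hQS, h⟩ := (isNormal_iff F Q).1 hQ
  refine ⟨hQS, fun R hR φ hφ x => ?_⟩
  obtain ⟨f', -, h2, h3⟩ := h R _ (Mor.of_hom hφ)
  rw [← ext_coe, ← h2 x x.2]
  exact (h3 _).2 ⟨x, hR x.2, rfl⟩

/-- A characteristic subgroup of a subgroup normal in the system is weakly closed. -/
theorem weaklyClosed_of_char {Ω : Type*} [Group Ω] {S : Subgroup Ω} {F : Cfsg.FusionSystem S}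
    {Q : Subgroup Ω} (hQ : F.IsNormal Q) (U : Subgroup Q) [hU : U.Characteristic] :
    F.WeaklyClosed (U.map Q.subtype) := by
  obtain ⟨hQS, h⟩ := (isNormal_iff F Q).1 hQ
  have hUQ : U.map Q.subtype ≤ Q := by
    rintro _ ⟨x, -, rfl⟩
    exact x.2
  refine ⟨hUQ.trans hQS, fun φ hφ => ?_⟩
  obtain ⟨f', h1, h2, h3⟩ := h _ _ (Mor.of_hom hφ)
  have hiso : Iso F Q Q f' := ⟨h1.mono le_sup_right, h3⟩
  obtain ⟨α, -, e⟩ := hiso.exists_aut
  have hch := Subgroup.characteristic_iff_map_eq.1 hU α
  ext y
  constructor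
  · rintro ⟨x, rfl⟩
    obtain ⟨u, hu, hux⟩ := x.2
    refine ⟨α u, ?_, ?_⟩
    · rw [← hch]
      exact ⟨u, hu, rfl⟩
    · show ((α u : Q) : Ω) = _
      rw [e, ← ext_coe, ← h2 x x.2, ← hux]
      rfl
  · rintro ⟨v, hv, rfl⟩
    rw [← hch] at hv
    obtain ⟨u, hu, rfl⟩ := hv
    refine ⟨⟨u, ⟨u, hu, rfl⟩⟩, ?_⟩
    rw [← ext_coe, ← h2 _ (⟨u, hu, rfl⟩ : (u : Ω) ∈ U.map Q.subtype)]
    exact (e u).symm

/-- Let F be a saturated fusion system over a finite p-group S and Q a subgroup of S. Then Q is normal in F (F equals the normalizer system of Q) if and only if Q is strongly closed in F and admits a central series 1 = Q₀ ≤ Q₁ ≤ ⋯ ≤ Qₙ = Q ([Qᵢ₊₁, Q] ≤ Qᵢ) all of whose proper terms are weakly closed in F. -/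
theorem result {Ω : Type*} [Group Ω] {S : Subgroup Ω} [Finite S] (p : ℕ) [Fact p.Prime] (hS : IsPGroup p S) (F : Cfsg.FusionSystem S) (hF : F.IsSaturated p) (Q : Subgroup Ω) : F.IsNormal Q ↔ F.StronglyClosed Q ∧ ∃ (n : ℕ) (C : Fin (n + 1) → Subgroup Ω), C 0 = ⊥ ∧ C (Fin.last n) = Q ∧ Monotone C ∧ (∀ i : Fin n, ⁅C i.succ, Q⁆ ≤ C i.castSucc) ∧ ∀ i : Fin n, F.WeaklyClosed (C i.castSucc) := by
  constructor
  · intro hQ
    have hQS : Q ≤ S := hQ.1
    have hfin : Finite Q := finite_of_le hQS
    have hnil : Group.IsNilpotent Q := (hS.to_le hQS).isNilpotent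
    refine ⟨stronglyClosed_of_normal hQ, Group.nilpotencyClass Q,
      fun i => (Subgroup.upperCentralSeries Q i).map Q.subtype, ?_, ?_, ?_, ?_, ?_⟩
    · simp
    · simp [← MonoidHom.range_eq_map]
    · intro i j hij
      exact Subgroup.map_mono (Subgroup.upperCentralSeries_mono Q hij)
    · intro i
      rw [Subgroup.commutator_le]
      rintro _ ⟨x, hx, rfl⟩ y hy
      refine ⟨⁅x, ⟨y, hy⟩⁆, ?_, rfl⟩
      exact Subgroup.mem_upperCentralSeries_succ_iff.1 hx ⟨y, hy⟩
    · intro i
      exact weaklyClosed_of_char hQ _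
  · rintro ⟨hQ, n, C, h0, hn, hmono, hcomm, hw⟩
    rw [Cfsg.Agent.S5086.result p hS F hF Q]
    refine ⟨hQ, fun P hc hr => ?_⟩
    refine le_of_series p hS F Q hQ n (fun j => C ⟨min j n, by omega⟩) ?_ ?_ ?_ ?_ ?_ P hc hr
    · simpa using h0
    · have e0 : (⟨min n n, by omega⟩ : Fin (n + 1)) = Fin.last n := by
        apply Fin.ext
        show min n n = n
        omega
      show C _ = Q
      rw [e0]
      exact hn
    · intro i j hij
      apply hmono
      show min i n ≤ min j n
      omega
    · intro i hi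
      have h1 := hcomm ⟨i, hi⟩
      have e1 : (⟨min (i + 1) n, by omega⟩ : Fin (n + 1)) = (⟨i, hi⟩ : Fin n).succ := by
        apply Fin.ext
        show min (i + 1) n = i + 1
        omega
      have e2 : (⟨min i n, by omega⟩ : Fin (n + 1)) = (⟨i, hi⟩ : Fin n).castSucc := by
        apply Fin.ext
        show min i n = i
        omega
      show ⁅C _, Q⁆ ≤ C _
      rw [e1, e2]
      exact h1
    · intro i hi
      have e2 : (⟨min i n, by omega⟩ : Fin (n + 1)) = (⟨i, hi⟩ : Fin n).castSucc := by
        apply Fin.ext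
        show min i n = i
        omega
      show F.WeaklyClosed (C _)
      rw [e2]
      exact hw ⟨i, hi⟩

end Cfsg.Agent.S5226
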