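import Cfsg.Statements.S5245
import Cfsg.Agent.Lib.Helper89.AutSystem
import Cfsg.Agent.Lib.Helper86.FusionFrobenius
import Cfsg.Agent.Lib.Helper90.FusionInner
-- import your own Cfsg.Agent.* helpers here

set_option autoImplicit false
open Cfsg

namespace Cfsg.Agent.S5245


open Cfsg.FusionSystem Cfsg.Agent.Lib.Helper87 Cfsg.Agent.Lib.Helper89

theorem pow_mem_inn {R : Type*} [Group R] (α : MulAut R) (q : ℕ) (hα : α ^ q = 1) :
    ∀ β ∈ Inn R ⊔ Subgroup.zpowers α, β ^ q ∈ Inn R := by
  have hle : Inn R ⊔ Subgroup.zpowers α ≤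
      (Subgroup.zpowers (QuotientGroup.mk' (Inn R) α)).comap (QuotientGroup.mk' (Inn R)) := by
    refine sup_le ?_ ?_
    · intro x hx
      rw [Subgroup.mem_comap]
      have : QuotientGroup.mk' (Inn R) x = 1 := (QuotientGroup.eq_one_iff x).2 hx
      rw [this]
      exact Subgroup.one_mem _
    · rw [Subgroup.zpowers_le, Subgroup.mem_comap]
      exact Subgroup.mem_zpowers _
  intro β hβ
  obtain ⟨k, hk⟩ := Subgroup.mem_zpowers_iff.1 (Subgroup.mem_comap.1 (hle hβ))
  have h1 : QuotientGroup.mk' (Inn R) (β ^ q) = 1 := by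
    rw [map_pow, ← hk, ← zpow_natCast, ← zpow_mul, mul_comm, zpow_mul, zpow_natCast, ← map_pow, hα,
      map_one, one_zpow]
  exact (QuotientGroup.eq_one_iff _).1 h1

theorem isPGroup_inn {Ω : Type*} [Group Ω] {p : ℕ} {R : Subgroup Ω} (hR : IsPGroup p R) :
    IsPGroup p (Inn R) := by
  rw [inn_eq_autInducedBy]
  exact isPGroup_autInducedBy hR R

theorem not_mem_inn {Ω : Type*} [Group Ω] {p : ℕ} [Fact p.Prime] {R : Subgroup Ω}
    (hR : IsPGroup p R) {q : ℕ} (hq : q.Prime) (hqp : q ≠ p) {α : MulAut R} (hα : orderOf α = q) :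
    α ∉ Inn R := by
  intro h
  obtain ⟨k, hk⟩ := isPGroup_inn hR ⟨α, h⟩
  have hk' : α ^ p ^ k = 1 := by
    have := congrArg Subtype.val hk
    simpa using this
  have h1 := orderOf_dvd_of_pow_eq_one hk'
  rw [hα] at h1
  exact hqp ((Nat.prime_dvd_prime_iff_eq hq (Fact.out : p.Prime)).1 (hq.dvd_of_dvd_pow h1))

/-- The main step: an automorphism of prime order `q ≠ p` in the system lives on `S`, and generates the
system together with the inner automorphisms. -/
theorem key {Ω : Type*} [Group Ω] {S : Subgroup Ω} [Finite S] {p : ℕ} [Fact p.Prime]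
    (hS : IsPGroup p S) (F : Cfsg.FusionSystem S)
    (hsp : ∀ (T : Subgroup Ω) (E : Cfsg.FusionSystem T), E.IsSaturated p → E.IsSubsystemOf F →
      (T = S ∧ ∀ P : Subgroup Ω, E.Hom P = F.Hom P) ∨
        (∀ P : Subgroup Ω, E.Hom P = (Cfsg.innerFusionSystem T).Hom P))
    {R : Subgroup Ω} (hR : R ≤ S) {q : ℕ} (hq : q.Prime) (hqp : q ≠ p) {α : MulAut R}
    (hαF : α ∈ F.autGroup R) (hα : orderOf α = q) :
    R = S ∧ ∀ P : Subgroup Ω,
      (autSystem R (Inn R ⊔ Subgroup.zpowers α) le_sup_left).Hom P = F.Hom P := by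
  have hRp : IsPGroup p R := hS.to_le hR
  have hsat := autSystem_saturated R hRp (Inn R ⊔ Subgroup.zpowers α) le_sup_left q
    ((Nat.coprime_primes hq (Fact.out : p.Prime)).2 hqp)
    (pow_mem_inn α q (by rw [← hα, pow_orderOf_eq_one]))
  have hsub := autSystem_isSubsystemOf F hR (Inn R ⊔ Subgroup.zpowers α) le_sup_left
    (sup_le (Cfsg.Agent.Lib.Helper90.inn_le_autGroup F hR) (by rwa [Subgroup.zpowers_le]))
  rcases hsp R _ hsat hsub with h | h
  · exact h
  · exfalso
    have h1 : α ∈ (autSystem R (Inn R ⊔ Subgroup.zpowers α) le_sup_left).autGroup R := by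
      rw [autSystem_autGroup_self]
      exact (le_sup_right : Subgroup.zpowers α ≤ _) (Subgroup.mem_zpowers α)
    have h2 : (autSystem R (Inn R ⊔ Subgroup.zpowers α) le_sup_left).autGroup R
        = (innerFusionSystem R).autGroup R := by
      unfold FusionSystem.autGroup
      rw [h R]
    rw [h2] at h1
    have h3 := Cfsg.Agent.Lib.Helper90.inner_autGroup_le R R le_rfl h1
    rw [← inn_eq_autInducedBy] at h3
    exact not_mem_inn hRp hq hqp hα h3

theorem exists_prime_order {A : Type*} [Group A] [Finite A] {p : ℕ} [Fact p.Prime]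
    (h : ¬ IsPGroup p A) : ∃ (q : ℕ) (a : A), q.Prime ∧ q ≠ p ∧ orderOf a = q := by
  by_contra hcon
  push Not at hcon
  apply h
  rw [IsPGroup.iff_card]
  refine ⟨_, Nat.eq_prime_pow_of_unique_prime_dvd Nat.card_pos.ne' ?_⟩
  intro d hd hdvd
  by_contra hdp
  have : Fact d.Prime := ⟨hd⟩
  obtain ⟨a, ha⟩ := exists_prime_orderOf_dvd_card' d hdvd
  exact hcon d a hd hdp ha
/-- Let F be an extremely sparse fusion system over a finite p-group S (saturated, not the inner system, and every saturated fusion system over any subgroup T of S contained in F is F itself or the inner system of T). Then S is normal in F, the focal and hyperfocal subgroups of F are both S, and Aut_F(S) is generated by the inner automorphisms of S together with a single automorphism of prime order q ≠ p (F is the fusion system of the semidirect product of S by a cyclic group of prime order). -/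
theorem result {Ω : Type*} [Group Ω] {S : Subgroup Ω} [Finite S] (p : ℕ) [Fact p.Prime] (hS : IsPGroup p S) (F : Cfsg.FusionSystem S) (hF : F.IsSaturated p) (hxs : ¬ (∀ P : Subgroup Ω, F.Hom P = (Cfsg.innerFusionSystem S).Hom P) ∧ ∀ (T : Subgroup Ω) (E : Cfsg.FusionSystem T), E.IsSaturated p → E.IsSubsystemOf F → (T = S ∧ ∀ P : Subgroup Ω, E.Hom P = F.Hom P) ∨ (∀ P : Subgroup Ω, E.Hom P = (Cfsg.innerFusionSystem T).Hom P)) : F.IsNormal S ∧ F.focalSubgroup = S ∧ F.hyperfocalSubgroup p = S ∧ ∃ (q : ℕ) (β : MulAut ↥S), q.Prime ∧ q ≠ p ∧ β ∈ F.autGroup S ∧ orderOf β = q ∧ (F.autGroup S : Subgroup (MulAut ↥S)) = Cfsg.Inn ↥S ⊔ Subgroup.zpowers β := by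
  obtain ⟨hne, hsp⟩ := hxs
  have h1 : ∃ R, R ≤ S ∧ ¬ IsPGroup p (F.autGroup R) := by
    by_contra hcon
    push Not at hcon
    have := Cfsg.Agent.Lib.Helper86.eq_inner_of_isPGroup hS F hF hcon
    exact hne (fun P => by rw [this])
  obtain ⟨R, hR, hRp⟩ := h1
  have hfinR : Finite R := Cfsg.Agent.Lib.Helper89.finite_of_le hR
  obtain ⟨q, a, hq, hqp, ha⟩ := exists_prime_order hRp
  obtain ⟨α, hαF⟩ := a
  have hα : orderOf α = q := by
    rw [← ha]
    exact (Subgroup.orderOf_mk α hαF).symm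
  obtain ⟨hRS, hHom⟩ := key hS F hsp hR hq hqp hαF hα
  subst hRS
  have hmor : ∀ P f, Mor F P f ↔ P ≤ R ∧ ∃ β ∈ Inn R ⊔ Subgroup.zpowers α,
      ∀ x ∈ P, f x = autFun β x := by
    intro P f
    rw [← mor_autSystem_iff R _ le_sup_left]
    unfold Mor
    rw [hHom P]
  have haut : F.autGroup R = Inn R ⊔ Subgroup.zpowers α := by
    rw [← autSystem_autGroup_self R (Inn R ⊔ Subgroup.zpowers α) le_sup_left]
    unfold FusionSystem.autGroup
    rw [hHom R]
  -- the commutator subgroup `[R, α]`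
  set T : Subgroup Ω := Subgroup.closure {y : Ω | ∃ x : R, y = (x : Ω)⁻¹ * (α x : R)} with hTdef
  have hTR : T ≤ R := by
    rw [hTdef, Subgroup.closure_le]
    rintro _ ⟨x, rfl⟩
    exact R.mul_mem (R.inv_mem x.2) (α x).2
  have hgen : ∀ x : R, (x : Ω)⁻¹ * (α x : R) ∈ T := fun x => Subgroup.subset_closure ⟨x, rfl⟩
  have hTinv : ∀ y ∈ T, autFun α y ∈ T := by
    intro y hy
    induction hy using Subgroup.closure_induction with
    | mem y hy =>
      obtain ⟨x, rfl⟩ := hy
      have h2 : autFun α ((x : Ω)⁻¹ * (α x : R)) = ((α x : R) : Ω)⁻¹ * (α (α x) : R) := by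
        have : (x : Ω)⁻¹ * (α x : R) = ((x⁻¹ * α x : R) : Ω) := rfl
        rw [this, autFun_coe, map_mul, map_inv]
        rfl
      rw [h2]
      exact hgen _
    | one =>
      rw [autFun_apply α R.one_mem]
      have : (⟨1, R.one_mem⟩ : R) = 1 := rfl
      rw [this, map_one]
      exact T.one_mem
    | mul a b ha hb iha ihb =>
      rw [autFun_map_mul α (hTR ha) (hTR hb)]
      exact T.mul_mem iha ihb
    | inv a ha iha =>
      have h3 : autFun α a⁻¹ = (autFun α a)⁻¹ := by
        rw [autFun_apply α (hTR ha), autFun_apply α (R.inv_mem (hTR ha))]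
        have : (⟨a⁻¹, R.inv_mem (hTR ha)⟩ : R) = (⟨a, hTR ha⟩ : R)⁻¹ := rfl
        rw [this, map_inv]
        rfl
      rw [h3]
      exact T.inv_mem iha
  have hfinT : Finite T := Cfsg.Agent.Lib.Helper89.finite_of_le hTR
  have hαmor : Mor F R (autFun α) := (mem_autGroup_iff F le_rfl α).1 hαF
  obtain ⟨αT, hαT, eT⟩ := ((hαmor.mono hTR).iso_self hTinv).exists_aut
  have hpowT : ∀ n : ℕ, ∀ x : T, (((αT ^ n) x : T) : Ω) = autFun (α ^ n) x := by
    intro n x
    rw [← autFun_coe]
    exact autFun_pow_eq hTR αT α (fun y hy => by rw [autFun_apply _ hy, eT]) n x x.2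
  have hαTq : αT ^ q = 1 := by
    ext x
    rw [hpowT, ← hα, pow_orderOf_eq_one, autFun_apply _ (hTR x.2)]
    rfl
  have hαT1 : αT ≠ 1 := by
    intro h1
    -- then `α` stabilizes `1 ≤ T ≤ R`
    have hfix : ∀ y ∈ T, autFun α y = y := by
      intro y hy
      rw [← eT ⟨y, hy⟩, h1]
      rfl
    obtain ⟨k, hk⟩ := exists_pow_eq_one_of_stabilizes_chain hS α 2
      (fun i => if i = 0 then ⊥ else if i = 1 then T.subgroupOf R else ⊤) (by simp) (by simp)
      (by
        intro i x hx
        by_cases h0 : i = 0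
        · subst h0
          simp only [if_true, Subgroup.mem_bot] at hx ⊢
          rw [hx, map_one]
        · by_cases h2 : i = 1
          · subst h2
            simp only [one_ne_zero, if_false, if_true] at hx ⊢
            rw [Subgroup.mem_subgroupOf] at hx ⊢
            rw [← autFun_coe]
            exact hTinv _ hx
          · simp only [h0, h2, if_false]
            trivial)
      (by
        intro i hi x hx
        interval_cases i
        · simp only [zero_add, one_ne_zero, if_false, if_true] at hx ⊢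
          rw [Subgroup.mem_subgroupOf] at hx
          rw [Subgroup.mem_bot]
          apply Subtype.ext
          show (x : Ω)⁻¹ * ((α x : R) : Ω) = 1
          rw [← autFun_coe, hfix _ hx, inv_mul_cancel]
        · simp only [one_ne_zero, if_false, if_true]
          rw [Subgroup.mem_subgroupOf]
          exact hgen x)
    have h2 := orderOf_dvd_of_pow_eq_one hk
    rw [hα] at h2
    exact hqp ((Nat.prime_dvd_prime_iff_eq hq (Fact.out : p.Prime)).1 (hq.dvd_of_dvd_pow h2))
  have hαTord : orderOf αT = q := by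
    rcases (Nat.dvd_prime hq).1 (orderOf_dvd_of_pow_eq_one hαTq) with h | h
    · exact absurd (orderOf_eq_one_iff.1 h) hαT1
    · exact h
  have hTS : T = R := (key hS F hsp hTR hq hqp hαT hαTord).1
  refine ⟨?_, ?_, ?_, q, α, hq, hqp, hαF, hα, haut⟩
  · rw [isNormal_iff]
    refine ⟨le_rfl, fun P f hf => ?_⟩
    obtain ⟨hP, β, hβ, e⟩ := (hmor P f).1 hf
    have hsup : P ⊔ R = R := sup_eq_right.2 hP
    refine ⟨autFun β, ?_, fun x hx => (e x hx).symm, fun y => ⟨fun hy => ?_, ?_⟩⟩
    · rw [hsup]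
      exact (hmor R _).2 ⟨le_rfl, β, hβ, fun x _ => rfl⟩
    · refine ⟨autFun β⁻¹ y, autFun_mem _ hy, ?_⟩
      have := autFun_inv_apply β⁻¹ hy
      rwa [inv_inv] at this
    · rintro ⟨x, hx, rfl⟩
      exact autFun_mem β hx
  · apply le_antisymm
    · unfold FusionSystem.focalSubgroup
      rw [Subgroup.closure_le]
      rintro _ ⟨P, φ, x, hφ, rfl⟩
      exact R.mul_mem (R.inv_mem ((F.le_of_mem hφ).1 x.2)) ((F.le_of_mem hφ).2 x)
    · conv_lhs => rw [← hTS]
      rw [hTdef, Subgroup.closure_le]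
      rintro _ ⟨x, rfl⟩
      exact Subgroup.subset_closure ⟨R, _, x, (mem_autGroup_iff' F le_rfl α).1 hαF, rfl⟩
  · apply le_antisymm
    · unfold FusionSystem.hyperfocalSubgroup
      rw [Subgroup.closure_le]
      rintro _ ⟨P, β, x, hP, -, rfl⟩
      exact R.mul_mem (R.inv_mem (hP x.2)) (hP ((β : MulAut P) x).2)
    · conv_lhs => rw [← hTS]
      rw [hTdef, Subgroup.closure_le]
      rintro _ ⟨x, rfl⟩
      refine Subgroup.subset_closure ⟨R, ⟨α, hαF⟩, x, le_rfl, Subgroup.subset_closure ?_, rfl⟩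
      show Nat.Coprime (orderOf (⟨α, hαF⟩ : F.autGroup R)) p
      rw [Subgroup.orderOf_mk, hα]
      exact (Nat.coprime_primes hq (Fact.out : p.Prime)).2 hqp

end Cfsg.Agent.S5245
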