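import Cfsg.Statements.S5251
import Cfsg.Agent.Lib.Helper89.Radical
import Cfsg.Agent.Lib.Helper87.StronglyClosed
import Cfsg.Agent.Lib.Helper88.FullyNormalized
-- import your own Cfsg.Agent.* helpers here

set_option autoImplicit false
open Cfsg

namespace Cfsg.Agent.S5251


open Cfsg.FusionSystem Cfsg.Agent.Lib.Helper87 Cfsg.Agent.Lib.Helper89

theorem key1 {Ω : Type*} [Group Ω] {S : Subgroup Ω} [Finite S] {p : ℕ} [Fact p.Prime]
    (hS : IsPGroup p S) (F : FusionSystem S) {T : Subgroup Ω} (hT : F.StronglyClosed T)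
    {R : Subgroup Ω} (hR : R ≤ S) (hc : ¬ centralizerIn T (R ⊓ T) ≤ R ⊓ T) :
    ∃ x ∈ normalizerIn S R, x ∉ R ∧ ∃ α ∈ (pCore p (F.autGroup R)).map (F.autGroup R).subtype,
      ∀ y : R, ((α y : R) : Ω) = x * y * x⁻¹ := by
  have hTS : T ≤ S := hT.1
  have hDS : centralizerIn T (R ⊓ T) ≤ S := (centralizerIn_le T _).trans hTS
  have hfinD : Finite (centralizerIn T (R ⊓ T)) := Cfsg.Agent.Lib.Helper89.finite_of_le hDS
  have hRD : R ≤ Subgroup.normalizer ((centralizerIn T (R ⊓ T) : Subgroup Ω) : Set Ω) := by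
    intro u hu
    apply Cfsg.Agent.Lib.Helper86.mem_normalizer_of_forall_conj_mem
    intro d hd
    rw [mem_centralizerIn_iff] at hd ⊢
    refine ⟨StronglyClosed.conj_mem hT (hR hu) hd.1, fun z hz => ?_⟩
    have hz' : u⁻¹ * z * u ∈ R ⊓ T := by
      refine ⟨R.mul_mem (R.mul_mem (R.inv_mem hu) hz.1) hu, ?_⟩
      have := StronglyClosed.conj_mem hT (S.inv_mem (hR hu)) hz.2
      simpa using this
    have h1 := hd.2 _ hz'
    calc z * (u * d * u⁻¹) = u * ((u⁻¹ * z * u) * d) * u⁻¹ := by group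
      _ = u * (d * (u⁻¹ * z * u)) * u⁻¹ := by rw [h1]
      _ = u * d * u⁻¹ * z := by group
  have hex : ∃ g ∈ centralizerIn T (R ⊓ T), g ∈ Subgroup.normalizer (R : Set Ω) ∧ g ∉ R := by
    by_contra hcon
    push Not at hcon
    have h1 := le_of_normalizer_inter_le hS hR hDS hRD hcon
    exact hc (le_inf h1 (centralizerIn_le T _))
  obtain ⟨x, hxD, hxN, hxR⟩ := hex
  rw [mem_centralizerIn_iff] at hxD
  have hxNS : x ∈ normalizerIn S R := ⟨hTS hxD.1, hxN⟩
  obtain ⟨α, hα, e⟩ := exists_conj_aut F hR hxNS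
  refine ⟨x, hxNS, hxR, α, ?_, e⟩
  have hfinR : Finite R := Cfsg.Agent.Lib.Helper89.finite_of_le hR
  refine mem_pCore_of_stabilizes_chain (hS.to_le hR) (F.autGroup R) 2
    (fun i => if i = 0 then ⊥ else if i = 1 then (R ⊓ T).subgroupOf R else ⊤) (by simp) (by simp)
    ?_ α hα ?_
  · intro i β hβ y hy
    by_cases h0 : i = 0
    · subst h0
      simp only [if_true] at hy ⊢
      rw [Subgroup.mem_bot] at hy ⊢
      rw [hy, map_one]
    · by_cases h1 : i = 1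
      · subst h1
        simp only [one_ne_zero, if_false, if_true] at hy ⊢
        rw [Subgroup.mem_subgroupOf] at hy ⊢
        refine ⟨(β y).2, ?_⟩
        have h2 := (mem_autGroup_iff F hR β).1 hβ
        have h3 := StronglyClosed.map_mem hT h2 y.2 hy.2
        rwa [autFun_coe] at h3
      · simp only [h0, h1, if_false]
        exact Subgroup.mem_top _
  · intro i hi y hy
    interval_cases i
    · simp only [zero_add, one_ne_zero, if_false, if_true] at hy ⊢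
      rw [Subgroup.mem_subgroupOf] at hy
      rw [Subgroup.mem_bot]
      apply Subtype.ext
      have h1 := hxD.2 _ hy
      show (y : Ω)⁻¹ * ((α y : R) : Ω) = 1
      rw [e y]
      calc (y : Ω)⁻¹ * (x * y * x⁻¹) = (y : Ω)⁻¹ * (x * y) * x⁻¹ := by group
        _ = (y : Ω)⁻¹ * (y * x) * x⁻¹ := by rw [h1]
        _ = 1 := by group
    · simp only [one_ne_zero, if_false, if_true]
      rw [Subgroup.mem_subgroupOf]
      refine ⟨(y⁻¹ * α y).2, ?_⟩
      show (y : Ω)⁻¹ * ((α y : R) : Ω) ∈ T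
      rw [e y]
      have h1 := StronglyClosed.conj_mem hT (S.inv_mem (hR y.2)) hxD.1
      have h2 := T.mul_mem h1 (T.inv_mem hxD.1)
      have h3 : (y : Ω)⁻¹ * x * (y : Ω)⁻¹⁻¹ * x⁻¹ = (y : Ω)⁻¹ * (x * y * x⁻¹) := by group
      rwa [h3] at h2
/-- Let F be a saturated fusion system over a finite p-group S, E a normal subsystem of F over T, and P an F-centric subgroup of S such that P ∩ T is not E-centric. Then some F-conjugate P* of P satisfies Out_S(P*) ∩ O_p(Out_F(P*)) ≠ 1: there is an element of N_S(P*) outside P* whose conjugation action on P* lies in O_p(Aut_F(P*)). In particular P is not both centric and radical in F. -/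
theorem result {Ω : Type*} [Group Ω] {S : Subgroup Ω} [Finite S] (p : ℕ) [Fact p.Prime] (hS : IsPGroup p S) (F : Cfsg.FusionSystem S) (hF : F.IsSaturated p) {T : Subgroup Ω} (E : Cfsg.FusionSystem T) (hE : E.IsNormalIn F p) (P : Subgroup Ω) (hP : F.IsCentric P) (hPT : ¬ E.IsCentric (P ⊓ T)) : (∃ φ ∈ F.Hom P, ∃ x ∈ S ⊓ Subgroup.normalizer (φ.range : Set Ω), x ∉ φ.range ∧ ∃ α ∈ ((Cfsg.pCore p ↥(F.autGroup φ.range)).map (F.autGroup φ.range).subtype : Subgroup (MulAut ↥φ.range)), ∀ y : ↥φ.range, ((α y : ↥φ.range) : Ω) = x * (y : Ω) * x⁻¹) ∧ ¬ F.IsRadical p P := by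
  have hinv := hE.1.2.2
  have hsub := hinv.1
  have hT := hinv.2.1
  have hTS : T ≤ S := hT.1
  have hPS : P ≤ S := hP.1
  have hP0S : P ⊓ T ≤ S := inf_le_left.trans hPS
  -- a conjugate of `P ⊓ T` with big centralizer
  have hex : ∃ Q, E.IsConj (P ⊓ T) Q ∧ ¬ centralizerIn T Q ≤ Q := by
    by_contra hcon
    push Not at hcon
    exact hPT ⟨inf_le_right, hcon⟩
  obtain ⟨Q, hQ, hQc⟩ := hex
  have hQF : F.IsConj (P ⊓ T) Q := Cfsg.Agent.Lib.Helper88.isConj_of_subsystem hsub hQ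
  obtain ⟨R₀, hR₀, hR₀n⟩ := Cfsg.Agent.Lib.Helper87.exists_fullyNormalized_conj F hP0S
  obtain ⟨f, hf, hfN, hfQ⟩ := Cfsg.Agent.Lib.Helper88.exists_mor_normalizerIn hS hF hR₀n
    (isConj_trans (isConj_symm hQF) hR₀)
  obtain ⟨χ, hχ, hχN, hχQ⟩ := Cfsg.Agent.Lib.Helper88.exists_mor_normalizerIn hS hF hR₀n
    hR₀
  have hQS : Q ≤ S := isConj_le' hQF
  -- `C_T(R₀)` is not contained in `R₀`
  have hR₀c : ¬ centralizerIn T R₀ ≤ R₀ := by
    intro hle
    apply hQc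
    intro c hc
    rw [mem_centralizerIn_iff] at hc
    have hcN : c ∈ normalizerIn S Q :=
      centralizerIn_le_normalizerIn S Q ((mem_centralizerIn_iff S Q c).2 ⟨hTS hc.1, hc.2⟩)
    have h1 : f c ∈ centralizerIn S R₀ :=
      hf.map_mem_centralizerIn (le_normalizerIn hQS) hfQ hcN hc.2
    have h2 : f c ∈ T := StronglyClosed.map_mem hT hf hcN hc.1
    have h3 : f c ∈ R₀ := hle ((mem_centralizerIn_iff T R₀ _).2
      ⟨h2, ((mem_centralizerIn_iff S R₀ _).1 h1).2⟩)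
    obtain ⟨x, hx, hxc⟩ := (hfQ _).1 h3
    have := hf.inj (le_normalizerIn hQS hx) hcN hxc
    rwa [← this]
  -- `P` normalizes `P ⊓ T`
  have hPN : P ≤ normalizerIn S (P ⊓ T) := by
    intro u hu
    refine ⟨hPS hu, ?_⟩
    have : Finite (P ⊓ T : Subgroup Ω) := Cfsg.Agent.Lib.Helper89.finite_of_le hP0S
    apply Cfsg.Agent.Lib.Helper86.mem_normalizer_of_forall_conj_mem
    intro y hy
    exact ⟨P.mul_mem (P.mul_mem hu hy.1) (P.inv_mem hu), StronglyClosed.conj_mem hT (hPS hu) hy.2⟩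
  have hχP : Mor F P χ := hχ.mono hPN
  obtain ⟨φ, hφ, e⟩ := hχP
  have hrange : ∀ y, y ∈ φ.range ↔ ∃ x ∈ P, χ x = y := by
    intro y
    constructor
    · rintro ⟨x, rfl⟩
      exact ⟨x, x.2, (e x).symm⟩
    · rintro ⟨x, hx, rfl⟩
      exact ⟨⟨x, hx⟩, e ⟨x, hx⟩⟩
  have hrS : φ.range ≤ S := by
    rintro _ ⟨x, rfl⟩
    exact (F.le_of_mem hφ).2 x
  have hrT : φ.range ⊓ T = R₀ := by
    ext y
    constructor
    · rintro ⟨hy1, hy2⟩
      obtain ⟨x, hx, rfl⟩ := (hrange y).1 hy1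
      have hxT : x ∈ T := (StronglyClosed.mem_iff hT hχ (hPN hx)).2 hy2
      exact (hχQ _).2 ⟨x, ⟨hx, hxT⟩, rfl⟩
    · intro hy
      obtain ⟨x, hx, rfl⟩ := (hχQ y).1 hy
      exact ⟨(hrange _).2 ⟨x, hx.1, rfl⟩, StronglyClosed.map_mem hT hχ (hPN hx.1) hx.2⟩
  have hkey := key1 hS F hT hrS (by rw [hrT]; exact hR₀c)
  obtain ⟨x, hxN, hxR, α, hα, hαx⟩ := hkey
  refine ⟨⟨φ, hφ, x, hxN, hxR, α, hα, hαx⟩, fun hrad => ?_⟩
  have hconj : F.IsConj P φ.range := ⟨φ, hφ, rfl⟩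
  exact hxR (mem_of_conj_mem_pCore (centric_conj hP hconj) (isRadical_of_isConj hconj hrad)
    hxN.1 α hα hαx)

end Cfsg.Agent.S5251
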