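import Cfsg.Statements.S5255
import Cfsg.Agent.Lib.Helper87.FusionGroup
import Cfsg.Agent.Lib.Helper89.Lifting
-- import your own Cfsg.Agent.* helpers here

set_option autoImplicit false
open Cfsg

namespace Cfsg.Agent.S5255

open Cfsg.FusionSystem Cfsg.Agent.Lib.Helper87 Cfsg.Agent.Lib.Helper89

/-- Let F be a saturated fusion system over a finite p-group S and T a subgroup of S strongly closed in F. Then T·C_S(T) is strongly closed in F. -/
theorem result {Ω : Type*} [Group Ω] {S : Subgroup Ω} [Finite S] (p : ℕ) [Fact p.Prime] (hS : IsPGroup p S) (F : Cfsg.FusionSystem S) (hF : F.IsSaturated p) (T : Subgroup Ω) (hT : F.StronglyClosed T) : F.StronglyClosed (T ⊔ Cfsg.FusionSystem.centralizerIn S T) := by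
  have hTS : T ≤ S := hT.1
  have hTfin : Finite T := finite_of_le hTS
  refine ⟨sup_le hTS (centralizerIn_le S T), fun R hR φ hφ x => ?_⟩
  obtain ⟨f', hf', hlift⟩ := liftMod_of_stronglyClosed hS F hF T hT R _ (Mor.of_hom hφ)
  have hTT : Iso F T T f' := (hf'.mono le_sup_right).iso_self (fun y hy =>
    StronglyClosed.mor_mem hT hf' ((le_sup_right : T ≤ R ⊔ T) hy) hy)
  have hnorm : ∀ a ∈ T, ∀ b ∈ centralizerIn S T, a * b * a⁻¹ ∈ centralizerIn S T := by
    intro a ha b hb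
    have h1 := ((mem_centralizerIn_iff S T b).1 hb).2 a ha
    have h2 : a * b * a⁻¹ = b := by rw [h1]; group
    rw [h2]; exact hb
  obtain ⟨t, ht, c, hc, hxtc⟩ := mem_sup_of_normalizes hnorm (hR x.2)
  have hxm : (x : Ω) ∈ R ⊔ T := Subgroup.mem_sup_left x.2
  have htm : t ∈ R ⊔ T := Subgroup.mem_sup_right ht
  have hcen : (f' t)⁻¹ * f' x ∈ centralizerIn S T := by
    rw [mem_centralizerIn_iff]
    refine ⟨S.mul_mem (S.inv_mem (hf'.mem htm)) (hf'.mem hxm), fun y' hy' => ?_⟩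
    obtain ⟨y, hy, rfl⟩ := hTT.surj hy'
    have hym : y ∈ R ⊔ T := Subgroup.mem_sup_right hy
    have h1 : (x : Ω) * y * (x : Ω)⁻¹ = t * y * t⁻¹ := by
      have h2 := ((mem_centralizerIn_iff S T c).1 hc).2 y hy
      rw [hxtc]
      calc t * c * y * (t * c)⁻¹ = t * (c * y) * c⁻¹ * t⁻¹ := by group
        _ = t * y * t⁻¹ := by rw [← h2]; group
    have h3 : f' x * f' y * (f' x)⁻¹ = f' t * f' y * (f' t)⁻¹ := by
      rw [← hf'.map_conj hxm hym, ← hf'.map_conj htm hym, h1]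
    have h4 : f' x * f' y = f' t * f' y * (f' t)⁻¹ * f' x := by
      rw [← h3]; group
    calc f' y * ((f' t)⁻¹ * f' x) = (f' t)⁻¹ * (f' t * f' y * (f' t)⁻¹ * f' x) := by group
      _ = (f' t)⁻¹ * f' x * f' y := by rw [← h4]; group
  have h5 := hlift x x.2
  rw [ext_coe] at h5
  have h6 : φ x = f' t * ((f' t)⁻¹ * f' x) * ((f' x)⁻¹ * φ x) := by group
  rw [h6]
  exact Subgroup.mul_mem _ (Subgroup.mul_mem _ (Subgroup.mem_sup_left (hTT.map_mem ht))
    (Subgroup.mem_sup_right hcen)) (Subgroup.mem_sup_left h5)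

end Cfsg.Agent.S5255
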