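import Cfsg.Statements.S5290
import Cfsg.Agent.Lib.Helper90.FusionInnerNormal
import Cfsg.Agent.S5106

set_option autoImplicit false
open Cfsg

namespace Cfsg.Agent.S5290

open Cfsg.FusionSystem Cfsg.Agent.Lib.Helper87 Cfsg.Agent.Lib.Helper90

/-- Let F be a saturated fusion system over a finite p-group S and Q a subgroup of S. Then Q is normal in F (F = N_F(Q)) if and only if the inner fusion system of Q, consisting of the conjugations by elements of Q on subgroups of Q, is a weakly normal subsystem of F (both saturated, Q strongly closed, invariant under F-conjugation, with the Frattini property). -/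
theorem result {Ω : Type*} [Group Ω] {S : Subgroup Ω} [Finite S] (p : ℕ) [Fact p.Prime] (hS : IsPGroup p S)
    (F : Cfsg.FusionSystem S) (hF : F.IsSaturated p)
    (Q : Subgroup Ω) (hQ : Q ≤ S) :
    F.IsNormal Q ↔ (Cfsg.innerFusionSystem Q).IsWeaklyNormalIn F p := by
  constructor
  · intro h
    exact ⟨inner_saturated Q (hS.to_le hQ), hF, inner_invariant_of_normal F Q h⟩
  · rintro ⟨-, -, -, -, -, hfrat⟩
    rw [Cfsg.Agent.S5106.result p hS F hF Q hQ]
    intro P hPR φ hφ
    obtain ⟨α, hα, φ₀, ⟨-, g, hg, hφ₀⟩, hx⟩ := hfrat P hPR φ hφ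
    refine ⟨α * MulAut.conj (⟨g, hg⟩ : Q), (F.autGroup Q).mul_mem hα (inn_le_autGroup F hQ ⟨_, rfl⟩), ?_⟩
    intro x
    have hmem : φ₀ x ∈ Q := by
      rw [hφ₀]
      exact Q.mul_mem (Q.mul_mem hg (hPR x.2)) (Q.inv_mem hg)
    rw [hx x hmem, MulAut.mul_apply]
    congr 2
    apply Subtype.ext
    exact (hφ₀ x).symm

end Cfsg.Agent.S5290
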