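import Cfsg.Statements.S5291
import Cfsg.Agent.Lib.Helper90.FusionInvariant
import Cfsg.Agent.S5106

set_option autoImplicit false
open Cfsg

namespace Cfsg.Agent.S5291

open Cfsg.FusionSystem Cfsg.Agent.Lib.Helper87 Cfsg.Agent.Lib.Helper90

/-- Let F be a saturated fusion system over a finite p-group S and E a weakly normal subsystem of F over a subgroup T. Suppose a subgroup R of T is normal in E (E = N_E(R)), and let R* be the subgroup of T generated by the images of R under all maps of F with source R. Then R* is normal in F (F = N_F(R*)). -/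
theorem result {Ω : Type*} [Group Ω] {S : Subgroup Ω} [Finite S] (p : ℕ) [Fact p.Prime] (hS : IsPGroup p S)
    (F : Cfsg.FusionSystem S) (hF : F.IsSaturated p)
    {T : Subgroup Ω} (E : Cfsg.FusionSystem T) (hE : E.IsWeaklyNormalIn F p)
    (R : Subgroup Ω) (hR : E.IsNormal R) :
    F.IsNormal (Subgroup.closure {x : Ω | ∃ φ ∈ F.Hom R, ∃ r : R, x = φ r}) := by
  obtain ⟨-, -, hinv⟩ := hE
  have hTS : T ≤ S := hinv.2.1.1
  have hTfin : Finite T := Lib.Helper90.finite_of_le hTS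
  have hRT : R ≤ T := hR.1
  have hRsc : E.StronglyClosed R := Lib.Helper90.IsNormal.stronglyClosed hR
  set Rs := Subgroup.closure {x : Ω | ∃ φ ∈ F.Hom R, ∃ r : R, x = φ r} with hRs
  have haut : ∀ α ∈ F.autGroup T, Mor F T (autFun α) := fun α hα => (mem_autGroup_iff F hTS α).1 hα
  -- description as a join
  have hEq : Rs = sSup {Q : Subgroup Ω | ∃ α ∈ F.autGroup T, Q = img R (autFun α)} := by
    apply le_antisymm
    · rw [hRs, Subgroup.closure_le]
      rintro x ⟨φ, hφ, r, rfl⟩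
      obtain ⟨α, hα, f₀, hf₀, e⟩ := Lib.Helper90.IsInvariantIn.frattini hinv hRT (Mor.of_hom hφ)
      have h1 := e r r.2
      rw [ext_coe] at h1
      have h2 : img R (autFun α) ≤ sSup {Q : Subgroup Ω | ∃ α ∈ F.autGroup T, Q = img R (autFun α)} :=
        le_sSup ⟨α, hα, rfl⟩
      apply h2
      show φ r ∈ img R (autFun α)
      rw [h1, ((haut α hα).mono hRT).mem_img]
      exact ⟨f₀ r, Lib.Helper90.stronglyClosed_mor hRsc hf₀ le_rfl r r.2, rfl⟩
    · apply sSup_le
      rintro Q ⟨α, hα, rfl⟩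
      intro y hy
      obtain ⟨x, hx, rfl⟩ := (((haut α hα).mono hRT).mem_img y).1 hy
      obtain ⟨φ, hφ, e⟩ := (haut α hα).mono hRT
      exact Subgroup.subset_closure ⟨φ, hφ, ⟨x, hx⟩, (e ⟨x, hx⟩).symm⟩
  have hRsE : E.IsNormal Rs := by
    rw [hEq]
    have hs : SupClosed {Q : Subgroup Ω | E.IsNormal Q} :=
      fun a ha b hb => Cfsg.Agent.Lib.Helper88.IsNormal_sup ha hb
    refine hs.sSup_mem ((Cfsg.Agent.Lib.Helper88.finite_subgroups_le T).subset ?_)
      (Cfsg.Agent.Lib.Helper88.isNormal_bot E) ?_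
    · rintro Q ⟨α, hα, rfl⟩
      exact (Lib.Helper90.IsInvariantIn.normal_conj hinv hα hR).1
    · rintro Q ⟨α, hα, rfl⟩
      exact Lib.Helper90.IsInvariantIn.normal_conj hinv hα hR
  have hRsT : Rs ≤ T := hRsE.1
  have hRsfin : Finite Rs := Lib.Helper90.finite_of_le (hRsT.trans hTS)
  have hstab : ∀ α ∈ F.autGroup T, ∀ x ∈ Rs, autFun α x ∈ Rs := by
    intro α hα x hx
    have key : x ∈ T ∧ autFun α x ∈ Rs := by
      rw [hRs] at hx
      induction hx using Subgroup.closure_induction with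
      | mem x hx =>
        obtain ⟨φ, hφ, r, rfl⟩ := hx
        have hφT : φ r ∈ T := hRsT (Subgroup.subset_closure ⟨φ, hφ, r, rfl⟩)
        refine ⟨hφT, ?_⟩
        have hφT' : ∀ x ∈ R, ext φ x ∈ T := by
          intro x hx
          rw [ext_apply φ hx]
          exact hRsT (Subgroup.subset_closure ⟨φ, hφ, ⟨x, hx⟩, rfl⟩)
        obtain ⟨ψ, hψ, e⟩ := (Mor.of_hom hφ).comp (haut α hα) hφT'
        refine Subgroup.subset_closure ⟨ψ, hψ, r, ?_⟩
        rw [e]
        show autFun α (φ r) = autFun α (ext φ r)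
        rw [ext_coe]
      | one => exact ⟨T.one_mem, by rw [(haut α hα).map_one]; exact Rs.one_mem⟩
      | mul a b _ _ ha hb =>
        exact ⟨T.mul_mem ha.1 hb.1, by rw [(haut α hα).map_mul ha.1 hb.1]; exact Rs.mul_mem ha.2 hb.2⟩
      | inv a _ ha =>
        exact ⟨T.inv_mem ha.1, by rw [(haut α hα).map_inv ha.1]; exact Rs.inv_mem ha.2⟩
    exact key.2
  rw [Cfsg.Agent.S5106.result p hS F hF Rs (hRsT.trans hTS)]
  intro P hPR φ hφ
  obtain ⟨α, hα, f₀, hf₀, e⟩ := Lib.Helper90.IsInvariantIn.frattini hinv (hPR.trans hRsT) (Mor.of_hom hφ)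
  obtain ⟨β, hβ, eβ⟩ := Lib.Helper90.IsNormal.exists_aut hRsE hPR hf₀
  have hβm : Mor F Rs (autFun β) := Mor.of_subsystem hinv.1 ((mem_autGroup_iff E hRsT β).1 hβ)
  have hcomp : Mor F Rs (autFun α ∘ autFun β) :=
    hβm.comp ((haut α hα).mono hRsT) (fun x hx => autFun_mem β hx)
  obtain ⟨γ, hγ, eγ⟩ := (hcomp.iso_self (fun x hx => hstab α hα _ (autFun_mem β hx))).exists_aut
  refine ⟨γ, hγ, fun x => ?_⟩
  rw [eγ]
  show autFun α (autFun β (x : Ω)) = φ x
  rw [autFun_apply β (hPR x.2), eβ x x.2, ← e x x.2, ext_coe]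

end Cfsg.Agent.S5291
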