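import Cfsg.Statements.S5293
import Cfsg.Agent.Lib.Helper15.FusCE4

set_option autoImplicit false
open Cfsg

namespace Cfsg.Agent.S5293

open Cfsg.FusionSystem Cfsg.Agent.Lib.Helper87 Cfsg.Agent.Lib.Helper15.FusCE

/-- Let F be a saturated fusion system over a finite p-group S, E a normal subsystem of F over T ≤ S, and C the join of the subgroups X ≤ C_S(T) such that E is contained in the centralizer system C_F(X). Then for the centralizer fusion system C_F(T) over C_S(T), the focal subgroup of C_F(T) is contained in C. -/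
theorem result {Ω : Type*} [Group Ω] {S : Subgroup Ω} [Finite S] (p : ℕ) [Fact p.Prime] (hS : IsPGroup p S)
    (F : Cfsg.FusionSystem S) (hF : F.IsSaturated p)
    {T : Subgroup Ω} (E : Cfsg.FusionSystem T) (hE : E.IsNormalIn F p)
    (C : Subgroup Ω)
    (hC : C = sSup {X : Subgroup Ω | X ≤ Cfsg.FusionSystem.centralizerIn S T ∧ ∀ P : Subgroup Ω, E.Hom P ⊆ F.centralizerHom X P})
    (D : Cfsg.FusionSystem (Cfsg.FusionSystem.centralizerIn S T)) (hD : F.IsCentralizerSystem T D) :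
    D.focalSubgroup ≤ C := by
  subst hC
  unfold Cfsg.FusionSystem.focalSubgroup
  rw [Subgroup.closure_le]
  rintro y ⟨P, φ, x, hφ, rfl⟩
  rw [hD P] at hφ
  obtain ⟨hPC, -, f', hf', hf'P, hf'T⟩ := (mem_centralizerHom_iff F T P φ).1 hφ
  have hxC : (x : Ω) ∈ Cfsg.FusionSystem.centralizerIn S T := hPC x.2
  have hle : T ⊔ Subgroup.zpowers (x : Ω) ≤ P ⊔ T :=
    sup_le le_sup_right ((Subgroup.zpowers_le).2 (le_sup_left (a := P) x.2))
  obtain ⟨hY, hext⟩ := focal_ext hS hE hxC (hf'.mono hle) hf'T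
  have hφx : φ x = f' x := by rw [hf'P x x.2, ext_coe]
  rw [hφx]
  have hmem : Subgroup.zpowers ((x : Ω)⁻¹ * f' x) ∈
      {X : Subgroup Ω | X ≤ Cfsg.FusionSystem.centralizerIn S T ∧
        ∀ P : Subgroup Ω, E.Hom P ⊆ F.centralizerHom X P} := by
    refine ⟨hY, fun Q ψ hψ => ?_⟩
    have hQT : Q ≤ T := (E.le_of_mem hψ).1
    have hTS : T ≤ S := hE.1.2.2.2.1.1
    have hTC : T ≤ Cfsg.FusionSystem.centralizerIn S (Subgroup.zpowers ((x : Ω)⁻¹ * f' x)) := by
      intro t ht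
      refine (mem_centralizerIn_iff _ _ _).2 ⟨hTS ht, fun v hv => ?_⟩
      exact (((mem_centralizerIn_iff _ _ _).1 (hY hv)).2 t ht).symm
    refine (mem_centralizerHom_iff F _ Q ψ).2 ⟨hQT.trans hTC, fun q hq => ?_,
      hext Q _ (Mor.of_hom hψ)⟩
    apply hTC
    rw [ext_apply ψ hq]
    exact (E.le_of_mem hψ).2 _
  exact (le_sSup hmem) (Subgroup.mem_zpowers _)

end Cfsg.Agent.S5293
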