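import Cfsg.Statements.S5294
import Cfsg.Agent.Lib.Helper90.FusionInner
import Cfsg.Agent.Lib.Helper90.TraceFactor
import Cfsg.Agent.Lib.Helper86.FusionSatEquiv
import Cfsg.Prelude.Def_FusionComponents

set_option autoImplicit false
universe u
open Cfsg

namespace Cfsg.Agent.S5294

open Cfsg.FusionSystem Cfsg.Agent.Lib.Helper87 Cfsg.Agent.Lib.Helper90
open scoped IsMulCommutative

/-- Let F be a saturated fusion system over a finite p-group S whose centre Z(S) lies in the largest subgroup O_p(F) normal in F. Then the centre Z(F) of F is a direct factor of Z(S): there is a subgroup K of Z(S) with Z(F) ∩ K = 1 and Z(F)K = Z(S). -/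
theorem result {Ω : Type u} [Group Ω] {S : Subgroup Ω} [Finite S] (p : ℕ) [Fact p.Prime] (hS : IsPGroup p S)
    (F : Cfsg.FusionSystem S) (hF : F.IsSaturated p) (hZ : (S ⊓ Subgroup.centralizer (S : Set Ω)) ≤ F.core) :
    ∃ K : Subgroup Ω, K ≤ (S ⊓ Subgroup.centralizer (S : Set Ω)) ∧ F.center ⊓ K = ⊥ ∧ F.center ⊔ K = (S ⊓ Subgroup.centralizer (S : Set Ω)) := by
  classical
  set Q := F.core with hQdef
  have hQn : F.IsNormal Q := Cfsg.Agent.Lib.Helper88.isNormal_core F
  have hQS : Q ≤ S := hQn.1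
  have hQfin : Finite Q := Lib.Helper90.finite_of_le hQS
  have hQsc : F.StronglyClosed Q := IsNormal.stronglyClosed hQn
  have hQnorm : ∀ s ∈ S, s ∈ Subgroup.normalizer (Q : Set Ω) := by
    intro s hs
    apply Cfsg.Agent.Lib.Helper86.mem_normalizer_of_forall_conj_mem
    intro y hy
    exact stronglyClosed_mor hQsc (mor_conj F hQS hs) le_rfl y hy
  -- Q is fully automized
  obtain ⟨Q', hconj, hfa, -⟩ := hF Q hQS
  have hQ'Q : Q' = Q := by
    obtain ⟨f, hf⟩ := (isConj_iff F Q Q').1 hconj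
    apply Subgroup.eq_of_le_of_card_ge
    · intro y hy
      obtain ⟨x, hx, rfl⟩ := hf.surj hy
      exact stronglyClosed_mor hQsc hf.1 le_rfl x hx
    · exact (isConj_card hconj).le
  rw [hQ'Q] at hfa
  obtain ⟨-, R, hR⟩ := hfa
  set T := (Cfsg.autInducedBy S Q).subgroupOf (F.autGroup Q) with hT
  have hidx : ¬ p ∣ T.index := hR ▸ R.not_dvd_index
  let ρ : ↥(F.autGroup Q) →* MulAut (Subgroup.center ↥Q) :=
    (MulAut.characteristic (Subgroup.center ↥Q)).comp (F.autGroup Q).subtype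
  have hρ : ∀ (α : ↥(F.autGroup Q)) (v : Subgroup.center ↥Q), ((ρ α v : Subgroup.center ↥Q) : ↥Q) = (α : MulAut Q) v :=
    fun _ _ => rfl
  have hVp : IsPGroup p (Subgroup.center ↥Q) := (hS.to_le hQS).to_subgroup _
  obtain ⟨n, hn⟩ := IsPGroup.iff_card.1 hVp
  have hcop : (Nat.card (Subgroup.center ↥Q)).Coprime T.index := by
    rw [hn]
    exact Nat.Coprime.pow_left n ((Nat.Prime.coprime_iff_not_dvd Fact.out).2 hidx)
  obtain ⟨K, hK1, hK2, hK3⟩ := trace_direct_factor ρ T hcop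
  let j : Subgroup.center ↥Q →* Ω := Q.subtype.comp (Subgroup.center ↥Q).subtype
  have hj : Function.Injective j := Q.subtype_injective.comp (Subgroup.subtype_injective _)
  have hmk : ∀ z ∈ S ⊓ Subgroup.centralizer (S : Set Ω), ∃ v : Subgroup.center ↥Q, j v = z := by
    rintro z hz
    have hzQ : z ∈ Q := hZ hz
    refine ⟨⟨⟨z, hzQ⟩, ?_⟩, rfl⟩
    rw [Subgroup.mem_center_iff]
    intro y
    apply Subtype.ext
    exact (Subgroup.mem_centralizer_iff.1 hz.2) y (hQS y.2)
  have hW : (fixOf ρ T).map j = S ⊓ Subgroup.centralizer (S : Set Ω) := by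
    ext z
    constructor
    · rintro ⟨v, hv, rfl⟩
      refine ⟨hQS (v : ↥Q).2, ?_⟩
      show j v ∈ Subgroup.centralizer (S : Set Ω)
      rw [Subgroup.mem_centralizer_iff]
      intro s hs
      have ht : Cfsg.Agent.Lib.Helper86.conjAut Q s (hQnorm s hs) ∈ Cfsg.autInducedBy S Q :=
        Cfsg.Agent.Lib.Helper86.conjAut_mem_autInducedBy _ hs
      have htF : Cfsg.Agent.Lib.Helper86.conjAut Q s (hQnorm s hs) ∈ F.autGroup Q :=
        autInducedBy_le_autGroup F hQS ht
      have h1 := hv ⟨_, htF⟩ ht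
      have h2 : s * j v * s⁻¹ = j v := congrArg j h1
      calc s * j v = s * j v * s⁻¹ * s := by group
        _ = j v * s := by rw [h2]
    · intro hz
      obtain ⟨v, rfl⟩ := hmk z hz
      refine ⟨v, ?_, rfl⟩
      intro t ht
      obtain ⟨g, hg, e⟩ := (mem_autInducedBy_iff S Q t).1 ht
      apply hj
      show (((t : MulAut Q) (v : ↥Q) : ↥Q) : Ω) = j v
      rw [e]
      have h3 := (Subgroup.mem_centralizer_iff.1 hz.2) g hg
      show g * j v * g⁻¹ = j v
      rw [h3]; group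
  have hC : (fixOf ρ ⊤).map j = F.center := by
    apply le_antisymm
    · apply le_sSup
      show F.IsCentral _
      rw [isCentral_iff]
      have hle : (fixOf ρ ⊤).map j ≤ Q := by
        rintro _ ⟨v, -, rfl⟩
        exact (v : ↥Q).2
      refine ⟨hle.trans hQS, fun P f hf => ?_⟩
      obtain ⟨f₁, h1, h2, h3⟩ := ((isNormal_iff F Q).1 hQn).2 P f hf
      obtain ⟨α, hα, e⟩ := Iso.exists_aut (F := F) (P := Q) (f := f₁) ⟨h1.mono le_sup_right, h3⟩
      refine ⟨f₁, h1.mono (sup_le_sup_left hle P), h2, ?_⟩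
      rintro _ ⟨v, hv, rfl⟩
      have h4 := hv ⟨α, hα⟩ trivial
      have h5 : ((α (v : ↥Q) : ↥Q) : Ω) = j v := congrArg j h4
      rw [e] at h5
      exact h5
    · intro z hz
      have hc := Cfsg.Agent.Lib.Helper88.isCentral_center F
      have hzZ : z ∈ S ⊓ Subgroup.centralizer (S : Set Ω) := ⟨hc.1 hz, F.center_le_centralizer hz⟩
      obtain ⟨v, rfl⟩ := hmk z hzZ
      refine ⟨v, ?_, rfl⟩
      intro α _
      obtain ⟨f', -, h2, h3⟩ := ((isCentral_iff F _).1 hc).2 Q _ ((mem_autGroup_iff F hQS α).1 α.2)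
      apply hj
      show (((α : MulAut Q) (v : ↥Q) : ↥Q) : Ω) = j v
      rw [← autFun_coe, ← h2 _ (v : ↥Q).2]
      exact h3 _ hz
  refine ⟨K.map j, ?_, ?_, ?_⟩
  · rw [← hW]; exact Subgroup.map_mono hK1
  · rw [← hC, ← Subgroup.map_inf_eq _ _ _ hj, hK2, Subgroup.map_bot]
  · rw [← hC, ← Subgroup.map_sup, hK3, hW]

end Cfsg.Agent.S5294
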