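import Cfsg.Statements.S5297
import Cfsg.Agent.Lib.Helper90.SmallExp
import Cfsg.Agent.Lib.Helper90.FusionNorm
import Cfsg.Agent.S5086

set_option autoImplicit false
universe u
open Cfsg

namespace Cfsg.Agent.S5297


open Cfsg.FusionSystem Cfsg.Agent.Lib.Helper87 Cfsg.Agent.Lib.Helper90

/-- Let F be a saturated fusion system over a finite p-group S. If every map of F between cyclic subgroups of the hyperfocal subgroup of F of order p or 4 is a map of the normalizer system of S (it extends to a map of F defined on all of S), then S is normal in F. -/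
theorem result {Ω : Type u} [Group Ω] {S : Subgroup Ω} [Finite S] (p : ℕ) [Fact p.Prime] (hS : IsPGroup p S)
    (F : Cfsg.FusionSystem S) (hF : F.IsSaturated p)
    (h : ∀ A B : Subgroup Ω, A ≤ (F.hyperfocalSubgroup p) → B ≤ (F.hyperfocalSubgroup p) → IsCyclic ↥A → (Nat.card ↥A = p ∨ Nat.card ↥A = 4) → IsCyclic ↥B → (Nat.card ↥B = p ∨ Nat.card ↥B = 4) →
      F.homSet A B ⊆ F.normalizerHom S A) :
    F.IsNormal S := by
  rw [Cfsg.Agent.S5086.result p hS F hF S]
  refine ⟨⟨le_rfl, fun R _ φ hφ x => (F.le_of_mem hφ).2 x⟩, ?_⟩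
  intro P hPc hPr
  have hP : P ≤ S := hPc.1
  have hfin : Finite P := Lib.Helper90.finite_of_le hP
  have hPp : IsPGroup p P := hS.to_le hP
  have hH := hyperfocal_stronglyClosed hS hF
  obtain ⟨D, hDP, hDH, hDs, hDi, hDf⟩ := exists_small_invariant hS hP hH
    (fun γ hγ hco x hx => hyperfocal_comm hP hγ hco hx)
  have hDi' : ∀ γ ∈ F.autGroup P, ∀ x : P, (x : Ω) ∈ D → ((γ x : P) : Ω) ∈ D := by
    intro γ hγ x hx
    rw [← autFun_coe]; exact hDi γ hγ x hx
  -- the upper central series of S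
  let Z : ℕ → Subgroup Ω := fun k => (Subgroup.upperCentralSeries S k).map S.subtype
  have hZ0 : Z 0 = ⊥ := by
    show (Subgroup.upperCentralSeries S 0).map S.subtype = ⊥
    rw [Subgroup.upperCentralSeries_zero, Subgroup.map_bot]
  have hnil : Group.IsNilpotent S := hS.isNilpotent
  obtain ⟨n, hn⟩ := hnil.nilpotent'
  have hZn : ∀ x ∈ S, x ∈ Z n := by
    intro x hx
    exact ⟨⟨x, hx⟩, by rw [hn]; exact Subgroup.mem_top _, rfl⟩
  have hZ3 : ∀ k, ∀ x ∈ Z (k + 1), ∀ g ∈ S, x * g * x⁻¹ * g⁻¹ ∈ Z k := by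
    rintro k _ ⟨x, hx, rfl⟩ g hg
    exact ⟨_, Subgroup.mem_upperCentralSeries_succ_iff.1 hx ⟨g, hg⟩, rfl⟩
  have hZ4 : ∀ k (σ : MulAut S) (x : S), (x : Ω) ∈ Z k → ((σ x : S) : Ω) ∈ Z k := by
    rintro k σ x ⟨y, hy, hyx⟩
    have : y = x := Subtype.ext hyx
    subst this
    exact ⟨σ y, Cfsg.Agent.Lib.Helper3.char_aut_mem inferInstance σ hy, rfl⟩
  -- invariance of D ∩ Z k
  have hI : ∀ γ ∈ F.autGroup P, ∀ k, ∀ x : P, (x : Ω) ∈ D → (x : Ω) ∈ Z k → ((γ x : P) : Ω) ∈ Z k := by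
    intro γ hγ k x hxD hxZ
    by_cases hx1 : (x : Ω) = 1
    · have : x = 1 := Subtype.ext hx1
      rw [this, map_one]; exact Subgroup.one_mem _
    have hmor : Mor F P (autFun γ) := (mem_autGroup_iff F hP γ).1 hγ
    have hfx1 : autFun γ x ≠ 1 := fun h0 => hx1 (hmor.eq_one x.2 h0)
    obtain ⟨φ, hφ, hφf⟩ := Mor.exists_homSet_zpowers hmor x.2
    have hs := hDs x hxD
    have hin := h (Subgroup.zpowers (x : Ω)) (Subgroup.zpowers (autFun γ x))
      ((Subgroup.zpowers_le).2 (hDH hxD)) ((Subgroup.zpowers_le).2 (hDH (hDi γ hγ x hxD)))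
      inferInstance (hs.card_zpowers hx1) inferInstance ((hs.map hmor x.2).card_zpowers hfx1) hφ
    obtain ⟨-, -, -, ψ, hψ, hψφ, -⟩ := hin
    have hm1 : Mor F S (ext ψ) := (Mor.of_hom hψ).mono le_sup_right
    have hiso : Iso F S S (ext ψ) := hm1.iso_self (fun y hy => hm1.mem hy)
    obtain ⟨σ, -, hσ⟩ := hiso.exists_aut
    have h1 := hσ ⟨x, hP x.2⟩
    have h2 : ext ψ (x : Ω) = autFun γ x := by
      have h3 := hψφ ⟨x, Subgroup.mem_zpowers _⟩
      rw [hφf] at h3
      rw [← h3]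
      exact ext_apply ψ _
    rw [← autFun_coe, ← h2, ← h1]
    exact hZ4 k σ _ hxZ
  -- the normal p-subgroup
  let C : Subgroup (MulAut P) :=
    { carrier := {γ | γ ∈ F.autGroup P ∧ ∀ k, ∀ x : P, (x : Ω) ∈ D → (x : Ω) ∈ Z (k + 1) →
        (x : Ω)⁻¹ * (γ x : P) ∈ Z k}
      one_mem' := ⟨Subgroup.one_mem _, fun k x _ _ => by
        show (x : Ω)⁻¹ * x ∈ Z k
        rw [inv_mul_cancel]; exact Subgroup.one_mem _⟩
      mul_mem' := by
        rintro a b ⟨ha, ha'⟩ ⟨hb, hb'⟩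
        refine ⟨Subgroup.mul_mem _ ha hb, fun k x hx hz => ?_⟩
        rw [MulAut.mul_apply]
        have h1 := hb' k x hx hz
        have h2 := ha' k (b x) (hDi' b hb x hx) (hI b hb _ x hx hz)
        have := (Z k).mul_mem h1 h2
        rwa [mul_assoc, mul_inv_cancel_left] at this
      inv_mem' := by
        rintro a ⟨ha, ha'⟩
        have hai := Subgroup.inv_mem _ ha
        refine ⟨hai, fun k x hx hz => ?_⟩
        have h2 := ha' k (a⁻¹ x) (hDi' _ hai x hx) (hI _ hai _ x hx hz)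
        have h3 : a (a⁻¹ x) = x := by simp
        rw [h3] at h2
        have := (Z k).inv_mem h2
        rwa [mul_inv_rev, inv_inv] at this }
  have hCle : C ≤ F.autGroup P := fun γ hγ => hγ.1
  have hCn : ∀ g ∈ F.autGroup P, ∀ c ∈ C, g * c * g⁻¹ ∈ C := by
    rintro g hg c ⟨hc, hc'⟩
    have hgi := Subgroup.inv_mem _ hg
    refine ⟨Subgroup.mul_mem _ (Subgroup.mul_mem _ hg hc) hgi, fun k x hx hz => ?_⟩
    rw [MulAut.mul_apply, MulAut.mul_apply]
    have hyD := hDi' _ hgi x hx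
    have hyZ := hI _ hgi _ x hx hz
    have h1 := hc' k (g⁻¹ x) hyD hyZ
    have h2 : (((g⁻¹ x)⁻¹ * c (g⁻¹ x) : P) : Ω) ∈ D :=
      D.mul_mem (D.inv_mem hyD) (hDi' c hc _ hyD)
    have h3 := hI g hg k ((g⁻¹ x)⁻¹ * c (g⁻¹ x)) h2 h1
    rw [map_mul, map_inv] at h3
    have h4 : g (g⁻¹ x) = x := by simp
    rw [h4] at h3
    exact h3
  have hCp : IsPGroup p C := by
    apply Cfsg.Agent.Lib.Helper55.isPGroup_of_forall_coprime_eq_one
    rintro c ⟨hc, hc'⟩ hco
    have hfix : ∀ k, ∀ x : P, (x : Ω) ∈ D → (x : Ω) ∈ Z k → c x = x := by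
      intro k
      induction k with
      | zero =>
        intro x _ hz
        rw [hZ0] at hz
        have : x = 1 := Subtype.ext (Subgroup.mem_bot.1 hz)
        rw [this, map_one]
      | succ k ih =>
        intro x hx hz
        apply Cfsg.Agent.Lib.Helper3.aut_fixes_of_coprime hPp c hco
        exact ih _ (D.mul_mem (D.inv_mem hx) (hDi' c hc _ hx)) (hc' k x hx hz)
    apply hDf c hc hco
    intro x hx
    rw [autFun_apply c (hDP hx), hfix n ⟨x, hDP hx⟩ hx (hZn x (hP (hDP hx)))]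
  have hΔ : autInducedBy S P ≤ C := by
    intro δ hδ
    refine ⟨autInducedBy_le_autGroup F hP hδ, fun k x hx hz => ?_⟩
    obtain ⟨g, hg, hg'⟩ := (mem_autInducedBy_iff S P δ).1 hδ
    rw [hg']
    have := hZ3 k _ ((Z (k + 1)).inv_mem hz) g hg
    rw [inv_inv] at this
    simpa only [mul_assoc] using this
  have hinn : autInducedBy S P ≤ Inn P := by
    rw [← hPr.2]
    exact hΔ.trans (le_pCore_map hCle hCn hCp)
  have hN := normalizerIn_le_of_autS_le_inn hP hinn (hPc.2 P (isConj_refl F hP))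
  exact (eq_of_normalizerIn_le hS hP hN).ge

end Cfsg.Agent.S5297
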