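import Cfsg.Statements.S5298
import Cfsg.Agent.Lib.Helper90.SmallOrder
import Cfsg.Agent.Lib.Helper90.FusionInner
import Cfsg.Agent.Lib.Helper90.FusionNorm
import Cfsg.Agent.Lib.Helper86.FusionFrobenius

set_option autoImplicit false
universe u
open Cfsg

namespace Cfsg.Agent.S5298


open Cfsg.FusionSystem Cfsg.Agent.Lib.Helper87 Cfsg.Agent.Lib.Helper90

/-- Let F be a saturated fusion system over a finite p-group S. If every map of F between cyclic subgroups of the hyperfocal subgroup of F of order p or 4 is conjugation by an element of S, then F is the inner fusion system of S. -/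
theorem result {Ω : Type u} [Group Ω] {S : Subgroup Ω} [Finite S] (p : ℕ) [Fact p.Prime] (hS : IsPGroup p S)
    (F : Cfsg.FusionSystem S) (hF : F.IsSaturated p)
    (h : ∀ A B : Subgroup Ω, A ≤ (F.hyperfocalSubgroup p) → B ≤ (F.hyperfocalSubgroup p) → IsCyclic ↥A → (Nat.card ↥A = p ∨ Nat.card ↥A = 4) → IsCyclic ↥B → (Nat.card ↥B = p ∨ Nat.card ↥B = 4) →
      F.homSet A B ⊆ (Cfsg.innerFusionSystem S).Hom A) :
    ∀ P : Subgroup Ω, F.Hom P = (Cfsg.innerFusionSystem S).Hom P := by
  have key : ∀ (n : ℕ) (P : Subgroup Ω), P ≤ S → Nat.card P = n → ∀ α ∈ F.autGroup P,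
      (orderOf α).Coprime p → α = 1 := by
    intro n
    induction n using Nat.strong_induction_on with
    | _ n ih =>
    intro P hP hn α hα hco
    have hfin : Finite P := Lib.Helper90.finite_of_le hP
    have hPp : IsPGroup p P := hS.to_le hP
    have hmor : Mor F P (autFun α) := (mem_autGroup_iff F hP α).1 hα
    have hmem : ∀ x ∈ P, autFun α x ∈ P := fun x hx => autFun_mem α hx
    -- invariant proper subgroups are fixed
    have hprop : ∀ P₀ : Subgroup Ω, P₀ ≤ P → (∀ x ∈ P₀, autFun α x ∈ P₀) → P₀ ≠ P →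
        ∀ x ∈ P₀, autFun α x = x := by
      intro P₀ h0 hinv hne x hx
      obtain ⟨α₀, hα₀, h1, h2⟩ := exists_restrict_aut hP hα h0 hinv
      have hlt : Nat.card P₀ < n := by
        rw [← hn]; exact Lib.Helper90.card_lt_of_lt (lt_of_le_of_ne h0 hne)
      have h4 := ih _ hlt P₀ (h0.trans hP) rfl α₀ hα₀ (Nat.Coprime.coprime_dvd_left h2 hco)
      have h3 := h1 ⟨x, hx⟩
      rw [h4] at h3
      exact h3.symm
    by_contra hne1
    -- Step A : P = [P, α] lies in the hyperfocal subgroup
    have hTA : {y | ∃ x ∈ P, y = x⁻¹ * autFun α x} ⊆ (P : Set Ω) := by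
      rintro y ⟨x, hx, rfl⟩
      exact P.mul_mem (P.inv_mem hx) (hmem x hx)
    have hA : Subgroup.closure {y | ∃ x ∈ P, y = x⁻¹ * autFun α x} = P := by
      by_contra hne
      apply hne1
      have hfix := hprop _ ((Subgroup.closure_le P).2 hTA) (Mor.closure_invariant hmor hTA (by
        rintro y ⟨x, hx, rfl⟩
        apply Subgroup.subset_closure
        refine ⟨autFun α x, hmem x hx, ?_⟩
        rw [hmor.map_mul (P.inv_mem hx) (hmem x hx), hmor.map_inv hx])) hne
      apply aut_eq_one_of_fix_comm hPp α hco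
      intro x
      apply Subtype.ext
      have h5 : ((x⁻¹ * α x : P) : Ω) = (x : Ω)⁻¹ * autFun α x := by
        rw [autFun_coe]; rfl
      rw [← autFun_coe, h5]
      exact hfix _ (Subgroup.subset_closure ⟨x, x.2, rfl⟩)
    have hPH : P ≤ F.hyperfocalSubgroup p := by
      rw [← hA, Subgroup.closure_le]
      rintro y ⟨x, hx, rfl⟩
      have hres : (⟨α, hα⟩ : F.autGroup P) ∈ pResidual p (F.autGroup P) := by
        apply Subgroup.subset_closure
        show Nat.Coprime (orderOf (⟨α, hα⟩ : F.autGroup P)) p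
        rw [Subgroup.orderOf_mk]; exact hco
      have := mem_hyperfocal_of hP hres ⟨x, hx⟩
      rw [autFun_apply α hx]
      exact this
    -- Step B : P is generated by the x⁻¹ α(x) with x small
    have hTB : {y | ∃ x ∈ P, Small p x ∧ y = x⁻¹ * autFun α x} ⊆ (P : Set Ω) := by
      rintro y ⟨x, hx, -, rfl⟩
      exact P.mul_mem (P.inv_mem hx) (hmem x hx)
    have hB : Subgroup.closure {y | ∃ x ∈ P, Small p x ∧ y = x⁻¹ * autFun α x} = P := by
      by_contra hne
      apply hne1
      have hfix := hprop _ ((Subgroup.closure_le P).2 hTB) (Mor.closure_invariant hmor hTB (by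
        rintro y ⟨x, hx, hs, rfl⟩
        apply Subgroup.subset_closure
        refine ⟨autFun α x, hmem x hx, hs.map hmor hx, ?_⟩
        rw [hmor.map_mul (P.inv_mem hx) (hmem x hx), hmor.map_inv hx])) hne
      apply Cfsg.Agent.Lib.Helper11.aut_eq_one_of_fix_omega hPp α hco
      intro x hx
      apply Cfsg.Agent.Lib.Helper3.aut_fixes_of_coprime hPp α hco
      apply Subtype.ext
      have h5 : ((x⁻¹ * α x : P) : Ω) = (x : Ω)⁻¹ * autFun α x := by
        rw [autFun_coe]; rfl
      rw [← autFun_coe, h5]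
      refine hfix _ (Subgroup.subset_closure ⟨x, x.2, ?_, rfl⟩)
      rcases hx with hx | ⟨hp2, hx⟩
      · left; simpa using congrArg Subtype.val hx
      · right; exact ⟨hp2, by simpa using congrArg Subtype.val hx⟩
    -- Step C
    have hnil : Group.IsNilpotent S := hS.isNilpotent
    have hbot : P = ⊥ := by
      apply eq_bot_of_le_commutator hP _ _ hB.ge
      rintro y ⟨x, hx, hs, rfl⟩
      by_cases hx1 : x = 1
      · refine ⟨1, P.one_mem, 1, S.one_mem, ?_⟩
        rw [hx1, hmor.map_one]; group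
      have hfx1 : autFun α x ≠ 1 := fun h0 => hx1 (hmor.eq_one hx h0)
      obtain ⟨φ, hφ, hφf⟩ := Mor.exists_homSet_zpowers hmor hx
      have hin := h (Subgroup.zpowers x) (Subgroup.zpowers (autFun α x))
        ((Subgroup.zpowers_le).2 (hPH hx)) ((Subgroup.zpowers_le).2 (hPH (hmem x hx)))
        inferInstance (hs.card_zpowers hx1) inferInstance ((hs.map hmor hx).card_zpowers hfx1) hφ
      obtain ⟨-, g, hg, hg'⟩ := (mem_inner_hom_iff S _ φ).1 hin
      have h6 := hg' ⟨x, Subgroup.mem_zpowers x⟩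
      rw [hφf] at h6
      refine ⟨x⁻¹, P.inv_mem hx, g, hg, ?_⟩
      rw [show autFun α x = g * x * g⁻¹ from h6]
      group
    apply hne1
    ext x
    have hx : (x : Ω) = 1 := Subgroup.mem_bot.1 (hbot.le x.2)
    have hx' : x = 1 := Subtype.ext hx
    rw [hx', map_one, map_one]
  have hall : ∀ P : Subgroup Ω, P ≤ S → IsPGroup p (F.autGroup P) := by
    intro P hP
    have hfin : Finite P := Lib.Helper90.finite_of_le hP
    exact Cfsg.Agent.Lib.Helper55.isPGroup_of_forall_coprime_eq_one _
      (fun c hc hco => key _ P hP rfl c hc hco)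
  have := Cfsg.Agent.Lib.Helper86.eq_inner_of_isPGroup hS F hF hall
  intro P
  rw [this]

end Cfsg.Agent.S5298
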