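import Cfsg.Statements.S5300
import Cfsg.Agent.Lib.Helper90.SmallOrder
import Cfsg.Agent.Lib.Helper90.FusionNorm
import Cfsg.Agent.S5086

set_option autoImplicit false
universe u
open Cfsg

namespace Cfsg.Agent.S5300


open Cfsg.FusionSystem Cfsg.Agent.Lib.Helper87 Cfsg.Agent.Lib.Helper90

/-- Let F be a saturated fusion system over a finite p-group S. If every cyclic subgroup of the focal subgroup of F of order p (of order 2 or 4 when p = 2) is normal in S, then S is normal in F. -/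
theorem result {Ω : Type u} [Group Ω] {S : Subgroup Ω} [Finite S] (p : ℕ) [Fact p.Prime] (hS : IsPGroup p S)
    (F : Cfsg.FusionSystem S) (hF : F.IsSaturated p)
    (hnorm : ∀ x ∈ F.focalSubgroup, (x ^ p = 1 ∨ (p = 2 ∧ x ^ 4 = 1)) → ∀ s ∈ S, s * x * s⁻¹ ∈ Subgroup.zpowers x) :
    F.IsNormal S := by
  rw [Cfsg.Agent.S5086.result p hS F hF S]
  refine ⟨⟨le_rfl, fun R _ φ hφ x => (F.le_of_mem hφ).2 x⟩, ?_⟩
  intro P hPc hPr
  have hP : P ≤ S := hPc.1
  have hfin : Finite P := Lib.Helper90.finite_of_le hP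
  have hPp : IsPGroup p P := hS.to_le hP
  -- the focal subgroup contains x⁻¹ γ(x)
  have hfoc : ∀ γ ∈ F.autGroup P, ∀ x : P, (x : Ω)⁻¹ * (γ x : P) ∈ F.focalSubgroup := by
    intro γ hγ x
    exact Subgroup.subset_closure ⟨P, _, x, (mem_autGroup_iff' F hP γ).1 hγ, rfl⟩
  have hfoc' : ∀ γ ∈ F.autGroup P, ∀ x : P, (x : Ω) ∈ F.focalSubgroup →
      ((γ x : P) : Ω) ∈ F.focalSubgroup := by
    intro γ hγ x hx
    have := F.focalSubgroup.mul_mem hx (hfoc γ hγ x)
    rwa [mul_inv_cancel_left] at this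
  have hsm : ∀ (γ : MulAut P) (x : P), Small p (x : Ω) → Small p ((γ x : P) : Ω) := by
    intro γ x hx
    rcases hx with hx | ⟨h2, hx⟩
    · left
      have hx' : x ^ p = 1 := Subtype.ext hx
      have : (γ x) ^ p = 1 := by rw [← map_pow, hx', map_one]
      simpa using congrArg Subtype.val this
    · right
      have hx' : x ^ 4 = 1 := Subtype.ext hx
      have : (γ x) ^ 4 = 1 := by rw [← map_pow, hx', map_one]
      exact ⟨h2, by simpa using congrArg Subtype.val this⟩
  -- the normal p-subgroup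
  let C : Subgroup (MulAut P) :=
    { carrier := {γ | γ ∈ F.autGroup P ∧ ∀ x : P, (x : Ω) ∈ F.focalSubgroup → Small p (x : Ω) →
        γ x = x ∨ (p = 2 ∧ γ x = x⁻¹)}
      one_mem' := ⟨Subgroup.one_mem _, fun x _ _ => Or.inl rfl⟩
      mul_mem' := by
        rintro a b ⟨ha, ha'⟩ ⟨hb, hb'⟩
        refine ⟨Subgroup.mul_mem _ ha hb, fun x hx hs => ?_⟩
        rw [MulAut.mul_apply]
        rcases hb' x hx hs with h1 | ⟨h2, h1⟩
        · rw [h1]; exact ha' x hx hs
        · rw [h1, map_inv]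
          rcases ha' x hx hs with h3 | ⟨-, h3⟩
          · rw [h3]; exact Or.inr ⟨h2, rfl⟩
          · rw [h3, inv_inv]; exact Or.inl rfl
      inv_mem' := by
        rintro a ⟨ha, ha'⟩
        refine ⟨Subgroup.inv_mem _ ha, fun x hx hs => ?_⟩
        rcases ha' x hx hs with h1 | ⟨h2, h1⟩
        · left
          rw [MulAut.inv_apply, MulEquiv.symm_apply_eq, h1]
        · right
          refine ⟨h2, ?_⟩
          rw [MulAut.inv_apply, MulEquiv.symm_apply_eq, map_inv, h1, inv_inv] }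
  have hCle : C ≤ F.autGroup P := fun γ hγ => hγ.1
  have hCn : ∀ g ∈ F.autGroup P, ∀ c ∈ C, g * c * g⁻¹ ∈ C := by
    rintro g hg c ⟨hc, hc'⟩
    refine ⟨Subgroup.mul_mem _ (Subgroup.mul_mem _ hg hc) (Subgroup.inv_mem _ hg), fun x hx hs => ?_⟩
    rw [MulAut.mul_apply, MulAut.mul_apply]
    have hy := hfoc' g⁻¹ (Subgroup.inv_mem _ hg) x hx
    rcases hc' (g⁻¹ x) hy (hsm _ x hs) with h1 | ⟨h2, h1⟩
    · left; rw [h1]; simp
    · right; refine ⟨h2, ?_⟩; rw [h1, map_inv]; simp
  have hCp : IsPGroup p C := by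
    apply Cfsg.Agent.Lib.Helper55.isPGroup_of_forall_coprime_eq_one
    rintro c ⟨hc, hc'⟩ hco
    apply aut_eq_one_of_fix_small hPp c hco F.focalSubgroup
    · intro x hx hxf
      rw [autFun_apply c hx]; exact hfoc' c hc ⟨x, hx⟩ hxf
    · intro x hx
      rw [autFun_apply c hx]; exact hfoc c hc ⟨x, hx⟩
    · intro x hx hxf hs
      rw [autFun_apply c hx]
      rcases hc' ⟨x, hx⟩ hxf hs with h1 | ⟨h2, h1⟩
      · rw [h1]
      · -- odd order
        subst h2
        have hodd : Odd (orderOf c) := Nat.Coprime.odd_of_right hco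
        obtain ⟨j, hj⟩ := hodd
        have hcc : c (c ⟨x, hx⟩) = ⟨x, hx⟩ := by rw [h1, map_inv, h1, inv_inv]
        have hev : ∀ i : ℕ, (c ^ (2 * i)) ⟨x, hx⟩ = ⟨x, hx⟩ := by
          intro i
          induction i with
          | zero => simp
          | succ i ih =>
            rw [show 2 * (i + 1) = 2 * i + 1 + 1 by ring, pow_succ, pow_succ, MulAut.mul_apply,
              MulAut.mul_apply, hcc, ih]
        have h3 : (c ^ (2 * j + 1)) ⟨x, hx⟩ = ⟨x, hx⟩ := by rw [← hj, pow_orderOf_eq_one]; rfl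
        rw [pow_succ, MulAut.mul_apply, h1, map_inv, hev] at h3
        rw [h1, h3]
  have hΔ : autInducedBy S P ≤ C := by
    intro δ hδ
    refine ⟨autInducedBy_le_autGroup F hP hδ, fun x hx hs => ?_⟩
    obtain ⟨g, hg, hg'⟩ := (mem_autInducedBy_iff S P δ).1 hδ
    have hz := hnorm x hx hs g hg
    obtain ⟨n, hn⟩ := hS ⟨g, hg⟩
    have hgn : g ^ (p ^ n) = 1 := by simpa using congrArg Subtype.val hn
    rcases hs with hs | ⟨h2, hs⟩
    · left
      apply Subtype.ext
      rw [hg']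
      exact conj_eq_of_pow_eq_one hs hgn hz
    · rcases conj_eq_or_inv_of_pow_four hs hz with h3 | h3
      · left; apply Subtype.ext; rw [hg', h3]
      · right; refine ⟨h2, ?_⟩; apply Subtype.ext; rw [hg', h3]; rfl
  have hinn : autInducedBy S P ≤ Inn P := by
    rw [← hPr.2]
    exact hΔ.trans (le_pCore_map hCle hCn hCp)
  have hN := normalizerIn_le_of_autS_le_inn hP hinn (hPc.2 P (isConj_refl F hP))
  exact (eq_of_normalizerIn_le hS hP hN).ge

end Cfsg.Agent.S5300
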