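import Cfsg.Statements.S5301
import Cfsg.Agent.Lib.Helper90.FusionNorm
import Cfsg.Agent.S5077
import Cfsg.Agent.S5080
import Cfsg.Agent.S5087

set_option autoImplicit false
universe u
open Cfsg

namespace Cfsg.Agent.S5301

open Cfsg.FusionSystem Cfsg.Agent.Lib.Helper87 Cfsg.Agent.Lib.Helper90

/-- Let F be a saturated fusion system over a finite p-group S. If for every subgroup P of S that is fully normalized, centric and radical in F the automorphism group that F induces on P has a normal Sylow p-subgroup, then S is normal in F. -/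
theorem result {Ω : Type u} [Group Ω] {S : Subgroup Ω} [Finite S] (p : ℕ) [Fact p.Prime] (hS : IsPGroup p S)
    (F : Cfsg.FusionSystem S) (hF : F.IsSaturated p)
    (hcl : ∀ P : Subgroup Ω, F.IsFullyNormalized P → F.IsCentric P → F.IsRadical p P →
      ∃ R : Sylow p ↥(F.autGroup P), (R : Subgroup ↥(F.autGroup P)).Normal) :
    F.IsNormal S := by
  have hsat := (Cfsg.Agent.S5077.result p hS F).1 hF
  have key : ∀ P : Subgroup Ω, F.IsEssential p P → P = S := by
    intro P hP
    have hrad := Cfsg.Agent.S5080.result p hS F hF P hP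
    obtain ⟨hcen, hfn, -⟩ := hP
    have hPS : P ≤ S := hcen.1
    have hPfin : Finite P := Lib.Helper90.finite_of_le hPS
    obtain ⟨R, hR⟩ := hcl P hfn hcen hrad
    obtain ⟨-, R', hR'⟩ := (hsat.1 P hfn).2
    have huniq := Sylow.unique_of_normal R hR
    have hRR' : R' = R := Subsingleton.elim _ _
    have hle : (R : Subgroup (F.autGroup P)) ≤ Cfsg.pCore p (F.autGroup P) := le_sSup ⟨hR, R.2⟩
    apply eq_of_normalizerIn_le hS hPS
    apply normalizerIn_le_of_autS_le_inn hPS _ (hcen.2 P (isConj_refl F hPS))
    intro α hα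
    rw [← hrad.2]
    have hαF : α ∈ F.autGroup P := autInducedBy_le_autGroup F hPS hα
    refine ⟨⟨α, hαF⟩, hle ?_, rfl⟩
    rw [← hRR', hR']
    exact hα
  rw [Cfsg.Agent.S5087.result p hS F hF S]
  intro P hP
  have hPS : P = S := by
    rcases hP with h | h
    · exact h
    · exact key P h
  subst hPS
  refine ⟨le_rfl, fun α _ => ?_⟩
  rw [Subgroup.subgroupOf_self]
  exact Subgroup.map_top_of_surjective _ α.surjective

end Cfsg.Agent.S5301
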