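import Cfsg.Statements.S5311
import Cfsg.Agent.Lib.Helper87.ComponentConj

set_option autoImplicit false
open Cfsg Cfsg.FusionSystem Cfsg.Agent.Lib.Helper87

namespace Cfsg.Agent.S5311

/-- A layer is contained in its image under an automorphism of the system. -/
theorem layer_le_image {Ω : Type*} [Group Ω] {S : Subgroup Ω} [Finite S] {p : ℕ} [Fact p.Prime]
    (hS : IsPGroup p S) {F : Cfsg.FusionSystem S} {a b : Ω → Ω} (ha : SurjMor F F a)
    (hb : SurjMor F F b) (hab : ∀ x ∈ S, a (b x) = x) (hba : ∀ x ∈ S, b (a x) = x)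
    {T : Subgroup Ω} {E : Cfsg.FusionSystem T} (hE : E.IsLayerOf F p) {T' : Subgroup Ω}
    {E' : Cfsg.FusionSystem T'} (hEE' : SurjMor E E' a) : E.IsSubsystemOf E' := by
  obtain ⟨hEn, hcomp, hmin⟩ := hE
  have hinja : ∀ x ∈ S, a x = 1 → x = 1 := fun x hx h1 => by
    rw [← hba x hx, h1, hb.map_one]
  have hinjb : ∀ x ∈ S, b x = 1 → x = 1 := fun x hx h1 => by
    rw [← hab x hx, h1, ha.map_one]
  refine hmin T' E' (isNormalIn_transport hS ha (ha.inj_of_ker hinja) hEE' hEn) (fun U C hC => ?_)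
  have hUS : U ≤ S := IsSubnormalIn.le hC.1
  have hfinU : Finite U := finite_of_le hUS
  obtain ⟨C₁, hC₁⟩ := exists_image_system (E := C) (T' := hb.image U hUS) (θ := b)
    (hS.to_le hUS) hC.2.1 (fun x hx y hy => hb.map_mul x (hUS hx) y (hUS hy))
    (fun x hx h1 => hinjb x (hUS hx) h1) (hb.mem_image hUS)
  have hcomp₁ := isComponentIn_transport hS hb hinjb hUS hC₁ hC
  have hle := hcomp _ C₁ hcomp₁
  refine isSubsystemOf_of_mor (fun P f hf => ?_)
  have hPS : P ≤ S := hf.le.trans hUS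
  obtain ⟨f₁, hf₁, e₁⟩ := hC₁.push P f hf (hb.image P hPS) (hb.mem_image hPS)
  obtain ⟨f₂, hf₂, e₂⟩ := hEE'.push _ f₁ (hf₁.of_subsystem hle) P (fun y => by
    constructor
    · intro hy
      exact ⟨b y, (hb.mem_image hPS _).2 ⟨y, hy, rfl⟩, hab y (hPS hy)⟩
    · rintro ⟨z, hz, rfl⟩
      obtain ⟨x, hx, rfl⟩ := (hb.mem_image hPS _).1 hz
      rw [hab x (hPS hx)]
      exact hx)
  refine hf₂.congr (fun x hx => ?_)
  have h1 := e₂ (b x) ((hb.mem_image hPS _).2 ⟨x, hx, rfl⟩)
  rw [hab x (hPS hx), e₁ x hx, hab _ (hUS (hf.mem hx))] at h1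
  exact h1


/-- The layer of a saturated fusion system F over a finite p-group S is characteristic in F: for every automorphism α of S that is an automorphism of F (α and its inverse are morphisms from F to F) and every layer E of F over T, α carries T onto T and, for every map φ of E with source P, the map induced by α on α(P) (that is, α ∘ φ ∘ α⁻¹) is a map of E. -/
theorem result {Ω : Type*} [Group Ω] {S : Subgroup Ω} [Finite S] (p : ℕ) [Fact p.Prime] (hS : IsPGroup p S) (F : Cfsg.FusionSystem S) (hF : F.IsSaturated p)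
    (α : ↥S ≃* ↥S) (hα : F.IsMorphism F (S.subtype.comp α.toMonoidHom))
    (hα' : F.IsMorphism F (S.subtype.comp α.symm.toMonoidHom))
    {T : Subgroup Ω} (E : Cfsg.FusionSystem T) (hE : E.IsLayerOf F p) :
    Cfsg.FusionSystem.imageAlong (S.subtype.comp α.toMonoidHom) T = T ∧
      ∀ (P : Subgroup Ω) (φ : ↥P →* Ω), φ ∈ E.Hom P →
        ∀ φ' : ↥(Cfsg.FusionSystem.imageAlong (S.subtype.comp α.toMonoidHom) P) →* Ω,
          Cfsg.FusionSystem.InducedAlong (S.subtype.comp α.toMonoidHom) φ φ' →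
            φ' ∈ E.Hom (Cfsg.FusionSystem.imageAlong (S.subtype.comp α.toMonoidHom) P) := by
  set a := tf (S.subtype.comp α.toMonoidHom) with ha_def
  set b := tf (S.subtype.comp α.symm.toMonoidHom) with hb_def
  have ha : SurjMor F F a := surjMor_of_auto α hα hα'
  have hb : SurjMor F F b := surjMor_of_auto α.symm hα' (by simpa using hα)
  have hab : ∀ x ∈ S, a (b x) = x := by
    intro x hx
    rw [hb_def, tf_apply _ hx]
    show a ((α.symm ⟨x, hx⟩ : S) : Ω) = x
    rw [ha_def, tf_coe]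
    show ((α (α.symm ⟨x, hx⟩) : S) : Ω) = x
    rw [MulEquiv.apply_symm_apply]
  have hba : ∀ x ∈ S, b (a x) = x := by
    intro x hx
    rw [ha_def, tf_apply _ hx]
    show b ((α ⟨x, hx⟩ : S) : Ω) = x
    rw [hb_def, tf_coe]
    show ((α.symm (α ⟨x, hx⟩) : S) : Ω) = x
    rw [MulEquiv.symm_apply_apply]
  have hTS : T ≤ S := hE.1.1.2.2.2.1.1
  have hfinT : Finite T := finite_of_le hTS
  have hpT := hS.to_le hTS
  have hinja : ∀ x ∈ S, a x = 1 → x = 1 := fun x hx h1 => by
    rw [← hba x hx, h1, hb.map_one]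
  have hinjb : ∀ x ∈ S, b x = 1 → x = 1 := fun x hx h1 => by
    rw [← hab x hx, h1, ha.map_one]
  obtain ⟨Ea, hEa⟩ := exists_image_system (E := E) (T' := ha.image T hTS) (θ := a)
    hpT hE.1.1.1 (fun x hx y hy => ha.map_mul x (hTS hx) y (hTS hy))
    (fun x hx h1 => hinja x (hTS hx) h1) (ha.mem_image hTS)
  obtain ⟨Eb, hEb⟩ := exists_image_system (E := E) (T' := hb.image T hTS) (θ := b)
    hpT hE.1.1.1 (fun x hx y hy => hb.map_mul x (hTS hx) y (hTS hy))
    (fun x hx h1 => hinjb x (hTS hx) h1) (hb.mem_image hTS)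
  have hla := layer_le_image hS ha hb hab hba hE hEa
  have hlb := layer_le_image hS hb ha hba hab hE hEb
  have hTa : T ≤ ha.image T hTS := ((mor_id E le_rfl).of_subsystem hla).le
  have hTb : T ≤ hb.image T hTS := ((mor_id E le_rfl).of_subsystem hlb).le
  have haT : ∀ x ∈ T, a x ∈ T := by
    intro x hx
    obtain ⟨y, hy, e⟩ := (hb.mem_image hTS _).1 (hTb hx)
    rw [← e, hab y (hTS hy)]
    exact hy
  have himg : ∀ (P : Subgroup Ω), P ≤ T → ∀ x, x ∈ imageAlong (S.subtype.comp α.toMonoidHom) P ↔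
      x ∈ T ∧ b x ∈ P := by
    intro P hP x
    rw [mem_imageAlong]
    constructor
    · rintro ⟨y, hy, hyS, rfl⟩
      exact ⟨haT y (hP hy), by rw [hba y hyS]; exact hy⟩
    · rintro ⟨hx, hx'⟩
      exact ⟨b x, hx', hTS (hP hx'), hab x (hTS hx)⟩
  refine ⟨?_, fun P φ hφ φ' hind => ?_⟩
  · ext x
    rw [himg T le_rfl]
    constructor
    · exact fun h => h.1
    · intro hx
      obtain ⟨y, hy, e⟩ := (ha.mem_image hTS _).1 (hTa hx)
      exact ⟨hx, by rw [← e, hba y (hTS hy)]; exact hy⟩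
  · have hm : Mor E P (ext φ) := Mor.of_hom hφ
    have hPT : P ≤ T := hm.le
    obtain ⟨f₀, hf₀, e₀⟩ := hEb.lift P _ (hm.of_subsystem hlb)
      (imageAlong (S.subtype.comp α.toMonoidHom) P) (himg P hPT)
    obtain ⟨h1, h2, h3, h4⟩ := (inducedAlong_iff _ φ φ').1 hind
    refine hf₀.mem_hom (fun x => ?_)
    obtain ⟨y, hy, hyS, e⟩ := (mem_imageAlong _ _ _).1 x.2
    have e1 := e₀ x x.2
    rw [← ext_coe φ' x, ← e, h4 y hy]
    rw [← e] at e1
    change ext φ (b (a y)) = b (f₀ (a y)) at e1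
    rw [hba y hyS] at e1
    show a (ext φ y) = f₀ (a y)
    rw [e1, hab]
    have : a y ∈ imageAlong (S.subtype.comp α.toMonoidHom) P := by
      show tf (S.subtype.comp α.toMonoidHom) y ∈ _
      rw [e]
      exact x.2
    exact hTS (hf₀.mem this)

end Cfsg.Agent.S5311
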