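import Cfsg.Statements.S5320
-- import your own Cfsg.Agent.* helpers here
import Cfsg.Agent.Lib.Helper47.FSP.Asm

set_option autoImplicit false
open Cfsg

namespace Cfsg.Agent.S5320

/-- For a finite field F of odd order, the 2-fusion system of the projective symplectic group PSp(4,F) on a Sylow 2-subgroup is simple. -/
theorem result {F : Type*} [Field F] [Fintype F] (hodd : Fintype.card F % 2 = 1) (S : Sylow 2 (Cfsg.PSp 2 F)) :
    (Cfsg.groupFusionSystem (S : Subgroup (Cfsg.PSp 2 F))).IsSimple 2 := by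
  classical
  have hfin : Finite (Matrix.symplecticGroup (Fin 2) F) :=
    Finite.of_injective (fun A : Matrix.symplecticGroup (Fin 2) F =>
      (A : Matrix (Fin 2 ⊕ Fin 2) (Fin 2 ⊕ Fin 2) F)) Subtype.val_injective
  have hfinG : Finite (Cfsg.PSp 2 F) := Quotient.finite _
  obtain ⟨P, hP⟩ := Cfsg.Agent.Lib.Helper47.FSP.exists_crit3Z_Sp4 hodd
  exact Cfsg.Agent.Lib.Helper47.FSP.simple_of_crit3 hP.quotient S

end Cfsg.Agent.S5320
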