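import Cfsg.Statements.S5321
import Cfsg.Agent.Lib.Helper43.J2Fus3

set_option autoImplicit false
open Cfsg

namespace Cfsg.Agent.S5321

/-- For a finite group G isomorphic to the Hall–Janko group J₂ (as constructed in the problem's definitions), the 2-fusion system of G on a Sylow 2-subgroup is simple: saturated, over a nontrivial 2-group, with no normal subsystem other than the trivial one and itself. -/
theorem result {G : Type*} [Group G] [Finite G] (hG : Cfsg.Spor.IsoJ2 G) (S : Sylow 2 G) : (Cfsg.groupFusionSystem (S : Subgroup G)).IsSimple 2 := by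
  haveI : Fact (Nat.Prime 2) := ⟨Nat.prime_two⟩
  obtain ⟨e⟩ := hG
  -- the model Sylow subgroup, transported to `G`
  have h1 := Cfsg.Agent.Lib.Helper89.GenHyp.map_equiv e.symm
    Cfsg.Agent.Lib.Helper43.J2.isPGroup_Sb Cfsg.Agent.Lib.Helper43.J2.genHyp_Sb
  have hp1 : IsPGroup 2 (Cfsg.Agent.Lib.Helper43.J2.Sb.map e.symm.toMonoidHom) :=
    Cfsg.Agent.Lib.Helper43.J2.isPGroup_Sb.map _
  have hi : (Cfsg.Agent.Lib.Helper43.J2.Sb.map e.symm.toMonoidHom).index = 4725 := by
    have h := Subgroup.index_map_of_bijective (f := e.symm.toMonoidHom) e.symm.bijective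
      Cfsg.Agent.Lib.Helper43.J2.Sb
    rw [h, Cfsg.Agent.Lib.Helper43.J2.index_Sb]
  let S1 : Sylow 2 G := hp1.toSylow (by rw [hi]; norm_num)
  obtain ⟨g, hg⟩ := MulAction.exists_smul_eq G S1 S
  have h2 := Cfsg.Agent.Lib.Helper89.GenHyp.map_equiv (MulAut.conj g) hp1 h1
  apply Cfsg.Agent.Lib.Helper89.simple_of_genHyp S
  have e2 : (S : Subgroup G) = (Cfsg.Agent.Lib.Helper43.J2.Sb.map e.symm.toMonoidHom).map
      (MulAut.conj g).toMonoidHom := by
    rw [← hg]
    rfl
  rw [e2]
  exact h2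

end Cfsg.Agent.S5321
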