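import Cfsg.Statements.S5322
import Cfsg.Agent.Lib.Helper10.J3.FusC

set_option autoImplicit false
open Cfsg

namespace Cfsg.Agent.S5322

/-- For a finite group G isomorphic to the third Janko group J₃, the 2-fusion system of G on a Sylow 2-subgroup is simple: saturated, over a nontrivial 2-group, with no normal subsystem other than the trivial one and itself. -/
theorem result {G : Type*} [Group G] [Finite G] (hG : Cfsg.Spor.IsoJ3 G) (S : Sylow 2 G) : (Cfsg.groupFusionSystem (S : Subgroup G)).IsSimple 2 := by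
  classical
  obtain ⟨F, _, _, ω, hF, hω, ⟨e⟩⟩ := hG
  have h2 := Cfsg.Agent.Lib.Helper10.J3.two_eq_zero hF
  obtain ⟨κ, hκ⟩ := Cfsg.Agent.Lib.Helper10.J3.exists_kappa h2 ω hω
  have hmain := Cfsg.Agent.Lib.Helper10.J3.j3_main hF ω hω
  have hsurj := QuotientGroup.mk'_surjective (Subgroup.center (Cfsg.Spor.threeJ3 F ω))
  have hker := QuotientGroup.ker_mk' (Subgroup.center (Cfsg.Spor.threeJ3 F ω))
  have hcS := Cfsg.Agent.Lib.Helper10.J3.card_Sg h2 ω hω κ hκ
  have hp : IsPGroup 2 (Cfsg.Agent.Lib.Helper10.J3.Sg ω κ) :=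
    IsPGroup.of_card (n := 7) (by rw [hcS]; norm_num)
  have h1 : Cfsg.Agent.Lib.Helper89.GenHyp 2 ⊥ ((Cfsg.Agent.Lib.Helper10.J3.Sg ω κ).map
      (QuotientGroup.mk' (Subgroup.center (Cfsg.Spor.threeJ3 F ω)))) := by
    refine Cfsg.Agent.Lib.Helper10.J3.GenHypZ.map _ hsurj (by rw [hker]) (by rw [hker, hmain.1]; norm_num) hp ?_
    rw [hker]
    exact Cfsg.Agent.Lib.Helper10.J3.genHyp_threeJ3 h2 ω hω κ hκ
  have hfac : (150698880 : ℕ).factorization 2 = 7 := by
    have h : (150698880 : ℕ) = 2 ^ 7 * 1177335 := by norm_num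
    rw [h, Nat.factorization_mul (by norm_num) (by norm_num), Finsupp.add_apply,
      Nat.Prime.factorization_pow Nat.prime_two, Finsupp.single_apply,
      Nat.factorization_eq_zero_of_not_dvd (by norm_num)]
    simp
  let P : Sylow 2 (Cfsg.Spor.threeJ3 F ω) := Sylow.ofCard (Cfsg.Agent.Lib.Helper10.J3.Sg ω κ) (by
    rw [hcS, hmain.2.1, hfac]; norm_num)
  let P1 : Sylow 2 (Cfsg.Spor.J3 F ω) := P.mapSurjective hsurj
  have h1' := Cfsg.Agent.Lib.Helper89.GenHyp.map_equiv e.symm P1.2 h1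
  let S₀ : Sylow 2 G := P1.mapSurjective (f := e.symm.toMonoidHom) e.symm.surjective
  obtain ⟨c, hc⟩ := MulAction.exists_smul_eq G S₀ S
  have h2' := Cfsg.Agent.Lib.Helper89.GenHyp.map_equiv (MulAut.conj c) S₀.2 h1'
  have h3 : (S : Subgroup G) =
      (((Cfsg.Agent.Lib.Helper10.J3.Sg ω κ).map
      (QuotientGroup.mk' (Subgroup.center (Cfsg.Spor.threeJ3 F ω)))).map e.symm.toMonoidHom).map
        (MulAut.conj c).toMonoidHom := by
    rw [← hc]
    rfl
  apply Cfsg.Agent.Lib.Helper89.simple_of_genHyp S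
  rw [h3]
  exact h2'

end Cfsg.Agent.S5322
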