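import Cfsg.Statements.S5331
import Cfsg.Agent.Lib.Helper90.FusionAbelian
import Cfsg.Agent.Lib.Helper90.CoprimeOmega
import Cfsg.Agent.Lib.Helper90.DistinctInvariants

set_option autoImplicit false
open Cfsg

namespace Cfsg.Agent.S5331

open Cfsg.FusionSystem Cfsg.Agent.Lib.Helper87 Cfsg.Agent.Lib.Helper90

theorem aut_fixes {V : Type*} [Group V] {n : ℕ} (a : Fin n → ℕ) (ha : StrictMono a) (ha1 : ∀ i, 1 ≤ a i)
    (e : V ≃* Multiplicative ((i : Fin n) → ZMod (2 ^ a i))) (α : MulAut V) (m : ℕ) (hm : Odd m)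
    (hα : α ^ m = 1) (s : V) (hs : s ^ 2 = 1) : α s = s := by
  let α'' : Multiplicative ((i : Fin n) → ZMod (2 ^ a i)) ≃* Multiplicative ((i : Fin n) → ZMod (2 ^ a i)) :=
    e.symm.trans (α.trans e)
  let α' : ((i : Fin n) → ZMod (2 ^ a i)) ≃+ ((i : Fin n) → ZMod (2 ^ a i)) :=
    AddEquiv.toMultiplicative.symm α''
  have hα' : ∀ x, α' x = Multiplicative.toAdd (e (α (e.symm (Multiplicative.ofAdd x)))) := fun _ => rfl
  have hiter : ∀ (k : ℕ) x, (α'^[k]) x = Multiplicative.toAdd (e ((α ^ k) (e.symm (Multiplicative.ofAdd x)))) := by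
    intro k
    induction k with
    | zero =>
      intro x
      simp
    | succ k ih =>
      intro x
      rw [Function.iterate_succ_apply', ih, hα', pow_succ', MulAut.mul_apply]
      simp
  have h1 := fixes_order_two a ha ha1 α' m hm (by
    intro x
    rw [hiter, hα]
    simp) (Multiplicative.toAdd (e s)) (by
    rw [← toAdd_pow, ← map_pow, hs, map_one]
    rfl)
  rw [hα'] at h1
  have h2 : e (α (e.symm (e s))) = e s := h1
  rw [MulEquiv.symm_apply_apply] at h2
  exact e.injective h2

/-- Let S be a finite abelian 2-group that is a direct product of cyclic groups of pairwise distinct orders 2^{a_1} < 2^{a_2} < ⋯ < 2^{a_n} (all a_i ≥ 1). Then every saturated fusion system over S is the inner one: its maps are exactly the conjugations by elements of S. -/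
theorem result {Ω : Type*} [Group Ω] {S : Subgroup Ω} [Finite S] (n : ℕ) (a : Fin n → ℕ) (ha : StrictMono a) (ha1 : ∀ i, 1 ≤ a i) (e : ↥S ≃* Multiplicative ((i : Fin n) → ZMod (2 ^ a i))) (F : Cfsg.FusionSystem S) (hF : F.IsSaturated 2) (P : Subgroup Ω) : F.Hom P = (Cfsg.innerFusionSystem S).Hom P := by
  have hcomm : ∀ x y : S, x * y = y * x := by
    intro x y
    apply e.injective
    rw [map_mul, map_mul, mul_comm]
  have hab : ∀ x ∈ S, ∀ y ∈ S, x * y = y * x := fun x hx y hy =>
    congrArg Subtype.val (hcomm ⟨x, hx⟩ ⟨y, hy⟩)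
  have hcard : Nat.card S = 2 ^ (∑ i, a i) := by
    rw [Nat.card_congr e.toEquiv]
    show Nat.card ((i : Fin n) → ZMod (2 ^ a i)) = _
    rw [Nat.card_pi]
    simp only [Nat.card_zmod]
    rw [Finset.prod_pow_eq_pow_sum]
  have hS : IsPGroup 2 S := IsPGroup.of_card hcard
  have hcop := abelian_aut_coprime hS hF hab
  have htop : fixedSub (F.autGroup S) = ⊤ := by
    apply fixedSub_eq_top_of_fixes_omega hcomm hS _ hcop
    intro α hα x hx
    by_cases hx1 : x = 1
    · rw [hx1, map_one]
    have ho : orderOf x = 2 := orderOf_eq_prime hx hx1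
    have h2 : 2 ∣ Nat.card S := ho ▸ orderOf_dvd_natCard x
    have hodd : Odd (Nat.card (F.autGroup S)) := by
      rw [← Nat.not_even_iff_odd, even_iff_two_dvd]
      intro h3
      have := Nat.Coprime.eq_one_of_dvd (Nat.Coprime.coprime_dvd_left h2 hcop) h3
      omega
    have hpow : α ^ Nat.card (F.autGroup S) = 1 := by
      have := pow_card_eq_one' (G := F.autGroup S) (x := ⟨α, hα⟩)
      exact congrArg Subtype.val this
    exact aut_fixes a ha ha1 e α _ hodd hpow x hx
  apply Set.Subset.antisymm _ (inner_isSubsystemOf F le_rfl P)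
  apply hom_subset_of_mor
  intro f hf
  obtain ⟨α, hα, hαf⟩ := abelian_ext hF hab hf
  rw [mor_inner_iff]
  refine ⟨hf.le, 1, S.one_mem, fun x hx => ?_⟩
  have h1 : (⟨x, hf.le hx⟩ : S) ∈ fixedSub (F.autGroup S) := by rw [htop]; trivial
  rw [← hαf x hx, autFun_apply α (hf.le hx), h1 α hα]
  simp

end Cfsg.Agent.S5331
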