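import Cfsg.Statements.S5342
import Cfsg.Agent.Lib.Helper87.ConstrainedSub

set_option autoImplicit false
open Cfsg

namespace Cfsg.Agent.S5342

theorem aux {Ω : Type*} [Group Ω] {T S : Subgroup Ω} {E : Cfsg.FusionSystem T}
    {F : Cfsg.FusionSystem S} {p : ℕ} (hE : E.IsSubnormalIn F p) :
    ∀ [Fact p.Prime] [Finite S], IsPGroup p S → F.IsConstrained p → E.IsConstrained p := by
  induction hE with
  | refl F p => intro _ _ _ h; exact h
  | step hED hDF ih =>
    rename_i T U S E D F p
    intro _ _ hS hF
    have hUS : U ≤ S := hDF.1.2.2.2.1.1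
    haveI : Finite U := Finite.of_injective (Subgroup.inclusion hUS) (Subgroup.inclusion_injective hUS)
    have hU : IsPGroup p U := hS.of_injective (Subgroup.inclusion hUS) (Subgroup.inclusion_injective hUS)
    exact ih hU (Cfsg.Agent.Lib.Helper87.constrained_of_subsystem hS hF hDF.1.1 hDF.1.2.2.1 hDF.1.2.2.2.1)

/-- Let F be a constrained saturated fusion system over a finite p-group S. Then every subsystem of F that is subnormal in F (reached from F by a finite chain of successive normal subsystems) is constrained. -/
theorem result {Ω : Type*} [Group Ω] {S : Subgroup Ω} [Finite S] (p : ℕ) [Fact p.Prime] (hS : IsPGroup p S) (F : Cfsg.FusionSystem S) (hF : F.IsConstrained p) {T : Subgroup Ω} (E : Cfsg.FusionSystem T) (hE : E.IsSubnormalIn F p) : E.IsConstrained p := by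
  exact aux hE hS hF

end Cfsg.Agent.S5342
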