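import Cfsg.Statements.S5521
import Cfsg.Agent.Lib.Helper94.GolayConj

set_option autoImplicit false
open Cfsg

namespace Cfsg.Agent.S5521

open Cfsg.Agent.Lib.Helper94

/-- for every point there is a non-trivial element fixing the five base points and that point. -/
theorem chk_fix : (List.range 24).all (fun j => stab5L.any fun P =>
    !(Nat.beq P idM) && Nat.beq (applyM P (Nat.pow 2 j)) (Nat.pow 2 j)) = true := by decide +kernel

theorem exists_fix (q : Cfsg.GolayPt) : ∃ s ∈ fixG [3, 2, 1, 0, 23], s ≠ 1 ∧ s q = q := by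
  have h := (List.all_eq_true.1 chk_fix) (enc q) (List.mem_range.2 (enc_lt q))
  obtain ⟨P, hP, h2⟩ := List.any_eq_true.1 h
  rw [Bool.and_eq_true, Nat.beq_eq, Bool.not_eq_true'] at h2
  obtain ⟨hv, hm⟩ := stab5L_spec hP
  refine ⟨permOf P, hm, ?_, ?_⟩
  · intro h1
    have : P = idM := by rw [← code_permOf hv, h1, code_one]
    rw [this, Nat.beq_refl] at h2
    exact absurd h2.1 (by simp)
  · rw [permOf_apply_eq_iff hv]
    exact h2.2

theorem six_fix (a b c d e f : Cfsg.GolayPt) (h : [a, b, c, d, e].Nodup) :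
    ∃ g ∈ Cfsg.M24, g ≠ 1 ∧ g a = a ∧ g b = b ∧ g c = c ∧ g d = d ∧ g e = e ∧ g f = f := by
  obtain ⟨k, hk, k1, k2, k3, k4, k5⟩ := five_trans_to_base a b c d e h
  obtain ⟨s, hs, hs1, hsq⟩ := exists_fix (k f)
  obtain ⟨hsM, hsf⟩ := mem_fixG.1 hs
  have key : ∀ x, s (k x) = k x → (k⁻¹ * s * k) x = x := by
    intro x hx
    rw [Equiv.Perm.mul_apply, Equiv.Perm.mul_apply, hx]
    simp
  refine ⟨k⁻¹ * s * k, Cfsg.M24.mul_mem (Cfsg.M24.mul_mem (Cfsg.M24.inv_mem hk) hsM) hk, ?_,
    key a (by rw [k1]; exact hsf 23 (by simp)), key b (by rw [k2]; exact hsf 0 (by simp)),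
    key c (by rw [k3]; exact hsf 1 (by simp)), key d (by rw [k4]; exact hsf 2 (by simp)),
    key e (by rw [k5]; exact hsf 3 (by simp)), key f hsq⟩
  intro h1
  apply hs1
  have : s = k * (k⁻¹ * s * k) * k⁻¹ := by group
  rw [this, h1]; group

/-- The Mathieu group M₂₄ in its natural action on the 24 coordinate positions of the binary Golay code has minimal base size exactly 7: every set of at most 6 positions is fixed pointwise by some non-identity element of M₂₄, while some set of 7 positions is fixed pointwise only by the identity. -/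
theorem result :
    (∀ B : Finset Cfsg.GolayPt, B.card ≤ 6 → ∃ g ∈ Cfsg.M24, g ≠ 1 ∧ ∀ b ∈ B, g b = b) ∧
    (∃ B : Finset Cfsg.GolayPt, B.card = 7 ∧ ∀ g ∈ Cfsg.M24, (∀ b ∈ B, g b = b) → g = 1) := by
  constructor
  · intro B hB
    obtain ⟨B', hBB', hB'⟩ := Finset.exists_superset_card_eq hB (by
      rw [Finset.card_univ, card_golayPt]; norm_num : 6 ≤ (Finset.univ : Finset Cfsg.GolayPt).card)
    obtain ⟨a, t1, ha, rfl, h1⟩ := Finset.card_eq_succ.1 hB'
    obtain ⟨b, t2, hb, rfl, h2⟩ := Finset.card_eq_succ.1 h1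
    obtain ⟨c, t3, hc, rfl, h3⟩ := Finset.card_eq_succ.1 h2
    obtain ⟨d, e, f, hde, hdf, hef, rfl⟩ := Finset.card_eq_three.1 h3
    simp only [Finset.mem_insert, Finset.mem_singleton, not_or] at ha hb hc
    obtain ⟨g, hg, hg1, g1, g2, g3, g4, g5, g6⟩ := six_fix a b c d e f (by
      simp only [List.nodup_cons, List.mem_cons, List.not_mem_nil, or_false, not_or, not_false_eq_true,
        List.nodup_nil, and_true]
      exact ⟨⟨ha.1, ha.2.1, ha.2.2.1, ha.2.2.2.1⟩, ⟨hb.1, hb.2.1, hb.2.2.1⟩, ⟨hc.1, hc.2.1⟩, hde⟩)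
    refine ⟨g, hg, hg1, ?_⟩
    intro x hx
    have hx' := hBB' hx
    simp only [Finset.mem_insert, Finset.mem_singleton] at hx'
    rcases hx' with rfl | rfl | rfl | rfl | rfl | rfl <;> assumption
  · refine ⟨{pt 5, pt 4, pt 3, pt 2, pt 1, pt 0, pt 23}, by decide, ?_⟩
    intro g hg hf
    have : g ∈ fixG [5, 4, 3, 2, 1, 0, 23] := by
      rw [mem_fixG]
      refine ⟨hg, ?_⟩
      intro t ht
      apply hf
      simp only [List.mem_cons, List.not_mem_nil, or_false] at ht
      rcases ht with rfl | rfl | rfl | rfl | rfl | rfl | rfl <;> simp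
    rw [fixG_base_eq_bot] at this
    exact Subgroup.mem_bot.1 this

end Cfsg.Agent.S5521
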