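import Cfsg.Statements.S5562
-- import your own Cfsg.Agent.* helpers here

set_option autoImplicit false
open Cfsg

namespace Cfsg.Agent.S5562

theorem inv_of_order_two {G : Type*} [Group G] {a : G} (h : orderOf a = 2) : a⁻¹ = a := by
  have h2 : a ^ 2 = 1 := by rw [← h]; exact pow_orderOf_eq_one a
  rw [inv_eq_iff_mul_eq_one, ← sq]; exact h2

theorem mem_conj_iff {G : Type*} [Group G] {d a : G} : a ∈ conjugatesOf d ↔ IsConj d a := Iff.rfl

theorem order_conj {G : Type*} [Group G] {d a : G} (hd : orderOf d = 2) (ha : a ∈ conjugatesOf d) :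
    orderOf a = 2 := by
  rw [mem_conj_iff, isConj_iff] at ha
  obtain ⟨c, rfl⟩ := ha
  have : c * d * c⁻¹ = MulAut.conj c d := by simp
  rw [this, MulEquiv.orderOf_eq]; exact hd

theorem conj_mem {G : Type*} [Group G] {d a : G} (ha : a ∈ conjugatesOf d) (g : G) :
    g * a * g⁻¹ ∈ conjugatesOf d := by
  rw [mem_conj_iff] at ha ⊢
  exact ha.trans (isConj_iff.2 ⟨g, rfl⟩)

theorem odd_pow_inverts {G : Type*} [Group G] {g y : G} (h : g * y * g⁻¹ = y⁻¹) (m : ℕ) (hm : Odd m) :
    g ^ m * y * (g ^ m)⁻¹ = y⁻¹ := by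
  obtain ⟨j, rfl⟩ := hm
  have h' : g * y⁻¹ * g⁻¹ = y := by
    have := congrArg (fun z => z⁻¹) h
    simpa [mul_assoc] using this
  have h2 : ∀ j : ℕ, g ^ (2 * j) * y * (g ^ (2 * j))⁻¹ = y := by
    intro j
    induction j with
    | zero => simp
    | succ n ih =>
      have e : g ^ (2 * (n + 1)) = g * g * g ^ (2 * n) := by
        rw [show 2 * (n + 1) = 2 + 2 * n by ring, pow_add, pow_two]
      rw [e]
      calc g * g * g ^ (2 * n) * y * (g * g * g ^ (2 * n))⁻¹
          = g * (g * (g ^ (2 * n) * y * (g ^ (2 * n))⁻¹) * g⁻¹) * g⁻¹ := by group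
        _ = y := by rw [ih, h, h']
  calc g ^ (2 * j + 1) * y * (g ^ (2 * j + 1))⁻¹
      = g ^ (2 * j) * (g * y * g⁻¹) * (g ^ (2 * j))⁻¹ := by rw [pow_succ]; group
    _ = (g ^ (2 * j) * y * (g ^ (2 * j))⁻¹)⁻¹ := by rw [h]; group
    _ = y⁻¹ := by rw [h2]

theorem eq_one_of_sq_odd {G : Type*} [Group G] {y : G} (h : y = y⁻¹) (ho : Odd (orderOf y)) : y = 1 := by
  have h2 : y ^ 2 = 1 := by
    rw [sq]; nth_rewrite 1 [h]; simp
  have hdvd := orderOf_dvd_of_pow_eq_one h2
  rcases (Nat.dvd_prime Nat.prime_two).1 hdvd with h1 | h1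
  · exact orderOf_eq_one_iff.1 h1
  · rw [h1] at ho; exact absurd ho (by decide)

theorem swap_of_inverts {G : Type*} [Group G] {e s : G} (h : e * s * e⁻¹ = s⁻¹) :
    e * s = s⁻¹ * e ∧ e * s⁻¹ = s * e := by
  have h1 : e * s = s⁻¹ * e := by
    have := congrArg (fun z => z * e) h
    simpa [mul_assoc] using this
  refine ⟨h1, ?_⟩
  have : s * (e * s) * s⁻¹ = s * (s⁻¹ * e) * s⁻¹ := by rw [h1]
  have h2 : s * e = e * s⁻¹ := by simpa [mul_assoc] using this
  exact h2.symm

theorem uniq_aux {G : Type*} [Group G] {a b e x : G} (haa : a * a = 1) (hbb : b * b = 1) (hee : e * e = 1)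
    (hxx : x * x = 1) (hA : Commute e (a * x)) (hB : Commute e (b * x))
    (h1 : Odd (orderOf (e * a))) (h2 : Odd (orderOf (b * a))) : b = a := by
  have hai : a⁻¹ = a := inv_eq_of_mul_eq_one_left haa
  have hbi : b⁻¹ = b := inv_eq_of_mul_eq_one_left hbb
  have hei : e⁻¹ = e := inv_eq_of_mul_eq_one_left hee
  have hA' : x * e * x = a * e * a := by
    have : e * (a * x) = a * x * e := hA
    calc x * e * x = (a * a) * x * e * x := by rw [haa]; group
      _ = a * (a * x * e) * x := by group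
      _ = a * (e * (a * x)) * x := by rw [this]
      _ = a * e * a * (x * x) := by group
      _ = a * e * a := by rw [hxx]; group
  have hB' : x * e * x = b * e * b := by
    have : e * (b * x) = b * x * e := hB
    calc x * e * x = (b * b) * x * e * x := by rw [hbb]; group
      _ = b * (b * x * e) * x := by group
      _ = b * (e * (b * x)) * x := by rw [this]
      _ = b * e * b * (x * x) := by group
      _ = b * e * b := by rw [hxx]; group
  have hyi : (b * a)⁻¹ = a * b := by rw [mul_inv_rev, hai, hbi]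
  have hc : (b * a) * e * (b * a)⁻¹ = e := by
    rw [hyi]
    calc b * a * e * (a * b) = b * (a * e * a) * b := by group
      _ = b * (b * e * b) * b := by rw [← hA', hB']
      _ = (b * b) * e * (b * b) := by group
      _ = e := by rw [hbb]; group
  have hc' : e * (b * a)⁻¹ * e⁻¹ = (b * a)⁻¹ := by
    have h3 : (b * a) * e = e * (b * a) := by
      have := congrArg (fun z => z * (b * a)) hc
      simpa [mul_assoc] using this
    calc e * (b * a)⁻¹ * e⁻¹ = (b * a)⁻¹ * ((b * a) * e) * (b * a)⁻¹ * e⁻¹ := by group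
      _ = (b * a)⁻¹ * (e * (b * a)) * (b * a)⁻¹ * e⁻¹ := by rw [h3]
      _ = (b * a)⁻¹ := by group
  have hg : (e * a) * (b * a) * (e * a)⁻¹ = (b * a)⁻¹ := by
    calc (e * a) * (b * a) * (e * a)⁻¹ = e * (a * b * (a * a⁻¹)) * e⁻¹ := by group
      _ = e * (b * a)⁻¹ * e⁻¹ := by rw [hyi]; group
      _ = (b * a)⁻¹ := hc'
  have h4 := odd_pow_inverts hg _ h1
  rw [pow_orderOf_eq_one] at h4
  have h5 : b * a = (b * a)⁻¹ := by simpa using h4
  have h6 := eq_one_of_sq_odd h5 h2
  calc b = b * (a * a) := by rw [haa]; group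
    _ = (b * a) * a := by group
    _ = a := by rw [h6]; group

/-- Let G be a finite group, d an involution of G whose conjugates pairwise have products of odd order, and x any involution of G. Then the conjugacy class of d is the disjoint union, over the conjugates a of d commuting with x, of the sets of conjugates of d commuting with ax: every conjugate of d commutes with ax for exactly one conjugate a of d that commutes with x. -/
theorem result {G : Type*} [Group G] [Finite G] (d : G) (hd : orderOf d = 2)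
    (hodd : ∀ a ∈ conjugatesOf d, ∀ b ∈ conjugatesOf d, Odd (orderOf (a * b)))
    (x : G) (hx : orderOf x = 2) :
    ∀ e ∈ conjugatesOf d,
      ∃! a : G, a ∈ conjugatesOf d ∧ Commute a x ∧ Commute e (a * x) := by
  intro e he
  have hxi : x⁻¹ = x := inv_of_order_two hx
  have hei : e⁻¹ = e := inv_of_order_two (order_conj hd he)
  have hxx : x * x = 1 := by nth_rewrite 1 [← hxi]; simp
  have hee : e * e = 1 := by nth_rewrite 1 [← hei]; simp
  have he' : x * e * x⁻¹ ∈ conjugatesOf d := conj_mem he x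
  obtain ⟨k, hk⟩ := hodd e he _ he'
  obtain ⟨t, ht⟩ : ∃ t : G, t = e * (x * e * x⁻¹) := ⟨_, rfl⟩
  rw [← ht] at hk
  have ht' : t = e * x * e * x := by rw [ht, hxi]; group
  have hti : t⁻¹ = x * e * x * e := by
    rw [ht', mul_inv_rev, mul_inv_rev, mul_inv_rev, hxi, hei]; group
  have htn : t ^ (2 * k + 1) = 1 := by rw [← hk]; exact pow_orderOf_eq_one t
  have het : e * t * e⁻¹ = t⁻¹ := by
    rw [hti, ht', hei]
    calc e * (e * x * e * x) * e = (e * e) * x * e * x * e := by group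
      _ = x * e * x * e := by rw [hee]; group
  have hxt : x * t * x⁻¹ = t⁻¹ := by
    rw [hti, ht', hxi]
    calc x * (e * x * e * x) * x = x * e * x * e * (x * x) := by group
      _ = x * e * x * e := by rw [hxx]; group
  obtain ⟨s, hs⟩ : ∃ s : G, s = t ^ ((k + 1) * (k + 1)) := ⟨_, rfl⟩
  obtain ⟨r, hr⟩ : ∃ r : G, r = s * s := ⟨_, rfl⟩
  have hrr : r * r = t := by
    rw [hr, hs, ← pow_add, ← pow_add]
    have : (k + 1) * (k + 1) + (k + 1) * (k + 1) + ((k + 1) * (k + 1) + (k + 1) * (k + 1))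
        = (2 * k + 1) * (2 * k + 3) + 1 := by ring
    rw [this, pow_succ, pow_mul, htn, one_pow, one_mul]
  have hes : e * s * e⁻¹ = s⁻¹ := by
    have : e * s * e⁻¹ = (e * t * e⁻¹) ^ ((k + 1) * (k + 1)) := by
      rw [hs, conj_pow]
    rw [this, het, hs, inv_pow]
  have hxs : x * s * x⁻¹ = s⁻¹ := by
    have : x * s * x⁻¹ = (x * t * x⁻¹) ^ ((k + 1) * (k + 1)) := by
      rw [hs, conj_pow]
    rw [this, hxt, hs, inv_pow]
  have her : e * r * e⁻¹ = r⁻¹ := by
    rw [hr]
    calc e * (s * s) * e⁻¹ = (e * s * e⁻¹) * (e * s * e⁻¹) := by group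
      _ = (s * s)⁻¹ := by rw [hes]; group
  have hxr : x * r * x⁻¹ = r⁻¹ := by
    rw [hr]
    calc x * (s * s) * x⁻¹ = (x * s * x⁻¹) * (x * s * x⁻¹) := by group
      _ = (s * s)⁻¹ := by rw [hxs]; group
  obtain ⟨hes1, hes2⟩ := swap_of_inverts hes
  obtain ⟨her1, her2⟩ := swap_of_inverts her
  obtain ⟨hxr1, hxr2⟩ := swap_of_inverts hxr
  have hmem : r⁻¹ * e ∈ conjugatesOf d := by
    have h1 := conj_mem he s⁻¹
    have h2 : s⁻¹ * e * s⁻¹⁻¹ = r⁻¹ * e := by
      rw [inv_inv, hr]
      calc s⁻¹ * e * s = s⁻¹ * (e * s) := by group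
        _ = s⁻¹ * (s⁻¹ * e) := by rw [hes1]
        _ = (s * s)⁻¹ * e := by group
    rwa [h2] at h1
  have hce : Commute e (r⁻¹ * e * x) := by
    show e * (r⁻¹ * e * x) = r⁻¹ * e * x * e
    have h1 : e * (r⁻¹ * e * x) = r * x := by
      calc e * (r⁻¹ * e * x) = (e * r⁻¹) * e * x := by group
        _ = r * (e * e) * x := by rw [her2]; group
        _ = r * x := by rw [hee]; group
    have h2 : r⁻¹ * e * x * e = r * x := by
      calc r⁻¹ * e * x * e = r⁻¹ * (e * x * e * x) * x⁻¹ := by group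
        _ = r⁻¹ * (r * r) * x := by rw [← ht', hrr, hxi]
        _ = r * x := by group
    rw [h1, h2]
  refine ⟨r⁻¹ * e, ⟨hmem, ?_, hce⟩, ?_⟩
  · show r⁻¹ * e * x = x * (r⁻¹ * e)
    symm
    calc x * (r⁻¹ * e) = (x * r⁻¹) * e := by group
      _ = r * x * e := by rw [hxr2]
      _ = r⁻¹ * (r * r) * x * e := by group
      _ = r⁻¹ * (e * x * e * x) * x * e := by rw [hrr, ht']
      _ = r⁻¹ * e * x * e * (x * x) * e := by group
      _ = r⁻¹ * e * x * (e * e) := by rw [hxx]; group
      _ = r⁻¹ * e * x := by rw [hee]; group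
  · rintro b ⟨hb, hbx, hbe⟩
    have hbi : b⁻¹ = b := inv_of_order_two (order_conj hd hb)
    have hbb : b * b = 1 := by nth_rewrite 1 [← hbi]; simp
    have hai : (r⁻¹ * e)⁻¹ = r⁻¹ * e := inv_of_order_two (order_conj hd hmem)
    have haa : (r⁻¹ * e) * (r⁻¹ * e) = 1 := by nth_rewrite 1 [← hai]; simp
    exact uniq_aux haa hbb hee hxx hce hbe (hodd _ he _ hmem) (hodd _ hb _ hmem)

end Cfsg.Agent.S5562
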