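import Cfsg.Statements.S5596
-- import your own Cfsg.Agent.* helpers here
import Cfsg.Agent.Lib.Helper92.Singular2

set_option autoImplicit false
open Cfsg

namespace Cfsg.Agent.S5596

open Cfsg.Agent.Lib.Helper92

/-- conjugation by a normalizing element as an automorphism of `U` -/
def conjU {G : Type*} [Group G] (U : Subgroup G) (a : G)
    (ha : a ∈ Subgroup.normalizer (U : Set G)) : ↥U ≃* ↥U where
  toFun u := ⟨a * u * a⁻¹, (Subgroup.mem_normalizer_iff.1 ha u).1 u.2⟩
  invFun u := ⟨a⁻¹ * u * a, (Subgroup.mem_normalizer_iff''.1 ha u).1 u.2⟩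
  left_inv u := Subtype.ext (by simp [mul_assoc])
  right_inv u := Subtype.ext (by simp [mul_assoc])
  map_mul' u v := Subtype.ext (by simp [mul_assoc])

theorem aut_induced {G : Type*} [Group G] [Finite G] {Q : G → Subgroup G} {U : Subgroup G}
    (hSU : SingU Q U) : ∀ (F : Subgroup ↥U) (φ : ↥U ≃* ↥U),
    MonoidHom.eqLocus φ.toMonoidHom (MonoidHom.id ↥U) = F →
    ∃ g ∈ (⨆ u ∈ ((U : Set G) \ {1}), Q u), ∀ u : ↥U, g * (u : G) * g⁻¹ = ((φ u : ↥U) : G) := by
  intro F
  induction F using WellFoundedGT.induction with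
  | ind F ih =>
    intro φ hφ
    by_cases htop : F = ⊤
    · refine ⟨1, one_mem _, fun u => ?_⟩
      have h0 : u ∈ MonoidHom.eqLocus φ.toMonoidHom (MonoidHom.id ↥U) := by rw [hφ, htop]; trivial
      have h1 : φ u = u := h0
      rw [h1]; simp
    · obtain ⟨x, hx⟩ : ∃ x : ↥U, x ∉ F := by
        by_contra hcon
        push Not at hcon
        exact htop (eq_top_iff.2 fun x _ => hcon x)
      have hxφ : φ x ≠ x := fun h => hx (hφ ▸ h)
      obtain ⟨y, hy⟩ : ∃ y, y = φ x := ⟨_, rfl⟩
      have hw1 : (x : G) * y ≠ 1 := by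
        intro h
        apply hxφ
        rw [← hy]
        apply Subtype.ext
        have h1 : (y : G) = (x : G)⁻¹ := (inv_eq_of_mul_eq_one_right h).symm
        rw [h1, hSU.inv x.2]
      have hwU : (x : G) * y ∈ U := U.mul_mem x.2 y.2
      have hwx : (x : G) * y * x = y := by
        rw [mul_assoc, hSU.comm y.2 x.2, ← mul_assoc, hSU.sq x x.2, one_mul]
      generalize hw : (x : G) * y = w at hw1 hwU hwx
      have es := hSU.es w hwU hw1
      have hword : orderOf w = 2 := orderOf_eq_prime (by rw [sq]; exact hSU.sq w hwU) hw1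
      have hFU : F.map U.subtype ≤ U := Subgroup.map_subtype_le _
      have hnorm : F.map U.subtype ≤ Subgroup.normalizer ((Subgroup.zpowers w : Subgroup G) : Set G) := by
        apply le_normalizer_of_conj_mem
        intro f hf b hb
        have hbU : b ∈ U := (Subgroup.zpowers_le.2 hwU) hb
        rw [hSU.comm (hFU hf) hbU, mul_inv_cancel_right]
        exact hb
      have hxK : (x : G) ∉ F.map U.subtype ⊔ Subgroup.zpowers w := by
        intro hx'
        obtain ⟨f, hf, b, hb, hfb⟩ :=
          (Cfsg.Agent.Lib.Helper27.mem_sup_of_left_le_normalizer hnorm).1 hx'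
        obtain ⟨f', hf', rfl⟩ := hf
        rcases mem_zpowers_of_orderOf_two hword hb with rfl | rfl
        · apply hx
          have : f' = x := Subtype.ext (by simpa using hfb)
          rw [← this]; exact hf'
        · have hfb' : (f' : G) * ((x : G) * y) = x := by rw [hw]; exact hfb
          have h1 : (f' : G) * y = 1 := by
            calc (f' : G) * y = (x : G)⁻¹ * ((x : G) * f' * y) := by group
              _ = (x : G)⁻¹ * ((f' : G) * x * y) := by rw [hSU.comm x.2 f'.2]
              _ = (x : G)⁻¹ * ((f' : G) * ((x : G) * y)) := by group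
              _ = 1 := by rw [hfb']; group
          have h2 : (y : G) = f' := by
            rw [← hSU.inv f'.2]
            exact (inv_eq_of_mul_eq_one_right h1).symm
          have h3 : y = f' := Subtype.ext h2
          have h4 : y ∈ MonoidHom.eqLocus φ.toMonoidHom (MonoidHom.id ↥U) := by
            rw [hφ, h3]; exact hf'
          have h5 : φ y = y := h4
          apply hxφ
          apply φ.injective
          rw [← hy, h5]
      obtain ⟨a, ha, haK, hax⟩ := es.exists_centralizing (hSU.ex w hwU hw1)
        (sup_le (hFU.trans (hSU.le w hwU hw1)) (Subgroup.zpowers_le.2 es.zQ))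
        (Subgroup.mem_sup_right (Subgroup.mem_zpowers w)) (hSU.le w hwU hw1 x.2) hxK
      have haL : a ∈ (⨆ u ∈ ((U : Set G) \ {1}), Q u) := Q_le_LU hwU hw1 ha
      have haN : a ∈ Subgroup.normalizer (U : Set G) := hSU.LU_le_normalizer haL
      have hay : a * (y : G) * a⁻¹ = x := by
        rw [← hwx]
        calc a * (w * x) * a⁻¹ = (a * w * a⁻¹) * (a * x * a⁻¹) := by group
          _ = w * (w * x) := by rw [conj_eq_of_commute (es.zc a ha), hax]
          _ = (w * w) * x := by group
          _ = x := by rw [es.zz, one_mul]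
      have hψ : ∀ u : ↥U, (((φ.trans (conjU U a haN)) u : ↥U) : G) = a * (φ u : ↥U) * a⁻¹ :=
        fun _ => rfl
      have hlt : F < MonoidHom.eqLocus (φ.trans (conjU U a haN)).toMonoidHom (MonoidHom.id ↥U) := by
        apply lt_of_le_of_ne
        · intro u hu
          have h0 : u ∈ MonoidHom.eqLocus φ.toMonoidHom (MonoidHom.id ↥U) := by rw [hφ]; exact hu
          have h1 : φ u = u := h0
          show (φ.trans (conjU U a haN)) u = u
          apply Subtype.ext
          rw [hψ, h1]
          exact conj_eq_of_commute (haK u (Subgroup.mem_sup_left ⟨u, hu, rfl⟩))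
        · intro h
          apply hx
          rw [h]
          show (φ.trans (conjU U a haN)) x = x
          apply Subtype.ext
          rw [hψ, ← hy]
          exact hay
      obtain ⟨g', hg', hg'u⟩ := ih _ hlt (φ.trans (conjU U a haN)) rfl
      refine ⟨a⁻¹ * g', mul_mem (inv_mem haL) hg', fun u => ?_⟩
      calc a⁻¹ * g' * u * (a⁻¹ * g')⁻¹ = a⁻¹ * (g' * u * g'⁻¹) * a := by group
        _ = a⁻¹ * (a * (φ u : ↥U) * a⁻¹) * a := by rw [hg'u, hψ]
        _ = (φ u : ↥U) := by group

/-- Setting: `z` is an involution of the finite group `G`; for each element `x`, `Q x` is the largest normal 2-subgroup of the centralizer of `x`; `Q z` is extraspecial and contains its own centralizer in `G`. A subgroup `U` is singular when it is elementary abelian, every non-identity element of `U` is conjugate to `z`, and any two non-identity elements `u`, `v` of `U` are orthogonal (`v ∈ Q u`). Write `QU` for the intersection of the `Q u` and `LU` for the join of the `Q u` over the non-identity `u` in `U`. If `U` is singular of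 order `2 ^ n` with `n ≥ 2`, then `U ≤ QU ≤ LU`, `LU` normalizes `U`, and `LU` induces on `U` its full automorphism group (the general linear group of dimension `n` over the field with two elements): every automorphism of `U` is conjugation by some element of `LU`. -/
theorem result {G : Type*} [Group G] [Finite G]
    (Q : G → Subgroup G)
    (hQ : ∀ x : G, Q x = (Cfsg.pCore 2 ↥(Subgroup.centralizer ({x} : Set G))).map (Subgroup.centralizer ({x} : Set G)).subtype)
    (z : G) (hz : orderOf z = 2) (hE : Cfsg.IsExtraspecial 2 ↥(Q z))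
    (hC : Subgroup.centralizer ((Q z : Subgroup G) : Set G) ≤ Q z)
    (U : Subgroup G) (hU2 : ∀ u ∈ U, u * u = 1)
    (hS : ∀ u ∈ U, u ≠ 1 → ∃ g : G, g * z * g⁻¹ = u)
    (hO : ∀ u ∈ U, ∀ v ∈ U, u ≠ 1 → v ≠ 1 → v ∈ Q u)
    (QU LU : Subgroup G) (hQU : QU = ⨅ u ∈ ((U : Set G) \ {1}), Q u) (hLU : LU = ⨆ u ∈ ((U : Set G) \ {1}), Q u)
    (n : ℕ) (hn : 2 ≤ n) (hcard : Nat.card ↥U = 2 ^ n) :
    U ≤ QU ∧ QU ≤ LU ∧ LU ≤ Subgroup.normalizer (U : Set G) ∧
      ∀ φ : ↥U ≃* ↥U, ∃ g ∈ LU, ∀ u : ↥U, g * (u : G) * g⁻¹ = ((φ u : ↥U) : G) := by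
  have S := Sing.of Q hQ z hz hE hC
  have hSU := SingU.of S U hU2 hS hO
  subst hQU hLU
  refine ⟨?_, ?_, hSU.LU_le_normalizer, fun φ => aut_induced hSU _ φ rfl⟩
  · intro v hv
    exact mem_QU.2 fun u hu hu1 => hSU.le u hu hu1 hv
  · have hne : U ≠ ⊥ := by
      rintro rfl
      rw [Subgroup.card_bot] at hcard
      have : 2 ^ 2 ≤ 2 ^ n := Nat.pow_le_pow_right (by norm_num) hn
      omega
    obtain ⟨u, hu1⟩ := Subgroup.ne_bot_iff_exists_ne_one.1 hne
    intro x hx
    exact Q_le_LU u.2 (fun h => hu1 (Subtype.ext h)) (mem_QU.1 hx u u.2 (fun h => hu1 (Subtype.ext h)))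

end Cfsg.Agent.S5596
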