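import Cfsg.Statements.S5597
-- import your own Cfsg.Agent.* helpers here
import Cfsg.Agent.Lib.Helper92.Singular2

set_option autoImplicit false
open Cfsg

namespace Cfsg.Agent.S5597

open Cfsg.Agent.Lib.Helper92

/-- Setting: `z` is an involution of the finite group `G`; for each element `x`, `Q x` is the largest normal 2-subgroup of the centralizer of `x`; `Q z` is extraspecial and contains its own centralizer in `G`. A subgroup `U` is singular when it is elementary abelian, every non-identity element of `U` is conjugate to `z`, and any two non-identity elements `u`, `v` of `U` are orthogonal (`v ∈ Q u`). Write `QU` for the intersection of the `Q u` and `LU` for the join of the `Q u` over the non-identity `u` in `U`. If `U` is a non-trivial singular subgroup, then `LU` acts trivially on `QU / U` (every commutator of an element of `LU` with an element of `QU` lies in `U`), and for every `x` in `QU` outside `U` the centralizer of `U` in `LU` permutes the coset `x U` transitively: each `x u` with `u ∈ U`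 is a conjugate of `x` by an element of `LU` centralizing `U`. -/
theorem result {G : Type*} [Group G] [Finite G]
    (Q : G → Subgroup G)
    (hQ : ∀ x : G, Q x = (Cfsg.pCore 2 ↥(Subgroup.centralizer ({x} : Set G))).map (Subgroup.centralizer ({x} : Set G)).subtype)
    (z : G) (hz : orderOf z = 2) (hE : Cfsg.IsExtraspecial 2 ↥(Q z))
    (hC : Subgroup.centralizer ((Q z : Subgroup G) : Set G) ≤ Q z)
    (U : Subgroup G) (hU2 : ∀ u ∈ U, u * u = 1)
    (hS : ∀ u ∈ U, u ≠ 1 → ∃ g : G, g * z * g⁻¹ = u)
    (hO : ∀ u ∈ U, ∀ v ∈ U, u ≠ 1 → v ≠ 1 → v ∈ Q u)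
    (QU LU : Subgroup G) (hQU : QU = ⨅ u ∈ ((U : Set G) \ {1}), Q u) (hLU : LU = ⨆ u ∈ ((U : Set G) \ {1}), Q u)
    (hU : U ≠ ⊥) :
    (∀ g ∈ LU, ∀ x ∈ QU, g * x * g⁻¹ * x⁻¹ ∈ U) ∧
      ∀ x ∈ QU, x ∉ U → ∀ u ∈ U, ∃ g ∈ LU ⊓ Subgroup.centralizer (U : Set G), g * x * g⁻¹ = x * u := by
  have S := Sing.of Q hQ z hz hE hC
  have hSU := SingU.of S U hU2 hS hO
  subst hQU hLU
  constructor
  · intro g hg x hx
    rw [LU_eq_closure] at hg
    refine comm_mem_closure_left ?_ ?_ g hg
    · rintro a ⟨u, hu, hu1, ha⟩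
      exact hSU.LU_le_normalizer (Q_le_LU hu hu1 ha)
    · rintro a ⟨u, hu, hu1, ha⟩
      rcases (hSU.es u hu hu1).comm a ha x (mem_QU.1 hx u hu hu1) with h1 | h1
      · rw [h1]; exact one_mem _
      · rw [h1]; exact hu
  · intro x hx hxU u hu
    by_cases hu1 : u = 1
    · exact ⟨1, one_mem _, by rw [hu1]; group⟩
    · have hxQ := mem_QU.1 hx u hu hu1
      obtain ⟨a, ha, haU, hax⟩ := (hSU.es u hu hu1).exists_centralizing (hSU.ex u hu hu1)
        (hSU.le u hu hu1) hu hxQ hxU
      refine ⟨a, Subgroup.mem_inf.2 ⟨Q_le_LU hu hu1 ha, ?_⟩, ?_⟩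
      · rw [Subgroup.mem_centralizer_iff]
        intro k hk
        exact (haU k hk).symm.eq
      · rw [hax]
        exact ((hSU.es u hu hu1).zc x hxQ).symm.eq

end Cfsg.Agent.S5597
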