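import Cfsg.Statements.S5598
-- import your own Cfsg.Agent.* helpers here
import Cfsg.Agent.Lib.Helper92.Singular2

set_option autoImplicit false
open Cfsg

namespace Cfsg.Agent.S5598

open Cfsg.Agent.Lib.Helper92

/-- Setting: `z` is an involution of the finite group `G`; for each element `x`, `Q x` is the largest normal 2-subgroup of the centralizer of `x`; `Q z` is extraspecial and contains its own centralizer in `G`. A subgroup `U` is singular when it is elementary abelian, every non-identity element of `U` is conjugate to `z`, and any two non-identity elements `u`, `v` of `U` are orthogonal (`v ∈ Q u`). Write `QU` for the intersection of the `Q u` and `LU` for the join of the `Q u` over the non-identity `u` in `U`. If the singular subgroup `U` is generated by a set `T` of non-identity elements, then `QU` is already the intersection of the `Q t` over `t ∈ T`. -/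
theorem result {G : Type*} [Group G] [Finite G]
    (Q : G → Subgroup G)
    (hQ : ∀ x : G, Q x = (Cfsg.pCore 2 ↥(Subgroup.centralizer ({x} : Set G))).map (Subgroup.centralizer ({x} : Set G)).subtype)
    (z : G) (hz : orderOf z = 2) (hE : Cfsg.IsExtraspecial 2 ↥(Q z))
    (hC : Subgroup.centralizer ((Q z : Subgroup G) : Set G) ≤ Q z)
    (U : Subgroup G) (hU2 : ∀ u ∈ U, u * u = 1)
    (hS : ∀ u ∈ U, u ≠ 1 → ∃ g : G, g * z * g⁻¹ = u)
    (hO : ∀ u ∈ U, ∀ v ∈ U, u ≠ 1 → v ≠ 1 → v ∈ Q u)
    (QU LU : Subgroup G) (hQU : QU = ⨅ u ∈ ((U : Set G) \ {1}), Q u) (hLU : LU = ⨆ u ∈ ((U : Set G) \ {1}), Q u)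
    (T : Set G) (hT : Subgroup.closure T = U) (hT1 : (1 : G) ∉ T) :
    QU = ⨅ t ∈ T, Q t := by
  have S := Sing.of Q hQ z hz hE hC
  have hSU := SingU.of S U hU2 hS hO
  subst hQU
  have hTU : ∀ t ∈ T, t ∈ U ∧ t ≠ 1 := by
    intro t ht
    refine ⟨hT ▸ Subgroup.subset_closure ht, ?_⟩
    rintro rfl
    exact hT1 ht
  apply le_antisymm
  · apply le_iInf₂
    intro t ht x hx
    exact (mem_QU.1 hx) t (hTU t ht).1 (hTU t ht).2
  · intro x hx
    simp only [Subgroup.mem_iInf] at hx
    rw [mem_QU]
    have key : ∀ u ∈ Subgroup.closure T, u = 1 ∨ x ∈ Q u := by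
      intro u hu
      induction hu using Subgroup.closure_induction with
      | mem t ht => exact Or.inr (hx t ht)
      | one => exact Or.inl rfl
      | mul u v hu hv ihu ihv =>
        rw [hT] at hu hv
        rcases ihu with rfl | ihu
        · rw [one_mul]; exact ihv
        rcases ihv with rfl | ihv
        · rw [mul_one]; exact Or.inr ihu
        by_cases hu1 : u = 1
        · rw [hu1, one_mul]; exact Or.inr ihv
        by_cases hv1 : v = 1
        · rw [hv1, mul_one]; exact Or.inr ihu
        by_cases huv : u * v = 1
        · exact Or.inl huv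
        right
        have hne : u ≠ v := by
          rintro rfl
          exact huv (hSU.sq u hu)
        obtain ⟨a, ha, hau⟩ := (hSU.es v hv hv1).exists_q (hSU.le v hv hv1 hu) hu1 hne
        have h1 : a * x * a⁻¹ ∈ Q (u * v) := by
          rw [hSU.comm hu hv, ← hau, S.conj]
          exact conj_mem_map_conj ihu
        have hvQ : v ∈ Q (u * v) := hSU.le _ (U.mul_mem hu hv) huv hv
        rcases (hSU.es v hv hv1).conj_cases ha ihv with h2 | h2
        · rwa [h2] at h1
        · rw [h2] at h1
          have := (Q (u * v)).mul_mem ((Q (u * v)).inv_mem hvQ) h1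
          rwa [inv_mul_cancel_left] at this
      | inv u hu ihu =>
        rw [hT] at hu
        rw [hSU.inv hu]; exact ihu
    intro u hu hu1
    exact (key u (hT ▸ hu)).resolve_left hu1

end Cfsg.Agent.S5598
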