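import Cfsg.Statements.S5738
-- import your own Cfsg.Agent.* helpers here

set_option autoImplicit false
open Cfsg

namespace Cfsg.Agent.S5738

section aux

variable (F K : Type*) [Field F] [Field K] [Algebra F K]

/-- the Singer group -/
abbrev singer : Subgroup (Module.End F K)ˣ :=
  (Units.map ((Algebra.lmul F K : K →ₐ[F] Module.End F K) : K →* Module.End F K)).range

/-- multiplication by a unit -/
abbrev mulU (a : Kˣ) : (Module.End F K)ˣ :=
  Units.map ((Algebra.lmul F K : K →ₐ[F] Module.End F K) : K →* Module.End F K) a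

variable {F K}

lemma mulU_apply (a : Kˣ) (x : K) : ((mulU F K a : (Module.End F K)ˣ) : Module.End F K) x = a * x := by
  simp [mulU]

lemma mulU_inv_apply (a : Kˣ) (x : K) :
    (((mulU F K a)⁻¹ : (Module.End F K)ˣ) : Module.End F K) x = (a : K)⁻¹ * x := by
  rw [← map_inv, mulU_apply]
  simp

/-- an automorphism as a unit of the endomorphism ring -/
def autU (σ : K ≃ₐ[F] K) : (Module.End F K)ˣ :=
  ⟨σ.toLinearMap, σ.symm.toLinearMap, by ext; simp, by ext; simp⟩

lemma autU_apply (σ : K ≃ₐ[F] K) (x : K) : ((autU σ : (Module.End F K)ˣ) : Module.End F K) x = σ x := rfl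

lemma autU_inv_apply (σ : K ≃ₐ[F] K) (x : K) :
    (((autU σ)⁻¹ : (Module.End F K)ˣ) : Module.End F K) x = σ.symm x := rfl

lemma autU_conj (σ : K ≃ₐ[F] K) (b : Kˣ) :
    autU σ * mulU F K b * (autU σ)⁻¹ = mulU F K (Units.map (σ : K →* K) b) := by
  apply Units.ext
  apply LinearMap.ext
  intro x
  rw [Units.val_mul, Units.val_mul, Module.End.mul_apply, Module.End.mul_apply, autU_inv_apply, mulU_apply,
    autU_apply, mulU_apply]
  simp

lemma autU_conj' (σ : K ≃ₐ[F] K) (b : Kˣ) :
    (autU σ)⁻¹ * mulU F K b * (autU σ) = mulU F K (Units.map (σ.symm : K →* K) b) := by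
  apply Units.ext
  apply LinearMap.ext
  intro x
  rw [Units.val_mul, Units.val_mul, Module.End.mul_apply, Module.End.mul_apply, autU_inv_apply, mulU_apply,
    autU_apply, mulU_apply]
  simp

lemma autU_mem_normalizer (σ : K ≃ₐ[F] K) :
    autU σ ∈ Subgroup.normalizer ((singer F K : Subgroup (Module.End F K)ˣ) : Set (Module.End F K)ˣ) := by
  rw [Subgroup.mem_normalizer_iff]
  intro h
  constructor
  · rintro ⟨b, rfl⟩
    exact ⟨_, (autU_conj σ b).symm⟩
  · rintro ⟨c, hc⟩
    refine ⟨Units.map (σ.symm : K →* K) c, ?_⟩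
    have h1 := autU_conj' σ c
    change mulU F K _ = h
    rw [← h1]
    change mulU F K c = _ at hc
    rw [hc]
    group

lemma mulU_mem_normalizer (a : Kˣ) :
    mulU F K a ∈ Subgroup.normalizer ((singer F K : Subgroup (Module.End F K)ˣ) : Set (Module.End F K)ˣ) :=
  Subgroup.le_normalizer ⟨a, rfl⟩

/-- an element of the normaliser fixing `1` is an automorphism -/
lemma exists_aut_of_mem_normalizer (g : (Module.End F K)ˣ)
    (hg : g ∈ Subgroup.normalizer ((singer F K : Subgroup (Module.End F K)ˣ) : Set (Module.End F K)ˣ))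
    (h1 : (g : Module.End F K) 1 = 1) : ∃ σ : K ≃ₐ[F] K, autU σ = g := by
  have hinv1 : ((g⁻¹ : (Module.End F K)ˣ) : Module.End F K) 1 = 1 := by
    have : ((g⁻¹ * g : (Module.End F K)ˣ) : Module.End F K) 1 = 1 := by simp
    rw [Units.val_mul, Module.End.mul_apply, h1] at this
    exact this
  have hgg : ∀ x, (g : Module.End F K) (((g⁻¹ : (Module.End F K)ˣ) : Module.End F K) x) = x := by
    intro x
    have : ((g * g⁻¹ : (Module.End F K)ˣ) : Module.End F K) x = x := by simp
    rwa [Units.val_mul, Module.End.mul_apply] at this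
  have hgg' : ∀ x, ((g⁻¹ : (Module.End F K)ˣ) : Module.End F K) ((g : Module.End F K) x) = x := by
    intro x
    have : ((g⁻¹ * g : (Module.End F K)ˣ) : Module.End F K) x = x := by simp
    rwa [Units.val_mul, Module.End.mul_apply] at this
  have hmulU : ∀ (b : Kˣ) (x : K), (g : Module.End F K) (b * x) = (g : Module.End F K) b * (g : Module.End F K) x := by
    intro b x
    rw [Subgroup.mem_normalizer_iff] at hg
    obtain ⟨c, hc⟩ := (hg (mulU F K b)).mp ⟨b, rfl⟩
    change mulU F K c = _ at hc
    have e : ∀ y, (c : K) * y = (g : Module.End F K) (b * ((g⁻¹ : (Module.End F K)ˣ) : Module.End F K) y) := by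
      intro y
      rw [← mulU_apply (F := F), hc, Units.val_mul, Units.val_mul, Module.End.mul_apply, Module.End.mul_apply,
        mulU_apply]
    have e1 := e 1
    rw [hinv1, mul_one, mul_one] at e1
    have e2 := e ((g : Module.End F K) x)
    rw [hgg', e1] at e2
    exact e2.symm
  have hmul : ∀ (b x : K), (g : Module.End F K) (b * x) = (g : Module.End F K) b * (g : Module.End F K) x := by
    intro b x
    by_cases hb : b = 0
    · subst hb; simp
    · exact hmulU (Units.mk0 b hb) x
  let σ : K ≃ₐ[F] K := AlgEquiv.ofLinearEquiv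
    (LinearEquiv.ofLinearMap (g : Module.End F K) ((g⁻¹ : (Module.End F K)ˣ) : Module.End F K)
      (LinearMap.ext hgg) (LinearMap.ext hgg')) h1 hmul
  refine ⟨σ, ?_⟩
  apply Units.ext
  apply LinearMap.ext
  intro x
  rfl

end aux

/-- Let F ⊆ K be finite fields with |F| = q and [K : F] = n ≥ 2, so |K| = q^n. Regard K as an n-dimensional F-vector space; the multiplications by non-zero elements of K form a cyclic subgroup of GL_F(K) of order q^n − 1 acting regularly on the non-zero vectors (a Singer group). Its normaliser in GL_F(K) has order n·(q^n − 1). -/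
theorem result {F K : Type*} [Field F] [Fintype F] [Field K] [Fintype K] [Algebra F K] (n : ℕ) (hn : 2 ≤ n) (hdim : Module.finrank F K = n) :
    Nat.card (Subgroup.normalizer (((Units.map ((Algebra.lmul F K : K →ₐ[F] Module.End F K) : K →* Module.End F K)).range : Subgroup (Module.End F K)ˣ) : Set (Module.End F K)ˣ)) = n * (Fintype.card K - 1) := by
  classical
  let f : Kˣ × (K ≃ₐ[F] K) → Subgroup.normalizer ((singer F K : Subgroup (Module.End F K)ˣ) : Set (Module.End F K)ˣ) :=
    fun x => ⟨mulU F K x.1 * autU x.2, mul_mem (mulU_mem_normalizer x.1) (autU_mem_normalizer x.2)⟩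
  have hinj : Function.Injective f := by
    rintro ⟨a, σ⟩ ⟨b, τ⟩ h
    have h' : mulU F K a * autU σ = mulU F K b * autU τ := congrArg Subtype.val h
    have e : ∀ x, (a : K) * σ x = b * τ x := by
      intro x
      have := congrArg (fun u : (Module.End F K)ˣ => (u : Module.End F K) x) h'
      simp only [Units.val_mul, Module.End.mul_apply, autU_apply] at this
      rw [mulU_apply, mulU_apply] at this
      exact this
    have e1 := e 1
    simp only [map_one, mul_one] at e1
    have hab : a = b := Units.ext e1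
    subst hab
    have hστ : σ = τ := by
      ext x
      exact mul_left_cancel₀ a.ne_zero (e x)
    rw [hστ]
  have hsurj : Function.Surjective f := by
    rintro ⟨g, hg⟩
    have hg1 : (g : Module.End F K) 1 ≠ 0 := by
      intro h0
      have : ((g⁻¹ * g : (Module.End F K)ˣ) : Module.End F K) 1 = 1 := by simp
      rw [Units.val_mul, Module.End.mul_apply, h0, map_zero] at this
      exact zero_ne_one this
    let a : Kˣ := Units.mk0 _ hg1
    have hmem : (mulU F K a)⁻¹ * g ∈ Subgroup.normalizer ((singer F K : Subgroup (Module.End F K)ˣ) : Set (Module.End F K)ˣ) :=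
      mul_mem (inv_mem (mulU_mem_normalizer a)) hg
    have h1 : (((mulU F K a)⁻¹ * g : (Module.End F K)ˣ) : Module.End F K) 1 = 1 := by
      rw [Units.val_mul, Module.End.mul_apply, mulU_inv_apply]
      exact inv_mul_cancel₀ hg1
    obtain ⟨σ, hσ⟩ := exists_aut_of_mem_normalizer _ hmem h1
    refine ⟨(a, σ), ?_⟩
    apply Subtype.ext
    change mulU F K a * autU σ = g
    rw [hσ]
    group
  have hcard := Nat.card_congr (Equiv.ofBijective f ⟨hinj, hsurj⟩)
  change Nat.card (Subgroup.normalizer ((singer F K : Subgroup (Module.End F K)ˣ) : Set (Module.End F K)ˣ)) = _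
  rw [← hcard, Nat.card_prod, Nat.card_units, IsGalois.card_aut_eq_finrank, hdim, Nat.card_eq_fintype_card, mul_comm]

end Cfsg.Agent.S5738
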