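import Cfsg.Statements.S5739
import Cfsg.Agent.S5738

set_option autoImplicit false
open Cfsg

namespace Cfsg.Agent.S5739

section aux

open Cfsg.Agent.S5738

variable {F K : Type*} [Field F] [Field K] [Algebra F K]

/-- the elements of `K` whose multiplication is a `g`-conjugate of a multiplication -/
def conjField (g : (Module.End F K)ˣ) : IntermediateField F K where
  carrier := {a : K | ∃ b : K, ∀ x, a * (g : Module.End F K) x = (g : Module.End F K) (b * x)}
  mul_mem' := by
    rintro a a' ⟨b, hb⟩ ⟨b', hb'⟩
    refine ⟨b * b', fun x => ?_⟩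
    rw [mul_assoc, hb', hb, mul_assoc]
  add_mem' := by
    rintro a a' ⟨b, hb⟩ ⟨b', hb'⟩
    refine ⟨b + b', fun x => ?_⟩
    rw [add_mul, add_mul, map_add, hb, hb']
  algebraMap_mem' := by
    intro c
    refine ⟨algebraMap F K c, fun x => ?_⟩
    rw [← Algebra.smul_def, ← Algebra.smul_def, map_smul]
  inv_mem' := by
    rintro a ⟨b, hb⟩
    by_cases ha : a = 0
    · subst ha
      exact ⟨0, fun x => by simp⟩
    · have hb0 : b ≠ 0 := by
        rintro rfl
        have h1 := hb (((g⁻¹ : (Module.End F K)ˣ) : Module.End F K) 1)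
        have h2 : ((g * g⁻¹ : (Module.End F K)ˣ) : Module.End F K) 1 = 1 := by simp
        rw [Units.val_mul, Module.End.mul_apply] at h2
        rw [h2] at h1
        simp at h1
        exact ha h1
      refine ⟨b⁻¹, fun x => ?_⟩
      have h1 := hb (b⁻¹ * x)
      rw [mul_inv_cancel_left₀ hb0] at h1
      rw [← h1, inv_mul_cancel_left₀ ha]

lemma mem_conjField (g : (Module.End F K)ˣ) (a : K) :
    a ∈ conjField g ↔ ∃ b : K, ∀ x, a * (g : Module.End F K) x = (g : Module.End F K) (b * x) := Iff.rfl

lemma mem_conjField_of_conj (g : (Module.End F K)ˣ) (a b : Kˣ) (h : mulU F K a = g * mulU F K b * g⁻¹) :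
    (a : K) ∈ conjField g := by
  refine ⟨b, fun x => ?_⟩
  have h1 : mulU F K a * g = g * mulU F K b := by rw [h]; group
  have h2 := congrArg (fun u : (Module.End F K)ˣ => (u : Module.End F K) x) h1
  simp only [Units.val_mul, Module.End.mul_apply] at h2
  rw [mulU_apply, mulU_apply] at h2
  exact h2

lemma conj_of_mem_conjField (g : (Module.End F K)ˣ) (a : Kˣ) (h : (a : K) ∈ conjField g) :
    ∃ b : Kˣ, mulU F K a = g * mulU F K b * g⁻¹ := by
  obtain ⟨b, hb⟩ := h
  have hb0 : b ≠ 0 := by
    rintro rfl
    have h1 := hb (((g⁻¹ : (Module.End F K)ˣ) : Module.End F K) 1)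
    have h2 : ((g * g⁻¹ : (Module.End F K)ˣ) : Module.End F K) 1 = 1 := by simp
    rw [Units.val_mul, Module.End.mul_apply] at h2
    rw [h2] at h1
    simp at h1
  refine ⟨Units.mk0 b hb0, ?_⟩
  have h1 : mulU F K a * g = g * mulU F K (Units.mk0 b hb0) := by
    apply Units.ext
    apply LinearMap.ext
    intro x
    rw [Units.val_mul, Units.val_mul, Module.End.mul_apply, Module.End.mul_apply, mulU_apply, mulU_apply]
    exact hb x
  rw [← h1]
  group

/-- multiplications by units of an intermediate field -/
def subMul (L : IntermediateField F K) : (L)ˣ →* (Module.End F K)ˣ :=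
  (Units.map ((Algebra.lmul F K : K →ₐ[F] Module.End F K) : K →* Module.End F K)).comp
    (Units.map ((algebraMap L K : L →+* K) : L →* K))

lemma subMul_injective (L : IntermediateField F K) : Function.Injective (subMul L) := by
  intro a b h
  have h2 := congrArg (fun u : (Module.End F K)ˣ => (u : Module.End F K) 1) h
  simp only [subMul, MonoidHom.comp_apply] at h2
  rw [mulU_apply, mulU_apply] at h2
  simp only [mul_one, Units.coe_map, MonoidHom.coe_coe] at h2
  apply Units.ext
  exact (algebraMap L K).injective h2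

end aux

/-- Let F ⊆ K be finite fields with |F| = q and [K : F] = n ≥ 2, and let M ≤ GL_F(K) be the Singer group of multiplications by non-zero elements of K. If g ∈ GL_F(K) does not normalise M, then the order of M ∩ gMg⁻¹ divides q^r − 1 for some proper divisor r of n. In particular, when n is prime, that order divides q − 1. -/
theorem result {F K : Type*} [Field F] [Fintype F] [Field K] [Fintype K] [Algebra F K] (n : ℕ) (hn : 2 ≤ n) (hdim : Module.finrank F K = n)
    (g : (Module.End F K)ˣ) (hg : ((Units.map ((Algebra.lmul F K : K →ₐ[F] Module.End F K) : K →* Module.End F K)).range).map (MulAut.conj g).toMonoidHom ≠ (Units.map ((Algebra.lmul F K : K →ₐ[F] Module.End F K) : K →* Module.End F K)).range) :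
    ∃ r : ℕ, 1 ≤ r ∧ r ∣ n ∧ r < n ∧ Nat.card ↥(((Units.map ((Algebra.lmul F K : K →ₐ[F] Module.End F K) : K →* Module.End F K)).range).map (MulAut.conj g).toMonoidHom ⊓ (Units.map ((Algebra.lmul F K : K →ₐ[F] Module.End F K) : K →* Module.End F K)).range) ∣ Fintype.card F ^ r - 1 := by
  classical
  change ((Cfsg.Agent.S5738.singer F K).map (MulAut.conj g).toMonoidHom ≠ Cfsg.Agent.S5738.singer F K) at hg
  change ∃ r : ℕ, 1 ≤ r ∧ r ∣ n ∧ r < n ∧
    Nat.card ↥((Cfsg.Agent.S5738.singer F K).map (MulAut.conj g).toMonoidHom ⊓ Cfsg.Agent.S5738.singer F K) ∣ Fintype.card F ^ r - 1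
  have : Module.Finite F K := Module.Finite.of_finite
  have : Finite (Module.End F K) := Finite.of_injective (fun f => (f : K → K)) DFunLike.coe_injective
  set L := conjField g with hL
  have hr1 : 1 ≤ Module.finrank F L := Module.finrank_pos
  have hrn : Module.finrank F L ∣ n := by
    rw [← hdim, ← Module.finrank_mul_finrank F L K]
    exact dvd_mul_right _ _
  refine ⟨Module.finrank F L, hr1, hrn, ?_, ?_⟩
  · have hle : Module.finrank F L ≤ n := Nat.le_of_dvd (by omega) hrn
    rcases hle.eq_or_lt with heq | hlt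
    · exfalso
      have htop : L = ⊤ := by
        apply IntermediateField.eq_of_le_of_finrank_eq le_top
        rw [heq, IntermediateField.finrank_top', hdim]
      apply hg
      symm
      apply Subgroup.eq_of_le_of_card_ge
      · rintro _ ⟨a, rfl⟩
        have ha : (a : K) ∈ L := by rw [htop]; trivial
        obtain ⟨b, hb⟩ := conj_of_mem_conjField g a ha
        exact ⟨Cfsg.Agent.S5738.mulU F K b, ⟨b, rfl⟩, hb.symm⟩
      · rw [Subgroup.card_map_of_injective (MulAut.conj g).injective]
    · exact hlt
  · have h1 : (Cfsg.Agent.S5738.singer F K).map (MulAut.conj g).toMonoidHom ⊓ Cfsg.Agent.S5738.singer F K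
        ≤ (subMul L).range := by
      rintro d ⟨⟨_, ⟨b, rfl⟩, hd1⟩, ⟨a, hd2⟩⟩
      have hab : Cfsg.Agent.S5738.mulU F K a = g * Cfsg.Agent.S5738.mulU F K b * g⁻¹ := hd2.trans hd1.symm
      have ha := mem_conjField_of_conj g a b hab
      refine ⟨Units.mk0 (⟨(a : K), ha⟩ : L) ?_, ?_⟩
      · intro h0
        exact a.ne_zero (congrArg Subtype.val h0)
      · rw [← hd2]
        apply Units.ext
        rfl
    have h2 := Subgroup.card_dvd_of_le h1
    have h3 : Nat.card (subMul L).range = Fintype.card F ^ Module.finrank F L - 1 := by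
      rw [← Nat.card_congr (MonoidHom.ofInjective (subMul_injective L)).toEquiv, Nat.card_units,
        Nat.card_eq_fintype_card, Module.card_eq_pow_finrank (K := F) (V := L)]
    rw [h3] at h2
    exact h2

end Cfsg.Agent.S5739
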