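import Cfsg.Statements.S5747
-- import your own Cfsg.Agent.* helpers here

set_option autoImplicit false
open Cfsg

namespace Cfsg.Agent.S5747

section aux

variable (G : Type*) {Ω : Type*} [Group G] [MulAction G Ω]

def IsBase {t : ℕ} (f : Fin t → Ω) : Prop := ∀ g : G, (∀ i : Fin t, g • f i = f i) → g = 1

def Irr {t : ℕ} (f : Fin t → Ω) : Prop :=
  ∀ i : Fin t, ∃ g : G, (∀ j : Fin t, j < i → g • f j = f j) ∧ g • f i ≠ f i

def IB {t : ℕ} (f : Fin t → Ω) : Prop := IsBase G f ∧ Irr G f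

lemma prune : ∀ (t : ℕ) (h : Fin t → Ω), IsBase G h →
    ∃ (t' : ℕ) (h' : Fin t' → Ω), t' ≤ t ∧ IB G h' ∧ (t' = t → Irr G h) := by
  intro t
  induction t with
  | zero =>
    intro h hb
    exact ⟨0, h, le_rfl, ⟨hb, fun i => i.elim0⟩, fun _ i => i.elim0⟩
  | succ t ih =>
    intro h hb
    by_cases hi : Irr G h
    · exact ⟨t + 1, h, le_rfl, ⟨hb, hi⟩, fun _ => hi⟩
    · unfold Irr at hi
      push Not at hi
      obtain ⟨i, hi⟩ := hi
      have hb' : IsBase G (h ∘ i.succAbove) := by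
        intro g hg
        apply hb
        have hne : ∀ j, j ≠ i → g • h j = h j := by
          intro j hj
          obtain ⟨k, rfl⟩ := Fin.exists_succAbove_eq hj
          exact hg k
        intro j
        by_cases hj : j = i
        · subst hj
          exact hi g (fun k hk => hne k hk.ne)
        · exact hne j hj
      obtain ⟨t', h', hle, hIB, _⟩ := ih _ hb'
      exact ⟨t', h', by omega, hIB, fun he => by omega⟩

def FBase (S : Finset Ω) : Prop := ∀ g : G, (∀ x ∈ S, g • x = x) → g = 1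

def MinBase [DecidableEq Ω] (S : Finset Ω) : Prop := FBase G S ∧ ∀ x ∈ S, ¬ FBase G (S.erase x)

variable (Ω) in
def Reord : Prop := ∀ (t : ℕ) (f : Fin t → Ω) (σ : Equiv.Perm (Fin t)), IB G f → IB G (f ∘ σ)

variable {G}

lemma Irr.injective {t : ℕ} {f : Fin t → Ω} (h : Irr G f) : Function.Injective f := by
  intro i j hij
  by_contra hne
  rcases lt_or_gt_of_ne hne with hlt | hlt
  · obtain ⟨g, hg1, hg2⟩ := h j
    exact hg2 (hij ▸ hg1 i hlt)
  · obtain ⟨g, hg1, hg2⟩ := h i
    exact hg2 (hij ▸ hg1 j hlt)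

lemma Reord.moves (hR : Reord G Ω) {t : ℕ} {f : Fin t → Ω} (h : IB G f) (i : Fin t) :
    ∃ g : G, (∀ k, k ≠ i → g • f k = f k) ∧ g • f i ≠ f i := by
  cases t with
  | zero => exact i.elim0
  | succ t =>
    have h' := hR _ f (Equiv.swap i (Fin.last t)) h
    obtain ⟨g, hg1, hg2⟩ := h'.2 (Fin.last t)
    simp only [Function.comp, Equiv.swap_apply_right] at hg2
    refine ⟨g, ?_, hg2⟩
    intro k hk
    have h3 : Equiv.swap i (Fin.last t) k < Fin.last t := by
      apply lt_of_le_of_ne (Fin.le_last _)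
      intro he
      apply hk
      have := congrArg (Equiv.swap i (Fin.last t)) he
      simpa using this
    have := hg1 (Equiv.swap i (Fin.last t) k) h3
    simpa using this

lemma Reord.minBase [DecidableEq Ω] (hR : Reord G Ω) {t : ℕ} {f : Fin t → Ω} (h : IB G f)
    (T : Finset Ω) (hT : ∀ x, x ∈ T ↔ ∃ i, f i = x) : MinBase G T := by
  constructor
  · intro g hg
    exact h.1 g (fun i => hg _ ((hT _).mpr ⟨i, rfl⟩))
  · intro x hx hb
    obtain ⟨i, rfl⟩ := (hT x).mp hx
    obtain ⟨g, hg1, hg2⟩ := hR.moves h i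
    have : g = 1 := hb g (by
      intro y hy
      obtain ⟨hy1, hy2⟩ := Finset.mem_erase.mp hy
      obtain ⟨k, rfl⟩ := (hT y).mp hy2
      exact hg1 k (fun hk => hy1 (hk ▸ rfl)))
    subst this
    exact hg2 (one_smul _ _)

lemma Irr.snoc {t : ℕ} {f : Fin t → Ω} (h : Irr G f) (x : Ω)
    (hx : ∃ g : G, (∀ j, g • f j = f j) ∧ g • x ≠ x) :
    Irr G (@Fin.snoc t (fun _ => Ω) f x) := by
  intro i
  refine Fin.lastCases ?_ (fun i' => ?_) i
  · obtain ⟨g, hg1, hg2⟩ := hx
    refine ⟨g, ?_, by simpa using hg2⟩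
    intro j hj
    obtain ⟨j', rfl⟩ : ∃ j', j = Fin.castSucc j' := ⟨j.castPred hj.ne, by simp⟩
    simpa using hg1 j'
  · obtain ⟨g, hg1, hg2⟩ := h i'
    refine ⟨g, ?_, by simpa using hg2⟩
    intro j hj
    have hjl : j ≠ Fin.last t := (lt_of_lt_of_le hj (Fin.le_last _)).ne
    obtain ⟨j', rfl⟩ : ∃ j', j = Fin.castSucc j' := ⟨j.castPred hjl, by simp⟩
    simpa using hg1 j' (by simpa using hj)

lemma snoc_range {t : ℕ} (f : Fin t → Ω) (x y : Ω) :
    (∃ i, @Fin.snoc t (fun _ => Ω) f x i = y) ↔ (y = x ∨ ∃ i, f i = y) := by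
  constructor
  · rintro ⟨i, hi⟩
    revert hi
    refine Fin.lastCases ?_ (fun i' => ?_) i
    · intro hi
      left
      simpa using hi.symm
    · intro hi
      right
      exact ⟨i', by simpa using hi⟩
  · rintro (rfl | ⟨i, rfl⟩)
    · exact ⟨Fin.last t, by simp⟩
    · exact ⟨Fin.castSucc i, by simp⟩

/-- an enumeration of a finset -/
noncomputable def enum (S : Finset Ω) : Fin S.card → Ω := fun i => ((S.equivFin.symm i : S) : Ω)

lemma enum_range (S : Finset Ω) (x : Ω) : (∃ i, enum S i = x) ↔ x ∈ S := by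
  constructor
  · rintro ⟨i, rfl⟩
    exact (S.equivFin.symm i).2
  · intro hx
    exact ⟨S.equivFin ⟨x, hx⟩, by simp [enum]⟩

lemma enum_injective (S : Finset Ω) : Function.Injective (enum S) := by
  intro i j h
  exact S.equivFin.symm.injective (Subtype.ext h)

lemma enum_irr [DecidableEq Ω] (S : Finset Ω)
    (hS : ∀ x ∈ S, ∃ g : G, (∀ y ∈ S.erase x, g • y = y) ∧ g • x ≠ x) : Irr G (enum S) := by
  intro i
  obtain ⟨g, hg1, hg2⟩ := hS (enum S i) ((enum_range S _).mp ⟨i, rfl⟩)
  refine ⟨g, fun j hj => hg1 _ ?_, hg2⟩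
  rw [Finset.mem_erase]
  exact ⟨fun h => hj.ne (enum_injective S h), (enum_range S _).mp ⟨j, rfl⟩⟩

lemma MinBase.moves [DecidableEq Ω] {A : Finset Ω} (hA : MinBase G A) {x : Ω} (hx : x ∈ A) :
    ∃ g : G, (∀ y ∈ A.erase x, g • y = y) ∧ g • x ≠ x := by
  have h := hA.2 x hx
  unfold FBase at h
  push Not at h
  obtain ⟨g, hg1, hg2⟩ := h
  refine ⟨g, hg1, fun hgx => hg2 (hA.1 g ?_)⟩
  intro y hy
  by_cases hyx : y = x
  · subst hyx; exact hgx
  · exact hg1 y (Finset.mem_erase.mpr ⟨hyx, hy⟩)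

lemma exchange [DecidableEq Ω] (hR : Reord G Ω) {A : Finset Ω} (hA : MinBase G A) {a : Ω} (ha : a ∈ A) {b : Ω}
    (hb : ∃ g : G, (∀ x ∈ A.erase a, g • x = x) ∧ g • b ≠ b) : MinBase G (insert b (A.erase a)) := by
  have hE : Irr G (enum (A.erase a)) := by
    apply enum_irr
    intro x hx
    obtain ⟨g, hg1, hg2⟩ := hA.moves (Finset.mem_of_mem_erase hx)
    refine ⟨g, fun y hy => hg1 y ?_, hg2⟩
    obtain ⟨h1, h2⟩ := Finset.mem_erase.mp hy
    exact Finset.mem_erase.mpr ⟨h1, Finset.mem_of_mem_erase h2⟩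
  have hEb : Irr G (@Fin.snoc _ (fun _ => Ω) (enum (A.erase a)) b) := by
    apply hE.snoc
    obtain ⟨g, hg1, hg2⟩ := hb
    exact ⟨g, fun j => hg1 _ ((enum_range _ _).mp ⟨j, rfl⟩), hg2⟩
  have hrange : ∀ x, x ∈ insert b (A.erase a) ↔ ∃ i, @Fin.snoc _ (fun _ => Ω) (enum (A.erase a)) b i = x := by
    intro x
    rw [snoc_range, enum_range, Finset.mem_insert]
  have hbase : FBase G (insert b (A.erase a)) := by
    by_contra hcon
    unfold FBase at hcon
    push Not at hcon
    obtain ⟨g, hg1, hg2⟩ := hcon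
    have hEba : Irr G (@Fin.snoc _ (fun _ => Ω) (@Fin.snoc _ (fun _ => Ω) (enum (A.erase a)) b) a) := by
      apply hEb.snoc
      refine ⟨g, fun j => hg1 _ ((hrange _).mpr ⟨j, rfl⟩), fun hga => hg2 (hA.1 g ?_)⟩
      intro y hy
      by_cases hya : y = a
      · subst hya; exact hga
      · exact hg1 y (Finset.mem_insert_of_mem (Finset.mem_erase.mpr ⟨hya, hy⟩))
    have hmemA : ∀ y ∈ A, ∃ i, @Fin.snoc _ (fun _ => Ω) (@Fin.snoc _ (fun _ => Ω) (enum (A.erase a)) b) a i = y
        ∧ i ≠ Fin.castSucc (Fin.last _) := by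
      intro y hy
      by_cases hya : y = a
      · subst hya
        exact ⟨Fin.last _, by simp, (Fin.castSucc_lt_last _).ne'⟩
      · obtain ⟨i, hi⟩ := (enum_range (A.erase a) y).mpr (Finset.mem_erase.mpr ⟨hya, hy⟩)
        refine ⟨Fin.castSucc (Fin.castSucc i), by simpa using hi, ?_⟩
        intro h
        have := Fin.castSucc_injective _ h
        exact (Fin.castSucc_lt_last i).ne this
    have hIB : IB G (@Fin.snoc _ (fun _ => Ω) (@Fin.snoc _ (fun _ => Ω) (enum (A.erase a)) b) a) := by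
      refine ⟨?_, hEba⟩
      intro g' hg'
      apply hA.1
      intro y hy
      obtain ⟨i, hi, _⟩ := hmemA y hy
      rw [← hi]
      exact hg' i
    obtain ⟨g', hg'1, hg'2⟩ := hR.moves hIB (Fin.castSucc (Fin.last _))
    have : g' = 1 := by
      apply hA.1
      intro y hy
      obtain ⟨i, hi, hne⟩ := hmemA y hy
      rw [← hi]
      exact hg'1 i hne
    subst this
    exact hg'2 (one_smul _ _)
  have hIB : IB G (@Fin.snoc _ (fun _ => Ω) (enum (A.erase a)) b) := by
    refine ⟨?_, hEb⟩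
    intro g hg
    apply hbase
    intro x hx
    obtain ⟨i, rfl⟩ := (hrange x).mp hx
    exact hg i
  exact hR.minBase hIB _ hrange

lemma card_eq_of_minBase [DecidableEq Ω] (hR : Reord G Ω) :
    ∀ (k : ℕ) (A B : Finset Ω), MinBase G A → MinBase G B → (A \ B).card = k → A.card = B.card := by
  intro k
  induction k with
  | zero =>
    intro A B hA hB hk
    have hsub : A ⊆ B := by
      rw [Finset.card_eq_zero, Finset.sdiff_eq_empty_iff_subset] at hk
      exact hk
    have : A = B := by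
      apply Finset.Subset.antisymm hsub
      intro x hx
      by_contra hxA
      apply hB.2 x hx
      intro g hg
      apply hA.1
      intro y hy
      exact hg y (Finset.mem_erase.mpr ⟨fun h => hxA (h ▸ hy), hsub hy⟩)
    rw [this]
  | succ k ih =>
    intro A B hA hB hk
    have hne : (A \ B).Nonempty := by
      rw [← Finset.card_pos]; omega
    obtain ⟨a, ha⟩ := hne
    obtain ⟨haA, haB⟩ := Finset.mem_sdiff.mp ha
    obtain ⟨g, hg1, hg2⟩ := hA.moves haA
    have hg_ne : g ≠ 1 := by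
      rintro rfl
      exact hg2 (one_smul _ _)
    have : ∃ b ∈ B, g • b ≠ b := by
      by_contra hcon
      push Not at hcon
      exact hg_ne (hB.1 g hcon)
    obtain ⟨b, hbB, hgb⟩ := this
    have hA' := exchange hR hA haA ⟨g, hg1, hgb⟩
    have hb_notin : b ∉ A.erase a := fun h => hgb (hg1 b h)
    have hcard : (insert b (A.erase a)).card = A.card := by
      rw [Finset.card_insert_of_notMem hb_notin, Finset.card_erase_of_mem haA]
      have : 0 < A.card := Finset.card_pos.mpr ⟨a, haA⟩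
      omega
    have hsd : (insert b (A.erase a)) \ B = (A \ B).erase a := by
      ext x
      simp only [Finset.mem_sdiff, Finset.mem_insert, Finset.mem_erase]
      constructor
      · rintro ⟨rfl | ⟨h1, h2⟩, h3⟩
        · exact absurd hbB h3
        · exact ⟨h1, h2, h3⟩
      · rintro ⟨h1, h2, h3⟩
        exact ⟨Or.inr ⟨h1, h2⟩, h3⟩
    have hk' : ((insert b (A.erase a)) \ B).card = k := by
      rw [hsd, Finset.card_erase_of_mem ha, hk]
      rfl
    rw [← hcard]
    exact ih _ B hA' hB hk'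

end aux

/-- Let a finite group G act on a finite set Ω. An irredundant base is a sequence of points ω₁, …, ω_t whose pointwise stabiliser is trivial and in which each ω_i is moved by some element fixing ω₁, …, ω_{i−1}. Then all irredundant bases have the same length if and only if every reordering of an irredundant base is again an irredundant base. -/
theorem result {G Ω : Type*} [Group G] [Finite G] [MulAction G Ω] [Fintype Ω] :
    (∀ (t t' : ℕ) (f : Fin t → Ω) (f' : Fin t' → Ω), ((∀ g : G, (∀ i : Fin t, g • f i = f i) → g = 1) ∧ ∀ i : Fin t, ∃ g : G, (∀ j : Fin t, j < i → g • f j = f j) ∧ g • f i ≠ f i) → ((∀ g : G, (∀ i : Fin t', g • f' i = f' i) → g = 1) ∧ ∀ i : Fin t', ∃ g : G, (∀ j : Fin t', j < i → g • f' j = f' j) ∧ g • f' i ≠ f' i) → t = t') ↔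
    (∀ (t : ℕ) (f : Fin t → Ω) (σ : Equiv.Perm (Fin t)), ((∀ g : G, (∀ i : Fin t, g • f i = f i) → g = 1) ∧ ∀ i : Fin t, ∃ g : G, (∀ j : Fin t, j < i → g • f j = f j) ∧ g • f i ≠ f i) → ((∀ g : G, (∀ i : Fin t, g • (f ∘ σ) i = (f ∘ σ) i) → g = 1) ∧ ∀ i : Fin t, ∃ g : G, (∀ j : Fin t, j < i → g • (f ∘ σ) j = (f ∘ σ) j) ∧ g • (f ∘ σ) i ≠ (f ∘ σ) i)) := by
  classical
  constructor
  · intro hsame t f σ hf
    have hb : IsBase G (f ∘ σ) := by
      intro g hg
      apply hf.1
      intro i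
      have := hg (σ.symm i)
      simpa using this
    obtain ⟨t', h', _, hIB, himp⟩ := prune G t (f ∘ σ) hb
    have ht : t = t' := hsame t t' f h' hf hIB
    exact ⟨hb, himp ht.symm⟩
  · intro hR t t' f f' hf hf'
    have hR' : Reord G Ω := hR
    have h1 := hR'.minBase (f := f) hf (Finset.univ.image f) (by intro x; simp)
    have h2 := hR'.minBase (f := f') hf' (Finset.univ.image f') (by intro x; simp)
    have h3 := card_eq_of_minBase hR' _ _ _ h1 h2 rfl
    rw [Finset.card_image_of_injective _ (Irr.injective hf.2), Finset.card_image_of_injective _ (Irr.injective hf'.2)] at h3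
    simpa using h3

end Cfsg.Agent.S5747
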