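import Cfsg.Statements.S5752
-- import your own Cfsg.Agent.* helpers here
import Cfsg.Agent.Lib.Helper92.TW.Fin

set_option autoImplicit false
open Cfsg

namespace Cfsg.Agent.S5752

open Cfsg.Agent.Lib.Helper92 Cfsg.Agent.Lib.Helper28

theorem isCoatom_map_conj {G : Type*} [Group G] {M : Subgroup G} (hM : IsCoatom M) (g : G) :
    IsCoatom (M.map (MulAut.conj g).toMonoidHom) :=
  ((MulAut.conj g).mapSubgroup.isCoatom_iff M).mpr hM

theorem normalCore_map_conj {G : Type*} [Group G] {M : Subgroup G} (hM : M.normalCore = ⊥)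
    (g : G) : (M.map (MulAut.conj g).toMonoidHom).normalCore = ⊥ := by
  rw [eq_bot_iff, ← hM]
  intro x hx k
  obtain ⟨y, hy, hxy⟩ := hx (g * k)
  have h1 : g * y * g⁻¹ = g * k * x * (g * k)⁻¹ := hxy
  have h2 : y = k * x * k⁻¹ := by
    have : g * y * g⁻¹ = g * (k * x * k⁻¹) * g⁻¹ := by rw [h1]; group
    exact mul_left_cancel (mul_right_cancel this)
  rw [← h2]; exact hy

/-- A form of the Thompson–Wielandt Theorem on primitive permutation groups. Let G be a finite group and M₁, M₂ two distinct conjugate maximal subgroups of G with trivial core in G; define two descending sequences of subgroups by A₀ = M₁, B₀ = M₂ and, for every i, A_{i+1} = the core in M₁ of A_i ∩ B_i and B_{i+1} = the core in M₂ of A_i ∩ B_i (the core in M of a subgroup Y ≤ M is the largest normal subgroup of M contained in Y). If A₂ and B₂ are both non-trivial, then for some prime p the subgroup generated by A₂ and B₂ is a p-group, and for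 each j the generalized Fitting subgroups of M_j and of its first core (A₁, resp. B₁) are their largest normal p-subgroups. -/
theorem result {G : Type*} [Group G] [Finite G] (M₁ M₂ : Subgroup G) (hmax : IsCoatom M₁) (g : G)
    (hconj : M₂ = M₁.map (MulAut.conj g).toMonoidHom) (hne : M₁ ≠ M₂) (hcore : M₁.normalCore = ⊥)
    (A B : ℕ → Subgroup G) (hA0 : A 0 = M₁) (hB0 : B 0 = M₂)
    (hA : ∀ i, A (i + 1) = ((A i ⊓ B i).subgroupOf M₁).normalCore.map M₁.subtype)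
    (hB : ∀ i, B (i + 1) = ((A i ⊓ B i).subgroupOf M₂).normalCore.map M₂.subtype) (hA2 : A 2 ≠ ⊥) (hB2 : B 2 ≠ ⊥) :
    ∃ p : ℕ, p.Prime ∧ IsPGroup p ↥(A 2 ⊔ B 2) ∧
      Cfsg.generalizedFittingSubgroup ↥M₁ = Cfsg.pCore p ↥M₁ ∧ Cfsg.generalizedFittingSubgroup ↥(A 1) = Cfsg.pCore p ↥(A 1) ∧
      Cfsg.generalizedFittingSubgroup ↥M₂ = Cfsg.pCore p ↥M₂ ∧ Cfsg.generalizedFittingSubgroup ↥(B 1) = Cfsg.pCore p ↥(B 1) := by
  have hmax2 : IsCoatom M₂ := hconj ▸ isCoatom_map_conj hmax g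
  have hcore2 : M₂.normalCore = ⊥ := hconj ▸ normalCore_map_conj hcore g
  have h := TW.of_isCoatom hmax hmax2 hne hcore hcore2
  have eA1 : A 1 = coreIn M₁ (M₁ ⊓ M₂) := by rw [hA 0, hA0, hB0]; rfl
  have eB1 : B 1 = coreIn M₂ (M₁ ⊓ M₂) := by rw [hB 0, hA0, hB0]; rfl
  have eA2 : A 2 = coreIn M₁ (coreIn M₁ (M₁ ⊓ M₂) ⊓ coreIn M₂ (M₁ ⊓ M₂)) := by
    rw [hA 1, eA1, eB1]; rfl
  have eB2 : B 2 = coreIn M₂ (coreIn M₁ (M₁ ⊓ M₂) ⊓ coreIn M₂ (M₁ ⊓ M₂)) := by
    rw [hB 1, eA1, eB1]; rfl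
  rw [← eA2, ← eB2, ← eA1, ← eB1] at h
  have hcard : ∀ p : ℕ, Nat.card (opIn p M₁) = Nat.card (opIn p M₂) := by
    intro p
    rw [hconj, card_opIn_conj]
  obtain ⟨p, hp, hA2p, hB2p, h1, h2, h3, h4⟩ := h.main hcard hA2 hB2
  refine ⟨p, hp, ?_, genFit_eq_of_fstarIn_eq h1, genFit_eq_of_fstarIn_eq h3,
    genFit_eq_of_fstarIn_eq h2, genFit_eq_of_fstarIn_eq h4⟩
  rw [sup_comm]
  exact IsPGroup.to_sup_of_normal_right' hB2p hA2p (h.B₂_le_M.trans h.M_le_normalizer_A₂)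

end Cfsg.Agent.S5752
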