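import Cfsg.Statements.S5754
-- import your own Cfsg.Agent.* helpers here

set_option autoImplicit false
open Cfsg

namespace Cfsg.Agent.S5754

section aux

variable {F V : Type*} [Field F] [AddCommGroup V] [Module F V]

open QuadraticMap

noncomputable def dualOf (Q : QuadraticForm F V) (w : V) : Module.Dual F V :=
  (Q w)⁻¹ • (Q.polarBilin w)

lemma dualOf_apply (Q : QuadraticForm F V) (w y : V) :
    dualOf Q w y = (Q w)⁻¹ * polar Q w y := by
  simp [dualOf]

lemma dualOf_self (Q : QuadraticForm F V) (w : V) (hw : Q w ≠ 0) : dualOf Q w w = 2 := by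
  rw [dualOf_apply, QuadraticMap.polar_self, two_nsmul]
  field_simp
  ring

noncomputable def reflEquiv (Q : QuadraticForm F V) (w : V) (hw : Q w ≠ 0) : Q.IsometryEquiv Q where
  toLinearEquiv := Module.reflection (dualOf_self Q w hw)
  map_app' := by
    intro y
    have h1 : (Module.reflection (dualOf_self Q w hw)) y = y + (-(dualOf Q w y)) • w := by
      rw [Module.reflection_apply]
      simp [sub_eq_add_neg]
    show Q ((Module.reflection (dualOf_self Q w hw)) y) = Q y
    rw [h1, QuadraticMap.map_add (⇑Q), QuadraticMap.map_smul, QuadraticMap.polar_smul_right, dualOf_apply,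
      QuadraticMap.polar_comm Q y w]
    simp only [smul_eq_mul]
    field_simp
    ring

lemma reflEquiv_apply (Q : QuadraticForm F V) (w : V) (hw : Q w ≠ 0) (y : V) :
    reflEquiv Q w hw y = y - ((Q w)⁻¹ * polar Q w y) • w := by
  show (Module.reflection (dualOf_self Q w hw)) y = _
  rw [Module.reflection_apply, dualOf_apply]

lemma map_sub' (Q : QuadraticForm F V) (a b : V) : Q (a - b) = Q a + Q b - polar Q a b := by
  have h : a - b = a + (-1 : F) • b := by simp [sub_eq_add_neg]
  rw [h, QuadraticMap.map_add (⇑Q), QuadraticMap.map_smul, QuadraticMap.polar_smul_right]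
  simp only [smul_eq_mul]
  ring

lemma polar_isom (Q : QuadraticForm F V) (φ : Q.IsometryEquiv Q) (a b : V) :
    polar Q (φ a) (φ b) = polar Q a b := by
  unfold QuadraticMap.polar
  rw [← map_add φ a b, φ.map_app, φ.map_app, φ.map_app]

theorem extend {ι : Type*} (Q : QuadraticForm F V) (hQ : Q.Anisotropic) (v v' : ι → V)
    (h1 : ∀ i, Q (v i) = Q (v' i)) (h2 : ∀ i j, polar Q (v i) (v j) = polar Q (v' i) (v' j))
    (s : Finset ι) : ∃ φ : Q.IsometryEquiv Q, ∀ i ∈ s, φ (v i) = v' i := by
  classical
  induction s using Finset.induction_on with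
  | empty => exact ⟨QuadraticMap.IsometryEquiv.refl Q, by simp⟩
  | insert k s hk ih =>
    obtain ⟨φ, hφ⟩ := ih
    by_cases hw : φ (v k) - v' k = 0
    · refine ⟨φ, ?_⟩
      intro i hi
      rcases Finset.mem_insert.mp hi with rfl | hi
      · exact sub_eq_zero.mp hw
      · exact hφ i hi
    · have hQw : Q (φ (v k) - v' k) ≠ 0 := fun h => hw (hQ _ h)
      refine ⟨φ.trans (reflEquiv Q _ hQw), ?_⟩
      intro i hi
      have happ : (φ.trans (reflEquiv Q _ hQw)) (v i) = reflEquiv Q _ hQw (φ (v i)) := rfl
      rw [happ, reflEquiv_apply]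
      rcases Finset.mem_insert.mp hi with rfl | hi
      · have e1 : polar Q (φ (v i) - v' i) (φ (v i)) = Q (φ (v i) - v' i) := by
          rw [QuadraticMap.polar_sub_left, QuadraticMap.polar_self, map_sub', φ.map_app, ← h1 i,
            QuadraticMap.polar_comm Q (v' i), two_nsmul]
        rw [e1, inv_mul_cancel₀ hQw, one_smul]
        abel
      · have e1 : polar Q (φ (v k) - v' k) (φ (v i)) = 0 := by
          rw [QuadraticMap.polar_sub_left, polar_isom, hφ i hi, h2 k i, sub_self]
        rw [e1, mul_zero, zero_smul, sub_zero, hφ i hi]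

end aux

/-- Let V be a finite-dimensional vector space over a finite field F carrying an anisotropic quadratic form Q (Q(v) = 0 only for v = 0). Then the group of all maps v ↦ φ(v) + c, with φ an isometry of Q and c ∈ V, acts on V as a binary permutation group: given n ≥ 2 and two n-tuples u, u' of vectors such that every pair of corresponding entries of u is carried to that of u' by such a map, one such map carries u to u'. -/
theorem result {F V : Type*} [Field F] [Finite F] [AddCommGroup V] [Module F V] [Module.Finite F V]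
    (Q : QuadraticForm F V) (hQ : Q.Anisotropic) (n : ℕ) (hn : 2 ≤ n) (u u' : Fin n → V)
    (h2 : ∀ i j : Fin n, i ≠ j → ∃ (φ : Q.IsometryEquiv Q) (c : V), φ (u i) + c = u' i ∧ φ (u j) + c = u' j) :
    ∃ (φ : Q.IsometryEquiv Q) (c : V), ∀ i, φ (u i) + c = u' i := by
  have hd : ∀ i j : Fin n, Q (u i - u j) = Q (u' i - u' j) := by
    intro i j
    by_cases hij : i = j
    · subst hij; simp
    · obtain ⟨φ, c, h1, h2'⟩ := h2 i j hij
      rw [← h1, ← h2', add_sub_add_right_eq_sub, ← map_sub φ, φ.map_app]
  let z : Fin n := ⟨0, by omega⟩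
  have hp : ∀ i j : Fin n, QuadraticMap.polar Q (u i - u z) (u j - u z)
      = QuadraticMap.polar Q (u' i - u' z) (u' j - u' z) := by
    intro i j
    have e1 := map_sub' Q (u i - u z) (u j - u z)
    have e2 := map_sub' Q (u' i - u' z) (u' j - u' z)
    rw [sub_sub_sub_cancel_right] at e1 e2
    rw [hd i j, hd i z, hd j z] at e1
    have e3 := e1.symm.trans e2
    exact (sub_right_injective e3)
  obtain ⟨φ, hφ⟩ := extend Q hQ (fun i => u i - u z) (fun i => u' i - u' z) (fun i => hd i z) hp Finset.univ
  refine ⟨φ, u' z - φ (u z), fun i => ?_⟩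
  have h := hφ i (Finset.mem_univ i)
  simp only [map_sub] at h
  have h' : u' i = φ (u i) - φ (u z) + u' z := by rw [h]; abel
  rw [h']
  abel

end Cfsg.Agent.S5754
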