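import Cfsg.Statements.S5763
-- import your own Cfsg.Agent.* helpers here

set_option autoImplicit false
open Cfsg

namespace Cfsg.Agent.S5763

section aux

def mf : Fin 8 → Fin 8 := ![1, 0, 3, 2, 5, 4, 7, 6]
def b1 (i : Fin 8) : ℕ := i.val / 2
def b2 (i : Fin 8) : ℕ := i.val / 4

def Pres (r : Fin 8 → Fin 8) : Prop :=
  (∀ i j, b1 (r i) = b1 (r j) ↔ b1 i = b1 j) ∧ (∀ i j, b2 (r i) = b2 (r j) ↔ b2 i = b2 j)

instance decPres (r : Fin 8 → Fin 8) : Decidable (Pres r) := by unfold Pres; infer_instance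

def Good (f : Fin 8 → Fin 8) : Prop :=
  Pres (fun i => mf (f (mf (f i)))) ∧ ((∀ i, mf (f (mf (f i))) = i) → Pres (fun i => mf (f i)))

instance decGood (f : Fin 8 → Fin 8) : Decidable (Good f) := by unfold Good; infer_instance

def Lv7 (a0 a1 a2 a3 a4 a5 a6 : Fin 8) : Prop := ∀ a7 : Fin 8, (a7 ≠ 7 ∧ a7 ≠ mf 7 ∧ (a0 = 7 ↔ a7 = 0) ∧ (a1 = 7 ↔ a7 = 1) ∧ (a2 = 7 ↔ a7 = 2) ∧ (a3 = 7 ↔ a7 = 3) ∧ (a4 = 7 ↔ a7 = 4) ∧ (a5 = 7 ↔ a7 = 5) ∧ (a6 = 7 ↔ a7 = 6)) → Good ![a0, a1, a2, a3, a4, a5, a6, a7]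

instance decLv7 (a0 a1 a2 a3 a4 a5 a6 : Fin 8) : Decidable (Lv7 a0 a1 a2 a3 a4 a5 a6) := by unfold Lv7; infer_instance

def Lv6 (a0 a1 a2 a3 a4 a5 : Fin 8) : Prop := ∀ a6 : Fin 8, (a6 ≠ 6 ∧ a6 ≠ mf 6 ∧ (a0 = 6 ↔ a6 = 0) ∧ (a1 = 6 ↔ a6 = 1) ∧ (a2 = 6 ↔ a6 = 2) ∧ (a3 = 6 ↔ a6 = 3) ∧ (a4 = 6 ↔ a6 = 4) ∧ (a5 = 6 ↔ a6 = 5)) → Lv7 a0 a1 a2 a3 a4 a5 a6

instance decLv6 (a0 a1 a2 a3 a4 a5 : Fin 8) : Decidable (Lv6 a0 a1 a2 a3 a4 a5) := by unfold Lv6; infer_instance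

def Lv5 (a0 a1 a2 a3 a4 : Fin 8) : Prop := ∀ a5 : Fin 8, (a5 ≠ 5 ∧ a5 ≠ mf 5 ∧ (a0 = 5 ↔ a5 = 0) ∧ (a1 = 5 ↔ a5 = 1) ∧ (a2 = 5 ↔ a5 = 2) ∧ (a3 = 5 ↔ a5 = 3) ∧ (a4 = 5 ↔ a5 = 4)) → Lv6 a0 a1 a2 a3 a4 a5

instance decLv5 (a0 a1 a2 a3 a4 : Fin 8) : Decidable (Lv5 a0 a1 a2 a3 a4) := by unfold Lv5; infer_instance

def Lv4 (a0 a1 a2 a3 : Fin 8) : Prop := ∀ a4 : Fin 8, (a4 ≠ 4 ∧ a4 ≠ mf 4 ∧ (a0 = 4 ↔ a4 = 0) ∧ (a1 = 4 ↔ a4 = 1) ∧ (a2 = 4 ↔ a4 = 2) ∧ (a3 = 4 ↔ a4 = 3)) → Lv5 a0 a1 a2 a3 a4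

instance decLv4 (a0 a1 a2 a3 : Fin 8) : Decidable (Lv4 a0 a1 a2 a3) := by unfold Lv4; infer_instance

def Lv3 (a0 a1 a2 : Fin 8) : Prop := ∀ a3 : Fin 8, (a3 ≠ 3 ∧ a3 ≠ mf 3 ∧ (a0 = 3 ↔ a3 = 0) ∧ (a1 = 3 ↔ a3 = 1) ∧ (a2 = 3 ↔ a3 = 2)) → Lv4 a0 a1 a2 a3

instance decLv3 (a0 a1 a2 : Fin 8) : Decidable (Lv3 a0 a1 a2) := by unfold Lv3; infer_instance

def Lv2 (a0 a1 : Fin 8) : Prop := ∀ a2 : Fin 8, (a2 ≠ 2 ∧ a2 ≠ mf 2 ∧ (a0 = 2 ↔ a2 = 0) ∧ (a1 = 2 ↔ a2 = 1)) → Lv3 a0 a1 a2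

instance decLv2 (a0 a1 : Fin 8) : Decidable (Lv2 a0 a1) := by unfold Lv2; infer_instance

def Lv1 (a0 : Fin 8) : Prop := ∀ a1 : Fin 8, (a1 ≠ 1 ∧ a1 ≠ mf 1 ∧ (a0 = 1 ↔ a1 = 0)) → Lv2 a0 a1

instance decLv1 (a0 : Fin 8) : Decidable (Lv1 a0) := by unfold Lv1; infer_instance

def Lv0 : Prop := ∀ a0 : Fin 8, (a0 ≠ 0 ∧ a0 ≠ mf 0) → Lv1 a0

instance decLv0 : Decidable (Lv0 ) := by unfold Lv0; infer_instance


set_option maxRecDepth 100000 in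
theorem nested : Lv0 := by
  decide +kernel

theorem good_of (f : Fin 8 → Fin 8) (hinv : ∀ i, f (f i) = i) (hfix : ∀ i, f i ≠ i) (hm : ∀ i, f i ≠ mf i) :
    Good f := by
  have hiff : ∀ j k, f j = k ↔ f k = j := by
    intro j k
    constructor
    · rintro rfl; exact hinv j
    · rintro rfl; exact hinv k
  have h := nested (f 0) ⟨hfix 0, hm 0⟩ (f 1) ⟨hfix 1, hm 1, hiff 0 1⟩ (f 2) ⟨hfix 2, hm 2, hiff 0 2, hiff 1 2⟩ (f 3) ⟨hfix 3, hm 3, hiff 0 3, hiff 1 3, hiff 2 3⟩ (f 4) ⟨hfix 4, hm 4, hiff 0 4, hiff 1 4, hiff 2 4, hiff 3 4⟩ (f 5) ⟨hfix 5, hm 5, hiff 0 5, hiff 1 5, hiff 2 5, hiff 3 5, hiff 4 5⟩ (f 6) ⟨hfix 6, hm 6, hiff 0 6, hiff 1 6, hiff 2 6, hiff 3 6, hiff 4 6, hiff 5 6⟩ (f 7) ⟨hfix 7, hm 7, hiff 0 7, hiff 1 7, hiff 2 7, hiff 3 7, hiff 4 7, hiff 5 7, hiff 6 7⟩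
  have e : ![f 0, f 1, f 2, f 3, f 4, f 5, f 6, f 7] = f := by
    funext i
    fin_cases i <;> rfl
  rwa [e] at h

/-- the permutations preserving the tree structure -/
def P0 : Subgroup (Equiv.Perm (Fin 8)) where
  carrier := {σ | Pres σ}
  one_mem' := ⟨fun _ _ => Iff.rfl, fun _ _ => Iff.rfl⟩
  mul_mem' := by
    intro a b ha hb
    refine ⟨fun i j => ?_, fun i j => ?_⟩
    · rw [Equiv.Perm.mul_apply, Equiv.Perm.mul_apply, ha.1, hb.1]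
    · rw [Equiv.Perm.mul_apply, Equiv.Perm.mul_apply, ha.2, hb.2]
  inv_mem' := by
    intro a ha
    refine ⟨fun i j => ?_, fun i j => ?_⟩
    · have := ha.1 (a⁻¹ i) (a⁻¹ j)
      simp only [Equiv.Perm.coe_inv, Equiv.apply_symm_apply] at this
      exact this.symm
    · have := ha.2 (a⁻¹ i) (a⁻¹ j)
      simp only [Equiv.Perm.coe_inv, Equiv.apply_symm_apply] at this
      exact this.symm

lemma mem_P0 (σ : Equiv.Perm (Fin 8)) : σ ∈ P0 ↔ Pres σ := Iff.rfl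

lemma sq_b2 (σ : Equiv.Perm (Fin 8)) (h : σ ∈ P0) (i : Fin 8) : b2 ((σ ^ 2) i) = b2 i := by
  have h1 := h.2 (σ i) i
  rw [pow_two, Equiv.Perm.mul_apply]
  unfold b2 at *
  have := (σ (σ i)).2
  have := (σ i).2
  have := i.2
  omega

lemma sq_b1 (τ : Equiv.Perm (Fin 8)) (h : τ ∈ P0) (h2 : ∀ i, b2 (τ i) = b2 i) (i : Fin 8) :
    b1 ((τ ^ 2) i) = b1 i := by
  have h1 := h.1 (τ i) i
  have h3 := h2 i
  have h4 := h2 (τ i)
  rw [pow_two, Equiv.Perm.mul_apply]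
  unfold b1 b2 at *
  have := (τ (τ i)).2
  have := (τ i).2
  have := i.2
  omega

lemma sq_id (τ : Equiv.Perm (Fin 8)) (h2 : ∀ i, b1 (τ i) = b1 i) (i : Fin 8) : (τ ^ 2) i = i := by
  have h3 := h2 i
  have h4 := h2 (τ i)
  have h5 : τ (τ i) = τ i ↔ τ i = i := τ.injective.eq_iff
  rw [pow_two, Equiv.Perm.mul_apply]
  rw [Fin.ext_iff, Fin.ext_iff] at h5
  rw [Fin.ext_iff]
  unfold b1 at *
  have := (τ (τ i)).2
  have := (τ i).2
  have := i.2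
  omega

lemma pow_eight (σ : Equiv.Perm (Fin 8)) (h : σ ∈ P0) : σ ^ 8 = 1 := by
  have e : σ ^ 8 = ((σ ^ 2) ^ 2) ^ 2 := by rw [← pow_mul, ← pow_mul]
  rw [e]
  ext i
  rw [sq_id _ (sq_b1 _ (pow_mem h 2) (sq_b2 σ h))]
  rfl

lemma isPGroup_P0 : IsPGroup 2 P0 := by
  intro g
  refine ⟨3, ?_⟩
  apply Subtype.ext
  exact pow_eight g.1 g.2

/-- the central involution -/
def m : Equiv.Perm (Fin 8) := ⟨mf, mf, by decide, by decide⟩

lemma m_apply (i : Fin 8) : m i = mf i := rfl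

lemma m_mul_self : m * m = 1 := by decide

lemma m_inv : m⁻¹ = m := by
  rw [inv_eq_iff_mul_eq_one]; exact m_mul_self

lemma m_ne (i : Fin 8) : m i ≠ i := by
  revert i; decide

lemma swap_mem (j : Fin 8) : Equiv.swap j (m j) ∈ P0 := by
  rw [mem_P0]
  revert j
  decide

/-- the lemma on fixed-point-free involutions sharing no transposition with `m` -/
lemma key (μ : Equiv.Perm (Fin 8)) (hinv : μ * μ = 1) (hfix : ∀ i, μ i ≠ i) (hm : ∀ i, μ i ≠ m i) :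
    (m * μ) ^ 2 ∈ P0 ∧ ((m * μ) ^ 2 = 1 → m * μ ∈ P0) := by
  have h := good_of μ (fun i => by
    have := congrArg (fun s : Equiv.Perm (Fin 8) => s i) hinv
    simpa using this) hfix hm
  refine ⟨h.1, fun h1 => h.2 (fun i => ?_)⟩
  have := congrArg (fun s : Equiv.Perm (Fin 8) => s i) h1
  have h3 : m (μ (m (μ i))) = i := by simpa [pow_two] using this
  exact h3

lemma main (y : Equiv.Perm (Fin 8)) : ∃ σ : Equiv.Perm (Fin 8), σ ≠ 1 ∧ σ ∈ P0 ∧ y⁻¹ * σ * y ∈ P0 := by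
  by_cases hc : ∃ i, (y * m * y⁻¹) i = m i
  · obtain ⟨i, hi⟩ := hc
    refine ⟨Equiv.swap i (m i), ?_, swap_mem i, ?_⟩
    · intro h
      have := congrArg (fun s : Equiv.Perm (Fin 8) => s i) h
      simp only [Equiv.swap_apply_left, Equiv.Perm.one_apply] at this
      exact m_ne i this
    · have h1 := Equiv.swap_apply_apply y⁻¹ i (m i)
      rw [inv_inv] at h1
      rw [← h1]
      have h2 : y⁻¹ (m i) = m (y⁻¹ i) := by
        rw [← hi]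
        simp
      rw [h2]
      exact swap_mem _
  · push Not at hc
    have k1 := key (y * m * y⁻¹) (by
        have : y * m * y⁻¹ * (y * m * y⁻¹) = y * (m * m) * y⁻¹ := by group
        rw [this, m_mul_self]; group)
      (by
        intro i h
        simp only [Equiv.Perm.mul_apply] at h
        have : m (y⁻¹ i) = y⁻¹ i := by
          apply y.injective
          rw [h]; simp
        exact m_ne _ this) hc
    have k2 := key (y⁻¹ * m * y) (by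
        have : y⁻¹ * m * y * (y⁻¹ * m * y) = y⁻¹ * (m * m) * y := by group
        rw [this, m_mul_self]; group)
      (by
        intro i h
        simp only [Equiv.Perm.mul_apply] at h
        have : m (y i) = y i := by
          have := congrArg y h
          simpa using this
        exact m_ne _ this)
      (by
        intro j h
        simp only [Equiv.Perm.mul_apply] at h
        apply hc (y j)
        have := congrArg y h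
        simpa using this.symm)
    have hconj : y⁻¹ * (m * (y * m * y⁻¹)) * y = (m * (y⁻¹ * m * y))⁻¹ := by
      rw [mul_inv_rev, mul_inv_rev, mul_inv_rev, inv_inv, m_inv]
      group
    by_cases hsq : (m * (y * m * y⁻¹)) ^ 2 = 1
    · refine ⟨m * (y * m * y⁻¹), ?_, k1.2 hsq, ?_⟩
      · intro h
        have h2 : y * m * y⁻¹ = m := by
          rw [mul_eq_one_iff_eq_inv', m_inv] at h
          exact h
        exact hc 0 (by rw [h2])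
      · rw [hconj]
        apply inv_mem
        apply k2.2
        have : (m * (y⁻¹ * m * y)) ^ 2 = (y⁻¹ * (m * (y * m * y⁻¹)) ^ 2 * y)⁻¹ := by
          rw [pow_two, pow_two]
          have e : y⁻¹ * (m * (y * m * y⁻¹) * (m * (y * m * y⁻¹))) * y
              = (y⁻¹ * (m * (y * m * y⁻¹)) * y) * (y⁻¹ * (m * (y * m * y⁻¹)) * y) := by group
          rw [e, hconj]
          group
        rw [this, hsq]
        group
    · refine ⟨(m * (y * m * y⁻¹)) ^ 2, hsq, k1.1, ?_⟩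
      have : y⁻¹ * (m * (y * m * y⁻¹)) ^ 2 * y = ((m * (y⁻¹ * m * y)) ^ 2)⁻¹ := by
        rw [pow_two, pow_two]
        have e : y⁻¹ * (m * (y * m * y⁻¹) * (m * (y * m * y⁻¹))) * y
            = (y⁻¹ * (m * (y * m * y⁻¹)) * y) * (y⁻¹ * (m * (y * m * y⁻¹)) * y) := by group
        rw [e, hconj]
        group
      rw [this]
      exact inv_mem k2.1

end aux

/-- In the symmetric group on 8 letters any two Sylow 2-subgroups have non-trivial intersection: for a Sylow 2-subgroup H and every element x, H ∩ xHx⁻¹ ≠ 1. -/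
theorem result (H : Sylow 2 (Equiv.Perm (Fin 8))) (x : Equiv.Perm (Fin 8)) :
    (H : Subgroup (Equiv.Perm (Fin 8))) ⊓ (H : Subgroup (Equiv.Perm (Fin 8))).map (MulAut.conj x).toMonoidHom ≠ ⊥ := by
  classical
  obtain ⟨S0, hS0⟩ := isPGroup_P0.exists_le_sylow
  obtain ⟨c, hc⟩ := MulAction.exists_smul_eq (Equiv.Perm (Fin 8)) S0 H
  have hmem : ∀ σ ∈ P0, c * σ * c⁻¹ ∈ (H : Subgroup (Equiv.Perm (Fin 8))) := by
    intro σ hσ
    rw [← hc, Sylow.coe_subgroup_smul]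
    exact ⟨σ, hS0 hσ, rfl⟩
  obtain ⟨σ, hσ1, hσ2, hσ3⟩ := main (c⁻¹ * x * c)
  intro hbot
  have h1 : c * σ * c⁻¹ ∈ (H : Subgroup (Equiv.Perm (Fin 8))) ⊓
      (H : Subgroup (Equiv.Perm (Fin 8))).map (MulAut.conj x).toMonoidHom := by
    refine ⟨hmem σ hσ2, ⟨c * ((c⁻¹ * x * c)⁻¹ * σ * (c⁻¹ * x * c)) * c⁻¹, hmem _ hσ3, ?_⟩⟩
    change x * (c * ((c⁻¹ * x * c)⁻¹ * σ * (c⁻¹ * x * c)) * c⁻¹) * x⁻¹ = c * σ * c⁻¹
    group
  rw [hbot, Subgroup.mem_bot] at h1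
  apply hσ1
  have : σ = c⁻¹ * (c * σ * c⁻¹) * c := by group
  rw [this, h1]
  group

end Cfsg.Agent.S5763
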