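import Cfsg.Statements.S5885
-- import your own Cfsg.Agent.* helpers here

set_option autoImplicit false
open Cfsg

namespace Cfsg.Agent.S5885

open scoped Pointwise

lemma exists_smul_eq_of_even {G : Type*} [Group G] [Finite G] (n : ℕ)
    (hA : ∀ P : Subgroup (Equiv.Perm (Fin n)), MulAction.IsPreprimitive P (Fin n) → alternatingGroup (Fin n) ≤ P)
    (M : Subgroup G) (hM : IsCoatom M) (hn : M.index = n) [DecidableEq (G ⧸ M)] [Fintype (G ⧸ M)]
    (c : Equiv.Perm (G ⧸ M)) (hc : Equiv.Perm.sign c = 1) :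
    ∃ g : G, ∀ x : G ⧸ M, g • x = c x := by
  have hnt : Nontrivial (G ⧸ M) := by
    rw [← Finite.one_lt_card_iff_nontrivial]
    have h1 : M.index ≠ 1 := fun h => hM.1 (Subgroup.index_eq_one.mp h)
    have h0 : M.index ≠ 0 := Subgroup.index_ne_zero_of_finite
    change 1 < M.index
    omega
  have hprim : MulAction.IsPreprimitive G (G ⧸ M) := by
    rw [← MulAction.isCoatom_stabilizer_iff_preprimitive G ((1 : G) : G ⧸ M)]
    rw [MulAction.stabilizer_quotient]
    exact hM
  let e : (G ⧸ M) ≃ Fin n := Finite.equivFinOfCardEq hn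
  let ψ : G →* Equiv.Perm (Fin n) := (e.permCongrHom.toMonoidHom).comp (MulAction.toPermHom G (G ⧸ M))
  let f : (G ⧸ M) →ₑ[ψ.rangeRestrict] Fin n :=
    { toFun := e
      map_smul' := by
        intro g x
        change e (g • x) = (ψ g) (e x)
        simp [ψ, Equiv.permCongrHom] }
  have hP : MulAction.IsPreprimitive ψ.range (Fin n) :=
    MulAction.IsPreprimitive.of_surjective (f := f) e.surjective
  have hle := hA _ hP
  have hmem : e.permCongr c ∈ alternatingGroup (Fin n) := by
    rw [Equiv.Perm.mem_alternatingGroup, Equiv.Perm.sign_permCongr, hc]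
  obtain ⟨g, hg⟩ := hle hmem
  refine ⟨g, fun x => ?_⟩
  have h2 := congrArg (fun σ : Equiv.Perm (Fin n) => e.symm (σ (e x))) hg
  simpa [ψ, Equiv.permCongrHom] using h2

lemma coatom_subgroupOf_elim {G : Type*} [Group G] {H M : Subgroup G} (h : IsCoatom (H.subgroupOf M))
    (hHM : H ≤ M) (X : Subgroup G) (h1 : H ≤ X) (h2 : X ≤ M) : X = H ∨ X = M := by
  have hle : H.subgroupOf M ≤ X.subgroupOf M := Subgroup.subgroupOf_mono M h1
  rcases h.le_iff.mp hle with h3 | h3
  · right
    exact le_antisymm h2 (Subgroup.subgroupOf_eq_top.mp h3)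
  · left
    rw [Subgroup.subgroupOf_inj] at h3
    rwa [inf_eq_left.mpr h2, inf_eq_left.mpr hHM] at h3

lemma coatom_subgroupOf_intro {G : Type*} [Group G] {H K : Subgroup G} (hHK : H ≤ K) (hne : H ≠ K)
    (h : ∀ L : Subgroup G, H ≤ L → L ≤ K → L ≠ H → L = K) : IsCoatom (H.subgroupOf K) := by
  constructor
  · intro h1
    exact hne (le_antisymm hHK (Subgroup.subgroupOf_eq_top.mp h1))
  · intro b hb
    have e1 : (b.map K.subtype).subgroupOf K = b := by
      ext x
      simp [Subgroup.mem_subgroupOf]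
    have h1 : H ≤ b.map K.subtype := by
      rw [← Subgroup.map_subgroupOf_eq_of_le hHK]
      exact Subgroup.map_mono hb.le
    have h2 : b.map K.subtype ≤ K := Subgroup.map_subtype_le b
    have h3 : b.map K.subtype ≠ H := by
      intro h4
      rw [← e1, h4] at hb
      exact lt_irrefl _ hb
    have h4 := h _ h1 h2 h3
    rw [← e1, h4]
    simp


/-- Let n be an odd positive integer such that every primitive permutation group of degree n contains the alternating group (so the symmetric and alternating groups are the only primitive groups of degree n). Let G be a finite group, M a maximal subgroup of G of index n, and H a maximal subgroup of M. Then H is a second maximal subgroup of G: H is maximal in every maximal subgroup K of G containing H. -/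
theorem result {G : Type*} [Group G]
    [Finite G] (n : ℕ) (hodd : Odd n)
    (hA : ∀ P : Subgroup (Equiv.Perm (Fin n)), MulAction.IsPreprimitive P (Fin n) → alternatingGroup (Fin n) ≤ P)
    (M : Subgroup G) (hM : IsCoatom M) (hn : M.index = n) (H : Subgroup G) (hHM : H ≤ M)
    (hmax : IsCoatom (H.subgroupOf M)) (K : Subgroup G) (hK : IsCoatom K) (hHK : H ≤ K) :
    IsCoatom (H.subgroupOf K) := by
  classical
  have : Fintype (G ⧸ M) := Fintype.ofFinite _
  by_cases hKM : K = M
  · rw [hKM]; exact hmax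
  have hKMH : K ⊓ M = H := by
    rcases coatom_subgroupOf_elim hmax hHM (K ⊓ M) (le_inf hHK hHM) inf_le_right with h | h
    · exact h
    · exfalso
      have h0 : M ≤ K := inf_eq_right.mp h
      rcases hM.le_iff.mp h0 with h1 | h1
      · exact hK.1 h1
      · exact hKM h1
  have hne : H ≠ K := by
    intro h
    have h0 : K ≤ M := h ▸ hHM
    rcases hK.le_iff.mp h0 with h1 | h1
    · exact hM.1 h1
    · exact hKM h1.symm
  apply coatom_subgroupOf_intro hHK hne
  intro L hHL hLK hLH
  apply le_antisymm hLK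
  let α : G ⧸ M := ((1 : G) : G ⧸ M)
  have hα : ∀ g : G, g • α = α ↔ g ∈ M := by
    intro g
    rw [← MulAction.mem_stabilizer_iff, MulAction.stabilizer_quotient]
  let B : Set (G ⧸ M) := {x | ∃ l ∈ L, l • α = x}
  have hαB : α ∈ B := ⟨1, L.one_mem, one_smul _ _⟩
  have hLB : ∀ l ∈ L, ∀ x, x ∈ B → l • x ∈ B := by
    rintro l hl x ⟨l', hl', rfl⟩
    exact ⟨l * l', L.mul_mem hl hl', mul_smul _ _ _⟩
  have hkey : ∀ k ∈ K, k • α ∈ B → k ∈ L := by
    rintro k hk ⟨l, hl, hlk⟩
    have h1 : (l⁻¹ * k) • α = α := by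
      rw [mul_smul, ← hlk, inv_smul_smul]
    have h2 : l⁻¹ * k ∈ K ⊓ M := ⟨K.mul_mem (K.inv_mem (hLK hl)) hk, (hα _).mp h1⟩
    rw [hKMH] at h2
    have h3 := L.mul_mem hl (hHL h2)
    simpa using h3
  let S : Subgroup G := MulAction.stabilizer G B
  have hLS : L ≤ S := by
    intro l hl
    rw [MulAction.mem_stabilizer_set]
    intro a
    constructor
    · intro h
      have := hLB l⁻¹ (L.inv_mem hl) _ h
      simpa using this
    · exact hLB l hl a
  obtain ⟨l₀, hl₀L, hl₀H⟩ : ∃ l₀ ∈ L, l₀ ∉ H := by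
    by_contra hcon
    push Not at hcon
    exact hLH (le_antisymm hcon hHL)
  have hl₀M : l₀ ∉ M := fun h => hl₀H (hKMH ▸ ⟨hLK hl₀L, h⟩)
  rcases coatom_subgroupOf_elim hmax hHM (M ⊓ S) (le_inf hHM (hHL.trans hLS)) inf_le_left with hcase | hcase
  · intro k hk
    by_contra hkL
    let β : G ⧸ M := l₀ • α
    have hβB : β ∈ B := ⟨l₀, hl₀L, rfl⟩
    have hβα : β ≠ α := fun h => hl₀M ((hα _).mp h)
    have hdisj : ∀ x ∈ B, k • x ∉ B := by
      rintro x ⟨l, hl, rfl⟩ hx
      have h1 : k * l ∈ L := hkey (k * l) (K.mul_mem hk (hLK hl)) (by rwa [mul_smul])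
      exact hkL (by simpa using L.mul_mem h1 (L.inv_mem hl))
    obtain ⟨γ, hγB, hγkB⟩ : ∃ γ : G ⧸ M, γ ∉ B ∧ k⁻¹ • γ ∉ B := by
      by_contra hcon
      push Not at hcon
      have hU : B ∪ k • B = Set.univ := by
        ext γ
        simp only [Set.mem_union, Set.mem_univ, iff_true]
        by_cases hγ : γ ∈ B
        · exact Or.inl hγ
        · exact Or.inr (Set.mem_smul_set_iff_inv_smul_mem.mpr (hcon γ hγ))
      have hD : Disjoint B (k • B) := by
        rw [Set.disjoint_left]
        rintro x hx ⟨y, hy, rfl⟩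
        exact hdisj y hy hx
      have h1 : (B ∪ k • B).ncard = B.ncard + (k • B).ncard :=
        Set.ncard_union_eq hD (Set.toFinite _) (Set.toFinite _)
      have h2 : (k • B).ncard = B.ncard :=
        Set.ncard_image_of_injective B (MulAction.injective k)
      rw [hU, Set.ncard_univ, h2] at h1
      have h3 : Nat.card (G ⧸ M) = n := hn
      rw [h3] at h1
      obtain ⟨j, hj⟩ := hodd
      omega
    let β₁ : G ⧸ M := k • α
    let β₂ : G ⧸ M := k • β
    have h12 : β₁ ≠ β₂ := fun h => hβα (smul_left_cancel k h).symm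
    have h2γ : β₂ ≠ γ := by
      intro h
      apply hγkB
      rw [← h]
      simpa [β₂] using hβB
    have h1γ : β₁ ≠ γ := by
      intro h
      apply hγkB
      rw [← h]
      simpa [β₁] using hαB
    let c : Equiv.Perm (G ⧸ M) := Equiv.swap β₁ β₂ * Equiv.swap β₂ γ
    have hc : Equiv.Perm.sign c = 1 := by
      simp [c, Equiv.Perm.sign_mul, Equiv.Perm.sign_swap h12, Equiv.Perm.sign_swap h2γ]
    obtain ⟨h, hh⟩ := exists_smul_eq_of_even n hA M hM hn c hc
    have hcB : ∀ x ∈ B, c x = x := by
      intro x hx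
      have e1 : x ≠ β₁ := fun e => hdisj α hαB (show β₁ ∈ B from e ▸ hx)
      have e2 : x ≠ β₂ := fun e => hdisj β hβB (show β₂ ∈ B from e ▸ hx)
      have e3 : x ≠ γ := fun e => hγB (e ▸ hx)
      simp [c, Equiv.swap_apply_of_ne_of_ne, e1, e2, e3]
    have hhH : h ∈ H := by
      rw [← hcase]
      refine ⟨(hα h).mp (by rw [hh, hcB α hαB]), ?_⟩
      change h ∈ MulAction.stabilizer G B
      rw [MulAction.mem_stabilizer_set]
      intro a
      constructor
      · intro ha
        rw [hh] at ha
        have h1 : c (c a) = c a := hcB _ ha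
        have h2 : c a = a := c.injective h1
        rwa [h2] at ha
      · intro ha
        rw [hh, hcB a ha]
        exact ha
    have hc1 : c β₁ = β₂ := by
      simp [c, Equiv.swap_apply_of_ne_of_ne h12 h1γ]
    have hc2 : c β₂ = γ := by
      simp [c, Equiv.swap_apply_of_ne_of_ne h1γ.symm h2γ.symm]
    have hx : k⁻¹ * h * k ∈ L := by
      apply hkey _ (K.mul_mem (K.mul_mem (K.inv_mem hk) (hHK hhH)) hk)
      have e : (k⁻¹ * h * k) • α = β := by
        rw [mul_smul, mul_smul, hh]
        change k⁻¹ • c β₁ = β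
        rw [hc1]
        simp [β₂]
      rw [e]
      exact hβB
    have h5 := hLB _ hx β hβB
    have e : (k⁻¹ * h * k) • β = k⁻¹ • γ := by
      rw [mul_smul, mul_smul, hh]
      change k⁻¹ • c β₂ = _
      rw [hc2]
    rw [e] at h5
    exact hγkB h5
  · have hMS : M ≤ S := inf_eq_left.mp hcase
    have hST : S = ⊤ := by
      rcases hM.le_iff.mp hMS with h | h
      · exact h
      · exfalso
        exact hl₀M (h ▸ hLS hl₀L)
    intro k hk
    apply hkey k hk
    have h1 : k ∈ S := hST ▸ Subgroup.mem_top k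
    exact ((MulAction.mem_stabilizer_set.mp h1) α).mpr hαB

end Cfsg.Agent.S5885
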