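import Cfsg.Statements.S5887
-- import your own Cfsg.Agent.* helpers here

set_option autoImplicit false
open Cfsg

namespace Cfsg.Agent.S5887


open Matrix

variable {F : Type*} [Field F] {n : ℕ}

lemma rank_sub_le' (A B : Matrix (Fin n) (Fin n) F) : (A - B).rank ≤ A.rank + B.rank := by
  unfold Matrix.rank
  have h1 : LinearMap.range (A - B).mulVecLin ≤
      LinearMap.range A.mulVecLin ⊔ LinearMap.range B.mulVecLin := by
    rintro _ ⟨w, rfl⟩
    have : (A - B).mulVecLin w = A.mulVecLin w + B.mulVecLin (-w) := by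
      simp [Matrix.mulVec_neg, sub_eq_add_neg]
    rw [this]
    exact Submodule.add_mem_sup ⟨w, rfl⟩ ⟨-w, rfl⟩
  exact (Submodule.finrank_mono h1).trans (Submodule.finrank_add_le_finrank_add_finrank _ _)

/-- Lemma A: a square-zero perturbation of small rank normalising a field commutes with it. -/
lemma commute_of_normalizes {E : Type*} [Field E] [Algebra F E]
    (ρ : E →ₐ[F] Matrix (Fin n) (Fin n) F) (N : Matrix (Fin n) (Fin n) F)
    (hr : 2 * N.rank < n) (g : GL (Fin n) F) (hg : (g : Matrix (Fin n) (Fin n) F) = 1 + N)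
    (hgn : g ∈ Cfsg.Geo.subalgebraNormalizer ρ.range) (x : E) : N * ρ x = ρ x * N := by
  have h1 := (hgn (ρ x)).1 ⟨x, rfl⟩
  obtain ⟨y, hy⟩ := h1
  have hy' : ρ y * (g : Matrix (Fin n) (Fin n) F) = (g : Matrix (Fin n) (Fin n) F) * ρ x := by
    have hy2 : ρ y = (g : Matrix (Fin n) (Fin n) F) * ρ x *
        ((g⁻¹ : GL (Fin n) F) : Matrix (Fin n) (Fin n) F) := hy
    rw [hy2, mul_assoc, ← Units.val_mul, inv_mul_cancel, Units.val_one, mul_one]
  rw [hg] at hy'
  have h2 : ρ (y - x) = N * ρ x - ρ y * N := by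
    rw [map_sub]
    have : ρ y + ρ y * N = ρ x + N * ρ x := by
      simpa [mul_add, add_mul] using hy'
    rw [sub_eq_sub_iff_add_eq_add, this, add_comm]
  have hxy : y - x = 0 := by
    by_contra hne
    have hu : IsUnit (ρ (y - x)) := (IsUnit.mk0 _ hne).map ρ
    have h3 := Matrix.rank_of_isUnit _ hu
    rw [h2] at h3
    have h4 := rank_sub_le' (N * ρ x) (ρ y * N)
    have h5 := Matrix.rank_mul_le_left N (ρ x)
    have h6 := Matrix.rank_mul_le_right (ρ y) N
    simp at h3
    omega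
  have hxy' : y = x := sub_eq_zero.1 hxy
  rw [hxy'] at hy'
  have : ρ x + ρ x * N = ρ x + N * ρ x := by
    simpa [mul_add, add_mul] using hy'
  exact (add_left_cancel this).symm

lemma mat_ext_mv {A B : Matrix (Fin n) (Fin n) F} (h : ∀ w, A *ᵥ w = B *ᵥ w) : A = B := by
  apply Matrix.toLin'.injective
  apply LinearMap.ext
  intro w
  rw [Matrix.toLin'_apply, Matrix.toLin'_apply, h]

/-- Lemma C: a square-zero matrix commuting with the field whose image is a line over the field. -/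
lemma exists_sqzero {E : Type*} [Field E] [Algebra F E] [Module.Finite F E]
    (ρ : E →ₐ[F] Matrix (Fin n) (Fin n) F) (hlt : Module.finrank F E < n) :
    ∃ (N : Matrix (Fin n) (Fin n) F) (v : Fin n → F), v ≠ 0 ∧ N * N = 0 ∧
      (∀ x, N * ρ x = ρ x * N) ∧ (∀ w, ∃ x, N *ᵥ w = ρ x *ᵥ v) ∧ (∃ w, N *ᵥ w = v) := by
  let modE : Module E (Fin n → F) :=
    Module.compHom _ ((Matrix.toLinAlgEquiv' : Matrix (Fin n) (Fin n) F ≃ₐ[F] _).toAlgHom.toRingHom.comp
      ρ.toRingHom)
  have hsm : ∀ (x : E) (w : Fin n → F), x • w = ρ x *ᵥ w := fun x w => rfl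
  have hn : 0 < n := by omega
  set v : Fin n → F := Pi.single ⟨0, hn⟩ 1 with hv
  have hv0 : v ≠ 0 := by
    intro h
    have := congrFun h ⟨0, hn⟩
    simp [hv] at this
  have hp : Submodule.span E {v} < ⊤ := by
    rw [lt_top_iff_ne_top]
    intro htop
    let ℓ : E →ₗ[F] (Fin n → F) :=
      { toFun := fun x => ρ x *ᵥ v
        map_add' := fun x y => by rw [map_add, Matrix.add_mulVec]
        map_smul' := fun c x => by rw [map_smul, Matrix.smul_mulVec, RingHom.id_apply] }
    have hs : Function.Surjective ℓ := by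
      intro w
      have hw : w ∈ Submodule.span E {v} := by rw [htop]; trivial
      obtain ⟨x, hx⟩ := Submodule.mem_span_singleton.1 hw
      exact ⟨x, hx⟩
    have := LinearMap.finrank_le_finrank_of_surjective hs
    simp at this
    omega
  obtain ⟨f, hf0, hpf⟩ := Submodule.exists_le_ker_of_lt_top _ hp
  have hfv : f v = 0 := hpf (Submodule.mem_span_singleton_self v)
  have hfc : ∀ (c : F) (w : Fin n → F), f (c • w) = algebraMap F E c * f w := by
    intro c w
    have : c • w = (algebraMap F E c) • w := by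
      rw [hsm, AlgHom.commutes, Matrix.algebraMap_eq_diagonal]
      ext i
      simp [Matrix.mulVec_diagonal]
    rw [this, map_smul, smul_eq_mul]
  let ℓ : (Fin n → F) →ₗ[F] (Fin n → F) :=
    { toFun := fun w => ρ (f w) *ᵥ v
      map_add' := fun x y => by rw [map_add, map_add, Matrix.add_mulVec]
      map_smul' := fun c x => by
        rw [hfc, ← Algebra.smul_def, map_smul, Matrix.smul_mulVec, RingHom.id_apply] }
  have hN : ∀ w, (LinearMap.toMatrix' ℓ) *ᵥ w = ρ (f w) *ᵥ v := by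
    intro w
    rw [← Matrix.toLin'_apply, Matrix.toLin'_toMatrix']
    rfl
  refine ⟨LinearMap.toMatrix' ℓ, v, hv0, ?_, ?_, ?_, ?_⟩
  · apply mat_ext_mv
    intro w
    rw [← Matrix.mulVec_mulVec, hN, hN, ← hsm (f w) v, map_smul, hfv]
    simp
  · intro x
    apply mat_ext_mv
    intro w
    rw [← Matrix.mulVec_mulVec, ← Matrix.mulVec_mulVec, hN, hN, ← hsm x w, map_smul, smul_eq_mul,
      map_mul, Matrix.mulVec_mulVec]
  · intro w
    exact ⟨f w, hN w⟩
  · have : ∃ w, f w ≠ 0 := by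
      by_contra hcon
      push Not at hcon
      exact hf0 (LinearMap.ext hcon)
    obtain ⟨w, hw⟩ := this
    refine ⟨(f w)⁻¹ • w, ?_⟩
    rw [hN, map_smul, smul_eq_mul, inv_mul_cancel₀ hw, map_one, Matrix.one_mulVec]
lemma finfield_aux {F L : Type*} [Field F] [Fintype F] [Field L] [Algebra F L] [Finite L]
    (r s : ℕ) (hr : Module.finrank F L = r) (hsr : s ∣ r) (hs1 : 1 < s) (hslt : s < r) :
    (∃ x : L, x ^ (Fintype.card F ^ s) = x ∧ ∀ c : F, algebraMap F L c ≠ x) ∧
      (∃ y : L, y ^ (Fintype.card F ^ s) ≠ y) := by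
  classical
  have : Fintype L := Fintype.ofFinite L
  set q := Fintype.card F with hq
  have hq1 : 1 < q := Fintype.one_lt_card
  obtain ⟨g, hg⟩ := IsCyclic.exists_generator (α := Lˣ)
  have hcard : Fintype.card L = q ^ r := by
    rw [← hr]; exact Module.card_eq_pow_finrank
  have hord : orderOf g = q ^ r - 1 := by
    rw [orderOf_eq_card_of_forall_mem_zpowers hg, Nat.card_eq_fintype_card, Fintype.card_units, hcard]
  obtain ⟨t, rfl⟩ := hsr
  have hdvd : q ^ s - 1 ∣ q ^ (s * t) - 1 := by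
    have := Nat.sub_dvd_pow_sub_pow (q ^ s) 1 t
    rwa [one_pow, ← pow_mul] at this
  obtain ⟨d, hd⟩ := hdvd
  have hqs : q < q ^ s := by
    calc q = q ^ 1 := (pow_one q).symm
      _ < q ^ s := Nat.pow_lt_pow_right hq1 hs1
  have hqr : q ^ s < q ^ (s * t) := Nat.pow_lt_pow_right hq1 hslt
  have hd0 : 0 < d := by
    rcases Nat.eq_zero_or_pos d with h | h
    · rw [h, mul_zero] at hd; omega
    · exact h
  constructor
  · refine ⟨((g ^ d : Lˣ) : L), ?_, ?_⟩
    · have h1 : (g ^ d) ^ (q ^ s - 1) = 1 := by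
        rw [← pow_mul, mul_comm, ← hd, ← hord, pow_orderOf_eq_one]
      have h2 : (g ^ d) ^ (q ^ s) = g ^ d := by
        have : q ^ s = (q ^ s - 1) + 1 := by omega
        rw [this, pow_succ, h1, one_mul]
      have := congrArg (fun u : Lˣ => (u : L)) h2
      simpa using this
    · intro c hc
      have hc0 : c ≠ 0 := by
        rintro rfl
        rw [map_zero] at hc
        exact (Units.ne_zero _) hc.symm
      have h1 : (g ^ d) ^ (q - 1) = 1 := by
        apply Units.ext
        rw [Units.val_pow_eq_pow_val, ← hc, ← map_pow, FiniteField.pow_card_sub_one_eq_one c hc0,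
          map_one, Units.val_one]
      rw [← pow_mul] at h1
      refine pow_ne_one_of_lt_orderOf ?_ ?_ h1
      · have : 0 < d * (q - 1) := Nat.mul_pos hd0 (by omega)
        omega
      · rw [hord, hd, mul_comm]
        exact Nat.mul_lt_mul_of_pos_right (by omega) hd0
  · refine ⟨(g : L), ?_⟩
    intro h
    have h1 : g ^ (q ^ s - 1) = 1 := by
      have h2 : g ^ (q ^ s - 1) * g = 1 * g := by
        rw [← pow_succ, one_mul]
        have : q ^ s - 1 + 1 = q ^ s := by omega
        rw [this]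
        apply Units.ext
        rw [Units.val_pow_eq_pow_val, h]
      exact mul_right_cancel h2
    refine pow_ne_one_of_lt_orderOf ?_ ?_ h1
    · omega
    · rw [hord]; omega

lemma exists_unip {F : Type*} [Field F] [Fintype F] {n : ℕ} (hn : 0 < n)
    (N : Matrix (Fin n) (Fin n) F) (hN : N * N = 0) :
    ∃ g : GL (Fin n) F, (g : Matrix (Fin n) (Fin n) F) = 1 + N ∧
      Matrix.GeneralLinearGroup.det g = 1 := by
  obtain ⟨p, hp⟩ := CharP.exists F
  have : Fact p.Prime := ⟨CharP.char_is_prime F p⟩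
  have : Nonempty (Fin n) := ⟨⟨0, hn⟩⟩
  have h1 : (1 + N) * (1 - N) = 1 := by
    rw [add_mul, mul_sub, mul_sub, hN]; simp
  have h2 : (1 - N) * (1 + N) = 1 := by
    rw [sub_mul, mul_add, mul_add, hN]; simp
  refine ⟨⟨1 + N, 1 - N, h1, h2⟩, rfl, ?_⟩
  apply Units.ext
  rw [Matrix.GeneralLinearGroup.val_det_apply, Units.val_one]
  change (1 + N).det = 1
  have hpow : (1 + N) ^ p = 1 := by
    rw [add_pow_char_of_commute _ (Commute.one_left N), one_pow]
    have : N ^ p = 0 := by
      have h2p : 2 ≤ p := (Fact.out : p.Prime).two_le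
      obtain ⟨k, rfl⟩ := Nat.exists_eq_add_of_le h2p
      rw [pow_add, pow_two, hN, zero_mul]
    rw [this, add_zero]
  have hdet : (1 + N).det ^ p = 1 := by rw [← Matrix.det_pow, hpow, Matrix.det_one]
  apply frobenius_inj F p
  rw [frobenius_def, frobenius_def, hdet, one_pow]

lemma exists_fixed_field {F L : Type*} [Field F] [Fintype F] [Field L] [Algebra F L] (s : ℕ) :
    ∃ L₀ : IntermediateField F L, ∀ x, x ∈ L₀ ↔ x ^ (Fintype.card F ^ s) = x := by
  have key : ∀ x : L, (FiniteField.frobeniusAlgHom F L ^ s) x = x ^ (Fintype.card F ^ s) := by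
    intro x
    rw [AlgHom.coe_pow, FiniteField.coe_frobeniusAlgHom, pow_iterate]
  refine ⟨{ AlgHom.equalizer (FiniteField.frobeniusAlgHom F L ^ s) (AlgHom.id F L) with
      inv_mem' := ?_ }, ?_⟩
  · intro x hx
    have hx' : (FiniteField.frobeniusAlgHom F L ^ s) x = x := hx
    change (FiniteField.frobeniusAlgHom F L ^ s) x⁻¹ = x⁻¹
    rw [map_inv₀, hx']
  · intro x
    rw [← key]
    rfl

lemma rank_le_of_range {E : Type*} [Field E] [Algebra F E] [Module.Finite F E]
    (ρ : E →ₐ[F] Matrix (Fin n) (Fin n) F) (N : Matrix (Fin n) (Fin n) F) (v : Fin n → F)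
    (h : ∀ w, ∃ x, N *ᵥ w = ρ x *ᵥ v) : N.rank ≤ Module.finrank F E := by
  let ℓ : E →ₗ[F] (Fin n → F) :=
    { toFun := fun x => ρ x *ᵥ v
      map_add' := fun x y => by rw [map_add, Matrix.add_mulVec]
      map_smul' := fun c x => by rw [map_smul, Matrix.smul_mulVec, RingHom.id_apply] }
  have h1 : LinearMap.range N.mulVecLin ≤ LinearMap.range ℓ := by
    rintro _ ⟨w, rfl⟩
    obtain ⟨x, hx⟩ := h w
    exact ⟨x, hx.symm⟩
  exact (Submodule.finrank_mono h1).trans (LinearMap.finrank_range_le ℓ)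

lemma exists_not_normalizing [Fintype F] {E L : Type*} [Field E] [Field L] [Algebra F E]
    [Algebra F L] [Module.Finite F E]
    (ρ : L →ₐ[F] Matrix (Fin n) (Fin n) F) (ι : E →ₐ[F] L) (he : 2 * Module.finrank F E < n)
    (y : L) (hy : ∀ x, ι x ≠ y) :
    ∃ g : GL (Fin n) F, Matrix.GeneralLinearGroup.det g = 1 ∧
      (∀ x, (g : Matrix (Fin n) (Fin n) F) * ρ (ι x) = ρ (ι x) * (g : Matrix (Fin n) (Fin n) F)) ∧
      g ∉ Cfsg.Geo.subalgebraNormalizer ρ.range := by
  obtain ⟨N, v, hv0, hNN, hcomm, hrange, ⟨w₀, hw₀⟩⟩ := exists_sqzero (ρ.comp ι) (by omega)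
  have hrk := rank_le_of_range (ρ.comp ι) N v hrange
  obtain ⟨g, hg, hdet⟩ := exists_unip (by omega) N hNN
  refine ⟨g, hdet, ?_, ?_⟩
  · intro x
    have := hcomm x
    rw [AlgHom.comp_apply] at this
    rw [hg, add_mul, mul_add, this, one_mul, mul_one]
  · intro hgn
    have hc := commute_of_normalizes ρ N (by omega) g hg hgn y
    obtain ⟨z, hz⟩ := hrange (ρ y *ᵥ w₀)
    rw [Matrix.mulVec_mulVec, hc, ← Matrix.mulVec_mulVec, hw₀, AlgHom.comp_apply] at hz
    have h0 : ρ (y - ι z) *ᵥ v = 0 := by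
      rw [map_sub, Matrix.sub_mulVec, hz, sub_self]
    have hne : y - ι z ≠ 0 := fun h => hy z (sub_eq_zero.1 h).symm
    apply hv0
    have h1 : ρ (y - ι z)⁻¹ * ρ (y - ι z) = 1 := by
      rw [← map_mul, inv_mul_cancel₀ hne, map_one]
    calc v = (ρ (y - ι z)⁻¹ * ρ (y - ι z)) *ᵥ v := by rw [h1, Matrix.one_mulVec]
      _ = 0 := by rw [← Matrix.mulVec_mulVec, h0, Matrix.mulVec_zero]

lemma mem_normalizer_of_commute (K : Subalgebra F (Matrix (Fin n) (Fin n) F)) (g : GL (Fin n) F)
    (h : ∀ k ∈ K, (g : Matrix (Fin n) (Fin n) F) * k = k * (g : Matrix (Fin n) (Fin n) F)) :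
    g ∈ Cfsg.Geo.subalgebraNormalizer K := by
  intro k
  constructor
  · intro hk
    rw [h k hk, mul_assoc, ← Units.val_mul, mul_inv_cancel, Units.val_one, mul_one]
    exact hk
  · intro hk
    have h1 := h _ hk
    have h2 : (g : Matrix (Fin n) (Fin n) F) * k *
        ((g⁻¹ : GL (Fin n) F) : Matrix (Fin n) (Fin n) F) * (g : Matrix (Fin n) (Fin n) F) =
        (g : Matrix (Fin n) (Fin n) F) * k := by
      rw [mul_assoc, ← Units.val_mul, inv_mul_cancel, Units.val_one, mul_one]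
    rw [h2] at h1
    have h3 : (g : Matrix (Fin n) (Fin n) F) * k *
        ((g⁻¹ : GL (Fin n) F) : Matrix (Fin n) (Fin n) F) = k := by
      have := congrArg (fun m => ((g⁻¹ : GL (Fin n) F) : Matrix (Fin n) (Fin n) F) * m) h1
      simp only [← mul_assoc, ← Units.val_mul, inv_mul_cancel, Units.val_one, one_mul] at this
      exact this
    rw [h3] at hk
    exact hk

theorem main_abs [Fintype F] {L : Type*} [Field L] [Algebra F L] [Finite L] (r : ℕ)
    (hr1 : 1 < r) (hrp : ¬ r.Prime) (hrn : r ∣ n) (hlt : r < n) (hfr : Module.finrank F L = r)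
    (ρ : L →ₐ[F] Matrix (Fin n) (Fin n) F) :
    ∃ (M : Subgroup (GL (Fin n) F)) (g t : GL (Fin n) F),
      Cfsg.Geo.subalgebraNormalizer ρ.range ≤ M ∧ g ∈ M ∧ Matrix.GeneralLinearGroup.det g = 1 ∧
      g ∉ Cfsg.Geo.subalgebraNormalizer ρ.range ∧ Matrix.GeneralLinearGroup.det t = 1 ∧ t ∉ M := by
  obtain ⟨s, hsr, hs1, hslt⟩ : ∃ s, s ∣ r ∧ 1 < s ∧ s < r := by
    obtain ⟨s, h1, h2, h3⟩ := (Nat.not_prime_iff_exists_dvd_lt (by omega)).1 hrp
    exact ⟨s, h1, by omega, h3⟩
  obtain ⟨L₀, hL₀⟩ := exists_fixed_field (F := F) (L := L) s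
  obtain ⟨⟨x₀, hx₀, hx₀F⟩, ⟨y₀, hy₀⟩⟩ := finfield_aux (F := F) (L := L) r s hfr hsr hs1 hslt
  have hn0 : 0 < n := by omega
  have : Nonempty (Fin n) := ⟨⟨0, hn0⟩⟩
  have hinj : Function.Injective ρ := ρ.toRingHom.injective
  have h2r : 2 * r ≤ n := by
    obtain ⟨c, rfl⟩ := hrn
    have : 2 ≤ c := by
      by_contra hc
      have : c = 0 ∨ c = 1 := by omega
      rcases this with rfl | rfl <;> omega
    nlinarith
  have : Module.Finite F L := Module.Finite.of_finite
  have hfr₀ : Module.finrank F L₀ < r := by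
    rw [← hfr]
    apply Submodule.finrank_lt (s := L₀.toSubalgebra.toSubmodule)
    intro htop
    apply hy₀
    rw [← hL₀]
    have : y₀ ∈ L₀.toSubalgebra.toSubmodule := by rw [htop]; trivial
    exact this
  have hmem₀ : ∀ k, k ∈ (ρ.comp L₀.val).range ↔
      k ∈ ρ.range ∧ k ^ (Fintype.card F ^ s) = k := by
    intro k
    constructor
    · rintro ⟨x, rfl⟩
      refine ⟨⟨x.1, rfl⟩, ?_⟩
      change (ρ x.1) ^ _ = ρ x.1
      rw [← map_pow, (hL₀ x.1).1 x.2]
    · rintro ⟨⟨x, rfl⟩, hx⟩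
      have hx' : ρ (x ^ (Fintype.card F ^ s)) = ρ x := by rw [map_pow]; exact hx
      exact ⟨⟨x, (hL₀ x).2 (hinj hx')⟩, rfl⟩
  obtain ⟨g, hgdet, hgc, hgn⟩ := exists_not_normalizing ρ L₀.val (by omega) y₀ (by
    intro x hx
    apply hy₀
    rw [← hL₀, ← hx]
    exact x.2)
  obtain ⟨t, htdet, -, htn⟩ := exists_not_normalizing (ρ.comp L₀.val) (Algebra.ofId F L₀)
    (by rw [Module.finrank_self]; omega) ⟨x₀, (hL₀ x₀).2 hx₀⟩ (by
    intro c hc
    apply hx₀F c
    exact congrArg Subtype.val hc)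
  refine ⟨Cfsg.Geo.subalgebraNormalizer (ρ.comp L₀.val).range, g, t, ?_, ?_, hgdet, hgn, htdet, htn⟩
  · intro h hh k
    rw [hmem₀, hmem₀, ← hh k, Units.conj_pow]
    constructor
    · rintro ⟨h1, h2⟩
      exact ⟨h1, by rw [h2]⟩
    · rintro ⟨h1, h2⟩
      refine ⟨h1, ?_⟩
      have := congrArg (fun m => ((h⁻¹ : GL (Fin n) F) : Matrix (Fin n) (Fin n) F) * m *
        (h : Matrix (Fin n) (Fin n) F)) h2
      simpa [mul_assoc] using this
  · apply mem_normalizer_of_commute
    rintro _ ⟨x, rfl⟩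
    exact hgc x

lemma exists_model.{u} {F : Type u} [Field F] [Fintype F] {n : ℕ} (hn : 0 < n)
    (K : Subalgebra F (Matrix (Fin n) (Fin n) F)) (r : ℕ) (hK : Cfsg.Geo.IsFieldSubalgebra r K) :
    ∃ (L : Type u) (_ : Field L) (_ : Algebra F L) (ρ : L →ₐ[F] Matrix (Fin n) (Fin n) F),
      ρ.range = K ∧ Module.finrank F L = r ∧ Finite L := by
  have : Nonempty (Fin n) := ⟨⟨0, hn⟩⟩
  have hf : IsField K :=
    { exists_pair_ne := ⟨0, 1, zero_ne_one⟩
      mul_comm := fun x y => Subtype.ext (hK.comm x.1 x.2 y.1 y.2)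
      mul_inv_cancel := fun {a} ha => by
        obtain ⟨y, hy, hxy⟩ := hK.inv a.1 a.2 (fun h => ha (Subtype.ext h))
        exact ⟨⟨y, hy⟩, Subtype.ext hxy⟩ }
  refine ⟨K, hf.toField, K.algebra, K.val, ?_, hK.finrank_eq, inferInstance⟩
  exact K.range_val

/-- Let F be a finite field, n a positive integer and r a composite number (r > 1, not prime) that divides n with r < n. Let K be a subalgebra of the algebra of n × n matrices over F which is a field of degree r over F (commutative, every non-zero element invertible, of dimension r over F). Then the normaliser N of K in GL_n(F) (a group of type ΓL_{n/r}(F_{q^r})) is not a maximal subgroup of GL_n(F), and N ∩ SL_n(F) is not a maximal subgroup of SL_n(F): both lie properly inside the normaliser of an intermediate subfield of prime degree over F. -/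
theorem result {F : Type*} [Field F]
    [Fintype F] (n r : ℕ) (hr1 : 1 < r) (hrp : ¬ r.Prime) (hrn : r ∣ n) (hlt : r < n)
    (K : Subalgebra F (Matrix (Fin n) (Fin n) F)) (hK : Cfsg.Geo.IsFieldSubalgebra r K) :
    ¬ IsCoatom (Cfsg.Geo.subalgebraNormalizer K) ∧
      ¬ Cfsg.Geo.IsMaximalIn (Cfsg.Geo.specialLinear (Fin n) F)
        (Cfsg.Geo.subalgebraNormalizer K ⊓ Cfsg.Geo.specialLinear (Fin n) F) := by
  obtain ⟨L, _, _, ρ, rfl, hfr, _⟩ := exists_model (by omega) K r hK
  obtain ⟨M, g, t, hle, hgM, hgdet, hgn, htdet, htM⟩ := main_abs r hr1 hrp hrn hlt hfr ρ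
  constructor
  · intro hco
    have hlt' : Cfsg.Geo.subalgebraNormalizer ρ.range < M :=
      lt_of_le_of_ne hle (fun h => hgn (h ▸ hgM))
    have := hco.2 M hlt'
    apply htM
    rw [this]
    trivial
  · rintro ⟨-, hmax⟩
    rcases hmax (M ⊓ Cfsg.Geo.specialLinear (Fin n) F) (inf_le_inf_right _ hle) inf_le_right
      with h | h
    · have : g ∈ M ⊓ Cfsg.Geo.specialLinear (Fin n) F := ⟨hgM, hgdet⟩
      rw [h] at this
      exact hgn this.1
    · have : t ∈ M ⊓ Cfsg.Geo.specialLinear (Fin n) F := by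
        rw [h]; exact htdet
      exact htM this.1

end Cfsg.Agent.S5887
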