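import Cfsg.Statements.S5893
import Cfsg.Agent.Lib.Helper7.PSL2MaxCls
import Cfsg.Agent.Lib.Helper7.PSL2TorMax
import Cfsg.Agent.Lib.Helper18.SL2.PartCFinal
-- import your own Cfsg.Agent.* helpers here

set_option autoImplicit false
open Cfsg

namespace Cfsg.Agent.S5893

open Matrix MatrixGroups Subgroup Cfsg.Agent.Lib.Helper46 Cfsg.Agent.Lib.Helper18.SL2
open Cfsg.Agent.Lib.Helper7 Cfsg.Agent.Lib.Helper7.PMax

/-- in characteristic two `PGL₂ ≅ PSL₂` over a finite field -/
theorem pgl_equiv_psl {K : Type*} [Field K] [Finite K] (h2 : (2 : K) = 0) :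
    Nonempty (ProjGenLinGroup (Fin 2) K ≃* ProjectiveSpecialLinearGroup (Fin 2) K) := by
  have := Fintype.ofFinite K
  haveI : CharP K 2 := CharTwo.of_one_ne_zero_of_two_eq_zero one_ne_zero h2
  refine ⟨(MulEquiv.ofBijective ProjectiveSpecialLinearGroup.toPGL
    ⟨ProjectiveSpecialLinearGroup.toPGL_injective,
      ProjectiveSpecialLinearGroup.toPGL_surj_of_roots fun r => ?_⟩).symm⟩
  obtain ⟨s, hs⟩ := FiniteField.isSquare_of_char_two (ringChar.eq K 2) r.1
  have hs0 : s ≠ 0 := by
    intro h
    rw [h, mul_zero] at hs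
    exact r.ne_zero hs
  refine ⟨Units.mk0 s hs0, ?_⟩
  ext
  simp [hs, sq]


/-- Let F be a finite field of even order q ≥ 4 and let M be a maximal subgroup of PSL₂(F) (= SL₂(F) = PGL₂(F)). Then one of the following holds: |M| = q(q − 1) (the stabiliser of a point of the projective line, elementary abelian of order q extended by a cyclic group of order q − 1); M is dihedral of order 2(q − 1); M is dihedral of order 2(q + 1); or q = q₀^r for a prime r with q₀ ≠ 2 and M ≅ PSL₂(F₀) with |F₀| = q₀. -/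
theorem result {F : Type*} [Field F] [Fintype F]
    (heven : Even (Fintype.card F)) (h4 : 4 ≤ Fintype.card F) (M : Subgroup (Matrix.ProjectiveSpecialLinearGroup (Fin 2) F)) (hM : IsCoatom M) :
    Nat.card M = Fintype.card F * (Fintype.card F - 1) ∨
    Nonempty (M ≃* DihedralGroup (Fintype.card F - 1)) ∨
    Nonempty (M ≃* DihedralGroup (Fintype.card F + 1)) ∨
    (∃ (F₀ : Type) (_ : Field F₀) (_ : Fintype F₀) (r : ℕ), r.Prime ∧ Fintype.card F₀ ≠ 2 ∧
        Fintype.card F = Fintype.card F₀ ^ r ∧ Nonempty (M ≃* Matrix.ProjectiveSpecialLinearGroup (Fin 2) F₀)) := by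
  classical
  have h2 : (2 : F) = 0 := by
    by_contra h
    exact (Nat.not_even_iff_odd.2 (odd_card_of_two_ne h)) heven
  haveI : CharP F 2 := CharTwo.of_one_ne_zero_of_two_eq_zero one_ne_zero h2
  haveI : Fact (Nat.Prime 2) := ⟨Nat.prime_two⟩
  have hz : zc F = 1 := zc_of_two_eq h2
  rcases coatom_cases 2 (by omega) hM with h | ⟨x, hs, hMx⟩ | ⟨-, h⟩ | ⟨L, D, l, hl, hL3, hL, hML⟩
  · left
    rw [hz, one_mul] at h
    exact h
  · right
    rcases card_centralizer_ss hs with hc | hc
    · right; left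
      have := (img_torN_dihedral hs (by omega) (n := Fintype.card F + 1)
        (by rw [hc, hz, one_mul]) (by rw [hc]; omega)).2
      rw [hMx]; exact this
    · left
      have := (img_torN_dihedral hs (by omega) (n := Fintype.card F - 1)
        (by rw [hc, hz, one_mul]) (by rw [hc]; omega)).2
      rw [hMx]; exact this
  · exact absurd h2 h
  · right; right; right
    have e : Shrink.{0} L ≃+* L := Shrink.ringEquiv.{0} L
    have : Fintype (Shrink.{0} L) := Fintype.ofFinite _
    have hcard : Fintype.card (Shrink.{0} L) = Nat.card L := by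
      rw [← Nat.card_eq_fintype_card]
      exact Nat.card_congr e.toEquiv
    refine ⟨Shrink.{0} L, inferInstance, inferInstance, l, hl, by rw [hcard]; omega,
      by rw [hcard, hL], ?_⟩
    have hIn : InSub L D (pre M) := by rw [hML]; exact InSub_subM L D
    rcases hIn.equiv M (fun g => Iff.rfl) with ⟨⟨f⟩⟩ | ⟨⟨f⟩⟩
    · exact ⟨f.trans (Cfsg.Agent.Lib.Helper6.pslEquiv e.symm)⟩
    · have h2L : (2 : L) = 0 := by
        apply Subtype.ext
        show ((2 : L) : F) = ((0 : L) : F)
        push_cast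
        exact h2
      obtain ⟨f'⟩ := pgl_equiv_psl h2L
      exact ⟨(f.trans f').trans (Cfsg.Agent.Lib.Helper6.pslEquiv e.symm)⟩

end Cfsg.Agent.S5893
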