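import Cfsg.Statements.S5895
-- import your own Cfsg.Agent.* helpers here

set_option autoImplicit false
open Cfsg

namespace Cfsg.Agent.S5895

open SemidirectProduct

theorem isCoatom_map_subgroupOf_range {G' G : Type*} [Group G'] [Group G] (φ : G' →* G)
    (hφ : Function.Injective φ) (S : Subgroup G') (hS : IsCoatom S) :
    IsCoatom ((S.map φ).subgroupOf φ.range) := by
  have : (S.map φ).subgroupOf φ.range =
      S.map ((MonoidHom.ofInjective hφ : G' ≃* φ.range) : G' →* φ.range) := by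
    ext x
    rw [Subgroup.mem_subgroupOf, Subgroup.mem_map, Subgroup.mem_map]
    constructor
    · rintro ⟨s, hs, hsx⟩
      exact ⟨s, hs, Subtype.ext hsx⟩
    · rintro ⟨s, hs, hsx⟩
      exact ⟨s, hs, congrArg Subtype.val hsx⟩
  rw [this]
  exact ((MonoidHom.ofInjective hφ).mapSubgroup.isCoatom_iff S).mpr hS

section semi

variable {N Q : Type} [Group N] [Group Q] (φ : Q →* MulAut N)

theorem isCoatom_range_inr [Nontrivial N]
    (htrans : ∀ n n' : N, n ≠ 1 → n' ≠ 1 → ∃ q : Q, φ q n = n') :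
    IsCoatom (inr : Q →* N ⋊[φ] Q).range := by
  constructor
  · intro htop
    obtain ⟨n, hn⟩ := exists_ne (1 : N)
    have : (inl n : N ⋊[φ] Q) ∈ (inr : Q →* N ⋊[φ] Q).range := htop ▸ Subgroup.mem_top _
    obtain ⟨q, hq⟩ := this
    have := congrArg SemidirectProduct.left hq
    simp at this
    exact hn this.symm
  · intro L hL
    obtain ⟨x, hxL, hx⟩ := SetLike.exists_of_lt hL
    have hinr : ∀ q : Q, (inr q : N ⋊[φ] Q) ∈ L := fun q => hL.le ⟨q, rfl⟩
    have h1 : (inl x.left : N ⋊[φ] Q) ∈ L := by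
      have : (inl x.left : N ⋊[φ] Q) = x * (inr x.right)⁻¹ := by
        rw [eq_mul_inv_iff_mul_eq, inl_left_mul_inr_right]
      rw [this]; exact L.mul_mem hxL (L.inv_mem (hinr _))
    have h2 : x.left ≠ 1 := by
      intro h
      apply hx
      refine ⟨x.right, ?_⟩
      have := inl_left_mul_inr_right x
      rw [h, map_one, one_mul] at this
      exact this
    have hinl : ∀ n : N, (inl n : N ⋊[φ] Q) ∈ L := by
      intro n
      by_cases hn : n = 1
      · rw [hn, map_one]; exact L.one_mem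
      obtain ⟨q, rfl⟩ := htrans _ _ h2 hn
      rw [inl_aut]
      exact L.mul_mem (L.mul_mem (hinr q) h1) (hinr _)
    rw [eq_top_iff]
    intro y _
    rw [← inl_left_mul_inr_right y]
    exact L.mul_mem (hinl _) (hinr _)

theorem index_range_inr [Finite N] [Finite Q] :
    (inr : Q →* N ⋊[φ] Q).range.index = Nat.card N := by
  have h1 := (inr : Q →* N ⋊[φ] Q).range.card_mul_index
  rw [SemidirectProduct.card,
    Nat.card_congr (MonoidHom.ofInjective (inr_injective (φ := φ))).symm.toEquiv, mul_comm] at h1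
  exact Nat.eq_of_mul_eq_mul_right Nat.card_pos h1

/-- the subgroup `W ⋊ P` -/
def mid (W : Subgroup N) (P : Subgroup Q) (hW : ∀ q ∈ P, ∀ w ∈ W, φ q w ∈ W) :
    Subgroup (N ⋊[φ] Q) where
  carrier := {x | x.left ∈ W ∧ x.right ∈ P}
  mul_mem' := by
    rintro x y ⟨hx1, hx2⟩ ⟨hy1, hy2⟩
    exact ⟨W.mul_mem hx1 (hW _ hx2 _ hy1), P.mul_mem hx2 hy2⟩
  one_mem' := ⟨W.one_mem, P.one_mem⟩
  inv_mem' := by
    rintro x ⟨hx1, hx2⟩
    exact ⟨hW _ (P.inv_mem hx2) _ (W.inv_mem hx1), P.inv_mem hx2⟩

theorem semidirect_example [Finite N] [Finite Q] [Nontrivial N]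
    (htrans : ∀ n n' : N, n ≠ 1 → n' ≠ 1 → ∃ q : Q, φ q n = n')
    (P : Subgroup Q) (hP : IsCoatom P) (W : Subgroup N) (hW : ∀ q ∈ P, ∀ w ∈ W, φ q w ∈ W)
    (w : N) (hw : w ∈ W) (hw1 : w ≠ 1) (n : N) (hn : n ∉ W) :
    ∃ M H K : Subgroup (N ⋊[φ] Q), IsCoatom M ∧ M.index = Nat.card N ∧ H ≤ M ∧
      IsCoatom (H.subgroupOf M) ∧ IsCoatom K ∧ H ≤ K ∧ ¬ IsCoatom (H.subgroupOf K) := by
  have hHJ : P.map (inr : Q →* N ⋊[φ] Q) ≤ mid φ W P hW := by
    rintro _ ⟨q, hq, rfl⟩
    exact ⟨W.one_mem, hq⟩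
  have hJK : mid φ W P hW ≤ P.comap (rightHom : N ⋊[φ] Q →* Q) := by
    rintro x ⟨-, hx⟩
    exact hx
  refine ⟨(inr : Q →* N ⋊[φ] Q).range, P.map inr, P.comap rightHom,
    isCoatom_range_inr φ htrans, index_range_inr φ, Subgroup.map_le_range _ _,
    isCoatom_map_subgroupOf_range _ inr_injective P hP,
    Subgroup.isCoatom_comap_of_surjective rightHom_surjective hP, hHJ.trans hJK, ?_⟩
  intro hco
  have h1 : (P.map (inr : Q →* N ⋊[φ] Q)).subgroupOf (P.comap rightHom) <
      (mid φ W P hW).subgroupOf (P.comap rightHom) := by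
    refine lt_of_le_of_ne (Subgroup.comap_mono hHJ) (fun heq => ?_)
    have hwJ : (inl w : N ⋊[φ] Q) ∈ mid φ W P hW := ⟨hw, P.one_mem⟩
    have hmem : (⟨inl w, hJK hwJ⟩ : P.comap (rightHom : N ⋊[φ] Q →* Q)) ∈
        (mid φ W P hW).subgroupOf (P.comap rightHom) := hwJ
    rw [← heq] at hmem
    obtain ⟨q, -, hq⟩ := hmem
    have := congrArg SemidirectProduct.left hq
    simp at this
    exact hw1 this.symm
  have h2 := hco.2 _ h1
  rw [Subgroup.subgroupOf_eq_top] at h2
  have h3 : (inl n : N ⋊[φ] Q) ∈ P.comap (rightHom : N ⋊[φ] Q →* Q) := by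
    rw [Subgroup.mem_comap, rightHom_inl]
    exact P.one_mem
  exact hn (h2 h3).1

end semi

section linear

variable (F V : Type) [Field F] [AddCommGroup V] [Module F V]

/-- the action of the linear group on the (multiplicative copy of the) vector space -/
def act : (V ≃ₗ[F] V) →* MulAut (Multiplicative V) where
  toFun q := AddEquiv.toMultiplicative q.toAddEquiv
  map_one' := by ext; rfl
  map_mul' := by intros; ext; rfl

theorem act_apply (q : V ≃ₗ[F] V) (v : Multiplicative V) :
    act F V q v = Multiplicative.ofAdd (q (Multiplicative.toAdd v)) := rfl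

open scoped LinearAlgebra.Projectivization in
theorem exists_linearEquiv_apply_eq {v w : V} (hv : v ≠ 0) (hw : w ≠ 0) :
    ∃ q : V ≃ₗ[F] V, q v = w := by
  have h2 := Projectivization.linearEquiv_is_two_pretransitive F V
  have h1 : MulAction.IsPretransitive (V ≃ₗ[F] V) (ℙ F V) :=
    MulAction.isPretransitive_of_is_two_pretransitive
  obtain ⟨g, hg⟩ := h1.exists_smul_eq (Projectivization.mk F v hv) (Projectivization.mk F w hw)
  rw [Projectivization.smul_mk, Projectivization.mk_eq_mk_iff] at hg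
  obtain ⟨a, ha⟩ := hg
  refine ⟨g.trans (LinearEquiv.smulOfUnit a⁻¹), ?_⟩
  have h3 : g v = a • w := ha.symm
  simp [LinearEquiv.smulOfUnit, h3]

open scoped LinearAlgebra.Projectivization in
theorem linear_example [Finite V] [Finite (V ≃ₗ[F] V)] (e0 e1 : V) (he0 : e0 ≠ 0)
    (he1 : e1 ∉ Submodule.span F {e0}) :
    ∃ M H K : Subgroup (Multiplicative V ⋊[act F V] (V ≃ₗ[F] V)), IsCoatom M ∧
      M.index = Nat.card V ∧ H ≤ M ∧
      IsCoatom (H.subgroupOf M) ∧ IsCoatom K ∧ H ≤ K ∧ ¬ IsCoatom (H.subgroupOf K) := by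
  have he1' : e1 ≠ 0 := fun h => he1 (h ▸ Submodule.zero_mem _)
  have hnt : Nontrivial (Multiplicative V) := ⟨Multiplicative.ofAdd e0, 1, he0⟩
  have hntP : Nontrivial (ℙ F V) := by
    refine ⟨Projectivization.mk F e0 he0, Projectivization.mk F e1 he1', fun h => ?_⟩
    rw [Projectivization.mk_eq_mk_iff] at h
    obtain ⟨a, ha⟩ := h
    apply he1
    have : e1 = a⁻¹ • e0 := by rw [← ha, inv_smul_smul]
    rw [this]
    exact Submodule.smul_mem _ _ (Submodule.mem_span_singleton_self e0)
  have hprim : MulAction.IsPreprimitive (V ≃ₗ[F] V) (ℙ F V) :=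
    MulAction.isPreprimitive_of_is_two_pretransitive
      (Projectivization.linearEquiv_is_two_pretransitive F V)
  have hP : IsCoatom (MulAction.stabilizer (V ≃ₗ[F] V) (Projectivization.mk F e0 he0)) :=
    MulAction.IsPreprimitive.isCoatom_stabilizer_of_isPreprimitive _ _
  have := semidirect_example (act F V) ?_ _ hP
    (AddSubgroup.toSubgroup (Submodule.span F {e0}).toAddSubgroup) ?_
    (Multiplicative.ofAdd e0) (Submodule.mem_span_singleton_self e0) he0
    (Multiplicative.ofAdd e1) he1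
  · exact this
  · intro n n' hn hn'
    obtain ⟨q, hq⟩ := exists_linearEquiv_apply_eq F V (v := Multiplicative.toAdd n)
      (w := Multiplicative.toAdd n') hn hn'
    exact ⟨q, by rw [act_apply, hq]; rfl⟩
  · intro q hq w hw
    rw [MulAction.mem_stabilizer_iff, Projectivization.smul_mk, Projectivization.mk_eq_mk_iff] at hq
    obtain ⟨a, ha⟩ := hq
    have hw' : Multiplicative.toAdd w ∈ Submodule.span F {e0} := hw
    obtain ⟨t, ht⟩ := Submodule.mem_span_singleton.mp hw'
    change q (Multiplicative.toAdd w) ∈ Submodule.span F {e0}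
    have h3 : q e0 = a • e0 := ha.symm
    rw [← ht, map_smul, h3]
    exact Submodule.smul_mem _ _ (Submodule.smul_mem _ _ (Submodule.mem_span_singleton_self e0))

end linear

/-- For every prime p and every d ≥ 2 there is a finite group G with a maximal subgroup M of index p^d and a maximal subgroup H of M that is not second maximal in G: some maximal subgroup K of G contains H without H being maximal in K. (One may take G the affine group V ⋊ GL(V) of V = 𝔽_p^d, M = GL(V), H the stabiliser in M of a line W of V, and K = V ⋊ H, with H < W ⋊ H < K.) So the prime-index hypothesis in the second-maximality criterion cannot be relaxed to prime-power index. -/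
theorem result (p d : ℕ) (hp : p.Prime)
    (hd : 2 ≤ d) :
    ∃ (G : Type) (_ : Group G) (_ : Finite G) (M H K : Subgroup G), IsCoatom M ∧ M.index = p ^ d ∧ H ≤ M ∧
      IsCoatom (H.subgroupOf M) ∧ IsCoatom K ∧ H ≤ K ∧ ¬ IsCoatom (H.subgroupOf K) := by
  have : Fact p.Prime := ⟨hp⟩
  have hfin : Finite ((Fin d → ZMod p) ≃ₗ[ZMod p] (Fin d → ZMod p)) :=
    Finite.of_injective (fun e => (e : (Fin d → ZMod p) → (Fin d → ZMod p))) DFunLike.coe_injective
  have h0 : (Pi.single ⟨0, by omega⟩ 1 : Fin d → ZMod p) ≠ 0 := by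
    intro h
    have := congrFun h ⟨0, by omega⟩
    simp at this
  have h1 : (Pi.single ⟨1, by omega⟩ 1 : Fin d → ZMod p) ∉
      Submodule.span (ZMod p) {(Pi.single ⟨0, by omega⟩ 1 : Fin d → ZMod p)} := by
    intro h
    obtain ⟨t, ht⟩ := Submodule.mem_span_singleton.mp h
    have := congrFun ht ⟨1, by omega⟩
    simp [Pi.single_apply] at this
  obtain ⟨M, H, K, h⟩ := linear_example (ZMod p) (Fin d → ZMod p) _ _ h0 h1
  refine ⟨_, inferInstance, ?_, M, H, K, ?_⟩
  · exact Finite.of_equiv _ SemidirectProduct.equivProd.symm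
  · simpa [Nat.card_eq_fintype_card, ZMod.card] using h

end Cfsg.Agent.S5895
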