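import Cfsg.Statements.S5896
-- import your own Cfsg.Agent.* helpers here

set_option autoImplicit false
open Cfsg

namespace Cfsg.Agent.S5896

open SemidirectProduct
open scoped commutatorElement

theorem map_derivedSeries_commutator_le (G : Type*) [Group G] (n : ℕ) :
    (derivedSeries ↥(commutator G) n).map (commutator G).subtype ≤ derivedSeries G (n + 1) := by
  induction n with
  | zero =>
    rw [derivedSeries_zero, ← MonoidHom.range_eq_map, Subgroup.range_subtype, derivedSeries_one]
  | succ n ih =>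
    rw [derivedSeries_succ, Subgroup.map_commutator, derivedSeries_succ G (n + 1)]
    exact Subgroup.commutator_mono ih ih

theorem isSolvable_pi {ι : Type*} {T : Type*} [Group T] [Group.IsSolvable T] :
    Group.IsSolvable (ι → T) := by
  obtain ⟨n, hn⟩ := (Group.isSolvable_def T).mp inferInstance
  refine (Group.isSolvable_def _).mpr ⟨n, ?_⟩
  rw [eq_bot_iff]
  intro f hf
  rw [Subgroup.mem_bot]
  funext i
  have := map_derivedSeries_le_derivedSeries (Pi.evalMonoidHom (fun _ : ι => T) i) n
    (Subgroup.mem_map_of_mem _ hf)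
  rw [hn, Subgroup.mem_bot] at this
  exact this

theorem derivedSeries_ne_bot_of_surjective {A B : Type*} [Group A] [Group B] (ψ : A →* B)
    (hψ : Function.Surjective ψ) (d : ℕ) (hd : derivedSeries B d ≠ ⊥) : derivedSeries A d ≠ ⊥ := by
  intro h
  apply hd
  rw [← map_derivedSeries_eq hψ, h, Subgroup.map_bot]

theorem isSolvable_comap_rightHom {N Q : Type*} [Group N] [Group Q] (φ : Q →* MulAut N)
    (B : Subgroup Q) [Group.IsSolvable N] [Group.IsSolvable B] :
    Group.IsSolvable (B.comap (rightHom : N ⋊[φ] Q →* Q)) := by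
  let f : N →* ↥(B.comap (rightHom : N ⋊[φ] Q →* Q)) :=
    inl.codRestrict _ (fun n => by simp [Subgroup.mem_comap, B.one_mem])
  let g := (rightHom : N ⋊[φ] Q →* Q).subgroupComap B
  apply Group.isSolvable_of_ker_le_range f g
  intro x hx
  have hx1 : x.1.right = 1 := congrArg Subtype.val (MonoidHom.mem_ker.mp hx)
  refine ⟨x.1.left, Subtype.ext ?_⟩
  have := inl_left_mul_inr_right x.1
  rw [hx1, map_one, mul_one] at this
  exact this

section wreath

variable (T Q Ω : Type) [Group T] [Group Q] [MulAction Q Ω]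

/-- the permutational wreath product -/
abbrev Wr := (Ω → T) ⋊[(mulAutArrow : Q →* MulAut (Ω → T))] Q

variable {T Q Ω}

theorem act_apply (q : Q) (f : Ω → T) (x : Ω) :
    (mulAutArrow q : MulAut (Ω → T)) f x = f (q⁻¹ • x) := rfl

variable (T Q) in
/-- preimage of a point stabilizer -/
def stabPre (i0 : Ω) : Subgroup (Wr T Q Ω) := (MulAction.stabilizer Q i0).comap rightHom

/-- projection to a coordinate -/
def proj (i0 : Ω) : ↥(stabPre T Q i0) →* T where
  toFun x := x.1.left i0
  map_one' := rfl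
  map_mul' x y := by
    have hx : x.1.right ∈ MulAction.stabilizer Q i0 := x.2
    have h1 : x.1.right⁻¹ • i0 = i0 := by
      rw [inv_smul_eq_iff]; exact (MulAction.mem_stabilizer_iff.mp hx).symm
    change (x.1 * y.1).left i0 = _
    rw [mul_left, Pi.mul_apply, act_apply, h1]

variable [DecidableEq Ω]

/-- `t` at `i`, `t⁻¹` at `j` -/
def delta (i j : Ω) (t : T) : Ω → T := fun x => if x = i then t else if x = j then t⁻¹ else 1

theorem comm_inr_inl (σ : Q) (z : Ω → T) :
    ⁅(inr σ : Wr T Q Ω), (inl z : Wr T Q Ω)⁆ = (inl (mulAutArrow σ z * z⁻¹) : Wr T Q Ω) := by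
  rw [commutatorElement_def, map_mul, inl_aut, map_inv, map_inv]

theorem comm_inr_delta (σ : Q) (i j k : Ω) (hij : i ≠ j) (hik : i ≠ k) (hjk : j ≠ k)
    (hσi : σ • i = i) (hσj : σ • j = k) (t : T) :
    ⁅(inr σ : Wr T Q Ω), (inl (delta i j t) : Wr T Q Ω)⁆ = (inl (delta j k t) : Wr T Q Ω) := by
  rw [comm_inr_inl]
  congr 1
  funext x
  rw [Pi.mul_apply, act_apply, Pi.inv_apply]
  have h1 : σ⁻¹ • x = i ↔ x = i := by rw [inv_smul_eq_iff, hσi]
  have h2 : σ⁻¹ • x = j ↔ x = k := by rw [inv_smul_eq_iff, hσj]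
  simp only [delta, h1, h2]
  by_cases hxi : x = i
  · subst hxi
    simp [hij, hik]
  by_cases hxj : x = j
  · subst hxj
    simp [hjk, hxi]
  by_cases hxk : x = k
  · subst hxk
    simp [hxi, hxj]
  simp [hxi, hxj, hxk]

theorem comm_inr_single (σ : Q) (i : Ω) (hσ : σ • i ≠ i) (t : T) :
    ⁅(inr σ : Wr T Q Ω), (inl (Pi.mulSingle i t⁻¹) : Wr T Q Ω)⁆ = (inl (delta i (σ • i) t) : Wr T Q Ω) := by
  rw [comm_inr_inl]
  congr 1
  funext x
  rw [Pi.mul_apply, act_apply, Pi.inv_apply]
  have h1 : σ⁻¹ • x = i ↔ x = σ • i := by rw [inv_smul_eq_iff]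
  simp only [delta, Pi.mulSingle_apply, h1]
  by_cases hxi : x = i
  · subst hxi
    simp [hσ.symm]
  by_cases hxj : x = σ • i
  · simp [hxj, hσ]
  simp [hxi, hxj]

end wreath

theorem exists_solvable (d : ℕ) :
    ∃ (T : Type) (_ : Group T) (_ : Finite T), Group.IsSolvable T ∧ derivedSeries T d ≠ ⊥ := by
  induction d with
  | zero =>
    refine ⟨Multiplicative (ZMod 2), inferInstance, inferInstance, inferInstance, ?_⟩
    rw [derivedSeries_zero]
    exact top_ne_bot
  | succ d ih =>
    obtain ⟨T, _, _, hsol, hd⟩ := ih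
    have hcomm : ∀ a b : Equiv.Perm (Fin 2), a * b = b * a := by decide
    have hsolQ : Group.IsSolvable (Equiv.Perm (Fin 2)) := Group.isSolvable_of_comm hcomm
    have hsolN : Group.IsSolvable (Fin 2 → T) := isSolvable_pi
    refine ⟨Wr T (Equiv.Perm (Fin 2)) (Fin 2), inferInstance,
      Finite.of_equiv _ SemidirectProduct.equivProd.symm, ?_, ?_⟩
    · exact Group.isSolvable_of_ker_le_range (inl : (Fin 2 → T) →* Wr T (Equiv.Perm (Fin 2)) (Fin 2))
        rightHom (range_inl_eq_ker_rightHom).ge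
    · have hle : commutator (Wr T (Equiv.Perm (Fin 2)) (Fin 2)) ≤
          stabPre T (Equiv.Perm (Fin 2)) (0 : Fin 2) := by
        rw [commutator_def, Subgroup.commutator_le]
        intro a _ b _
        change rightHom ⁅a, b⁆ ∈ MulAction.stabilizer (Equiv.Perm (Fin 2)) (0 : Fin 2)
        rw [map_commutatorElement, commutatorElement_eq_one_iff_mul_comm.mpr (hcomm _ _)]
        exact Subgroup.one_mem _
      have hsurj : Function.Surjective ((proj (0 : Fin 2)).comp (Subgroup.inclusion hle)) := by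
        intro t
        refine ⟨⟨⁅(inr (Equiv.swap 0 1) : Wr T (Equiv.Perm (Fin 2)) (Fin 2)),
          (inl (Pi.mulSingle 0 t⁻¹) : Wr T (Equiv.Perm (Fin 2)) (Fin 2))⁆,
          Subgroup.commutator_mem_commutator (Subgroup.mem_top _) (Subgroup.mem_top _)⟩, ?_⟩
        change (⁅(inr (Equiv.swap 0 1) : Wr T (Equiv.Perm (Fin 2)) (Fin 2)),
          (inl (Pi.mulSingle 0 t⁻¹) : Wr T (Equiv.Perm (Fin 2)) (Fin 2))⁆).left 0 = t
        rw [comm_inr_single _ _ (by simp)]
        simp [delta]
      have h1 := derivedSeries_ne_bot_of_surjective _ hsurj d hd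
      intro hbot
      apply h1
      have h2 := map_derivedSeries_commutator_le (Wr T (Equiv.Perm (Fin 2)) (Fin 2)) d
      rw [hbot, le_bot_iff,
        Subgroup.map_eq_bot_iff_of_injective _ (Subgroup.subtype_injective _)] at h2
      exact h2

theorem main_construction (T Q Ω : Type) [Group T] [Group Q] [MulAction Q Ω] [Finite T] [Finite Q]
    [Finite Ω] [Group.IsSolvable T] (hQ : commutator Q = ⊤)
    (h2 : ∀ j k : Ω, j ≠ k → ∃ (i : Ω) (σ : Q), i ≠ j ∧ i ≠ k ∧ σ • i = i ∧ σ • j = k)
    (i0 j0 : Ω) (hij : i0 ≠ j0) (hco : IsCoatom (MulAction.stabilizer Q i0))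
    (hsol : Group.IsSolvable (MulAction.stabilizer Q i0)) (d : ℕ) (hd : derivedSeries T d ≠ ⊥) :
    ∃ (G : Type) (_ : Group G) (_ : Finite G) (H : Subgroup G), commutator G = ⊤ ∧ IsCoatom H ∧
      Group.IsSolvable H ∧ derivedSeries H d ≠ ⊥ := by
  classical
  have hfinW : Finite (Wr T Q Ω) := Finite.of_equiv _ SemidirectProduct.equivProd.symm
  let S : Set (Wr T Q Ω) := Set.range inr ∪ {w | ∃ i j t, i ≠ j ∧ w = inl (delta i j t)}
  let G : Subgroup (Wr T Q Ω) := Subgroup.closure S
  have hinr : ∀ q : Q, (inr q : Wr T Q Ω) ∈ G := fun q =>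
    Subgroup.subset_closure (Or.inl ⟨q, rfl⟩)
  have hdelta : ∀ (i j : Ω) (t : T), i ≠ j → (inl (delta i j t) : Wr T Q Ω) ∈ G :=
    fun i j t h => Subgroup.subset_closure (Or.inr ⟨i, j, t, h, rfl⟩)
  have hperf : ⁅G, G⁆ = G := by
    apply le_antisymm (Subgroup.commutator_le_self G)
    change Subgroup.closure S ≤ _
    rw [Subgroup.closure_le]
    rintro w (⟨q, rfl⟩ | ⟨j, k, t, hjk, rfl⟩)
    · have h3 : (commutator Q).map (inr : Q →* Wr T Q Ω) ≤ ⁅G, G⁆ := by
        rw [commutator_def, Subgroup.map_commutator]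
        apply Subgroup.commutator_mono <;>
        · rintro _ ⟨q, -, rfl⟩
          exact hinr q
      exact h3 (Subgroup.mem_map_of_mem _ (hQ ▸ Subgroup.mem_top q))
    · obtain ⟨i, σ, hi1, hi2, hσ1, hσ2⟩ := h2 j k hjk
      rw [SetLike.mem_coe, ← comm_inr_delta σ i j k hi1 hi2 hjk hσ1 hσ2 t]
      exact Subgroup.commutator_mem_commutator (hinr σ) (hdelta i j t hi1)
  let π : ↥G →* Q := rightHom.comp G.subtype
  have hπ : Function.Surjective π := fun q => ⟨⟨inr q, hinr q⟩, by simp [π]⟩
  let H : Subgroup ↥G := (MulAction.stabilizer Q i0).comap π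
  let incl : ↥H →* ↥(stabPre T Q i0) :=
    (G.subtype.comp H.subtype).codRestrict (stabPre T Q i0) (fun x => x.2)
  have hincl : Function.Injective incl := by
    intro x y hxy
    apply Subtype.ext
    apply Subtype.ext
    exact congrArg (fun z : ↥(stabPre T Q i0) => (z : Wr T Q Ω)) hxy
  have hsolN : Group.IsSolvable (Ω → T) := isSolvable_pi
  have hsolX : Group.IsSolvable ↥(stabPre T Q i0) := isSolvable_comap_rightHom _ _
  refine ⟨↥G, inferInstance, inferInstance, H, ?_, ?_, ?_, ?_⟩
  · exact (Subgroup.isPerfect_iff.mpr hperf).commutator_eq_top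
  · exact Subgroup.isCoatom_comap_of_surjective hπ hco
  · exact Group.isSolvable_of_isSolvable_injective hincl
  · apply derivedSeries_ne_bot_of_surjective ((proj i0).comp incl) _ d hd
    intro t
    have hmem : (⟨inl (delta i0 j0 t), hdelta i0 j0 t hij⟩ : ↥G) ∈ H := by
      change rightHom (inl (delta i0 j0 t) : Wr T Q Ω) ∈ MulAction.stabilizer Q i0
      rw [rightHom_inl]
      exact Subgroup.one_mem _
    refine ⟨⟨_, hmem⟩, ?_⟩
    change delta i0 j0 t i0 = t
    simp [delta]

section borel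

open Matrix

variable (F : Type) [Field F]

/-- upper triangular matrices in `SL₂` -/
def borel : Subgroup (SpecialLinearGroup (Fin 2) F) where
  carrier := {g | (g : Matrix (Fin 2) (Fin 2) F) 1 0 = 0}
  mul_mem' := by
    intro g h hg hh
    change (g : Matrix (Fin 2) (Fin 2) F) 1 0 = 0 at hg
    change (h : Matrix (Fin 2) (Fin 2) F) 1 0 = 0 at hh
    change ((g * h : SpecialLinearGroup (Fin 2) F) : Matrix (Fin 2) (Fin 2) F) 1 0 = 0
    simp [Matrix.mul_apply, Fin.sum_univ_two, hg, hh]
  one_mem' := by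
    change ((1 : SpecialLinearGroup (Fin 2) F) : Matrix (Fin 2) (Fin 2) F) 1 0 = 0
    simp
  inv_mem' := by
    intro g hg
    change (g : Matrix (Fin 2) (Fin 2) F) 1 0 = 0 at hg
    change ((g⁻¹ : SpecialLinearGroup (Fin 2) F) : Matrix (Fin 2) (Fin 2) F) 1 0 = 0
    simp [Matrix.adjugate_fin_two, hg]

variable {F}

theorem borel_diag (g : SpecialLinearGroup (Fin 2) F)
    (hg : (g : Matrix (Fin 2) (Fin 2) F) 1 0 = 0) :
    (g : Matrix (Fin 2) (Fin 2) F) 0 0 * (g : Matrix (Fin 2) (Fin 2) F) 1 1 = 1 := by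
  have := g.det_coe
  rw [Matrix.det_fin_two, hg] at this
  simpa using this

/-- the diagonal character -/
def chi : ↥(borel F) →* Fˣ where
  toFun g := ⟨(g.1 : Matrix (Fin 2) (Fin 2) F) 0 0, (g.1 : Matrix (Fin 2) (Fin 2) F) 1 1,
    borel_diag g.1 g.2, by rw [mul_comm]; exact borel_diag g.1 g.2⟩
  map_one' := by ext; simp
  map_mul' g h := by
    ext
    have h0 : (h.1 : Matrix (Fin 2) (Fin 2) F) 1 0 = 0 := h.2
    simp [Matrix.mul_apply, Fin.sum_univ_two, h0]

theorem isSolvable_borel : Group.IsSolvable ↥(borel F) := by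
  have hker : Group.IsSolvable ↥(chi (F := F)).ker := by
    apply Group.isSolvable_of_comm
    intro a b
    have ha0 : (a.1.1 : Matrix (Fin 2) (Fin 2) F) 1 0 = 0 := a.1.2
    have hb0 : (b.1.1 : Matrix (Fin 2) (Fin 2) F) 1 0 = 0 := b.1.2
    have ha1 : (a.1.1 : Matrix (Fin 2) (Fin 2) F) 0 0 = 1 :=
      congrArg Units.val (MonoidHom.mem_ker.mp a.2)
    have hb1 : (b.1.1 : Matrix (Fin 2) (Fin 2) F) 0 0 = 1 :=
      congrArg Units.val (MonoidHom.mem_ker.mp b.2)
    have ha2 : (a.1.1 : Matrix (Fin 2) (Fin 2) F) 1 1 = 1 := by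
      have := borel_diag a.1.1 ha0
      rwa [ha1, one_mul] at this
    have hb2 : (b.1.1 : Matrix (Fin 2) (Fin 2) F) 1 1 = 1 := by
      have := borel_diag b.1.1 hb0
      rwa [hb1, one_mul] at this
    apply Subtype.ext
    apply Subtype.ext
    ext i j
    fin_cases i <;> fin_cases j <;>
      simp [Matrix.mul_apply, Fin.sum_univ_two, ha0, hb0, ha1, hb1, ha2, hb2, add_comm]
  exact Group.isSolvable_of_ker_le_range (chi (F := F)).ker.subtype chi (by simp)

open scoped LinearAlgebra.Projectivization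

theorem stabilizer_le_borel (h : (![1, 0] : Fin 2 → F) ≠ 0) :
    MulAction.stabilizer (SpecialLinearGroup (Fin 2) F) (Projectivization.mk F ![1, 0] h) ≤
      borel F := by
  intro g hg
  rw [MulAction.mem_stabilizer_iff, Projectivization.smul_mk, Projectivization.mk_eq_mk_iff] at hg
  obtain ⟨a, ha⟩ := hg
  have := congrFun ha 1
  rw [Matrix.SpecialLinearGroup.smul_def] at this
  change _ = ((g : Matrix (Fin 2) (Fin 2) F) *ᵥ ![1, 0]) 1 at this
  simp [Matrix.mulVec, dotProduct, Fin.sum_univ_two] at this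
  exact this.symm

end borel

/-- five is prime -/
instance fact_prime_five : Fact (Nat.Prime 5) := ⟨by norm_num⟩

theorem two_ne_zero_five : (2 : ZMod 5) ≠ 0 := by decide

theorem two_sq_ne_one_five : (2 : ZMod 5) ^ 2 ≠ 1 := by decide

/-- Finite perfect groups have solvable maximal subgroups of unbounded derived length: for every d there is a finite perfect group G (equal to its commutator subgroup) with a solvable maximal subgroup H whose derived length exceeds d, i.e. the d-th term of the derived series of H is non-trivial. (Take the derived subgroup of a wreath product S ≀ A₅ with S solvable of large derived length, and H the preimage of a maximal subgroup of A₅.) -/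
theorem result (d : ℕ) :
    ∃ (G : Type) (_ : Group G) (_ : Finite G) (H : Subgroup G), commutator G = ⊤ ∧ IsCoatom H ∧ Group.IsSolvable H ∧
      derivedSeries H d ≠ ⊥ := by
  obtain ⟨T, _, _, hsol, hd⟩ := exists_solvable d
  have h10 : (![1, 0] : Fin 2 → ZMod 5) ≠ 0 := by
    intro h
    have := congrFun h 0
    simp at this
  have h01 : (![0, 1] : Fin 2 → ZMod 5) ≠ 0 := by
    intro h
    have := congrFun h 1
    simp at this
  have h11 : (![1, 1] : Fin 2 → ZMod 5) ≠ 0 := by
    intro h
    have := congrFun h 1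
    simp at this
  have hne1 : Projectivization.mk (ZMod 5) ![1, 0] h10 ≠ Projectivization.mk (ZMod 5) ![0, 1] h01 := by
    intro h
    rw [Projectivization.mk_eq_mk_iff] at h
    obtain ⟨a, ha⟩ := h
    have := congrFun ha 0
    simp at this
  have hne2 : Projectivization.mk (ZMod 5) ![1, 0] h10 ≠ Projectivization.mk (ZMod 5) ![1, 1] h11 := by
    intro h
    rw [Projectivization.mk_eq_mk_iff] at h
    obtain ⟨a, ha⟩ := h
    have := congrFun ha 1
    simp [Units.smul_def] at this
  have hne3 : Projectivization.mk (ZMod 5) ![0, 1] h01 ≠ Projectivization.mk (ZMod 5) ![1, 1] h11 := by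
    intro h
    rw [Projectivization.mk_eq_mk_iff] at h
    obtain ⟨a, ha⟩ := h
    have := congrFun ha 0
    simp [Units.smul_def] at this
  have hnt : Nontrivial (Projectivization (ZMod 5) (Fin 2 → ZMod 5)) := ⟨_, _, hne1⟩
  have hfinΩ : Finite (Projectivization (ZMod 5) (Fin 2 → ZMod 5)) := Quotient.finite _
  have hsolB : Group.IsSolvable ↥(borel (ZMod 5)) := isSolvable_borel
  refine main_construction T (Matrix.SpecialLinearGroup (Fin 2) (ZMod 5))
    (Projectivization (ZMod 5) (Fin 2 → ZMod 5))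
    (Matrix.SL2.commutator_eq_top (a := (2 : ZMod 5)) two_ne_zero_five two_sq_ne_one_five) ?_
    (Projectivization.mk (ZMod 5) ![1, 0] h10) _ hne1
    (MulAction.IsPreprimitive.isCoatom_stabilizer_of_isPreprimitive _ _)
    (Group.isSolvable_of_isSolvable_injective
      (Subgroup.inclusion_injective (stabilizer_le_borel h10))) d hd
  intro j k hjk
  have h2t : MulAction.IsMultiplyPretransitive (Matrix.SpecialLinearGroup (Fin 2) (ZMod 5))
    (Projectivization (ZMod 5) (Fin 2 → ZMod 5)) 2 := inferInstance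
  rw [MulAction.is_two_pretransitive_iff] at h2t
  have hex : ∃ i : Projectivization (ZMod 5) (Fin 2 → ZMod 5), i ≠ j ∧ i ≠ k := by
    by_contra hcon
    push Not at hcon
    have key : ∀ i : Projectivization (ZMod 5) (Fin 2 → ZMod 5), i = j ∨ i = k := by
      intro i
      by_cases h : i = j
      · exact Or.inl h
      · exact Or.inr (hcon i h)
    rcases key (Projectivization.mk (ZMod 5) ![1, 0] h10) with h1 | h1 <;>
    rcases key (Projectivization.mk (ZMod 5) ![0, 1] h01) with h2 | h2 <;>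
    rcases key (Projectivization.mk (ZMod 5) ![1, 1] h11) with h3 | h3 <;>
    first
      | exact hne1 (h1.trans h2.symm)
      | exact hne2 (h1.trans h3.symm)
      | exact hne3 (h2.trans h3.symm)
  obtain ⟨i, hi1, hi2⟩ := hex
  obtain ⟨σ, hσ1, hσ2⟩ := h2t hi1 hi2
  exact ⟨i, σ, hi1, hi2, hσ1, hσ2⟩

end Cfsg.Agent.S5896
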