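import Cfsg.Statements.S5902
-- import your own Cfsg.Agent.* helpers here
import Cfsg.Agent.S5901

set_option autoImplicit false
open Cfsg

namespace Cfsg.Agent.S5902

theorem compl_of_conj {G : Type*} [Group G] (H : Subgroup G) (b : G)
    (h : ∃ C : Subgroup G, H.map (MulAut.conj b).toMonoidHom ⊔ C = ⊤ ∧
      H.map (MulAut.conj b).toMonoidHom ⊓ C = ⊥) :
    ∃ C : Subgroup G, H ⊔ C = ⊤ ∧ H ⊓ C = ⊥ := by
  obtain ⟨C, h1, h2⟩ := h
  let e : Subgroup G ≃o Subgroup G := (MulAut.conj b).mapSubgroup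
  have he : ∀ K : Subgroup G, e K = K.map (MulAut.conj b).toMonoidHom := fun K => rfl
  refine ⟨e.symm C, ?_, ?_⟩
  · apply e.injective
    rw [map_sup, OrderIso.apply_symm_apply, map_top, he, h1]
  · apply e.injective
    rw [map_inf, OrderIso.apply_symm_apply, map_bot, he, h2]

theorem interval_of_complemented {G : Type*} [Group G] (X : Subgroup G)
    (hK : ComplementedLattice (Subgroup X)) (Y : Subgroup G) (hY : Y ≤ X) :
    ∃ C : Subgroup G, ⊥ ≤ C ∧ C ≤ X ∧ Y ⊔ C = X ∧ Y ⊓ C = ⊥ := by
  obtain ⟨C', hC'⟩ := hK.exists_isCompl (Y.subgroupOf X)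
  refine ⟨C'.map X.subtype, bot_le, Subgroup.map_subtype_le C', ?_, ?_⟩
  · have := congrArg (Subgroup.map X.subtype) hC'.sup_eq_top
    rw [Subgroup.map_sup, Subgroup.map_subgroupOf_eq_of_le hY] at this
    rw [this, ← MonoidHom.range_eq_map, Subgroup.range_subtype]
  · have := congrArg (Subgroup.map X.subtype) hC'.inf_eq_bot
    rw [Subgroup.map_inf _ _ _ X.subtype_injective, Subgroup.map_subgroupOf_eq_of_le hY,
      Subgroup.map_bot] at this
    exact this

/-- Let G be a finite group, X a subgroup whose own subgroup lattice is complemented, and suppose X lies in exactly one maximal subgroup M of G. Then every subgroup H of G not contained in the normal core of M has a complement in the subgroup lattice of G (some C with H ⊔ C = G and H ⊓ C = 1); in particular the subgroup lattice of G modulo the normal core of M is complemented. -/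
theorem result {G : Type*} [Group G] [Finite G] (X M : Subgroup G)
    (hK : ComplementedLattice (Subgroup X))
    (hM : IsCoatom M) (hXM : X ≤ M) (huniq : ∀ M' : Subgroup G, IsCoatom M' → X ≤ M' → M' = M) :
    (∀ H : Subgroup G, ¬ H ≤ M.normalCore → ∃ C : Subgroup G, H ⊔ C = ⊤ ∧ H ⊓ C = ⊥) ∧
    ComplementedLattice (Subgroup (G ⧸ M.normalCore)) := by
  have key : ∀ H : Subgroup G, ¬ H ≤ M.normalCore → ∃ C : Subgroup G, H ⊔ C = ⊤ ∧ H ⊓ C = ⊥ := by
    intro H hH
    obtain ⟨h, hhH, hh⟩ := SetLike.not_le_iff_exists.mp hH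
    have : ∃ b : G, b * h * b⁻¹ ∉ M := by
      by_contra hcon
      push Not at hcon
      exact hh hcon
    obtain ⟨b, hb⟩ := this
    apply compl_of_conj H b
    refine Cfsg.Agent.S5901.result ⊥ X M bot_le ?_ ?_ hM hXM huniq _ ?_ (inf_bot_eq _)
    · rintro rfl
      exact hM.1 (top_le_iff.mp hXM)
    · intro Y _ hY
      exact interval_of_complemented X hK Y hY
    · intro hle
      exact hb (hle (Subgroup.mem_map.mpr ⟨h, hhH, rfl⟩))
  refine ⟨key, ⟨fun Hb => ?_⟩⟩
  by_cases hbot : Hb = ⊥
  · exact ⟨⊤, hbot ▸ isCompl_bot_top⟩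
  have hsurj : Function.Surjective (QuotientGroup.mk' M.normalCore) := QuotientGroup.mk'_surjective _
  obtain ⟨C, h1, h2⟩ := key (Hb.comap (QuotientGroup.mk' M.normalCore)) (by
    intro hle
    apply hbot
    rw [eq_bot_iff, ← Subgroup.map_comap_eq_self_of_surjective hsurj Hb]
    refine (Subgroup.map_mono hle).trans ?_
    rw [QuotientGroup.map_mk'_self])
  refine ⟨C.map (QuotientGroup.mk' M.normalCore), ?_, ?_⟩
  · rw [disjoint_iff, eq_bot_iff]
    rintro x ⟨hx1, hx2⟩
    obtain ⟨c, hc, rfl⟩ := Subgroup.mem_map.mp hx2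
    have : c ∈ Hb.comap (QuotientGroup.mk' M.normalCore) ⊓ C := ⟨hx1, hc⟩
    rw [h2, Subgroup.mem_bot] at this
    rw [this, map_one]
    exact Subgroup.one_mem _
  · rw [codisjoint_iff]
    have := congrArg (Subgroup.map (QuotientGroup.mk' M.normalCore)) h1
    rw [Subgroup.map_sup, Subgroup.map_comap_eq_self_of_surjective hsurj,
      Subgroup.map_top_of_surjective _ hsurj] at this
    exact this

end Cfsg.Agent.S5902
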