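import Cfsg.Statements.S5903
-- import your own Cfsg.Agent.* helpers here
import Cfsg.Agent.S5901
import Cfsg.Agent.S5902

set_option autoImplicit false
open Cfsg

namespace Cfsg.Agent.S5903

theorem interval_of_quotient {G : Type*} [Group G] (X N : Subgroup G) (hNX : N ≤ X)
    [(N.subgroupOf X).Normal] (hK : ComplementedLattice (Subgroup (X ⧸ N.subgroupOf X)))
    (Y : Subgroup G) (hNY : N ≤ Y) (hY : Y ≤ X) :
    ∃ C : Subgroup G, N ≤ C ∧ C ≤ X ∧ Y ⊔ C = X ∧ Y ⊓ C = N := by
  set π := QuotientGroup.mk' (N.subgroupOf X) with hπ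
  have hsurj : Function.Surjective π := QuotientGroup.mk'_surjective _
  have hker : π.ker = N.subgroupOf X := QuotientGroup.ker_mk' _
  obtain ⟨Cb, hCb⟩ := hK.exists_isCompl ((Y.subgroupOf X).map π)
  have hYY : ((Y.subgroupOf X).map π).comap π = Y.subgroupOf X := by
    apply Subgroup.comap_map_eq_self
    rw [hker]
    exact Subgroup.comap_mono hNY
  have h1 : Y.subgroupOf X ⊔ Cb.comap π = ⊤ := by
    have := congrArg (Subgroup.comap π) hCb.sup_eq_top
    rw [← Subgroup.comap_sup_eq _ _ _ hsurj, hYY, Subgroup.comap_top] at this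
    exact this
  have h2 : Y.subgroupOf X ⊓ Cb.comap π = N.subgroupOf X := by
    have := congrArg (Subgroup.comap π) hCb.inf_eq_bot
    rw [Subgroup.comap_inf, hYY] at this
    exact this.trans hker
  refine ⟨(Cb.comap π).map X.subtype, ?_, Subgroup.map_subtype_le _, ?_, ?_⟩
  · have h3 : (N.subgroupOf X).map X.subtype ≤ (Cb.comap π).map X.subtype :=
      Subgroup.map_mono (h2.symm.le.trans inf_le_right)
    rwa [Subgroup.map_subgroupOf_eq_of_le hNX] at h3
  · have := congrArg (Subgroup.map X.subtype) h1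
    rw [Subgroup.map_sup, Subgroup.map_subgroupOf_eq_of_le hY] at this
    rw [this, ← MonoidHom.range_eq_map, Subgroup.range_subtype]
  · have := congrArg (Subgroup.map X.subtype) h2
    rw [Subgroup.map_inf _ _ _ X.subtype_injective, Subgroup.map_subgroupOf_eq_of_le hY,
      Subgroup.map_subgroupOf_eq_of_le hNX] at this
    exact this

theorem exists_good_conj {G : Type*} [Group G] [IsSimpleGroup G] (M N H : Subgroup G)
    (hN : N ≠ ⊥) (hcen : ∀ n ∈ N, ∀ m ∈ M, m * n = n * m) (hH0 : H ≠ ⊥) (hH1 : H ≠ ⊤) :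
    ∃ b : G, ¬ H.map (MulAut.conj b).toMonoidHom ≤ M ∧ ¬ N ≤ H.map (MulAut.conj b).toMonoidHom := by
  by_contra hcon
  push Not at hcon
  have hle : Subgroup.normalClosure (N : Set G) ≤ Subgroup.normalizer (H : Set G) := by
    rw [Subgroup.normalClosure, Subgroup.closure_le]
    intro x hx
    obtain ⟨n, hn, hconj⟩ := Group.mem_conjugatesOfSet_iff.mp hx
    obtain ⟨c, rfl⟩ := isConj_iff.mp hconj
    by_cases hc : H.map (MulAut.conj c⁻¹).toMonoidHom ≤ M
    · rw [SetLike.mem_coe, Subgroup.mem_normalizer_iff]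
      intro h
      have hcomm : ∀ h ∈ H, c * n * c⁻¹ * h * (c * n * c⁻¹)⁻¹ = h := by
        intro h hh
        have h3 : c⁻¹ * h * c ∈ M := hc (Subgroup.mem_map.mpr ⟨h, hh, by simp⟩)
        have h4 := hcen n hn _ h3
        have h5 : n * (c⁻¹ * h * c) * n⁻¹ = c⁻¹ * h * c := by rw [← h4]; group
        calc c * n * c⁻¹ * h * (c * n * c⁻¹)⁻¹ = c * (n * (c⁻¹ * h * c) * n⁻¹) * c⁻¹ := by group
          _ = h := by rw [h5]; group
      constructor
      · intro hh
        rw [hcomm h hh]; exact hh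
      · intro hh
        have h6 := hcomm _ hh
        have h7 : c * n * c⁻¹ * h * (c * n * c⁻¹)⁻¹ = h := by
          have := congrArg (fun y => (c * n * c⁻¹)⁻¹ * y * (c * n * c⁻¹)) h6
          calc c * n * c⁻¹ * h * (c * n * c⁻¹)⁻¹
              = (c * n * c⁻¹)⁻¹ * (c * n * c⁻¹ * (c * n * c⁻¹ * h * (c * n * c⁻¹)⁻¹) * (c * n * c⁻¹)⁻¹) * (c * n * c⁻¹) := by group
            _ = (c * n * c⁻¹)⁻¹ * (c * n * c⁻¹ * h * (c * n * c⁻¹)⁻¹) * (c * n * c⁻¹) := this
            _ = h := by group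
        rw [← h7]; exact hh
    · obtain ⟨h, hh, hhn⟩ := Subgroup.mem_map.mp (hcon c⁻¹ hc hn)
      apply Subgroup.le_normalizer
      have : c * n * c⁻¹ = h := by
        rw [← hhn]; simp [mul_assoc]
      rw [this]; exact hh
  have htop : Subgroup.normalClosure (N : Set G) = ⊤ := by
    refine (Subgroup.normalClosure_normal.eq_bot_or_eq_top).resolve_left ?_
    intro hbot
    apply hN
    rw [eq_bot_iff, ← hbot]
    exact Subgroup.subset_normalClosure
  rw [htop, top_le_iff] at hle
  have hnorm : H.Normal := Subgroup.normalizer_eq_top_iff.mp hle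
  rcases hnorm.eq_bot_or_eq_top with h | h
  · exact hH0 h
  · exact hH1 h

/-- Let G be a finite simple group, X a subgroup lying in exactly one maximal subgroup M of G, and N a subgroup of prime order with N ≤ X that is central in M. If the subgroup lattice of X/N is complemented, then the subgroup lattice of G is complemented. -/
theorem result {G : Type*} [Group G] [Finite G] [IsSimpleGroup G] (X M N : Subgroup G)
    (hM : IsCoatom M) (hXM : X ≤ M) (huniq : ∀ M' : Subgroup G, IsCoatom M' → X ≤ M' → M' = M)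
    (hNX : N ≤ X) (hN : (Nat.card N).Prime) (hcen : ∀ n ∈ N, ∀ m ∈ M, m * n = n * m)
    [(N.subgroupOf X).Normal] (hK : ComplementedLattice (Subgroup (X ⧸ N.subgroupOf X))) :
    ComplementedLattice (Subgroup G) := by
  refine ⟨fun H => ?_⟩
  by_cases hH0 : H = ⊥
  · exact ⟨⊤, hH0 ▸ isCompl_bot_top⟩
  by_cases hH1 : H = ⊤
  · exact ⟨⊥, hH1 ▸ isCompl_top_bot⟩
  have hNbot : N ≠ ⊥ := by
    rintro rfl
    rw [Subgroup.card_bot] at hN
    exact Nat.not_prime_one hN
  obtain ⟨b, hb1, hb2⟩ := exists_good_conj M N H hNbot hcen hH0 hH1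
  have : ∃ C : Subgroup G, H ⊔ C = ⊤ ∧ H ⊓ C = ⊥ := by
    apply Cfsg.Agent.S5902.compl_of_conj H b
    refine Cfsg.Agent.S5901.result N X M hNX ?_ ?_ hM hXM huniq _ hb1 ?_
    · rintro rfl
      exact hM.1 (top_le_iff.mp hXM)
    · intro Y hNY hY
      exact interval_of_quotient X N hNX hK Y hNY hY
    · have : Fact (Nat.card N).Prime := ⟨hN⟩
      rcases Subgroup.eq_bot_or_eq_top_of_prime_card
        ((H.map (MulAut.conj b).toMonoidHom).subgroupOf N) with h | h
      · exact (Subgroup.subgroupOf_eq_bot.mp h).eq_bot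
      · exact absurd (Subgroup.subgroupOf_eq_top.mp h) hb2
  obtain ⟨C, h1, h2⟩ := this
  exact ⟨C, disjoint_iff.mpr h2, codisjoint_iff.mpr h1⟩

end Cfsg.Agent.S5903
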