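import Cfsg.Statements.S5908
import Cfsg.Agent.Lib.Helper65.PSU32

set_option autoImplicit false
open Cfsg

namespace Cfsg.Agent.S5908

lemma quat_key : ∀ q : QuaternionGroup 2, (q ^ 2 = 1 ∨ q ^ 3 = 1) → q = 1 ∨ q = QuaternionGroup.a 2 := by
  decide

lemma quat_a1 : (QuaternionGroup.a 1 : QuaternionGroup 2) ≠ 1 ∧
    (QuaternionGroup.a 1 : QuaternionGroup 2) ≠ QuaternionGroup.a 2 := by
  decide

lemma quat_sq : (QuaternionGroup.a 2 : QuaternionGroup 2) * QuaternionGroup.a 2 = 1 := by
  decide

/-- The subgroup lattice of PSU₃(2) (the solvable group of order 72, realised over the field with 4 elements) is not complemented: some subgroup H has no subgroup X with H ⊔ X = ⊤ and H ⊓ X = ⊥. -/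
theorem result {F : Type*} [Field F] [Fintype F] (hF : Fintype.card F = 4) :
    ¬ ComplementedLattice (Subgroup (Cfsg.PSU 3 F 2)) := by
  intro hcl
  obtain ⟨N, hNn, -, -, ⟨e⟩⟩ := Cfsg.Agent.Lib.Helper65.PSU32.main hF
  have hcard := (Cfsg.Agent.S0282.result hF).1
  have : Finite (Cfsg.PSU 3 F 2) := Nat.finite_of_card_ne_zero (by rw [hcard]; norm_num)
  let ψ : Cfsg.PSU 3 F 2 →* QuaternionGroup 2 := e.toMonoidHom.comp (QuotientGroup.mk' N)
  have hψ : Function.Surjective ψ := e.surjective.comp (QuotientGroup.mk'_surjective N)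
  let Z : Subgroup (QuaternionGroup 2) :=
    { carrier := {q | q = 1 ∨ q = QuaternionGroup.a 2}
      one_mem' := Or.inl rfl
      mul_mem' := by
        rintro _ _ (rfl | rfl) (rfl | rfl)
        · left; simp
        · right; simp
        · right; simp
        · left; exact quat_sq
      inv_mem' := by
        rintro _ (rfl | rfl)
        · left; simp
        · right; exact inv_eq_of_mul_eq_one_right quat_sq }
  let H := Z.comap ψ
  obtain ⟨K, hK⟩ := hcl.exists_isCompl H
  have hKbot : K = ⊥ := by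
    rw [Subgroup.eq_bot_iff_forall]
    intro x hx
    by_contra hx1
    have ho : orderOf x ≠ 1 := fun h => hx1 (orderOf_eq_one_iff.mp h)
    obtain ⟨p, hp, hpx⟩ := Nat.exists_prime_and_dvd ho
    obtain ⟨c, hc⟩ := hpx
    have hc0 : 0 < c := by
      rcases Nat.eq_zero_or_pos c with h | h
      · rw [h, mul_zero] at hc
        exact absurd hc (orderOf_pos x).ne'
      · exact h
    set y := x ^ c with hy
    have hyK : y ∈ K := K.pow_mem hx c
    have hyp : y ^ p = 1 := by
      rw [hy, ← pow_mul, mul_comm, ← hc, pow_orderOf_eq_one]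
    have hy1 : y ≠ 1 := by
      intro h
      have h1 := orderOf_dvd_of_pow_eq_one h
      rw [hc] at h1
      have h2 := Nat.le_of_dvd hc0 h1
      have h3 := hp.two_le
      nlinarith
    have hp72 : p ∣ 2 ^ 3 * 3 ^ 2 := by
      have h1 : p ∣ orderOf x := ⟨c, hc⟩
      have h2 := h1.trans (orderOf_dvd_natCard x)
      rw [hcard] at h2
      exact h2
    have hp23 : p = 2 ∨ p = 3 := by
      rcases (Nat.Prime.dvd_mul hp).mp hp72 with h | h
      · left; exact (Nat.prime_dvd_prime_iff_eq hp Nat.prime_two).mp (hp.dvd_of_dvd_pow h)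
      · right; exact (Nat.prime_dvd_prime_iff_eq hp Nat.prime_three).mp (hp.dvd_of_dvd_pow h)
    have hyH : y ∈ H := by
      show ψ y = 1 ∨ ψ y = QuaternionGroup.a 2
      apply quat_key
      rcases hp23 with h | h
      · left; rw [h] at hyp; rw [← map_pow, hyp, map_one]
      · right; rw [h] at hyp; rw [← map_pow, hyp, map_one]
    have : y ∈ H ⊓ K := ⟨hyH, hyK⟩
    rw [hK.inf_eq_bot, Subgroup.mem_bot] at this
    exact hy1 this
  have hHtop : H = ⊤ := by
    have := hK.sup_eq_top
    rwa [hKbot, sup_bot_eq] at this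
  obtain ⟨g, hg⟩ := hψ (QuaternionGroup.a 1)
  have hgH : g ∈ H := hHtop ▸ Subgroup.mem_top g
  have : ψ g = 1 ∨ ψ g = QuaternionGroup.a 2 := hgH
  rw [hg] at this
  rcases this with h | h
  · exact quat_a1.1 h
  · exact quat_a1.2 h

end Cfsg.Agent.S5908
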