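import Cfsg.Statements.S5910
import Mathlib

set_option autoImplicit false
open Cfsg

namespace Cfsg.Agent.S5910

open Equiv

abbrev U := ZMod 2 × ZMod 2
abbrev M := U × ZMod 2

def chi (t : ZMod 2) : ℤˣ := if t = 0 then 1 else -1

theorem sign_addRight (t : ZMod 2) : Perm.sign (Equiv.addRight t : Perm (ZMod 2)) = chi t := by
  revert t; decide

theorem even_affine : ∀ s : U → ZMod 2, ∏ u, chi (s u) = 1 →
    ∀ a b c, s (a + b + c) = s a + s b + s c := by
  decide

set_option maxRecDepth 1000000 in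
theorem perm_affine : ∀ π : U → U, Function.Injective π →
    ∀ a b c, π (a + b + c) = π a + π b + π c := by
  decide

/-- the affine group of `M = F_2^3` -/
def Aff : Subgroup (Perm M) where
  carrier := {σ | ∀ a b c, σ (a + b + c) = σ a + σ b + σ c}
  mul_mem' := by
    intro σ τ hσ hτ a b c
    rw [Perm.mul_apply, hτ, hσ]; rfl
  one_mem' := fun a b c => rfl
  inv_mem' := by
    intro σ hσ a b c
    rw [Perm.inv_eq_iff_eq, hσ]
    simp

theorem zmod2_ne (a b : ZMod 2) (h : a ≠ b) : a = b + 1 := by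
  revert a b; decide

/-- an even permutation of `M` preserving the fibres of the first projection is affine -/
theorem mem_Aff (g : Perm M) (hg : ∀ m n : M, m.1 = n.1 ↔ (g m).1 = (g n).1)
    (hs : Perm.sign g = 1) : g ∈ Aff := by
  let π : U → U := fun u => (g (u, 0)).1
  let s : U → ZMod 2 := fun u => (g (u, 0)).2
  have hπ : ∀ u b, (g (u, b)).1 = π u := fun u b => (hg (u, b) (u, 0)).mp rfl
  have hπinj : Function.Injective π := by
    intro u v huv
    exact (hg (u, 0) (v, 0)).mpr huv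
  have hs1 : ∀ u, (g (u, 1)).2 = s u + 1 := by
    intro u
    apply zmod2_ne
    intro h
    have : g (u, 1) = g (u, 0) := Prod.ext ((hπ u 1).trans (hπ u 0).symm) h
    have h2 := g.injective this
    simp at h2
  have hform : ∀ u b, g (u, b) = (π u, b + s u) := by
    intro u b
    have hb : b = 0 ∨ b = 1 := by revert b; decide
    rcases hb with rfl | rfl
    · exact Prod.ext rfl (by simp [s])
    · exact Prod.ext (hπ u 1) (by rw [hs1, add_comm])
  let π' : Perm U := Equiv.ofBijective π ⟨hπinj, Finite.injective_iff_surjective.mp hπinj⟩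
  have hprod : g = (Equiv.prodCongrLeft (fun _ : ZMod 2 => π') : Perm M) *
      (Equiv.prodCongrRight (fun u : U => (Equiv.addRight (s u) : Perm (ZMod 2))) : Perm M) := by
    ext1 ⟨u, b⟩
    rw [hform]
    rfl
  have hsign : ∏ u, chi (s u) = 1 := by
    rw [hprod, Perm.sign_mul, Perm.sign_prodCongrLeft, Perm.sign_prodCongrRight] at hs
    have h1 : ∏ _k : ZMod 2, Perm.sign π' = 1 := by
      rw [Finset.prod_const, Finset.card_univ, ZMod.card]
      exact Int.units_sq _
    rw [h1, one_mul] at hs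
    rw [← hs]
    exact Finset.prod_congr rfl fun u _ => (sign_addRight _).symm
  have h1 := even_affine s hsign
  have h2 := perm_affine π hπinj
  rintro ⟨a1, a2⟩ ⟨b1, b2⟩ ⟨c1, c2⟩
  show g (a1 + b1 + c1, a2 + b2 + c2) = g (a1, a2) + g (b1, b2) + g (c1, c2)
  rw [hform, hform, hform, hform, h1, h2]
  ext <;> simp <;> ring

def h0 : Perm M :=
  ⟨fun m => ((m.1.1, m.2), m.1.2), fun m => ((m.1.1, m.2), m.1.2), fun _ => rfl, fun _ => rfl⟩

theorem h0_eq : h0 = swap (((0, 1), 0) : M) ((0, 0), 1) * swap (((1, 1), 0) : M) ((1, 0), 1) := by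
  decide

theorem h0_sign : Perm.sign h0 = 1 := by
  rw [h0_eq, Perm.sign_mul, Perm.sign_swap (by decide), Perm.sign_swap (by decide)]
  rfl

theorem h0_mem : h0 ∈ Aff := by
  intro a b c
  rfl

def t0 : Perm M := swap (((0, 0), 0) : M) ((0, 0), 1) * swap (((0, 0), 1) : M) ((0, 1), 0)

theorem t0_sign : Perm.sign t0 = 1 := by
  rw [t0, Perm.sign_mul, Perm.sign_swap (by decide), Perm.sign_swap (by decide)]
  rfl

theorem t0_not_mem : t0 ∉ Aff := by
  intro h
  have := h ((1, 0), 0) ((1, 0), 1) ((0, 0), 0)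
  revert this
  decide

/-- Let Ω be a set with 8 elements and f : Ω → Fin 4 a labelling whose four fibres all have size 2 (a partition of the 8 points into 4 pairs). Then the group of even permutations preserving this partition, (S₂ ≀ S₄) ∩ A₈, is not a maximal subgroup of the alternating group A₈ (it lies in a subgroup isomorphic to the affine group AGL₃(2)). -/
theorem result {Ω : Type*} [Fintype Ω] [DecidableEq Ω] (h8 : Fintype.card Ω = 8)
    (f : Ω → Fin 4) (hf : ∀ i : Fin 4, Nat.card {x : Ω // f x = i} = 2) :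
    ¬ IsCoatom ((Subgroup.closure {g : Equiv.Perm Ω | ∀ x y : Ω, f x = f y ↔ f (g x) = f (g y)} ⊓ alternatingGroup Ω).subgroupOf (alternatingGroup Ω)) := by
  -- coordinates
  have β : Fin 4 ≃ U := Fintype.equivOfCardEq (by simp [U])
  have ε : ∀ i : Fin 4, {x : Ω // f x = i} ≃ ZMod 2 := fun i =>
    (Finite.equivFinOfCardEq (hf i)).trans (Fintype.equivOfCardEq (by simp))
  obtain ⟨e, he⟩ : ∃ e : Ω ≃ M, ∀ x, (e x).1 = β (f x) :=
    ⟨(Equiv.sigmaFiberEquiv f).symm.trans ((Equiv.sigmaCongrRight ε).trans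
      ((Equiv.sigmaEquivProd _ _).trans (Equiv.prodCongr β (Equiv.refl _)))), fun x => rfl⟩
  have hfe : ∀ x y : Ω, f x = f y ↔ (e x).1 = (e y).1 := by
    intro x y
    rw [he, he]
    exact β.injective.eq_iff.symm
  -- the stabiliser of the partition is a subgroup
  let St : Subgroup (Perm Ω) :=
    { carrier := {g | ∀ x y : Ω, f x = f y ↔ f (g x) = f (g y)}
      mul_mem' := by
        intro a b ha hb x y
        rw [Perm.mul_apply, Perm.mul_apply, ← ha, ← hb]
      one_mem' := fun x y => Iff.rfl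
      inv_mem' := by
        intro a ha x y
        have := ha (a⁻¹ x) (a⁻¹ y)
        have e1 : ∀ z, a (a⁻¹ z) = z := fun z => by rw [← Perm.mul_apply, mul_inv_cancel]; rfl
        rw [e1, e1] at this
        exact this.symm }
  have hcl : Subgroup.closure {g : Equiv.Perm Ω | ∀ x y : Ω, f x = f y ↔ f (g x) = f (g y)} = St :=
    Subgroup.closure_eq St
  rw [hcl]
  let HΩ : Subgroup (Perm Ω) := Aff.comap e.permCongrHom.toMonoidHom
  have hHmem : ∀ g : Perm Ω, g ∈ HΩ ↔ e.permCongr g ∈ Aff := fun g => Iff.rfl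
  have hle : St ⊓ alternatingGroup Ω ≤ HΩ ⊓ alternatingGroup Ω := by
    intro g hg
    obtain ⟨hg1, hg2⟩ := Subgroup.mem_inf.mp hg
    refine Subgroup.mem_inf.mpr ⟨?_, hg2⟩
    rw [hHmem]
    apply mem_Aff
    · intro m n
      have h1 := hg1 (e.symm m) (e.symm n)
      rw [hfe, hfe] at h1
      simpa [Equiv.permCongr_apply] using h1
    · rw [Perm.sign_permCongr]
      exact Perm.mem_alternatingGroup.mp hg2
  intro hco
  -- the extra element
  let hΩ : Perm Ω := e.symm.permCongr h0
  have hΩe : e.permCongr hΩ = h0 := by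
    ext1 m
    simp [hΩ, Equiv.permCongr_apply]
  have hΩalt : hΩ ∈ alternatingGroup Ω := by
    rw [Perm.mem_alternatingGroup, Perm.sign_permCongr]; exact h0_sign
  have hΩH : hΩ ∈ HΩ := by rw [hHmem, hΩe]; exact h0_mem
  have hΩSt : hΩ ∉ St := by
    intro h
    have h1 := h (e.symm ((0, 0), 0)) (e.symm ((0, 0), 1))
    rw [hfe, hfe] at h1
    simp only [hΩ, Equiv.permCongr_apply, Equiv.symm_symm, Equiv.apply_symm_apply] at h1
    revert h1
    decide
  have hlt : (St ⊓ alternatingGroup Ω).subgroupOf (alternatingGroup Ω)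
      < (HΩ ⊓ alternatingGroup Ω).subgroupOf (alternatingGroup Ω) := by
    refine lt_of_le_of_ne (Subgroup.comap_mono hle) ?_
    intro heq
    have h1 : (⟨hΩ, hΩalt⟩ : alternatingGroup Ω) ∈ (HΩ ⊓ alternatingGroup Ω).subgroupOf (alternatingGroup Ω) :=
      Subgroup.mem_subgroupOf.mpr (Subgroup.mem_inf.mpr ⟨hΩH, hΩalt⟩)
    rw [← heq] at h1
    exact hΩSt (Subgroup.mem_inf.mp (Subgroup.mem_subgroupOf.mp h1)).1
  have htop := hco.2 _ hlt
  let tΩ : Perm Ω := e.symm.permCongr t0
  have tΩe : e.permCongr tΩ = t0 := by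
    ext1 m
    simp [tΩ, Equiv.permCongr_apply]
  have tΩalt : tΩ ∈ alternatingGroup Ω := by
    rw [Perm.mem_alternatingGroup, Perm.sign_permCongr]; exact t0_sign
  have h2 : (⟨tΩ, tΩalt⟩ : alternatingGroup Ω) ∈ (HΩ ⊓ alternatingGroup Ω).subgroupOf (alternatingGroup Ω) := by
    rw [htop]; trivial
  have h3 := (Subgroup.mem_inf.mp (Subgroup.mem_subgroupOf.mp h2)).1
  rw [hHmem, tΩe] at h3
  exact t0_not_mem h3

end Cfsg.Agent.S5910
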