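import Cfsg.Statements.S5911
-- import your own Cfsg.Agent.* helpers here
import Cfsg.Agent.Lib.Helper98.IndexN

set_option autoImplicit false
open Cfsg

namespace Cfsg.Agent.S5911

open Equiv Equiv.Perm Cfsg.Agent.Lib.Helper98

theorem case_four {Ω : Type*} [Fintype Ω] [DecidableEq Ω] (h4 : Fintype.card Ω = 4)
    (H : Subgroup (Perm Ω)) (hH : H.index = Fintype.card Ω) :
    ∃ x : Ω, H = MulAction.stabilizer (Perm Ω) x := by
  have hcardH : Nat.card H = 6 := by
    have h1 := H.card_mul_index
    rw [hH, Nat.card_perm, Nat.card_eq_fintype_card (α := Ω), h4] at h1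
    have : Nat.factorial 4 = 24 := by decide
    omega
  have : Fact (Nat.Prime 3) := ⟨Nat.prime_three⟩
  obtain ⟨h, hh⟩ := exists_prime_orderOf_dvd_card' (G := H) 3 (by rw [hcardH]; decide)
  have hKcard : Nat.card (Subgroup.zpowers h) = 3 := by rw [Nat.card_zpowers, hh]
  have hKidx : (Subgroup.zpowers h).index = 2 := by
    have h1 := (Subgroup.zpowers h).card_mul_index
    rw [hKcard, hcardH] at h1
    omega
  have hKn : (Subgroup.zpowers h).Normal := Subgroup.normal_of_index_eq_two hKidx
  have hord : orderOf (h : Perm Ω) = 3 := by rw [Subgroup.orderOf_coe, hh]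
  obtain ⟨m, hm⟩ := cycleType_prime_order (σ := (h : Perm Ω)) (by rw [hord]; exact Nat.prime_three)
  rw [hord] at hm
  have hsupp : (h : Perm Ω).support.card = 3 := by
    have h1 := (h : Perm Ω).sum_cycleType
    rw [hm, Multiset.sum_replicate, smul_eq_mul] at h1
    have h2 := Finset.card_le_univ (h : Perm Ω).support
    rw [h4] at h2
    omega
  have hcompl : ((h : Perm Ω).support)ᶜ.card = 1 := by
    rw [Finset.card_compl, hsupp, h4]
  obtain ⟨c, hc⟩ := Finset.card_eq_one.mp hcompl
  have hfix : ∀ x, (h : Perm Ω) x = x ↔ x = c := by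
    intro x
    rw [← Perm.notMem_support, ← Finset.mem_compl, hc, Finset.mem_singleton]
  refine ⟨c, eq_stabilizer_of_le H hH c ?_⟩
  intro g hg
  rw [MulAction.mem_stabilizer_iff]
  obtain ⟨j, hj⟩ := Subgroup.mem_zpowers_iff.mp (hKn.conj_mem h (Subgroup.mem_zpowers h) ⟨g, hg⟩)
  have hj' : (h : Perm Ω) ^ j = g * h * g⁻¹ := by
    have := congrArg (Subtype.val) hj
    simpa using this
  have h1 : ((h : Perm Ω) ^ j) c = c := zpow_apply_eq_self_of_apply_eq_self ((hfix c).mpr rfl) j
  rw [hj'] at h1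
  have h2 : (h : Perm Ω) (g⁻¹ c) = g⁻¹ c := by
    have := congrArg (fun x => g⁻¹ x) h1
    simpa using this
  have h3 := (hfix _).mp h2
  have h4' := congrArg (fun x => g x) h3
  simpa using h4'.symm

/-- Let Ω be a finite set whose size n is not 6. Then every subgroup of the symmetric group on Ω of index n is the stabilizer of a point. -/
theorem result {Ω : Type*} [Fintype Ω] [DecidableEq Ω] (h6 : Fintype.card Ω ≠ 6)
    (H : Subgroup (Equiv.Perm Ω)) (hH : H.index = Fintype.card Ω) :
    ∃ x : Ω, H = MulAction.stabilizer (Equiv.Perm Ω) x := by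
  rcases (by omega : Fintype.card Ω = 0 ∨ Fintype.card Ω = 1 ∨ Fintype.card Ω = 2 ∨
    Fintype.card Ω = 3 ∨ Fintype.card Ω = 4 ∨ 5 ≤ Fintype.card Ω) with h | h | h | h | h | h
  · rw [h] at hH
    exact absurd hH Subgroup.index_ne_zero_of_finite
  · obtain ⟨x⟩ : Nonempty Ω := Fintype.card_pos_iff.mp (by omega)
    have hss : Subsingleton Ω := Fintype.card_le_one_iff_subsingleton.mp (by omega)
    exact ⟨x, Cfsg.Agent.Lib.Helper98.eq_stabilizer_of_le H hH x
      (fun g _ => Subsingleton.elim _ _)⟩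
  · obtain ⟨x⟩ : Nonempty Ω := Fintype.card_pos_iff.mp (by omega)
    refine ⟨x, Cfsg.Agent.Lib.Helper98.eq_stabilizer_of_le H hH x ?_⟩
    have h1 := H.card_mul_index
    rw [hH, Nat.card_perm, Nat.card_eq_fintype_card (α := Ω), h] at h1
    have h2 : Nat.card H = 1 := by
      have : Nat.factorial 2 = 2 := by decide
      omega
    rw [Subgroup.eq_bot_of_card_eq H h2]
    exact bot_le
  · have h1 := H.card_mul_index
    rw [hH, Nat.card_perm, Nat.card_eq_fintype_card (α := Ω), h] at h1
    have h2 : Nat.card H = 2 ^ 1 := by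
      have : Nat.factorial 3 = 6 := by decide
      omega
    have : Fact (Nat.Prime 2) := ⟨Nat.prime_two⟩
    have hp : IsPGroup 2 H := IsPGroup.of_card h2
    have h3 := hp.card_modEq_card_fixedPoints Ω
    rw [Nat.card_eq_fintype_card, h] at h3
    have h4 : Nat.card (MulAction.fixedPoints H Ω) ≠ 0 := by
      intro h0
      rw [h0] at h3
      exact absurd h3 (by decide)
    obtain ⟨⟨x, hx⟩⟩ := (Nat.card_pos_iff.mp (Nat.pos_of_ne_zero h4)).1
    exact ⟨x, Cfsg.Agent.Lib.Helper98.eq_stabilizer_of_le H hH x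
      (fun g hg => hx ⟨g, hg⟩)⟩
  · exact case_four h H hH
  · exact Cfsg.Agent.Lib.Helper98.eq_stabilizer_of_index h h6 H hH

end Cfsg.Agent.S5911
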