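import Cfsg.Statements.S5912
-- import your own Cfsg.Agent.* helpers here
import Cfsg.Agent.Lib.Helper98.IndexSix

set_option autoImplicit false
open Cfsg

namespace Cfsg.Agent.S5912

/-- The symmetric group on a 6-element set Ω has exactly two conjugacy classes of subgroups of index 6: there are two non-conjugate subgroups of index 6 (a point stabilizer and a transitive subgroup isomorphic to S₅), and every subgroup of index 6 is conjugate to one of them. -/
theorem result {Ω : Type*} [Fintype Ω] [DecidableEq Ω] (h6 : Fintype.card Ω = 6) :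
    ∃ H₁ H₂ : Subgroup (Equiv.Perm Ω), H₁.index = 6 ∧ H₂.index = 6 ∧
      (¬ ∃ g : Equiv.Perm Ω, Subgroup.map (MulAut.conj g).toMonoidHom H₁ = H₂) ∧
      ∀ H : Subgroup (Equiv.Perm Ω), H.index = 6 →
        ∃ g : Equiv.Perm Ω, Subgroup.map (MulAut.conj g).toMonoidHom H₁ = H ∨ Subgroup.map (MulAut.conj g).toMonoidHom H₂ = H := by

  obtain ⟨H₂, hH₂, hex⟩ := Cfsg.Agent.Lib.Helper98.exists_exotic h6
  have hne : Nonempty Ω := Fintype.card_pos_iff.mp (by omega)
  obtain ⟨x0⟩ := hne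
  refine ⟨MulAction.stabilizer (Equiv.Perm Ω) x0, H₂, ?_, hH₂, ?_, ?_⟩
  · rw [MulAction.index_stabilizer_of_transitive, Nat.card_eq_fintype_card, h6]
  · rintro ⟨g, hg⟩
    rw [Cfsg.Agent.Lib.Helper98.map_conj_stabilizer] at hg
    exact hex _ hg.ge
  · intro H hH
    rcases Cfsg.Agent.Lib.Helper98.index_six_cases h6 H₂ hH₂ hex H hH with ⟨x, rfl⟩ | ⟨c, rfl⟩
    · refine ⟨Equiv.swap x0 x, Or.inl ?_⟩
      rw [Cfsg.Agent.Lib.Helper98.map_conj_stabilizer, Equiv.swap_apply_left]
    · exact ⟨c, Or.inr rfl⟩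

end Cfsg.Agent.S5912
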