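import Cfsg.Statements.S5913
-- import your own Cfsg.Agent.* helpers here

set_option autoImplicit false
open Cfsg

namespace Cfsg.Agent.S5913

theorem general {ι S : Type*} [Fintype ι] [DecidableEq ι] [Group S] [IsSimpleGroup S]
    (hS : ¬ IsMulCommutative S) (N : Subgroup (ι → S)) [N.Normal] :
    ∃ T : Finset ι, ∀ x : ι → S, x ∈ N ↔ ∀ i, i ∉ T → x i = 1 := by
  classical
  have hcenter : Subgroup.center S = ⊥ := by
    refine ((inferInstance : (Subgroup.center S).Normal).eq_bot_or_eq_top).resolve_right ?_
    intro htop
    apply hS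
    refine ⟨⟨fun a b => ?_⟩⟩
    have : a ∈ Subgroup.center S := htop ▸ Subgroup.mem_top a
    exact (Subgroup.mem_center_iff.mp this b).symm
  refine ⟨Finset.univ.filter (fun i => ∃ x ∈ N, x i ≠ 1), fun x => ⟨fun hx i hi => ?_, fun hx => ?_⟩⟩
  · by_contra hne
    exact hi (Finset.mem_filter.mpr ⟨Finset.mem_univ _, x, hx, hne⟩)
  · rw [← Finset.noncommProd_mulSingle x]
    apply Subgroup.noncommProd_mem
    intro i _
    by_cases hi : i ∈ Finset.univ.filter (fun i => ∃ x ∈ N, x i ≠ 1)
    · obtain ⟨-, y, hy, hyi⟩ := Finset.mem_filter.mp hi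
      have hnorm : (N.comap (MonoidHom.mulSingle (fun _ : ι => S) i)).Normal := inferInstance
      have hex : ∃ s : S, s * y i ≠ y i * s := by
        by_contra hcon
        push Not at hcon
        have : y i ∈ Subgroup.center S := Subgroup.mem_center_iff.mpr hcon
        rw [hcenter, Subgroup.mem_bot] at this
        exact hyi this
      obtain ⟨s, hs⟩ := hex
      have hmem : y * Pi.mulSingle i s * y⁻¹ * (Pi.mulSingle i s)⁻¹ ∈ N := by
        have h1 : Pi.mulSingle i s * y⁻¹ * (Pi.mulSingle i s)⁻¹ ∈ N :=
          ‹N.Normal›.conj_mem _ (N.inv_mem hy) _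
        have := N.mul_mem hy h1
        simpa [mul_assoc] using this
      have heq : y * Pi.mulSingle i s * y⁻¹ * (Pi.mulSingle i s)⁻¹ =
          Pi.mulSingle i (y i * s * (y i)⁻¹ * s⁻¹) := by
        funext j
        by_cases hj : j = i
        · subst hj
          simp
        · simp [Pi.mulSingle_eq_of_ne hj]
      rw [heq] at hmem
      have htop : N.comap (MonoidHom.mulSingle (fun _ : ι => S) i) = ⊤ := by
        refine hnorm.eq_bot_or_eq_top.resolve_left ?_
        intro hbot
        have h2 : y i * s * (y i)⁻¹ * s⁻¹ ∈ N.comap (MonoidHom.mulSingle (fun _ : ι => S) i) := hmem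
        rw [hbot, Subgroup.mem_bot] at h2
        apply hs
        have h3 : y i * s = s * y i := by
          have := congrArg (fun t => t * s * y i) h2
          simpa [mul_assoc] using this
        exact h3.symm
      have : x i ∈ N.comap (MonoidHom.mulSingle (fun _ : ι => S) i) := htop ▸ Subgroup.mem_top _
      exact this
    · rw [hx i hi, Pi.mulSingle_one]
      exact N.one_mem

/-- Let S be a non-abelian simple group and n a natural number. Every normal subgroup N of the direct power S^n (functions Fin n → S) is a subproduct: there is a set T of coordinates such that N consists exactly of the elements whose coordinates outside T are trivial. In particular the minimal normal subgroups of S^n are its n factors. -/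
theorem result {S : Type*} [Group S] [IsSimpleGroup S] (hS : ¬ IsMulCommutative S) (n : ℕ)
    (N : Subgroup (Fin n → S)) [N.Normal] :
    ∃ T : Finset (Fin n), ∀ x : Fin n → S, x ∈ N ↔ ∀ i, i ∉ T → x i = 1 := by
  exact general hS N

end Cfsg.Agent.S5913
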