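import Cfsg.Statements.S5914
import Cfsg.Agent.Lib.Helper65.CharSimple

set_option autoImplicit false
open Cfsg

namespace Cfsg.Agent.S5914

/-- shear automorphism of a power of a commutative group -/
def shear {S : Type*} [Group S] (hc : ∀ a b : S, a * b = b * a) {n : ℕ} (i : Fin n)
    (m : Fin n → ℤ) (hm : m i = 0) : (Fin n → S) ≃* (Fin n → S) where
  toFun g k := g k * g i ^ m k
  invFun g k := g k * g i ^ (- m k)
  left_inv g := by
    ext k
    simp [hm]
  right_inv g := by
    ext k
    simp [hm]
  map_mul' g h := by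
    ext k
    simp only [Pi.mul_apply]
    rw [(show Commute (g i) (h i) from hc _ _).mul_zpow]
    rw [mul_assoc, mul_assoc, hc (h k), mul_assoc, hc (h i ^ m k)]

theorem charSimple_pi {S : Type*} [Group S] [IsSimpleGroup S] {n : ℕ} (H : Subgroup (Fin n → S))
    (hH : ∀ ϕ : (Fin n → S) ≃* (Fin n → S), ∀ h ∈ H, ϕ h ∈ H) : H = ⊥ ∨ H = ⊤ := by
  classical
  by_cases hbot : H = ⊥
  · exact Or.inl hbot
  right
  have hnormal : H.Normal := ⟨fun h hh g => hH (MulAut.conj g) h hh⟩
  -- the subgroups T i
  let T : Fin n → Subgroup S := fun i => H.comap (MonoidHom.mulSingle (fun _ => S) i)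
  have hTn : ∀ i, (T i).Normal := fun i => hnormal.comap _
  -- some T i is nontrivial
  obtain ⟨h, hh, h1⟩ := (Subgroup.ne_bot_iff_exists_ne_one (H := H)).mp hbot |>.elim
    (fun x hx => (⟨x.1, x.2, fun h => hx (Subtype.ext h)⟩ : ∃ h, h ∈ H ∧ h ≠ 1))
  obtain ⟨i, hi⟩ : ∃ i, h i ≠ 1 := by
    by_contra hcon
    push Not at hcon
    exact h1 (funext hcon)
  have hTi : T i ≠ ⊥ := by
    by_cases hc : ∀ a b : S, a * b = b * a
    · -- commutative case: shear
      have hz : Subgroup.zpowers (h i) = ⊤ := by
        have hzn : (Subgroup.zpowers (h i)).Normal :=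
          ⟨fun x hx g => by rw [hc g x, mul_assoc, mul_inv_cancel, mul_one]; exact hx⟩
        rcases hzn.eq_bot_or_eq_top with hb | ht
        · exact absurd (Subgroup.zpowers_eq_bot.mp hb) hi
        · exact ht
      have hex : ∀ k, ∃ m : ℤ, h i ^ m = (h k)⁻¹ := by
        intro k
        have : (h k)⁻¹ ∈ Subgroup.zpowers (h i) := by rw [hz]; trivial
        exact Subgroup.mem_zpowers_iff.mp this
      choose m0 hm0 using hex
      let m : Fin n → ℤ := fun k => if k = i then 0 else m0 k
      have hmi : m i = 0 := by simp [m]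
      have hmem := hH (shear hc i m hmi) h hh
      have heq : shear hc i m hmi h = Pi.mulSingle i (h i) := by
        ext k
        show h k * h i ^ m k = _
        by_cases hk : k = i
        · subst hk; simp [m]
        · simp [m, hk, hm0, Pi.mulSingle_eq_of_ne hk]
      rw [heq] at hmem
      intro hb
      have : h i ∈ T i := hmem
      rw [hb, Subgroup.mem_bot] at this
      exact hi this
    · -- noncommutative case: commutator
      have hcen : Subgroup.center S = ⊥ := by
        rcases (inferInstance : (Subgroup.center S).Normal).eq_bot_or_eq_top with hb | ht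
        · exact hb
        · exfalso
          apply hc
          intro a b
          have : b ∈ Subgroup.center S := by rw [ht]; trivial
          exact (Subgroup.mem_center_iff.mp this a)
      obtain ⟨s, hs⟩ : ∃ s : S, s * h i ≠ h i * s := by
        by_contra hcon
        push Not at hcon
        have : h i ∈ Subgroup.center S := Subgroup.mem_center_iff.mpr hcon
        rw [hcen, Subgroup.mem_bot] at this
        exact hi this
      have hmem : h * (Pi.mulSingle i s * h⁻¹ * (Pi.mulSingle i s)⁻¹) ∈ H :=
        H.mul_mem hh (hnormal.conj_mem _ (H.inv_mem hh) _)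
      have heq : h * (Pi.mulSingle i s * h⁻¹ * (Pi.mulSingle i s)⁻¹)
          = Pi.mulSingle i (h i * (s * (h i)⁻¹ * s⁻¹)) := by
        ext k
        by_cases hk : k = i
        · subst hk; simp
        · simp [Pi.mulSingle_eq_of_ne hk]
      rw [heq] at hmem
      intro hb
      have : h i * (s * (h i)⁻¹ * s⁻¹) ∈ T i := hmem
      rw [hb, Subgroup.mem_bot] at this
      apply hs
      have h2 : h i * s * (h i)⁻¹ * s⁻¹ = 1 := by rw [← this]; group
      have h3 := mul_inv_eq_one.mp h2
      exact (mul_inv_eq_iff_eq_mul.mp h3).symm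
  have hTtop : T i = ⊤ := ((hTn i).eq_bot_or_eq_top).resolve_left hTi
  have hTall : ∀ j, T j = ⊤ := by
    intro j
    rw [eq_top_iff]
    intro s _
    have hs : s ∈ T i := by rw [hTtop]; trivial
    have hmem := hH (MulEquiv.arrowCongr (Equiv.swap i j) (MulEquiv.refl S)) _ hs
    have heq : MulEquiv.arrowCongr (Equiv.swap i j) (MulEquiv.refl S)
        (MonoidHom.mulSingle (fun _ => S) i s) = Pi.mulSingle j s := by
      ext k
      simp only [MulEquiv.arrowCongr, MulEquiv.coe_mk, Equiv.coe_fn_mk, MulEquiv.refl_apply,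
        MonoidHom.mulSingle_apply, Equiv.symm_swap]
      by_cases hk : k = j
      · subst hk; simp
      · rw [Pi.mulSingle_eq_of_ne hk, Pi.mulSingle_eq_of_ne]
        intro h'
        apply hk
        have := congrArg (Equiv.swap i j) h'
        simpa using this
    rw [heq] at hmem
    exact hmem
  rw [eq_top_iff, ← Subgroup.pi_top Set.univ, Subgroup.pi_le_iff]
  rintro j _ ⟨s, -, rfl⟩
  have : s ∈ T j := by rw [hTall j]; trivial
  exact this

/-- A non-trivial finite group G is characteristically simple (its only characteristic subgroups are 1 and G) if and only if G is isomorphic to a direct power S^n (n ≥ 1) of some simple group S (possibly cyclic of prime order). -/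
theorem result {G : Type*} [Group G] [Finite G] [Nontrivial G] :
    (∀ H : Subgroup G, H.Characteristic → H = ⊥ ∨ H = ⊤) ↔
    ∃ (S : Type) (_ : Group S) (_ : IsSimpleGroup S) (n : ℕ), 1 ≤ n ∧ Nonempty (G ≃* (Fin n → S)) := by
  constructor
  · intro hG
    obtain ⟨T, m, hT, hm, ⟨e⟩⟩ := Cfsg.Agent.Lib.Helper65.charSimple (N := G) (MonoidHom.id (MulAut G))
      (fun M _ hM => hG M (Subgroup.characteristic_iff_map_le.mpr fun ϕ => hM ϕ))
    obtain ⟨T', _, ⟨f⟩⟩ := Cfsg.Agent.Lib.Helper65.exists_type_copy T
    exact ⟨T', inferInstance, f.symm.isSimpleGroup, m, hm, ⟨e.trans (MulEquiv.piCongrRight fun _ => f)⟩⟩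
  · rintro ⟨S, _, _, n, -, ⟨e⟩⟩ H hH
    have hH' := Subgroup.characteristic_iff_le_comap.mp hH
    have key := charSimple_pi (H.map e.toMonoidHom) (by
      rintro ϕ _ ⟨h, hh, rfl⟩
      refine ⟨e.symm (ϕ (e h)), ?_, by simp⟩
      exact hH' ((e.trans ϕ).trans e.symm) hh)
    rcases key with hb | ht
    · left
      exact (Subgroup.map_eq_bot_iff_of_injective H e.injective).mp hb
    · right
      rw [eq_top_iff]
      intro g _
      have : e g ∈ H.map e.toMonoidHom := by rw [ht]; trivial
      obtain ⟨h, hh, hhe⟩ := this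
      have : h = g := e.injective hhe
      rwa [← this]

end Cfsg.Agent.S5914
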